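import Cfsg.Agent.Lib.APDefs
import Cfsg.Agent.Lib.BlkData

/-! The rank one quotients in the pushing up theorem for groups of characteristic 2 type. -/

set_option autoImplicit false
set_option linter.unusedSectionVars false

namespace Cfsg.Agent.Lib.AP0

open Cfsg Subgroup Cfsg.Agent.Lib.PCoreConj Cfsg.Agent.Lib.PCore Cfsg.Agent.Lib.PCoreResidual
  Cfsg.Agent.Lib.FTDefs Cfsg.Agent.Lib.SL2Nat
open scoped MatrixGroups

/-- The properties of `ℤ₃` and `SL₂(2ⁿ)` that are used. -/
structure XP (X : Type) [Group X] : Prop where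
  simple : ∀ N : Subgroup X, N.Normal → N = ⊥ ∨ N = ⊤
  umax : ∀ S : Subgroup X, IsSylowIn 2 S ⊤ → ∃ B, B ≠ ⊤ ∧ ∀ Y, S ≤ Y → Y ≠ ⊤ → Y ≤ B
  four : ∀ x : X, x ^ 4 = 1 → x ^ 2 = 1
  card : Nat.card X = 3 ∨ 6 < Nat.card X

theorem xp_three {X : Type} [Group X] (h : Nat.card X = 3) : XP X := by
  haveI : Fact (Nat.card X).Prime := ⟨h ▸ Nat.prime_three⟩
  haveI : Finite X := Nat.finite_of_card_ne_zero (by omega)
  haveI : Nontrivial X := Finite.one_lt_card_iff_nontrivial.1 (by omega)
  refine ⟨fun N _ => N.eq_bot_or_eq_top_of_prime_card, fun S _ => ⟨⊥, bot_ne_top, fun Y _ hY =>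
    (Y.eq_bot_or_eq_top_of_prime_card.resolve_right hY).le⟩, fun x hx => ?_, Or.inl h⟩
  have h3 : x ^ 3 = 1 := h ▸ pow_card_eq_one'
  rw [pow_succ, h3, one_mul] at hx
  rw [hx, one_pow]

theorem res_six {X : Type} [Group X] (h : Nat.card X = 6) : pResidual 2 X ≠ ⊤ := by
  haveI : Finite X := Nat.finite_of_card_ne_zero (by omega)
  haveI : Fact (Nat.Prime 3) := ⟨Nat.prime_three⟩
  obtain ⟨x, hx⟩ := exists_prime_orderOf_dvd_card' (G := X) 3 (by omega)
  have i : (zpowers x).index = 2 := by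
    have := card_mul_index (zpowers x)
    rw [Nat.card_zpowers, hx, h] at this
    omega
  intro e
  have : pResidual 2 X ≤ zpowers x := pResidual_le_iff.2 fun y hy =>
    mem_of_pow_mem_of_coprime hy (sq_mem_of_index_two i y)
  rw [e, top_le_iff] at this
  rw [this, index_top] at i
  omega

section
variable {F : Type} [Field F]

theorem top_of {Y : Subgroup SL(2, F)} [Finite F] (two : (2 : F) = 0) (hU : U F ≤ Y) {g : SL(2, F)}
    (hg : g ∈ Y) (h0 : g ∉ B F) : Y = ⊤ := by
  rw [mem_B] at h0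
  have d := det_eq g
  have lo : ∀ s, xl s ∈ Y := fun s => by
    have w := mul_mem (mul_mem (hU (xu_mem (-g.1 0 0 / g.1 1 0))) hg) (hU (xu_mem (-g.1 1 1 / g.1 1 0)))
    have := mul_mem (mul_mem w (hU (xu_mem (-s / g.1 1 0 ^ 2)))) (inv_mem w)
    convert this using 1
    rw [eq_mul_inv_iff_mul_eq]
    refine sl_ext ?_ ?_ ?_ ?_ <;> simp only [mul_apply', coe_xu, coe_xl, Matrix.of_apply, Matrix.cons_val_zero,
      Matrix.cons_val_one, Matrix.cons_val_fin_one, Matrix.cons_val'] <;> field_simp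
    all_goals first | ring1 | linear_combination s * d | linear_combination (-s) * d |
      linear_combination (g.1 1 0 * s) * d | linear_combination (-g.1 1 0 * s) * d |
      linear_combination (g.1 1 0) * d | linear_combination (-g.1 1 0) * d | trace_state
  have key : ∀ k : SL(2, F), k.1 1 0 ≠ 0 → k ∈ Y := fun k hk => by
    have d := det_eq k
    have := mul_mem (mul_mem (hU (xu_mem ((k.1 0 0 - 1) / k.1 1 0))) (lo (k.1 1 0)))
      (hU (xu_mem ((k.1 1 1 - 1) / k.1 1 0)))
    convert this using 1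
    refine sl_ext ?_ ?_ ?_ ?_ <;> simp only [mul_apply', coe_xu, coe_xl, Matrix.of_apply, Matrix.cons_val_zero,
      Matrix.cons_val_one, Matrix.cons_val_fin_one, Matrix.cons_val'] <;> field_simp
    all_goals first | ring1 | linear_combination (-1) * d | linear_combination d
  refine eq_top_iff.2 fun k _ => ?_
  by_cases hk : k.1 1 0 = 0
  · have := key (k * xl 1) (by
      have d := det_eq k
      simp only [mul_apply', coe_xl, hk, Matrix.of_apply, Matrix.cons_val_zero,
        Matrix.cons_val_one, Matrix.cons_val_fin_one, Matrix.cons_val', zero_mul, zero_add, mul_one]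
      intro e
      rw [hk, e] at d
      simp at d)
    simpa using mul_mem this (inv_mem (lo 1))
  · exact key k hk

theorem xp_sl [Fintype F] {n : ℕ} (hF : Fintype.card F = 2 ^ n) (hn : 2 ≤ n) : XP SL(2, F) := by
  haveI := charP_of_card 2 hF
  have two : (2 : F) = 0 := CharTwo.two_eq_zero
  have q4 : 4 ≤ 2 ^ n := by
    calc 4 = 2 ^ 2 := rfl
      _ ≤ 2 ^ n := Nat.pow_le_pow_right (by decide) hn
  have um : ∀ Y, U F ≤ Y → Y ≠ ⊤ → Y ≤ B F := fun Y h1 h2 g hg => by
    by_contra h
    exact h2 (top_of two h1 hg h)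
  refine ⟨fun N hN => ?_, fun S hS => ?_, fun x hx => ?_, Or.inr ?_⟩
  · by_cases h : N ⊔ U F = ⊤
    · right
      rw [eq_top_iff, ← Blk.comm_eq_top (F := F) (by rwa [Nat.card_eq_fintype_card, hF]), commutator_def, ← h]
      have c : ⁅U F, U F⁆ ≤ N := by
        haveI := U_comm (F := F)
        exact (commutator_eq_bot_iff_le_centralizer.2 (le_centralizer (U F))).le.trans bot_le
      have n : ∀ X : Subgroup SL(2, F), X ≤ N[N] := fun X => le_normalizer_of_normal
      refine commutator_sup_le (n _) (n _) (commutator_le_right _ _) ?_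
      rw [commutator_comm]
      exact commutator_sup_le (n _) (n _) (commutator_le_right _ _) c
    · left
      have l := le_sup_left.trans (um _ le_sup_right h)
      refine eq_bot_iff.2 fun g hg => mem_bot.2 ?_
      have e1 := mem_B.1 (l hg)
      have e2 := mem_B.1 (l (hN.conj_mem g hg wy))
      have e3 := mem_B.1 (l (hN.conj_mem g hg (xl 1)))
      have d := det_eq g
      simp only [mul_apply', inv_val, coe_wy, Matrix.of_apply, Matrix.cons_val_zero,
        Matrix.cons_val_one, Matrix.cons_val_fin_one, Matrix.cons_val', coe_xl] at e2 e3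
      replace e2 : g.1 0 1 = 0 := by linear_combination (-1) * e2
      rw [e1, e2] at e3
      rw [e1, mul_zero, sub_zero] at d
      have e4 : g.1 0 0 = g.1 1 1 := by linear_combination e3
      have e5 : (g.1 1 1 - 1) ^ 2 = 0 := by rw [e4] at d; linear_combination d + (1 - g.1 1 1) * two
      have e6 := sub_eq_zero.1 (pow_eq_zero_iff two_ne_zero |>.1 e5)
      exact sl_ext (by simp [e4, e6]) (by simp [e2]) (by simp [e1]) (by simp [e6])
  · obtain ⟨g, -, rfl⟩ := (U_isSylowIn (F := F) 2).exists_conj_eq hS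
    refine ⟨B F ^ᶜ g, fun e => B_isCoatom.1 (conj_eq_top_iff.1 e), fun Y h1 h2 => ?_⟩
    rw [le_conj_iff_conj_inv_le]
    exact um _ (conj_le_iff_le_conj_inv.1 h1) fun e => h2 (conj_eq_top_iff.1 e)
  · obtain ⟨h, t, e⟩ := exists_conj_eq_xu 2 (k := 2) hx
    have := xu_pow_char 2 t
    rw [← e, conj_pow, mul_inv_eq_one, mul_eq_left] at this
    exact this
  · rw [LinearOrders.card_SL2 hF]
    have : 16 ≤ (2 ^ n) ^ 2 := by nlinarith
    have : 15 ≤ (2 ^ n) ^ 2 - 1 := by omega
    nlinarith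

end

theorem alt_four {d : ℕ} (h : 6 ≤ d) : ∃ x : alternatingGroup (Fin d), x ^ 4 = 1 ∧ x ^ 2 ≠ 1 := by
  classical
  let f := Equiv.Perm.extendDomainHom (Equiv.ofInjective _ (Fin.castLE_injective h))
  let s : Equiv.Perm (Fin 6) := Equiv.swap 0 1 * Equiv.swap 1 2 * Equiv.swap 2 3 * Equiv.swap 4 5
  refine ⟨⟨f s, ?_⟩, Subtype.ext ?_, fun e => ?_⟩
  · rw [Equiv.Perm.mem_alternatingGroup]
    exact (Equiv.Perm.sign_extendDomain _ _).trans (by decide)
  · change f s ^ 4 = 1
    rw [← map_pow, show s ^ 4 = 1 by decide, map_one]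
  · have e' : f s ^ 2 = 1 := congrArg Subtype.val e
    rw [← map_pow, ← map_one f] at e'
    exact absurd (Equiv.Perm.extendDomainHom_injective _ e') (by decide)

variable {G : Type*} [Group G] [Finite G] {K W : Subgroup G}

theorem cent_bot (pW : IsPGroup 2 W) (hc : IsMulCommutative W) (WK : W ≤ K) (KN : K ≤ N[W])
    (h : ⁅W, K⁆ = W) (h3 : Nat.card K = 3 * Nat.card W) : W ⊓ C[K] = ⊥ := by
  haveI : Fact (Nat.Prime 3) := ⟨Nat.prime_three⟩
  obtain ⟨k, hk, o⟩ := exists_mem_orderOf_eq (H := K) (p := 3) (by omega)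
  have kK : zpowers k ≤ K := zpowers_le.2 hk
  have c : (Nat.card (zpowers k)).Coprime 2 := by rw [Nat.card_zpowers, o]; decide
  have e : zpowers k ⊔ W = K := by
    refine eq_of_le_of_card_le (sup_le kK WK) (le_of_eq ?_)
    have := card_sup_mul_card_inf (kK.trans KN)
    rw [inf_comm, inf_eq_bot_of_isPGroup_of_coprime pW c, card_bot, mul_one, Nat.card_zpowers, o] at this
    rw [h3, this]
  have l : ⁅W, K⁆ ≤ ⁅W, zpowers k⁆ := by
    have n : W ≤ N[⁅W, zpowers k⁆] := le_normalizer_of_le_centralizer ((le_centralizer W).trans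
      (centralizer_anti (commutator_le_left_of_le_normalizer (kK.trans KN))))
    rw [← e]
    exact commutator_sup_le (le_normalizer_commutator (kK.trans KN) le_normalizer) n le_rfl
      ((commutator_eq_bot_iff_le_centralizer.2 (le_centralizer W)).le.trans bot_le)
  rw [eq_bot_iff, ← cop_comm_inf_cent_of_comm hc (kK.trans KN) (coprime_card_of_isPGroup pW c)]
  exact inf_le_inf (h.ge.trans l) (centralizer_anti kK)

theorem char_map {G' : Type*} [Group G'] {f : G →* G'} (hf : Function.Injective f) {C B : Subgroup G}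
    (h1 : C ≤ B) (h2 : (C.subgroupOf B).Characteristic) : N[B.map f] ≤ N[C.map f] := by
  let ψ : B ≃* B.map f := equivMapOfInjective _ _ hf
  haveI : ((C.subgroupOf B).map ψ.toMonoidHom).Characteristic := characteristic_iff_map_le.2 fun φ => by
    rintro _ ⟨_, ⟨a, ha, rfl⟩, rfl⟩
    exact ⟨_, characteristic_iff_map_le.1 h2 (ψ.trans (φ.trans ψ.symm)) ⟨a, ha, rfl⟩, by simp⟩
  have e : ((C.subgroupOf B).map ψ.toMonoidHom).map (B.map f).subtype = C.map f := by
    ext x
    constructor
    · rintro ⟨_, ⟨a, ha, rfl⟩, rfl⟩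
      exact ⟨a, ha, rfl⟩
    · rintro ⟨a, ha, rfl⟩
      exact ⟨_, ⟨⟨a, h1 ha⟩, ha, rfl⟩, rfl⟩
  exact e ▸ normalizer_le_normalizer_map_subtype _

end Cfsg.Agent.Lib.AP0
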