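import Cfsg.Agent.Lib.AP1a

/-! Pushing up: the block is `A₄`. -/

set_option autoImplicit false

namespace Cfsg.Agent.Lib.AP1

open Cfsg Subgroup Cfsg.Agent.Lib.PCoreConj Cfsg.Agent.Lib.PCore Cfsg.Agent.Lib.FTDefs Cfsg.Agent.Lib.APR
  Cfsg.Agent.Lib.AP4 Cfsg.Agent.Lib.AP

universe u

variable {G : Type*} [Group G] [Finite G] {A K W T X Y : Subgroup G} {x : G}

omit [Finite G] in
theorem un (k : ∀ a ∈ A, a ∈ X ∨ a ∈ Y) : A ≤ X ∨ A ≤ Y := by
  by_contra! c
  obtain ⟨a, ha, a1⟩ := SetLike.not_le_iff_exists.1 c.1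
  obtain ⟨b, hb, b1⟩ := SetLike.not_le_iff_exists.1 c.2
  rcases k _ (mul_mem ha hb) with e | e
  · exact a1 ((X.mul_mem_cancel_right ((k b hb).resolve_right b1)).1 e)
  · exact b1 ((Y.mul_mem_cancel_left ((k a ha).resolve_left a1)).1 e)

omit [Finite G] in
theorem el_conj (h : ∀ a ∈ A, a * a = 1) (g : G) : ∀ a ∈ A ^ᶜ g, a * a = 1 := by
  rintro _ ⟨a, ha, rfl⟩
  rw [← map_mul, h a ha, map_one]

section
variable (h : St K W T x) (a : A3 K W)
include h a

omit [Finite G] h in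
theorem mid {L : Subgroup G} (h1 : W ≤ L) (h2 : L ≤ K) : L ≤ W ∨ K ≤ L := by
  have e := card_mul_relIndex (h1.trans h2)
  rw [a.1, a.2] at e
  have e2 := relIndex_mul_relIndex W L K h1 h2
  rw [show W.relIndex K = 3 by omega] at e2
  rcases (Nat.dvd_prime Nat.prime_three).1 (Dvd.intro _ e2) with k | k
  · exact .inl (relIndex_eq_one.1 k)
  · rw [k] at e2
    exact .inr (relIndex_eq_one.1 (by omega))

theorem CK : C[W] ⊓ K ≤ W :=
  (mid a (le_inf (show W ≤ C[W] from fun _ hu _ hv => ab h.eW hv hu) h.W_le) inf_le_right).resolve_right fun e =>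
    h.W_ne (h.WK.symm.trans (commutator_eq_bot_iff_le_centralizer'.2 (e.trans inf_le_left)))

theorem WC : W ⊓ C[K] = ⊥ := by
  have k : ∀ (_ : ⁅W, K⁆ ≤ W ⊓ C[K]), False := fun e => h.W_ne (h.WK.symm.trans
    (commutator_eq_bot_iff_le_centralizer.2 (h.WK.ge.trans (e.trans inf_le_right))))
  rcases LocFour.card_cases_of_le_four a.1 (inf_le_left : W ⊓ C[K] ≤ W) with e | e | e
  · exact e
  · refine (k (commutator_le.2 fun w hw k hk => ?_)).elim
    by_cases c : w ∈ W ⊓ C[K]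
    · rw [commutatorElement_eq_one_iff_mul_comm.2 (c.2 k hk).symm]; exact one_mem _
    have kn := le_normalizer_inf (le_normalizer.trans h.NKW) (le_normalizer_centralizer le_normalizer) hk
    have := ix2 inf_le_left (by rw [a.1, e]) hw (cj (h.NKW (le_normalizer hk)) (inv_mem hw)) c
      fun e => c (inv_mem_iff.1 ((mem_normalizer_iff.1 kn _).2 e))
    simpa only [commutatorElement_def, mul_assoc] using this
  · exact (k (h.WK.le.trans e.ge)).elim

theorem QD : T ⊓ C[W] = W ⊔ T ⊓ C[K] := by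
  have aW : W ≤ C[W] := fun _ hu _ hv => ab h.eW hv hu
  refine le_antisymm (fun q hq => ?_) (sup_le (le_inf h.WT aW) (inf_le_inf_left _ (centralizer_anti h.W_le)))
  obtain ⟨k, hk, kW⟩ := SetLike.not_le_iff_exists.1 (show ¬ K ≤ W from fun e => by
    have := Subgroup.card_le_of_le e; rw [a.1, a.2] at this; omega)
  have hK := (mid a le_sup_left (sup_le h.W_le (zpowers_le.2 hk))).resolve_left
    fun e => kW (e (mem_sup_right (mem_zpowers k)))
  have key : ∀ y1 y2 : G, y1⁻¹ * y2 ∈ C[W] → k * y1 * k⁻¹ * y1⁻¹ = k * y2 * k⁻¹ * y2⁻¹ → y1⁻¹ * y2 ∈ C[K] :=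
    fun y1 y2 e1 e2 => le_centralizer_iff.1 (hK.trans (sup_le (le_centralizer_iff.1 (zpowers_le.2 e1))
      (zpowers_le.2 (le_centralizer_iff.1 (zpowers_le.2 (LocFour.centralizer_zpowers k ▸
        mem_centralizer_singleton_iff.2 (by
          calc _ = y1⁻¹ * (k * y2 * k⁻¹ * y2⁻¹)⁻¹ * k * y2 := by group
            _ = _ := by rw [← e2]; group))) (mem_zpowers k))))) (mem_zpowers _)
  obtain ⟨y, e⟩ := (Finite.injective_iff_surjective (f := fun y : W => (⟨k * y * k⁻¹ * (y : G)⁻¹,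
    mul_mem (cj (h.NKW (le_normalizer hk)) y.2) (inv_mem y.2)⟩ : W))).1 (fun y1 y2 e => by
      have hm := mul_mem (inv_mem y1.2) y2.2
      have := (WC h a).le ⟨hm, key _ _ (aW hm) (congrArg Subtype.val e)⟩
      exact Subtype.ext (inv_mul_eq_one.1 (mem_bot.1 this)))
    ⟨k * q * k⁻¹ * q⁻¹, by simpa [commutatorElement_def, mul_assoc] using inv_mem (h.QK (commutator_mem_commutator hq hk))⟩
  rw [← mul_inv_cancel_left (y : G) q]
  exact mul_mem (mem_sup_left y.2) (mem_sup_right ⟨T.mul_mem (T.inv_mem (h.WT y.2)) hq.1,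
    key _ _ (mul_mem (inv_mem (aW y.2)) hq.2) (congrArg Subtype.val e)⟩)

theorem cQ : Nat.card ↥(T ⊓ C[W]) = 4 * Nat.card ↥(T ⊓ C[K]) := by
  have := card_sup_mul_card_inf (H := W) (N := T ⊓ C[K]) (h.WT.trans
    (le_normalizer_inf le_normalizer (le_normalizer_centralizer h.TK)))
  rwa [← QD h a, show W ⊓ (T ⊓ C[K]) = ⊥ from le_bot_iff.1 ((inf_le_inf_left _ inf_le_right).trans (WC h a).le),
    card_bot, a.1, mul_one] at this

theorem TS {P : Subgroup G} (hP : IsPGroup 2 P) (h1 : T ≤ P) (h2 : P ≤ N[K]) :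
    P ≤ T ∧ Nat.card T = 2 * Nat.card ↥(T ⊓ C[W]) := by
  have e := h.mx (C[W] ⊓ P) hP.to_inf_right (le_inf inf_le_right (inf_le_left.trans h1)) (inf_le_right.trans h2)
    (commutator_le.2 fun p hp k hk => CK h a <| mem_inf.2 ⟨by
      simpa only [commutatorElement_def, mul_assoc] using C[W].mul_mem hp.1 (cj (normalizer_le_normalizer_centralizer W
        (h.NKW (le_normalizer hk))) (C[W].inv_mem hp.1)), K.mul_mem (cj (h2 hp.2) hk) (K.inv_mem hk)⟩)
  have e1 := f3 hP (h.WT.trans h1) a.1 (h2.trans h.NKW) le_rfl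
  have e2 := half (inf_le_left : T ⊓ C[W] ≤ T) fun e => h.nc (h.UT.trans (e.trans inf_le_right))
  have e3 := Subgroup.card_le_of_le h1
  rw [e] at e1
  exact ⟨(eq_of_le_of_card_le h1 (by omega)).ge, by omega⟩

omit a in
theorem CQ : C[T ⊓ C[W]] ≤ T ⊓ C[W] := by
  have n1 : K ≤ N[pCoreOf 2 N[W]] := (le_normalizer.trans h.NKW).trans (le_normalizer_pCoreOf 2 _)
  have n2 : pCoreOf 2 N[W] ≤ N[K] := (pCoreOf_le 2 _).trans h.NWK
  have := h.mx (pCoreOf 2 N[W] ⊔ T ⊓ C[W]) (isPGroup_sup (pCoreOf_isPGroup 2 _) h.pT.to_inf_left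
    ((inf_le_left.trans (h.TK.trans h.NKW)).trans (le_normalizer_pCoreOf 2 _))) le_sup_right
    (sup_le n2 (inf_le_left.trans h.TK)) (by
      rw [commutator_comm]
      refine commutator_sup_le (pCoreOf_le 2 _) (inf_le_left.trans (h.TK.trans h.NKW)) ?_
        (by rw [commutator_comm]; exact h.QK)
      exact (le_inf (commutator_le_right_of_le_normalizer n1) (commutator_le_left_of_le_normalizer n2)).trans
        ((inf_le_pCoreOf n1 (pCoreOf_isPGroup 2 _)).trans h.W_eq.ge))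
  have e := le_sup_left.trans this.le
  exact (le_inf (centralizer_anti e) (le_normalizer_of_le_centralizer (centralizer_anti
    (le_inf h.WT fun _ hu _ hv => ab h.eW hv hu)))).trans ((h.loc W h.pW h.W_ne).trans e)

omit a [Finite G] in
theorem exwu : ∃ w ∈ W, ∃ u ∈ W ^ᶜ x, w * u ≠ u * w := by
  by_contra! c
  exact h.nc fun u hu w hw => c w hw u hu

theorem DU : T ⊓ C[K] ≤ C[W ^ᶜ x] := by
  obtain ⟨w, hw, u, hu, e⟩ := exwu h
  have k1 := half (inf_le_left : W ^ᶜ x ⊓ C[W] ≤ _) fun e => h.nc (e.trans inf_le_right)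
  have k2 := two_le (N := W ^ᶜ x ⊓ W) (t := w * u * w⁻¹ * u⁻¹) (mem_inf.2 ⟨mul_mem (cj (h.TU (h.WT hw)) hu) (inv_mem hu),
    by simpa only [mul_assoc] using mul_mem hw (cj (h.NKW (h.TK (h.UT hu))) (inv_mem hw))⟩)
    fun k => e (by rwa [mul_inv_eq_one, mul_inv_eq_iff_eq_mul] at k)
  rw [card_conj, a.1] at k1
  have k3 := eq_of_le_of_card_le (inf_le_inf_left (W ^ᶜ x) (show W ≤ C[W] from fun _ hu _ hv => ab h.eW hv hu))
    (by omega)
  rw [← commutator_eq_bot_iff_le_centralizer, ← le_bot_iff, ← WC h a]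
  have k4 := commutator_le_left_of_le_normalizer (h.UT.trans
    (le_normalizer_inf le_normalizer (le_normalizer_centralizer h.TK)))
  have k5 := commutator_le_right_of_le_normalizer ((inf_le_left : T ⊓ C[K] ≤ T).trans h.TU)
  exact le_inf ((le_inf k5 (k4.trans (inf_le_right.trans (centralizer_anti h.W_le)))).trans
    (k3.ge.trans inf_le_right)) (k4.trans inf_le_right)

end

instance instP1 : AP.P1.{u} := ⟨fun {G} _ _ {K W T x} h a => by
  obtain ⟨S, hS, TS'⟩ := exists_isSylowIn_ge le_top h.pT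
  refine sect hS fun A hA N _ sN => ?_
  have cQ := cQ h a
  have cT := (TS h a h.pT le_rfl h.TK).2
  have WQ : W ≤ T ⊓ C[W] := le_inf h.WT fun _ hu _ hv => ab h.eW hv hu
  by_cases hD : T ⊓ C[K] = ⊥
  · rw [hD, card_bot] at cQ
    have e := eq_of_le_of_card_le WQ (by rw [a.1]; omega)
    have := dih hS.isPGroup a.1 h.eW (h.WT.trans TS') (by have := CQ h; rwa [← e] at this) hA sN
    omega
  have SM : ∀ s ∈ S, s ∈ N[K] → s ∈ T := fun s h1 h2 => (TS h a (P := S ⊓ N[K]) hS.isPGroup.to_inf_left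
    (le_inf TS' h.TK) inf_le_right).1 ⟨h1, h2⟩
  have TD : T ≤ N[T ⊓ C[K]] := le_normalizer_inf le_normalizer (le_normalizer_centralizer h.TK)
  have TQ : T ≤ N[T ⊓ C[W]] := le_normalizer_inf le_normalizer (le_normalizer_centralizer (h.TK.trans h.NKW))
  have eQ' : (T ⊓ C[W]) ^ᶜ x = T ⊓ C[W ^ᶜ x] := by rw [conj_inf, h.Tx, conj_centralizer]
  have DQ : T ⊓ C[K] ≤ T ⊓ C[W] := inf_le_inf_left _ (centralizer_anti h.W_le)
  have DQ' : T ⊓ C[K] ≤ (T ⊓ C[W]) ^ᶜ x := eQ' ▸ le_inf inf_le_left (DU h a)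
  have D'Q : (T ⊓ C[K]) ^ᶜ x ≤ T ⊓ C[W] := le_inf ((conj_mono x inf_le_left).trans h.Tx.le) (by
    have := conj_mono x (DU h.symm a)
    rwa [conj_centralizer, conj_inv_conj] at this)
  have nD := h.uq _ h.pT.to_inf_left hD (sup_le (le_normalizer_of_le_centralizer (le_centralizer_iff.1 inf_le_right)) TD)
  have nQ := h.uq _ h.pT.to_inf_left (fun e => h.W_ne (le_bot_iff.1 (e ▸ WQ)))
    (sup_le (le_normalizer_of_commutator_le (h.QK.trans WQ)) TQ)
  have DD := h.DD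
  have QD := QD h a
  have cc : T ⊓ C[K] ≤ C[W] := DQ.trans inf_le_right
  obtain ⟨w, hw, u, hu, wu⟩ := exwu h
  have uQ : u ∉ T ⊓ C[W] := fun e => wu (e.2 w hw)
  have QT : T ⊓ C[W] ≤ T := inf_le_left
  generalize T ⊓ C[K] = D at *
  generalize T ⊓ C[W] = Q at *
  have Q'T : Q ^ᶜ x ≤ T := (conj_mono x QT).trans h.Tx.le
  have uQ' := conj_mono x WQ hu
  have k1 := half (inf_le_right : Q ⊓ Q ^ᶜ x ≤ _) fun e => uQ (e uQ').1
  have k2 := card_sup_mul_card_inf (H := D ^ᶜ x) (N := D) ((D'Q.trans QT).trans TD)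
  have k3 := Subgroup.card_le_of_le (sup_le (le_inf D'Q (conj_mono x DQ)) (le_inf DQ DQ'))
  have k4 := (one_lt_card_iff_ne_bot D).2 hD
  rw [inf_comm, DD, card_bot, card_conj] at k2
  rw [card_conj] at k1
  have cD : Nat.card D = 2 := by nlinarith
  have eQ : ∀ q ∈ Q, q * q = 1 := fun q hq => by
    obtain ⟨y, hy, d, hd, rfl⟩ := (mem_sup_iff_of_le_normalizer (h.WT.trans TD)).1 (QD.le hq)
    have : d * d = 1 := by
      simpa [cD, sq] using congrArg Subtype.val (pow_card_eq_one' (x := (⟨d, hd⟩ : D)))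
    rw [mul_assoc, ← mul_assoc d, ← cc hd y hy, mul_assoc, this, mul_one, h.eW y hy]
  have eQ' := el_conj eQ x
  have el : ∀ B ≤ T, (∀ b ∈ B, b * b = 1) → B ≤ Q ∨ B ≤ Q ^ᶜ x := fun B hB e => un fun t ht =>
    or_iff_not_imp_left.2 fun tn => by
      have hq := ix2 QT cT (hB ht) (h.UT hu) tn uQ
      have l1 := half (inf_le_left : Q ⊓ c[u] ≤ Q) fun e => wu (mem_centralizer_singleton_iff.1 (e (WQ hw)).2)
      have l2 := idx (L := Q ^ᶜ x) (k := 2) QT (by rw [inf_of_le_left Q'T, card_conj, cT])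
      have l3 := eq_of_le_of_card_le (show Q ^ᶜ x ⊓ Q ≤ Q ⊓ c[u] from fun y hy =>
        ⟨hy.2, mem_centralizer_singleton_iff.2 (ab eQ' hy.1 uQ')⟩) (by omega)
      refine (mul_mem_cancel_right uQ').1 (l3.ge ⟨hq, mem_centralizer_singleton_iff.2 ?_⟩).1
      rw [← mul_assoc, show u * t = t * u by
        rw [eq_inv_of_mul_eq_one_left (eQ _ hq), mul_inv_rev, inv_eq_of_mul_eq_one_right (e t ht),
          inv_eq_of_mul_eq_one_right (eQ' u uQ')]]
  have sw : ∀ s ∈ S ⊓ N[T], s ∉ T → Q ^ᶜ s = Q ^ᶜ x := fun s hs sn => eq_of_le_of_card_le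
    ((el _ (conj_le_of_mem_normalizer QT hs.2) (el_conj eQ s)).resolve_left fun e =>
      sn (SM s hs.1 (nQ (mem_normalizer_of_conj_le e)))) (by rw [card_conj, card_conj])
  have i1 := two (A := S ⊓ N[T]) (L := T) fun s hs t ht sn tn => SM _ (mul_mem (inv_mem hs.1) ht.1)
    (nQ (mem_normalizer_iff_conj_eq.2 (by rw [← conj_conj, sw t ht tn, ← sw s hs sn, conj_conj_inv])))
  have e8 : ∀ B ≤ S ⊓ N[T], (∀ b ∈ B, b * b = 1) → Nat.card B = 8 → B ≤ T := fun B hB e c b hb => by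
    by_contra bn
    have l1 := idx hB i1
    have l2 : ∀ y ∈ T ⊓ B, y ∈ Q ^ᶜ x ↔ y ∈ Q := fun y hy => by
      rw [← sw b (hB hb) bn, ← conj_mem_conj_iff (g := b) (H := Q), ab e hb hy.2, mul_inv_cancel_right]
    have l3 : T ⊓ B ≤ Q ⊓ Q ^ᶜ x := fun y hy => (el _ inf_le_left fun b hb => e b hb.2).elim
      (fun k => ⟨k hy, (l2 y hy).2 (k hy)⟩) fun k => ⟨(l2 y hy).1 (k hy), k hy⟩
    have l4 := (le_inf DQ DQ').trans (eq_of_le_of_card_le l3 (by omega)).ge
    exact bn (SM b (hB hb).1 (nD (centralizer_le_normalizer _ fun d hd => ab e (l4 hd).2 hb)))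
  have QQ := eq_of_le_of_card_le (sup_le QT Q'T) (by
    have := half (le_sup_left : Q ≤ Q ⊔ Q ^ᶜ x) fun e => uQ (e (mem_sup_right uQ'))
    omega)
  have c4 : S ≤ S ⊓ N[T] := by
    by_contra hn
    refine (lt_inf_normalizer hS.isPGroup (lt_of_le_not_ge inf_le_left hn)).not_ge fun g hg =>
      ⟨hg.1, mem_normalizer_of_conj_le ?_⟩
    have k : T ≤ S ⊓ N[T] := le_inf TS' le_normalizer
    nth_rw 1 [← QQ]
    rw [conj_sup]
    exact sup_le (e8 _ (conj_le_of_mem_normalizer (QT.trans k) hg.2) (el_conj eQ g) (by rw [card_conj]; omega))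
      (e8 _ (conj_le_of_mem_normalizer (Q'T.trans k) hg.2) (el_conj eQ' g) (by rw [card_conj, card_conj]; omega))
  have i2 := Subgroup.card_le_of_le c4
  have i3 := Subgroup.card_le_of_le (inf_le_left : T ⊓ (S ⊓ N[T]) ≤ T)
  have n1 : 1 ≤ Nat.card N := Nat.card_pos
  by_cases c : S ≤ A
  · have := two_le (com sN (c (TS' (h.WT hw))) (c (TS' (h.UT hu))))
      fun k => wu (by rwa [mul_inv_eq_one, mul_inv_eq_iff_eq_mul] at k)
    have := Subgroup.card_le_of_le hA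
    omega
  · have := half hA c
    omega⟩

end Cfsg.Agent.Lib.AP1
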