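import Cfsg.Agent.Lib.AP4
import Cfsg.Agent.Lib.LocFour

/-! A 2-group with a self-centralizing four-group. -/

set_option autoImplicit false

namespace Cfsg.Agent.Lib.AP1

open Cfsg Subgroup Cfsg.Agent.Lib.PCoreConj Cfsg.Agent.Lib.PCore Cfsg.Agent.Lib.FTDefs Cfsg.Agent.Lib.APR
  Cfsg.Agent.Lib.AP4

variable {G : Type*} [Group G] [Finite G] {A N S W X : Subgroup G}

theorem ix2 (h : X ≤ W) (hc : Nat.card W = 2 * Nat.card X) {a b : G} (ha : a ∈ W) (hb : b ∈ W) (a1 : a ∉ X)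
    (b1 : b ∉ X) : a * b ∈ X :=
  (mul_mem_iff_of_index_two (H := X.subgroupOf W) (Nat.eq_of_mul_eq_mul_left Nat.card_pos
    ((card_mul_relIndex h).trans (hc.trans (mul_comm _ _)))) (a := ⟨a, ha⟩) (b := ⟨b, hb⟩)).2 (iff_of_false a1 b1)

theorem dih (hS : IsPGroup 2 S) (cW : Nat.card W = 4) (eW : ∀ w ∈ W, w * w = 1) (WS : W ≤ S) (hC : C[W] ≤ W)
    (hA : A ≤ S) (hN : ∀ a ∈ A, a * a ∈ N) : Nat.card A ≤ 8 * Nat.card N := by
  obtain ⟨z, hz, z1⟩ := SetLike.not_le_iff_exists.1 (le_bot_iff.not.2 (inf_centralizer_ne_bot hS hS le_normalizer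
    fun e => by rw [e, le_bot_iff] at WS; simp [WS] at cW))
  rw [mem_bot] at z1
  have zW : z ∈ W := hC (centralizer_anti WS hz.2)
  have cZ : Nat.card (zpowers z) = 2 := by
    rw [Nat.card_zpowers, orderOf_eq_prime (by rw [sq, eW z zW]) z1]
  obtain ⟨w, hw, wz⟩ := SetLike.not_le_iff_exists.1 (show ¬ W ≤ zpowers z from fun e => by
    have := Subgroup.card_le_of_le e; omega)
  have ww := eW w hw
  have wi := inv_eq_of_mul_eq_one_right ww
  have hW : ∀ y ∈ W, y ∈ zpowers z ∨ y * w ∈ zpowers z := fun y hy =>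
    or_iff_not_imp_left.2 fun e => ix2 (zpowers_le.2 zW) (by omega) hy hw e wz
  have hc : ∀ s ∈ S, s * w = w * s → s ∈ W := fun s hs e => hC fun y hy => by
    have k : zpowers z ≤ c[s] := zpowers_le.2 (mem_centralizer_singleton_iff.2 (hz.2 s hs).symm)
    have k1 := mem_centralizer_singleton_iff.2 e.symm
    exact mem_centralizer_singleton_iff.1 ((hW y hy).elim (k ·) fun e => (mul_mem_cancel_right k1).1 (k e))
  obtain ⟨c, ⟨cS, zc, wc, ci⟩, mx⟩ := Set.Finite.exists_maximalFor zpowers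
    {c | c ∈ S ∧ z ∈ zpowers c ∧ w ∉ zpowers c ∧ w * c * w⁻¹ = c⁻¹} (Set.toFinite _)
    ⟨z, hz.1, mem_zpowers z, wz, by rw [ab eW hw zW, mul_inv_cancel_right, inv_eq_of_mul_eq_one_right (eW z zW)]⟩
  have iv : ∀ k : ℤ, w * c ^ k * w⁻¹ = (c ^ k)⁻¹ := fun k => by rw [← conj_zpow, ci, inv_zpow]
  have inv : ∀ y ∈ zpowers c, y * y = 1 → y ∈ zpowers z := by
    rintro _ ⟨k, rfl⟩ e
    have := iv k
    rw [inv_eq_of_mul_eq_one_right e, mul_inv_eq_iff_eq_mul] at this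
    exact (hW _ (hc _ (zpow_mem cS k) this.symm)).resolve_right fun e =>
      wc ((mul_mem_cancel_left (zpow_mem_zpowers c k)).1 (zpowers_le.2 zc e))
  let D := zpowers c ⊔ zpowers w
  have wn : zpowers w ≤ N[zpowers c] := zpowers_le.2 (mem_normalizer_of_conj_le (by
    rw [conj_zpowers, ci, zpowers_inv]))
  have wD : w ∈ D := mem_sup_right (mem_zpowers w)
  have WD : W ≤ D := fun y hy => (hW y hy).elim (fun e => mem_sup_left (zpowers_le.2 zc e))
    fun e => (mul_mem_cancel_right wD).1 (mem_sup_left (zpowers_le.2 zc e))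
  have c1 : ∀ g ∈ S ⊓ N[D], g * w * g⁻¹ * w ∈ zpowers c := fun g hg => by
    obtain ⟨a, ha, b, hb, e⟩ := (mem_sup_iff_of_le_normalizer' wn).1 (cj hg.2 wD)
    rcases LocFour.eq_one_or_eq_of_mem_zpowers (by rw [sq, ww]) hb with rfl | rfl
    · rw [mul_one] at e
      have := inv a ha (by rw [e, conj_mul, ww]; simp)
      have k := centralizer_anti (zpowers_le.2 hg.1) hz.2
      rw [← conj_eq_of_mem_centralizer (le_centralizer_iff.1 (zpowers_le.2 k) (mem_zpowers g)), e] at this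
      exact absurd (conj_mem_conj_iff.1 this) wz
    · rwa [← e, mul_assoc, ww, mul_one]
  have c2 := fibc (B := S ⊓ N[D]) (A := W) (fun g => (⟨_, c1 g g.2⟩ : zpowers c)) fun a b e =>
    hc _ (mul_mem (inv_mem a.2.1) b.2.1) (by
      have e1 : (a : G) * w * (a : G)⁻¹ = b * w * (b : G)⁻¹ := mul_right_cancel (congrArg Subtype.val e)
      calc _ = (a : G)⁻¹ * (b * w * (b : G)⁻¹) * b := by group
        _ = _ := by rw [← e1]; group)
  have c3 : ∀ t ∈ S ⊓ N[D], t * t = 1 → t ∈ D := fun t ht tt => by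
    by_contra tn
    obtain ⟨k, hk⟩ := mem_zpowers_iff.1 (c1 t ht)
    obtain ⟨j, rfl | rfl⟩ := Int.even_or_odd' k
    · refine tn ((mul_mem_cancel_left (mem_sup_left (inv_mem (zpow_mem_zpowers c j)))).1 (WD (hc _
        (mul_mem (inv_mem (zpow_mem cS j)) ht.1) ?_)))
      calc _ = (c ^ j)⁻¹ * (t * w * t⁻¹ * w) * w⁻¹ * t := by group
        _ = (c ^ (-j))⁻¹ * w⁻¹ * t := by rw [← hk]; group
        _ = _ := by rw [← iv, wi, mul_assoc _ w w, ww]; group
    have e : (t * w) ^ 2 = c ^ (2 * j + 1) := by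
      rw [hk, inv_eq_of_mul_eq_one_right tt, sq, mul_assoc (t * w)]
    have k1 : zpowers c ≤ zpowers (t * w) := zpowers_le.2 (zpowers_le.2 (e ▸ npow_mem_zpowers (t * w) 2)
      (mem_zpowers_zpow_iff.2 (by
        obtain ⟨m, hm⟩ := IsPGroup.iff_orderOf.1 hS ⟨c, cS⟩
        rw [← orderOf_coe] at hm
        rw [hm]
        exact Int.isCoprime_iff_gcd_eq_one.1 (by push_cast; exact IsCoprime.pow_right ⟨1, -j, by ring⟩))))
    refine tn ((mul_mem_cancel_right wD).1 (mem_sup_left (mx ⟨mul_mem ht.1 (WS hw), k1 zc, fun e => tn (WD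
      (hc t ht.1 ?_)), by rw [mul_inv_rev, wi, inv_eq_of_mul_eq_one_right tt, mul_assoc, mul_assoc, ww, mul_one]⟩
      k1 (mem_zpowers _))))
    obtain ⟨m, hm⟩ := mem_zpowers_iff.1 e
    have := ((Commute.refl (t * w)).zpow_left m).eq
    rw [hm, ← mul_assoc] at this
    exact (mul_right_cancel this).symm
  have c4 : S ≤ S ⊓ N[D] := by
    by_contra hn
    refine (lt_inf_normalizer hS (lt_of_le_not_ge inf_le_left hn)).not_ge fun g hg =>
      ⟨hg.1, mem_normalizer_of_conj_le ?_⟩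
    have k : ∀ y ∈ D, y * y = 1 → g * y * g⁻¹ ∈ D := fun y hy e => c3 _ (cj hg.2 ⟨sup_le (zpowers_le.2 cS)
      (zpowers_le.2 (WS hw)) hy, le_normalizer hy⟩) (by rw [conj_mul, e]; simp)
    rw [conj_sup, conj_zpowers, conj_zpowers]
    refine sup_le (zpowers_le.2 ?_) (zpowers_le.2 (k w wD ww))
    have := mul_mem (k w wD ww) (k (w * c) (mul_mem wD (mem_sup_left (mem_zpowers c))) (by
      nth_rw 2 [← wi]; rw [← mul_assoc, ci, inv_mul_cancel]))
    rwa [conj_mul, ← mul_assoc w, ww, one_mul] at this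
  have c5 := idx (L := zpowers c) (k := 4) hA (by
    rw [inf_of_le_left (zpowers_le.2 cS), mul_comm, ← cW]; exact (Subgroup.card_le_of_le c4).trans c2)
  have c6 := fibc (B := zpowers c ⊓ A) (A := zpowers z) (fun a => (⟨_, hN a a.2.2⟩ : N)) fun a b e => by
    have e1 : (a : G) * a = b * b := congrArg Subtype.val e
    obtain ⟨i, hi⟩ := mem_zpowers_iff.1 a.2.1
    obtain ⟨j, hj⟩ := mem_zpowers_iff.1 b.2.1
    refine inv _ (mul_mem (inv_mem a.2.1) b.2.1) ?_
    calc _ = ((a : G) * a)⁻¹ * (b * b) := by rw [← hi, ← hj]; group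
      _ = 1 := by rw [e1, inv_mul_cancel]
  rw [cZ] at c6
  omega

end Cfsg.Agent.Lib.AP1
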