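import Mathlib

/-! Finite checks on the even weight module of the symmetric group of degree 5. -/

set_option autoImplicit false
set_option maxRecDepth 100000
set_option synthInstance.maxSize 4000

namespace Cfsg.Agent.Lib.AP2

open Equiv Equiv.Perm

abbrev V := Fin 5 → ZMod 2
abbrev S5 := Perm (Fin 5)

def act (σ : S5) (a : V) : V := fun i => a (σ⁻¹ i)
def e (i : Fin 5) : V := fun j => if j = i then 1 else 0
/-- constant vectors -/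
def Z (a : V) : Prop := a = 0 ∨ a = 1
instance (a : V) : Decidable (Z a) := inferInstanceAs (Decidable (_ ∨ _))
/-- fixed modulo constants -/
abbrev Fx (σ : S5) (a : V) : Prop := Z (act σ a + a)
/-- double transpositions -/
def dt (σ : S5) : Prop := σ ≠ 1 ∧ σ * σ = 1 ∧ sign σ = 1
instance (a : S5) : Decidable (dt a) := inferInstanceAs (Decidable (_ ∧ _))
def s1 : S5 := swap 0 1
def s2 : S5 := swap 2 3
def s3 : S5 := swap 0 2 * swap 1 3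
def v0 : V := e 0 + e 1
def w0 : V := e 2 + e 4

theorem act_e (σ : S5) (i : Fin 5) : act σ (e i) = e (σ i) := funext fun j => by
  simp only [act, e, Perm.inv_eq_iff_eq]
theorem act_add (σ : S5) (a b : V) : act σ (a + b) = act σ a + act σ b := rfl
theorem act_mul (σ τ : S5) (a : V) : act (σ * τ) a = act σ (act τ a) := rfl
theorem act_one (a : V) : act 1 a = a := rfl
theorem sum_act (σ : S5) (a : V) : ∑ i, act σ a i = ∑ i, a i := Equiv.sum_comp σ⁻¹ a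
theorem aa : ∀ a : V, a + a = 0 := by decide +kernel
theorem Z_act {σ : S5} {a : V} : Z (act σ a) ↔ Z a :=
  have k : ∀ (σ : S5) a, Z a → Z (act σ a) := fun _ _ h => by
    rcases h with rfl | rfl
    exacts [.inl rfl, .inr rfl]
  ⟨fun h => by simpa only [← act_mul, inv_mul_cancel, act_one] using k σ⁻¹ _ h, k _ _⟩
theorem dt_conj {σ : S5} (τ : S5) (h : dt σ) : dt (τ * σ * τ⁻¹) :=
  ⟨fun k => h.1 (by simpa using k), by rw [conj_mul, h.2.1]; simp, by simp [h.2.2]⟩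
theorem p8 {σ : S5} {k : ℕ} (h : σ ^ 2 ^ k = 1) : σ ^ 8 = 1 :=
  orderOf_dvd_iff_pow_eq_one.1 ((Nat.Coprime.coprime_dvd_left (orderOf_dvd_of_pow_eq_one h)
    (Nat.Coprime.pow_left k (by decide : Nat.Coprime 2 15))).dvd_of_dvd_mul_right (by
      simpa [Fintype.card_perm, Nat.factorial] using orderOf_dvd_card (x := σ)))

theorem d_faith : ∀ σ : S5, (∀ a : V, ∑ i, a i = 0 → act σ a = a) → σ = 1 := by decide +kernel
theorem d_ee : ∀ i j, Z (e i + e j) → i = j := by decide +kernel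
theorem d_a4 : ∀ (σ : S5) (i : Fin 5), σ i = i → sign σ = 1 → σ ^ 3 = 1 ∨
    ∃ τ : S5, τ i = i ∧ sign τ = 1 ∧ τ ^ 3 = 1 ∧ (σ * τ) ^ 3 = 1 := by decide +kernel
theorem d_tr : ∀ i : Fin 5, ∃ σ : S5, sign σ = 1 ∧ σ 0 = i := by decide +kernel
theorem d_psi : ∀ a : V, ∑ i, (a i).val • (e i + 1) = a + fun _ => ∑ i, a i := by decide +kernel
theorem d_ker : ∀ a : V, (a + fun _ => ∑ i, a i) = 0 ↔ Z a := by decide +kernel
theorem d_se : ∀ j, (e j + fun _ => ∑ i, e j i) = e j + 1 := by decide +kernel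
theorem d_ev : ∀ a : V, ∑ i, a i = 0 → Z a → a = 0 := by decide +kernel
theorem d_sing : ∀ b : V, (∃ j, Z (b + e j)) ∨ ∃ σ : S5, Z (b + act σ b + act σ (act σ b)) ∧ sign σ = 1 := by
  decide +kernel
theorem d_3 : ∀ i j k, ¬ Z (e i + e j + e k) := by decide +kernel
theorem d_V4 : ∀ a ∈ [1, s1 * s2, s3, s1 * s2 * s3], a * a = 1 ∧ a⁻¹ ∈ [1, s1 * s2, s3, s1 * s2 * s3] ∧
    ∀ b ∈ [1, s1 * s2, s3, s1 * s2 * s3], a * b ∈ [1, s1 * s2, s3, s1 * s2 * s3] := by decide +kernel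
theorem d_dt : dt (s1 * s2) ∧ dt s3 ∧ dt (s1 * s2 * s3) := by decide +kernel
theorem d_A1 : ∀ s, dt s → ∀ t, dt t → dt (s * t) → ∀ σ : S5, σ * σ = 1 → σ ≠ 1 →
    σ * (s * σ * s⁻¹) * (σ * (s * σ * s⁻¹)) = 1 → dt σ ∨ dt (σ * (s * σ * s⁻¹)) ∨ dt (σ * (t * σ * t⁻¹)) := by
  decide +kernel
theorem d_A1b : ∀ s, dt s → ∃ i j, ¬ Fx s (e i) ∧ ¬ Fx s (e j) ∧ ¬ Fx s (e i + e j) := by
  decide +kernel
theorem d_A2 : ∀ s : S5, s ≠ 1 → s * s = 1 → ∀ t : S5, t ≠ 1 → t * t = 1 → s * t ≠ 1 → s * t * (s * t) = 1 →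
    (∀ i, Fx t (act s (e i) + e i)) → ∃ p ∈ [(s, t), (s, s * t), (t, s * t)], sign p.1 ≠ 1 ∧ sign p.2 ≠ 1 := by
  decide +kernel
theorem d_A3 : ∀ s : S5, s * s = 1 → sign s ≠ 1 → ∀ t : S5, t * t = 1 → sign t ≠ 1 → s * t ≠ 1 → s * t * (s * t) = 1 →
    ∃ τ : S5, τ * s * τ⁻¹ = s1 ∧ τ * t * τ⁻¹ = s2 := by
  decide +kernel
theorem d_T : ∀ σ : S5, (∀ a ∈ [s1, s2], ∀ b ∈ [s1, s2], σ * a * σ⁻¹ * b = b * (σ * a * σ⁻¹)) → σ 4 = 4 := by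
  decide +kernel
theorem d_V : ∀ s, dt s → s 4 = 4 → ∀ t, dt t → t 4 = 4 → dt (s * t) → s = s3 ∨ t = s3 ∨ s * t = s3 := by
  decide +kernel
theorem d_a : ∀ a, Fx s1 a → Fx s2 a → Fx s3 a → Z a ∨ Z (a + e 4) := by decide +kernel
theorem d_y : ∃ τ : S5, sign τ = 1 ∧ τ 4 = 4 ∧ s1 * (τ * s1 * τ⁻¹) * (s1 * (τ * s1 * τ⁻¹)) ≠ 1 := by decide +kernel
theorem d_b1 : ∀ i, i ≠ 0 → i ≠ 1 → ∃ τ, Fx τ (e i) ∧ sign τ = 1 ∧ (s1 * (τ * s1 * τ⁻¹)) ^ 8 ≠ 1 := by decide +kernel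
theorem d_b2 : ∀ i, i ≠ 0 → i ≠ 1 → ∀ σ, Fx σ (e i) → σ ≠ 1 → ∃ τ, Fx τ (e i) ∧ sign τ = 1 ∧
    ¬ Fx s1 (act (τ * σ * τ⁻¹) (e 0) + e 0) := by decide +kernel
theorem d_L1 : ∀ a, ¬ Z a → (∀ j, ¬ Z (a + e j)) → ∃ τ, Fx τ a ∧ τ * τ ≠ 1 ∧ sign τ = 1 ∧ ∀ σ, Fx σ a →
    (σ * (τ * σ * τ⁻¹)) ^ 8 = 1 → ∀ b, Fx σ b ∨ Z (act σ b + b + a) := by
  decide +kernel
theorem d_L2 : ∀ σ, (∀ b, Fx σ b ∨ Z (act σ b + b + v0)) → σ = 1 ∨ σ = s1 := by decide +kernel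
theorem d_ns : ∀ σ a, Z (act σ a + a + e 4) → ¬ Z a ∧ ∀ j, ¬ Z (a + e j) := by decide +kernel
theorem d_c : ∀ c, Fx s1 c → Z c ∨ Z (c + v0) ∨ ∃ τ, Fx τ v0 ∧ sign τ = 1 ∧
    (Z (act τ c + w0) ∨ Z (act τ c + v0 + w0)) := by decide +kernel

end Cfsg.Agent.Lib.AP2
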