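import Mathlib
import Cfsg.Prelude.Def_BaumannBlocks
import Cfsg.Prelude.Def_Quasithin
import Cfsg.Agent.Lib.FTBase5

/-!
Interfaces for the pushing up theorem in groups of characteristic 2 type (S3090). Plan: `notes/AP_plan.md`.
-/

set_option autoImplicit false
set_option linter.unusedSectionVars false

namespace Cfsg.Agent.Lib.AP

open Cfsg Subgroup Cfsg.Agent.Lib.PCoreConj Cfsg.Agent.Lib.PCore Cfsg.Agent.Lib.PCoreResidual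
  Cfsg.Agent.Lib.FTDefs

universe u

/-- All 2-local subgroups have characteristic 2. -/
def Loc (G : Type*) [Group G] : Prop :=
  ∀ X : Subgroup G, IsPGroup 2 X → X ≠ ⊥ → C[pCoreOf 2 N[X]] ⊓ N[X] ≤ pCoreOf 2 N[X]

section
variable {G : Type*} [Group G]

/-- The block `K = O²(H)` of `H = K T` with `W = O₂(K)`; `O₂(H) = T ⊓ C[W]`; `W ^ x` does not centralize `W`. -/
structure St (K W T : Subgroup G) (x : G) : Prop where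
  loc : Loc G
  TK : T ≤ N[K]
  syl : IsSylowIn 2 T (K ⊔ T)
  W_eq : W = pCoreOf 2 K
  eW : ∀ w ∈ W, w * w = 1
  WK : ⁅W, K⁆ = W
  odd : ∀ L : Subgroup G, (∀ k ∈ K, Odd (orderOf k) → k ∈ L) → K ≤ L
  QK : ⁅T ⊓ C[W], K⁆ ≤ W
  mx : ∀ P : Subgroup G, IsPGroup 2 P → T ⊓ C[W] ≤ P → P ≤ N[K] → ⁅P, K⁆ ≤ W → P = T ⊓ C[W]
  uq : ∀ X : Subgroup G, IsPGroup 2 X → X ≠ ⊥ → K ⊔ T ≤ N[X] → N[X] ≤ N[K]
  xT : x ∈ N[T]
  nc : ¬ W ^ᶜ x ≤ C[W]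

/-- `K ≅ A₄` -/
def A3 (K W : Subgroup G) : Prop := Nat.card W = 4 ∧ Nat.card K = 12

/-- `K / W ≅ A₅` acting on the even weight module -/
def A5 (K W : Subgroup G) : Prop :=
  ActsAsOddPermModuleOnSection 5 (alternatingGroup (Fin 5)) K W (W ⊓ C[K]) ∧ Nat.card K = 60 * Nat.card W

/-- `K / W ≅ SL₂(2ᵐ)` acting on the natural module, `m ≥ 2` -/
def NatM (K W : Subgroup G) : Prop :=
  ∃ (F : Type) (_ : Field F) (_ : Fintype F) (m : ℕ), 2 ≤ m ∧ Fintype.card F = 2 ^ m ∧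
    ActsAsSL2OnSection F ⊤ K W (W ⊓ C[K]) ∧
    Nat.card K = Nat.card (Matrix.SpecialLinearGroup (Fin 2) F) * Nat.card W

/-- One side of the natural configuration: `K / W ≅ SL₂(q)`, `D = W ⊓ C[K]`, `W / D` natural, `W ⊔ U` Sylow in `K`,
`Y = W ⊓ U` with `Y / D` the fixed line, `C` a torus, `n` a Weyl element. -/
structure Hf (q : ℕ) (K W U C : Subgroup G) (n : G) : Prop where
  eW : ∀ w ∈ W, w * w = 1
  WK : W ≤ K
  UK : U ≤ K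
  KN : K ≤ N[W]
  NK : N[W] ≤ N[K]
  WU : W ≤ N[U]
  DU : W ⊓ C[K] ≤ U
  cW : Nat.card W = q * Nat.card ↥(W ⊓ U)
  cY : Nat.card ↥(W ⊓ U) = q * Nat.card ↥(W ⊓ C[K])
  nd : ∀ w ∈ W, w ∉ U → ∀ u ∈ U, u ∉ W → w * u * w⁻¹ * u⁻¹ ∉ C[K]
  mx : ∀ P : Subgroup G, IsPGroup 2 P → P ≤ N[W] → K ≤ N[P] → P ≤ W
  cw : C[W] ≤ W
  CK : C ≤ K ⊓ N[U]
  cyc : IsCyclic C
  cC : Nat.card C + 1 = q
  bor : K ⊓ N[U] ≤ (W ⊔ U) ⊔ C
  t1 : ∀ a ∈ W ⊓ U, a ∉ C[K] → ∀ b ∈ W ⊓ U, b ∉ C[K] → ∃ c ∈ C, c * a * c⁻¹ * b⁻¹ ∈ C[K]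
  t2 : ∀ a ∈ W, a ∉ U → ∀ b ∈ W, b ∉ U → ∃ c ∈ C, c * a * c⁻¹ * b⁻¹ ∈ U
  t3 : ∀ a ∈ U, a ∉ W → ∀ b ∈ U, b ∉ W → ∃ c ∈ C, c * a * c⁻¹ * b⁻¹ ∈ W
  s1 : ∀ c ∈ C, ∀ a ∈ W ⊓ U, a ∉ C[K] → c * a * c⁻¹ * a⁻¹ ∈ C[K] → c = 1
  s2 : ∀ c ∈ C, ∀ a ∈ W, a ∉ U → c * a * c⁻¹ * a⁻¹ ∈ U → c = 1
  s3 : ∀ c ∈ C, ∀ a ∈ U, a ∉ W → c * a * c⁻¹ * a⁻¹ ∈ W → c = 1
  cent : ∀ g ∈ N[W] ⊓ N[U], (∃ k, g ^ 2 ^ k = 1) → (∀ y ∈ W ⊓ U, g * y * g⁻¹ * y⁻¹ ∈ C[K]) → g ∈ W ⊔ U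
  ti : ∀ P : Subgroup G, IsPGroup 2 P → P ≤ N[W] → ∀ t ∈ P, t ∈ U → t ∉ W → P ≤ N[U]
  nK : n ∈ K
  nY : (W ⊓ U) ⊓ (W ⊓ U) ^ᶜ n ≤ C[K]
  nN : N[W] ⊓ N[U] ⊓ N[C] ≤ N[U ^ᶜ n]
  hua : 4 < q → ∀ E : Subgroup G, W ⊓ U ≤ E → E ≤ W ⊔ U → C ≤ N[E] → ¬ E ≤ W ⊓ U → W ≤ E ∨ U ≤ E

/-- The natural configuration with the swapping element `x`. -/
structure Cf (q : ℕ) (K W U C : Subgroup G) (n x : G) : Prop where
  loc : Loc G
  q2 : ∃ m, 2 ≤ m ∧ q = 2 ^ m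
  hf : Hf q K W U C n
  xW : W ^ᶜ x = U
  xU : U ^ᶜ x = W
  DD : (W ⊓ C[K]) ⊓ (W ⊓ C[K]) ^ᶜ x = ⊥

end

/-- extraction of the block from the hypotheses of S3090 -/
class P0 : Prop where
  out : ∀ {G : Type u} [Group G] [Finite G] (_ : Cfsg.IsCharacteristicTwoType G)
    (H : Subgroup G) (T : Sylow 2 ↥H)
    (_ : Nonempty (↥(Cfsg.oddGenerated H) ⧸ Cfsg.pCore 2 ↥(Cfsg.oddGenerated H) ≃* Multiplicative (ZMod 3)) ∨
      ∃ n : ℕ, 1 ≤ n ∧ Nonempty (↥(Cfsg.oddGenerated H) ⧸ Cfsg.pCore 2 ↥(Cfsg.oddGenerated H) ≃*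
        Matrix.SpecialLinearGroup (Fin 2) (GaloisField 2 n)))
    (_ : ∀ S : Subgroup G, IsPGroup 2 ↥S → (Cfsg.pCore 2 ↥H).map H.subtype ≤ S →
      S ≤ Subgroup.normalizer (Cfsg.oddGenerated H : Set G) →
      (∀ s ∈ S, ∀ k ∈ Cfsg.oddGenerated H, s * k * s⁻¹ * k⁻¹ ∈
        (Cfsg.pCore 2 ↥(Cfsg.oddGenerated H)).map (Cfsg.oddGenerated H).subtype) →
      S = (Cfsg.pCore 2 ↥H).map H.subtype)
    (_ : Cfsg.maxTwoLocalsContaining H = {Subgroup.normalizer (Cfsg.oddGenerated H : Set G)}),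
    ¬ Subgroup.normalizer (((T : Subgroup ↥H).map H.subtype : Subgroup G) : Set G) ≤
      Subgroup.normalizer (Cfsg.oddGenerated H : Set G) →
    ∃ (K W T' : Subgroup G) (x : G), St K W T' x ∧ (A3 K W ∨ A5 K W ∨ NatM K W)

class P1 : Prop where
  out : ∀ {G : Type u} [Group G] [Finite G] {K W T : Subgroup G} {x : G}, St K W T x → A3 K W →
    SectionalPRankLE 2 4 G

class P2 : Prop where
  out : ∀ {G : Type u} [Group G] [Finite G] {K W T : Subgroup G} {x : G}, St K W T x → ¬ A5 K W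

class P3 : Prop where
  out : ∀ {G : Type u} [Group G] [Finite G] {K W T : Subgroup G} {x : G}, St K W T x → NatM K W →
    ∃ (q : ℕ) (K' W' U C : Subgroup G) (n : G), Cf q K' W' U C n x

/-- the rank bound for `q = 4` -/
class P4 : Prop where
  out : ∀ {G : Type u} [Group G] [Finite G] {S W U : Subgroup G}, IsSylowIn 2 S ⊤ → W ≤ S → U ≤ S →
    (∀ w ∈ W, w * w = 1) → (∀ u ∈ U, u * u = 1) → Nat.card W = 16 → Nat.card U = 16 → Nat.card ↥(W ⊓ U) = 4 →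
    W ≤ N[U] → U ≤ N[W] → (∀ w ∈ W, w ∉ U → ∀ u ∈ U, u ∉ W → w * u ≠ u * w) →
    (∀ s ∈ S, (s ∈ N[W] ∧ s ∈ N[U]) ∨ (W ^ᶜ s = U ∧ U ^ᶜ s = W)) →
    (∀ s ∈ S, s ∈ N[W] → s ∉ W ⊔ U → (∃ y ∈ W ⊓ U, s * y ≠ y * s) ∧ (∃ w ∈ W, s * w * s⁻¹ * w⁻¹ ∉ U) ∧
      ∃ u ∈ U, s * u * s⁻¹ * u⁻¹ ∉ W) →
    SectionalPRankLE 2 4 G

section
variable {G : Type*} [Group G] [Finite G] {K W T : Subgroup G} {x : G}

theorem St.pT (h : St K W T x) : IsPGroup 2 T := h.syl.isPGroup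
theorem St.pW (h : St K W T x) : IsPGroup 2 W := h.W_eq ▸ pCoreOf_isPGroup 2 K
theorem St.W_le (h : St K W T x) : W ≤ K := h.W_eq ▸ pCoreOf_le 2 K
theorem St.NKW (h : St K W T x) : N[K] ≤ N[W] := h.W_eq ▸ normalizer_le_normalizer_pCoreOf 2 K
theorem St.HK (h : St K W T x) : K ⊔ T ≤ N[K] := sup_le le_normalizer h.TK
theorem St.WT (h : St K W T x) : W ≤ T :=
  h.syl.le_of_le_normalizer' (h.W_le.trans le_sup_left) h.pW (h.TK.trans h.NKW)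
theorem St.Tx (h : St K W T x) : T ^ᶜ x = T := conj_eq_of_mem_normalizer h.xT
theorem St.UT (h : St K W T x) : W ^ᶜ x ≤ T := h.Tx ▸ conj_mono x h.WT
theorem St.TU (h : St K W T x) : T ≤ N[W ^ᶜ x] := h.Tx ▸ le_normalizer_conj (h.TK.trans h.NKW) x
theorem St.W_ne (h : St K W T x) : W ≠ ⊥ := fun e => h.nc (by rw [e, conj_bot]; exact bot_le)
theorem St.NWK (h : St K W T x) : N[W] ≤ N[K] := h.uq W h.pW h.W_ne (h.HK.trans h.NKW)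

/-- symmetry -/
theorem St.symm (h : St K W T x) : St K W T x⁻¹ :=
  { h with
    xT := inv_mem h.xT
    nc := fun e => h.nc (by
      have := conj_mono x (le_centralizer_iff.1 e)
      rw [conj_centralizer, conj_inv_conj] at this
      exact this) }

/-- `C_T(K) ∩ C_T(K ^ x) = 1` -/
theorem St.DD (h : St K W T x) : (T ⊓ C[K]) ⊓ (T ⊓ C[K]) ^ᶜ x = ⊥ := by
  by_contra hne
  set X := (T ⊓ C[K]) ⊓ (T ⊓ C[K]) ^ᶜ x
  have pX : IsPGroup 2 X := h.pT.to_le (inf_le_left.trans inf_le_left)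
  have n1 : T ≤ N[T ⊓ C[K]] := le_normalizer_inf le_normalizer (le_normalizer_centralizer h.TK)
  have TX : T ≤ N[X] := le_normalizer_inf n1 (h.Tx.ge.trans (le_normalizer_conj n1 x))
  have c1 : K ≤ C[X] := le_centralizer_iff.1 (inf_le_left.trans inf_le_right)
  have c2 : K ^ᶜ x ≤ C[X] := le_centralizer_iff.1 (inf_le_right.trans (by
    rw [conj_inf, conj_centralizer]; exact inf_le_right))
  have pX' : IsPGroup 2 (X ^ᶜ x⁻¹) := isPGroup_conj pX _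
  have k : N[X ^ᶜ x⁻¹] ≤ N[K] := h.uq _ pX' (fun e => hne (conj_eq_bot_iff.1 e)) (sup_le (by
      have := le_normalizer_conj (le_normalizer_of_le_centralizer c2) x⁻¹
      rwa [conj_conj_inv] at this) (h.symm.Tx.ge.trans (le_normalizer_conj TX x⁻¹)))
  have k2 : K ≤ N[W ^ᶜ x] := by
    have := conj_mono x (k.trans h.NKW)
    rw [conj_normalizer, conj_normalizer, conj_inv_conj] at this
    exact (le_normalizer_of_le_centralizer c1).trans this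
  have k3 : ⁅W ^ᶜ x, K⁆ ≤ W := by
    refine le_trans (le_inf (commutator_le_left_of_le_normalizer k2)
      (commutator_le_right_of_le_normalizer (h.UT.trans h.TK))) ?_
    rw [show W ^ᶜ x ⊓ K = (W ^ᶜ x) ⊓ K from rfl]
    exact (inf_le_pCoreOf k2 (isPGroup_conj h.pW x)).trans h.W_eq.ge
  have hP : (T ⊓ C[W]) ⊔ W ^ᶜ x ≤ T := sup_le inf_le_left h.UT
  have := h.mx _ (h.pT.to_le hP) le_sup_left (hP.trans h.TK) (by
    rw [commutator_comm]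
    exact commutator_sup_le (inf_le_left.trans (h.TK.trans h.NKW)) (h.UT.trans (h.TK.trans h.NKW))
      (by rw [commutator_comm]; exact h.QK) (by rw [commutator_comm]; exact k3))
  exact h.nc (le_sup_right.trans (this.le.trans inf_le_right))

end

end Cfsg.Agent.Lib.AP
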