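import Mathlib
import Cfsg.Agent.Lib.APDefs

/-!
The natural configuration of S3090: basic facts, fixed points on sections.
-/

set_option autoImplicit false
set_option linter.unusedSectionVars false

namespace Cfsg.Agent.Lib.AP

open Cfsg Subgroup Cfsg.Agent.Lib.PCoreConj Cfsg.Agent.Lib.PCore Cfsg.Agent.Lib.PCoreResidual
  Cfsg.Agent.Lib.FTDefs
open scoped Classical

instance f2 : Fact (Nat.Prime 2) := ⟨Nat.prime_two⟩

variable {G : Type*} [Group G] [Finite G] {q : ℕ} {K K' W U C C' A B E T P : Subgroup G}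
  {n n' x g a b c f s t u w y z : G}

/-- elementary abelian 2-subgroups -/
def El (A : Subgroup G) : Prop := ∀ a ∈ A, a * a = 1

theorem nconj (hg : g ∈ N[A]) (ha : a ∈ A) : g * a * g⁻¹ ∈ A := (mem_normalizer_iff.1 hg a).1 ha
theorem nconj' (hg : g ∈ N[A]) (ha : a ∈ A) : g⁻¹ * a * g ∈ A := by
  simpa using nconj (inv_mem hg) ha
theorem mem_N (h : ∀ a ∈ A, g * a * g⁻¹ ∈ A) : g ∈ N[A] := mem_normalizer_of_conj_le (conj_le_iff.2 h)
theorem inv_sq (h : a * a = 1) : a⁻¹ = a := inv_eq_of_mul_eq_one_right h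

theorem El.comm (h : El A) (ha : a ∈ A) (hb : b ∈ A) : a * b = b * a := by
  have := inv_sq (h _ (A.mul_mem ha hb))
  rw [mul_inv_rev, inv_sq (h _ ha), inv_sq (h _ hb)] at this
  exact this.symm
theorem El.pg (h : El A) : IsPGroup 2 A := isPGroup_iff_forall_mem.2 fun a ha => ⟨1, by simpa [pow_two] using h a ha⟩
theorem El.of_le (h : El A) (hB : B ≤ A) : El B := fun a ha => h a (hB ha)
theorem El.conj (h : El A) (g : G) : El (A ^ᶜ g) := fun a ha => by
  obtain ⟨b, hb, rfl⟩ := mem_conj_iff'.1 ha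
  rw [show g * b * g⁻¹ * (g * b * g⁻¹) = g * (b * b) * g⁻¹ by group, h b hb]; group
theorem El.le_cent (h : El A) (hB : B ≤ A) : B ≤ C[A] := fun _ hb => mem_cent_iff.2 fun _ ha => h.comm ha (hB hb)
theorem El.norm (h : El A) (hB : B ≤ A) : A ≤ N[B] :=
  le_normalizer_of_le_centralizer (le_centralizer_iff.1 (h.le_cent hB))
theorem pg_sq (h : a * a = 1) : IsPGroup 2 (zpowers a) := isPGroup_zpowers (k := 1) (by simpa [pow_two] using h)

theorem le_or_le (h : ∀ a ∈ A, a ∈ W ∨ a ∈ U) : A ≤ W ∨ A ≤ U := by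
  by_contra hn
  obtain ⟨h1, h2⟩ := not_or.1 hn
  obtain ⟨a, ha, aw⟩ := SetLike.not_le_iff_exists.1 h1
  obtain ⟨b, hb, bu⟩ := SetLike.not_le_iff_exists.1 h2
  rcases h _ (A.mul_mem ha hb) with k | k
  · exact aw ((mul_mem_cancel_right ((h b hb).resolve_right bu)).1 k)
  · exact bu ((mul_mem_cancel_left ((h a ha).resolve_left aw)).1 k)

/-- the elements of `A` fixed by `g` modulo `B` -/
def fx (g : G) (A B : Subgroup G) : Subgroup G := closure {a | a ∈ A ∧ g * a * g⁻¹ * a⁻¹ ∈ B}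

theorem mem_fx (hn : A ≤ N[B]) : a ∈ fx g A B ↔ a ∈ A ∧ g * a * g⁻¹ * a⁻¹ ∈ B := by
  refine ⟨fun h => ?_, fun h => subset_closure h⟩
  induction h using closure_induction with
  | mem x hx => exact hx
  | one => exact ⟨one_mem _, by simp⟩
  | mul x y _ _ hx hy =>
    refine ⟨mul_mem hx.1 hy.1, ?_⟩
    have := mul_mem hx.2 (nconj (hn hx.1) hy.2)
    convert this using 1; group
  | inv x _ hx =>
    refine ⟨inv_mem hx.1, ?_⟩
    have := inv_mem (nconj' (hn hx.1) hx.2)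
    convert this using 1; group

theorem fx_le (hn : A ≤ N[B]) : fx g A B ≤ A := fun _ h => ((mem_fx hn).1 h).1
theorem le_fx (hn : A ≤ N[B]) (hB : B ≤ A) (gB : g ∈ N[B]) : B ≤ fx g A B := fun _ h =>
  (mem_fx hn).2 ⟨hB h, mul_mem (nconj gB h) (inv_mem h)⟩
theorem fx_bot : fx g A ⊥ = A ⊓ c[g] := by
  ext a
  rw [mem_fx (fun _ _ => mem_N fun _ h => by rw [mem_bot.1 h]; simp), mem_bot, mem_inf, mem_cent1]
  refine and_congr_right fun _ => ⟨fun h => ?_, fun h => by rw [← h]; group⟩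
  calc a * g = (g * a * g⁻¹ * a⁻¹)⁻¹ * (g * a) := by group
    _ = g * a := by rw [h]; group

/-- an automorphism of order two of an elementary abelian section has many fixed points -/
theorem card_fx_ge (hA : El A) (hB : B ≤ A) (gA : g ∈ N[A]) (gB : g ∈ N[B])
    (h2 : ∀ a ∈ A, g * g * a * (g * g)⁻¹ * a⁻¹ ∈ B) :
    Nat.card A * Nat.card B ≤ Nat.card (fx g A B) ^ 2 := by
  have hn := hA.norm hB
  let δ : A →* A := MonoidHom.mk' (fun a => ⟨g * a * g⁻¹ * (a : G)⁻¹, mul_mem (nconj gA a.2) (inv_mem a.2)⟩) (by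
    intro a b
    apply Subtype.ext
    have e := hA.comm (mul_mem (nconj gA b.2) (inv_mem b.2)) (inv_mem a.2)
    simp only [coe_mul]
    calc g * (a * b) * g⁻¹ * ((a : G) * b)⁻¹ = g * a * g⁻¹ * ((g * b * g⁻¹ * (b : G)⁻¹) * (a : G)⁻¹) := by group
      _ = _ := by rw [e]; group)
  have e1 : (fx g A B).subgroupOf A = (B.subgroupOf A).comap δ := by
    ext a
    rw [mem_subgroupOf, mem_fx hn, mem_comap, mem_subgroupOf]
    exact ⟨fun h => h.2, fun h => ⟨a.2, h⟩⟩
  have e2 : δ.range ≤ (fx g A B).subgroupOf A := by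
    rintro _ ⟨a, rfl⟩
    rw [mem_subgroupOf, mem_fx hn]
    refine ⟨(δ a).2, ?_⟩
    have k := h2 a a.2
    have c1 := hA.comm (nconj gA a.2) a.2
    have s1 := inv_sq (hA _ (nconj gA a.2))
    have s2 := inv_sq (hA _ a.2)
    have s3 := hA _ (nconj gA a.2)
    convert k using 1
    show g * (g * a * g⁻¹ * (a : G)⁻¹) * g⁻¹ * (g * a * g⁻¹ * (a : G)⁻¹)⁻¹ = _
    calc _ = g * g * a * (g * g)⁻¹ * ((g * a * g⁻¹)⁻¹ * a * (g * a * g⁻¹)⁻¹) := by group
      _ = g * g * a * (g * g)⁻¹ * ((g * a * g⁻¹) * (g * a * g⁻¹) * a) := by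
        rw [s1, mul_assoc (g * a * g⁻¹) (a : G), ← c1]; group
      _ = _ := by rw [s3, s2, one_mul]
  have e3 : (fx g A B).relIndex A ≤ B.relIndex (fx g A B) := by
    rw [relIndex, e1, index_comap, ← relIndex_subgroupOf (fx_le hn)]
    exact relIndex_le_of_le_right e2 (relIndex_ne_zero _)
  have e4 := card_mul_relIndex (fx_le (g := g) hn)
  have e5 := card_mul_relIndex (le_fx hn hB gB)
  calc _ = Nat.card (fx g A B) * (Nat.card B * (fx g A B).relIndex A) := by rw [← e4]; ring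
    _ ≤ Nat.card (fx g A B) * (Nat.card B * B.relIndex (fx g A B)) := by gcongr
    _ = _ := by rw [e5, pow_two]

/-- `C` acts regularly on the nonzero vectors of the section `A / B`, and `T` acts trivially -/
structure Sec (q : ℕ) (A B C T : Subgroup G) : Prop where
  el : El A
  le : B ≤ A
  cA : Nat.card A = q * Nat.card B
  CA : C ≤ N[A]
  CB : C ≤ N[B]
  CT : C ≤ N[T]
  triv : ∀ t ∈ T, ∀ a ∈ A, t * a * t⁻¹ * a⁻¹ ∈ B
  tr : ∀ a ∈ A, a ∉ B → ∀ b ∈ A, b ∉ B → ∃ c ∈ C, c * a * c⁻¹ * b⁻¹ ∈ B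
  sr : ∀ c ∈ C, ∀ a ∈ A, a ∉ B → c * a * c⁻¹ * a⁻¹ ∈ B → c = 1

theorem Sec.card_fx (h : Sec q A B C T) (gB : g ∈ N[B]) (hg : ∀ c ∈ C, ∃ c' ∈ C, g * c * g⁻¹ * c'⁻¹ ∈ T)
    (ha : a ∈ fx g A B) (aB : a ∉ B) : Nat.card (fx g A B) = Nat.card B * (Nat.card (fx g C T) + 1) := by
  have hn := h.el.norm h.le
  obtain ⟨aA, ha⟩ := (mem_fx hn).1 ha
  have key : ∀ c ∈ C, ∀ c' ∈ C, g * c * g⁻¹ * c'⁻¹ ∈ T →
      g * (c * a * c⁻¹) * g⁻¹ * (c' * a * c'⁻¹)⁻¹ ∈ B := fun c hc c' hc' k => by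
    have k1 := nconj (h.CB hc') ha
    have k2 := h.triv _ k _ (nconj (h.CA hc') (show g * a * g⁻¹ ∈ A from by
      have := mul_mem (h.le ha) aA; simpa using this))
    have := mul_mem k2 k1
    convert this using 1; group
  have nB : ∀ c ∈ C, ∀ b ∈ B, c * a * c⁻¹ * b ∉ B := fun c hc b hb k => aB (by
    have := nconj' (h.CB hc) ((mul_mem_cancel_right hb).1 k)
    convert this using 1; group)
  have inj : ∀ c ∈ C, ∀ c' ∈ C, c * a * c⁻¹ * (c' * a * c'⁻¹)⁻¹ ∈ B → c = c' := fun c hc c' hc' k => by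
    have := h.sr (c'⁻¹ * c) (mul_mem (inv_mem hc') hc) a aA aB (by
      have := nconj' (h.CB hc') k
      convert this using 1; group)
    rw [inv_mul_eq_one] at this; exact this.symm
  let φ : B ⊕ (fx g C T × B) → fx g A B := fun p => match p with
    | .inl b => ⟨b, le_fx hn h.le gB b.2⟩
    | .inr (c, b) => ⟨c * a * (c : G)⁻¹ * b, mul_mem (by
        obtain ⟨hc, k⟩ := (mem_fx h.CT).1 c.2
        exact (mem_fx hn).2 ⟨nconj (h.CA hc) aA, key c hc c hc k⟩) (le_fx hn h.le gB b.2)⟩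
  have hφ : Function.Bijective φ := by
    constructor
    · rintro (b | ⟨c, b⟩) (b' | ⟨c', b'⟩) e
      · have e' : (b : G) = b' := congrArg (fun x : fx g A B => (x : G)) e
        rw [Subtype.ext e']
      · have e' : (b : G) = c' * a * (c' : G)⁻¹ * b' := congrArg (fun x : fx g A B => (x : G)) e
        exact absurd (e' ▸ b.2) (nB _ (fx_le h.CT c'.2) _ b'.2)
      · have e' : (c : G) * a * (c : G)⁻¹ * b = b' := congrArg (fun x : fx g A B => (x : G)) e
        exact absurd (e'.symm ▸ b'.2) (nB _ (fx_le h.CT c.2) _ b.2)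
      · have e' : (c : G) * a * (c : G)⁻¹ * b = c' * a * (c' : G)⁻¹ * b' := congrArg (fun x : fx g A B => (x : G)) e
        have : (c : G) = c' := inj _ (fx_le h.CT c.2) _ (fx_le h.CT c'.2) (by
          have k := nconj (hn (nconj (h.CA (fx_le h.CT c'.2)) aA)) (mul_mem b'.2 (inv_mem b.2))
          convert k using 1
          calc _ = (c : G) * a * (c : G)⁻¹ * b * (b : G)⁻¹ * ((c' : G) * a * (c' : G)⁻¹)⁻¹ := by group
            _ = _ := by rw [e']; group)
        rw [this] at e'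
        rw [Subtype.ext this, Subtype.ext (mul_left_cancel e')]
    · rintro ⟨x, hx⟩
      by_cases xB : x ∈ B
      · exact ⟨.inl ⟨x, xB⟩, rfl⟩
      obtain ⟨xA, k⟩ := (mem_fx hn).1 hx
      obtain ⟨c, hc, e⟩ := h.tr a aA aB x xA xB
      obtain ⟨c', hc', e'⟩ := hg c hc
      have : c = c' := by
        refine inj c hc c' hc' ?_
        have k1 := key c hc c' hc' e'
        have k2 := mul_mem (mul_mem e (inv_mem k)) (inv_mem (nconj gB e))
        have := mul_mem k2 k1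
        convert this using 1; group
      subst this
      refine ⟨.inr (⟨c, (mem_fx h.CT).2 ⟨hc, e'⟩⟩, ⟨(c * a * c⁻¹)⁻¹ * x, ?_⟩), Subtype.ext (mul_inv_cancel_left _ _)⟩
      have := inv_mem (nconj' (hn xA) e)
      convert this using 1; group
  rw [← Nat.card_eq_of_bijective φ hφ, Nat.card_sum, Nat.card_prod]; ring

theorem sq_eq {q q0 m : ℕ} (h1 : q0 + 1 ∣ q) (h2 : q ≤ (q0 + 1) ^ 2) (h3 : q0 * m + 1 = q) (hm : m ≠ 1) (h0 : 0 < q0)
    (hq : 1 < q) : (q0 + 1) ^ 2 = q := by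
  refine le_antisymm ?_ h2
  have m0 : 1 ≤ m := by rcases m with _ | m; · simp at h3; omega
                        · omega
  obtain ⟨k, rfl⟩ := Nat.exists_eq_add_of_le m0
  have : q0 + 1 ∣ k := by
    have e : (q0 + 1) * (1 + k) = q + k := by rw [← h3]; ring
    exact (Nat.dvd_add_right h1).1 (e ▸ dvd_mul_right _ _)
  have := Nat.le_of_dvd (by omega) this
  nlinarith

/-- an involutory automorphism normalizing the torus: trivial, or a field involution -/
theorem Sec.dich (h : Sec q A B C T) (hq : 1 < q) (cC : Nat.card C + 1 = q) (gA : g ∈ N[A]) (gB : g ∈ N[B])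
    (hg : ∀ c ∈ C, ∃ c' ∈ C, g * c * g⁻¹ * c'⁻¹ ∈ T) (g2 : g * g ∈ T) :
    Nat.card (fx g A B) = Nat.card B * (Nat.card (fx g C T) + 1) ∧
      (fx g C T = C ∨ (Nat.card (fx g C T) + 1) ^ 2 = q) := by
  have hn := h.el.norm h.le
  have k1 := card_fx_ge h.el h.le gA gB (fun a ha => h.triv _ g2 a ha)
  have pB : 0 < Nat.card B := Nat.card_pos
  have : ¬ fx g A B ≤ B := fun k => by
    have k2 := Nat.pow_le_pow_left (FTDefs.card_le_of_le k) 2
    rw [h.cA] at k1
    have : 2 * (Nat.card B * Nat.card B) ≤ q * (Nat.card B * Nat.card B) := Nat.mul_le_mul_right _ hq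
    nlinarith
  obtain ⟨a, ha, aB⟩ := SetLike.not_le_iff_exists.1 this
  have e := h.card_fx gB hg ha aB
  refine ⟨e, ?_⟩
  by_cases hc : fx g C T = C
  · exact Or.inl hc
  right
  have l := fx_le (g := g) h.CT
  refine sq_eq (m := (fx g C T).relIndex C) ?_ ?_ (by rw [card_mul_relIndex l, cC]) (fun k => hc
    (le_antisymm l (relIndex_eq_one.1 k))) Nat.card_pos hq
  · have := card_dvd_of_le (fx_le (g := g) hn)
    rw [e, h.cA, mul_comm q] at this
    exact Nat.dvd_of_mul_dvd_mul_left pB this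
  · rw [e, h.cA] at k1
    have : q * Nat.card B ^ 2 ≤ (Nat.card (fx g C T) + 1) ^ 2 * Nat.card B ^ 2 := by nlinarith
    exact Nat.le_of_mul_le_mul_right this (by positivity)

end Cfsg.Agent.Lib.AP
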