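import Mathlib
import Cfsg.Agent.Lib.APC1
import Cfsg.Agent.Lib.AP2d

/-! Coordinates for the block `2⁴ : A₅` of S3090. -/

set_option autoImplicit false
set_option linter.unusedSectionVars false

namespace Cfsg.Agent.Lib.AP2

open Cfsg Subgroup Cfsg.Agent.Lib.PCoreConj Cfsg.Agent.Lib.PCore Cfsg.Agent.Lib.PCoreResidual
  Cfsg.Agent.Lib.FTDefs Cfsg.Agent.Lib.AP Equiv Equiv.Perm Multiplicative

variable {G : Type*} [Group G] [Finite G] {K W T : Subgroup G} {x : G}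

/-- `W` is the permutation module modulo constants and `N(W)` acts through the symmetric group. -/
structure Sd (K W : Subgroup G) (φ : V → G) (π : G → S5) : Prop where
  add : ∀ a b, φ (a + b) = φ a * φ b
  ker : ∀ a, φ a = 1 ↔ Z a
  mem : ∀ a, φ a ∈ W
  surj : ∀ w ∈ W, ∃ a, ∑ i, a i = 0 ∧ φ a = w
  ac : ∀ g ∈ N[W], ∀ a, g * φ a * g⁻¹ = φ (act (π g) a)
  KN : K ≤ N[W]
  onto : ∀ σ, sign σ = 1 → ∃ k ∈ K, π k = σ
  evn : ∀ k ∈ K, sign (π k) = 1
  kerK : ∀ k ∈ K, π k = 1 → k ∈ W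

theorem exists_sd (h : St K W T x) (a : A5 K W) : ∃ φ π, Sd K W φ π := by
  classical
  obtain ⟨⟨KN, -, ρ, ψ, hρ, ev, sj, kr, ac⟩, cK⟩ := a
  have eW : El W := h.eW
  letI : CommGroup W := { (inferInstance : Group W) with mul_comm := fun a b => Subtype.ext (eW.comm a.2 b.2) }
  have sq : ∀ w : W, w * w = 1 := fun w => Subtype.ext (eW w w.2)
  let c : N[W] →* MulAut W := W.normalizerMonoidHom
  let κ : K →* MulAut W := c.comp (inclusion KN)
  have ac' : ∀ k w, toAdd (ψ (κ k w)) = act (ρ k) (toAdd (ψ w)) := fun k w => by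
    obtain ⟨w', e1, e2⟩ := ac k w
    rw [show κ k w = w' from Subtype.ext e1.symm]
    exact funext e2
  have on : ∀ σ, sign σ = 1 → ∃ k : K, ρ k = σ := fun σ hσ => hρ.ge (mem_alternatingGroup.2 hσ)
  have κW : ∀ k : K, k.1 ∈ W → ∀ w, κ k w = w := fun k hk w =>
    Subtype.ext (mul_inv_eq_iff_eq_mul.2 (eW.comm hk w.2))
  have κZ : ∀ w, ψ w = 1 → ∀ k, κ k w = w := fun w hw k =>
    Subtype.ext (mul_inv_eq_iff_eq_mul.2 (mem_cent_iff.1 ((kr w).1 hw).2 k k.2))
  have kerρ : ∀ k : K, ρ k = 1 → k.1 ∈ W := by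
    have h1 : W.subgroupOf K ≤ ρ.ker := fun k hk => d_faith _ fun v hv => by
      obtain ⟨u, rfl⟩ := sj v hv
      rw [← ac' k u, κW k hk]
    have h2 := ρ.ker.card_mul_index
    rw [index_ker, hρ, nat_card_alternatingGroup, cK, ← Nat.card_congr (subgroupOfEquivOfLe h.W_le).toEquiv] at h2
    exact fun k hk => (eq_of_le_of_card_ge h1 (by simp [Nat.factorial] at h2 ⊢; omega)).ge hk
  obtain ⟨s0, hs0⟩ := sj (e 0 + 1) (by decide)
  have fx : ∀ k : K, ρ k 0 = 0 → κ k s0 = s0 := by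
    have key : ∀ k : K, ρ k 0 = 0 → ρ k ^ 3 = 1 → κ k s0 = s0 := fun k h0 h3 => by
      have h1 := κZ (κ k s0 * s0) (toAdd.injective (by
        rw [map_mul, toAdd_mul, ac', hs0, act_add, act_e, h0]; exact aa _)) k
      have h2 := κW (k ^ 3) (kerρ _ (by rw [map_pow, h3])) s0
      rw [map_pow, pow_three, MulAut.mul_apply, MulAut.mul_apply] at h2
      have h4 : κ k (κ k s0) = s0 := by
        rw [map_mul, mul_comm _ s0] at h1
        exact mul_right_cancel h1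
      rwa [h4] at h2
    intro k h0
    rcases d_a4 _ 0 h0 (mem_alternatingGroup.1 (hρ.le ⟨k, rfl⟩)) with h3 | ⟨τ, t1, t2, t3, t4⟩
    · exact key k h0 h3
    obtain ⟨l, rfl⟩ := on τ t2
    have := key (k * l) (by rw [map_mul, Perm.mul_apply, t1, h0]) (by rw [map_mul, t4])
    rwa [map_mul, MulAut.mul_apply, key l t1 t3] at this
  choose kk hk using fun i => (d_tr i).elim fun σ hσ => (on σ hσ.1).imp fun k (hk : ρ k = σ) => hk ▸ hσ.2
  let s i := κ (kk i) s0
  have ps : ∀ i, toAdd (ψ (s i)) = e i + 1 := fun i => by rw [ac', hs0, act_add, act_e, hk]; rfl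
  have ks : ∀ k i, κ k (s i) = s (ρ k i) := fun k i => by
    have := fx ((kk (ρ k i))⁻¹ * k * kk i) (by
      rw [map_mul, map_mul, map_inv, Perm.mul_apply, Perm.mul_apply, hk, Perm.inv_eq_iff_eq, hk])
    rwa [map_mul, map_mul, map_inv, MulAut.mul_apply, MulAut.mul_apply, MulAut.inv_def,
      MulEquiv.symm_apply_eq] at this
  let φ (a : V) : W := ∏ i, s i ^ (a i).val
  have add : ∀ a b, φ (a + b) = φ a * φ b := fun a b => by
    rw [← Finset.prod_mul_distrib]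
    exact Finset.prod_congr rfl fun i _ => by
      rw [← pow_add, Pi.add_apply, ZMod.val_add, ← pow_eq_pow_mod _ (by rw [pow_two, sq])]
  have ψφ : ∀ a, toAdd (ψ (φ a)) = a + fun _ => ∑ i, a i := fun a => by
    rw [map_prod, toAdd_prod, ← d_psi]
    exact Finset.sum_congr rfl fun i _ => by rw [map_pow, toAdd_pow, ps]
  have gen : ∀ (m : MulAut W) (σ : S5), (∀ i, m (s i) = s (σ i)) → ∀ a, m (φ a) = φ (act σ a) := fun m σ hm a => by
    rw [map_prod]
    refine .trans (Finset.prod_congr rfl fun i _ => ?_) (Equiv.prod_comp σ fun j => s j ^ (act σ a j).val)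
    · rw [map_pow, hm, act, Perm.inv_def, symm_apply_apply]
  have φ0 : φ 0 = 1 := by simpa using add 0 0
  have surj : ∀ w ∈ W, ∃ a, ∑ i, a i = 0 ∧ (φ a : G) = w := by
    let L : Subgroup G :=
      { carrier := {w | ∃ a, ∑ i, a i = 0 ∧ (φ a : G) = w}
        mul_mem' := by
          rintro _ _ ⟨a, a1, rfl⟩ ⟨b, b1, rfl⟩
          exact ⟨a + b, by simp [Finset.sum_add_distrib, a1, b1], by rw [add]; rfl⟩
        one_mem' := ⟨0, by simp, by rw [φ0]; rfl⟩
        inv_mem' := by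
          rintro _ ⟨a, a1, rfl⟩
          exact ⟨a, a1, (inv_sq (eW _ (φ a).2)).symm⟩ }
    refine fun w hw => (h.WK.ge.trans (commutator_le.2 fun w hw k hk => ?_) : W ≤ L) hw
    set a := toAdd (ψ ⟨w, hw⟩) with ha
    have h1 := κZ (⟨w, hw⟩ * φ a) (toAdd.injective (by
      rw [map_mul, toAdd_mul, ψφ, ev, ← ha, ← add_assoc, aa]; rfl)) ⟨k, hk⟩
    rw [map_mul, gen _ _ (ks _)] at h1
    refine ⟨a + act (ρ ⟨k, hk⟩) a, by simp [Finset.sum_add_distrib, sum_act, ha, ev], ?_⟩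
    have h2 : φ (a + act (ρ ⟨k, hk⟩) a) = ⟨w, hw⟩ * (κ ⟨k, hk⟩ ⟨w, hw⟩)⁻¹ := by
      rw [add, eq_mul_inv_iff_mul_eq, mul_assoc, mul_comm _ (κ _ _), h1, mul_left_comm, sq, mul_one]
    rw [h2, commutatorElement_def]
    change w * (k * w * k⁻¹)⁻¹ = _
    group
  have inj : ∀ w, ψ w = 1 → w = 1 := fun w hw => by
    obtain ⟨a, a1, a2⟩ := surj w w.2
    obtain rfl : φ a = w := Subtype.ext a2
    have := ψφ a
    rw [hw, a1] at this
    rw [show a = 0 from (add_zero a).symm.trans this.symm, φ0]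
  have ker : ∀ a, φ a = 1 ↔ Z a := fun a => by
    rw [← d_ker, ← ψφ]
    exact ⟨fun k => by rw [k, map_one]; rfl, inj _⟩
  have φe : ∀ i, φ (e i) = s i := fun i => (injective_iff_map_eq_one ψ).2 inj (toAdd.injective (by
    rw [ψφ, ps, d_se]))
  have eq : ∀ a b, Z (a + b) → φ a = φ b := fun a b k =>
    mul_right_cancel (b := φ b) (by rw [← add, (ker _).2 k, sq])
  have si : ∀ i j, s i = s j → i = j := fun i j k => d_ee i j ((ker _).1 (by rw [add, φe, φe, k, sq]))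
  have perm : ∀ g : N[W], ∃ σ : S5, ∀ i, c g (s i) = s (σ i) := fun g => by
    have : ∀ i, ∃ j, c g (s i) = s j := fun i => by
      obtain ⟨b, -, hb⟩ := surj _ (c g (s i)).2
      replace hb : φ b = c g (s i) := Subtype.ext hb
      rcases d_sing b with ⟨j, k⟩ | ⟨σ, k1, k2⟩
      · exact ⟨j, by rw [← hb, eq _ _ k, φe]⟩
      obtain ⟨k, rfl⟩ := on σ k2
      let l : K := ⟨g.1⁻¹ * k * g, nconj' (h.NWK g.2) k.2⟩
      have hl : ∀ w, c g (κ l w) = κ k (c g w) := fun w => Subtype.ext (by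
        change g.1 * (g.1⁻¹ * k * g * w * (g.1⁻¹ * k * g)⁻¹) * g.1⁻¹ = k * (g * w * g.1⁻¹) * k.1⁻¹
        group)
      have h1 := (ker _).2 k1
      rw [add, add, ← gen _ _ (ks k) (act _ _), ← gen _ _ (ks k), hb, ← hl, ← hl, ← map_mul, ← map_mul,
        map_eq_one_iff _ (c g).injective, ks, ks, ← φe, ← φe, ← φe, ← add, ← add, ker] at h1
      exact absurd h1 (d_3 _ _ _)
    choose f hf using this
    exact ⟨Equiv.ofBijective f (Finite.injective_iff_bijective.1 fun i j k => si _ _ ((c g).injective (by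
      rw [hf, hf, k]))), hf⟩
  choose π hπ using perm
  have πρ : ∀ k (hk : k ∈ K), π ⟨k, KN hk⟩ = ρ ⟨k, hk⟩ := fun k hk => Equiv.ext fun i =>
    si _ _ ((hπ _ i).symm.trans (ks ⟨k, hk⟩ i))
  refine ⟨fun a => φ a, fun g => if hg : g ∈ N[W] then π ⟨g, hg⟩ else 1, fun a b => by rw [add]; rfl,
    fun a => by rw [← ker]; exact OneMemClass.coe_eq_one, fun a => (φ a).2, surj, fun g hg a => ?_, KN,
    fun σ hσ => ?_, fun k hk => ?_, fun k hk => ?_⟩
  · rw [dif_pos hg, ← gen _ _ (hπ _)]; rfl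
  · obtain ⟨k, rfl⟩ := on σ hσ
    exact ⟨k, k.2, by rw [dif_pos (KN k.2), πρ _ k.2]⟩
  · rw [dif_pos (KN hk), πρ _ hk]; exact mem_alternatingGroup.1 (hρ.le ⟨_, rfl⟩)
  · rw [dif_pos (KN hk), πρ _ hk]; exact kerρ _

end Cfsg.Agent.Lib.AP2
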