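import Mathlib
import Cfsg.Agent.Lib.AP2a

/-! One-sided facts on the block `2⁴ : A₅` of S3090. -/

set_option autoImplicit false
set_option linter.unusedSectionVars false

namespace Cfsg.Agent.Lib.AP2

open Cfsg Subgroup Cfsg.Agent.Lib.PCoreConj Cfsg.Agent.Lib.PCore Cfsg.Agent.Lib.PCoreResidual
  Cfsg.Agent.Lib.FTDefs Cfsg.Agent.Lib.AP Equiv Equiv.Perm

variable {G : Type*} [Group G] [Finite G] {K W T U O P : Subgroup G} {x g k o q z : G} {φ : V → G} {π : G → S5}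
  {a b : V}

theorem NC (pO : IsPGroup 2 O) (pP : IsPGroup 2 P) (hn : P ≤ N[O]) (h : ∀ o ∈ O, o ∈ N[P] → o ∈ P) : O ≤ P :=
  le_sup_right.trans (eq_of_inf_normalizer_le (pP.to_sup_of_normal_right' pO hn) le_sup_left fun g hg => by
    obtain ⟨p, hp, o, ho, rfl⟩ := (mem_sup_iff_of_le_normalizer hn).1 hg.1
    exact mul_mem hp (h o ho ((mul_mem_cancel_left (le_normalizer hp)).1 hg.2))).ge

theorem cN (h : g * z = z * g) : g ∈ N[zpowers z] :=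
  centralizer_le_normalizer _ (centralizer_zpowers_eq z ▸ mem_cent1.2 h)

/-- `O = O₂(C(z))` -/
structure Oc (z : G) (O : Subgroup G) : Prop where
  pg : IsPGroup 2 O
  nor : ∀ g, g * z = z * g → g ∈ N[O]
  com : ∀ o ∈ O, o * z = z * o
  cen : ∀ g, g * z = z * g → g ∈ C[O] → g ∈ O

theorem exists_oc (l : Loc G) (hz : z * z = 1) (z1 : z ≠ 1) : ∃ O, Oc z O :=
  ⟨_, pCoreOf_isPGroup 2 N[zpowers z], fun _ h => le_normalizer_pCoreOf 2 _ (cN h), fun o ho => by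
    obtain ⟨n, hn⟩ := nconj (pCoreOf_le 2 _ ho) (mem_zpowers z)
    rw [← mul_inv_eq_iff_eq_mul]
    rcases Int.even_or_odd' n with ⟨k, rfl | rfl⟩ <;>
      simp only [zpow_add, zpow_mul, zpow_two, hz, one_zpow, one_mul, zpow_one] at hn
    exacts [absurd (by simpa using hn.symm) z1, hn.symm], fun _ h k => l _ (pg_sq hz) (by simpa using z1) ⟨k, cN h⟩⟩

namespace Sd
variable (S : Sd K W φ π)
include S

theorem sq : φ a * φ a = 1 := by rw [← S.add, aa, S.ker]; exact .inl rfl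
theorem iv : (φ a)⁻¹ = φ a := inv_sq S.sq
theorem eq : φ a = φ b ↔ Z (a + b) := by
  rw [← S.ker, S.add]
  exact ⟨fun k => k ▸ S.sq, fun k => mul_right_cancel (k.trans S.sq.symm)⟩
theorem el : El W := fun w hw => by obtain ⟨a, -, rfl⟩ := S.surj w hw; exact S.sq
theorem mul (hg : g ∈ N[W]) (hk : k ∈ N[W]) : π (g * k) = π g * π k := Equiv.ext fun i => d_ee _ _ (S.eq.1 (by
  rw [← act_e, ← S.ac _ (mul_mem hg hk), Perm.mul_apply, ← act_e, ← act_e, ← S.ac _ hg, ← S.ac _ hk]; group))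
theorem one : π 1 = 1 := by simpa using S.mul (one_mem _) (one_mem _)
theorem inv (hg : g ∈ N[W]) : π g⁻¹ = (π g)⁻¹ :=
  eq_inv_of_mul_eq_one_left (by rw [← S.mul (inv_mem hg) hg, inv_mul_cancel, S.one])
theorem cj (hg : g ∈ N[W]) (hk : k ∈ N[W]) : π (g * k * g⁻¹) = π g * π k * (π g)⁻¹ := by
  rw [S.mul (mul_mem hg hk) (inv_mem hg), S.mul hg hk, S.inv hg]
theorem pow (hg : g ∈ N[W]) (n : ℕ) : π (g ^ n) = π g ^ n := by
  induction n with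
  | zero => simpa using S.one
  | succ n ih => rw [pow_succ, S.mul (pow_mem hg n) hg, ih, pow_succ]
theorem fx (hg : g ∈ N[W]) : g * φ a = φ a * g ↔ Fx (π g) a := by rw [← mul_inv_eq_iff_eq_mul, S.ac g hg, S.eq]
theorem cen (hg : g ∈ N[W]) : g ∈ C[W] ↔ π g = 1 :=
  ⟨fun h => Equiv.ext fun i => d_ee _ _ (by
    rw [← act_e]; exact (S.fx hg).1 (mem_cent_iff.1 h _ (S.mem _)).symm), fun h => mem_cent_iff.2 fun w hw => by
    obtain ⟨a, -, rfl⟩ := S.surj w hw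
    exact ((S.fx hg).2 (by rw [h, Fx, act_one, aa]; exact .inl rfl)).symm⟩
theorem cm (hg : g ∈ N[W]) : g * φ a * g⁻¹ * φ a = φ (act (π g) a + a) := by rw [S.ac g hg, S.add]
theorem πW (hg : g ∈ W) : π g = 1 := (S.cen (le_normalizer hg)).1 (S.el.le_cent le_rfl hg)
theorem com : φ a * φ b = φ b * φ a := S.el.comm (S.mem a) (S.mem b)
theorem cmO (ho : o ∈ O) (oN : o ∈ N[W]) (h : φ a ∈ N[O]) : φ (act (π o) a + a) ∈ O := by
  rw [← S.cm oN, mul_assoc, mul_assoc, ← mul_assoc (φ a)]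
  exact mul_mem ho (by simpa [S.iv] using nconj h (inv_mem ho))
theorem sqU (hU : El U) (UN : U ≤ N[W]) (hg : g ∈ U) : π g * π g = 1 := by
  rw [← S.mul (UN hg) (UN hg), hU g hg, S.one]

theorem conj (x : G) : Sd (K ^ᶜ x) (W ^ᶜ x) (fun a => x * φ a * x⁻¹) fun g => π (x⁻¹ * g * x) where
  add a b := by rw [S.add, conj_mul]
  ker a := by rw [← S.ker]; simp
  mem a := conj_mem_conj x (S.mem a)
  surj w hw := by
    obtain ⟨a, a1, a2⟩ := S.surj _ (mem_conj_iff.1 hw)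
    exact ⟨a, a1, by rw [a2]; group⟩
  ac g hg a := by
    rw [← conj_normalizer, mem_conj_iff] at hg
    rw [← S.ac _ hg]; group
  KN := le_normalizer_conj S.KN x
  onto σ hσ := by
    obtain ⟨k, hk, rfl⟩ := S.onto σ hσ
    exact ⟨_, conj_mem_conj x hk, congrArg π (by group)⟩
  evn k hk := S.evn _ (mem_conj_iff.1 hk)
  kerK k hk h := mem_conj_iff.2 (S.kerK _ (mem_conj_iff.1 hk) h)

theorem rel (τ : S5) : Sd K W (fun a => φ (act τ⁻¹ a)) fun g => τ * π g * τ⁻¹ where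
  add a b := S.add _ _
  ker a := by rw [S.ker, Z_act]
  mem a := S.mem _
  surj w hw := by
    obtain ⟨a, a1, a2⟩ := S.surj _ hw
    exact ⟨act τ a, by rw [sum_act, a1], by rw [← act_mul, inv_mul_cancel, act_one, a2]⟩
  ac g hg a := by rw [S.ac _ hg, ← act_mul, ← act_mul]; congr 2; group
  KN := S.KN
  onto σ hσ := by
    obtain ⟨k, hk, h⟩ := S.onto (τ⁻¹ * σ * τ⁻¹⁻¹) (by simp [hσ])
    exact ⟨k, hk, by rw [h]; group⟩
  evn k hk := by simp [S.evn k hk]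
  kerK k hk h := S.kerK k hk (by simpa using h)

/-- the first cohomology vanishes -/
theorem h1 (hq : q ∈ C[W]) (hc : ∀ k ∈ K, q * k * q⁻¹ * k⁻¹ ∈ W) : ∃ a, φ a * q ∈ C[K] := by
  choose! c c0 c1 using fun k hk => S.surj _ (hc k hk)
  have uq : ∀ a b : V, ∑ i, a i = 0 → ∑ i, b i = 0 → φ a = φ b → a = b := fun a b ha hb h => by
    rw [← add_zero a, ← aa b, add_comm b, ← add_assoc,
      d_ev _ (by simp [Finset.sum_add_distrib, ha, hb]) (S.eq.1 h), zero_add]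
  have cm : ∀ k ∈ K, ∀ l ∈ K, ∀ i, c (k * l) i = c k i + c l ((π k)⁻¹ i) := fun k hk l hl => congrFun
    (uq _ (c k + act (π k) (c l)) (c0 _ (mul_mem hk hl)) (by
      simp [Finset.sum_add_distrib, sum_act, c0 k hk, c0 l hl]) (by
      rw [S.add, ← S.ac _ (S.KN hk), c1 _ hk, c1 _ hl, c1 _ (mul_mem hk hl)]; group))
  have key : ∀ k ∈ K, ∀ i, π k i = i → π k ^ 3 = 1 → c k i = 0 := fun k hk i h0 h3 => by
    have h1 := pow_mem hk 3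
    have h2 := uq _ 0 (c0 _ h1) (by simp) (by
      rw [c1 _ h1, ← mem_cent_iff.1 hq _ (S.kerK _ h1 (by rw [S.pow (S.KN hk), h3])), (S.ker 0).2 (.inl rfl)]; group)
    have h4 := cm k hk _ (mul_mem hk hk) i
    rw [← pow_three, h2, Perm.inv_eq_iff_eq.2 h0.symm, cm k hk k hk, Perm.inv_eq_iff_eq.2 h0.symm,
      CharTwo.add_self_eq_zero, add_zero] at h4
    exact h4.symm
  have fx : ∀ k ∈ K, ∀ i, π k i = i → c k i = 0 := fun k hk i h0 => by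
    rcases d_a4 _ i h0 (S.evn k hk) with h3 | ⟨τ, t1, t2, t3, t4⟩
    · exact key k hk i h0 h3
    obtain ⟨l, hl, rfl⟩ := S.onto τ t2
    have e := S.mul (S.KN hk) (S.KN hl)
    have := key _ (mul_mem hk hl) i (by rw [e, Perm.mul_apply, t1, h0]) (by rw [e, t4])
    rwa [cm k hk l hl, Perm.inv_eq_iff_eq.2 h0.symm, key l hl i t1 t3, add_zero] at this
  choose kk k1 k2 using fun i => (d_tr i).elim fun σ hσ => (S.onto σ hσ.1).imp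
    fun k (hk : k ∈ K ∧ π k = σ) => And.intro hk.1 (hk.2 ▸ hσ.2 : π k 0 = i)
  refine ⟨fun i => c (kk i) i, mem_cent_iff.2 fun k hk => ?_⟩
  have : c k = (fun i => c (kk i) i) + act (π k) fun i => c (kk i) i := funext fun i => by
    have hm := mul_mem (mul_mem hk (k1 ((π k)⁻¹ i))) (inv_mem (k1 i))
    have h0 : π (k * kk ((π k)⁻¹ i) * (kk i)⁻¹) i = i := by
      rw [S.mul (S.KN (mul_mem hk (k1 _))) (S.KN (inv_mem (k1 i))), S.mul (S.KN hk) (S.KN (k1 _)),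
        S.inv (S.KN (k1 i)), Perm.mul_apply, Perm.mul_apply, Perm.inv_eq_iff_eq.2 (k2 i).symm, k2]
      simp
    have h1 := cm _ hm _ (k1 i) i
    rw [inv_mul_cancel_right, cm k hk _ (k1 _), fx _ hm i h0, Perm.inv_eq_iff_eq.2 h0.symm, zero_add] at h1
    rw [Pi.add_apply, act, ← h1, add_assoc, CharTwo.add_self_eq_zero, add_zero]
  have h2 := c1 k hk
  rw [this, S.add, ← S.ac _ (S.KN hk)] at h2
  generalize (fun i => c (kk i) i) = a at h2 ⊢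
  calc _ = φ a * (φ a * (k * φ a * k⁻¹)) * k * q := by rw [← mul_assoc, ← mul_assoc _ (φ a), S.sq]; group
    _ = _ := by rw [h2]; group

theorem cj8 (pO : IsPGroup 2 O) (ho : o ∈ O) (oN : o ∈ N[W]) (hk : k ∈ K) (kO : k ∈ N[O]) :
    (π o * (π k * π o * (π k)⁻¹)) ^ 8 = 1 := by
  obtain ⟨n, hn⟩ := isPGroup_iff_forall_mem.1 pO _ (mul_mem ho (nconj kO ho))
  have h := mul_mem (mul_mem (S.KN hk) oN) (inv_mem (S.KN hk))
  rw [← S.cj (S.KN hk) oN, ← S.mul oN h]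
  exact p8 (k := n) (by rw [← S.pow (mul_mem oN h), hn, S.one])

theorem L1 (c : Oc (φ a) O) (h1 : ¬ Z a) (h2 : ∀ j, ¬ Z (a + e j)) (ho : o ∈ O) (oN : o ∈ N[W]) (b : V) :
    Fx (π o) b ∨ Z (act (π o) b + b + a) := by
  obtain ⟨τ, t1, -, t2, t3⟩ := d_L1 a h1 h2
  obtain ⟨k, hk, rfl⟩ := S.onto τ t2
  exact t3 _ ((S.fx oN).1 (c.com o ho)) (S.cj8 c.pg ho oN hk (c.nor k ((S.fx (S.KN hk)).2 t1))) b

theorem B (Kr : ∀ g ∈ N[W], ∀ n, g ^ 2 ^ n = 1 → π g = 1 → g ∈ W) {i : Fin 5} (i0 : i ≠ 0) (i1 : i ≠ 1)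
    (c : Oc (φ (e i)) O) : (∀ o ∈ O, o ∈ N[W] → π o ≠ s1) ∧ ∃ b, φ b ∈ O ∧ ¬ Fx s1 b := by
  refine ⟨fun o ho oN h => ?_, ?_⟩
  · obtain ⟨τ, t1, t2, t3⟩ := d_b1 i i0 i1
    obtain ⟨k, hk, rfl⟩ := S.onto τ t2
    exact t3 (h ▸ S.cj8 c.pg ho oN hk (c.nor k ((S.fx (S.KN hk)).2 t1)))
  by_cases h : ∃ o ∈ O, o ∈ N[W] ∧ π o ≠ 1
  · obtain ⟨o, ho, oN, h⟩ := h
    obtain ⟨τ, t1, t2, t3⟩ := d_b2 i i0 i1 _ ((S.fx oN).1 (c.com o ho)) h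
    obtain ⟨k, hk, rfl⟩ := S.onto τ t2
    rw [← S.cj (S.KN hk) oN] at t3
    exact ⟨_, S.cmO (nconj (c.nor k ((S.fx (S.KN hk)).2 t1)) ho)
      (mul_mem (mul_mem (S.KN hk) oN) (inv_mem (S.KN hk))) (c.nor _ S.com), t3⟩
  push Not at h
  have : O ≤ W := NC c.pg S.el.pg (fun w hw => c.nor w (S.el.comm hw (S.mem _))) fun o ho oN =>
    (isPGroup_iff_forall_mem.1 c.pg o ho).elim fun n hn => Kr o oN n hn (h o ho oN)
  exact ⟨e 0, c.cen _ S.com (mem_cent_iff.2 fun o ho => S.el.comm (this ho) (S.mem _)), by decide⟩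

theorem F1 (h : St K W T x) : ∃ s ∈ T, ∃ t ∈ T, dt (π s) ∧ dt (π t) ∧ dt (π s * π t) := by
  let P : Subgroup G :=
    { carrier := {k | k ∈ K ∧ π k ∈ [1, s1 * s2, s3, s1 * s2 * s3]}
      mul_mem' := fun ha hb => ⟨mul_mem ha.1 hb.1, S.mul (S.KN ha.1) (S.KN hb.1) ▸ (d_V4 _ ha.2).2.2 _ hb.2⟩
      one_mem' := ⟨one_mem _, S.one ▸ List.mem_cons_self⟩
      inv_mem' := fun ha => ⟨inv_mem ha.1, S.inv (S.KN ha.1) ▸ (d_V4 _ ha.2).2.1⟩ }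
  obtain ⟨g, hg, hP⟩ := h.syl.exists_conj_le (Q := P) (fun k hk => mem_sup_left hk.1)
    (isPGroup_iff_forall_mem.2 fun k hk => ⟨2, by
      have := S.el _ (S.kerK _ (mul_mem hk.1 hk.1) (by rw [S.mul (S.KN hk.1) (S.KN hk.1), (d_V4 _ hk.2).1]))
      rw [← this, ← pow_two, ← pow_two, ← pow_mul]; rfl⟩)
  have gN := h.NKW (h.HK hg)
  obtain ⟨k, hk, e1⟩ := S.onto _ d_dt.1.2.2
  obtain ⟨l, hl, e2⟩ := S.onto _ d_dt.2.1.2.2
  refine ⟨_, hP (conj_mem_conj g (x := k) ⟨hk, by simp [e1]⟩), _, hP (conj_mem_conj g (x := l) ⟨hl, by simp [e2]⟩), ?_⟩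
  rw [S.cj gN (S.KN hk), S.cj gN (S.KN hl), conj_mul, e1, e2]
  exact ⟨dt_conj _ d_dt.1, dt_conj _ d_dt.2.1, dt_conj _ d_dt.2.2⟩

theorem A1 (hU : El U) (UN : U ≤ N[W]) (TW : T ≤ N[W]) (TU : T ≤ N[U])
    (F : ∃ s ∈ T, ∃ t ∈ T, dt (π s) ∧ dt (π t) ∧ dt (π s * π t)) (nc : ¬ U ≤ C[W]) :
    ∃ w ∈ W, ∃ w' ∈ W, w ∉ C[U] ∧ w' ∉ C[U] ∧ w * w' ∉ C[U] := by
  obtain ⟨s, hs, t, ht, d1, d2, d3⟩ := F
  obtain ⟨u, hu, uc⟩ := SetLike.not_le_iff_exists.1 nc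
  have k : ∀ t ∈ T, u * (t * u * t⁻¹) ∈ U ∧ π (u * (t * u * t⁻¹)) = π u * (π t * π u * (π t)⁻¹) := fun t ht =>
    ⟨mul_mem hu (nconj (TU ht) hu), by rw [S.mul (UN hu) (UN (nconj (TU ht) hu)), S.cj (TW ht) (UN hu)]⟩
  obtain ⟨u, hu, d⟩ : ∃ u ∈ U, dt (π u) := by
    rcases d_A1 _ d1 _ d2 d3 _ (S.sqU hU UN hu) (mt (S.cen (UN hu)).2 uc) ((k s hs).2 ▸ S.sqU hU UN (k s hs).1)
      with d | d | d
    exacts [⟨u, hu, d⟩, ⟨_, (k s hs).1, (k s hs).2 ▸ d⟩, ⟨_, (k t ht).1, (k t ht).2 ▸ d⟩]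
  obtain ⟨i, j, e1, e2, e3⟩ := d_A1b _ d
  have l : ∀ a, ¬ Fx (π u) a → φ a ∉ C[U] := fun a h c => h ((S.fx (UN hu)).1 (mem_cent_iff.1 c u hu))
  exact ⟨_, S.mem _, _, S.mem _, l _ e1, l _ e2, S.add _ _ ▸ l _ e3⟩

theorem A2 (hU : El U) (UN : U ≤ N[W]) (WU : W ≤ N[U])
    (h : ∃ u ∈ U, ∃ u' ∈ U, u ∉ C[W] ∧ u' ∉ C[W] ∧ u * u' ∉ C[W]) :
    ∃ τ, ∃ u ∈ U, ∃ u' ∈ U, τ * π u * τ⁻¹ = s1 ∧ τ * π u' * τ⁻¹ = s2 := by
  obtain ⟨u, hu, u', hu', c1, c2, c3⟩ := h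
  have m : ∀ u ∈ U, ∀ u' ∈ U, π (u * u') = π u * π u' := fun u hu u' hu' => S.mul (UN hu) (UN hu')
  have k : ∀ u ∈ U, ∀ u' ∈ U, u * u' ∉ C[W] → sign (π u) ≠ 1 ∧ sign (π u') ≠ 1 →
      ∃ τ, ∃ u ∈ U, ∃ u' ∈ U, τ * π u * τ⁻¹ = s1 ∧ τ * π u' * τ⁻¹ = s2 := fun u hu u' hu' c d =>
    (d_A3 _ (S.sqU hU UN hu) d.1 _ (S.sqU hU UN hu') d.2 (m u hu u' hu' ▸ mt (S.cen (UN (mul_mem hu hu'))).2 c)
      (m u hu u' hu' ▸ S.sqU hU UN (mul_mem hu hu'))).imp fun τ h => ⟨u, hu, u', hu', h⟩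
  obtain ⟨p, hp, d⟩ := d_A2 _ (mt (S.cen (UN hu)).2 c1) (S.sqU hU UN hu) _ (mt (S.cen (UN hu')).2 c2)
    (S.sqU hU UN hu') (m u hu u' hu' ▸ mt (S.cen (UN (mul_mem hu hu'))).2 c3)
    (m u hu u' hu' ▸ S.sqU hU UN (mul_mem hu hu')) fun i =>
      (S.fx (UN hu')).1 (hU.comm hu' (S.cmO hu (UN hu) (WU (S.mem _))))
  rw [← m u hu u' hu'] at hp
  simp only [List.mem_cons, List.not_mem_nil, or_false] at hp
  rcases hp with rfl | rfl | rfl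
  · exact k u hu u' hu' c3 d
  · exact k u hu _ (mul_mem hu hu') (by rwa [← mul_assoc, hU u hu, one_mul]) d
  · exact k u' hu' _ (mul_mem hu hu') (by rwa [hU.comm hu hu', ← mul_assoc, hU u' hu', one_mul]) d

end Sd

end Cfsg.Agent.Lib.AP2
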