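import Mathlib
import Cfsg.Agent.Lib.AP2b

/-! The block `2⁴ : A₅` (even weight module) does not occur in S3090. -/

set_option autoImplicit false
set_option linter.unusedSectionVars false

namespace Cfsg.Agent.Lib.AP2

open Cfsg Subgroup Cfsg.Agent.Lib.PCoreConj Cfsg.Agent.Lib.PCore Cfsg.Agent.Lib.PCoreResidual
  Cfsg.Agent.Lib.FTDefs Cfsg.Agent.Lib.AP Equiv Equiv.Perm

variable {G : Type*} [Group G] [Finite G] {K W T O : Subgroup G} {x u1 u2 : G} {φ : V → G} {π : G → S5}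

theorem d_Z : ∀ b, Z b ∨ ∃ σ, ¬ Fx σ b ∧ sign σ = 1 := by decide +kernel

theorem last (l : Loc G) (S : Sd K W φ π) (Kr : ∀ g ∈ N[W], ∀ n, g ^ 2 ^ n = 1 → π g = 1 → g ∈ W)
    (c : Oc (φ v0) O) : φ w0 ∈ O := by
  by_contra c1
  have WO : W ≤ N[O] := fun w hw => c.nor w (S.el.comm hw (S.mem _))
  have vO : φ v0 ∈ O := c.cen _ rfl (mem_cent_iff.2 c.com)
  set R := (O ⊓ N[W]) ⊔ W
  have πR : ∀ r ∈ R, r ∈ N[W] ∧ (π r = 1 ∨ π r = s1) := fun r hr => by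
    obtain ⟨o, ho, w, hw, rfl⟩ := (mem_sup_iff_of_le_normalizer inf_le_right).1 hr
    refine ⟨mul_mem ho.2 (le_normalizer hw), ?_⟩
    rw [S.mul ho.2 (le_normalizer hw), S.πW hw, mul_one]
    exact d_L2 _ (S.L1 c (by decide) (by decide) ho.1 ho.2)
  have cR : ∀ a, Fx s1 a → ∀ r ∈ R, r * φ a = φ a * r := fun a ha r hr => (S.fx (πR r hr).1).2 (by
    rcases (πR r hr).2 with k | k <;> rw [k]
    exacts [.inl (aa a), ha])
  obtain ⟨g, gO, gR, gn⟩ : ∃ g ∈ O, g ∈ N[R] ∧ g ∉ R := by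
    by_contra! hn
    have := NC c.pg (c.pg.to_inf_left.to_sup_of_normal_right' S.el.pg inf_le_right)
      (sup_le (inf_le_left.trans le_normalizer) WO) hn
    exact c1 (c.cen _ S.com (mem_cent_iff.2 fun o ho => cR _ (by decide) o (this ho)))
  have key : ∀ w ∈ W, π (g * w * g⁻¹) ≠ s1 → g * w * g⁻¹ ∈ W := fun w hw h =>
    have k := πR _ (nconj gR (mem_sup_right hw))
    Kr _ k.1 1 (by rw [pow_one, pow_two, conj_mul, S.el w hw]; simp) (k.2.resolve_right h)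
  have gW : ¬ ∀ w ∈ W, π (g * w * g⁻¹) ≠ s1 := fun h =>
    gn (mem_sup_left ⟨gO, mem_N fun w hw => key w hw (h w hw)⟩)
  have nf : ∀ w ∈ W, ∀ b, ¬ Fx s1 b → w * (g⁻¹ * φ b * g) = g⁻¹ * φ b * g * w → π (g * w * g⁻¹) ≠ s1 :=
    fun w hw b hb h k => hb (k ▸ (S.fx (πR _ (nconj gR (mem_sup_right hw))).1).1 (by
      calc _ = g * (w * (g⁻¹ * φ b * g)) * g⁻¹ := by group
        _ = _ := by rw [h]; group))
  have mv : ∀ i, i ≠ 0 → i ≠ 1 → g * φ (e i) * g⁻¹ = φ (e i) ∨ g * φ (e i) * g⁻¹ = φ (e i + v0) := fun i i0 i1 => by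
    have f := (by decide : ∀ i, i ≠ 0 → i ≠ 1 → Fx s1 (e i)) i i0 i1
    obtain ⟨b, -, hb⟩ := S.surj _ (key _ (S.mem (e i)) (nf _ (S.mem _) (e 0) (by decide)
      (cR _ f _ (nconj' gR (mem_sup_right (S.mem _)))).symm))
    obtain ⟨w, hw, hr⟩ : ∃ w ∈ W, π (g * w * g⁻¹) = s1 := by simpa using gW
    have rR := nconj gR (mem_sup_right hw : w ∈ R)
    have f2 : Fx s1 (b + e i) := hr ▸ (S.fx (πR _ rR).1).1 (by
      rw [S.add, mul_assoc (φ b), ← cR _ f _ rR, ← mul_assoc, ← mul_assoc (φ b), hb, conj_mul, conj_mul,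
        S.el.comm hw (S.mem _)])
    have hO : φ (b + e i) ∈ O := by
      rw [S.add, hb, mul_assoc, mul_assoc, ← mul_assoc (φ _)]
      exact mul_mem gO (by simpa [S.iv] using nconj (WO (S.mem _)) (inv_mem gO))
    rw [← hb, S.eq, S.eq, ← add_assoc]
    rcases d_c _ f2 with k | k | ⟨τ, t1, t2, k⟩
    · exact .inl k
    · exact .inr k
    obtain ⟨y, hy, rfl⟩ := S.onto τ t2
    have := nconj (c.nor y ((S.fx (S.KN hy)).2 t1)) hO
    rw [S.ac _ (S.KN hy)] at this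
    rcases k with k | k
    exacts [absurd (S.eq.2 k ▸ this) c1, absurd (S.eq.2 k ▸ S.add _ _ ▸ mul_mem this vO) c1]
  obtain ⟨i, i0, i1, hi⟩ : ∃ i, i ≠ 0 ∧ i ≠ 1 ∧ g * φ (e i) * g⁻¹ = φ (e i) := by
    by_contra! hn
    have k : ∀ i, i ≠ 0 → i ≠ 1 → g * φ (e i) * g⁻¹ = φ (e i + v0) := fun i i0 i1 =>
      (mv i i0 i1).resolve_left (hn i i0 i1)
    have := mul_inv_eq_iff_eq_mul.2 (c.com g gO)
    nth_rw 1 [show φ v0 = φ (e 2 + e 3 + e 4) from S.eq.2 (by decide)] at this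
    rw [S.add, S.add, ← conj_mul, ← conj_mul, k 2 (by decide) (by decide), k 3 (by decide) (by decide),
      k 4 (by decide) (by decide), ← S.add, ← S.add, S.eq] at this
    exact absurd this (by decide)
  obtain ⟨O', c'⟩ := exists_oc l (S.sq (a := e i)) (mt (S.ker _).1 ((by decide : ∀ i, ¬ Z (e i)) i))
  obtain ⟨b1, b, b2, b3⟩ := S.B Kr i0 i1 c'
  have k := πR _ (nconj' gR (mem_sup_right (S.mem b)))
  exact gW fun w hw => nf w hw b b3 (mem_cent_iff.1 ((S.cen k.1).2 (k.2.resolve_right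
    (b1 _ (nconj' (c'.nor g (mul_inv_eq_iff_eq_mul.1 hi)) b2) k.1))) w hw)

theorem fin (h : St K W T x) (S : Sd K W φ π) (h1 : u1 ∈ W ^ᶜ x) (h2 : u2 ∈ W ^ᶜ x) (e1 : π u1 = s1)
    (e2 : π u2 = s2) : False := by
  have S' := S.conj x
  have TW : T ≤ N[W] := h.TK.trans h.NKW
  have UN := h.UT.trans TW
  have WU := h.WT.trans h.TU
  have t4 : ∀ t ∈ T, π t 4 = 4 := fun t ht => d_T _ (by
    have k : ∀ a ∈ W ^ᶜ x, ∀ b ∈ W ^ᶜ x, π t * π a * (π t)⁻¹ * π b = π b * (π t * π a * (π t)⁻¹) := fun a ha b hb => by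
      have := nconj (h.TU ht) ha
      rw [← S.cj (TW ht) (UN ha), ← S.mul (UN this) (UN hb), ← S.mul (UN hb) (UN this), S'.el.comm this hb]
    simp only [List.forall_mem_cons, List.not_mem_nil, ← e1, ← e2]
    simp [k _ h1 _ h1, k _ h1 _ h2, k _ h2 _ h1, k _ h2 _ h2])
  obtain ⟨t0, ht0, e3⟩ : ∃ t ∈ T, π t = s3 := by
    obtain ⟨s, hs, t, ht, d1, d2, d3⟩ := S.F1 h
    rcases d_V _ d1 (t4 s hs) _ d2 (t4 t ht) d3 with k | k | k
    exacts [⟨s, hs, k⟩, ⟨t, ht, k⟩, ⟨_, mul_mem hs ht, (S.mul (TW hs) (TW ht)).trans k⟩]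
  have fT : ∀ a, (∀ t ∈ T, t * φ a = φ a * t) → Z a ∨ Z (a + e 4) := fun a k =>
    d_a a (e1 ▸ (S.fx (UN h1)).1 (k _ (h.UT h1))) (e2 ▸ (S.fx (UN h2)).1 (k _ (h.UT h2)))
      (e3 ▸ (S.fx (TW ht0)).1 (k _ ht0))
  have H : ∀ q ∈ T ⊓ C[W], ∃ a, φ a * q ∈ T ⊓ C[K] := fun q hq =>
    (S.h1 hq.2 fun k hk => h.QK (commutator_mem_commutator hq hk)).imp fun a k => ⟨mul_mem (h.WT (S.mem a)) hq.1, k⟩
  have D0 : T ⊓ C[K] = ⊥ := by
    by_contra hne
    obtain ⟨d, hd, dT, d1, d2⟩ := exists_mem_centralizer_pow_eq_one h.pT h.pT.to_inf_left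
      (le_normalizer_inf le_normalizer (le_normalizer_centralizer h.TK)) hne
    have cd : ∀ g, g * d = d * g → g ∈ N[W] := fun g hg => h.NKW (h.uq _ (pg_sq (pow_two d ▸ d2)) (by simpa using d1)
      (sup_le (fun k hk => cN (mem_cent_iff.1 hd.2 k hk)) fun t ht => cN (mem_cent_iff.1 dT t ht)) (cN hg))
    have cT : ∀ t ∈ T, t * (x * d * x⁻¹) = x * d * x⁻¹ * t := fun t ht => by
      calc _ = x * (x⁻¹ * t * x * d) * x⁻¹ := by group
        _ = _ := by rw [mem_cent_iff.1 dT _ (nconj' h.xT ht)]; group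
    obtain ⟨a, ha⟩ := H _ ⟨nconj h.xT hd.1, mem_cent_iff.2 fun w hw => cT w (h.WT hw)⟩
    rcases fT a fun t ht => (S.fx (TW ht)).2 ((d_Z _).resolve_right fun ⟨σ, p1, p2⟩ => p1 (by
      obtain ⟨k, hk, rfl⟩ := S.onto σ p2
      refine (S.fx (S.KN hk)).1 (mem_cent_iff.1 ?_ k hk)
      have a2 : _ ∈ C[K] := ha.2
      convert mul_mem (nconj (le_normalizer_centralizer h.TK ht) a2) (inv_mem a2) using 1
      rw [← S.cm (TW ht), ← mul_assoc t, mul_assoc _ (x * d * x⁻¹), ← cT _ (inv_mem ht)]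
      nth_rw 2 [← S.iv]
      group)) with k | k
    · rw [(S.ker a).2 k, one_mul] at ha
      exact d1 (by simpa using mem_bot.1 (h.DD.le ⟨ha, conj_mem_conj x hd⟩))
    obtain ⟨τ, t1, t2, t3⟩ := d_y
    obtain ⟨y, hy, rfl⟩ := S.onto τ t1
    have y1 : y * φ a = φ a * y := by
      rw [S.eq.2 k, ← mul_inv_eq_iff_eq_mul, S.ac _ (S.KN hy), act_e, t2]
    have y2 := mem_cent_iff.1 ha.2 y hy
    rw [← mul_assoc, y1, mul_assoc, mul_assoc (φ a), mul_left_cancel_iff] at y2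
    have y3 : y ∈ N[W ^ᶜ x] := by
      rw [← conj_normalizer, mem_conj_iff]
      refine cd _ ?_
      calc _ = x⁻¹ * (y * (x * d * x⁻¹)) * x := by group
        _ = _ := by rw [y2]; group
    have := S.sqU S'.el UN (mul_mem h1 (nconj y3 h1))
    rw [S.mul (UN h1) (UN (nconj y3 h1)), S.cj (S.KN hy) (UN h1), e1] at this
    exact t3 this
  have QW : T ⊓ C[W] ≤ W := fun q hq => by
    obtain ⟨a, ha⟩ := H q hq
    rw [D0, mem_bot, mul_eq_one_iff_inv_eq] at ha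
    exact ha ▸ inv_mem (S.mem a)
  have Kr : ∀ g ∈ N[W], ∀ n, g ^ 2 ^ n = 1 → π g = 1 → g ∈ W := fun g hg n hn k => by
    have hP : zpowers g ⊔ W ≤ N[W] := sup_le (zpowers_le.2 hg) le_normalizer
    have hC : zpowers g ⊔ W ≤ C[W] := sup_le (zpowers_le.2 ((S.cen hg).2 k)) (S.el.le_cent le_rfl)
    refine QW ((h.mx _ ((isPGroup_zpowers hn).to_sup_of_normal_right' S.el.pg (zpowers_le.2 hg))
      (QW.trans le_sup_right) (hP.trans h.NWK) (commutator_le.2 fun p hp y hy => S.kerK _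
        (mul_mem (nconj (h.NWK (hP hp)) hy) (inv_mem hy)) ?_)).le (mem_sup_left (mem_zpowers g)))
    have := nconj (h.NWK (hP hp)) hy
    rw [commutatorElement_def, S.mul (S.KN this) (S.KN (inv_mem hy)), S.cj (hP hp) (S.KN hy), (S.cen (hP hp)).1 (hC hp),
      S.inv (S.KN hy)]
    simp
  obtain ⟨O, c⟩ := exists_oc h.loc (S.sq (a := v0)) (mt (S.ker _).1 (by decide))
  have c1 := last h.loc S Kr c
  obtain ⟨a, -, ha⟩ := S'.surj (φ v0) (S.eq.2 (show Z (act (π u1) (e 0) + e 0 + v0) by rw [e1]; decide) ▸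
    S.cmO (a := e 0) h1 (UN h1) (WU (S.mem _)))
  have hz := S'.cm (a := a) (h.TU ht0)
  rw [ha, S.cm (TW ht0), e3, S.eq.2 (by decide : Z (act s3 v0 + v0 + e 4))] at hz
  obtain ⟨n1, n2⟩ := d_ns _ _ ((fT _ fun t ht => by
    have := (S.fx (a := e 4) (TW (nconj h.xT ht))).2 (by rw [Fx, act_e, t4 _ (nconj h.xT ht), aa]; exact .inl rfl)
    rw [hz, conj_mul, conj_mul] at this
    simpa using this).resolve_left fun k => absurd ((S.ker _).1 (hz.trans ((S'.ker _).2 k))) (by decide))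
  obtain ⟨b, -, hb⟩ := S'.surj u2 h2
  have k := S'.cm (a := b) (WU (S.mem w0))
  rw [hb, mul_assoc, mul_assoc, S.iv, ← mul_assoc u2] at k
  nth_rw 2 [← inv_sq (S'.el _ h2)] at k
  rw [S.ac _ (UN h2), e2, ← S.add] at k
  rcases S'.L1 (a := a) (ha ▸ c) n1 n2 c1 (WU (S.mem _)) b with p | p
  · exact absurd ((S.ker _).1 (k.trans ((S'.ker _).2 p))) (by decide)
  · exact absurd (S.eq.1 (k.trans ((S'.eq.2 p).trans ha))) (by decide)

universe u

instance instP2 : AP.P2.{u} where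
  out {_ _ _ _ _ _ x} h a := by
    obtain ⟨φ, π, S⟩ := exists_sd h a
    have S' := S.conj x
    have TW := h.TK.trans h.NKW
    obtain ⟨s, hs, t, ht, d⟩ := S.F1 h
    obtain ⟨τ, u, hu, u', hu', e1, e2⟩ := S.A2 S'.el (h.UT.trans TW) (h.WT.trans h.TU)
      (S'.A1 S.el (h.WT.trans h.TU) h.TU TW ⟨_, nconj h.xT hs, _, nconj h.xT ht, by simpa [mul_assoc] using d⟩
        (mt le_centralizer_iff.1 h.nc))
    exact fin h (S.rel τ) hu hu' e1 e2

end Cfsg.Agent.Lib.AP2
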