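import Cfsg.Agent.Lib.AP3d

/-! The natural configuration (piece P3 of the plan for S3090). -/

set_option autoImplicit false
set_option linter.unusedSectionVars false

namespace Cfsg.Agent.Lib.AP3

open Cfsg Subgroup Cfsg.Agent.Lib.PCoreConj Cfsg.Agent.Lib.PCore Cfsg.Agent.Lib.PCoreResidual
  Cfsg.Agent.Lib.FTDefs Cfsg.Agent.Lib.AP

universe u

variable {G : Type*} [Group G] {F : Type} [Field F]
variable {K W T : Subgroup G} {a b : G → F} {x g : G} [Finite G] [Finite F]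

namespace Ct

variable (H : Ct K W T a b) (h : St K W T x)
include H h

theorem decQ {y : G} (hy : y ∈ T ⊓ C[W]) : ∃ w ∈ W, ∃ d ∈ T ⊓ C[K], w * d = y := by
  rw [H.QD h] at hy
  exact (mem_sup_iff_of_le_normalizer (le_normalizer_of_le_centralizer ((WQ h).trans
    ((le_cent_of_sq (H.eQ h)).trans (centralizer_anti (H.DQ h)))))).1 hy

theorem extend : ∃ a' b' : G → F, ∀ w ∈ W, ∀ d ∈ T ⊓ C[K], a' (w * d) = a w ∧ b' (w * d) = b w := by
  have : ∀ y, ∃ v, ∀ w ∈ W, ∀ d ∈ T ⊓ C[K], w * d = y → a v = a w ∧ b v = b w := fun y => by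
    by_cases hy : ∃ w ∈ W, ∃ d ∈ T ⊓ C[K], w * d = y
    · obtain ⟨v, hv, e, he, rfl⟩ := hy
      refine ⟨v, fun w hw d hd e1 => (H.eq_iff hv hw).1 ?_⟩
      have e2 : v * w⁻¹ = w * (d * e⁻¹) * w⁻¹ := by rw [← mul_assoc, e1]; group
      rw [e2]
      exact cj (normalizer_le_normalizer_centralizer K (le_normalizer (H.WK hw)))
        (mul_mem hd.2 (inv_mem he.2))
    · exact ⟨1, fun w hw d hd e => (hy ⟨w, hw, d, hd, e⟩).elim⟩
  choose π hπ using this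
  exact ⟨fun y => a (π y), fun y => b (π y), fun w hw d hd => hπ _ w hw d hd rfl⟩

theorem pre : ∃ a' b' : G → F, Pre (K ⊔ T ⊓ C[W]) (T ⊓ C[W]) ((T ⊓ C[W]) ^ᶜ x) a' b' := by
  obtain ⟨a', b', hab⟩ := H.extend h
  have h1 : ∀ w ∈ W, a' w = a w ∧ b' w = b w := fun w hw => by simpa using hab w hw 1 (one_mem _)
  have eQ := H.eQ h
  have ND : K ⊔ T ≤ N[T ⊓ C[K]] := sup_le
    (le_normalizer_of_le_centralizer (le_centralizer_iff.1 inf_le_right))
    (le_normalizer_inf le_normalizer (le_normalizer_centralizer h.TK))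
  have tr : ∀ g ∈ K ⊔ T, ∀ α β γ δ, Ac (T ⊓ C[W]) a' b' g α β γ δ ↔ Ac W a b g α β γ δ := by
    intro g hg α β γ δ
    have gW := h.NKW (h.HK hg)
    constructor
    · intro h2 w hw
      have := h2 w (WQ h hw)
      rwa [(h1 w hw).1, (h1 w hw).2, (h1 _ (cj gW hw)).1, (h1 _ (cj gW hw)).2] at this
    · intro h2 y hy
      obtain ⟨w, hw, d, hd, rfl⟩ := H.decQ h hy
      have e : g * (w * d) * g⁻¹ = g * w * g⁻¹ * (g * d * g⁻¹) := by group
      rw [e, (hab w hw d hd).1, (hab w hw d hd).2, (hab _ (cj gW hw) _ (cj (ND hg) hd)).1,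
        (hab _ (cj gW hw) _ (cj (ND hg) hd)).2]
      exact h2 w hw
  have add : ∀ u ∈ T ⊓ C[W], ∀ v ∈ T ⊓ C[W], a' (u * v) = a' u + a' v ∧ b' (u * v) = b' u + b' v := by
    intro u hu v hv
    obtain ⟨w, hw, d, hd, rfl⟩ := H.decQ h hu
    obtain ⟨w', hw', d', hd', rfl⟩ := H.decQ h hv
    have e : w * d * (w' * d') = w * w' * (d * d') := by
      rw [mul_assoc, ← mul_assoc d, ← mem_centralizer_iff.1 hd.2 w' (H.WK hw')]; group
    rw [e, (hab w hw d hd).1, (hab w hw d hd).2, (hab w' hw' d' hd').1, (hab w' hw' d' hd').2,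
      (hab _ (mul_mem hw hw') _ (mul_mem hd hd')).1, (hab _ (mul_mem hw hw') _ (mul_mem hd hd')).2]
    exact ⟨H.adda w hw w' hw', H.addb w hw w' hw'⟩
  have dk : ∀ g ∈ K ⊔ T ⊓ C[W], ∃ k ∈ K, ∃ q ∈ T ⊓ C[W], k * q = g := fun g hg =>
    (mem_sup_iff_of_le_normalizer (KQ h)).1 hg
  have C : Co (K ⊔ T ⊓ C[W]) (T ⊓ C[W]) a' b' := by
    refine ⟨H.two, sup_le (KQ h) le_normalizer, le_sup_right, eQ, fun u hu v hv => (add u hu v hv).1,
      fun u hu v hv => (add u hu v hv).2, fun u hu => ?_, fun s t => ?_, fun g hg => ?_,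
      fun α β γ δ d => ?_, fun g hg h2 => ?_⟩
    · rw [centralizer_sup, mem_inf, and_iff_left (le_cent_of_sq eQ hu)]
      obtain ⟨w, hw, d, hd, rfl⟩ := H.decQ h hu
      rw [(hab w hw d hd).1, (hab w hw d hd).2, ← H.ker w hw, Subgroup.mul_mem_cancel_right _ hd.2]
    · obtain ⟨u, hu, u1, u2⟩ := H.sur s t
      exact ⟨u, WQ h hu, (h1 u hu).1.trans u1, (h1 u hu).2.trans u2⟩
    · obtain ⟨k, hk, q, hq, rfl⟩ := dk g hg
      obtain ⟨α, β, γ, δ, d, h2⟩ := H.act k hk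
      exact ⟨α, β, γ, δ, d, (((tr k (mem_sup_left hk) _ _ _ _).2 h2).mul
        (Ac.of_cent (le_cent_of_sq eQ hq)) (le_normalizer hq)).congr (by ring) (by ring) (by ring)
          (by ring)⟩
    · obtain ⟨k, hk, h2⟩ := H.real α β γ δ d
      exact ⟨k, mem_sup_left hk, (tr k (mem_sup_left hk) _ _ _ _).2 h2⟩
    · obtain ⟨k, hk, q, hq, rfl⟩ := dk g hg
      have := h2.mul (Ac.of_cent (le_cent_of_sq eQ (inv_mem hq))) (le_normalizer (inv_mem hq))
      rw [mul_inv_cancel_right] at this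
      exact mul_mem (WQ h (H.faith k hk ((tr k (mem_sup_left hk) _ _ _ _).1
        (this.congr (by ring) (by ring) (by ring) (by ring))))) hq
  refine ⟨a', b', C, fun t ht => ?_, sq_conj eQ x, fun c => ?_, fun y hy => ?_⟩
  · obtain ⟨t1, c, t2⟩ := H.U4 h ht
    obtain ⟨r, hr, q, hq, e⟩ := H.dec h t1 t2
    exact ⟨e ▸ mul_mem_sup hr.1 hq, c, (tr t (mem_sup_right t1) _ _ _ _).2 t2⟩
  · obtain ⟨u, hu, u1⟩ := (H.U3 h).1 c
    exact ⟨u, conj_mono x (WQ h) hu, (tr u (mem_sup_right (h.UT hu)) _ _ _ _).2 u1⟩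
  · obtain ⟨w, hw, d, hd, rfl⟩ := H.decQ h hy
    have e := (H.U3 h.symm).2
    rw [inv_inv] at e
    rw [(hab w hw d hd).2, Subgroup.mul_mem_cancel_right _ (H.DU h hd), Q_conj h]
    constructor
    · intro h2
      exact (e.le ⟨hw, h2.2⟩).2
    · intro h2
      exact ⟨h.WT hw, (e.ge ⟨hw, h2⟩).2⟩

omit H in
theorem mx' {P : Subgroup G} (hP : IsPGroup 2 P) (h1 : P ≤ N[K]) (h2 : K ⊔ T ⊓ C[W] ≤ N[P]) :
    P ≤ T ⊓ C[W] := by
  have QT : T ⊓ C[W] ≤ N[K] := inf_le_left.trans h.TK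
  have KP := le_sup_left.trans h2
  refine le_sup_left.trans (h.mx _ (isPGroup_sup hP (h.pT.to_le inf_le_left) (le_sup_right.trans h2))
    le_sup_right (sup_le h1 QT) ?_).le
  rw [commutator_comm]
  refine commutator_sup_le (h1.trans h.NKW) (QT.trans h.NKW) ?_ (by rw [commutator_comm]; exact h.QK)
  exact (le_inf (commutator_le_right_of_le_normalizer KP)
    (commutator_le_left_of_le_normalizer h1)).trans ((inf_le_pCoreOf KP hP).trans h.W_eq.ge)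

end Ct

instance : P3.{u} := ⟨fun {G} _ _ {K W T x} h ⟨F, _, _, m, hm, hF, hs, hc⟩ => by
  obtain ⟨a0, b0, H0⟩ := exists_co hF h.W_le h.eW hs hc
  obtain ⟨a, b, H⟩ := H0.exists_ct h
  obtain ⟨a', b', P⟩ := H.pre h
  have pQ : IsPGroup 2 ↥(T ⊓ C[W]) := h.pT.to_le inf_le_left
  have TQ : T ≤ N[T ⊓ C[W]] :=
    le_normalizer_inf le_normalizer (le_normalizer_centralizer (h.TK.trans h.NKW))
  have NQ : N[T ⊓ C[W]] ≤ N[K] := h.uq _ pQ (fun e => h.W_ne (le_bot_iff.1 (e ▸ WQ h)))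
    (sup_le (Ct.KQ h) TQ)
  have OQ : pCoreOf 2 N[W] ≤ T ⊓ C[W] := Ct.mx' h (pCoreOf_isPGroup _ _) ((pCoreOf_le _ _).trans h.NWK)
    ((sup_le (le_normalizer.trans h.NKW) (inf_le_left.trans (h.TK.trans h.NKW))).trans
      (le_normalizer_pCoreOf _ _))
  obtain ⟨C, n, hf⟩ := P.hf hm hF (le_normalizer_sup NQ le_rfl)
    (fun X h1 h2 h3 => Ct.mx' h h1 (h2.trans NQ) h3)
    ((le_inf (centralizer_anti OQ) ((le_normalizer_of_le_centralizer le_rfl).trans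
      (NQ.trans h.NKW))).trans ((h.loc W h.pW h.W_ne).trans OQ))
  refine ⟨2 ^ m, _, _, _, C, n, h.loc, ⟨m, hm, rfl⟩, hf, rfl, ?_, ?_⟩
  · obtain ⟨a2, b2, P2⟩ := H.pre h.symm
    have l : (T ⊓ C[W]) ^ᶜ x ≤ (T ⊓ C[W]) ^ᶜ x⁻¹ := by
      refine P2.le_U (fun t ht => ?_) P.eU P.not_le
      rw [P2.S0_eq]
      obtain ⟨t1, c, t2⟩ := H.U4 h ht
      obtain ⟨u, hu, u1⟩ := (H.U3 h.symm).1 c
      have := mul_mem (mem_sup_right (conj_mono x⁻¹ (WQ h) hu))
        (mem_sup_left (H.same h t1 (h.symm.UT hu) t2 u1))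
      rwa [mul_inv_cancel_left] at this
    rw [eq_of_le_of_card_le l (by rw [card_conj, card_conj]), conj_inv_conj]
  · have e : T ⊓ C[W] ⊓ C[K ⊔ T ⊓ C[W]] = T ⊓ C[K] := by
      rw [centralizer_sup]
      exact le_antisymm (le_inf (inf_le_left.trans inf_le_left) (inf_le_right.trans inf_le_left))
        (le_inf (H.DQ h) (le_inf inf_le_right ((H.DQ h).trans (le_cent_of_sq (H.eQ h)))))
    rw [e]
    exact h.DD⟩

end Cfsg.Agent.Lib.AP3
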