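import Cfsg.Agent.Lib.APDefs

/-! Coordinates for a natural `SL₂(F)`-module in characteristic two. -/

set_option autoImplicit false
set_option linter.unusedSectionVars false

namespace Cfsg.Agent.Lib.AP3

open Cfsg Subgroup Cfsg.Agent.Lib.PCoreConj Cfsg.Agent.Lib.PCore Cfsg.Agent.Lib.PCoreResidual
  Cfsg.Agent.Lib.FTDefs

variable {G : Type*} [Group G] {F : Type} [Field F]

/-- `g` acts by the matrix with the given entries. -/
def Ac (W : Subgroup G) (a b : G → F) (g : G) (α β γ δ : F) : Prop :=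
  ∀ w ∈ W, a (g * w * g⁻¹) = α * a w + β * b w ∧ b (g * w * g⁻¹) = γ * a w + δ * b w

/-- Coordinates on `W / (W ⊓ C[K])`, a natural module for `K / W`. -/
structure Co (K W : Subgroup G) (a b : G → F) : Prop where
  two : (2 : F) = 0
  KN : K ≤ N[W]
  WK : W ≤ K
  eW : ∀ w ∈ W, w * w = 1
  adda : ∀ u ∈ W, ∀ v ∈ W, a (u * v) = a u + a v
  addb : ∀ u ∈ W, ∀ v ∈ W, b (u * v) = b u + b v
  ker : ∀ u ∈ W, u ∈ C[K] ↔ a u = 0 ∧ b u = 0
  sur : ∀ s t, ∃ u ∈ W, a u = s ∧ b u = t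
  act : ∀ k ∈ K, ∃ α β γ δ, α * δ - β * γ = 1 ∧ Ac W a b k α β γ δ
  real : ∀ α β γ δ, α * δ - β * γ = 1 → ∃ k ∈ K, Ac W a b k α β γ δ
  faith : ∀ k ∈ K, Ac W a b k 1 0 0 1 → k ∈ W

variable {K W : Subgroup G} {a b : G → F} {g h : G} {α β γ δ α' β' γ' δ' : F}

theorem cj (hg : g ∈ N[W]) {w : G} (hw : w ∈ W) : g * w * g⁻¹ ∈ W := (mem_normalizer_iff.1 hg w).1 hw

theorem cj' (hg : g ∈ N[W]) {w : G} (hw : w ∈ W) : g⁻¹ * w * g ∈ W := by
  simpa using cj (inv_mem hg) hw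

theorem inv_of_sq {w : G} (h : w * w = 1) : w⁻¹ = w := inv_eq_of_mul_eq_one_right h

theorem comm_of_sq {X : Subgroup G} (h : ∀ w ∈ X, w * w = 1) {u v : G} (hu : u ∈ X) (hv : v ∈ X) :
    u * v = v * u := by
  rw [← inv_of_sq (h _ (mul_mem hu hv)), mul_inv_rev, inv_of_sq (h u hu), inv_of_sq (h v hv)]

theorem le_cent_of_sq {X : Subgroup G} (h : ∀ w ∈ X, w * w = 1) : X ≤ C[X] :=
  fun _ hu => mem_centralizer_iff.2 fun _ hv => comm_of_sq h hv hu

theorem Ac.mul (h1 : Ac W a b g α β γ δ) (h2 : Ac W a b h α' β' γ' δ') (hh : h ∈ N[W]) :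
    Ac W a b (g * h) (α * α' + β * γ') (α * β' + β * δ') (γ * α' + δ * γ') (γ * β' + δ * δ') := by
  intro w hw
  have e : g * h * w * (g * h)⁻¹ = g * (h * w * h⁻¹) * g⁻¹ := by group
  obtain ⟨x1, x2⟩ := h1 _ (cj hh hw)
  obtain ⟨y1, y2⟩ := h2 _ hw
  rw [e, x1, x2, y1, y2]
  constructor <;> ring

theorem Ac.congr (h1 : Ac W a b g α β γ δ) (e1 : α = α') (e2 : β = β') (e3 : γ = γ') (e4 : δ = δ') :
    Ac W a b g α' β' γ' δ' := by
  subst e1 e2 e3 e4; exact h1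

theorem Ac.inv (h1 : Ac W a b g α β γ δ) (hg : g ∈ N[W]) (d : α * δ - β * γ = 1) :
    Ac W a b g⁻¹ δ (-β) (-γ) α := by
  intro w hw
  obtain ⟨x1, x2⟩ := h1 _ (cj' hg hw)
  have e : g * (g⁻¹ * w * g) * g⁻¹ = w := by group
  rw [e] at x1 x2
  rw [inv_inv, x1, x2]
  constructor
  · linear_combination (-a (g⁻¹ * w * g)) * d
  · linear_combination (-b (g⁻¹ * w * g)) * d

theorem Ac.of_cent (hg : g ∈ C[W]) : Ac W a b g 1 0 0 1 := by
  intro w hw
  have e : g * w * g⁻¹ = w := by rw [← mem_centralizer_iff.1 hg w hw]; group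
  rw [e]
  constructor <;> ring

theorem eq_one_of_pow (two : (2 : F) = 0) {x : F} {k : ℕ} (h : x ^ 2 ^ k = 1) : x = 1 := by
  induction k with
  | zero => simpa using h
  | succ k ih =>
    apply ih
    rw [pow_succ, pow_mul] at h
    have : (x ^ 2 ^ k - 1) ^ 2 = 0 := by linear_combination h + (1 - x ^ 2 ^ k) * two
    exact sub_eq_zero.1 (pow_eq_zero_iff (two_ne_zero) |>.1 this)

theorem comm_scalar (φ : F × F → F × F) (add : ∀ u v, φ (u + v) = φ u + φ v)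
    (h : ∀ α β γ δ, α * δ - β * γ = 1 → ∀ s t, φ (α * s + β * t, γ * s + δ * t) =
      (α * (φ (s, t)).1 + β * (φ (s, t)).2, γ * (φ (s, t)).1 + δ * (φ (s, t)).2)) :
    ∃ μ, ∀ s t, φ (s, t) = (μ * s, μ * t) := by
  have h1 : ∀ s, (φ (s, 0)).2 = 0 := fun s => by
    have := congrArg Prod.fst (h 1 1 0 1 (by ring) s 0)
    simpa using this
  have h2 : ∀ t, (φ (0, t)).1 = 0 := fun t => by
    have := congrArg Prod.snd (h 1 0 1 1 (by ring) 0 t)
    simpa using this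
  have sp : ∀ s t, φ (s, t) = φ (s, 0) + φ (0, t) := fun s t => by rw [← add]; simp
  have h3 : ∀ c t, (φ (c * t, 0)).1 = c * (φ (0, t)).2 := fun c t => by
    have := congrArg Prod.fst (h 1 c 0 1 (by ring) 0 t)
    simp only [mul_zero, zero_add, one_mul, zero_mul] at this
    rw [sp, Prod.fst_add, h2] at this
    simpa using this
  refine ⟨(φ (0, 1)).2, fun s t => ?_⟩
  have e1 := h3 s 1
  have e2 := h3 t 1
  have e3 := h3 1 t
  rw [mul_one] at e1 e2
  rw [one_mul, one_mul] at e3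
  rw [sp]
  ext
  · rw [Prod.fst_add, h2, e1]; ring
  · rw [Prod.snd_add, h1, ← e3, e2]; ring

namespace Co

variable (H : Co K W a b)
include H

theorem a_one : a 1 = 0 := by
  have := H.adda 1 (one_mem _) 1 (one_mem _)
  rw [mul_one] at this
  linear_combination -this

theorem b_one : b 1 = 0 := by
  have := H.addb 1 (one_mem _) 1 (one_mem _)
  rw [mul_one] at this
  linear_combination -this

theorem inv {w : G} (hw : w ∈ W) : w⁻¹ = w := inv_of_sq (H.eW w hw)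

theorem uniq (h1 : Ac W a b g α β γ δ) (h2 : Ac W a b g α' β' γ' δ') :
    α = α' ∧ β = β' ∧ γ = γ' ∧ δ = δ' := by
  obtain ⟨u, hu, u1, u2⟩ := H.sur 1 0
  obtain ⟨v, hv, v1, v2⟩ := H.sur 0 1
  have x := h1 u hu
  have x' := h2 u hu
  have y := h1 v hv
  have y' := h2 v hv
  rw [u1, u2] at x x'
  rw [v1, v2] at y y'
  exact ⟨by linear_combination x'.1 - x.1, by linear_combination y'.1 - y.1,
    by linear_combination x'.2 - x.2, by linear_combination y'.2 - y.2⟩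

theorem acW {w : G} (hw : w ∈ W) : Ac W a b w 1 0 0 1 := Ac.of_cent (le_cent_of_sq H.eW hw)

/-- Elements of `K` with the same action differ by an element of `W`. -/
theorem eq_mod {k l : G} (hk : k ∈ K) (hl : l ∈ K) (h1 : Ac W a b k α β γ δ) (h2 : Ac W a b l α β γ δ)
    (d : α * δ - β * γ = 1) : k * l⁻¹ ∈ W :=
  H.faith _ (mul_mem hk (inv_mem hl)) ((h1.mul (h2.inv (H.KN hl) d) (inv_mem (H.KN hl))).congr
    (by linear_combination d) (by ring) (by ring) (by linear_combination d))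

theorem eq_iff {u v : G} (hu : u ∈ W) (hv : v ∈ W) : u * v⁻¹ ∈ C[K] ↔ a u = a v ∧ b u = b v := by
  rw [H.inv hv, H.ker _ (mul_mem hu hv), H.adda _ hu _ hv, H.addb _ hu _ hv]
  constructor
  · exact fun h => ⟨by linear_combination h.1 - a v * H.two, by linear_combination h.2 - b v * H.two⟩
  · exact fun h => ⟨by linear_combination h.1 + a v * H.two, by linear_combination h.2 + b v * H.two⟩

theorem wd (hK : g ∈ N[K]) (hW : g ∈ N[W]) {u v : G} (hu : u ∈ W) (hv : v ∈ W) (e1 : a u = a v)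
    (e2 : b u = b v) : a (g * u * g⁻¹) = a (g * v * g⁻¹) ∧ b (g * u * g⁻¹) = b (g * v * g⁻¹) := by
  rw [← H.eq_iff (cj hW hu) (cj hW hv)]
  have := cj (normalizer_le_normalizer_centralizer K hK) ((H.eq_iff hu hv).2 ⟨e1, e2⟩)
  convert this using 1
  group

theorem exB (g : G) : ∃ B : F × F → F × F, g ∈ N[K] → g ∈ N[W] →
    ∀ w ∈ W, B (a w, b w) = (a (g * w * g⁻¹), b (g * w * g⁻¹)) := by
  choose r r1 r2 r3 using H.sur
  refine ⟨fun v => (a (g * r v.1 v.2 * g⁻¹), b (g * r v.1 v.2 * g⁻¹)), fun hK hW w hw => ?_⟩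
  obtain ⟨x1, x2⟩ := H.wd hK hW (r1 (a w) (b w)) hw (r2 _ _) (r3 _ _)
  exact Prod.ext x1 x2

/-- An element acting trivially on the module centralises `K / W`. -/
theorem triv (hK : g ∈ N[K]) (hW : g ∈ N[W]) (h1 : Ac W a b g 1 0 0 1) {k : G} (hk : k ∈ K) :
    g * k * g⁻¹ * k⁻¹ ∈ W := by
  obtain ⟨α, β, γ, δ, d, h2⟩ := H.act k hk
  refine H.eq_mod (cj hK hk) hk (((h1.mul h2 (H.KN hk)).mul (h1.inv hW (by ring)) (inv_mem hW)).congr
    (by ring) (by ring) (by ring) (by ring)) h2 d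

/-- The normaliser acts semilinearly. -/
theorem semi (hK : g ∈ N[K]) (hW : g ∈ N[W]) : ∃ (σ : F → F) (α β γ δ : F), σ 1 = 1 ∧ σ 0 = 0 ∧
    (γ = 0 → α ≠ 0 ∧ δ ≠ 0) ∧ ∀ w ∈ W, a (g * w * g⁻¹) = α * σ (a w) + β * σ (b w) ∧
      b (g * w * g⁻¹) = γ * σ (a w) + δ * σ (b w) := by
  have gen : ∀ g ∈ N[K], g ∈ N[W] → ∀ B : F × F → F × F,
      (∀ w ∈ W, B (a w, b w) = (a (g * w * g⁻¹), b (g * w * g⁻¹))) →
      ∀ u v, B (u + v) = B u + B v := fun g hK hW B hB u v => by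
    obtain ⟨x, hx, x1, x2⟩ := H.sur u.1 u.2
    obtain ⟨y, hy, y1, y2⟩ := H.sur v.1 v.2
    have e1 : u = (a x, b x) := Prod.ext x1.symm x2.symm
    have e2 : v = (a y, b y) := Prod.ext y1.symm y2.symm
    have e3 : u + v = (a (x * y), b (x * y)) := by
      rw [H.adda _ hx _ hy, H.addb _ hx _ hy, e1, e2]; rfl
    have e4 : g * (x * y) * g⁻¹ = (g * x * g⁻¹) * (g * y * g⁻¹) := by group
    rw [e3, hB _ (mul_mem hx hy), e1, e2, hB _ hx, hB _ hy, e4, H.adda _ (cj hW hx) _ (cj hW hy),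
      H.addb _ (cj hW hx) _ (cj hW hy)]
    rfl
  obtain ⟨B, hB⟩ := H.exB g
  obtain ⟨B', hB'⟩ := H.exB g⁻¹
  replace hB := hB hK hW
  replace hB' := hB' (inv_mem hK) (inv_mem hW)
  have aB := gen g hK hW B hB
  have aB' := gen _ (inv_mem hK) (inv_mem hW) B' hB'
  have i1 : ∀ v, B' (B v) = v := fun v => by
    obtain ⟨x, hx, x1, x2⟩ := H.sur v.1 v.2
    have e1 : v = (a x, b x) := Prod.ext x1.symm x2.symm
    have e2 : g⁻¹ * (g * x * g⁻¹) * g⁻¹⁻¹ = x := by group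
    rw [e1, hB _ hx, hB' _ (cj hW hx), e2]
  have sc : ∀ l : F, ∃ μ, (l = 1 → μ = 1) ∧ (l = 0 → μ = 0) ∧
      ∀ s t, B (l * s, l * t) = (μ * (B (s, t)).1, μ * (B (s, t)).2) := fun l => by
    by_cases l1 : l = 1
    · exact ⟨1, fun _ => rfl, fun h => (one_ne_zero (l1.symm.trans h)).elim, fun s t => by simp [l1]⟩
    by_cases l0 : l = 0
    · refine ⟨0, fun h => (l1 h).elim, fun _ => rfl, fun s t => ?_⟩
      have := aB 0 0
      rw [add_zero, left_eq_add] at this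
      rw [l0, zero_mul, zero_mul, zero_mul, zero_mul]
      exact this
    obtain ⟨μ, hμ⟩ := comm_scalar (fun v => B (l * (B' v).1, l * (B' v).2)) (fun u v => by
      rw [aB', ← aB]
      congr 1
      ext <;> simp [mul_add]) (fun α β γ δ d s t => by
      obtain ⟨k, hk, k1⟩ := H.real α β γ δ d
      obtain ⟨α', β', γ', δ', -, k2⟩ := H.act _ (cj' hK hk)
      obtain ⟨x, hx, rfl, rfl⟩ := H.sur s t
      have x0 := cj (inv_mem hW) hx
      obtain ⟨y, hy, y1, y2⟩ := H.sur (l * a (g⁻¹ * x * g⁻¹⁻¹)) (l * b (g⁻¹ * x * g⁻¹⁻¹))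
      have e1 : g⁻¹ * (k * x * k⁻¹) * g⁻¹⁻¹ = g⁻¹ * k * g * (g⁻¹ * x * g⁻¹⁻¹) * (g⁻¹ * k * g)⁻¹ := by
        group
      have e2 : g * (g⁻¹ * k * g * y * (g⁻¹ * k * g)⁻¹) * g⁻¹ = k * (g * y * g⁻¹) * k⁻¹ := by group
      have e3 : (l * (α' * a (g⁻¹ * x * g⁻¹⁻¹) + β' * b (g⁻¹ * x * g⁻¹⁻¹)),
          l * (γ' * a (g⁻¹ * x * g⁻¹⁻¹) + δ' * b (g⁻¹ * x * g⁻¹⁻¹))) =
          (a (g⁻¹ * k * g * y * (g⁻¹ * k * g)⁻¹), b (g⁻¹ * k * g * y * (g⁻¹ * k * g)⁻¹)) := by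
        rw [(k2 y hy).1, (k2 y hy).2, y1, y2]
        ext <;> ring
      rw [← (k1 x hx).1, ← (k1 x hx).2, hB' _ (cj (H.KN hk) hx), hB' _ hx, e1, (k2 _ x0).1, (k2 _ x0).2]
      simp only
      rw [e3, hB _ (cj (H.KN (cj' hK hk)) hy), e2, ← y1, ← y2, hB _ hy, (k1 _ (cj hW hy)).1,
        (k1 _ (cj hW hy)).2])
    refine ⟨μ, fun h => (l1 h).elim, fun h => (l0 h).elim, fun s t => ?_⟩
    have := hμ (B (s, t)).1 (B (s, t)).2
    simp only [Prod.mk.eta, i1] at this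
    exact this
  choose σ s1 s0 s2 using sc
  have main : ∀ w ∈ W, a (g * w * g⁻¹) = (B (1, 0)).1 * σ (a w) + (B (0, 1)).1 * σ (b w) ∧
      b (g * w * g⁻¹) = (B (1, 0)).2 * σ (a w) + (B (0, 1)).2 * σ (b w) := fun w hw => by
    have e : (a w, b w) = (a w * 1, a w * 0) + (b w * 0, b w * 1) := by simp
    have := hB w hw
    rw [e, aB, s2, s2, Prod.mk_add_mk, Prod.mk.injEq] at this
    exact ⟨by linear_combination -this.1, by linear_combination -this.2⟩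
  refine ⟨σ, _, _, _, _, s1 1 rfl, s0 0 rfl, fun h0 => ⟨fun h1 => ?_, fun h1 => ?_⟩, main⟩
  · have e := i1 (1, 0)
    have e0 : B (1, 0) = 0 := Prod.ext h1 h0
    have := aB' 0 0
    rw [add_zero, left_eq_add] at this
    rw [e0, this] at e
    exact zero_ne_one (congrArg Prod.fst e)
  · obtain ⟨x, hx, -, x2⟩ := H.sur 0 1
    have := (main _ (cj' hW hx)).2
    have e : g * (g⁻¹ * x * g) * g⁻¹ = x := by group
    rw [e, x2, h0, h1] at this
    simp at this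

/-- Diagonal entries of triangular `2`-elements. -/
theorem diag (hW : g ∈ N[W]) (h1 : Ac W a b g α β 0 δ) {k : ℕ} (hk : g ^ 2 ^ k = 1) : δ = 1 := by
  have : ∀ n : ℕ, ∀ w ∈ W, b (g ^ n * w * (g ^ n)⁻¹) = δ ^ n * b w := fun n => by
    induction n with
    | zero => intro w _; simp
    | succ n ih =>
      intro w hw
      have e : g ^ (n + 1) * w * (g ^ (n + 1))⁻¹ = g * (g ^ n * w * (g ^ n)⁻¹) * g⁻¹ := by
        rw [pow_succ']; group
      rw [e, (h1 _ (cj (pow_mem hW n) hw)).2, ih w hw]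
      ring
  obtain ⟨x, hx, -, x2⟩ := H.sur 0 1
  have e := this (2 ^ k) x hx
  rw [hk, x2] at e
  simp only [one_mul, inv_one, mul_one, x2] at e
  exact eq_one_of_pow H.two e.symm

/-- A `2`-element acting trivially on the first line is unipotent. -/
theorem uni1 (hK : g ∈ N[K]) (hW : g ∈ N[W]) {k : ℕ} (hk : g ^ 2 ^ k = 1)
    (h : ∀ w ∈ W, b w = 0 → a (g * w * g⁻¹) = a w ∧ b (g * w * g⁻¹) = 0) : ∃ c, Ac W a b g 1 c 0 1 := by
  obtain ⟨σ, α, β, γ, δ, s1, s0, -, hs⟩ := H.semi hK hW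
  have l : ∀ s, α * σ s = s ∧ γ * σ s = 0 := fun s => by
    obtain ⟨x, hx, x1, x2⟩ := H.sur s 0
    have e := hs x hx
    rw [(h x hx x2).1, (h x hx x2).2, x1, x2, s0] at e
    exact ⟨by linear_combination -e.1, by linear_combination -e.2⟩
  have a1 : α = 1 := by simpa [s1] using (l 1).1
  have g0 : γ = 0 := by simpa [s1] using (l 1).2
  have s : ∀ s, σ s = s := fun s => by simpa [a1] using (l s).1
  have h1 : Ac W a b g 1 β 0 δ := fun w hw => by simpa [s, a1, g0] using hs w hw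
  exact ⟨β, h1.congr rfl rfl rfl (H.diag hW h1 hk)⟩

/-- A `2`-element commuting with the unipotent elements is unipotent. -/
theorem uni2 (hK : g ∈ N[K]) (hW : g ∈ N[W]) {k : ℕ} (hk : g ^ 2 ^ k = 1)
    (h : ∀ c, ∃ r ∈ N[W], Ac W a b r 1 c 0 1 ∧ Ac W a b (g * r * g⁻¹) 1 c 0 1) :
    ∃ c, Ac W a b g 1 c 0 1 := by
  obtain ⟨σ, α, β, γ, δ, s1, s0, nd, hs⟩ := H.semi hK hW
  obtain ⟨y, hy, y1, y2⟩ := H.sur 0 1
  have l : ∀ c, α * σ c = c * δ ∧ γ * σ c = 0 := fun c => by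
    obtain ⟨r, hr, r1, r2⟩ := h c
    have e : g * r * g⁻¹ * (g * y * g⁻¹) * (g * r * g⁻¹)⁻¹ = g * (r * y * r⁻¹) * g⁻¹ := by group
    have e1 := r2 _ (cj hW hy)
    have e2 := hs _ (cj hr hy)
    have e3 := hs _ hy
    rw [(r1 y hy).1, (r1 y hy).2, y1, y2] at e2
    rw [y1, y2, s0, s1] at e3
    rw [e, e2.1, e2.2, e3.1, e3.2] at e1
    simp only [mul_zero, zero_add, mul_one, one_mul, zero_mul, s1] at e1
    exact ⟨by linear_combination e1.1, by linear_combination e1.2⟩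
  have g0 : γ = 0 := by simpa [s1] using (l 1).2
  have a1 : α = δ := by simpa [s1] using (l 1).1
  have s : ∀ s, σ s = s := fun s => mul_left_cancel₀ (nd g0).1 (by rw [(l s).1, a1, mul_comm])
  have h1 : Ac W a b g δ β 0 δ := fun w hw => by simpa [s, a1, g0] using hs w hw
  have d1 := H.diag hW h1 hk
  exact ⟨β, h1.congr d1 rfl rfl d1⟩

/-- A `2`-group fixes a non-zero vector. -/
theorem fixv [Finite F] {P : Subgroup G} (hP : IsPGroup 2 P) (hK : P ≤ N[K]) (hW : P ≤ N[W]) :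
    ∃ w ∈ W, ¬ (a w = 0 ∧ b w = 0) ∧ ∀ p ∈ P, a (p * w * p⁻¹) = a w ∧ b (p * w * p⁻¹) = b w := by
  choose B hB using H.exB
  let _ : MulAction P (F × F) :=
    { smul := fun p v => B p v
      one_smul := fun v => by
        obtain ⟨x, hx, x1, x2⟩ := H.sur v.1 v.2
        have e1 : v = (a x, b x) := Prod.ext x1.symm x2.symm
        change B (1 : G) v = v
        rw [e1, hB 1 (one_mem _) (one_mem _) x hx]
        simp
      mul_smul := fun p q v => by
        obtain ⟨x, hx, x1, x2⟩ := H.sur v.1 v.2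
        have e1 : v = (a x, b x) := Prod.ext x1.symm x2.symm
        change B ((p : G) * q) v = B p (B q v)
        have e : (p : G) * q * x * ((p : G) * q)⁻¹ = p * (q * x * (q : G)⁻¹) * (p : G)⁻¹ := by group
        rw [e1, hB _ (hK (mul_mem p.2 q.2)) (hW (mul_mem p.2 q.2)) x hx, hB _ (hK q.2) (hW q.2) x hx,
          hB _ (hK p.2) (hW p.2) _ (cj (hW q.2) hx), e] }
  have hd : 2 ∣ Nat.card (F × F) := by
    have : addOrderOf ((1, 0) : F × F) = 2 := by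
      refine addOrderOf_eq_prime ?_ (by simp)
      ext
      · simpa using H.two
      · simp
    exact this ▸ addOrderOf_dvd_natCard _
  obtain ⟨v, hv, hne⟩ := hP.exists_fixed_point_of_prime_dvd_card_of_fixed_point (F × F) hd
    (a := (0, 0)) (fun p => by
      change B p (0, 0) = (0, 0)
      have := hB _ (hK p.2) (hW p.2) 1 (one_mem _)
      simpa [H.a_one, H.b_one] using this)
  obtain ⟨x, hx, x1, x2⟩ := H.sur v.1 v.2
  refine ⟨x, hx, fun h => hne (Prod.ext (by simp [← x1, h.1]) (by simp [← x2, h.2])), fun p hp => ?_⟩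
  have e1 : v = (a x, b x) := Prod.ext x1.symm x2.symm
  have : B p v = v := hv ⟨p, hp⟩
  rw [e1, hB _ (hK hp) (hW hp) x hx, Prod.mk.injEq] at this
  exact this

end Co

end Cfsg.Agent.Lib.AP3
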