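import Cfsg.Agent.Lib.AP3a

/-! The unipotent subgroup and the torus in the natural configuration. -/

set_option autoImplicit false
set_option linter.unusedSectionVars false

namespace Cfsg.Agent.Lib.AP3

open Cfsg Subgroup Cfsg.Agent.Lib.PCoreConj Cfsg.Agent.Lib.PCore Cfsg.Agent.Lib.PCoreResidual
  Cfsg.Agent.Lib.FTDefs

variable {G : Type*} [Group G] {F : Type} [Field F]
variable {K W U : Subgroup G} {a b : G → F} {g h : G} {α β γ δ α' β' γ' δ' : F}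

theorem card_add (X Y : Subgroup G) (φ : G → F) (add : ∀ u ∈ X, ∀ v ∈ X, φ (u * v) = φ u + φ v)
    (ker : ∀ x ∈ X, x ∈ Y ↔ φ x = 0) :
    Nat.card X = Nat.card (φ '' (X : Set G)) * Nat.card ↥(X ⊓ Y) := by
  let f : X →* Multiplicative F := MonoidHom.mk' (fun x => Multiplicative.ofAdd (φ x))
    (fun u v => by rw [← ofAdd_add, ← add _ u.2 _ v.2]; rfl)
  have e1 : Nat.card f.range = Nat.card (φ '' (X : Set G)) := by
    refine Nat.card_congr (Multiplicative.toAdd.subtypeEquiv fun y => ?_)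
    constructor
    · rintro ⟨x, rfl⟩
      exact ⟨x, x.2, rfl⟩
    · rintro ⟨x, hx, e⟩
      exact ⟨⟨x, hx⟩, congrArg Multiplicative.ofAdd e⟩
  have e2 : f.ker = (X ⊓ Y).subgroupOf X := by
    ext x
    rw [MonoidHom.mem_ker, mem_subgroupOf, mem_inf, ker _ x.2]
    exact ⟨fun h => ⟨x.2, h⟩, fun h => h.2⟩
  rw [← e1, ← Nat.card_congr (subgroupOfEquivOfLe (inf_le_left : X ⊓ Y ≤ X)).toEquiv, ← e2,
    ← card_mul_index f.ker, index_ker, mul_comm]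

theorem card_sur (X Y : Subgroup G) (φ : G → F) (add : ∀ u ∈ X, ∀ v ∈ X, φ (u * v) = φ u + φ v)
    (ker : ∀ x ∈ X, x ∈ Y ↔ φ x = 0) (sur : ∀ s, ∃ x ∈ X, φ x = s) :
    Nat.card X = Nat.card F * Nat.card ↥(X ⊓ Y) := by
  rw [card_add X Y φ add ker, Set.eq_univ_of_forall (s := φ '' (X : Set G)) sur, Nat.card_univ]

theorem sur_of_card [Finite G] [Finite F] (X Y : Subgroup G) (φ : G → F)
    (add : ∀ u ∈ X, ∀ v ∈ X, φ (u * v) = φ u + φ v) (ker : ∀ x ∈ X, x ∈ Y ↔ φ x = 0)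
    (h : Nat.card F * Nat.card ↥(X ⊓ Y) ≤ Nat.card X) (s : F) : ∃ x ∈ X, φ x = s := by
  rw [card_add X Y φ add ker] at h
  have h1 := Nat.le_of_mul_le_mul_right h Nat.card_pos
  have : φ '' (X : Set G) = Set.univ :=
    Set.eq_of_subset_of_ncard_le (Set.subset_univ _) (by rwa [Set.ncard_univ])
  exact (Set.eq_univ_iff_forall.1 this) s

theorem Ac.pow (h1 : Ac W a b g α 0 0 δ) (hg : g ∈ N[W]) (n : ℕ) :
    Ac W a b (g ^ n) (α ^ n) 0 0 (δ ^ n) := by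
  induction n with
  | zero => simpa using Ac.of_cent (W := W) (a := a) (b := b) (one_mem _)
  | succ n ih =>
    rw [pow_succ]
    exact (ih.mul h1 hg).congr (by ring) (by ring) (by ring) (by ring)

namespace Co

variable (H : Co K W a b)
include H

/-- The unipotent elements of `K`. -/
def S0 : Subgroup G where
  carrier := {k | k ∈ K ∧ ∃ c, Ac W a b k 1 c 0 1}
  one_mem' := ⟨one_mem _, 0, Ac.of_cent (one_mem _)⟩
  mul_mem' := by
    rintro k l ⟨hk, c, h1⟩ ⟨hl, d, h2⟩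
    exact ⟨mul_mem hk hl, c + d, (h1.mul h2 (H.KN hl)).congr (by ring) (by ring) (by ring) (by ring)⟩
  inv_mem' := by
    rintro k ⟨hk, c, h1⟩
    exact ⟨inv_mem hk, -c, (h1.inv (H.KN hk) (by ring)).congr rfl rfl (by ring) rfl⟩

omit H in
/-- The elements acting trivially on the module. -/
def Kr (_ : Co K W a b) : Subgroup G where
  carrier := {k | k ∈ N[K] ∧ k ∈ N[W] ∧ Ac W a b k 1 0 0 1}
  one_mem' := ⟨one_mem _, one_mem _, Ac.of_cent (one_mem _)⟩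
  mul_mem' := by
    rintro k l ⟨hk, hk', h1⟩ ⟨hl, hl', h2⟩
    exact ⟨mul_mem hk hl, mul_mem hk' hl',
      (h1.mul h2 hl').congr (by ring) (by ring) (by ring) (by ring)⟩
  inv_mem' := by
    rintro k ⟨hk, hk', h1⟩
    exact ⟨inv_mem hk, inv_mem hk', (h1.inv hk' (by ring)).congr rfl (by ring) (by ring) rfl⟩

theorem Kr_comm : ⁅H.Kr, K⁆ ≤ W :=
  commutator_le.2 fun _ hg _ hk => H.triv hg.1 hg.2.1 hg.2.2 hk

theorem W_Kr : W ≤ H.Kr := fun _ hw =>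
  ⟨le_normalizer (H.WK hw), le_normalizer hw, H.acW hw⟩

theorem W_S0 : W ≤ H.S0 := fun _ hw => ⟨H.WK hw, 0, H.acW hw⟩

theorem S0_K : H.S0 ≤ K := fun _ h => h.1

theorem pS0 : IsPGroup 2 H.S0 := by
  refine isPGroup_iff_forall_mem.2 fun k ⟨hk, c, h1⟩ => ⟨2, ?_⟩
  have : k * k ∈ W := H.faith _ (mul_mem hk hk) ((h1.mul h1 (H.KN hk)).congr (by ring)
    (by linear_combination c * H.two) (by ring) (by ring))
  rw [← H.eW _ this, show 2 ^ 2 = 1 + 1 + 1 + 1 from rfl, pow_succ, pow_succ, pow_succ, pow_one]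
  group

theorem mem_S0 {k w : G} (hk : k ∈ K) (hw : w ∈ W) (h0 : a w ≠ 0) (h1 : b w = 0)
    (e1 : a (k * w * k⁻¹) = a w) (e2 : b (k * w * k⁻¹) = b w) : k ∈ H.S0 := by
  obtain ⟨α, β, γ, δ, d, h2⟩ := H.act k hk
  obtain ⟨x1, x2⟩ := h2 w hw
  rw [e1, h1] at x1
  rw [e2, h1] at x2
  have a1 : α = 1 := mul_right_cancel₀ h0 (by linear_combination -x1)
  have g0 : γ = 0 := mul_right_cancel₀ h0 (by linear_combination -x2)
  exact ⟨hk, β, h2.congr a1 rfl g0 (by rw [a1, g0] at d; linear_combination d)⟩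

theorem norm_S0 [Finite G] (hK : g ∈ N[K]) (hW : g ∈ N[W]) {w : G} (hw : w ∈ W) (h0 : a w ≠ 0)
    (h1 : b w = 0) (h2 : b (g⁻¹ * w * g) = 0) : g ∈ N[H.S0] := by
  refine mem_normalizer_of_conj_le (conj_le_iff.2 fun k ⟨hk, c, h3⟩ => ?_)
  have hw' := cj' hW hw
  obtain ⟨x1, x2⟩ := h3 _ hw'
  have := H.wd hK hW (cj (H.KN hk) hw') hw' (by rw [x1, h2]; ring) (by rw [x2, h2]; ring)
  have e1 : g * (k * (g⁻¹ * w * g) * k⁻¹) * g⁻¹ = g * k * g⁻¹ * w * (g * k * g⁻¹)⁻¹ := by group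
  have e2 : g * (g⁻¹ * w * g) * g⁻¹ = w := by group
  rw [e1, e2] at this
  exact H.mem_S0 (cj hK hk) hw h0 h1 this.1 this.2

/-- `K` is generated by two unipotent subgroups. -/
theorem gen {n : G} (hn : n ∈ K) (h1 : Ac W a b n 0 1 1 0) {L : Subgroup G} (l1 : H.S0 ≤ L)
    (l2 : H.S0 ^ᶜ n ≤ L) : K ≤ L := by
  have up : ∀ c, ∃ r ∈ K, r ∈ L ∧ Ac W a b r 1 c 0 1 := fun c => by
    obtain ⟨r, hr, r1⟩ := H.real 1 c 0 1 (by ring)
    exact ⟨r, hr, l1 ⟨hr, c, r1⟩, r1⟩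
  have d0 : (0 : F) * 0 - 1 * 1 = 1 := by linear_combination -H.two
  have lo : ∀ c, ∃ r ∈ K, r ∈ L ∧ Ac W a b r 1 0 c 1 := fun c => by
    obtain ⟨r, hr, r1⟩ := H.real 1 c 0 1 (by ring)
    refine ⟨_, mul_mem (mul_mem hn hr) (inv_mem hn), l2 (conj_mem_conj n ⟨hr, c, r1⟩),
      ((h1.mul r1 (H.KN hr)).mul (h1.inv (H.KN hn) d0) (inv_mem (H.KN hn))).congr ?_ (by ring) ?_ ?_⟩
    · linear_combination -H.two
    · linear_combination -c * H.two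
    · linear_combination -H.two
  have key : ∀ k ∈ K, ∀ α β γ δ, α * δ - β * γ = 1 → Ac W a b k α β γ δ → γ ≠ 0 → k ∈ L := by
    intro k hk α β γ δ d h2 hγ
    obtain ⟨r, hr, r0, r1⟩ := up ((α - 1) / γ)
    obtain ⟨s, hs, s0, s1⟩ := lo γ
    obtain ⟨t, ht, t0, t1⟩ := up ((δ - 1) / γ)
    have h3 := ((r1.mul s1 (H.KN hs)).mul t1 (H.KN ht)).congr (α' := α) (β' := β) (γ' := γ) (δ' := δ)
      (by field_simp; ring) (by field_simp; linear_combination d) (by ring) (by field_simp; ring)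
    have := l1 (H.W_S0 (H.eq_mod hk (mul_mem (mul_mem hr hs) ht) h2 h3 d))
    have := mul_mem this (mul_mem (mul_mem r0 s0) t0)
    rwa [inv_mul_cancel_right] at this
  intro k hk
  obtain ⟨α, β, γ, δ, d, h2⟩ := H.act k hk
  by_cases hγ : γ = 0
  · obtain ⟨s, hs, s0, s1⟩ := lo 1
    have := key _ (mul_mem hk hs) _ _ _ _ (by linear_combination d) (h2.mul s1 (H.KN hs)) (by
      intro e
      have : δ = 0 := by linear_combination e - hγ
      rw [this, hγ] at d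
      simp at d)
    simpa using mul_mem this (inv_mem s0)
  · exact key k hk _ _ _ _ d h2 hγ

/-- The torus. -/
theorem torus [Finite G] [Fintype F] {m : ℕ} (hm : 2 ≤ m) (hF : Fintype.card F = 2 ^ m) :
    ∃ C : Subgroup G, IsCyclic C ∧ Nat.card C + 1 = 2 ^ m ∧
      (∀ c ∈ C, c ∈ K ∧ ∃ l, l ≠ 0 ∧ Ac W a b c l 0 0 l⁻¹ ∧ (l = 1 → c = 1)) ∧
      (∀ l, l ≠ 0 → ∃ c ∈ C, Ac W a b c l 0 0 l⁻¹) ∧
      ∃ l : F, l ≠ 0 ∧ l ≠ 1 ∧ (4 < 2 ^ m → l ^ 3 ≠ 1) := by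
  classical
  obtain ⟨ξ, hξ⟩ := IsCyclic.exists_generator (α := Fˣ)
  have o : orderOf ξ = 2 ^ m - 1 := by
    rw [orderOf_eq_card_of_forall_mem_zpowers hξ, Nat.card_eq_fintype_card, Fintype.card_units, hF]
  have q4 : 4 ≤ 2 ^ m := by
    calc 4 = 2 ^ 2 := rfl
      _ ≤ 2 ^ m := Nat.pow_le_pow_right (by decide) hm
  have po : ∀ n : ℕ, (ξ : F) ^ n = 1 ↔ (2 ^ m - 1) ∣ n := fun n => by
    rw [← o, orderOf_dvd_iff_pow_eq_one, ← Units.val_pow_eq_pow_val, Units.val_eq_one]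
  obtain ⟨k, hk, k1⟩ := H.real ξ 0 0 (ξ : F)⁻¹ (by simp)
  have k2 : k ^ (2 ^ m - 1) ∈ W := H.faith _ (pow_mem hk _) ((k1.pow (H.KN hk) _).congr
    ((po _).2 dvd_rfl) rfl rfl (by rw [inv_pow, (po _).2 dvd_rfl, inv_one]))
  have e : (ξ : F) ^ 2 ^ m = ξ := by rw [← hF, FiniteField.pow_card]
  have c1 : Ac W a b (k ^ 2 ^ m) ξ 0 0 (ξ : F)⁻¹ :=
    (k1.pow (H.KN hk) _).congr e rfl rfl (by rw [inv_pow, e])
  have cK : k ^ 2 ^ m ∈ K := pow_mem hk _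
  have c2 : (k ^ 2 ^ m) ^ (2 ^ m - 1) = 1 := by
    obtain ⟨j, rfl⟩ : ∃ j, m = j + 1 := ⟨m - 1, by omega⟩
    rw [← pow_mul, mul_comm, pow_mul]
    generalize k ^ (2 ^ (j + 1) - 1) = y at k2
    rw [pow_succ', pow_mul, sq, H.eW _ k2, one_pow]
  generalize k ^ 2 ^ m = c at c1 cK c2
  have cn : ∀ n : ℕ, Ac W a b (c ^ n) ((ξ : F) ^ n) 0 0 ((ξ : F) ^ n)⁻¹ := fun n =>
    (c1.pow (H.KN cK) n).congr rfl rfl rfl (inv_pow _ _)
  have c3 : ∀ n : ℕ, (ξ : F) ^ n = 1 → c ^ n = 1 := fun n h => by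
    obtain ⟨j, rfl⟩ := (po n).1 h
    rw [pow_mul, c2, one_pow]
  have oc : orderOf c = 2 ^ m - 1 := by
    refine Nat.dvd_antisymm (orderOf_dvd_of_pow_eq_one c2) ((po _).1 ?_)
    have := cn (orderOf c)
    rw [pow_orderOf_eq_one] at this
    exact (H.uniq this (Ac.of_cent (one_mem _))).1
  refine ⟨zpowers c, inferInstance, by rw [Nat.card_zpowers, oc]; omega, fun d hd => ?_, fun l hl => ?_,
    ξ, ξ.ne_zero, fun h => ?_, fun h4 h => ?_⟩
  · obtain ⟨n, rfl⟩ := mem_powers_iff_mem_zpowers.2 hd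
    exact ⟨pow_mem cK n, _, pow_ne_zero _ ξ.ne_zero, cn n, c3 n⟩
  · obtain ⟨n, hn⟩ := mem_powers_iff_mem_zpowers.2 (hξ (Units.mk0 l hl))
    have : (ξ : F) ^ n = l := by simpa using congrArg Units.val hn
    exact ⟨c ^ n, pow_mem (mem_zpowers c) n, this ▸ cn n⟩
  · have := Nat.le_of_dvd one_pos ((po 1).1 (by rw [pow_one, h]))
    omega
  · have := Nat.le_of_dvd (by decide) ((po 3).1 h)
    omega

end Co

/-- The second elementary abelian subgroup. -/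
structure Pre (K W U : Subgroup G) (a b : G → F) : Prop extends Co K W a b where
  US : U ≤ toCo.S0
  eU : ∀ u ∈ U, u * u = 1
  Us : ∀ c, ∃ u ∈ U, Ac W a b u 1 c 0 1
  Y : ∀ w ∈ W, w ∈ U ↔ b w = 0

namespace Pre

variable (H : Pre K W U a b)
include H

theorem dec {t : G} (ht : t ∈ H.S0) : ∃ w ∈ W, ∃ u ∈ U, t = w * u := by
  obtain ⟨hk, c, h1⟩ := ht
  obtain ⟨u, hu, u1⟩ := H.Us c
  exact ⟨_, H.eq_mod hk (H.US hu).1 h1 u1 (by ring), u, hu, by group⟩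

theorem S0_eq : H.S0 = W ⊔ U := by
  refine le_antisymm (fun t ht => ?_) (sup_le H.W_S0 H.US)
  obtain ⟨w, hw, u, hu, rfl⟩ := H.dec ht
  exact mul_mem_sup hw hu

theorem ne {u : G} (hu : u ∈ U) (h : u ∉ W) : ∃ c, c ≠ 0 ∧ Ac W a b u 1 c 0 1 := by
  obtain ⟨hk, c, h1⟩ := H.US hu
  exact ⟨c, fun e => h (H.faith u hk (e ▸ h1)), h1⟩

theorem WU : W ≤ N[U] := by
  refine le_normalizer_iff_conj_le.2 fun w hw => conj_le_iff.2 fun u hu => ?_
  obtain ⟨hk, c, h1⟩ := H.US hu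
  have h2 := cj (H.KN hk) hw
  have : w * (u * w * u⁻¹) ∈ U := (H.Y _ (mul_mem hw h2)).2 (by
    rw [H.addb _ hw _ h2, (h1 w hw).2]; linear_combination b w * H.two)
  have e : w * u * w⁻¹ = w * (u * w * u⁻¹) * u := by rw [H.inv hw]; group
  rw [e]
  exact mul_mem this hu

theorem invol {t : G} (ht : t ∈ H.S0) (h2 : t * t = 1) : t ∈ W ∨ t ∈ U := by
  obtain ⟨w, hw, u, hu, rfl⟩ := H.dec ht
  by_cases h : u ∈ W
  · exact Or.inl (mul_mem hw h)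
  obtain ⟨c, c0, h1⟩ := H.ne hu h
  have e : u * w * u⁻¹ = w := by
    rw [inv_of_sq (H.eU u hu), ← H.inv hw]
    nth_rewrite 1 [H.inv hw]
    exact eq_inv_of_mul_eq_one_right (by rw [← h2]; group)
  have := (h1 w hw).1
  rw [e] at this
  exact Or.inr (mul_mem ((H.Y w hw).2 (mul_left_cancel₀ c0 (by linear_combination -this))) hu)

theorem le_U {E : Subgroup G} (h1 : E ≤ H.S0) (h2 : ∀ t ∈ E, t * t = 1) (h3 : ¬ E ≤ W) : E ≤ U := by
  obtain ⟨t, ht, tW⟩ := SetLike.not_le_iff_exists.1 h3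
  have tU := (H.invol (h1 ht) (h2 t ht)).resolve_left tW
  intro s hs
  rcases H.invol (h1 hs) (h2 s hs) with h | h
  · rcases H.invol (h1 (mul_mem hs ht)) (h2 _ (mul_mem hs ht)) with h' | h'
    · exact (tW ((W.mul_mem_cancel_left h).1 h')).elim
    · exact (U.mul_mem_cancel_right tU).1 h'
  · exact h

theorem not_le : ¬ U ≤ W := fun h => by
  obtain ⟨u, hu, u1⟩ := H.Us 1
  exact one_ne_zero (H.uniq u1 (H.acW (h hu))).2.1

theorem normU [Finite G] (hW : g ∈ N[W]) (hS : g ∈ N[H.S0]) : g ∈ N[U] := by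
  refine mem_normalizer_of_conj_le (H.le_U (conj_le_of_mem_normalizer H.US hS) (fun t ht => ?_)
    fun h => H.not_le ?_)
  · obtain ⟨u, hu, rfl⟩ := mem_conj_iff'.1 ht
    calc g * u * g⁻¹ * (g * u * g⁻¹) = g * (u * u) * g⁻¹ := by group
      _ = 1 := by rw [H.eU u hu]; group
  · rwa [← conj_eq_of_mem_normalizer hW, conj_le_conj_iff] at h

end Pre

end Cfsg.Agent.Lib.AP3
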