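import Cfsg.Agent.Lib.AP3b

/-! One side of the natural configuration from coordinates. -/

set_option autoImplicit false
set_option linter.unusedSectionVars false

namespace Cfsg.Agent.Lib.AP3

open Cfsg Subgroup Cfsg.Agent.Lib.PCoreConj Cfsg.Agent.Lib.PCore Cfsg.Agent.Lib.PCoreResidual
  Cfsg.Agent.Lib.FTDefs Cfsg.Agent.Lib.AP

variable {G : Type*} [Group G] {F : Type} [Field F]
variable {K W U : Subgroup G} {a b : G → F} {g c : G} {l : F}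

theorem Ac.tor {u : G} {s : F} (h1 : Ac W a b c l 0 0 l⁻¹) (hl : l ≠ 0) (hc : c ∈ N[W])
    (h2 : Ac W a b u 1 s 0 1) (hu : u ∈ N[W]) : Ac W a b (c * u * c⁻¹) 1 (l ^ 2 * s) 0 1 :=
  ((h1.mul h2 hu).mul (h1.inv hc (by simp [hl])) (inv_mem hc)).congr (by simp [hl]) (by ring)
    (by ring) (by simp [hl])

theorem exists_sq [Finite F] (two : (2 : F) = 0) (s : F) : ∃ l : F, l ^ 2 = s := by
  refine Finite.surjective_of_injective (f := fun l : F => l ^ 2) (fun x y h => ?_) s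
  have h' : x ^ 2 = y ^ 2 := h
  have : (x - y) ^ 2 = 0 := by linear_combination h' + (y ^ 2 - x * y) * two
  exact sub_eq_zero.1 (pow_eq_zero_iff two_ne_zero |>.1 this)

namespace Pre

variable (H : Pre K W U a b)
include H

theorem cc {w v : G} (hw : w ∈ W) (hv : v ∈ W) :
    a (w * v⁻¹) = a w + a v ∧ b (w * v⁻¹) = b w + b v := by
  rw [H.inv hv]
  exact ⟨H.adda _ hw _ hv, H.addb _ hw _ hv⟩

theorem ane {y : G} (hy : y ∈ W ⊓ U) (h : y ∉ C[K]) : a y ≠ 0 := fun e =>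
  h ((H.ker y hy.1).2 ⟨e, (H.Y y hy.1).1 hy.2⟩)

theorem tri [Finite G] (NK : N[W] ≤ N[K]) (hW : g ∈ N[W]) {α β δ : F} (h : Ac W a b g⁻¹ α β 0 δ) :
    g ∈ N[U] := by
  obtain ⟨w, hw, w1, w2⟩ := H.sur 1 0
  refine H.normU hW (H.norm_S0 (NK hW) hW hw (by rw [w1]; exact one_ne_zero) w2 ?_)
  have := (h w hw).2
  rw [inv_inv, w2] at this
  linear_combination this

theorem hf [Finite G] [Fintype F] {m : ℕ} (hm : 2 ≤ m) (hF : Fintype.card F = 2 ^ m)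
    (NK : N[W] ≤ N[K]) (mx : ∀ P : Subgroup G, IsPGroup 2 P → P ≤ N[W] → K ≤ N[P] → P ≤ W)
    (cw : C[W] ≤ W) : ∃ C n, Hf (2 ^ m) K W U C n := by
  obtain ⟨C, cyc, cC, c1, c2, l0, l1, l2, l3⟩ := H.torus hm hF
  have d0 : (0 : F) * 0 - 1 * 1 = 1 := by linear_combination -H.two
  obtain ⟨n, hn, n1⟩ := H.real 0 1 1 0 d0
  have hF' : Nat.card F = 2 ^ m := by rw [Nat.card_eq_fintype_card, hF]
  have UK : U ≤ K := H.US.trans H.S0_K
  have CW : C ≤ N[W] := fun c hc => H.KN (c1 c hc).1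
  have CU : C ≤ N[U] := fun c hc => by
    obtain ⟨-, l, -, h1, -⟩ := c1 _ (inv_mem hc)
    exact H.tri NK (CW hc) h1
  have DU : W ⊓ C[K] ≤ U := fun w hw => (H.Y w hw.1).2 ((H.ker w hw.1).1 hw.2).2
  have pU : IsPGroup 2 U := H.pS0.to_le H.US
  have pW : IsPGroup 2 W := H.pS0.to_le H.W_S0
  have t2 : ∀ x ∈ W, x ∉ U → ∀ y ∈ W, y ∉ U → ∃ c ∈ C, c * x * c⁻¹ * y⁻¹ ∈ U := by
    intro x hx x0 y hy y0
    rw [H.Y x hx] at x0
    rw [H.Y y hy] at y0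
    obtain ⟨c, hc, h1⟩ := c2 (b x / b y) (div_ne_zero x0 y0)
    refine ⟨c, hc, (H.Y _ (mul_mem (cj (CW hc) hx) (inv_mem hy))).2 ?_⟩
    rw [(H.cc (cj (CW hc) hx) hy).2, (h1 x hx).2]
    field_simp
    linear_combination b y * H.two
  have t3 : ∀ x ∈ U, x ∉ W → ∀ y ∈ U, y ∉ W → ∃ c ∈ C, c * x * c⁻¹ * y⁻¹ ∈ W := by
    intro x hx x0 y hy y0
    obtain ⟨s, s0, x1⟩ := H.ne hx x0
    obtain ⟨t, t0, y1⟩ := H.ne hy y0
    obtain ⟨l, hl⟩ := exists_sq H.two (t / s)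
    have l0 : l ≠ 0 := fun e => div_ne_zero t0 s0 (by rw [← hl, e]; ring)
    obtain ⟨c, hc, h1⟩ := c2 l l0
    refine ⟨c, hc, H.eq_mod (UK (cj (CU hc) hx)) (UK hy)
      ((h1.tor l0 (CW hc) x1 (H.KN (UK hx))).congr rfl ?_ rfl rfl) y1 (by ring)⟩
    rw [hl]
    field_simp
  have off : ∀ g ∈ N[W] ⊓ N[U] ⊓ N[C], ∀ w ∈ W, a w = 0 → a (g * w * g⁻¹) = 0 := by
    rintro g ⟨⟨hW, hU⟩, hC⟩ w hw w0
    obtain ⟨σ, α, β, γ, δ, s1, s0, nd, hs⟩ := H.semi (NK hW) hW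
    have g0 : γ = 0 := by
      obtain ⟨x, hx, x1, x2⟩ := H.sur 1 0
      have := (hs x hx).2
      rw [(H.Y _ (cj hW hx)).1 (cj hU ((H.Y x hx).2 x2)), x1, x2, s1, s0] at this
      linear_combination -this
    obtain ⟨c, hc, h1⟩ := c2 l0 l1
    obtain ⟨-, μ, μ0, h2, μ1⟩ := c1 _ (cj hC hc)
    have μ2 : μ ≠ 1 := fun e => by
      have e1 : c = 1 := by
        have := μ1 e
        rwa [mul_inv_eq_one, mul_eq_left] at this
      rw [e1] at h1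
      exact l2 (H.uniq h1 (Ac.of_cent (one_mem _))).1
    obtain ⟨y, hy, y1, y2⟩ := H.sur 0 1
    have e : g * c * g⁻¹ * (g * y * g⁻¹) * (g * c * g⁻¹)⁻¹ = g * (c * y * c⁻¹) * g⁻¹ := by group
    have e1 := h2 _ (cj hW hy)
    have e2 := hs _ (cj (CW hc) hy)
    have e3 := hs _ hy
    rw [(h1 y hy).1, (h1 y hy).2, y1, y2] at e2
    rw [y1, y2, s0, s1] at e3
    rw [e, e2.1, e2.2, e3.1, e3.2] at e1
    simp only [mul_zero, zero_add, mul_one, zero_mul, s0, add_zero] at e1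
    have e4 : σ l0⁻¹ = μ⁻¹ := mul_left_cancel₀ (nd g0).2 (by rw [e1.2, mul_comm])
    have b0 : β = 0 := by
      by_contra b0
      have e5 : μ⁻¹ = μ := mul_left_cancel₀ b0 (by rw [← e4, e1.1, mul_comm])
      refine μ2 (eq_one_of_pow H.two (k := 1) ?_)
      rw [pow_one, sq]
      nth_rewrite 1 [← e5]
      exact inv_mul_cancel₀ μ0
    rw [(hs w hw).1, w0, s0, b0]
    ring
  refine ⟨C, n,
    { eW := H.eW, WK := H.WK, UK := UK, KN := H.KN, NK := NK, WU := H.WU, DU := DU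
      cW := hF' ▸ card_sur W U b H.addb H.Y fun s => ?_
      cY := ?_, nd := ?_, mx := mx, cw := cw, CK := fun c hc => ⟨(c1 c hc).1, CU hc⟩, cyc := cyc
      cC := cC, bor := ?_, t1 := ?_, t2 := t2, t3 := t3, s1 := ?_, s2 := ?_, s3 := ?_, cent := ?_
      ti := ?_, nK := hn, nY := ?_, nN := ?_, hua := ?_ }⟩
  · obtain ⟨u, hu, -, u2⟩ := H.sur 0 s
    exact ⟨u, hu, u2⟩
  · have e : W ⊓ C[K] = W ⊓ U ⊓ C[K] :=
      le_antisymm (le_inf (le_inf inf_le_left DU) inf_le_right) (inf_le_inf_right _ inf_le_left)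
    rw [e, ← hF']
    refine card_sur (W ⊓ U) C[K] a (fun u hu v hv => H.adda u hu.1 v hv.1) (fun x hx => ?_) fun s => ?_
    · rw [H.ker x hx.1]
      exact ⟨fun h => h.1, fun h => ⟨h, (H.Y x hx.1).1 hx.2⟩⟩
    · obtain ⟨u, hu, u1, u2⟩ := H.sur s 0
      exact ⟨u, ⟨hu, (H.Y u hu).2 u2⟩, u1⟩
  · intro w hw w0 u hu u0 h
    obtain ⟨s, s0, u1⟩ := H.ne hu u0
    rw [H.Y w hw] at w0
    have e : w * u * w⁻¹ * u⁻¹ = w * (u * w * u⁻¹)⁻¹ := by
      rw [H.inv (cj (H.KN (UK hu)) hw), H.inv hw]; group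
    rw [e, H.eq_iff hw (cj (H.KN (UK hu)) hw), (u1 w hw).1] at h
    exact mul_ne_zero s0 w0 (by linear_combination -h.1)
  · rintro g ⟨hK, hU⟩
    obtain ⟨α, β, γ, δ, d, h1⟩ := H.act g hK
    have g0 : γ = 0 := by
      obtain ⟨x, hx, x1, x2⟩ := H.sur 1 0
      have := (h1 x hx).2
      rw [(H.Y _ (cj (H.KN hK) hx)).1 (cj hU ((H.Y x hx).2 x2)), x1, x2] at this
      linear_combination -this
    rw [g0, mul_zero, sub_zero] at d
    have a0 : α ≠ 0 := left_ne_zero_of_mul_eq_one d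
    obtain ⟨c, hc, h2⟩ := c2 α a0
    have : g * c⁻¹ ∈ H.S0 := ⟨mul_mem hK (inv_mem (c1 c hc).1), β * α,
      (h1.mul (h2.inv (CW hc) (by simp [a0])) (inv_mem (CW hc))).congr (by simp [a0]) (by ring)
        (by simp [g0]) (by linear_combination d)⟩
    rw [H.S0_eq] at this
    simpa using mul_mem_sup this hc
  · intro x hx x0 y hy y0
    have x1 := H.ane hx x0
    obtain ⟨c, hc, h1⟩ := c2 (a y / a x) (div_ne_zero (H.ane hy y0) x1)
    refine ⟨c, hc, (H.eq_iff (cj (CW hc) hx.1) hy.1).2 ?_⟩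
    rw [(h1 x hx.1).1, (h1 x hx.1).2, (H.Y x hx.1).1 hx.2, (H.Y y hy.1).1 hy.2]
    exact ⟨by field_simp; ring, by ring⟩
  · intro c hc x hx x0 h
    obtain ⟨-, l, -, h1, h2⟩ := c1 c hc
    have := ((H.eq_iff (cj (CW hc) hx.1) hx.1).1 h).1
    rw [(h1 x hx.1).1] at this
    exact h2 (mul_right_cancel₀ (H.ane hx x0) (by linear_combination this))
  · intro c hc x hx x0 h
    obtain ⟨-, l, -, h1, h2⟩ := c1 c hc
    rw [H.Y x hx] at x0
    rw [H.Y _ (mul_mem (cj (CW hc) hx) (inv_mem hx)), (H.cc (cj (CW hc) hx) hx).2, (h1 x hx).2] at h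
    exact h2 (inv_eq_one.1 (mul_right_cancel₀ x0 (by linear_combination h - b x * H.two)))
  · intro c hc x hx x0 h
    obtain ⟨-, l, l0, h1, h2⟩ := c1 c hc
    obtain ⟨s, s0, x1⟩ := H.ne hx x0
    have xN := H.KN (UK hx)
    have := (H.uniq ((h1.tor l0 (CW hc) x1 xN).mul (x1.inv xN (by ring)) (inv_mem xN)) (H.acW h)).2.1
    exact h2 (eq_one_of_pow H.two (k := 1) (mul_right_cancel₀ s0 (by linear_combination this)))
  · rintro g ⟨hW, hU⟩ ⟨k, hk⟩ h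
    obtain ⟨s, h1⟩ := H.uni1 (NK hW) hW hk fun w hw w0 => by
      have := (H.eq_iff (cj hW hw) hw).1 (h w ⟨hw, (H.Y w hw).2 w0⟩)
      exact ⟨this.1, this.2.trans w0⟩
    obtain ⟨u, hu, u1⟩ := H.Us s
    have uN := H.KN (UK hu)
    have k1 : g * u⁻¹ ∈ H.Kr := ⟨NK (mul_mem hW (inv_mem uN)), mul_mem hW (inv_mem uN),
      (h1.mul (u1.inv uN (by ring)) (inv_mem uN)).congr (by ring) (by ring) (by ring) (by ring)⟩
    have p1 : IsPGroup 2 ↥(U ⊔ zpowers g) :=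
      isPGroup_sup pU (isPGroup_zpowers hk) (zpowers_le.2 hU)
    have p2 : IsPGroup 2 (zpowers (g * u⁻¹)) := p1.to_le (zpowers_le.2
      (mul_mem (mem_sup_right (mem_zpowers g)) (mem_sup_left (inv_mem hu))))
    have zN : zpowers (g * u⁻¹) ≤ N[W] := zpowers_le.2 k1.2.1
    have := mx _ (isPGroup_sup pW p2 zN) (sup_le le_normalizer zN)
      (le_normalizer_of_commutator_le (((commutator_mono (sup_le H.W_Kr (zpowers_le.2 k1)) le_rfl).trans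
        H.Kr_comm).trans le_sup_left)) (mem_sup_right (mem_zpowers _))
    simpa using mul_mem_sup this hu
  · intro P hP PW t ht tU tW p hp
    obtain ⟨w, hw, w0, hfix⟩ := H.fixv hP (PW.trans NK) PW
    obtain ⟨s, s0, t1⟩ := H.ne tU tW
    have e := (t1 w hw).1
    rw [(hfix t ht).1] at e
    have b0 : b w = 0 := mul_left_cancel₀ s0 (by linear_combination -e)
    refine H.normU (PW hp) (H.norm_S0 (NK (PW hp)) (PW hp) hw (fun e => w0 ⟨e, b0⟩) b0 ?_)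
    have := (hfix _ (inv_mem hp)).2
    rwa [inv_inv, b0] at this
  · rintro y ⟨hy, hy'⟩
    obtain ⟨x, hx, rfl⟩ := mem_conj_iff'.1 hy'
    refine (H.ker _ hy.1).2 ⟨?_, (H.Y _ hy.1).1 hy.2⟩
    rw [(n1 x hx.1).1, (H.Y x hx.1).1 hx.2]
    ring
  · intro g hg
    have nW := H.KN hn
    rw [← conj_normalizer, mem_conj_iff]
    have hW : n⁻¹ * g * n ∈ N[W] := mul_mem (mul_mem (inv_mem nW) hg.1.1) nW
    obtain ⟨w, hw, w1, w2⟩ := H.sur 1 0
    refine H.normU hW (H.norm_S0 (NK hW) hW hw (by rw [w1]; exact one_ne_zero) w2 ?_)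
    have e : (n⁻¹ * g * n)⁻¹ * w * (n⁻¹ * g * n) = n⁻¹ * (g⁻¹ * (n * w * n⁻¹) * g⁻¹⁻¹) * n⁻¹⁻¹ := by
      group
    have := off _ (inv_mem hg) _ (cj nW hw) (by rw [(n1 w hw).1, w2]; ring)
    rw [e, (n1.inv nW d0 _ (cj (inv_mem hg.1.1) (cj nW hw))).2, this]
    ring
  · intro q4 E YE EW CE hne
    have cE : ∀ c ∈ C, ∀ t ∈ E, c * t * c⁻¹ ∈ E := fun c hc t ht => cj (CE hc) ht
    have k1 : ∀ t ∈ E, t ∈ W → t ∉ U → W ≤ E := fun t ht tW tU w hw => by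
      by_cases wU : w ∈ U
      · exact YE ⟨hw, wU⟩
      obtain ⟨c, hc, h⟩ := t2 t tW tU w hw wU
      have := YE (mem_inf.2 ⟨mul_mem (cj (CW hc) tW) (inv_mem hw), h⟩)
      exact (E.inv_mem_iff).1 ((E.mul_mem_cancel_left (cE c hc t ht)).1 this)
    have k2 : ∀ t ∈ E, t ∈ U → t ∉ W → U ≤ E := fun t ht tU tW w hw => by
      by_cases wU : w ∈ W
      · exact YE ⟨wU, hw⟩
      obtain ⟨c, hc, h⟩ := t3 t tU tW w hw wU
      have := YE (mem_inf.2 ⟨h, mul_mem (cj (CU hc) tU) (inv_mem hw)⟩)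
      exact (E.inv_mem_iff).1 ((E.mul_mem_cancel_left (cE c hc t ht)).1 this)
    obtain ⟨t, ht, tY⟩ := SetLike.not_le_iff_exists.1 hne
    obtain ⟨w, hw, u, hu, rfl⟩ := H.dec (H.S0_eq ▸ EW ht)
    by_cases uW : u ∈ W
    · exact Or.inl (k1 _ ht (mul_mem hw uW) fun h => tY ⟨mul_mem hw uW, h⟩)
    by_cases wU : w ∈ U
    · exact Or.inr (k2 _ ht (mul_mem wU hu) fun h => tY ⟨h, mul_mem wU hu⟩)
    obtain ⟨s, s0, u1⟩ := H.ne hu uW
    rw [H.Y w hw] at wU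
    have l4 : l0 + 1 ≠ 0 := fun e => l2 (by linear_combination e - H.two)
    have l5 : l0 ^ 2 + l0 + 1 ≠ 0 := fun e => l3 q4 (by linear_combination (l0 - 1) * e)
    obtain ⟨c, hc, h1⟩ := c2 l0 l1
    obtain ⟨d, hd, h2⟩ := c2 (l0 + 1) l4
    have uN := H.KN (UK hu)
    have x1 := h1.tor l1 (CW hc) u1 uN
    have x2 := h2.tor l4 (CW hd) u1 uN
    have y1 := cj (CU hc) hu
    have y2 := cj (CU hd) hu
    have z1 := cj (CW hc) hw
    have z2 := cj (CW hd) hw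
    have v0 : c * u * c⁻¹ * u * (d * u * d⁻¹)⁻¹ ∈ U := mul_mem (mul_mem y1 hu) (inv_mem y2)
    have v1 : c * u * c⁻¹ * u * (d * u * d⁻¹)⁻¹ ∈ W := H.eq_mod (UK (mul_mem y1 hu)) (UK y2)
      ((x1.mul u1 uN).congr (by ring) (by linear_combination -(l0 * s) * H.two) (by ring) (by ring)) x2
      (by ring)
    have z3 := cj (H.KN (UK y1)) hw
    have e : c * (w * u) * c⁻¹ * (w * u) * (d * (w * u) * d⁻¹)⁻¹ =
        c * w * c⁻¹ * (c * u * c⁻¹ * w * (c * u * c⁻¹)⁻¹) * (c * u * c⁻¹ * u * (d * u * d⁻¹)⁻¹) *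
          (d * w * d⁻¹)⁻¹ := by group
    have m1 := mul_mem (mul_mem (cE c hc _ ht) ht) (inv_mem (cE d hd _ ht))
    rw [e] at m1
    have m2 := mul_mem (mul_mem z1 z3) v1
    refine Or.inl (k1 _ m1 (mul_mem m2 (inv_mem z2)) fun h => ?_)
    rw [H.Y _ (mul_mem m2 (inv_mem z2)), (H.cc m2 z2).2, H.addb _ (mul_mem z1 z3) _ v1,
      H.addb _ z1 _ z3, (H.Y _ v1).1 v0, (h1 w hw).2, (h2 w hw).2, (x1 w hw).2] at h
    refine mul_ne_zero l5 wU ?_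
    field_simp at h
    linear_combination h - l0 * b w * H.two

end Pre

end Cfsg.Agent.Lib.AP3
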