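import Cfsg.Agent.Lib.AP3c

/-! The structure of `T ⊓ C[W]` in the natural configuration. -/

set_option autoImplicit false
set_option linter.unusedSectionVars false

namespace Cfsg.Agent.Lib.AP3

open Cfsg Subgroup Cfsg.Agent.Lib.PCoreConj Cfsg.Agent.Lib.PCore Cfsg.Agent.Lib.PCoreResidual
  Cfsg.Agent.Lib.FTDefs Cfsg.Agent.Lib.AP

variable {G : Type*} [Group G] {F : Type} [Field F]
variable {K W T : Subgroup G} {a b : G → F} {x g : G}

theorem exists_co [Finite G] [Fintype F] {m : ℕ} (hF : Fintype.card F = 2 ^ m) (WK : W ≤ K)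
    (eW : ∀ w ∈ W, w * w = 1) (h : ActsAsSL2OnSection F ⊤ K W (W ⊓ C[K]))
    (hc : Nat.card K = Nat.card (Matrix.SpecialLinearGroup (Fin 2) F) * Nat.card W) :
    ∃ a b : G → F, Co K W a b := by
  classical
  obtain ⟨KN, -, ρ, ψ, r1, p1, p2, e⟩ := h
  let c : Fin 2 → G → F := fun i w => if h : w ∈ W then Multiplicative.toAdd (ψ ⟨w, h⟩) i else 0
  have c1 : ∀ i w (h : w ∈ W), c i w = Multiplicative.toAdd (ψ ⟨w, h⟩) i := fun i w h => dif_pos h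
  have add : ∀ i, ∀ u ∈ W, ∀ v ∈ W, c i (u * v) = c i u + c i v := fun i u hu v hv => by
    rw [c1 i _ (mul_mem hu hv), c1 i u hu, c1 i v hv, ← Pi.add_apply, ← toAdd_mul, ← map_mul]
    rfl
  have sur : ∀ s t, ∃ u ∈ W, c 0 u = s ∧ c 1 u = t := fun s t => by
    obtain ⟨u, hu⟩ := p1 (Multiplicative.ofAdd ![s, t])
    exact ⟨u, u.2, by rw [c1 0 _ u.2, hu]; rfl, by rw [c1 1 _ u.2, hu]; rfl⟩
  have ac : ∀ k : K, Ac W (c 0) (c 1) k ((ρ k).1 0 0) ((ρ k).1 0 1) ((ρ k).1 1 0) ((ρ k).1 1 1) := by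
    intro k w hw
    obtain ⟨v, v1, v2⟩ := e k ⟨w, hw⟩
    have v3 : (k : G) * w * (k : G)⁻¹ = v := v1.symm
    rw [v3, c1 0 _ v.2, c1 1 _ v.2, c1 0 w hw, c1 1 w hw, Subtype.coe_eta, v2]
    constructor <;> simp [Matrix.mulVec, dotProduct, Fin.sum_univ_two]
  have tr : ∀ k : K, Ac W (c 0) (c 1) k 1 0 0 1 → ρ k = 1 := fun k h => by
    obtain ⟨u, hu, u1, u2⟩ := sur 1 0
    obtain ⟨v, hv, v1, v2⟩ := sur 0 1
    have x := h u hu
    have x' := ac k u hu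
    have y := h v hv
    have y' := ac k v hv
    rw [u1, u2] at x x'
    rw [v1, v2] at y y'
    ext i j
    fin_cases i <;> fin_cases j
    · simpa using x'.1.symm.trans x.1
    · simpa using y'.1.symm.trans y.1
    · simpa using x'.2.symm.trans x.2
    · simpa using y'.2.symm.trans y.2
  have kr : W.subgroupOf K = ρ.ker := by
    refine eq_of_le_of_card_le (fun k hk => tr k (Ac.of_cent (le_cent_of_sq eW hk))) (le_of_eq ?_)
    have := card_mul_index ρ.ker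
    rw [index_ker, r1, card_top, hc, mul_comm] at this
    rw [Nat.card_congr (subgroupOfEquivOfLe WK).toEquiv]
    haveI i : Finite (Matrix.SpecialLinearGroup (Fin 2) F) := Subtype.finite
    exact Nat.eq_of_mul_eq_mul_left Nat.card_pos this
  refine ⟨c 0, c 1, ?_, KN, WK, eW, add 0, add 1, fun u hu => ?_, sur, fun k hk => ?_,
    fun α β γ δ d => ?_, fun k hk h => ?_⟩
  · have := FiniteField.cast_card_eq_zero F
    rw [hF, Nat.cast_pow] at this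
    exact_mod_cast eq_zero_of_pow_eq_zero this
  · rw [c1 0 u hu, c1 1 u hu]
    constructor
    · intro h
      rw [(p2 ⟨u, hu⟩).2 ⟨hu, h⟩]
      exact ⟨rfl, rfl⟩
    · intro h
      refine ((p2 ⟨u, hu⟩).1 (Multiplicative.toAdd.injective (funext fun i => ?_))).2
      fin_cases i
      exacts [h.1, h.2]
  · exact ⟨_, _, _, _, by rw [← Matrix.det_fin_two]; exact (ρ ⟨k, hk⟩).2, ac ⟨k, hk⟩⟩
  · obtain ⟨k, hk⟩ : (⟨!![α, β; γ, δ], by rw [Matrix.det_fin_two_of, d]⟩ :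
      Matrix.SpecialLinearGroup (Fin 2) F) ∈ ρ.range := r1 ▸ mem_top _
    have := ac k
    rw [hk] at this
    exact ⟨k, k.2, this⟩
  · have : (⟨k, hk⟩ : K) ∈ W.subgroupOf K := kr ▸ tr ⟨k, hk⟩ h
    exact this

theorem Co.conj (H : Co K W a b) {k : G} (hk : k ∈ K) :
    Co K W (fun w => a (k * w * k⁻¹)) (fun w => b (k * w * k⁻¹)) := by
  have kN := H.KN hk
  have e1 : ∀ u v : G, k * (u * v) * k⁻¹ = k * u * k⁻¹ * (k * v * k⁻¹) := fun u v => by group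
  have tr : ∀ g α β γ δ, Ac W (fun w => a (k * w * k⁻¹)) (fun w => b (k * w * k⁻¹)) g α β γ δ ↔
      Ac W a b (k * g * k⁻¹) α β γ δ := fun g α β γ δ => by
    constructor
    · intro h w hw
      have := h _ (cj' kN hw)
      have e2 : k * (k⁻¹ * w * k) * k⁻¹ = w := by group
      have e3 : k * (g * (k⁻¹ * w * k) * g⁻¹) * k⁻¹ = k * g * k⁻¹ * w * (k * g * k⁻¹)⁻¹ := by group
      simp only [e2, e3] at this
      exact this
    · intro h w hw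
      have := h _ (cj kN hw)
      have e3 : k * g * k⁻¹ * (k * w * k⁻¹) * (k * g * k⁻¹)⁻¹ = k * (g * w * g⁻¹) * k⁻¹ := by group
      rwa [e3] at this
  refine ⟨H.two, H.KN, H.WK, H.eW, fun u hu v hv => ?_, fun u hu v hv => ?_, fun u hu => ?_,
    fun s t => ?_, fun g hg => ?_, fun α β γ δ d => ?_, fun g hg h => ?_⟩
  · simp only [e1]; exact H.adda _ (cj kN hu) _ (cj kN hv)
  · simp only [e1]; exact H.addb _ (cj kN hu) _ (cj kN hv)
  · rw [← H.ker _ (cj kN hu)]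
    exact mem_normalizer_iff.1 (normalizer_le_normalizer_centralizer K (le_normalizer hk)) u
  · obtain ⟨u, hu, u1, u2⟩ := H.sur s t
    have e2 : k * (k⁻¹ * u * k) * k⁻¹ = u := by group
    exact ⟨_, cj' kN hu, by simp only [e2, u1], by simp only [e2, u2]⟩
  · obtain ⟨α, β, γ, δ, d, h⟩ := H.act _ (cj (le_normalizer hk) hg)
    exact ⟨α, β, γ, δ, d, (tr _ _ _ _ _).2 h⟩
  · obtain ⟨g, hg, h⟩ := H.real α β γ δ d
    have e2 : k * (k⁻¹ * g * k) * k⁻¹ = g := by group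
    exact ⟨_, cj' (le_normalizer hk) hg, (tr _ _ _ _ _).2 (e2.symm ▸ h)⟩
  · exact (mem_normalizer_iff.1 kN g).2 (H.faith _ (cj (le_normalizer hk) hg) ((tr _ _ _ _ _).1 h))

/-- Coordinates adapted to `T`. -/
structure Ct (K W T : Subgroup G) (a b : G → F) : Prop extends Co K W a b where
  fx : ∃ w ∈ W, a w = 1 ∧ b w = 0 ∧ ∀ t ∈ T, a (t * w * t⁻¹) = 1 ∧ b (t * w * t⁻¹) = 0

variable [Finite G] [Finite F]

theorem Co.exists_ct (H : Co K W a b) (h : St K W T x) : ∃ a b : G → F, Ct K W T a b := by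
  obtain ⟨w, hw, w0, hf⟩ := H.fixv h.pT h.TK (h.TK.trans h.NKW)
  obtain ⟨α, β, γ, δ, d, e1, e2⟩ : ∃ α β γ δ : F, α * δ - β * γ = 1 ∧ α * a w + β * b w = 1 ∧
      γ * a w + δ * b w = 0 := by
    by_cases h0 : a w = 0
    · have h1 : b w ≠ 0 := fun e => w0 ⟨h0, e⟩
      exact ⟨0, (b w)⁻¹, -b w, 0, by simp [h1], by simp [h1], by simp [h0]⟩
    · exact ⟨(a w)⁻¹, 0, -b w, a w, by simp [h0], by simp [h0], by ring⟩
  obtain ⟨k, hk, k1⟩ := H.real α β γ δ d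
  refine ⟨_, _, H.conj hk, w, hw, (k1 w hw).1.trans e1, (k1 w hw).2.trans e2, fun t ht => ?_⟩
  have := k1 _ (cj (h.NKW (h.TK ht)) hw)
  rw [(hf t ht).1, (hf t ht).2, e1, e2] at this
  exact this

/-- The first line. -/
def Co.L0 (H : Co K W a b) : Subgroup G where
  carrier := {w | w ∈ W ∧ b w = 0}
  one_mem' := ⟨one_mem _, H.b_one⟩
  mul_mem' := fun h1 h2 => ⟨mul_mem h1.1 h2.1, by rw [H.addb _ h1.1 _ h2.1, h1.2, h2.2, add_zero]⟩
  inv_mem' := fun h => by rw [H.inv h.1]; exact h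

theorem Co.card_L0 (H : Co K W a b) : Nat.card W = Nat.card F * Nat.card H.L0 := by
  have := card_sur W H.L0 b H.addb (fun w hw => ⟨fun h => h.2, fun h => ⟨hw, h⟩⟩) fun s => by
    obtain ⟨u, hu, -, u2⟩ := H.sur 0 s
    exact ⟨u, hu, u2⟩
  rwa [inf_eq_right.2 (fun w (hw : w ∈ H.L0) => hw.1)] at this

theorem Co.card_Z (H : Co K W a b) :
    Nat.card H.L0 = Nat.card F * Nat.card ↥(W ⊓ C[K]) := by
  have e : W ⊓ C[K] = H.L0 ⊓ C[K] := le_antisymm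
    (fun w hw => ⟨⟨hw.1, ((H.ker w hw.1).1 hw.2).2⟩, hw.2⟩) fun w hw => ⟨hw.1.1, hw.2⟩
  rw [e]
  refine card_sur H.L0 C[K] a (fun u hu v hv => H.adda u hu.1 v hv.1) (fun x hx => ?_) fun s => ?_
  · rw [H.ker x hx.1]
    exact ⟨fun h => h.1, fun h => ⟨h, hx.2⟩⟩
  · obtain ⟨u, hu, u1, u2⟩ := H.sur s 0
    exact ⟨u, ⟨hu, u2⟩, u1⟩

theorem sq_conj {X : Subgroup G} (h : ∀ w ∈ X, w * w = 1) (g : G) : ∀ w ∈ X ^ᶜ g, w * w = 1 := by
  intro t ht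
  obtain ⟨u, hu, rfl⟩ := mem_conj_iff'.1 ht
  calc g * u * g⁻¹ * (g * u * g⁻¹) = g * (u * u) * g⁻¹ := by group
    _ = 1 := by rw [h u hu]; group

theorem Q_conj (h : St K W T x) : (T ⊓ C[W]) ^ᶜ x = T ⊓ C[W ^ᶜ x] := by
  rw [conj_inf, h.Tx, conj_centralizer]

theorem WQ (h : St K W T x) : W ≤ T ⊓ C[W] := le_inf h.WT (le_cent_of_sq h.eW)

namespace Ct

variable (H : Ct K W T a b) (h : St K W T x)
include H h

theorem TS : T ≤ N[H.S0] := fun t ht => by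
  obtain ⟨w, hw, w1, w2, hf⟩ := H.fx
  refine H.norm_S0 (h.TK ht) (h.NKW (h.TK ht)) hw (by rw [w1]; exact one_ne_zero) w2 ?_
  simpa using (hf _ (inv_mem ht)).2

theorem ST : H.S0 ≤ T := h.syl.le_of_le_normalizer' (H.S0_K.trans le_sup_left) H.pS0 (H.TS h)

theorem triv {t : G} (ht : t ∈ T) (h1 : Ac W a b t 1 0 0 1) : t ∈ T ⊓ C[W] := by
  rw [← h.mx (T ⊓ H.Kr) (h.pT.to_le inf_le_left)
    (fun q hq => ⟨hq.1, h.TK hq.1, h.NKW (h.TK hq.1), Ac.of_cent hq.2⟩) (inf_le_left.trans h.TK)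
    ((commutator_mono inf_le_right le_rfl).trans H.Kr_comm)]
  exact ⟨ht, h.TK ht, h.NKW (h.TK ht), h1⟩

theorem same {t u : G} (ht : t ∈ T) (hu : u ∈ T) {c : F} (h1 : Ac W a b t 1 c 0 1)
    (h2 : Ac W a b u 1 c 0 1) : u⁻¹ * t ∈ T ⊓ C[W] :=
  H.triv h (mul_mem (inv_mem hu) ht) (((h2.inv (h.NKW (h.TK hu)) (by ring)).mul h1
    (h.NKW (h.TK ht))).congr (by ring) (by ring) (by ring) (by ring))

theorem dec {t : G} (ht : t ∈ T) {c : F} (h1 : Ac W a b t 1 c 0 1) :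
    ∃ r ∈ H.S0, ∃ q ∈ T ⊓ C[W], t = r * q := by
  obtain ⟨r, hr, r1⟩ := H.real 1 c 0 1 (by ring)
  exact ⟨r, ⟨hr, c, r1⟩, _, H.same h ht (H.ST h ⟨hr, c, r1⟩) h1 r1, by group⟩

theorem U1 {u : G} (hu : u ∈ W ^ᶜ x) : ∃ c, Ac W a b u 1 c 0 1 := by
  have eU := sq_conj h.eW x
  have uK := h.TK (h.UT hu)
  have u2 : u ^ 2 ^ 1 = 1 := by rw [pow_one, sq, eU u hu]
  by_cases hc : ∀ r ∈ H.S0, ∀ v ∈ W ^ᶜ x, v * r * v⁻¹ * r⁻¹ ∈ W
  · refine H.uni2 uK (h.NKW uK) u2 fun c => ?_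
    obtain ⟨r, hr, r1⟩ := H.real 1 c 0 1 (by ring)
    refine ⟨r, H.KN hr, r1, ?_⟩
    have := (H.acW (hc r ⟨hr, c, r1⟩ u hu)).mul r1 (H.KN hr)
    rw [inv_mul_cancel_right] at this
    exact this.congr (by ring) (by ring) (by ring) (by ring)
  push Not at hc
  obtain ⟨r, hr, v, hv, hn⟩ := hc
  have s1 : v * r * v⁻¹ * r⁻¹ ∈ H.S0 := mul_mem (cj (H.TS h (h.UT hv)) hr) (inv_mem hr)
  have s2 : v * r * v⁻¹ * r⁻¹ ∈ W ^ᶜ x := by
    have := mul_mem hv (cj (h.TU (H.ST h hr)) (inv_mem hv))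
    convert this using 1
    group
  generalize v * r * v⁻¹ * r⁻¹ = s at s1 s2 hn
  obtain ⟨sK, c, s3⟩ := s1
  have c0 : c ≠ 0 := fun e => hn (H.faith s sK (e ▸ s3))
  refine H.uni1 uK (h.NKW uK) u2 fun w hw w0 => ?_
  obtain ⟨y, hy, y1, y2⟩ := H.sur 0 (a w / c)
  have z0 := cj (H.KN sK) hy
  have z1 : s * y * s⁻¹ * y ∈ W := mul_mem z0 hy
  have z2 : s * y * s⁻¹ * y ∈ W ^ᶜ x := by
    have := mul_mem s2 (cj (h.TU (h.WT hy)) (inv_mem s2))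
    rw [H.inv hy] at this
    convert this using 1
    group
  have z3 : a (s * y * s⁻¹ * y) = a w := by
    rw [H.adda _ z0 _ hy, (s3 y hy).1, y1, y2]; field_simp; ring
  have z4 : b (s * y * s⁻¹ * y) = b w := by
    rw [H.addb _ z0 _ hy, (s3 y hy).2, w0]; linear_combination b y * H.two
  have := H.wd uK (h.NKW uK) z1 hw z3 z4
  rw [comm_of_sq eU hu z2, mul_inv_cancel_right, z3, z4, w0] at this
  exact ⟨this.1.symm, this.2.symm⟩

theorem U2 : W ⊓ C[W ^ᶜ x] ≤ H.L0 := fun w hw => by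
  obtain ⟨u, hu, u0⟩ := SetLike.not_le_iff_exists.1 h.nc
  obtain ⟨c, u1⟩ := H.U1 h hu
  have c0 : c ≠ 0 := fun e => u0 (H.triv h (h.UT hu) (e ▸ u1)).2
  have := (u1 w hw.1).1
  rw [mem_centralizer_iff.1 hw.2 u hu, mul_inv_cancel_right] at this
  exact ⟨hw.1, mul_left_cancel₀ c0 (by linear_combination -this)⟩

/-- The parameter of a unipotent element. -/
theorem par : ∃ φ : G → F, (∀ t c, Ac W a b t 1 c 0 1 → φ t = c) ∧ ∀ X : Subgroup G, X ≤ T →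
    (∀ t ∈ X, ∃ c, Ac W a b t 1 c 0 1) → (∀ u ∈ X, ∀ v ∈ X, φ (u * v) = φ u + φ v) ∧
      ∀ u ∈ X, u ∈ C[W] ↔ φ u = 0 := by
  obtain ⟨y, hy, y1, y2⟩ := H.sur 0 1
  have k : ∀ t c, Ac W a b t 1 c 0 1 → a (t * y * t⁻¹) = c := fun t c h1 => by
    rw [(h1 y hy).1, y1, y2]; ring
  refine ⟨fun t => a (t * y * t⁻¹), k, fun X XT hX => ⟨fun u hu v hv => ?_, fun u hu => ?_⟩⟩
  · obtain ⟨c, c1⟩ := hX u hu
    obtain ⟨d, d1⟩ := hX v hv
    simp only [k u c c1, k v d d1]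
    exact k _ _ ((c1.mul d1 (h.NKW (h.TK (XT hv)))).congr (by ring) (by ring) (by ring) (by ring))
  · obtain ⟨c, c1⟩ := hX u hu
    simp only [k u c c1]
    exact ⟨fun e => (H.uniq c1 (Ac.of_cent e)).2.1, fun e => (H.triv h (XT hu) (e ▸ c1)).2⟩

theorem U3 : (∀ c, ∃ u ∈ W ^ᶜ x, Ac W a b u 1 c 0 1) ∧ W ⊓ C[W ^ᶜ x⁻¹] = H.L0 := by
  obtain ⟨φ, p1, p2⟩ := H.par h
  obtain ⟨add, ker⟩ := p2 _ h.UT fun t ht => H.U1 h ht
  have e : (W ^ᶜ x) ⊓ C[W] = (W ⊓ C[W ^ᶜ x⁻¹]) ^ᶜ x := by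
    rw [conj_inf, conj_centralizer, conj_inv_conj]
  have le := H.U2 h.symm
  have sur := sur_of_card _ _ φ add ker (by
    rw [e, card_conj, card_conj, H.card_L0]
    exact Nat.mul_le_mul_left _ (Subgroup.card_le_of_le le))
  refine ⟨fun c => ?_, eq_of_le_of_card_le le (le_of_eq ?_)⟩
  · obtain ⟨u, hu, u1⟩ := sur c
    obtain ⟨d, d1⟩ := H.U1 h hu
    exact ⟨u, hu, by rwa [← u1, p1 u d d1]⟩
  · have := card_sur _ _ φ add ker sur
    rw [e, card_conj, card_conj, H.card_L0] at this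
    exact Nat.eq_of_mul_eq_mul_left Nat.card_pos this

theorem U4 {t : G} (ht : t ∈ (T ⊓ C[W]) ^ᶜ x) : t ∈ T ∧ ∃ c, Ac W a b t 1 c 0 1 := by
  rw [Q_conj h] at ht
  obtain ⟨k, hk⟩ := isPGroup_iff_forall_mem.1 h.pT t ht.1
  refine ⟨ht.1, H.uni2 (h.TK ht.1) (h.NKW (h.TK ht.1)) hk fun c => ?_⟩
  obtain ⟨u, hu, u1⟩ := (H.U3 h).1 c
  refine ⟨u, h.NKW (h.TK (h.UT hu)), u1, ?_⟩
  rwa [← mem_centralizer_iff.1 ht.2 u hu, mul_inv_cancel_right]

omit H in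
theorem sqD {y : G} (hy : y ∈ T ⊓ C[W]) : y * y ∈ T ⊓ C[K] := by
  refine ⟨mul_mem hy.1 hy.1, mem_centralizer_iff.2 fun k hk => ?_⟩
  have hw : y * k * y⁻¹ * k⁻¹ ∈ W := h.QK (commutator_mem_commutator hy hk)
  have e1 := mem_centralizer_iff.1 hy.2 _ hw
  have e2 := h.eW _ hw
  generalize hv : y * k * y⁻¹ * k⁻¹ = w at e1 e2
  have e3 : y * k = w * k * y := by rw [← hv]; group
  calc k * (y * y) = w * w * k * y * y := by rw [e2]; group
    _ = w * (y * k) * y := by rw [e3]; group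
    _ = y * (w * k * y) := by rw [← mul_assoc w, e1]; group
    _ = y * y * k := by rw [← e3]; group

theorem eQ : ∀ t ∈ T ⊓ C[W], t * t = 1 := by
  intro t ht
  obtain ⟨t1, c, t2⟩ := H.U4 h.symm (conj_mem_conj x⁻¹ ht)
  obtain ⟨u, hu, u1⟩ := (H.U3 h.symm).1 c
  have q1 := H.same h t1 (h.symm.UT hu) t2 u1
  obtain ⟨w, hw, rfl⟩ := mem_conj_iff'.1 hu
  have y1 : w⁻¹ * t ∈ T ⊓ C[W] := mul_mem (inv_mem (WQ h hw)) ht
  have y2 : w⁻¹ * t * (w⁻¹ * t) ∈ (T ⊓ C[K]) ^ᶜ x := by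
    have := sqD h q1
    rw [mem_conj_iff]
    convert this using 1
    group
  have y3 : w⁻¹ * t * (w⁻¹ * t) = 1 := mem_bot.1 (h.DD ▸ mem_inf.2 ⟨sqD h y1, y2⟩)
  have e := mem_centralizer_iff.1 ht.2 w hw
  rw [H.inv hw] at y3
  calc t * t = w * w * (t * t) := by rw [H.eW w hw, one_mul]
    _ = w * (w * t) * t := by group
    _ = w * t * (w * t) := by nth_rewrite 1 [e]; group
    _ = 1 := y3

theorem DQ : T ⊓ C[K] ≤ T ⊓ C[W] := inf_le_inf_left _ (centralizer_anti H.WK)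

theorem DU : T ⊓ C[K] ≤ (T ⊓ C[W]) ^ᶜ x := fun d hd => by
  rw [Q_conj h]
  refine ⟨hd.1, mem_centralizer_iff.2 fun u hu => ?_⟩
  obtain ⟨c, u1⟩ := H.U1 h hu
  obtain ⟨r, hr, q, hq, rfl⟩ := H.dec h (h.UT hu) u1
  rw [mul_assoc, comm_of_sq (H.eQ h) hq (H.DQ h hd), ← mul_assoc, mem_centralizer_iff.1 hd.2 r hr.1,
    mul_assoc]

omit H in
theorem KQ : K ≤ N[T ⊓ C[W]] := le_normalizer_of_commutator_le (h.QK.trans (WQ h))

theorem QD : T ⊓ C[W] = W ⊔ (T ⊓ C[K]) := by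
  set Q := T ⊓ C[W] with hQ
  set Y := Q ^ᶜ x ⊓ C[W] with hY
  have YQ : Y ≤ Q := fun y hy => ⟨(H.U4 h hy.1).1, hy.2⟩
  have YS : H.S0 ≤ C[Y] := fun r hr => mem_centralizer_iff.2 fun y hy => by
    obtain ⟨rK, c, r1⟩ := id hr
    obtain ⟨u, hu, u1⟩ := (H.U3 h).1 c
    have q := H.same h (H.ST h hr) (h.UT hu) r1 u1
    have e1 := comm_of_sq (H.eQ h) (YQ hy) q
    have e2 := comm_of_sq (sq_conj (H.eQ h) x) hy.1 (conj_mono x (WQ h) hu)
    calc y * r = y * u * (u⁻¹ * r) := by group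
      _ = u * (y * (u⁻¹ * r)) := by rw [e2]; group
      _ = r * y := by rw [e1]; group
  obtain ⟨φ, p1, p2⟩ := H.par h
  obtain ⟨add, ker⟩ := p2 (Q ^ᶜ x) (fun t ht => (H.U4 h ht).1) fun t ht => (H.U4 h ht).2
  have c1 := card_sur _ _ φ add ker fun c => by
    obtain ⟨u, hu, u1⟩ := (H.U3 h).1 c
    exact ⟨u, conj_mono x (WQ h) hu, p1 u c u1⟩
  rw [card_conj, ← hY] at c1
  obtain ⟨n, hn, n1⟩ := H.real 0 1 1 0 (by linear_combination -H.two)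
  have YQ' : Y ^ᶜ n ≤ Q := conj_le_of_mem_normalizer YQ (KQ h hn)
  have l1 : Y ⊓ Y ^ᶜ n ≤ T ⊓ C[K] := by
    refine le_inf (inf_le_left.trans (YQ.trans inf_le_left)) (le_centralizer_iff.1 (H.gen hn n1
      (YS.trans (centralizer_anti inf_le_left)) ?_))
    refine le_trans ?_ (centralizer_anti inf_le_right)
    rw [← conj_centralizer]
    exact conj_mono n YS
  have QC : Q ≤ C[Q] := le_cent_of_sq (H.eQ h)
  have c2 := card_sup_mul_card_inf (H := Y) (N := Y ^ᶜ n)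
    (le_normalizer_of_le_centralizer (YQ.trans (QC.trans (centralizer_anti YQ'))))
  rw [card_conj] at c2
  have c3 : Nat.card Y ≤ Nat.card F * Nat.card ↥(T ⊓ C[K]) := by
    refine Nat.le_of_mul_le_mul_left (c := Nat.card Y) ?_ Nat.card_pos
    rw [← c2]
    refine (Nat.mul_le_mul (Subgroup.card_le_of_le (sup_le YQ YQ')) (Subgroup.card_le_of_le l1)).trans (le_of_eq ?_)
    rw [c1]; ring
  have c4 := card_sup_mul_card_inf (H := W) (N := T ⊓ C[K])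
    (le_normalizer_of_le_centralizer ((WQ h).trans (QC.trans (centralizer_anti (H.DQ h)))))
  have e : W ⊓ (T ⊓ C[K]) = W ⊓ C[K] := by rw [← inf_assoc, inf_eq_left.2 h.WT]
  rw [e, H.card_L0, H.card_Z] at c4
  refine (eq_of_le_of_card_le (sup_le (WQ h) (H.DQ h)) ?_).symm
  refine Nat.le_of_mul_le_mul_right (c := Nat.card ↥(W ⊓ C[K])) ?_ Nat.card_pos
  rw [c4, c1]
  calc _ ≤ Nat.card F * (Nat.card F * Nat.card ↥(T ⊓ C[K])) * Nat.card ↥(W ⊓ C[K]) :=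
        Nat.mul_le_mul_right _ (Nat.mul_le_mul_left _ c3)
    _ = _ := by ring

end Ct

end Cfsg.Agent.Lib.AP3
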