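import Cfsg.Agent.Lib.APR

/-! The sectional rank of a 2-group over a Sylow subgroup of `L₃(4)`. -/

set_option autoImplicit false

namespace Cfsg.Agent.Lib.AP4

open Cfsg Subgroup Cfsg.Agent.Lib.PCoreConj Cfsg.Agent.Lib.PCore Cfsg.Agent.Lib.FTDefs Cfsg.Agent.Lib.APR

universe u

variable {G : Type*} [Group G] [Finite G] {A N S W U Y : Subgroup G} {s t : G}

omit [Finite G] in
theorem ab (h : ∀ w ∈ W, w * w = 1) {a b : G} (ha : a ∈ W) (hb : b ∈ W) : a * b = b * a := by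
  have := com (N := ⊥) h ha hb
  rwa [mem_bot, mul_inv_eq_one, mul_inv_eq_iff_eq_mul] at this

theorem two_le (ht : t ∈ N) (h1 : t ≠ 1) : 2 ≤ Nat.card N :=
  (one_lt_card_iff_ne_bot N).2 fun e => h1 (mem_bot.1 (e ▸ ht))

/-- A 2-group acting on a group of order four. -/
theorem f3 (hS : IsPGroup 2 S) (hY : Y ≤ S) (cY : Nat.card Y = 4) (hN : S ≤ N[Y]) (hA : A ≤ S) :
    Nat.card A ≤ 2 * Nat.card ↥(C[Y] ⊓ A) := by
  by_cases h : Y ≤ Y ⊓ C[S]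
  · rw [inf_of_le_right (hA.trans (le_centralizer_iff.1 (h.trans inf_le_right)))]; omega
  have h1 := half inf_le_left h
  have h2 := (one_lt_card_iff_ne_bot _).2 (inf_centralizer_ne_bot hS (hS.to_le hY) hN fun e => h (e ▸ bot_le))
  have h3 := card_mul_relIndex (inf_le_left : Y ⊓ C[S] ≤ Y)
  have h4 : Nat.card ↥(Y ⊓ C[S]) = 2 := by omega
  obtain ⟨y, hy, yn⟩ := SetLike.not_le_iff_exists.1 h
  have := fibc (B := A) (A := C[Y] ⊓ A) (fun g => (⟨g * y * (g : G)⁻¹ * y⁻¹, (mul_mem_iff_of_index_two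
    (H := (Y ⊓ C[S]).subgroupOf Y) (by change relIndex _ _ = _; rw [h4] at h3; omega)
    (a := ⟨_, cj (hN (hA g.2)) hy⟩) (b := ⟨_, inv_mem hy⟩)).2 (iff_of_false (fun e => yn (by
      have := e.2 _ (hA g.2)
      change g * (g * y * (g : G)⁻¹) = g * y * (g : G)⁻¹ * g at this
      rw [inv_mul_cancel_right, mul_left_cancel_iff] at this
      exact this ▸ e)) fun e => yn (inv_mem_iff.1 (mem_subgroupOf.1 e)))⟩ : ↥(Y ⊓ C[S]))) fun a b e => by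
    refine mem_inf.2 ⟨?_, mul_mem (inv_mem a.2) b.2⟩
    have e1 : (a : G) * y * (a : G)⁻¹ = b * y * (b : G)⁻¹ := mul_right_cancel (congrArg Subtype.val e)
    by_contra hn
    have k1 := half (inf_le_left : Y ⊓ c[(a : G)⁻¹ * b] ≤ Y) fun k => hn fun x hx =>
      mem_centralizer_singleton_iff.1 (k hx).2
    have k2 := half (show Y ⊓ C[S] ≤ Y ⊓ c[(a : G)⁻¹ * b] from fun x hx => ⟨hx.1,
      mem_centralizer_singleton_iff.2 (hx.2 _ (hA (mul_mem (inv_mem a.2) b.2))).symm⟩) fun k => yn (k ⟨hy,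
        mem_centralizer_singleton_iff.2 (by
          calc _ = (a : G)⁻¹ * (a * y * (a : G)⁻¹) * b := by group
            _ = _ := by rw [e1]; group)⟩)
    omega
  rwa [h4] at this

/-- The configuration. -/
structure Cx (W U : Subgroup G) : Prop where
  eW : ∀ w ∈ W, w * w = 1
  eU : ∀ u ∈ U, u * u = 1
  cW : Nat.card W = 16
  cU : Nat.card U = 16
  cY : Nat.card ↥(W ⊓ U) = 4
  WU : W ≤ N[U]
  UW : U ≤ N[W]
  nd : ∀ w ∈ W, w ∉ U → ∀ u ∈ U, u ∉ W → w * u ≠ u * w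

namespace Cx
variable (h : Cx W U)
include h

omit [Finite G]

theorem cT : Nat.card ↥(W ⊔ U) = 64 := by
  have := card_sup_mul_card_inf h.WU
  rw [h.cW, h.cU, h.cY] at this
  omega

theorem dec (ht : t ∈ W ⊔ U) : ∃ w ∈ W, ∃ u ∈ U, w * u = t := (mem_sup_iff_of_le_normalizer h.WU).1 ht

theorem nW : W ⊔ U ≤ N[W] := sup_le le_normalizer h.UW

theorem nU : W ⊔ U ≤ N[U] := sup_le h.WU le_normalizer

theorem nY : W ⊔ U ≤ N[W ⊓ U] := le_normalizer_inf h.nW h.nU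

theorem cm {w u : G} (hw : w ∈ W) (hu : u ∈ U) : w * u * w⁻¹ * u⁻¹ ∈ W ⊓ U :=
  mem_inf.2 ⟨by simpa [mul_assoc] using mul_mem hw (cj (h.UW hu) (inv_mem hw)), mul_mem (cj (h.WU hw) hu) (inv_mem hu)⟩

theorem sq (ht : t ∈ W ⊔ U) : t * t ∈ W ⊓ U := by
  obtain ⟨w, hw, u, hu, rfl⟩ := h.dec ht
  have := h.cm hw hu
  rwa [inv_eq_of_mul_eq_one_right (h.eW w hw), inv_eq_of_mul_eq_one_right (h.eU u hu), mul_assoc] at this

theorem el (hA : A ≤ W ⊔ U) (h1 : ∀ a ∈ A, a * a = 1) : A ≤ W ∨ A ≤ U := by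
  have k : ∀ a ∈ A, a ∈ W ∨ a ∈ U := fun a ha => by
    obtain ⟨w, hw, u, hu, rfl⟩ := h.dec (hA ha)
    by_contra! c
    refine h.nd w hw (fun e => c.2 (mul_mem e hu)) u hu (fun e => c.1 (mul_mem hw e)) ?_
    rw [eq_inv_of_mul_eq_one_left (h1 _ ha), mul_inv_rev, inv_eq_of_mul_eq_one_right (h.eW w hw),
      inv_eq_of_mul_eq_one_right (h.eU u hu)]
  by_contra! c
  obtain ⟨a, ha, a1⟩ := SetLike.not_le_iff_exists.1 c.1
  obtain ⟨b, hb, b1⟩ := SetLike.not_le_iff_exists.1 c.2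
  rcases k _ (mul_mem ha hb) with e | e
  · exact a1 ((W.mul_mem_cancel_right ((k b hb).resolve_right b1)).1 e)
  · exact b1 ((U.mul_mem_cancel_left ((k a ha).resolve_left a1)).1 e)

end Cx

theorem Cx.f2 (h : Cx W U) (hN : ∀ a ∈ A, a * a ∈ N) {x : G} (hx : x ∈ W) (xU : x ∉ U) (xA : x ∈ A)
    (h1 : ∀ u ∈ U, ∃ w ∈ W, w * u ∈ A) : 4 ≤ Nat.card ↥((W ⊓ U) ⊓ N) := by
  have := fibc (B := U) (A := W ⊓ U) (fun u => (⟨_, h.cm hx u.2, by
    obtain ⟨w, hw, e⟩ := h1 u u.2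
    have := com hN xA e
    have e2 := ab h.eW hw (h.cm hx u.2).1
    rw [← mul_assoc x, ab h.eW hx hw, show w * x * u * x⁻¹ * (w * u)⁻¹ = w * (x * u * x⁻¹ * (u : G)⁻¹) * w⁻¹ by group,
      e2, mul_inv_cancel_right] at this
    exact this⟩ : ↥((W ⊓ U) ⊓ N))) fun a b e => by
    have hm := mul_mem (inv_mem a.2) b.2
    refine ⟨by_contra fun c => h.nd x hx xU _ hm c ?_, hm⟩
    have e1 : x * a * x⁻¹ * (a : G)⁻¹ = x * b * x⁻¹ * (b : G)⁻¹ := congrArg Subtype.val e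
    have e2 := ab h.eU (inv_mem a.2) b.2
    calc _ = x * (a : G)⁻¹ * x⁻¹ * (x * b * x⁻¹ * (b : G)⁻¹) * b * x := by group
      _ = (a : G)⁻¹ * b * x := by rw [← e1]; group
  rw [h.cU, h.cY] at this
  omega

/-- An element that normalises both groups. -/
theorem Cx.fld (h : Cx W U) (hB : (W ⊔ U) ⊓ A ≤ N[W ⊓ U]) (sW : s ∈ N[W]) (sU : s ∈ N[U])
    (h2 : ∃ w ∈ W, s * w * s⁻¹ * w⁻¹ ∉ U) (h3 : ∃ u ∈ U, s * u * s⁻¹ * u⁻¹ ∉ W) :
    Nat.card (Kc s _ _ hB) ≤ 4 * Nat.card ↥((W ⊓ U) ⊓ A) ∧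
      (Nat.card (Kc s _ _ hB) ≤ 2 * Nat.card ↥((W ⊓ U) ⊓ A) ∨ ∃ x ∈ W, x ∉ U ∧ x ∈ A) := by
  obtain ⟨w, hw, h2⟩ := h2
  obtain ⟨u, hu, h3⟩ := h3
  have k1 := half (show Kc s _ _ h.nW ≤ W ⊔ U from fun _ e => e.1) fun e => h3 (e (mem_sup_right hu)).2
  have k2 := Subgroup.card_le_of_le (show W ≤ W ⊓ Kc s _ _ h.nW from fun x hx => ⟨hx, mem_sup_left hx,
    W.mul_mem (cj sW hx) (W.inv_mem hx)⟩)
  have k3 := idx (L := W) (k := 2) (show Kc s _ _ hB ≤ Kc s _ _ h.nW from fun _ e => ⟨e.1.1, e.2.1⟩)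
    (by rw [h.cT] at k1; rw [h.cW] at k2; omega)
  have k4 := half (show Kc s _ _ h.WU ≤ W from fun _ e => e.1) fun e => h2 (e hw).2
  have k5 := Subgroup.card_le_of_le (show W ⊓ U ≤ U ⊓ Kc s _ _ h.WU from fun x hx => ⟨hx.2, hx.1,
    U.mul_mem (cj sU hx.2) (U.inv_mem hx.2)⟩)
  have k6 := idx (L := U) (k := 2) (show W ⊓ Kc s _ _ hB ≤ Kc s _ _ h.WU from fun _ e => ⟨e.1, e.2.2.2⟩)
    (by rw [h.cW] at k4; rw [h.cY] at k5; omega)
  have k7 := Subgroup.card_le_of_le (show U ⊓ (W ⊓ Kc s _ _ hB) ≤ (W ⊓ U) ⊓ A from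
    fun x e => ⟨⟨e.2.1, e.1⟩, e.2.2.1.2⟩)
  refine ⟨by omega, or_iff_not_imp_right.2 fun c => ?_⟩
  have := Subgroup.card_le_of_le (show W ⊓ Kc s _ _ hB ≤ (W ⊓ U) ⊓ A from
    fun x e => ⟨⟨e.1, by_contra fun k => c ⟨x, e.1, k, e.2.1.2⟩⟩, e.2.1.2⟩)
  omega

/-- An element that swaps the groups. -/
theorem Cx.swp (h : Cx W U) (hB : (W ⊔ U) ⊓ A ≤ N[W ⊓ U]) (h1 : W ^ᶜ s = U) (h2 : U ^ᶜ s = W) :
    Nat.card (Kc s _ _ hB) ≤ 4 * Nat.card ↥((W ⊓ U) ⊓ A) ∧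
      (Nat.card (Kc s _ _ hB) ≤ 2 * Nat.card ↥((W ⊓ U) ⊓ A) ∨ ∀ u ∈ U, ∃ w ∈ W, w * u ∈ A) := by
  have hK : Kc s _ _ hB ≤ W ⊔ U := fun _ e => e.1.1
  have k1 := Subgroup.card_le_of_le (show W ⊓ Kc s _ _ hB ≤ (W ⊓ U) ⊓ A from fun x e =>
    ⟨⟨e.1, conj_mem_conj_iff.1 (h2.ge ((W.mul_mem_cancel_right (W.inv_mem e.1)).1 e.2.2.1))⟩, e.2.1.2⟩)
  have k2 := idx (L := W) (k := 4) hK (by rw [h.cT, inf_of_le_left le_sup_left, h.cW])
  refine ⟨by omega, ?_⟩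
  by_cases c : W ⊔ U ≤ W ⊔ Kc s _ _ hB
  · refine .inr fun u hu => ?_
    obtain ⟨w, hw, k, hk, rfl⟩ := (mem_sup_iff_of_le_normalizer' (hK.trans h.nW)).1 (c (mem_sup_right hu))
    exact ⟨_, inv_mem hw, by simpa using hk.1.2⟩
  have k3 := half (sup_le le_sup_left hK) c
  have k4 := card_sup_mul_card_inf (hK.trans h.nW)
  rw [sup_comm, inf_comm _ W, h.cW] at k4
  rw [h.cT] at k3
  left
  nlinarith

instance instP4 : AP.P4.{u} := ⟨fun {G} _ _ {S W U} hS WS US eW eU cW cU cY WU UW nd h1 h2 => by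
  have h : Cx W U := ⟨eW, eU, cW, cU, cY, WU, UW, nd⟩
  refine sect hS fun A hA N hN sN => ?_
  have n1 : 1 ≤ Nat.card N := Nat.card_pos
  have y1 : 1 ≤ Nat.card ↥((W ⊓ U) ⊓ N) := Nat.card_pos
  have y2 := Subgroup.card_le_of_le (inf_le_right : (W ⊓ U) ⊓ N ≤ N)
  have y3 := (Subgroup.card_le_of_le (inf_le_left : (W ⊓ U) ⊓ A ≤ _)).trans cY.le
  by_cases c : A ≤ W ⊔ U
  · by_cases c1 : ∀ a ∈ A, a * a = 1
    · rcases h.el c c1 with e | e <;> have := Subgroup.card_le_of_le e <;> omega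
    push Not at c1
    obtain ⟨a, ha, c1⟩ := c1
    have := two_le (sN a ha) c1
    by_cases c2 : W ⊔ U ≤ A
    · obtain ⟨x, hx, xU⟩ := SetLike.not_le_iff_exists.1 (show ¬ W ≤ U from fun e => by
        rw [inf_of_le_left e] at cY; omega)
      have := h.f2 sN hx xU (c2 (mem_sup_left hx)) fun u hu => ⟨1, one_mem _, by simpa using c2 (mem_sup_right hu)⟩
      have := (Subgroup.card_le_of_le c).trans h.cT.le
      omega
    · have := (half c c2).trans h.cT.le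
      omega
  have SY : S ≤ N[W ⊓ U] := fun s hs => mem_normalizer_iff_conj_eq.2 (by
    rcases h1 s hs with e | e
    · rw [conj_inf, conj_eq_of_mem_normalizer e.1, conj_eq_of_mem_normalizer e.2]
    · rw [conj_inf, e.1, e.2, inf_comm])
  have ST : S ≤ N[W ⊔ U] := fun s hs => mem_normalizer_iff_conj_eq.2 (by
    rcases h1 s hs with e | e
    · rw [conj_sup, conj_eq_of_mem_normalizer e.1, conj_eq_of_mem_normalizer e.2]
    · rw [conj_sup, e.1, e.2, sup_comm])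
  have hB : (W ⊔ U) ⊓ A ≤ N[W ⊓ U] := inf_le_left.trans h.nY
  have ky := fun s (hs : s ∈ A) => key (s := s) hB fun t ht => com sN hs ht.2
  have sw : ∀ s ∈ A, s ∉ N[W] → W ^ᶜ s = U ∧ U ^ᶜ s = W := fun s hs e => (h1 s (hA hs)).resolve_left fun k => e k.1
  have i1 := two (A := A) (L := N[W]) fun a ha b hb a1 b1 => mem_normalizer_iff_conj_eq.2 (by
    rw [← conj_conj, (sw b hb b1).1, ← (sw a ha a1).1, conj_conj_inv])
  have i2 := (f3 hS.isPGroup (inf_le_left.trans WS) cY SY (inf_le_right.trans hA : N[W] ⊓ A ≤ S)).trans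
    (Nat.mul_le_mul_left 2 (Subgroup.card_le_of_le (show _ ≤ (W ⊔ U) ⊓ A from fun x e => ⟨by_contra fun k => by
      obtain ⟨y, hy, k⟩ := (h2 x (hA e.2.2) e.2.1 k).1
      exact k (e.1 y hy).symm, e.2.2⟩)))
  have ga : Nat.card ↥((W ⊓ U) ⊓ A) ≤ 2 * Nat.card ↥((W ⊓ U) ⊓ N) ∨
      W ⊓ U ≤ A ∧ ∀ x ∈ W ⊓ U, x ∈ N → x = 1 := by
    by_cases k : W ⊓ U ≤ (W ⊓ U) ⊓ A
    · refine or_iff_not_imp_left.2 fun e => ⟨k.trans inf_le_right, fun x hx xN => by_contra fun x1 => ?_⟩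
      have := two_le (mem_inf.2 ⟨hx, xN⟩) x1
      omega
    · have := half inf_le_left k
      omega
  have fin : ∀ k m, Nat.card A ≤ k * Nat.card ↥((W ⊔ U) ⊓ A) → k * m = 16 → ∀ s ∈ A,
      Nat.card (Kc s _ _ hB) ≤ m * Nat.card ↥((W ⊓ U) ⊓ N) → Nat.card A ≤ 2 ^ 4 * Nat.card N := fun k m e1 e2 s hs e3 => by
    have := (ky s hs).trans (Nat.mul_le_mul_right _ e3)
    rw [mul_right_comm] at this
    have := Nat.mul_le_mul_left k (Nat.le_of_mul_le_mul_right this y1)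
    rw [← mul_assoc, e2] at this
    omega
  by_cases c1 : N[W] ⊓ A ≤ (W ⊔ U) ⊓ A
  · obtain ⟨s, hs, sn⟩ := SetLike.not_le_iff_exists.1 c
    obtain ⟨e1, e2⟩ := sw s hs fun e => sn (c1 ⟨e, hs⟩).1
    have := Subgroup.card_le_of_le c1
    rcases ga with k | k
    · have := (h.swp hB e1 e2).1
      exact fin 2 8 (by omega) rfl s hs (by omega)
    have k1 : ∀ x ∈ (W ⊔ U) ⊓ A, s * x * s⁻¹ ∈ (W ⊔ U) ⊓ A := fun x hx =>
      ⟨cj (ST (hA hs)) hx.1, A.mul_mem (A.mul_mem hs hx.2) (A.inv_mem hs)⟩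
    have : (W ⊔ U) ⊓ A ≤ W ⊓ U := by
      rcases h.el inf_le_left fun a ha => k.2 _ (h.sq ha.1) (sN a ha.2) with e | e
      · exact fun x hx => ⟨e hx, conj_mem_conj_iff.1 (e2.ge (e (k1 x hx)))⟩
      · exact fun x hx => ⟨conj_mem_conj_iff.1 (e1.ge (e (k1 x hx))), e hx⟩
    have := Subgroup.card_le_of_le this
    omega
  obtain ⟨f, hf, fn⟩ := SetLike.not_le_iff_exists.1 c1
  obtain ⟨⟨y, hy, f1⟩, f2, f3⟩ := h2 f (hA hf.2) hf.1 fun e => fn ⟨e, hf.2⟩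
  have fU : f ∈ N[U] := by
    rcases h1 f (hA hf.2) with e | e
    · exact e.2
    · rw [← e.1, conj_eq_of_mem_normalizer hf.1]; exact hf.1
  obtain ⟨g1, g2⟩ := h.fld hB hf.1 fU f2 f3
  replace ga := ga.resolve_right fun k => f1 (by
    have := k.2 _ (mul_mem (cj (SY (hA hf.2)) hy) (inv_mem hy)) (com sN hf.2 (k.1 hy))
    rwa [mul_inv_eq_one, mul_inv_eq_iff_eq_mul] at this)
  by_cases c2 : A ≤ N[W]
  · rw [inf_of_le_right c2] at i2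
    exact fin 2 8 i2 rfl f hf.2 (by omega)
  obtain ⟨s, hs, sn⟩ := SetLike.not_le_iff_exists.1 c2
  obtain ⟨g3, g4⟩ := h.swp hB (sw s hs sn).1 (sw s hs sn).2
  rcases g2 with g2 | ⟨x, hx, xU, xA⟩
  · exact fin 4 4 (by omega) rfl f hf.2 (by omega)
  rcases g4 with g4 | g4
  · exact fin 4 4 (by omega) rfl s hs (by omega)
  have := h.f2 sN hx xU xA g4
  exact fin 4 4 (by omega) rfl s hs (by omega)⟩

end Cfsg.Agent.Lib.AP4
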