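import Mathlib
import Cfsg.Agent.Lib.APC1

/-!
The natural configuration of S3090: the two-sided structure, field involutions, weak closure.
-/

set_option autoImplicit false
set_option linter.unusedSectionVars false

namespace Cfsg.Agent.Lib.AP

open Cfsg Subgroup Cfsg.Agent.Lib.PCoreConj Cfsg.Agent.Lib.PCore Cfsg.Agent.Lib.PCoreResidual
  Cfsg.Agent.Lib.FTDefs
open scoped Classical

variable {G : Type*} [Group G] [Finite G] {q : ℕ} {K K' W U C C' A B E T P : Subgroup G}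
  {n n' x g a b c f s t u w y z : G}

theorem Hf.conj (h : Hf q K W U C n) (g : G) : Hf q (K ^ᶜ g) (W ^ᶜ g) (U ^ᶜ g) (C ^ᶜ g) (g * n * g⁻¹) where
  eW := El.conj h.eW g
  WK := conj_mono g h.WK
  UK := conj_mono g h.UK
  KN := le_normalizer_conj h.KN g
  NK := by rw [← conj_normalizer, ← conj_normalizer]; exact conj_mono g h.NK
  WU := le_normalizer_conj h.WU g
  DU := by rw [← conj_centralizer, ← conj_inf]; exact conj_mono g h.DU
  cW := by rw [← conj_inf, card_conj, card_conj]; exact h.cW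
  cY := by rw [← conj_centralizer, ← conj_inf, ← conj_inf, card_conj, card_conj]; exact h.cY
  nd := by
    simp only [← conj_centralizer, mem_conj_iff]
    exact fun w hw wu u hu uw k => h.nd _ hw wu _ hu uw (by convert k using 1; group)
  mx := fun P pP h1 h2 => le_conj_iff_conj_inv_le.2 (h.mx _ (isPGroup_conj pP _)
    (conj_le_iff_le_conj_inv.2 (by rwa [inv_inv, conj_normalizer])) (by
      have := le_normalizer_conj h2 g⁻¹; rwa [conj_conj_inv] at this))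
  cw := by rw [← conj_centralizer]; exact conj_mono g h.cw
  CK := by rw [← conj_normalizer, ← conj_inf]; exact conj_mono g h.CK
  cyc := cyclic_conj h.cyc g
  cC := by rw [card_conj]; exact h.cC
  bor := by rw [← conj_normalizer, ← conj_inf, ← conj_sup, ← conj_sup]; exact conj_mono g h.bor
  t1 := by
    simp only [← conj_centralizer, ← conj_inf, mem_conj_iff]
    intro a ha a1 b hb b1
    obtain ⟨c, hc, e⟩ := h.t1 _ ha a1 _ hb b1
    exact ⟨g * c * g⁻¹, by convert hc using 1; group, by convert e using 1; group⟩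
  t2 := by
    simp only [mem_conj_iff]
    intro a ha a1 b hb b1
    obtain ⟨c, hc, e⟩ := h.t2 _ ha a1 _ hb b1
    exact ⟨g * c * g⁻¹, by convert hc using 1; group, by convert e using 1; group⟩
  t3 := by
    simp only [mem_conj_iff]
    intro a ha a1 b hb b1
    obtain ⟨c, hc, e⟩ := h.t3 _ ha a1 _ hb b1
    exact ⟨g * c * g⁻¹, by convert hc using 1; group, by convert e using 1; group⟩
  s1 := by
    simp only [← conj_centralizer, ← conj_inf, mem_conj_iff]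
    intro c hc a ha a1 e
    have := h.s1 _ hc _ ha a1 (by convert e using 1; group)
    calc c = g * (g⁻¹ * c * g) * g⁻¹ := by group
      _ = 1 := by rw [this]; group
  s2 := by
    simp only [mem_conj_iff]
    intro c hc a ha a1 e
    have := h.s2 _ hc _ ha a1 (by convert e using 1; group)
    calc c = g * (g⁻¹ * c * g) * g⁻¹ := by group
      _ = 1 := by rw [this]; group
  s3 := by
    simp only [mem_conj_iff]
    intro c hc a ha a1 e
    have := h.s3 _ hc _ ha a1 (by convert e using 1; group)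
    calc c = g * (g⁻¹ * c * g) * g⁻¹ := by group
      _ = 1 := by rw [this]; group
  cent := by
    simp only [← conj_centralizer, ← conj_normalizer, ← conj_inf, ← conj_sup, mem_conj_iff]
    rintro f hf ⟨k, hk⟩ e
    refine h.cent _ hf ⟨k, ?_⟩ fun y hy => ?_
    · rw [show g⁻¹ * f * g = g⁻¹ * f * g⁻¹⁻¹ by group, conj_pow, hk]; group
    · have := e (g * y * g⁻¹) (by convert hy using 1; group)
      convert this using 1; group
  ti := fun P pP h1 t ht tU tW => by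
    have := h.ti (P ^ᶜ g⁻¹) (isPGroup_conj pP _) (conj_le_iff_le_conj_inv.2 (by rwa [inv_inv, conj_normalizer]))
      (g⁻¹ * t * g) (by simpa using conj_mem_conj g⁻¹ ht) (mem_conj_iff.1 tU) (fun k => tW (mem_conj_iff.2 k))
    rw [← conj_normalizer]; exact le_conj_iff_conj_inv_le.2 this
  nK := conj_mem_conj g h.nK
  nY := by
    rw [← conj_centralizer, ← conj_inf, conj_conj, show g * n * g⁻¹ * g = g * n by group, ← conj_conj, ← conj_inf]
    exact conj_mono g h.nY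
  nN := by
    rw [conj_conj, show g * n * g⁻¹ * g = g * n by group, ← conj_conj]
    rw [← conj_normalizer W, ← conj_normalizer U, ← conj_normalizer C, ← conj_normalizer (U ^ᶜ n), ← conj_inf, ← conj_inf]
    exact conj_mono g h.nN
  hua := fun hq E h1 h2 h3 h4 => by
    rw [← conj_inf] at h1 h4
    rw [← conj_sup] at h2
    refine (h.hua hq (E ^ᶜ g⁻¹) (conj_le_iff_le_conj_inv.1 h1) (le_conj_iff_conj_inv_le.1 h2) (by
      have := le_normalizer_conj h3 g⁻¹; rwa [conj_conj_inv] at this)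
      (fun k => h4 (le_conj_iff_conj_inv_le.2 k))).imp conj_le_iff_le_conj_inv.2 conj_le_iff_le_conj_inv.2

/-- the two-sided configuration -/
structure Bi (q : ℕ) (K K' W U C C' : Subgroup G) (n n' : G) : Prop where
  loc : Loc G
  q2 : ∃ m, 2 ≤ m ∧ q = 2 ^ m
  a : Hf q K W U C n
  b : Hf q K' U W C' n'
  DD : (W ⊓ C[K]) ⊓ (U ⊓ C[K']) = ⊥
  sw : ∃ x, W ^ᶜ x = U ∧ U ^ᶜ x = W ∧ K ^ᶜ x = K' ∧ K' ^ᶜ x = K

theorem Cf.bi (h : Cf q K W U C n x) : Bi q K (K ^ᶜ x) W U C (C ^ᶜ x) n (x * n * x⁻¹) where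
  loc := h.loc
  q2 := h.q2
  a := h.hf
  b := by have := h.hf.conj x; rwa [h.xW, h.xU] at this
  DD := by have := h.DD; rwa [conj_inf, conj_centralizer, h.xW] at this
  sw := ⟨x, h.xW, h.xU, rfl, by
    rw [conj_conj]
    exact conj_eq_of_mem_normalizer (h.hf.NK (mem_normalizer_iff_conj_eq.2 (by rw [← conj_conj, h.xW, h.xU])))⟩

theorem Bi.symm (h : Bi q K K' W U C C' n n') : Bi q K' K U W C' C n' n :=
  ⟨h.loc, h.q2, h.b, h.a, by rw [inf_comm]; exact h.DD, by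
    obtain ⟨x, h1, h2, h3, h4⟩ := h.sw; exact ⟨x, h2, h1, h4, h3⟩⟩

theorem Bi.conj (h : Bi q K K' W U C C' n n') (g : G) :
    Bi q (K ^ᶜ g) (K' ^ᶜ g) (W ^ᶜ g) (U ^ᶜ g) (C ^ᶜ g) (C' ^ᶜ g) (g * n * g⁻¹) (g * n' * g⁻¹) :=
  ⟨h.loc, h.q2, h.a.conj g, h.b.conj g, by
    simp only [← conj_centralizer, ← conj_inf]; rw [h.DD, conj_bot], by
    obtain ⟨x, h1, h2, h3, h4⟩ := h.sw
    have e : g * x * g⁻¹ * g = g * x := by group
    refine ⟨g * x * g⁻¹, ?_, ?_, ?_, ?_⟩ <;> rw [conj_conj, e, ← conj_conj] <;> congr 1⟩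

theorem card_le_two (h : ∀ a ∈ A, a ∉ B → ∀ b ∈ A, b ∉ B → a * b⁻¹ ∈ B) : Nat.card A ≤ 2 * Nat.card ↥(A ⊓ B) := by
  by_cases k : A ≤ B
  · rw [inf_eq_left.2 k]; omega
  obtain ⟨a, ha, aB⟩ := SetLike.not_le_iff_exists.1 k
  let φ : A → ↥(A ⊓ B) ⊕ ↥(A ⊓ B) := fun x => if hx : (x : G) ∈ B then .inl ⟨x, mem_inf.2 ⟨x.2, hx⟩⟩ else
    .inr ⟨x * a⁻¹, mem_inf.2 ⟨A.mul_mem x.2 (A.inv_mem ha), h _ x.2 hx _ ha aB⟩⟩
  have : Function.Injective φ := fun x y e => by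
    by_cases hx : (x : G) ∈ B <;> by_cases hy : (y : G) ∈ B <;> simp [φ, hx, hy] at e <;>
      first | exact e | exact Subtype.ext e | exact Subtype.ext (Subtype.mk.inj e)
  have := Nat.card_le_card_of_injective φ this
  rw [Nat.card_sum] at this; omega

namespace Bi
variable (h : Bi q K K' W U C C' n n')
include h

theorem q4 : 4 ≤ q := by
  obtain ⟨m, h1, rfl⟩ := h.q2; exact Nat.pow_le_pow_right (n := 2) (by norm_num) h1
theorem eW : El W := h.a.eW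
theorem eU : El U := h.b.eW
theorem eY : El (W ⊓ U) := h.eW.of_le inf_le_left
theorem UW : U ≤ N[W] := h.b.WU
theorem WU : W ≤ N[U] := h.a.WU
theorem cU : Nat.card U = q * Nat.card ↥(W ⊓ U) := by rw [inf_comm]; exact h.b.cW
theorem cUW : Nat.card U = Nat.card W := h.cU.trans h.a.cW.symm
theorem TW : W ⊔ U ≤ N[W] := sup_le le_normalizer h.UW
theorem TU : W ⊔ U ≤ N[U] := sup_le h.WU le_normalizer
theorem TK : W ⊔ U ≤ K := sup_le h.a.WK h.a.UK
theorem pT : IsPGroup 2 ↥(W ⊔ U) := IsPGroup.to_sup_of_normal_left' h.eW.pg h.eU.pg h.UW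
theorem memT (ht : t ∈ W ⊔ U) : ∃ w ∈ W, ∃ u ∈ U, w * u = t := (mem_sup_iff_of_le_normalizer' h.UW).1 ht
theorem cm (hw : w ∈ W) (hu : u ∈ U) : w * u * w⁻¹ * u⁻¹ ∈ W ⊓ U :=
  mem_inf.2 ⟨by have := mul_mem hw (nconj (h.UW hu) (W.inv_mem hw)); convert this using 1; group,
    mul_mem (nconj (h.WU hw) hu) (U.inv_mem hu)⟩
theorem YT : W ⊔ U ≤ C[W ⊓ U] :=
  sup_le (le_centralizer_iff.1 (h.eW.le_cent inf_le_left)) (le_centralizer_iff.1 (h.eU.le_cent inf_le_right))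
theorem cY (ht : t ∈ W ⊔ U) (hy : y ∈ W ⊓ U) : y * t = t * y := mem_cent_iff.1 (h.YT ht) y hy
theorem nc (hw : w ∈ W) (wU : w ∉ U) (hu : u ∈ U) (uW : u ∉ W) : w * u ≠ u * w := fun e =>
  h.a.nd w hw wU u hu uW (by rw [e]; simp)
theorem inv_mem (ht : t ∈ W ⊔ U) (t2 : t * t = 1) : t ∈ W ∨ t ∈ U := by
  obtain ⟨w, hw, u, hu, rfl⟩ := h.memT ht
  by_cases wU : w ∈ U
  · exact Or.inr (mul_mem wU hu)
  by_cases uW : u ∈ W
  · exact Or.inl (mul_mem hw uW)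
  refine absurd ?_ (h.nc hw wU hu uW)
  rw [← inv_sq t2, mul_inv_rev, inv_sq (h.eW _ hw), inv_sq (h.eU _ hu)]
theorem el_le (hA : El A) (hT : A ≤ W ⊔ U) : A ≤ W ∨ A ≤ U := le_or_le fun a ha => h.inv_mem (hT ha) (hA a ha)
theorem not_le : ¬ W ≤ U := fun k => by
  have e := h.a.cW
  rw [inf_eq_left.2 k] at e
  have := h.q4
  have : 0 < Nat.card W := Nat.card_pos
  nlinarith
theorem ne : W ≠ U := fun e => h.not_le e.le
theorem eq_or (hA : El A) (hT : A ≤ W ⊔ U) (c : Nat.card A = Nat.card W) : A = W ∨ A = U :=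
  (h.el_le hA hT).imp (fun k => eq_of_le_of_card_eq k c) (fun k => eq_of_le_of_card_eq k (c.trans h.cUW.symm))
theorem pair (h1 : W ^ᶜ g = W ∨ W ^ᶜ g = U) (h2 : U ^ᶜ g = W ∨ U ^ᶜ g = U) :
    (g ∈ N[W] ∧ g ∈ N[U]) ∨ (W ^ᶜ g = U ∧ U ^ᶜ g = W) := by
  have k : W ^ᶜ g ≠ U ^ᶜ g := fun e => h.ne (conj_inj.1 e)
  rcases h1 with h1 | h1 <;> rcases h2 with h2 | h2
  · exact absurd (h1.trans h2.symm) k
  · exact Or.inl ⟨mem_normalizer_iff_conj_eq.2 h1, mem_normalizer_iff_conj_eq.2 h2⟩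
  · exact Or.inr ⟨h1, h2⟩
  · exact absurd (h1.trans h2.symm) k
theorem dich (hg : g ∈ N[W ⊔ U]) : (g ∈ N[W] ∧ g ∈ N[U]) ∨ (W ^ᶜ g = U ∧ U ^ᶜ g = W) :=
  h.pair (h.eq_or (h.eW.conj g) (conj_le_of_mem_normalizer le_sup_left hg) (card_conj _ _))
    (h.eq_or (h.eU.conj g) (conj_le_of_mem_normalizer le_sup_right hg) ((card_conj _ _).trans h.cUW))
omit h in
theorem N0_le (h1 : g ∈ N[W]) (h2 : g ∈ N[U]) : g ∈ N[W ⊔ U] :=
  le_normalizer_sup (L := N[W] ⊓ N[U]) inf_le_left inf_le_right ⟨h1, h2⟩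
omit h in
theorem sw_mem (h1 : W ^ᶜ g = U) (h2 : U ^ᶜ g = W) : g ∈ N[W ⊔ U] :=
  mem_normalizer_iff_conj_eq.2 (by rw [conj_sup, h1, h2, sup_comm])
theorem NY (hg : g ∈ N[W ⊔ U]) : g ∈ N[W ⊓ U] := mem_normalizer_iff_conj_eq.2 (by
  rcases h.dich hg with ⟨h1, h2⟩ | ⟨h1, h2⟩
  · rw [conj_inf, conj_eq_of_mem_normalizer h1, conj_eq_of_mem_normalizer h2]
  · rw [conj_inf, h1, h2, inf_comm])
theorem ofW (hg : g ∈ N[W ⊔ U]) (h1 : g ∈ N[W]) : g ∈ N[U] :=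
  (h.dich hg).elim (fun k => k.2) fun k => absurd ((conj_eq_of_mem_normalizer h1).symm.trans k.1) h.ne
theorem swap_of (hg : g ∈ N[W ⊔ U]) (h1 : g ∉ N[W]) : W ^ᶜ g = U ∧ U ^ᶜ g = W :=
  (h.dich hg).resolve_left fun k => h1 k.1
theorem sw_not (h1 : W ^ᶜ g = U) : g ∉ N[W] := fun k => h.ne ((conj_eq_of_mem_normalizer k).symm.trans h1)
theorem sw_mul (ha : a ∈ N[W ⊔ U]) (a1 : a ∉ N[W]) (hb : b ∈ N[W ⊔ U]) (b1 : b ∉ N[W]) : a * b⁻¹ ∈ N[W] :=
  mem_normalizer_iff_conj_eq.2 (by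
    rw [← conj_conj, (h.swap_of (N[W ⊔ U].inv_mem hb) (fun k => b1 (by simpa using N[W].inv_mem k))).1,
      (h.swap_of ha a1).2])
/-- an involution of `T₀` centralized by a swapping element lies in `Y` -/
theorem sw_fix (hs : s ∈ N[W ⊔ U]) (s1 : s ∉ N[W]) (ht : t ∈ W ⊔ U) (t2 : t * t = 1) (e : s * t * s⁻¹ = t) :
    t ∈ W ⊓ U := by
  obtain ⟨h1, h2⟩ := h.swap_of hs s1
  rcases h.inv_mem ht t2 with k | k
  · exact ⟨k, by rw [← h1, ← e]; exact conj_mem_conj s k⟩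
  · exact ⟨by rw [← h2, ← e]; exact conj_mem_conj s k, k⟩
theorem swK (h1 : W ^ᶜ g = U) : K ^ᶜ g = K' := by
  obtain ⟨x, x1, x2, x3, x4⟩ := h.sw
  have : x * g ∈ N[W] := mem_normalizer_iff_conj_eq.2 (by rw [← conj_conj, h1, x2])
  have e := conj_eq_of_mem_normalizer (h.a.NK this)
  rw [← conj_conj] at e
  exact conj_inj.1 (e.trans x4.symm)
theorem ND (hg : g ∈ N[W]) : g ∈ N[W ⊓ C[K]] :=
  le_normalizer_inf le_rfl (le_normalizer_centralizer h.a.NK) hg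
theorem DY : W ⊓ C[K] ≤ W ⊓ U := le_inf inf_le_left h.a.DU
theorem CW : C ≤ N[W] := (h.a.CK.trans inf_le_left).trans h.a.KN
theorem CU : C ≤ N[U] := h.a.CK.trans inf_le_right
theorem CT : C ≤ N[W ⊔ U] := le_normalizer_sup h.CW h.CU
theorem oddC : Odd (Nat.card C) := by
  obtain ⟨m, h1, e⟩ := h.q2
  have : Even (Nat.card C + 1) := by rw [h.a.cC, e]; exact (Nat.even_pow' (by omega)).2 even_two
  exact Nat.not_even_iff_odd.1 (Nat.even_add_one.1 this)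
theorem TC : (W ⊔ U) ⊓ C = ⊥ := inf_eq_bot_of_isPGroup_of_coprime h.pT (Odd.coprime_two_right h.oddC)
theorem sdp : SDP (W ⊔ U) C (K ⊓ N[U]) :=
  ⟨h.CT, h.TC, le_antisymm (sup_le (le_inf h.TK h.TU) h.a.CK) h.a.bor⟩
theorem sylB : IsSylowIn 2 (W ⊔ U) (K ⊓ N[U]) :=
  isSylowIn_iff_not_dvd_relIndex.2 ⟨le_inf h.TK h.TU, h.pT, by rw [h.sdp.relIndex_left]; exact Odd.not_two_dvd_nat h.oddC⟩
theorem BT : K ⊓ N[U] ≤ N[W ⊔ U] := le_normalizer_sup (inf_le_left.trans h.a.KN) inf_le_right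
theorem two_mem (hg : g ∈ K ⊓ N[U]) {k : ℕ} (g2 : g ^ 2 ^ k = 1) : g ∈ W ⊔ U :=
  h.sylB.le_of_le_normalizer (zpowers_le.2 hg) (isPGroup_zpowers g2) (zpowers_le.2 (h.BT hg)) (mem_zpowers g)
theorem NB (h1 : g ∈ N[W]) (h2 : g ∈ N[U]) : g ∈ N[K ⊓ N[U]] :=
  le_normalizer_inf (L := N[W] ⊓ N[U]) (inf_le_left.trans h.a.NK) (inf_le_right.trans le_normalizer) ⟨h1, h2⟩
theorem hgC (h1 : g ∈ N[W]) (h2 : g ∈ N[U]) : ∀ c ∈ C, ∃ c' ∈ C, g * c * g⁻¹ * c'⁻¹ ∈ W ⊔ U := fun c hc => by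
  obtain ⟨t, ht, c', hc', e⟩ := h.sdp.mem_iff.1 (nconj (h.NB h1 h2) (h.a.CK hc))
  exact ⟨c', hc', by rw [← e]; simpa using ht⟩
theorem trW (ht : t ∈ W ⊔ U) (hw : w ∈ W) : t * w * t⁻¹ * w⁻¹ ∈ W ⊓ U := by
  obtain ⟨a, ha, u, hu, rfl⟩ := h.memT ht
  have k := nconj (h.NY (le_normalizer (mem_sup_left ha))) (Subgroup.inv_mem _ (h.cm hw hu))
  have e := h.eW.comm ha hw
  convert k using 1
  calc a * u * w * (a * u)⁻¹ * w⁻¹ = a * (u * w * u⁻¹) * (w * a)⁻¹ := by group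
    _ = _ := by rw [← e]; group
theorem sec1 : Sec q (W ⊓ U) (W ⊓ C[K]) C (W ⊔ U) where
  el := h.eY
  le := h.DY
  cA := h.a.cY
  CA := le_normalizer_inf h.CW h.CU
  CB := fun _ hc => h.ND (h.CW hc)
  CT := h.CT
  triv := fun t ht a ha => by rw [← h.cY ht ha]; simp
  tr := fun a ha a1 b hb b1 => by
    obtain ⟨c, hc, e⟩ := h.a.t1 a ha (fun k => a1 ⟨ha.1, k⟩) b hb (fun k => b1 ⟨hb.1, k⟩)
    exact ⟨c, hc, mul_mem (nconj (h.CW hc) ha.1) (Subgroup.inv_mem _ hb.1), e⟩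
  sr := fun c hc a ha a1 e => h.a.s1 c hc a ha (fun k => a1 ⟨ha.1, k⟩) e.2
theorem sec2 : Sec q W (W ⊓ U) C (W ⊔ U) where
  el := h.eW
  le := inf_le_left
  cA := h.a.cW
  CA := h.CW
  CB := le_normalizer_inf h.CW h.CU
  CT := h.CT
  triv := fun t ht a ha => h.trW ht ha
  tr := fun a ha a1 b hb b1 => by
    obtain ⟨c, hc, e⟩ := h.a.t2 a ha (fun k => a1 ⟨ha, k⟩) b hb (fun k => b1 ⟨hb, k⟩)
    exact ⟨c, hc, mul_mem (nconj (h.CW hc) ha) (Subgroup.inv_mem _ hb), e⟩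
  sr := fun c hc a ha a1 e => h.a.s2 c hc a ha (fun k => a1 ⟨ha, k⟩) e.2
theorem sec3 : Sec q U (W ⊓ U) C (W ⊔ U) where
  el := h.eU
  le := inf_le_right
  cA := h.cU
  CA := h.CU
  CB := le_normalizer_inf h.CW h.CU
  CT := h.CT
  triv := fun t ht a ha => by
    have := h.symm.trW (sup_comm W U ▸ ht) ha; rwa [inf_comm] at this
  tr := fun a ha a1 b hb b1 => by
    obtain ⟨c, hc, e⟩ := h.a.t3 a ha (fun k => a1 ⟨k, ha⟩) b hb (fun k => b1 ⟨k, hb⟩)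
    exact ⟨c, hc, e, mul_mem (nconj (h.CU hc) ha) (Subgroup.inv_mem _ hb)⟩
  sr := fun c hc a ha a1 e => h.a.s3 c hc a ha (fun k => a1 ⟨k, ha⟩) e.1

end Bi

end Cfsg.Agent.Lib.AP
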