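import Mathlib
import Cfsg.Agent.Lib.APC2
import Cfsg.Agent.Lib.CyclicPGroup

/-!
The natural configuration of S3090: field involutions, weak closure, complements.
-/

set_option autoImplicit false
set_option linter.unusedSectionVars false

namespace Cfsg.Agent.Lib.AP

open Cfsg Subgroup Cfsg.Agent.Lib.PCoreConj Cfsg.Agent.Lib.PCore Cfsg.Agent.Lib.PCoreResidual
  Cfsg.Agent.Lib.FTDefs
open scoped Classical

variable {G : Type*} [Group G] [Finite G] {q : ℕ} {K K' W U C C' A B E T P O : Subgroup G}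
  {n n' x g a b c c' d f m m' s t u w y z : G}

theorem tr_mem (hT : g ∈ N[T]) (CT : C ≤ N[T]) (cc : c * c' = c' * c) (g2 : g * g ∈ T) (hc : c ∈ C) (hc' : c' ∈ C)
    (e : g * c * g⁻¹ * c'⁻¹ ∈ T) : c * c' ∈ fx g C T := by
  refine (mem_fx CT).2 ⟨mul_mem hc hc', ?_⟩
  have t' := mul_mem (mul_mem (nconj hT (inv_mem e)) g2) (nconj (CT hc) (inv_mem g2))
  have := mul_mem e (nconj (CT hc') t')
  convert this using 1
  conv_lhs => rw [mul_inv_rev, ← mul_inv_rev, cc, show g * (c' * c) = g * (c * c') by rw [cc]]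
  group

theorem card_le_mul (h : A ≤ E) : Nat.card A ≤ Nat.card ↥(B ⊓ A) * B.relIndex E := by
  rw [← card_inf_mul_relIndex B A]
  exact Nat.mul_le_mul_left _ (relIndex_le_of_le_right h (relIndex_ne_zero _))

theorem ex_sq (hP : IsPGroup 2 P) (h : ¬ P ≤ T) : ∃ g ∈ P, g ∉ T ∧ g * g ∈ T := by
  obtain ⟨a, ha, aT⟩ := SetLike.not_le_iff_exists.1 h
  obtain ⟨k, hk⟩ := isPGroup_iff_forall_mem.1 hP a ha
  by_contra hn
  have : ∀ j : ℕ, a ^ 2 ^ j ∉ T := fun j => by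
    induction j with
    | zero => simpa using aT
    | succ j ih => exact fun e => hn ⟨_, pow_mem ha _, ih, by rwa [← pow_two, ← pow_mul, ← pow_succ]⟩
  exact this k (hk ▸ one_mem _)

theorem zp2 (h : a * a = 1) (hb : b ∈ zpowers a) : b = 1 ∨ b = a := by
  obtain ⟨k, rfl⟩ := mem_zpowers_iff.1 hb
  have e : a ^ (2 : ℤ) = 1 := by rw [zpow_two, h]
  rcases Int.even_or_odd' k with ⟨j, rfl | rfl⟩
  · left; rw [zpow_mul, e, one_zpow]
  · right; rw [zpow_add, zpow_mul, e]; simp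

theorem Loc.inv (h : Loc G) (f2 : f * f = 1) (f1 : f ≠ 1) : C[pCoreOf 2 c[f]] ⊓ c[f] ≤ pCoreOf 2 c[f] := by
  have e : N[zpowers f] = c[f] := by
    ext g
    refine ⟨fun k => ?_, fun k => mem_normalizer_iff_conj_eq.2 (by
      rw [conj_zpowers, mem_cent1.1 k]; simp)⟩
    rcases zp2 f2 (nconj k (mem_zpowers f)) with e | e
    · exact absurd (by simpa using e) f1
    · exact mem_cent1.2 (by rw [← mul_inv_eq_iff_eq_mul]; exact e)
  have := h _ (pg_sq f2) (by simpa using f1)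
  rwa [e] at this

theorem sup_pg (hP : IsPGroup 2 P) (hO : IsPGroup 2 O) (h : P ≤ N[O]) : IsPGroup 2 ↥(O ⊔ P) :=
  IsPGroup.to_sup_of_normal_left' hO hP h

namespace Bi
variable (h : Bi q K K' W U C C' n n')
include h

theorem two (g2 : g * g ∈ W ⊔ U) : ∃ k, g ^ 2 ^ k = 1 := by
  obtain ⟨k, hk⟩ := isPGroup_iff_forall_mem.1 h.pT _ g2
  exact ⟨k + 1, by rw [pow_succ', pow_mul, pow_two, hk]⟩

theorem fld (h1 : g ∈ N[W]) (h2 : g ∈ N[U]) (gT : g ∉ W ⊔ U) (g2 : g * g ∈ W ⊔ U) :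
    (Nat.card (fx g C (W ⊔ U)) + 1) ^ 2 = q ∧
    Nat.card (fx g (W ⊓ U) (W ⊓ C[K])) = Nat.card ↥(W ⊓ C[K]) * (Nat.card (fx g C (W ⊔ U)) + 1) ∧
    Nat.card (fx g W (W ⊓ U)) = Nat.card ↥(W ⊓ U) * (Nat.card (fx g C (W ⊔ U)) + 1) := by
  have hq : 1 < q := by have := h.q4; omega
  have gY := h.NY (N0_le h1 h2)
  obtain ⟨e1, k⟩ := h.sec1.dich hq h.a.cC gY (h.ND h1) (h.hgC h1 h2) g2
  refine ⟨k.resolve_left fun k => gT ?_, e1, (h.sec2.dich hq h.a.cC h1 gY (h.hgC h1 h2) g2).1⟩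
  rw [k, h.a.cC, mul_comm, ← h.a.cY] at e1
  have hn := h.eY.norm h.DY
  have e := eq_of_le_of_card_eq (fx_le hn) e1
  exact h.a.cent g ⟨h1, h2⟩ (h.two g2) fun y hy => ((mem_fx hn).1 (e.ge hy)).2.2

theorem rank1 (a1 : a ∈ N[W]) (a2 : a ∈ N[U]) (b1 : b ∈ N[W]) (b2 : b ∈ N[U]) (aT : a ∉ W ⊔ U) (bT : b ∉ W ⊔ U)
    (aa : a * a ∈ W ⊔ U) (bb : b * b ∈ W ⊔ U) (ab : a * b * (a * b) ∈ W ⊔ U) : a * b ∈ W ⊔ U := by
  by_contra hT
  haveI := h.a.cyc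
  have c1 := mul_mem a1 b1
  have c2 := mul_mem a2 b2
  have k1 := (h.fld a1 a2 aT aa).1
  have k2 := (h.fld b1 b2 bT bb).1
  have k3 := (h.fld c1 c2 hT ab).1
  have e2 : fx b C (W ⊔ U) = fx a C (W ⊔ U) := CyclicPGroup.eq_of_card_eq_of_le_cyclic (fx_le h.CT) (fx_le h.CT)
    (by have := Nat.pow_left_injective two_ne_zero (k2.trans k1.symm); simpa using this)
  have e3 : fx (a * b) C (W ⊔ U) = fx a C (W ⊔ U) := CyclicPGroup.eq_of_card_eq_of_le_cyclic (fx_le h.CT)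
    (fx_le h.CT) (by have := Nat.pow_left_injective two_ne_zero (k3.trans k1.symm); simpa using this)
  have cc : ∀ x ∈ C, ∀ y ∈ C, x * y = y * x := fun x hx y hy =>
    congrArg Subtype.val (h.a.cyc.commutative.1.1 (⟨x, hx⟩ : C) ⟨y, hy⟩)
  have aN := N0_le a1 a2
  have : C ≤ fx a C (W ⊔ U) := fun c hc => by
    obtain ⟨ca, ha, ea⟩ := h.hgC a1 a2 c hc
    obtain ⟨cb, hb, eb⟩ := h.hgC b1 b2 c hc
    have m1 := tr_mem aN h.CT (cc _ hc _ ha) aa hc ha ea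
    have m2 := e2 ▸ tr_mem (N0_le b1 b2) h.CT (cc _ hc _ hb) bb hc hb eb
    have hd : ca⁻¹ * (c * cb) ∈ C := mul_mem (C.inv_mem ha) (mul_mem hc hb)
    have m3 := e3 ▸ tr_mem (N0_le c1 c2) h.CT (cc _ hc _ hd) ab hc hd (by
      have p1 := nconj aN eb
      have p2 := nconj' (h.CT ha) (Subgroup.inv_mem _ ea)
      have p3 := nconj' (h.CT ha) ((mem_fx h.CT).1 m2).2
      have := mul_mem p1 (mul_mem p2 p3)
      convert this using 1; group)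
    have m4 := mul_mem (mul_mem m3 (Subgroup.inv_mem _ m2)) m1
    have e : c * (ca⁻¹ * (c * cb)) * (c * cb)⁻¹ * (c * ca) = c * c := by rw [cc _ hc _ ha]; group
    obtain ⟨k, hk⟩ := h.oddC
    have o : c ^ (2 * k + 1) = 1 := by
      have := congrArg Subtype.val (pow_card_eq_one' (x := (⟨c, hc⟩ : C)))
      rwa [hk] at this
    have := pow_mem (e ▸ m4) (k + 1)
    rwa [← pow_two, ← pow_mul, show 2 * (k + 1) = 2 * k + 1 + 1 by ring, pow_succ, o, one_mul] at this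
  rw [le_antisymm (fx_le h.CT) this, h.a.cC] at k1
  have := h.q4
  nlinarith

theorem cfY (h1 : g ∈ N[W]) (h2 : g ∈ N[U]) (gT : g ∉ W ⊔ U) (g2 : g * g ∈ W ⊔ U) (hA : A ≤ (W ⊓ U) ⊓ c[g]) :
    Nat.card A ≤ Nat.card ↥(W ⊓ C[K] ⊓ A) * (Nat.card (fx g C (W ⊔ U)) + 1) := by
  obtain ⟨-, e, -⟩ := h.fld h1 h2 gT g2
  have hn := h.eY.norm h.DY
  have := card_le_mul (B := W ⊓ C[K]) (E := fx g (W ⊓ U) (W ⊓ C[K])) (A := A) fun a ha =>
    (mem_fx hn).2 ⟨(hA ha).1, by rw [← mem_cent1.1 (hA ha).2]; simp⟩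
  rw [← card_mul_relIndex (le_fx hn h.DY (h.ND h1))] at e
  rwa [Nat.eq_of_mul_eq_mul_left Nat.card_pos e] at this

theorem cf_le (h1 : g ∈ N[W]) (h2 : g ∈ N[U]) (gT : g ∉ W ⊔ U) (g2 : g * g ∈ W ⊔ U) (hA : A ≤ W ⊓ c[g]) :
    Nat.card A ≤ Nat.card ↥(W ⊓ U) := by
  obtain ⟨e0, -, e⟩ := h.fld h1 h2 gT g2
  have hn := h.eW.norm (inf_le_left (b := U))
  have := card_le_mul (B := W ⊓ U) (E := fx g W (W ⊓ U)) (A := A) fun a ha =>
    (mem_fx hn).2 ⟨(hA ha).1, by rw [← mem_cent1.1 (hA ha).2]; simp⟩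
  rw [← card_mul_relIndex (le_fx hn inf_le_left (h.NY (N0_le h1 h2)))] at e
  rw [Nat.eq_of_mul_eq_mul_left Nat.card_pos e] at this
  have k := h.cfY h1 h2 gT g2 (A := W ⊓ U ⊓ A) (inf_le_inf_left _ (hA.trans inf_le_right))
  have k2 : Nat.card ↥(W ⊓ C[K] ⊓ (W ⊓ U ⊓ A)) ≤ Nat.card ↥(W ⊓ C[K]) := FTDefs.card_le_of_le inf_le_left
  rw [h.a.cY, ← e0]
  refine this.trans ((Nat.mul_le_mul_right _ (k.trans (Nat.mul_le_mul_right _ k2))).trans (le_of_eq (by ring)))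

/-- a 2-group acting trivially on `W / Y` -/
theorem triv (hP : IsPGroup 2 P) (h1 : P ≤ N[W]) (h2 : P ≤ N[U]) (e : ∀ g ∈ P, ∀ w ∈ W, g * w * g⁻¹ * w⁻¹ ∈ U) :
    P ≤ W ⊔ U := by
  by_contra hn
  obtain ⟨g, hg, gT, g2⟩ := ex_sq hP hn
  obtain ⟨e0, -, e2⟩ := h.fld (h1 hg) (h2 hg) gT g2
  have hn := h.eW.norm (inf_le_left (b := U))
  have : fx g W (W ⊓ U) = W := le_antisymm (fx_le hn) fun w hw =>
    (mem_fx hn).2 ⟨hw, mul_mem (nconj (h1 hg) hw) (W.inv_mem hw), e g hg w hw⟩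
  rw [this, h.a.cW, mul_comm] at e2
  rw [← Nat.eq_of_mul_eq_mul_left Nat.card_pos e2] at e0
  have := h.q4
  nlinarith

theorem idx1 (hA : A ≤ N[W ⊔ U]) : Nat.card A ≤ 2 * Nat.card ↥(A ⊓ N[W]) :=
  card_le_two fun _ ha a1 _ hb b1 => h.sw_mul (hA ha) a1 (hA hb) b1
theorem idx2 (eA : El A) (h1 : A ≤ N[W]) (h2 : A ≤ N[U]) : Nat.card A ≤ 2 * Nat.card ↥(A ⊓ (W ⊔ U)) :=
  card_le_two fun a ha a1 b hb b1 => by
    rw [inv_sq (eA b hb)]
    exact h.rank1 (h1 ha) (h2 ha) (h1 hb) (h2 hb) a1 b1 (by rw [eA a ha]; exact one_mem _)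
      (by rw [eA b hb]; exact one_mem _) (by rw [eA _ (mul_mem ha hb)]; exact one_mem _)

/-- `W` and `U` are the only elementary abelian subgroups of their order in `N(T₀)` -/
theorem wc (eA : El A) (cA : Nat.card A = Nat.card W) (hA : A ≤ N[W ⊔ U]) : A = W ∨ A = U := by
  by_cases hT : A ≤ W ⊔ U
  · exact h.eq_or eA hT cA
  exfalso
  have i1 := h.idx1 hA
  have n2 : A ⊓ N[W] ≤ N[U] := fun a ha => h.ofW (hA ha.1) ha.2
  have i2 := h.idx2 (eA.of_le inf_le_left) inf_le_right n2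
  have pY : 0 < Nat.card ↥(W ⊓ U) := Nat.card_pos
  have q4 : 4 * Nat.card ↥(W ⊓ U) ≤ Nat.card A := by rw [cA, h.a.cW]; exact Nat.mul_le_mul_right _ h.q4
  by_cases hw : A ≤ N[W]
  · obtain ⟨f, hf, fT⟩ := SetLike.not_le_iff_exists.1 hT
    rw [inf_eq_left.2 hw] at i2 n2
    have f2 : f * f ∈ W ⊔ U := by rw [eA f hf]; exact one_mem _
    have cf : A ⊓ (W ⊔ U) ≤ c[f] := fun a ha => mem_cent1.2 (eA.comm ha.1 hf)
    rcases h.el_le (eA.of_le (inf_le_left (b := W ⊔ U))) inf_le_right with k | k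
    · have := h.cf_le (hw hf) (n2 hf) fT f2 (le_inf k cf); omega
    · have := h.symm.cf_le (n2 hf) (hw hf) (sup_comm W U ▸ fT) (sup_comm W U ▸ f2) (le_inf k cf)
      rw [inf_comm U] at this; omega
  obtain ⟨s, hs, sW⟩ := SetLike.not_le_iff_exists.1 hw
  have l : A ⊓ N[W] ⊓ (W ⊔ U) ≤ W ⊓ U := fun a ha =>
    h.sw_fix (hA hs) sW ha.2 (eA a ha.1.1) (by rw [eA.comm hs ha.1.1]; simp)
  by_cases k : A ⊓ N[W] ≤ W ⊔ U
  · rw [inf_eq_left.2 k] at l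
    have := FTDefs.card_le_of_le l; omega
  obtain ⟨f, hf, fT⟩ := SetLike.not_le_iff_exists.1 k
  have e := eq_of_le_of_card_le l (by omega)
  exact fT (h.a.cent f ⟨hf.2, n2 hf⟩ ⟨1, by simpa [pow_two] using eA f hf.1⟩ fun y hy => by
    rw [eA.comm hf.1 (e.ge hy).1.1]; simp)

theorem wcN (h1 : W ^ᶜ g ≤ N[W ⊔ U]) (h2 : U ^ᶜ g ≤ N[W ⊔ U]) : g ∈ N[W ⊔ U] :=
  (h.pair (h.wc (h.eW.conj g) (card_conj _ _) h1) (h.wc (h.eU.conj g) ((card_conj _ _).trans h.cUW) h2)).elim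
    (fun k => N0_le k.1 k.2) fun k => sw_mem k.1 k.2
theorem wcT (h1 : (W ⊔ U) ^ᶜ g ≤ N[W ⊔ U]) : g ∈ N[W ⊔ U] :=
  h.wcN ((conj_mono g le_sup_left).trans h1) ((conj_mono g le_sup_right).trans h1)
theorem sylN (hP : IsPGroup 2 P) (hT : W ⊔ U ≤ P) : P ≤ N[W ⊔ U] :=
  (eq_of_inf_normalizer_le (Q := P ⊓ N[W ⊔ U]) hP inf_le_left fun _ hg => ⟨hg.1, h.wcT
    ((conj_le_of_mem_normalizer (le_inf hT le_normalizer) hg.2).trans inf_le_right)⟩).ge.trans inf_le_right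
theorem normN (hO : IsPGroup 2 O) (hT : W ⊔ U ≤ N[O]) : O ≤ N[W ⊔ U] :=
  le_sup_left.trans (h.sylN (sup_pg h.pT hO hT) le_sup_right)

end Bi

end Cfsg.Agent.Lib.AP
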