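import Mathlib
import Cfsg.Agent.Lib.APC3

/-!
The natural configuration of S3090: complements, shapes, centralizers of involutions.
-/

set_option autoImplicit false
set_option linter.unusedSectionVars false

namespace Cfsg.Agent.Lib.AP

open Cfsg Subgroup Cfsg.Agent.Lib.PCoreConj Cfsg.Agent.Lib.PCore Cfsg.Agent.Lib.PCoreResidual
  Cfsg.Agent.Lib.FTDefs
open scoped Classical

variable {G : Type*} [Group G] [Finite G] {q : ℕ} {K K' W U C C' A B E T P O X : Subgroup G}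
  {n n' x g a b c c' d f m m' s t u w y z : G}

theorem cmm (e : a * b * a⁻¹ * b⁻¹ = 1) : a * b = b * a := by
  calc a * b = a * b * a⁻¹ * b⁻¹ * (b * a) := by group
    _ = _ := by rw [e, one_mul]

namespace Bi
variable (h : Bi q K K' W U C C' n n')
include h

theorem exC : ∃ c ∈ C, c ≠ 1 := by
  by_contra hn
  have : C = ⊥ := eq_bot_iff.2 fun c hc => by by_contra k; exact hn ⟨c, hc, k⟩
  have e := h.a.cC
  have := h.q4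
  rw [‹C = ⊥›, card_bot] at e; omega

theorem cT (ht : t ∈ W ⊔ U) (hc : t ∈ C[C]) : t ∈ W ⊓ C[K] := by
  obtain ⟨c, hC, c1⟩ := h.exC
  have e : c * t * c⁻¹ * t⁻¹ = 1 := by rw [mem_cent_iff.1 hc c hC]; group
  have tU : t ∈ U := by
    obtain ⟨w, hw, u, hu, rfl⟩ := h.memT ht
    by_contra k
    refine c1 (h.a.s2 c hC w hw (fun k' => k (mul_mem k' hu)) ?_)
    have := nconj (h.WU hw) (mul_mem hu (U.inv_mem (nconj (h.CU hC) hu)))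
    convert this using 1
    have e2 : c * w * c⁻¹ = w * u * (c * u * c⁻¹)⁻¹ := by
      calc _ = c * (w * u) * c⁻¹ * (w * u)⁻¹ * (w * u * (c * u * c⁻¹)⁻¹) := by group
        _ = _ := by rw [e, one_mul]
    rw [e2]; group
  have tW : t ∈ W := by_contra fun k => c1 (h.a.s3 c hC t tU k (e ▸ one_mem _))
  exact ⟨tW, by_contra fun k => c1 (h.a.s1 c hC t ⟨tW, tU⟩ k (e ▸ one_mem _))⟩

theorem KD : K ≤ N[W ⊓ C[K]] := fun _ hk => h.ND (h.a.KN hk)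

theorem YY (mK : m ∈ K) (mY : (W ⊓ U) ⊓ (W ⊓ U) ^ᶜ m ≤ C[K]) : (W ⊓ U) ⊔ (W ⊓ U) ^ᶜ m = W := by
  have l2 : (W ⊓ U) ^ᶜ m ≤ W := conj_le_of_mem_normalizer inf_le_left (h.a.KN mK)
  refine eq_of_le_of_card_le (sup_le inf_le_left l2) ?_
  have e := card_sup_mul_card_inf (H := W ⊓ U) (N := (W ⊓ U) ^ᶜ m) (inf_le_left.trans (h.eW.norm l2))
  have k : Nat.card ↥((W ⊓ U) ⊓ (W ⊓ U) ^ᶜ m) ≤ Nat.card ↥(W ⊓ C[K]) :=
    FTDefs.card_le_of_le (le_inf (inf_le_left.trans inf_le_left) mY)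
  rw [card_conj] at e
  refine Nat.le_of_mul_le_mul_right (c := Nat.card ↥(W ⊓ C[K])) ?_ Nat.card_pos
  refine le_trans (le_of_eq ?_) (e.ge.trans (Nat.mul_le_mul_left _ k))
  rw [h.a.cW]; nth_rw 3 [h.a.cY]; ring

theorem TT (mK : m ∈ K) (mY : (W ⊓ U) ⊓ (W ⊓ U) ^ᶜ m ≤ C[K]) (h1 : t ∈ W ⊔ U) (h2 : t ∈ (W ⊔ U) ^ᶜ m) : t ∈ W := by
  refine h.a.cw ?_
  rw [← h.YY mK mY, centralizer_sup, ← conj_centralizer]
  exact ⟨h.YT h1, conj_mono m h.YT h2⟩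

theorem cjK (mK : m ∈ K) : Bi q K (K' ^ᶜ m) W (U ^ᶜ m) (C ^ᶜ m) (C' ^ᶜ m) (m * n * m⁻¹) (m * n' * m⁻¹) := by
  have := h.conj m
  rwa [conj_eq_of_mem mK, conj_eq_of_mem_normalizer (h.a.KN mK)] at this

theorem half (hX : SDP (W ⊔ U) X ((K ⊓ N[U]) ⊔ (K' ⊓ N[W]))) (hc : (Nat.card ↥(W ⊔ U)).Coprime (Nat.card X))
    (fX : f ∈ N[X]) : (f ∈ W ⊔ U → f ∈ C[X] → f ∈ W ⊓ C[K]) ∧
      (f ∈ N[W] → f ∈ N[U] → ∃ m ∈ K, (W ⊓ U) ⊓ (W ⊓ U) ^ᶜ m ≤ C[K] ∧ f ∈ N[U ^ᶜ m]) := by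
  obtain ⟨t, ht, e⟩ := hX.exists_le_conj hc (h.sdp.le_right.trans le_sup_left)
    (coprime_of_isPGroup_left Nat.prime_two h.pT (Odd.coprime_two_right h.oddC))
    (Or.inl (solv_of_isPGroup Nat.prime_two h.pT))
  rw [le_conj_iff_conj_inv_le] at e
  have ti := (W ⊔ U).inv_mem ht
  constructor
  · intro fT fc
    have : f ∈ (W ⊓ C[K]) ^ᶜ t⁻¹ := mem_conj_iff.2 (h.cT (mul_mem (mul_mem ((W ⊔ U).inv_mem ti) fT) ti)
      (mem_conj_iff.1 (by rw [conj_centralizer]; exact centralizer_anti e fc)))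
    rwa [conj_eq_of_mem_normalizer (h.KD (h.TK ti))] at this
  · intro f1 f2
    have s1 := hX.of_left_le h.sdp.le_left le_sup_left
    have s2 := h.sdp.conj_right (h.sdp.le_left ti)
    have e2 : C ^ᶜ t⁻¹ = X ⊓ (K ⊓ N[U]) := s2.eq_right_of_le s1 (le_inf e s2.le_right)
    have fC : f ∈ N[C ^ᶜ t⁻¹] := e2 ▸ le_normalizer_inf (L := N[X] ⊓ N[K ⊓ N[U]]) inf_le_left inf_le_right
      ⟨fX, h.NB f1 f2⟩
    refine ⟨t⁻¹ * n, mul_mem (h.TK ti) h.a.nK, ?_, ?_⟩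
    · have := conj_mono t⁻¹ h.a.nY
      rwa [conj_inf, conj_conj, conj_eq_of_mem_normalizer (h.NY (le_normalizer ti)), conj_centralizer,
        conj_eq_of_mem (h.TK ti)] at this
    · rw [← conj_conj, ← conj_normalizer]
      refine conj_mono t⁻¹ h.a.nN ?_
      rw [conj_inf, conj_inf, conj_normalizer, conj_normalizer, conj_normalizer,
        conj_eq_of_mem_normalizer (h.TW ti), conj_eq_of_mem_normalizer (h.TU ti)]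
      exact ⟨⟨f1, f2⟩, fC⟩

/-- an involution in each coset of order two, normalizing opposite subgroups -/
theorem ex_inv (hg : g ∈ N[W ⊔ U]) (g2 : g * g ∈ W ⊔ U) : ∃ t ∈ W ⊔ U, t * g * (t * g) = 1 ∧
    (g ∈ N[W] → (∃ m ∈ K, (W ⊓ U) ⊓ (W ⊓ U) ^ᶜ m ≤ C[K] ∧ t * g ∈ N[U ^ᶜ m]) ∧
      ∃ m ∈ K', (U ⊓ W) ⊓ (U ⊓ W) ^ᶜ m ≤ C[K'] ∧ t * g ∈ N[W ^ᶜ m]) := by
  have n1 : K ⊓ N[U] ≤ N[K' ⊓ N[W]] := fun k hk => h.symm.NB hk.2 (h.a.KN hk.1)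
  have sy := h.sylB.sup h.symm.sylB n1 (sup_comm W U ▸ le_normalizer)
  rw [sup_comm U W, sup_idem] at sy
  have LN : (K ⊓ N[U]) ⊔ (K' ⊓ N[W]) ≤ N[W ⊔ U] := sup_le h.BT (sup_comm U W ▸ h.symm.BT)
  obtain ⟨X, hX, hh⟩ := exists_sdp_of_hall (hall_of_sylow Nat.prime_two sy) LN
  have hc := hX.coprime_of_left ⟨sy.le, (hall_of_sylow Nat.prime_two sy).coprime⟩
  have gL : ((K ⊓ N[U]) ⊔ (K' ⊓ N[W])) ^ᶜ g = (K ⊓ N[U]) ⊔ (K' ⊓ N[W]) := by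
    rcases h.dich hg with ⟨k1, k2⟩ | ⟨k1, k2⟩
    · rw [conj_sup, conj_eq_of_mem_normalizer (h.NB k1 k2), conj_eq_of_mem_normalizer (h.symm.NB k2 k1)]
    · rw [conj_sup, conj_inf, conj_inf, conj_normalizer, conj_normalizer, k1, k2, h.swK k1, h.symm.swK k2, sup_comm]
  have hX' := hX.conj g
  rw [gL, conj_eq_of_mem_normalizer hg] at hX'
  obtain ⟨t, ht, e⟩ := hX'.exists_conj hX (by rwa [card_conj]) (Or.inl (solv_of_isPGroup Nat.prime_two h.pT))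
  rw [conj_conj] at e
  have fX := mem_normalizer_iff_conj_eq.2 e
  have hXs : SDP (U ⊔ W) X ((K' ⊓ N[W]) ⊔ (K ⊓ N[U])) := by rw [sup_comm U, sup_comm (K' ⊓ N[W])]; exact hX
  have hcs : (Nat.card ↥(U ⊔ W)).Coprime (Nat.card X) := by rw [sup_comm U]; exact hc
  refine ⟨t, ht, ?_, fun g1 => ⟨(h.half hX hc fX).2 (mul_mem (h.TW ht) g1) (mul_mem (h.TU ht) (h.ofW hg g1)),
    (h.symm.half hXs hcs fX).2 (mul_mem (h.TU ht) (h.ofW hg g1)) (mul_mem (h.TW ht) g1)⟩⟩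
  have f2 : t * g * (t * g) ∈ W ⊔ U := by
    have := mul_mem (mul_mem ht (nconj hg ht)) g2
    convert this using 1; group
  have fN := mul_mem fX fX
  have fc : t * g * (t * g) ∈ C[X] := mem_cent_iff.2 fun x hx => (cmm (hX.eq_one (by
    have := mul_mem f2 (nconj (hX.norm hx) ((W ⊔ U).inv_mem f2))
    convert this using 1; group) (mul_mem (nconj fN hx) (X.inv_mem hx)))).symm
  exact mem_bot.1 (h.DD.le ⟨(h.half hX hc fN).1 f2 fc, (h.symm.half hXs hcs fN).1 (sup_comm W U ▸ f2) fc⟩)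

theorem Ysup (h1 : E ≤ W ⊓ U) (h2 : C ≤ N[E]) (h3 : ¬ E ≤ C[K]) : W ⊓ U ≤ E ⊔ (W ⊓ C[K]) := fun b hb => by
  by_cases k : b ∈ C[K]
  · exact mem_sup_right ⟨hb.1, k⟩
  obtain ⟨a, ha, a1⟩ := SetLike.not_le_iff_exists.1 h3
  obtain ⟨c, hc, e⟩ := h.a.t1 a (h1 ha) a1 b hb k
  have := mul_mem (Subgroup.inv_mem _ (mem_sup_right (S := E) (T := W ⊓ C[K])
    ⟨mul_mem (nconj (h.CW hc) (h1 ha).1) (W.inv_mem hb.1), e⟩)) (mem_sup_left (nconj (h2 hc) ha))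
  convert this using 1; group

theorem cDD : Nat.card ↥(W ⊓ C[K]) = Nat.card ↥(U ⊓ C[K']) := by
  have e := h.b.cY
  rw [inf_comm U W, h.a.cY] at e
  exact Nat.eq_of_mul_eq_mul_left (by have := h.q4; omega) e
theorem DY' : U ⊓ C[K'] ≤ W ⊓ U := inf_comm U W ▸ h.symm.DY
theorem CD' : C ≤ N[U ⊓ C[K']] := fun _ hc => h.symm.ND (h.CU hc)
theorem Dne (hD : W ⊓ C[K] ≠ ⊥) : U ⊓ C[K'] ≠ ⊥ := fun e => hD (by
  have := h.cDD; rwa [e, card_bot, card_eq_one] at this)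
theorem Dbot (hD : W ⊓ C[K] = ⊥) : U ⊓ C[K'] = ⊥ := by_contra fun k => h.symm.Dne k hD
theorem nD (hE : E ≤ U ⊓ C[K']) (e : E ≠ ⊥) : ¬ E ≤ C[K] := fun k =>
  e (eq_bot_iff.2 ((le_inf (le_inf ((hE.trans h.DY').trans inf_le_left) k) hE).trans h.DD.le))
theorem Ysp (hD : W ⊓ C[K] ≠ ⊥) : (U ⊓ C[K']) ⊔ (W ⊓ C[K]) = W ⊓ U :=
  le_antisymm (sup_le h.DY' h.DY) (h.Ysup h.DY' h.CD' (h.nD le_rfl (h.Dne hD)))
theorem cD (hD : W ⊓ C[K] ≠ ⊥) : Nat.card ↥(W ⊓ C[K]) = q := by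
  have e := card_sup_mul_card_inf (H := U ⊓ C[K']) (N := W ⊓ C[K]) (h.DY'.trans (h.eY.norm h.DY))
  rw [h.Ysp hD, inf_comm (U ⊓ C[K']), h.DD, card_bot, mul_one, h.a.cY, ← h.cDD] at e
  exact (Nat.eq_of_mul_eq_mul_right Nat.card_pos e).symm

theorem D'le (h1 : E ≤ W ⊓ U) (h2 : C ≤ N[E]) (h3 : ¬ E ≤ C[K]) (hD : W ⊓ C[K] ≠ ⊥) : U ⊓ C[K'] ≤ E := by
  obtain ⟨e, he, e1⟩ := SetLike.not_le_iff_exists.1 h3
  obtain ⟨c, hc, c1⟩ := h.exC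
  have k1 : c * e * c⁻¹ * e⁻¹ ∈ E ⊓ (U ⊓ C[K']) := by
    refine ⟨mul_mem (nconj (h2 hc) he) (E.inv_mem he), ?_⟩
    obtain ⟨a, ha, b, hb, rfl⟩ := (mem_sup_iff_of_le_normalizer (h.DY'.trans (h.eY.norm h.DY))).1
      ((h.Ysp hD).ge (h1 he))
    have := mul_mem (nconj (h.CD' hc) ha) (Subgroup.inv_mem _ ha)
    have e2 := mem_cent_iff.1 hb.2 c⁻¹ (K.inv_mem (h.a.CK hc).1)
    have e3 : c * (a * b) * c⁻¹ * (a * b)⁻¹ = c * a * c⁻¹ * a⁻¹ := by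
      calc _ = c * a * (b * c⁻¹) * (a * b)⁻¹ := by group
        _ = _ := by rw [← e2]; group
    exact e3 ▸ this
  have k2 := h.Ysup (E := E ⊓ (U ⊓ C[K'])) (inf_le_left.trans h1) (le_normalizer_inf h2 h.CD')
    (fun k => c1 (h.a.s1 c hc e (h1 he) e1 (k k1)))
  have k3 := sup_inf_of_le_normalizer (A := E ⊓ (U ⊓ C[K'])) (B := W ⊓ C[K]) (C := U ⊓ C[K'])
    ((inf_le_left.trans h1).trans (h.eY.norm h.DY)) inf_le_right
  rw [h.DD, sup_bot_eq] at k3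
  exact (le_inf (h.DY'.trans k2) le_rfl).trans (k3.le.trans inf_le_left)

theorem exW : ∃ w ∈ W, w ∉ U := SetLike.not_le_iff_exists.1 h.not_le

theorem YWU : W ⊓ U ≤ ⁅W, U⁆ := by
  have l : ⁅W, U⁆ ≤ W ⊓ U := commutator_le.2 fun _ hw _ hu => h.cm hw hu
  obtain ⟨w, hw, w1⟩ := h.exW
  obtain ⟨u, hu, u1⟩ := h.symm.exW
  have k : ¬ ⁅W, U⁆ ≤ C[K] := fun k => h.a.nd w hw w1 u hu u1 (k (commutator_mem_commutator hw hu))
  refine (h.Ysup l (le_normalizer_commutator h.CW h.CU) k).trans (sup_le le_rfl ?_)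
  by_cases hD : W ⊓ C[K] = ⊥
  · rw [hD]; exact bot_le
  refine h.symm.D'le (inf_comm W U ▸ l) (le_normalizer_commutator h.symm.CU h.symm.CW) (fun k => ?_) (h.Dne hD)
  exact h.b.nd u hu u1 w hw w1 (k (commutator_comm U W ▸ commutator_mem_commutator hu hw))

/-- a centralized element outside `Y` -/
theorem ex_t (h1 : f ∈ N[W]) (h2 : f ∈ N[U]) (fT : f ∉ W ⊔ U) (f2 : f * f = 1) : ∃ t ∈ U, t ∉ W ∧ t ∈ c[f] := by
  by_contra hn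
  have l : U ⊓ c[f] ≤ (W ⊓ U) ⊓ c[f] := fun t ht => ⟨⟨by_contra fun k => hn ⟨t, ht.1, k, ht.2⟩, ht.1⟩, ht.2⟩
  have f2' : f * f ∈ W ⊔ U := f2 ▸ one_mem _
  have k1 := card_fx_ge h.eU bot_le h2 (mem_N fun _ k => by rw [mem_bot.1 k]; simp) (fun a _ => by simp [f2])
  rw [fx_bot, card_bot, mul_one, h.cU, h.a.cY] at k1
  have k2 := h.cfY h1 h2 fT f2' l
  have e1 := (h.fld h1 h2 fT f2').1
  have q4 := h.q4
  have k4 : Nat.card ↥(W ⊓ C[K] ⊓ (U ⊓ c[f])) ^ 2 ≤ Nat.card ↥(W ⊓ C[K]) := by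
    by_cases hD : W ⊓ C[K] = ⊥
    · simp [hD]
    have k3 := h.symm.cfY h2 h1 (sup_comm W U ▸ fT) (sup_comm W U ▸ f2') (A := W ⊓ C[K] ⊓ (U ⊓ c[f]))
      (fun a ha => ⟨⟨ha.2.1, ha.1.1⟩, ha.2.2⟩)
    have : U ⊓ C[K'] ⊓ (W ⊓ C[K] ⊓ (U ⊓ c[f])) = ⊥ := eq_bot_iff.2 fun a ha => h.DD.le ⟨ha.2.1, ha.1⟩
    rw [this, card_bot, one_mul] at k3
    rw [h.cD hD, ← (h.symm.fld h2 h1 (sup_comm W U ▸ fT) (sup_comm W U ▸ f2')).1]
    exact Nat.pow_le_pow_left k3 2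
  have k5 := Nat.pow_le_pow_left k2 2
  rw [mul_pow, e1] at k5
  have k6 := k1.trans (k5.trans (Nat.mul_le_mul_right _ k4))
  have : 0 < q * Nat.card ↥(W ⊓ C[K]) := Nat.mul_pos (by omega) Nat.card_pos
  nlinarith

theorem fin (ht : t ∈ W ⊔ U) (tW : t ∉ W) (tg : t ∈ N[(W ⊔ U) ^ᶜ g]) (hW : W ≤ N[(W ⊔ U) ^ᶜ g]) : g ∈ N[W ⊔ U] := by
  have h' := h.conj g
  rw [conj_sup] at tg hW
  have k := h'.wc h.eW (card_conj _ _).symm hW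
  have WT : W ≤ W ^ᶜ g ⊔ U ^ᶜ g := k.elim (fun e => e.le.trans le_sup_left) fun e => e.le.trans le_sup_right
  have TN : W ^ᶜ g ⊔ U ^ᶜ g ≤ N[W] := k.elim (fun e => h'.TW.trans (by rw [← e]))
    fun e => h'.TU.trans (by rw [← e])
  obtain ⟨w, hw, u, hu, rfl⟩ := h.memT ht
  have pt : IsPGroup 2 (zpowers (w * u)) := h.pT.to_le (zpowers_le.2 ht)
  have := h.a.ti _ (sup_pg pt h'.pT (zpowers_le.2 tg)) (sup_le TN (zpowers_le.2 (h.TW ht))) u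
    ((mul_mem_cancel_left (mem_sup_left (WT hw))).1 (mem_sup_right (mem_zpowers _))) hu fun k => tW (mul_mem hw k)
  refine h.wcT fun a ha => ?_
  rw [conj_sup] at ha
  exact N0_le (TN ha) (this (mem_sup_left ha))

end Bi

end Cfsg.Agent.Lib.AP
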