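import Mathlib
import Cfsg.Agent.Lib.APC4

/-!
The natural configuration of S3090: centralizers of involutions of `Y`.
-/

set_option autoImplicit false
set_option linter.unusedSectionVars false

namespace Cfsg.Agent.Lib.AP

open Cfsg Subgroup Cfsg.Agent.Lib.PCoreConj Cfsg.Agent.Lib.PCore Cfsg.Agent.Lib.PCoreResidual
  Cfsg.Agent.Lib.FTDefs
open scoped Classical

variable {G : Type*} [Group G] [Finite G] {q : ℕ} {K K' W U C C' A B E T P O X K₁ K₁' W₁ U₁ C₁ C₁' : Subgroup G}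
  {n n' n₁ n₁' x g a b c c' d f m m' s t u w y z : G}

/-- no field involutions -/
def NoF (W U : Subgroup G) : Prop := ∀ g ∈ N[W], g ∈ N[U] → g * g ∈ W ⊔ U → g ∈ W ⊔ U

theorem NoF.symm (h : NoF W U) : NoF U W := fun g h1 h2 h3 => sup_comm W U ▸ h g h2 h1 (sup_comm U W ▸ h3)
theorem NoF.conj (h : NoF W U) (x : G) : NoF (W ^ᶜ x) (U ^ᶜ x) := fun g h1 h2 h3 => by
  rw [← conj_normalizer, mem_conj_iff] at h1 h2
  rw [← conj_sup, mem_conj_iff] at h3 ⊢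
  exact h _ h1 h2 (by convert h3 using 1; group)
theorem NoF.le (h : NoF W U) (hP : IsPGroup 2 P) (h1 : P ≤ N[W]) (h2 : P ≤ N[U]) : P ≤ W ⊔ U := by
  by_contra hn
  obtain ⟨g, hg, gT, g2⟩ := ex_sq hP hn
  exact gT (h g (h1 hg) (h2 hg) g2)

theorem cO (y : G) : c[y] ≤ N[pCoreOf 2 c[y]] := le_normalizer_pCoreOf 2 _
theorem cmO (ha : a ∈ O) (hb : b ∈ N[O]) : a * b * a⁻¹ * b⁻¹ ∈ O := by
  have := mul_mem ha (nconj hb (inv_mem ha)); convert this using 1; group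
theorem cmO' (ha : a ∈ N[O]) (hb : b ∈ O) : a * b * a⁻¹ * b⁻¹ ∈ O := mul_mem (nconj ha hb) (inv_mem hb)
theorem ex_ne (h : A ≠ ⊥) : ∃ a ∈ A, a ≠ 1 := by
  by_contra hn; exact h (eq_bot_iff.2 fun a ha => by by_contra k; exact hn ⟨a, ha, k⟩)

theorem aniso_abs {V M : Type*} [Group V] [CommGroup M] (p : V → V → M)
    (l : ∀ x x' y, p (x * x') y = p x y * p x' y) (r : ∀ x y y', p x (y * y') = p x y * p x y') {a b b' : V} {y : M}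
    (h1 : p a a = y) (h2 : p b b = y) (h3 : p b' b' = y) (h4 : p (a * b) (a * b) = y) (h5 : p (a * b') (a * b') = y)
    (h6 : p (b * b') (b * b') = y) (h7 : p (a * (b * b')) (a * (b * b')) = y) : y = 1 := by
  have k : ∀ c, p c c = y → p (a * c) (a * c) = y → p a c * p c a * y = 1 := fun c e1 e2 => by
    rw [l, r, r, h1, e1] at e2
    apply mul_left_cancel (a := y)
    rw [mul_one]; conv_rhs => rw [← e2]
    simp only [mul_assoc]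
  have k3 := k _ h6 h7
  rw [l, r] at k3
  calc y = y * (p a b * p a b' * (p b a * p b' a) * y) := by rw [k3, mul_one]
    _ = (p a b * p b a * y) * (p a b' * p b' a * y) := by simp only [mul_assoc, mul_comm, mul_left_comm]
    _ = 1 := by rw [k _ h2 h4, k _ h3 h5, mul_one]

namespace Bi
variable (h : Bi q K K' W U C C' n n')
include h

theorem Tc (hy : y ∈ W ⊓ U) : W ⊔ U ≤ c[y] := fun _ ht => mem_cent1.2 (h.cY ht hy).symm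
theorem ON (hy : y ∈ W ⊓ U) : pCoreOf 2 c[y] ≤ N[W ⊔ U] :=
  h.normN (pCoreOf_isPGroup 2 _) ((h.Tc hy).trans (cO y))
theorem ONg (hy : y ∈ W ⊓ U) (hg : g ∈ c[y]) : pCoreOf 2 c[y] ≤ N[(W ⊔ U) ^ᶜ g] := by
  have := le_normalizer_conj (h.ON hy) g
  rwa [conj_eq_of_mem_normalizer (cO y hg)] at this

theorem notY (hO : IsPGroup 2 O) (hT : W ⊔ U ≤ N[O]) (hc : (W ⊔ U) ⊓ C[O] ≤ O) : ¬ O ⊓ (W ⊔ U) ≤ W ⊓ U := fun k => by
  have oN := h.normN hO hT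
  have e : ∀ g ∈ O, ∀ w ∈ W, g * w * g⁻¹ * w⁻¹ ∈ W ⊓ U := fun g hg w hw =>
    k ⟨cmO hg (hT (mem_sup_left hw)), cmO' (oN hg) (mem_sup_left hw)⟩
  have o1 : O ≤ N[W] := fun g hg => mem_N fun w hw => (mul_mem_cancel_right (W.inv_mem hw)).1 (e g hg w hw).1
  have o2 := h.triv hO o1 (fun g hg => h.ofW (oN hg) (o1 hg)) fun g hg w hw => (e g hg w hw).2
  have o3 : O ≤ W ⊓ U := (le_inf le_rfl o2).trans k
  exact h.not_le (le_sup_left.trans ((le_inf le_rfl (h.YT.trans (centralizer_anti o3))).trans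
    (hc.trans (o3.trans inf_le_right))))

theorem Obas (hO : IsPGroup 2 O) (hT : W ⊔ U ≤ N[O]) (hc : (W ⊔ U) ⊓ C[O] ≤ O) (x1 : W ^ᶜ x = U) (x2 : U ^ᶜ x = W)
    (xc : x ∈ N[O]) : ¬ O ⊓ (W ⊔ U) ≤ W := fun k => h.notY hO hT hc (le_inf k (by
  have := conj_mono x k
  rwa [conj_inf, conj_eq_of_mem_normalizer xc, conj_eq_of_mem_normalizer (sw_mem x1 x2), x1] at this))

theorem Oc (hy : y ∈ W ⊓ U) (y1 : y ≠ 1) : (W ⊔ U) ⊓ C[pCoreOf 2 c[y]] ≤ pCoreOf 2 c[y] :=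
  fun _ ht => h.loc.inv (h.eY y hy) y1 ⟨ht.2, h.Tc hy ht.1⟩

theorem fin2 (hy : y ∈ W ⊓ U) (y1 : y ≠ 1) (x1 : W ^ᶜ x = U) (x2 : U ^ᶜ x = W) (xc : x ∈ c[y]) (hg : g ∈ c[y])
    (k : W ≤ N[(W ⊔ U) ^ᶜ g] ∨ U ≤ N[(W ⊔ U) ^ᶜ g]) : g ∈ N[W ⊔ U] := by
  have hT := (h.Tc hy).trans (cO y)
  rcases k with k | k
  · obtain ⟨t, ht, tW⟩ := SetLike.not_le_iff_exists.1
      (h.Obas (pCoreOf_isPGroup 2 _) hT (h.Oc hy y1) x1 x2 (cO y xc))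
    exact h.fin ht.2 tW (h.ONg hy hg ht.1) k
  · obtain ⟨t, ht, tW⟩ := SetLike.not_le_iff_exists.1
      (h.symm.Obas (pCoreOf_isPGroup 2 _) (sup_comm W U ▸ hT) (sup_comm W U ▸ h.Oc hy y1) x2 x1 (cO y xc))
    rw [sup_comm W U] at k ⊢
    exact h.symm.fin ht.2 tW (sup_comm W U ▸ h.ONg hy hg ht.1) k

theorem YO1 (hT : W ≤ N[O]) (hs : s ∈ O) (s1 : W ^ᶜ s = U) : W ⊓ U ≤ O :=
  h.YWU.trans (commutator_le.2 fun w1 h1 u hu => by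
    obtain ⟨w, hw, rfl⟩ := mem_conj_iff'.1 (s1 ▸ hu)
    have := cmO' (hT h1) (cmO hs (hT hw))
    convert this using 1
    have e := h.eW.comm hw h1
    calc _ = w1 * (s * w * s⁻¹) * w⁻¹ * (w * w1⁻¹) * (s * w * s⁻¹)⁻¹ := by rw [commutatorElement_def]; group
      _ = _ := by rw [h.eW.comm hw (W.inv_mem h1)]; group)

theorem CdW (hd : d ∈ W ⊓ C[K]) (d1 : d ≠ 1) : c[d] ≤ N[W] := by
  have dY := h.DY hd
  have Kc : K ≤ c[d] := fun k hk => mem_cent1.2 (mem_cent_iff.1 hd.2 k hk)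
  have KO := Kc.trans (cO d)
  have pO := pCoreOf_isPGroup 2 c[d]
  have o1 : pCoreOf 2 c[d] ⊓ N[W] ≤ W := h.a.mx _ (pO.to_le inf_le_left) inf_le_right
    (le_normalizer_inf KO (h.a.KN.trans le_normalizer))
  have o2 : pCoreOf 2 c[d] ≤ N[W] := fun s hs => by_contra fun s1 => by
    obtain ⟨w, hw, w1⟩ := h.exW
    have k := o1 ⟨cmO hs (KO (h.a.WK hw)), h.TW (cmO' (h.ON dY hs) (mem_sup_left hw))⟩
    have k2 := (mul_mem_cancel_right (W.inv_mem hw)).1 k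
    rw [← (h.swap_of (h.ON dY hs) s1).2] at k2
    exact w1 (conj_mem_conj_iff.1 k2)
  have o3 : pCoreOf 2 c[d] ≤ W := (le_inf le_rfl o2).trans o1
  have o4 : W ≤ pCoreOf 2 c[d] := fun w hw => h.Oc dY d1 ⟨mem_sup_left hw, mem_cent_iff.2 fun a ha => h.eW.comm (o3 ha) hw⟩
  have := cO d
  rwa [le_antisymm o3 o4] at this

theorem exT (nf : NoF W U) (eA : El A) (hA : A ≤ N[W ⊔ U]) (c3 : 3 ≤ Nat.card A) : ∃ a ∈ A, a ≠ 1 ∧ a ∈ W ⊔ U := by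
  have i := h.idx1 hA
  obtain ⟨a, ha, a1⟩ := ex_ne (A := A ⊓ N[W]) fun e => by rw [e, card_bot] at i; omega
  exact ⟨a, ha.1, a1, nf a ha.2 (h.ofW (hA ha.1) ha.2) (by rw [eA a ha.1]; exact one_mem _)⟩

theorem goodS (hD : W ⊓ C[K] ≠ ⊥) (nf : NoF W U) (hy : y ∈ W ⊓ U) (y1 : y ≠ 1) (x1 : W ^ᶜ x = U) (x2 : U ^ᶜ x = W)
    (xc : x ∈ c[y]) : c[y] ≤ N[W ⊔ U] := fun g hg => by
  have oN := h.ON hy
  have YO : W ⊓ U ≤ pCoreOf 2 c[y] := by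
    by_cases k : pCoreOf 2 c[y] ≤ N[W]
    · have := nf.le (pCoreOf_isPGroup 2 _) k fun g hg => h.ofW (oN hg) (k hg)
      exact fun a ha => h.Oc hy y1 ⟨mem_sup_left ha.1, mem_cent_iff.2 fun t ht => (h.cY (this ht) ha).symm⟩
    · obtain ⟨s, hs, s1⟩ := SetLike.not_le_iff_exists.1 k
      exact h.YO1 (le_sup_left.trans ((h.Tc hy).trans (cO y))) hs (h.swap_of (oN hs) s1).1
  have h' := h.conj g
  have AN : W ^ᶜ g ⊓ U ^ᶜ g ≤ N[W ⊔ U] := by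
    rw [← conj_inf]; exact (conj_le_of_mem_normalizer YO (cO y hg)).trans oN
  have hD' : W ^ᶜ g ⊓ C[K ^ᶜ g] ≠ ⊥ := by rwa [← conj_centralizer, ← conj_inf, Ne, conj_eq_bot_iff]
  have q4 := h.q4
  obtain ⟨a, ha, a1, aT⟩ := h.exT nf (h'.eY.of_le h'.DY) (h'.DY.trans AN) (by rw [h'.cD hD']; omega)
  obtain ⟨b, hb, b1, bT⟩ := h.exT nf (h'.eY.of_le h'.DY') (h'.DY'.trans AN) (by rw [← h'.cDD, h'.cD hD']; omega)
  refine h.fin2 hy y1 x1 x2 xc hg ?_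
  have key : ∀ V : Subgroup G, El V → W ^ᶜ g ⊓ U ^ᶜ g ⊓ (W ⊔ U) ≤ V → V ≤ N[(W ⊔ U) ^ᶜ g] := fun V eV l v hv => by
    rw [conj_sup]
    exact N0_le (h'.CdW ha a1 (mem_cent1.2 (eV.comm hv (l ⟨h'.DY ha, aT⟩))))
      (h'.symm.CdW hb b1 (mem_cent1.2 (eV.comm hv (l ⟨h'.DY' hb, bT⟩))))
  exact (h.el_le (h'.eY.of_le inf_le_left) inf_le_right).imp (key W h.eW) (key U h.eU)

theorem cYq (hD : W ⊓ C[K] = ⊥) : Nat.card ↥(W ⊓ U) = q := by rw [h.a.cY, hD, card_bot, mul_one]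

theorem NYN (hq : 4 < q) : N[W ⊓ U] ≤ N[W ⊔ U] := fun g hg => by
  have NN : N[W ⊔ U] ≤ N[pCoreOf 2 N[W ⊓ U]] := fun a ha => le_normalizer_pCoreOf 2 _ (h.NY ha)
  have hT := le_normalizer.trans NN
  have pO := pCoreOf_isPGroup 2 N[W ⊓ U]
  have Y1 : W ⊓ U ≠ ⊥ := fun e => by
    have := h.a.cY
    have p : 0 < Nat.card ↥(W ⊓ C[K]) := Nat.card_pos
    rw [e, card_bot] at this; nlinarith
  have hc : (W ⊔ U) ⊓ C[pCoreOf 2 N[W ⊓ U]] ≤ pCoreOf 2 N[W ⊓ U] :=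
    fun t ht => h.loc _ h.eY.pg Y1 ⟨ht.2, h.NY (le_normalizer ht.1)⟩
  have YO : W ⊓ U ≤ pCoreOf 2 N[W ⊓ U] := le_pCoreOf le_normalizer le_rfl h.eY.pg
  obtain ⟨x, x1, x2, -⟩ := h.sw
  have xO := conj_eq_of_mem_normalizer (NN (sw_mem x1 x2))
  have TO : W ⊔ U ≤ pCoreOf 2 N[W ⊓ U] := by
    rcases h.a.hua hq _ (le_inf YO (inf_le_left.trans le_sup_left)) inf_le_right
      (le_normalizer_inf (h.CT.trans NN) h.CT) (h.notY pO hT hc) with k | k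
    · exact sup_le (k.trans inf_le_left) (x1.ge.trans ((conj_mono x (k.trans inf_le_left)).trans xO.le))
    · exact sup_le (x2.ge.trans ((conj_mono x (k.trans inf_le_left)).trans xO.le)) (k.trans inf_le_left)
  exact h.wcT ((conj_le_of_mem_normalizer TO (le_normalizer_pCoreOf 2 _ hg)).trans (h.normN pO hT))

theorem small (hD : W ⊓ C[K] = ⊥) (hq : 4 < q) (h1 : g ∈ N[W]) (h2 : g ∈ N[U]) (g2 : g * g ∈ W ⊔ U)
    (hA : A ≤ (W ⊓ U) ⊓ c[g]) (c : q ≤ 2 * Nat.card A) : g ∈ W ⊔ U := by_contra fun gT => by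
  have k := h.cfY h1 h2 gT g2 hA
  have e := (h.fld h1 h2 gT g2).1
  rw [hD, bot_inf_eq, card_bot, one_mul] at k
  nlinarith

theorem aniso (hs : W ^ᶜ s = U) (y1 : y ≠ 1)
    (e : ∀ w ∈ W, w ∉ U → w * (s * w * s⁻¹) * w⁻¹ * (s * w * s⁻¹)⁻¹ = y) : q ≤ 4 := by
  letI : CommGroup ↥(W ⊓ U) := { (inferInstance : Group ↥(W ⊓ U)) with
    mul_comm := fun a b => Subtype.ext (h.eY.comm a.2 b.2) }
  have sU : ∀ w ∈ W, s * w * s⁻¹ ∈ U := fun w hw => hs ▸ conj_mem_conj s hw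
  let p : W → W → ↥(W ⊓ U) := fun a b => ⟨_, h.cm a.2 (sU b b.2)⟩
  have l : ∀ x x' y, p (x * x') y = p x y * p x' y := fun a b c => Subtype.ext (by
    have e1 := h.cY (mem_sup_left a.2) (p b c).2
    have e2 := h.eY.comm (p a c).2 (p b c).2
    simp only [p, coe_mul] at e1 e2 ⊢
    rw [e2]
    calc _ = a * (b * (s * c * s⁻¹) * (b : G)⁻¹ * (s * c * s⁻¹)⁻¹) * (s * c * s⁻¹ * (a : G)⁻¹ * (s * c * s⁻¹)⁻¹) := by
          group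
      _ = _ := by rw [← e1]; group)
  have r : ∀ x y y', p x (y * y') = p x y * p x y' := fun a b c => Subtype.ext (by
    have e1 := h.cY (mem_sup_right (sU b b.2)) (p a c).2
    simp only [p, coe_mul] at e1 ⊢
    calc _ = a * (s * b * s⁻¹) * (a : G)⁻¹ * (s * b * s⁻¹)⁻¹ *
          (s * b * s⁻¹ * (a * (s * c * s⁻¹) * (a : G)⁻¹ * (s * c * s⁻¹)⁻¹)) * (s * b * s⁻¹)⁻¹ := by group
      _ = _ := by rw [← e1]; group)
  obtain ⟨a, ha, a1⟩ := h.exW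
  have yY : y ∈ W ⊓ U := e a ha a1 ▸ h.cm ha (sU a ha)
  have pp : ∀ b : W, (b : G) ∉ U → p b b = ⟨y, yY⟩ := fun b hb => Subtype.ext (e b b.2 hb)
  have m1 : ∀ b ∈ W, b ∉ (W ⊓ U) ⊔ zpowers a → b ∉ U ∧ a * b ∉ U := fun b hb k =>
    ⟨fun k' => k (mem_sup_left ⟨hb, k'⟩), fun k' => k ((mul_mem_cancel_left (mem_sup_right (mem_zpowers a))).1
      (mem_sup_left ⟨mul_mem ha hb, k'⟩))⟩
  have i1 := card_le_two (A := W) (B := (W ⊓ U) ⊔ zpowers a) fun b hb b1 b' hb' b1' => by_contra fun k => by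
    rw [inv_sq (h.eW _ hb')] at k
    exact y1 (congrArg Subtype.val (aniso_abs p l r (a := ⟨a, ha⟩) (b := ⟨b, hb⟩) (b' := ⟨b', hb'⟩) (pp _ a1)
      (pp _ (m1 b hb b1).1) (pp _ (m1 b' hb' b1').1) (pp _ (m1 b hb b1).2) (pp _ (m1 b' hb' b1').2)
      (pp _ (m1 _ (mul_mem hb hb') k).1) (pp _ (m1 _ (mul_mem hb hb') k).2)))
  have m2 : ∀ b ∈ (W ⊓ U) ⊔ zpowers a, b ∉ U → b * a⁻¹ ∈ U := fun b hb k => by
    obtain ⟨c, hc, d, hd, rfl⟩ := (mem_sup_iff_of_le_normalizer' ((zpowers_le.2 ha).trans (h.eW.norm inf_le_left))).1 hb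
    rcases zp2 (h.eW a ha) hd with rfl | rfl
    · exact absurd (by simpa using hc.2) k
    · simpa using hc.2
  have i2 := card_le_two (A := W ⊓ ((W ⊓ U) ⊔ zpowers a)) (B := U) fun b hb b1 b' hb' b1' => by
    have := mul_mem (m2 b hb.2 b1) (U.inv_mem (m2 b' hb'.2 b1'))
    convert this using 1; group
  have i3 : Nat.card ↥(W ⊓ ((W ⊓ U) ⊔ zpowers a) ⊓ U) ≤ Nat.card ↥(W ⊓ U) :=
    FTDefs.card_le_of_le (inf_le_inf_right _ inf_le_left)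
  have := h.a.cW
  exact Nat.le_of_mul_le_mul_right (c := Nat.card ↥(W ⊓ U)) (by omega) Nat.card_pos

theorem alpha (h' : Bi q K₁ K₁' W₁ U₁ C₁ C₁' n₁ n₁') (hD' : W₁ ⊓ C[K₁] = ⊥) (hq : 4 < q) (pO : IsPGroup 2 O)
    (o1 : O ≤ N[W ⊔ U]) (o2 : O ≤ N[W₁ ⊔ U₁]) (hW : W ≤ N[O]) (hA : W₁ ⊓ U₁ ≤ O) : W₁ ⊓ U₁ ≤ N[W] :=
  fun s hs => by_contra fun s1 => by
  have sN := o1 (hA hs)
  obtain ⟨sw1, sw2⟩ := h.swap_of sN s1
  have ss := h'.eY s hs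
  have AY : ∀ a ∈ W₁ ⊓ U₁, a ∈ W ⊔ U → a ∈ W ⊓ U := fun a ha aT =>
    h.sw_fix sN s1 aT (h'.eY a ha) (by rw [h'.eY.comm hs ha]; simp)
  have c1 : ∀ o ∈ O, o ∈ W ⊔ U → s * o * s⁻¹ * o⁻¹ ∈ W ⊓ U := fun o ho oT =>
    AY _ (cmO hs (h'.NY (o2 ho))) (cmO' sN oT)
  have c3 : O ⊓ N[W] ≤ W ⊔ U := h.triv (pO.to_le inf_le_left) inf_le_right (fun g hg => h.ofW (o1 hg.1) hg.2)
    fun g hg w hw => by
      have k := cmO' hg.2 hw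
      have k2 := (mul_mem_cancel_right (W.inv_mem k)).1 (c1 _ (cmO hg.1 (hW hw)) (mem_sup_left k)).1
      rw [← sw2] at k2
      exact conj_mem_conj_iff.1 k2
  have c4 := h.idx1 (hA.trans o1)
  rw [h'.cYq hD'] at c4
  have c5 : O ⊓ (W ⊔ U) ⊓ N[W₁] ≤ W₁ ⊔ U₁ := by_contra fun k => by
    obtain ⟨x, hx, xT, x2⟩ := ex_sq (pO.to_le (inf_le_left.trans inf_le_left)) k
    exact xT (h'.small hD' hq hx.2 (h'.ofW (o2 hx.1.1) hx.2) x2 (A := W₁ ⊓ U₁ ⊓ N[W]) (fun a ha => ⟨ha.1, mem_cent1.2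
      (h.cY hx.1.2 (AY a ha.1 (c3 ⟨hA ha.1, ha.2⟩)))⟩) c4)
  have xm : ∀ w ∈ W, s * w * s⁻¹ * w⁻¹ ∈ O ⊓ (W ⊔ U) := fun w hw => ⟨cmO (hA hs) (hW hw), cmO' sN (mem_sup_left hw)⟩
  have sU : ∀ w ∈ W, s * w * s⁻¹ ∈ U := fun w hw => sw1 ▸ conj_mem_conj s hw
  have Qe : ∀ w ∈ W, s * (s * w * s⁻¹ * w⁻¹) * s⁻¹ * (s * w * s⁻¹ * w⁻¹)⁻¹ =
      w * (s * w * s⁻¹) * w⁻¹ * (s * w * s⁻¹)⁻¹ := fun w hw => by
    calc _ = s * s * w * (s⁻¹ * w⁻¹ * s⁻¹) * w * (s * w * s⁻¹)⁻¹ := by group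
      _ = _ := by rw [ss, one_mul, inv_sq ss, inv_sq (h.eW w hw)]
  have Qn : ∀ w ∈ W, w ∉ U → w * (s * w * s⁻¹) * w⁻¹ * (s * w * s⁻¹)⁻¹ ≠ 1 := fun w hw w1 e =>
    h.nc hw w1 (sU w hw) (fun k => w1 (conj_mem_conj_iff.1 (sw2 ▸ k))) (cmm e)
  have c6 : ∀ w ∈ W, w ∉ U → s * w * s⁻¹ * w⁻¹ ∉ N[W₁] := fun w hw w1 k => Qn w hw w1 (by
    rw [← Qe w hw, h'.cY (c5 ⟨xm w hw, k⟩) hs]; group)
  obtain ⟨a, ha, a1⟩ := h.exW
  refine absurd (h.aniso sw1 (Qn a ha a1) fun b hb b1 => ?_) (by omega)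
  rw [← Qe a ha, ← Qe b hb]
  have xb := xm b hb
  have xa := xm a ha
  have k := h'.cY (c5 ⟨mul_mem xb (Subgroup.inv_mem _ xa),
    h'.sw_mul (o2 xb.1) (c6 b hb b1) (o2 xa.1) (c6 a ha a1)⟩) hs
  have k2 := h.cY (mul_mem xb.2 (Subgroup.inv_mem _ xa.2)) (c1 _ xa.1 xa.2)
  generalize s * b * s⁻¹ * b⁻¹ = β at *
  generalize s * a * s⁻¹ * a⁻¹ = α at *
  calc _ = s * (β * α⁻¹) * s⁻¹ * (s * α * s⁻¹ * α⁻¹) * (β * α⁻¹)⁻¹ := by group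
    _ = β * α⁻¹ * (s * α * s⁻¹ * α⁻¹) * (β * α⁻¹)⁻¹ := by rw [k]; group
    _ = _ := by rw [← k2]; group

theorem cov (hD : W ⊓ C[K] = ⊥) (hW : W ≤ N[O]) (ht : t ∈ O ⊓ (W ⊔ U)) (tW : t ∉ W) : W ⊓ U ≤ O := by
  obtain ⟨w, hw, u, hu, rfl⟩ := h.memT ht.2
  have uW : u ∉ W := fun k => tW (mul_mem hw k)
  have tr := fun a (ha : a ∈ W) => h.trW ht.2 ha
  let δ : W →* G := MonoidHom.mk' (fun a => w * u * a * (w * u)⁻¹ * (a : G)⁻¹) fun a b => by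
    have e := h.cY (mem_sup_left (W.inv_mem a.2)) (tr b b.2)
    simp only [coe_mul]
    calc _ = w * u * a * (w * u)⁻¹ * (w * u * b * (w * u)⁻¹ * (b : G)⁻¹ * (a : G)⁻¹) := by group
      _ = _ := by rw [e]; group
  have r : δ.range ≤ W ⊓ U := by rintro _ ⟨a, rfl⟩; exact tr a a.2
  have k : δ.ker ≤ (W ⊓ U).subgroupOf W := fun a ha => ⟨a.2, by_contra fun a1 => h.nc a.2 a1 hu uW (by
    have e : w * u * a = a * (w * u) := cmm ha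
    apply mul_left_cancel (a := w)
    rw [← mul_assoc, h.eW.comm hw a.2, mul_assoc, ← e, mul_assoc])⟩
  have i := index_antitone k
  rw [index_ker] at i
  have e := card_mul_relIndex (inf_le_left (a := W) (b := U))
  rw [h.a.cW, mul_comm] at e
  have e2 := Nat.eq_of_mul_eq_mul_right Nat.card_pos e
  rw [← eq_of_le_of_card_le r (by rw [h.cYq hD, ← e2]; exact i)]
  rintro _ ⟨a, rfl⟩
  exact cmO ht.1 (hW a.2)

theorem goodL (hD : W ⊓ C[K] = ⊥) (hq : 4 < q) (hy : y ∈ W ⊓ U) (y1 : y ≠ 1) : c[y] ≤ N[W ⊔ U] := fun g hg => by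
  obtain ⟨x, x1, x2, -⟩ := h.sw
  have nC : ∀ a ∈ W, a ∈ C[K] → a = 1 := fun a ha k => mem_bot.1 (hD.le ⟨ha, k⟩)
  have xy := nconj (h.NY (sw_mem x1 x2)) hy
  obtain ⟨c, hc, e⟩ := h.a.t1 _ xy (fun k => y1 (by simpa using nC _ xy.1 k)) y hy (fun k => y1 (nC _ hy.1 k))
  have e1 := nC _ (mul_mem (nconj (h.CW hc) xy.1) (W.inv_mem hy.1)) e
  have z1 : W ^ᶜ (c * x) = U := by rw [← conj_conj, x1, conj_eq_of_mem_normalizer (h.CU hc)]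
  have z2 : U ^ᶜ (c * x) = W := by rw [← conj_conj, x2, conj_eq_of_mem_normalizer (h.CW hc)]
  have zc : c * x ∈ c[y] := mem_cent1.2 (cmm (by rw [← e1]; group))
  have hT := (h.Tc hy).trans (cO y)
  have pO := pCoreOf_isPGroup 2 c[y]
  obtain ⟨t, ht, tW⟩ := SetLike.not_le_iff_exists.1 (h.Obas pO hT (h.Oc hy y1) z1 z2 (cO y zc))
  have YO := h.cov hD (le_sup_left.trans hT) ht tW
  have h' := h.conj g
  have hD' : W ^ᶜ g ⊓ C[K ^ᶜ g] = ⊥ := by rwa [← conj_centralizer, ← conj_inf, conj_eq_bot_iff]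
  have o1 := h.ON hy
  have o2 := h.ONg hy hg
  have gO := conj_eq_of_mem_normalizer (cO y hg)
  have AO : W ^ᶜ g ⊓ U ^ᶜ g ≤ pCoreOf 2 c[y] := by rw [← conj_inf, ← gO]; exact conj_mono g YO
  rw [conj_sup] at o2
  have a1 := h.alpha h' hD' hq pO o1 o2 (le_sup_left.trans hT) AO
  have a2 := h'.alpha h hD hq pO o2 o1 (by
    have := le_normalizer_conj (le_sup_left.trans hT) g; rwa [gO] at this) YO
  have i := h'.idx2 h.eY a2 fun a ha => h'.ofW (o2 (YO ha)) (a2 ha)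
  rw [h.cYq hD] at i
  have AT : W ^ᶜ g ⊓ U ^ᶜ g ≤ W ⊔ U := fun f hf => h.small hD hq (a1 hf) (h.ofW (o1 (AO hf)) (a1 hf))
    (by rw [h'.eY f hf]; exact one_mem _) (A := W ⊓ U ⊓ (W ^ᶜ g ⊔ U ^ᶜ g))
      (fun a ha => ⟨ha.1, h'.Tc hf ha.2⟩) i
  refine h.fin2 hy y1 z1 z2 zc hg ?_
  rw [conj_sup]
  exact (h.el_le h'.eY AT).imp (fun k => (h.eW.norm k).trans (h'.NYN hq)) fun k => (h.eU.norm k).trans (h'.NYN hq)

end Bi

end Cfsg.Agent.Lib.AP
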