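import Cfsg.Agent.Lib.APDefs

/-! Tools for bounding the sectional rank. -/

set_option autoImplicit false

namespace Cfsg.Agent.Lib.APR

open Cfsg Subgroup Cfsg.Agent.Lib.PCoreConj Cfsg.Agent.Lib.PCore Cfsg.Agent.Lib.FTDefs

variable {G : Type*} [Group G] [Finite G] {A B L N P Y : Subgroup G} {s : G}

/-- The sectional rank is read off in a Sylow subgroup. -/
theorem sect {S : Subgroup G} (hS : IsSylowIn 2 S ⊤) {k : ℕ}
    (h : ∀ A ≤ S, ∀ N ≤ A, (∀ a ∈ A, a * a ∈ N) → Nat.card A ≤ 2 ^ k * Nat.card N) :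
    SectionalPRankLE 2 k G := fun H N _ E _ hE => by
  let φ := (QuotientGroup.mk' N).subgroupComap E
  have hφ := (QuotientGroup.mk' N).subgroupComap_surjective_of_surjective E (QuotientGroup.mk'_surjective N)
  let P : Sylow 2 (E.comap (QuotientGroup.mk' N)) := default
  have hE' : ∀ a : E, a * a = 1 := fun a => Subtype.ext ((sq _).symm.trans (hE a a.2))
  have e : (P : Subgroup _).map φ = ⊤ :=
    ((P.mapSurjective hφ).is_maximal' (fun a => ⟨1, Subtype.ext ((sq _).trans (hE' _))⟩) le_top).symm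
  let ι := H.subtype.comp (E.comap (QuotientGroup.mk' N)).subtype
  have hι : Function.Injective ι := Subtype.val_injective.comp Subtype.val_injective
  obtain ⟨g, -, hg⟩ := hS.exists_conj_le le_top (P.isPGroup'.map ι)
  have := h _ hg (((φ.ker ⊓ P).map ι) ^ᶜ g) (conj_mono g (map_mono inf_le_right)) (by
    rintro _ ⟨_, ⟨a, ha, rfl⟩, rfl⟩
    rw [← map_mul, ← map_mul]
    exact mem_map_of_mem _ (mem_map_of_mem _ ⟨(map_mul φ a a).trans (hE' _), mul_mem ha ha⟩))
  rw [card_conj, card_conj, card_map_of_injective hι, card_map_of_injective hι, ← card_inf_mul_relIndex φ.ker,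
    relIndex_ker, e, card_top, mul_comm] at this
  exact Nat.le_of_mul_le_mul_right this Nat.card_pos

theorem fibc {β : Type*} [Finite β] (c : B → β) (h : ∀ a b, c a = c b → (a : G)⁻¹ * b ∈ A) :
    Nat.card B ≤ Nat.card β * Nat.card A := by
  rw [← Nat.card_prod]
  refine Nat.card_le_card_of_injective (fun b => (c b, ⟨_, h (Function.invFun c (c b)) b
    (Function.invFun_eq ⟨b, rfl⟩)⟩)) fun a b e => ?_
  have e1 : c a = c b := congrArg Prod.fst e
  have e2 : ((Function.invFun c (c a) : B) : G)⁻¹ * a = ((Function.invFun c (c b) : B) : G)⁻¹ * b :=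
    congrArg (fun x : β × A => x.2.1) e
  rw [e1] at e2
  exact Subtype.ext (mul_left_cancel e2)

theorem two (h : ∀ a ∈ A, ∀ b ∈ A, a ∉ L → b ∉ L → a⁻¹ * b ∈ L) : Nat.card A ≤ 2 * Nat.card ↥(L ⊓ A) := by
  have := fibc (B := A) (A := L ⊓ A) (fun a => (a : G) ∈ L) fun a b e => mem_inf.2 ⟨by
    by_cases ha : (a : G) ∈ L
    exacts [mul_mem (inv_mem ha) (e ▸ ha), h _ a.2 _ b.2 ha (e ▸ ha)], mul_mem (inv_mem a.2) b.2⟩
  simpa using this

theorem idx (h : A ≤ P) {k : ℕ} (hP : Nat.card P ≤ k * Nat.card ↥(L ⊓ P)) : Nat.card A ≤ k * Nat.card ↥(L ⊓ A) := by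
  rw [← card_inf_mul_relIndex L P, mul_comm] at hP
  rw [← card_inf_mul_relIndex L A, mul_comm]
  exact Nat.mul_le_mul_right _ ((relIndex_le_of_le_right h index_ne_zero_of_finite).trans
    (Nat.le_of_mul_le_mul_right hP Nat.card_pos))

theorem half (h : A ≤ B) (hn : ¬ B ≤ A) : 2 * Nat.card A ≤ Nat.card B := by
  rw [← card_mul_relIndex h, mul_comm]
  exact Nat.mul_le_mul_left _ (by
    have h1 : A.relIndex B ≠ 0 := index_ne_zero_of_finite
    have h2 : A.relIndex B ≠ 1 := fun e => hn (relIndex_eq_one.1 e)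
    omega)

omit [Finite G] in
theorem cj (h : s ∈ N[L]) {a : G} (ha : a ∈ L) : s * a * s⁻¹ ∈ L := (mem_normalizer_iff.1 h a).1 ha

/-- The elements of `B` that commute with `s` modulo `L`. -/
def Kc (s : G) (B L : Subgroup G) (h : B ≤ N[L]) : Subgroup G where
  carrier := {t | t ∈ B ∧ s * t * s⁻¹ * t⁻¹ ∈ L}
  one_mem' := ⟨one_mem _, by simp⟩
  mul_mem' := fun {a b} ha hb => ⟨mul_mem ha.1 hb.1, by
    convert mul_mem ha.2 (cj (h ha.1) hb.2) using 1; group⟩
  inv_mem' := fun {a} ha => ⟨inv_mem ha.1, by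
    convert cj (h (inv_mem ha.1)) (inv_mem ha.2) using 1; group⟩

omit [Finite G] in
theorem com (h : ∀ a ∈ A, a * a ∈ N) {a b : G} (ha : a ∈ A) (hb : b ∈ A) : a * b * a⁻¹ * b⁻¹ ∈ N := by
  convert mul_mem (mul_mem (h _ (mul_mem ha hb)) (h _ (mul_mem (mul_mem (inv_mem hb) (inv_mem ha)) hb)))
    (h _ (inv_mem hb)) using 1
  group

theorem key (h : B ≤ N[Y]) (hN : ∀ t ∈ B, s * t * s⁻¹ * t⁻¹ ∈ N) :
    Nat.card B * Nat.card ↥(Y ⊓ N) ≤ Nat.card (Kc s B Y h) * Nat.card N := by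
  have := fibc (B := B) (A := Kc s B Y h) (fun t => ((⟨_, hN t t.2⟩ : N) : N ⧸ Y.subgroupOf N)) fun a b e =>
    ⟨mul_mem (inv_mem a.2) b.2, by
      have := cj (h (inv_mem a.2)) (mem_subgroupOf.1 (QuotientGroup.eq.1 e))
      convert this using 1
      simp only [Subgroup.coe_mul, Subgroup.coe_inv]
      group⟩
  rw [← card_inf_mul_relIndex Y N]
  change _ ≤ Y.relIndex N * _ at this
  nlinarith

end Cfsg.Agent.Lib.APR
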