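import Cfsg.Agent.Lib.TransferFrobenius
import Cfsg.Agent.Lib.PCoreMod
import Cfsg.Agent.Lib.CoprimeSylow
import Cfsg.Agent.Lib.QuatClass
import Cfsg.Prelude.Def_SylowChains

/-!
The Alperin-Goldschmidt fusion theorem.
-/

set_option autoImplicit false

namespace Cfsg.Agent.Lib.AlpGold

open Subgroup Cfsg Cfsg.Agent.Lib.PCoreConj Cfsg.Agent.Lib.PCore Cfsg.Agent.Lib.PCoreResidual
open scoped Pointwise commutatorElement

local notation "C(" X ")" => centralizer (SetLike.coe (X : Subgroup _))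
local notation "N(" X ")" => normalizer (SetLike.coe (X : Subgroup _))

variable {G : Type*} [Group G] [Finite G] {p : ℕ} [hp : Fact p.Prime] {P H M X Y A B : Subgroup G}

theorem not_connected (hP : IsSylowIn p P ⊤) (h₀ : P ≠ ⊥) (hM : M ≠ ⊤)
    (h : ∀ K, K ≠ ⊥ → K ≤ P → ∀ n, K ^ᶜ n ≤ P → n ∈ M) : ¬ IsSylowChainConnected p G := fun hc => by
  obtain ⟨S, rfl⟩ := isSylowIn_top_iff.mp hP
  obtain ⟨g, -, hg⟩ := SetLike.exists_of_lt (lt_top_iff_ne_top.mpr hM)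
  have key : ∀ a ∈ M, ∀ b, ((a • S : Sylow p G) : Subgroup G) ⊓ (b • S : Sylow p G) ≠ ⊥ → b ∈ M := fun a ha b e => by
    change (S : Subgroup G) ^ᶜ a ⊓ (S : Subgroup G) ^ᶜ b ≠ ⊥ at e
    simpa using mul_mem ha (inv_mem (h ((S ^ᶜ a ⊓ S ^ᶜ b) ^ᶜ a⁻¹) (by rwa [ne_eq, conj_eq_bot_iff])
      (conj_le_iff_le_conj_inv.mpr (by rw [inv_inv]; exact inf_le_left)) (b⁻¹ * a) (by
        rw [conj_conj, mul_inv_cancel_right, conj_le_iff_le_conj_inv, inv_inv]; exact inf_le_right)))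
  obtain ⟨n, c, h₁, h₂, -, h₃⟩ := hc S (g • S)
  have : ∀ i, ∃ a ∈ M, c i = a • S := fun i => by
    induction i using Fin.induction with
    | zero => exact ⟨1, one_mem _, by rw [one_smul, h₁]⟩
    | succ i ih =>
      obtain ⟨a, ha, e⟩ := ih
      obtain ⟨b, e'⟩ := MulAction.exists_smul_eq G S (c i.succ)
      exact ⟨b, key a ha b (by rw [← e, e']; exact (h₃ i).2), e'.symm⟩
  obtain ⟨a, ha, e⟩ := this (Fin.last n)
  refine hg (key a ha g ?_)
  rw [← e, h₂, inf_idem]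
  exact fun e => h₀ (conj_eq_bot_iff.mp e)

theorem inf_ne_bot (hP : IsSylowIn p P ⊤) (hM : M ≠ ⊤) (h : ∀ K, K ≠ ⊥ → K ≤ P → ∀ n, K ^ᶜ n ≤ P → n ∈ M)
    [X.Normal] [Y.Normal] (hX : P ⊓ X ≠ ⊥) (hY : P ⊓ Y ≠ ⊥) : P ⊓ (X ⊓ Y) ≠ ⊥ := fun e => by
  have nn : ∀ (X Y : Subgroup G) [Y.Normal], X ≤ N(Y) := fun X Y _ =>
    le_top.trans (normal_iff_top_le.mp inferInstance)
  have hc : ∀ K, K ≠ ⊥ → K ≤ P → N(K) ≤ M := fun K a b n hn =>
    h K a b n ((conj_eq_of_mem_normalizer hn).le.trans b)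
  obtain ⟨a, ha, ha₁⟩ := (bot_or_exists_ne_one _).resolve_left hX
  obtain ⟨b, hb, hb₁⟩ := (bot_or_exists_ne_one _).resolve_left hY
  have hab : Commute a b := commutatorElement_eq_one_iff_commute.mp (mem_bot.mp (e.le ⟨commutator_le_left_of_le_normalizer
    le_normalizer (commutator_mem_commutator ha.1 hb.1), commutator_le_inf _ _ (commutator_mem_commutator ha.2 hb.2)⟩))
  have hA : zpowers a ⊔ zpowers b ≤ P := sup_le (zpowers_le.mpr ha.1) (zpowers_le.mpr hb.1)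
  have cop : ∀ A, A ≤ P → (Nat.card A).Coprime (Nat.card ↥(X ⊓ Y)) := fun A hA =>
    coprime_card_of_isPGroup (hP.isPGroup.to_le hA) ((hp.out.coprime_iff_not_dvd.mpr
      ((hP.inf_normal le_top (nn _ _)).eq_bot_iff.mp e)).symm)
  have hK : X ⊓ Y ≤ M := CoprimeSylow.le_of_centralizer_cocyclic_le (A := zpowers a ⊔ zpowers b) (by
      have z : ∀ {x y : G}, Commute x y → zpowers x ≤ C(zpowers y) := fun h => zpowers_le.mpr (by
        rintro _ ⟨n, rfl⟩
        exact (h.symm.zpow_left n).eq)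
      rw [← le_centralizer_iff_isMulCommutative, centralizer_sup]
      exact sup_le (le_inf (z rfl) (z hab)) (le_inf (z hab.symm) (z rfl))) (nn _ _) (cop _ hA) fun B hB ⟨c, hc', hBc⟩ => by
    refine inf_le_right.trans ((centralizer_le_normalizer _).trans (hc B ?_ (hB.trans hA)))
    rintro rfl
    rw [bot_sup_eq] at hBc
    rcases QuatClass.mem_zpowers_or (hP.isPGroup.to_le (zpowers_le.mpr (hA hc'))) (hBc (mem_sup_left (mem_zpowers a)))
      (hBc (mem_sup_right (mem_zpowers b))) with k | k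
    · exact hb₁ (e.le ⟨hb.1, zpowers_le.mpr ha.2 k, hb.2⟩)
    · exact ha₁ (e.le ⟨ha.1, ha.2, zpowers_le.mpr (pow_mem hb.2 p) k⟩)
  have := CoprimeBasic.sup_centralizer_eq_of_commutator_le (K := X) (cop _ (zpowers_le.mpr hb.1))
    (.inl (CoprimeBasic.solvable_zpowers b)) ((commutator_mono le_rfl (zpowers_le.mpr hb.2)).trans
      (commutator_le_inf _ _)) inf_le_left
  exact hM (top_le_iff.mp ((hP.inf_normal le_top (nn _ _)).frattini_top.ge.trans (sup_le (this.ge.trans (sup_le hK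
    (inf_le_right.trans ((centralizer_le_normalizer _).trans (hc _ (by rwa [ne_eq, zpowers_eq_bot])
      (zpowers_le.mpr hb.1)))))) (hc _ hX inf_le_left))))

/-- an essential subgroup -/
structure Ess (p : ℕ) (P H M : Subgroup G) : Prop where
  lt : H < P
  pP : IsPGroup p P
  syl : IsSylowIn p (P ⊓ N(H)) N(H)
  nle : ¬ N(H) ≤ M
  cen : C(H) ≤ M
  fus : ∀ K, H < K → K ≤ P → ∀ n ∈ N(H), K ^ᶜ n ≤ P → n ∈ M

namespace Ess

omit [Finite G] hp in
theorem conj (h : Ess p P H M) (g : G) : Ess p (P ^ᶜ g) (H ^ᶜ g) (M ^ᶜ g) where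
  lt := conj_lt_conj_iff.mpr h.lt
  pP := isPGroup_conj h.pP g
  syl := by rw [← conj_normalizer, ← conj_inf]; exact h.syl.conj g
  nle := by rw [← conj_normalizer, conj_le_conj_iff]; exact h.nle
  cen := by rw [← conj_centralizer]; exact conj_mono g h.cen
  fus := fun K a b n hn c => by
    rw [← conj_normalizer, mem_conj_iff] at hn
    refine mem_conj_iff.mpr (h.fus (K ^ᶜ g⁻¹) (by rwa [← conj_lt_conj_iff (g := g), conj_inv_conj])
      (le_conj_iff_conj_inv_le.mp b) _ hn ?_)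
    rwa [conj_conj, mul_inv_cancel_right, ← conj_conj, ← le_conj_iff_conj_inv_le]

theorem lt_inf (h : Ess p P H M) : H < P ⊓ N(H) := lt_inf_normalizer h.pP h.lt

theorem le_M (h : Ess p P H M) : P ⊓ N(H) ≤ M := fun n hn =>
  h.fus _ h.lt_inf inf_le_left n hn.2 (conj_le_of_mem inf_le_left hn.1)

theorem le_sup (h : Ess p P H M) (h₁ : H ≤ X) (h₂ : X ≤ N(H)) (h₃ : N(H) ≤ N(X)) (h₄ : ¬ P ⊓ X ≤ H) :
    ¬ pResidualOf p X ≤ M := fun e => by
  have k := h.syl.inf_normal h₂ h₃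
  rw [inf_assoc, inf_of_le_right h₂] at k
  refine h.nle ((k.frattini_sup h₂ h₃).ge.trans (sup_le ((pResidualOf_sup_of_isSylowIn k).ge.trans
    (sup_le e ((inf_le_inf_left _ h₂).trans h.le_M))) fun n hn => h.fus _ (lt_of_le_not_ge (le_inf h.lt.le h₁) h₄)
      inf_le_left n hn.1 ((conj_eq_of_mem_normalizer hn.2).le.trans inf_le_left)))

theorem inf_le (h : Ess p P H M) : P ⊓ (H ⊔ C(H)) ≤ H := by
  by_contra hn
  exact h.le_sup le_sup_left (sup_le le_normalizer (centralizer_le_normalizer _))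
    (le_normalizer_sup le_rfl (normalizer_le_normalizer_centralizer H)) hn ((pResidualOf_le p _).trans
      (sup_le (h.lt_inf.le.trans h.le_M) h.cen))

omit [Finite G] hp in
theorem subgroupOf (h : Ess p P H M) (hlt : H < P ⊓ N(H)) :
    Ess p (P.subgroupOf N(H)) (H.subgroupOf N(H)) (M.subgroupOf N(H)) := by
  have e : N(H.subgroupOf N(H)) = ⊤ := normalizer_eq_top_iff.mpr normal_in_normalizer
  refine ⟨lt_of_le_not_ge (subgroupOf_mono _ h.lt.le) fun a => hlt.not_ge fun x hx => @a ⟨x, hx.2⟩ hx.1,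
    isPGroup_subgroupOf h.pP _, ?_, fun a => h.nle fun x hx => @a ⟨x, hx⟩ (e.ge (mem_top _)), ?_,
    fun K a b n _ c => h.fus (K.map (N(H)).subtype) ?_ (map_le_iff_le_comap.mpr b) _ n.2 ?_⟩
  · rw [e, inf_top_eq]
    simpa using h.syl.subgroupOf le_rfl
  · rw [centralizer_subgroupOf le_normalizer]
    exact subgroupOf_mono _ h.cen
  · exact (subgroupOf_map_subtype_of_le le_normalizer).ge.trans_lt
      ((map_lt_map_iff_of_injective (subtype_injective _)).mpr a)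
  · exact (map_conj _ K n).ge.trans (map_le_iff_le_comap.mpr c)

theorem top [H.Normal] (h : Ess p P H M) : IsSylowIn p P ⊤ ∧ M ≠ ⊤ := by
  have e : N(H) = ⊤ := normalizer_eq_top_iff.mpr inferInstance
  exact ⟨by simpa [e] using h.syl, fun a => h.nle (a ▸ le_top)⟩

theorem core_eq [H.Normal] (h : Ess p P H M) : pPrimePCore p G = H ⊔ C(H) := by
  have e : N(H) = ⊤ := normalizer_eq_top_iff.mpr inferInstance
  have hH := h.pP.to_le h.lt.le
  set f := QuotientGroup.mk' (pPrimeCore p G)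
  have a₁ : H ≤ pPrimePCore p G := map_le_iff_le_comap.mp (le_pCore (Normal.map inferInstance f
    (QuotientGroup.mk'_surjective _)) (hH.map f))
  have a₂ : pPrimeCore p G ≤ C(H) := commutator_eq_bot_iff_le_centralizer.mp (le_bot_iff.mp
    ((commutator_le_inf _ _).trans (disjoint_of_coprime_natCard (coprime_card_of_isPGroup hH
      (coprime_card_pPrimeCore p G)).symm).le_bot))
  have a₃ : pResidualOf p (pPrimePCore p G) ≤ pPrimeCore p G := (pResidualOf_le_ker f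
    ((pCore_isPGroup p _).to_le (map_comap_le _ _))).trans (QuotientGroup.ker_mk' _).le
  have : (pPrimePCore p G).Normal := Normal.comap inferInstance _
  refine le_antisymm ?_ (sup_le a₁ ?_)
  · refine (pResidualOf_sup_of_isSylowIn (h.top.1.inf_normal le_top le_normalizer_of_normal)).ge.trans
      (sup_le (a₃.trans (a₂.trans le_sup_right)) (le_sup_left.trans' (by_contra fun hn => ?_)))
    exact h.le_sup a₁ (e ▸ le_top) le_normalizer_of_normal hn (a₃.trans (a₂.trans h.cen))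
  · have k := h.top.1.inf_normal (N := C(H)) le_top le_normalizer_of_normal
    have b₁ : P ⊓ C(H) ≤ H := (inf_le_inf_left _ le_sup_right).trans h.inf_le
    have b₂ := TransferFrobenius.hasNormalPComplement_iff_pResidual.mp (TransferFrobenius.burnside k.toSylow
      fun x _ y hy => Subtype.ext (x.2 _ (b₁ hy)))
    haveI := pResidualOf_normal p C(H)
    refine (pResidualOf_sup_of_isSylowIn k).ge.trans (sup_le (le_trans ?_ ((QuotientGroup.ker_mk' _).ge.trans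
      (ker_le_comap _ _))) (b₁.trans a₁))
    rw [← pPrimeCoreOf_top]
    refine le_pPrimeCoreOf le_top le_normalizer_of_normal ?_
    rw [← pResidualOf_def, card_map_of_injective (subtype_injective _)]
    exact (hp.out.coprime_iff_not_dvd.mpr b₂).symm

theorem quot [H.Normal] (h : Ess p P H M) : ¬ IsSylowChainConnected p (G ⧸ H) ∧ ∀ X Y : Subgroup G, X.Normal →
    Y.Normal → H ≤ X → H ≤ Y → ¬ P ⊓ X ≤ H → ¬ P ⊓ Y ≤ H → ¬ P ⊓ (X ⊓ Y) ≤ H := by
  set f := QuotientGroup.mk' H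
  have hf := QuotientGroup.mk'_surjective H
  have kf : ∀ X : Subgroup G, X.map f = ⊥ ↔ X ≤ H := fun X => by
    rw [Subgroup.map_eq_bot_iff, QuotientGroup.ker_mk']
  have cm : ∀ X, H ≤ X → (X.map f).comap f = X := fun X a => comap_map_eq_self ((QuotientGroup.ker_mk' H).le.trans a)
  have a₁ : M.map f ≠ ⊤ := fun e => h.top.2 (by rw [← cm M (h.lt_inf.le.trans h.le_M), e, comap_top])
  have a₂ : ∀ K, K ≠ ⊥ → K ≤ P.map f → ∀ n, K ^ᶜ n ≤ P.map f → n ∈ M.map f := fun K a b n c => by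
    obtain ⟨n, rfl⟩ := hf n
    refine mem_map_of_mem f (h.fus (K.comap f) (lt_of_le_not_ge ((QuotientGroup.ker_mk' H).ge.trans
      (ker_le_comap _ _)) fun e => a ?_) ((comap_mono b).trans (cm P h.lt.le).le) n
      (le_normalizer_of_normal (mem_top n)) (le_trans (map_le_iff_le_comap.mp ?_) (cm P h.lt.le).le))
    · rwa [← kf, map_comap_eq_self_of_surjective hf] at e
    · rwa [map_conj, map_comap_eq_self_of_surjective hf]
  have mi : ∀ X Y : Subgroup G, H ≤ Y → X.map f ⊓ Y.map f = (X ⊓ Y).map f := fun X Y a =>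
    le_antisymm (by rintro _ ⟨⟨x, hx, rfl⟩, hy⟩; exact mem_map_of_mem f ⟨hx, (cm Y a).le hy⟩)
      (le_inf (map_mono inf_le_left) (map_mono inf_le_right))
  have a₃ : ∀ X, H ≤ X → (P.map f ⊓ X.map f = ⊥ ↔ P ⊓ X ≤ H) := fun X a => by rw [mi P X a, kf]
  refine ⟨not_connected (h.top.1.map_mk' H) (fun e => h.lt.not_ge ((kf P).mp e)) a₁ a₂,
    fun X Y _ _ b₁ b₂ b₃ b₄ b₅ => ?_⟩
  haveI := Normal.map ‹X.Normal› f hf
  haveI := Normal.map ‹Y.Normal› f hf
  refine inf_ne_bot (h.top.1.map_mk' H) a₁ a₂ (mt (a₃ X b₁).mp b₃) (mt (a₃ Y b₂).mp b₄) ?_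
  rwa [mi X Y b₂, a₃ _ (le_inf b₁ b₂)]

theorem exists_min (h : Ess p P H M) : ∃ X, (H ≤ X ∧ X ≤ N(H) ∧ N(H) ≤ N(X) ∧ ¬ P ⊓ X ≤ H) ∧
    ∀ Y, H ≤ Y → Y ≤ N(H) → N(H) ≤ N(Y) → ¬ P ⊓ Y ≤ H → X ≤ Y := by
  obtain ⟨X, ⟨a₁, a₂, a₃, a₄⟩, hmin⟩ := exists_minimal_of_wellFoundedLT
    (fun X => H ≤ X ∧ X ≤ N(H) ∧ N(H) ≤ N(X) ∧ ¬ P ⊓ X ≤ H) ⟨N(H), le_normalizer, le_rfl, le_normalizer, h.lt_inf.not_ge⟩
  refine ⟨X, ⟨a₁, a₂, a₃, a₄⟩, fun Y b₁ b₂ b₃ b₄ => (hmin ⟨le_inf a₁ b₁, inf_le_left.trans a₂,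
    le_normalizer_inf a₃ b₃, fun e => ?_⟩ inf_le_left).trans inf_le_right⟩
  haveI : (H.subgroupOf N(H)).Normal := normal_in_normalizer
  exact (h.subgroupOf h.lt_inf).quot.2 _ _ (normal_subgroupOf_of_le a₃) (normal_subgroupOf_of_le b₃)
    (subgroupOf_mono _ a₁) (subgroupOf_mono _ b₁) (fun k => a₄ fun x hx => @k ⟨x, a₂ hx.2⟩ hx)
    (fun k => b₄ fun x hx => @k ⟨x, b₂ hx.2⟩ hx) fun x hx => e hx

theorem dvd_iff (h : Ess p P H M) (h₁ : H ≤ Y) (h₂ : Y ≤ N(H)) (h₃ : N(H) ≤ N(Y)) :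
    p ∣ H.relIndex Y ↔ ¬ P ⊓ Y ≤ H := by
  have k := h.syl.inf_normal h₂ h₃
  rw [inf_assoc, inf_of_le_right h₂] at k
  refine ⟨fun a b => k.not_dvd_relIndex (a.trans (relIndex_dvd_of_le_left Y b)), fun a => by_contra fun b => a ?_⟩
  exact (TransferAlperin.eq_of_sylowIn_le b (le_inf h.lt.le h₁) inf_le_right k.isPGroup).le

end Ess

/-- a step of an Alperin-Goldschmidt chain -/
def Step (p : ℕ) (P H : Subgroup G) (x : G) : Prop :=
  (∃ M, Ess p P H M) ∧ ∀ Y, H ≤ Y → Y ≤ N(H) → N(H) ≤ N(Y) → ¬ P ⊓ Y ≤ H → x ∈ pResidualOf p Y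

omit [Finite G] hp in
theorem Step.conj {x y : G} (h : Step p P H x) (hy : y ∈ N(P)) : Step p P (H ^ᶜ y) (y * x * y⁻¹) := by
  obtain ⟨⟨M, hM⟩, h⟩ := h
  refine ⟨⟨_, conj_eq_of_mem_normalizer hy ▸ hM.conj y⟩, fun Y a b c d => ?_⟩
  rw [← conj_inv_conj Y y, ← conj_normalizer] at b c
  rw [← conj_inv_conj Y y, ← conj_eq_of_mem_normalizer hy, ← conj_inf, conj_le_conj_iff] at d
  rw [← conj_inv_conj Y y, ← conj_pResidualOf, conj_mem_conj_iff]
  rw [← conj_normalizer, conj_le_conj_iff] at c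
  exact h _ (conj_le_iff_le_conj_inv.mp a) (conj_le_conj_iff.mp b) c d

/-- Alperin-Goldschmidt chains -/
def Chain (p : ℕ) (P : Subgroup G) : Subgroup G → List (Subgroup G × G) → Prop
  | _, [] => True
  | A, a :: l => Step p P a.1 a.2 ∧ A ≤ a.1 ∧ Chain p P (A ^ᶜ a.2⁻¹) l

section
omit [Finite G] hp

theorem Chain.mono {l : List (Subgroup G × G)} : ∀ {A B : Subgroup G}, A ≤ B → Chain p P B l → Chain p P A l := by
  induction l with
  | nil => exact fun _ _ => trivial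
  | cons a l ih => exact fun h k => ⟨k.1, h.trans k.2.1, ih (conj_mono _ h) k.2.2⟩

theorem Chain.append {l l' : List (Subgroup G × G)} : ∀ {A : Subgroup G}, Chain p P A l →
    Chain p P (A ^ᶜ (l.map Prod.snd).prod⁻¹) l' → Chain p P A (l ++ l') := by
  induction l with
  | nil => exact fun _ h => by rwa [List.map_nil, List.prod_nil, inv_one, conj_one] at h
  | cons a l ih => exact fun h k => ⟨h.1, h.2.1, ih h.2.2 (by
      rwa [List.map_cons, List.prod_cons, mul_inv_rev, ← conj_conj] at k)⟩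

theorem Chain.conj {y : G} (hy : y ∈ N(P)) {l : List (Subgroup G × G)} : ∀ {A : Subgroup G}, Chain p P A l →
    Chain p P (A ^ᶜ y) (l.map fun a => (a.1 ^ᶜ y, y * a.2 * y⁻¹)) := by
  induction l with
  | nil => exact fun _ => trivial
  | cons a l ih =>
    refine fun h => ⟨h.1.conj hy, conj_mono _ h.2.1, ?_⟩
    have := ih h.2.2
    rwa [conj_conj, show y * a.2⁻¹ = (y * a.2 * y⁻¹)⁻¹ * y by group, ← conj_conj] at this

theorem Chain.get {l : List (Subgroup G × G)} : ∀ {A : Subgroup G}, Chain p P A l → ∀ i : Fin l.length,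
    Step p P (l.get i).1 (l.get i).2 ∧ A ^ᶜ ((l.map Prod.snd).take i).prod⁻¹ ≤ (l.get i).1 := by
  induction l with
  | nil => exact fun _ i => i.elim0
  | cons a l ih =>
    intro A h i
    induction i using Fin.cases with
    | zero => exact ⟨h.1, by rw [Fin.val_zero, List.take_zero, List.prod_nil, inv_one, conj_one]; exact h.2.1⟩
    | succ i =>
      rw [Fin.val_succ, List.map_cons, List.take_succ_cons, List.prod_cons, mul_inv_rev, ← conj_conj]
      exact ih h.2.2 i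

theorem prod_conj (y : G) (l : List (Subgroup G × G)) :
    ((l.map fun a => (a.1 ^ᶜ y, y * a.2 * y⁻¹)).map Prod.snd).prod = y * (l.map Prod.snd).prod * y⁻¹ := by
  induction l with
  | nil => simp
  | cons a l ih => simp only [List.map_cons, List.prod_cons, ih]; group

end

theorem exists_chain (S : Sylow p G) (g : G) (hA : A ≤ S) (hg : A ^ᶜ g ≤ S) : ∃ (l : List (Subgroup G × G)),
    ∃ c ∈ C(A), ∃ y ∈ N((S : Subgroup G)), g⁻¹ = c * (l.map Prod.snd).prod * y ∧ Chain p S A l := by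
  refine TransferAlperin.alperin_essential S (fun A g => ∃ (l : List (Subgroup G × G)), ∃ c ∈ C(A),
    ∃ y ∈ N((S : Subgroup G)), g⁻¹ = c * (l.map Prod.snd).prod * y ∧ Chain p S A l) ?_ ?_ ?_ ?_ ?_ A g hA hg
  · rintro A B g h - - ⟨l, c, hc, y, hy, e, k⟩
    exact ⟨l, c, centralizer_anti h hc, y, hy, e, k.mono h⟩
  · rintro A g h - - - ⟨l, c, hc, y, hy, e, k⟩ ⟨l', c', hc', y', hy', e', k'⟩
    have a₁ : (A ^ᶜ h) ^ᶜ y = A ^ᶜ (l.map Prod.snd).prod⁻¹ := by
      rw [conj_conj, ← inv_inv h, e, show y * (c * (l.map Prod.snd).prod * y)⁻¹ = (l.map Prod.snd).prod⁻¹ * c⁻¹ by group,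
        ← conj_conj, conj_eq_of_mem_centralizer (inv_mem hc)]
    refine ⟨l ++ l'.map fun a => (a.1 ^ᶜ y, y * a.2 * y⁻¹), h⁻¹ * c' * h * c, mul_mem ?_ hc, y * y', mul_mem hy hy',
      ?_, k.append (a₁ ▸ k'.conj hy)⟩
    · rwa [← mem_conj_iff, conj_centralizer]
    · rw [List.map_append, List.prod_append, prod_conj, mul_inv_rev, e', ← inv_inv h, e]
      group
  · exact fun n hn => ⟨[], 1, one_mem _, n⁻¹, inv_mem hn, by simp, trivial⟩
  · exact fun A _ c hc => ⟨[], c⁻¹, inv_mem hc, 1, one_mem _, by simp, trivial⟩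
  · intro H M h₁ h₂ h₃ h₄ h₅
    by_contra hn
    have k : Ess p S H M := ⟨h₁, S.isPGroup', ⟨inf_le_right, S.isPGroup'.to_le inf_le_left,
      fun Q a b c => TransferAlperin.eq_of_sylowIn_le h₂.2 c a b⟩, hn, h₄, h₅⟩
    obtain ⟨X, ⟨a₁, a₂, a₃, a₄⟩, a₅⟩ := k.exists_min
    refine k.le_sup a₁ a₂ a₃ a₄ fun x hx => (h₃ x).mpr ⟨a₂ (pResidualOf_le p X hx), [(H, x⁻¹)], 1, one_mem _, 1,
      one_mem _, by simp, ⟨⟨M, k⟩, fun Y b₁ b₂ b₃ b₄ => pResidualOf_mono (a₅ Y b₁ b₂ b₃ b₄) (inv_mem hx)⟩, le_rfl,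
      trivial⟩


end Cfsg.Agent.Lib.AlpGold
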