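/-
The square of an automorphism of an alternating group is induced by a permutation.
-/
import Cfsg.Agent.Lib.ThreeCyc

set_option autoImplicit false

namespace Cfsg.Agent.Lib.AltAut

open Subgroup Equiv Equiv.Perm Cfsg Cfsg.Agent.Lib.AltPres Cfsg.Agent.Lib.PCoreConj Cfsg.Agent.Lib.ThreeCyc

variable {α : Type*} [Fintype α] [DecidableEq α]

theorem arith (j m : ℕ) : 2 * (m.factorial * 3 ^ (j + 3) * (j + 3).factorial) < 3 * (m + (3 * j + 6)).factorial := by
  have h : 2 * (3 ^ (j + 3) * (j + 3).factorial) < 3 * (3 * j + 6).factorial := by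
    induction j with
    | zero => decide
    | succ j ih =>
      rw [show 3 * (j + 1) + 6 = 3 * j + 6 + 1 + 1 + 1 by ring, Nat.factorial_succ (3 * j + 6 + 1 + 1),
        Nat.factorial_succ (3 * j + 6 + 1), Nat.factorial_succ (3 * j + 6), show j + 1 + 3 = j + 3 + 1 by ring, Nat.factorial_succ (j + 3), pow_succ]
      have p := (3 * j + 6).factorial_pos
      generalize (3 * j + 6).factorial = a at *
      generalize (j + 3).factorial = b at *
      generalize 3 ^ (j + 3) = c at *
      calc 2 * (c * 3 * ((j + 3 + 1) * b)) = (3 * j + 12) * (2 * (c * b)) := by ring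
        _ < (3 * j + 12) * (3 * a) := Nat.mul_lt_mul_of_pos_left ih (by omega)
        _ ≤ ((3 * j + 9) * ((3 * j + 8) * (3 * j + 7))) * (3 * a) := Nat.mul_le_mul_right _ (by
            have : 2 ≤ (3 * j + 8) * (3 * j + 7) := by nlinarith
            nlinarith)
        _ = _ := by ring
  have d := Nat.le_of_dvd (Nat.factorial_pos _) (Nat.factorial_mul_factorial_dvd_factorial_add m (3 * j + 6))
  have p := m.factorial_pos
  calc _ = m.factorial * (2 * (3 ^ (j + 3) * (j + 3).factorial)) := by ring
    _ < m.factorial * (3 * (3 * j + 6).factorial) := Nat.mul_lt_mul_of_pos_left h p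
    _ = 3 * (m.factorial * (3 * j + 6).factorial) := by ring
    _ ≤ _ := Nat.mul_le_mul_left 3 d

theorem card_cent {g : Perm α} {j : ℕ} (h : g.cycleType = Multiset.replicate (j + 1) 3) :
    Nat.card (centralizer ({g} : Set (Perm α))) =
      (Fintype.card α - 3 * (j + 1)).factorial * 3 ^ (j + 1) * (j + 1).factorial := by
  rw [nat_card_centralizer, h, Multiset.toFinset_replicate, if_neg (by omega), Finset.prod_singleton,
    Multiset.count_replicate_self, Multiset.prod_replicate, Multiset.sum_replicate, smul_eq_mul, mul_comm (j + 1)]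

theorem cent_eq (x : alternatingGroup α) : centralizer ({x} : Set (alternatingGroup α)) =
    (centralizer ({x.1} : Set (Perm α))).subgroupOf (alternatingGroup α) := by
  ext y
  rw [mem_subgroupOf, mem_centralizer_singleton_iff, mem_centralizer_singleton_iff, Subtype.ext_iff]
  rfl

theorem card_cent_alt (x : alternatingGroup α) : Nat.card (centralizer ({x} : Set (alternatingGroup α))) =
    Nat.card ↥(alternatingGroup α ⊓ centralizer ({x.1} : Set (Perm α))) := by
  rw [cent_eq, ← card_map_of_injective (alternatingGroup α).subtype_injective, subgroupOf_map_subtype, inf_comm]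

theorem card_cent_aut {G : Type*} [Group G] (β : MulAut G) (x : G) :
    Nat.card (centralizer ({β x} : Set G)) = Nat.card (centralizer ({x} : Set G)) := by
  rw [← card_map_of_injective (K := centralizer {x}) (f := β.toMonoidHom) β.injective]
  congr 2
  ext y
  obtain ⟨z, rfl⟩ := β.surjective y
  refine Iff.trans ?_ (mem_map_iff_mem (f := β.toMonoidHom) β.injective).symm
  rw [mem_centralizer_singleton_iff, mem_centralizer_singleton_iff, ← map_mul, ← map_mul, β.injective.eq_iff]

theorem isConj_alt {x y : alternatingGroup α} (h : x.1.cycleType = y.1.cycleType)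
    (hc : ¬ centralizer ({x.1} : Set (Perm α)) ≤ alternatingGroup α) : IsConj x y := by
  obtain ⟨g, hg⟩ := isConj_iff.1 (isConj_of_cycleType_eq h)
  obtain ⟨c, hc, c1⟩ := SetLike.not_le_iff_exists.1 hc
  by_cases k : g ∈ alternatingGroup α
  · exact isConj_iff.2 ⟨⟨g, k⟩, Subtype.ext hg⟩
  · refine isConj_iff.2 ⟨⟨g * c, ?_⟩, Subtype.ext ?_⟩
    · rw [mem_alternatingGroup] at *
      rw [map_mul, (Int.units_eq_one_or _).resolve_left k, (Int.units_eq_one_or _).resolve_left c1]; simp
    · have := mem_centralizer_singleton_iff.1 hc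
      change g * c * x.1 * (g * c)⁻¹ = y.1
      rw [← hg, mul_assoc g, this]; group

theorem type_aut (β : MulAut (alternatingGroup α)) {x : alternatingGroup α} (hx : x.1.IsThreeCycle) :
    (β x).1.IsThreeCycle ∨ (β x).1.cycleType = Multiset.replicate 2 3 := by
  have o : orderOf (β x).1 = 3 := by rw [orderOf_coe, β.orderOf_eq, ← orderOf_coe, hx.orderOf]
  obtain ⟨j, hj⟩ := cycleType_prime_order (σ := (β x).1) (o ▸ Nat.prime_three)
  rw [o] at hj
  obtain _ | _ | j := j
  · exact Or.inl hj
  · exact Or.inr hj
  exfalso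
  have c₁ := card_cent (j := 0) (g := x.1) hx
  have c₂ := card_cent hj
  have c₃ := card_cent_aut β x
  rw [card_cent_alt, card_cent_alt] at c₃
  have c₄ := Subgroup.card_le_of_le (inf_le_right : alternatingGroup α ⊓ centralizer {(β x).1} ≤ _)
  have c₅ := card_inf_mul_relIndex (alternatingGroup α) (centralizer {x.1})
  have s := (β x).1.sum_cycleType_le
  rw [hj, Multiset.sum_replicate, smul_eq_mul] at s
  haveI : Nontrivial α := Fintype.one_lt_card_iff_nontrivial.1 (by omega)
  have c₆ : (alternatingGroup α).relIndex (centralizer {x.1}) ≤ 2 := Nat.le_of_dvd (by omega)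
    (alternatingGroup.index_eq_two (α := α) ▸ relIndex_dvd_index_of_normal _ _)
  obtain ⟨m, hm⟩ := Nat.exists_eq_add_of_le s
  have := arith j m
  rw [hm, show (j + 1 + 1 + 1) * 3 + m - 3 * (j + 1 + 1 + 1) = m by omega] at c₂
  rw [hm, show (j + 1 + 1 + 1) * 3 + m - 3 * (0 + 1) = m + (3 * j + 6) by omega] at c₁
  have c₇ := Nat.mul_le_mul_left (Nat.card ↥(alternatingGroup α ⊓ centralizer {x.1})) c₆
  simp only [zero_add, pow_one, Nat.factorial_one, mul_one] at c₁
  rw [show j + 1 + 1 + 1 = j + 3 by ring] at c₂
  omega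

theorem three_sq (h5 : 5 ≤ Nat.card α) (β : MulAut (alternatingGroup α)) {x : alternatingGroup α}
    (hx : x.1.IsThreeCycle) : ((β * β) x).1.IsThreeCycle := by
  have tr : ∀ {x y : alternatingGroup α}, IsConj x y → x.1.IsThreeCycle → y.1.IsThreeCycle := fun h k =>
    (isConj_iff_cycleType_eq.1 ((alternatingGroup α).subtype.map_isConj h)).symm.trans k
  refine (type_aut (β * β) hx).elim id fun k₂ => (type_aut β hx).elim (fun k₁ => ?_) fun k₁ => ?_
  · exact tr (β.toMonoidHom.map_isConj (alternatingGroup.isThreeCycle_isConj h5 hx k₁)) k₁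
  · have := β.symm.toMonoidHom.map_isConj (isConj_alt (k₁.trans k₂.symm) fun k => by
      have := (centralizer_le_alternating_iff.1 k).2.2 3
      rw [k₁, Multiset.count_replicate_self] at this
      omega)
    simp only [MulEquiv.coe_toMonoidHom, MulAut.mul_apply, MulEquiv.symm_apply_apply] at this
    have k := (tr this hx).symm.trans k₁
    exact absurd (congrArg Multiset.card k) (by simp)

theorem stab_inj (h4 : 4 ≤ Nat.card α) {i p : α}
    (h : MulAction.stabilizer (alternatingGroup α) i ≤ MulAction.stabilizer (alternatingGroup α) p) : i = p := by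
  by_contra k
  have c : 3 ≤ (Finset.univ.erase i).card := by
    rw [Finset.card_erase_of_mem (Finset.mem_univ i), Finset.card_univ, ← Nat.card_eq_fintype_card]; omega
  obtain ⟨a, ha, a1, -⟩ := exists_third c p p
  obtain ⟨b, hb, b1, b2⟩ := exists_third c p a
  have := h (x := ⟨cyc p a b, cyc_mem a1.symm b1.symm⟩)
    (cyc_apply_of_ne k (Finset.ne_of_mem_erase ha).symm (Finset.ne_of_mem_erase hb).symm)
  exact b1 ((cyc_apply_left b1.symm b2.symm).symm.trans this)

theorem exists_stab (h5 : 5 ≤ Nat.card α) (β : MulAut (alternatingGroup α))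
    (hβ : ∀ x : alternatingGroup α, x.1.IsThreeCycle → (β x).1.IsThreeCycle) (i : α) :
    ∃ p : α, (MulAction.stabilizer (alternatingGroup α) i).map β.toMonoidHom =
      MulAction.stabilizer (alternatingGroup α) p := by
  haveI := alternatingGroup.isPretransitive_of_three_le_card α (by omega)
  have c : 3 ≤ (Finset.univ.erase i).card := by
    rw [Finset.card_erase_of_mem (Finset.mem_univ i), Finset.card_univ, ← Nat.card_eq_fintype_card]; omega
  obtain ⟨a, ha, -⟩ := exists_third c i i
  obtain ⟨b, hb, ba, -⟩ := exists_third c a a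
  obtain ⟨d, hd, da, db⟩ := exists_third c a b
  set K := (MulAction.stabilizer (alternatingGroup α) i).map β.toMonoidHom with hK
  have iK : K.index = Nat.card α := by
    rw [hK, index_map_of_bijective β.bijective, MulAction.index_stabilizer_of_transitive]
  let y : ∀ e, e ≠ a → alternatingGroup α := fun e h => β ⟨cyc a b e, cyc_mem ba.symm h.symm⟩
  have y3 : ∀ e h, e ≠ b → (y e h).1.IsThreeCycle := fun e h k => hβ _ (isThreeCycle_cyc ba.symm h.symm k.symm)
  have yK : ∀ e h, e ≠ i → (y e h).1 ∈ K.map (alternatingGroup α).subtype := fun e h k =>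
    mem_map_of_mem _ (mem_map_of_mem _ (cyc_apply_of_ne (Finset.ne_of_mem_erase ha).symm
      (Finset.ne_of_mem_erase hb).symm k.symm))
  obtain ⟨Ω, h₁, h₂, h₃⟩ := exists_block (y3 d da db) (yK d da (Finset.ne_of_mem_erase hd))
  obtain ⟨p, hp⟩ : ∃ p, p ∉ Ω := by
    by_contra k
    push Not at k
    have : K = ⊤ := eq_top_iff.2 fun g _ => (mem_map_iff_mem (alternatingGroup α).subtype_injective).1
      (h₂ (mem_altOn.2 ⟨fun x _ => k x, g.2⟩))
    rw [this, index_top] at iK
    omega
  have fx : ∀ e h, e ≠ b → e ≠ i → (y e h).1 p = p := fun e h k l => by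
    refine notMem_support.1 fun m => hp (?_ : p ∈ Ω)
    by_cases ed : e = d
    · subst ed; exact h₁ m
    by_cases s : Disjoint (y e h).1 (y d da).1
    · have q := β.injective ((map_mul β _ _).trans ((Subtype.ext s.commute.eq).trans (map_mul β _ _).symm))
      have q : cyc a b e (cyc a b d a) = cyc a b d (cyc a b e a) := congrArg (fun g : alternatingGroup α => g.1 a) q
      rw [cyc_apply_left da.symm db.symm, cyc_apply_left h.symm k.symm, cyc_apply_of_ne da db (Ne.symm ed),
        cyc_apply_of_ne h k ed] at q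
      exact absurd q.symm ed
    · rw [disjoint_iff_disjoint_support, Finset.not_disjoint_iff] at s
      obtain ⟨w, w₁, w₂⟩ := s
      exact h₃ _ (yK e h l) (y3 e h k) w w₁ (h₁ w₂) m
  have le : K ≤ MulAction.stabilizer (alternatingGroup α) p := by
    rintro _ ⟨g, hg, rfl⟩
    have := altOn_le (H := ((MulAction.stabilizer (alternatingGroup α) p).comap β.toMonoidHom).map
      (alternatingGroup α).subtype) ha hb ba.symm (fun e he h k => ⟨⟨_, cyc_mem ba.symm h.symm⟩,
        fx e h k (Finset.ne_of_mem_erase he), rfl⟩) (mem_altOn.2 ⟨fun w hw => Finset.mem_erase.2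
          ⟨fun e => mem_support.1 hw (e ▸ hg), Finset.mem_univ w⟩, g.2⟩ : g.1 ∈ _)
    exact mem_comap.1 ((mem_map_iff_mem (x := g) (alternatingGroup α).subtype_injective).1 this)
  refine ⟨p, le_antisymm le (relIndex_eq_one.1 ?_)⟩
  have := relIndex_mul_index le
  rw [MulAction.index_stabilizer_of_transitive, iK] at this
  exact Nat.eq_of_mul_eq_mul_right (show 0 < Nat.card α by omega) (this.trans (one_mul _).symm)

/-- The square of an automorphism of the alternating group is conjugation by a permutation. -/
theorem exists_perm (h5 : 5 ≤ Nat.card α) (β : MulAut (alternatingGroup α)) :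
    ∃ π : Perm α, ∀ g, (β (β g)).1 = π * g * π⁻¹ := by
  choose f hf using exists_stab h5 (β * β) fun x => three_sq h5 β
  have fi : Function.Injective f := fun i j e => stab_inj (by omega)
    ((map_le_map_iff_of_injective (β * β).injective).1 ((hf i).trans (e ▸ (hf j).symm)).le)
  refine ⟨Equiv.ofBijective f (Finite.injective_iff_bijective.1 fi), fun g => eq_mul_inv_of_mul_eq ?_⟩
  ext i
  refine (stab_inj (by omega) (le_of_eq ?_) : f (g • i) = (β * β) g • f i).symm
  rw [← hf, MulAction.stabilizer_smul_eq_stabilizer_map_conj, MulAction.stabilizer_smul_eq_stabilizer_map_conj,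
    ← hf, map_map, map_map]
  congr 1
  ext x
  simp

end Cfsg.Agent.Lib.AltAut
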