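/-
Alternating groups whose Sylow three-subgroup lies in a unique maximal subgroup.
-/
import Cfsg.Agent.Lib.AltAut
import Cfsg.Agent.Lib.FTBase3

set_option autoImplicit false
set_option linter.unusedSectionVars false

namespace Cfsg.Agent.Lib.Alt3Min

open Subgroup Equiv Equiv.Perm Cfsg Cfsg.Agent.Lib.AltPres Cfsg.Agent.Lib.PCoreConj Cfsg.Agent.Lib.ThreeCyc
  Cfsg.Agent.Lib.PCore Cfsg.Agent.Lib.FTDefs

variable {α : Type*} [Fintype α] [DecidableEq α] {β : Type*} {S M K : Subgroup (Perm α)}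

/-- The stabilizer of the partition into fibres of `T`. -/
def St (T : α → β) : Subgroup (Perm α) where
  carrier := {g | ∀ u v, T (g u) = T (g v) ↔ T u = T v}
  mul_mem' := fun {a b} ha hb u v => (ha (b u) (b v)).trans (hb u v)
  one_mem' := fun _ _ => Iff.rfl
  inv_mem' := fun {a} ha u v => by simpa using (ha (a⁻¹ u) (a⁻¹ v)).symm

open Classical in
/-- An orbit. -/
noncomputable def orb (K : Subgroup (Perm α)) (a : α) : Finset α := Finset.univ.filter fun u => ∃ s ∈ K, s a = u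

theorem mem_orb {a u : α} : u ∈ orb K a ↔ ∃ s ∈ K, s a = u := by simp [orb]

theorem card_orb (K : Subgroup (Perm α)) (a : α) : (orb K a).card = (MulAction.stabilizer (Perm α) a).relIndex K := by
  rw [← Set.ncard_coe_finset, relIndex, show (MulAction.stabilizer (Perm α) a).subgroupOf K =
    MulAction.stabilizer K a from rfl, MulAction.index_stabilizer]
  congr 1
  ext u
  rw [Finset.mem_coe, mem_orb]
  exact ⟨fun ⟨s, h, e⟩ => ⟨⟨s, h⟩, e⟩, fun ⟨s, e⟩ => ⟨s.1, s.2, e⟩⟩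

theorem self_orb (a : α) : a ∈ orb K a := mem_orb.2 ⟨1, one_mem _, rfl⟩

theorem smul_orb {a u : α} {s : Perm α} (hs : s ∈ K) (hu : u ∈ orb K a) : s u ∈ orb K a := by
  obtain ⟨r, hr, rfl⟩ := mem_orb.1 hu
  exact mem_orb.2 ⟨s * r, mul_mem hs hr, rfl⟩

theorem orb_eq {a u : α} : orb K a = orb K u ↔ u ∈ orb K a := by
  refine ⟨fun e => e ▸ self_orb u, fun h => ?_⟩
  obtain ⟨r, hr, rfl⟩ := mem_orb.1 h
  ext w
  simp only [mem_orb]
  exact ⟨fun ⟨s, hs, e⟩ => ⟨s * r⁻¹, mul_mem hs (inv_mem hr), by simpa using e⟩,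
    fun ⟨s, hs, e⟩ => ⟨s * r, mul_mem hs hr, e⟩⟩

theorem supp_le_orb {s : Perm α} (hs : s ∈ K) (h : s.IsThreeCycle) {x : α} (hx : x ∈ s.support) :
    s.support ⊆ orb K x := fun y hy => by
  obtain ⟨i, e⟩ := h.isCycle.exists_pow_eq (mem_support.1 hx) (mem_support.1 hy)
  exact mem_orb.2 ⟨_, pow_mem hs i, e⟩

theorem supp_eq (hS : IsPGroup 3 S) {s r : Perm α} (hs : s ∈ S) (hr : r ∈ S) (s3 : s.IsThreeCycle)
    (r3 : r.IsThreeCycle) {x : α} (h₁ : x ∈ s.support) (h₂ : x ∈ r.support) : s.support = r.support := by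
  have le : closure {s, r} ≤ altOn (s.support ∪ r.support) := (closure_le _).2 (by
    rintro _ (rfl | rfl)
    exacts [mem_altOn.2 ⟨Finset.subset_union_left, s3.sign⟩, mem_altOn.2 ⟨Finset.subset_union_right, r3.sign⟩])
  obtain ⟨k, hk⟩ := relIndex_eq_pow Nat.prime_three (hS.to_le ((closure_le _).2 (by
    rintro _ (rfl | rfl); exacts [hs, hr]) : closure {s, r} ≤ S)) (MulAction.stabilizer (Perm α) x)
  rw [← card_orb] at hk
  have a₁ := supp_le_orb (K := closure {s, r}) (subset_closure (Or.inl rfl)) s3 h₁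
  have a₂ := supp_le_orb (K := closure {s, r}) (subset_closure (Or.inr rfl)) r3 h₂
  have a₃ : orb (closure {s, r}) x ⊆ s.support ∪ r.support := fun y hy => by
    obtain ⟨g, hg, rfl⟩ := mem_orb.1 hy
    by_cases e : g x = x
    · rw [e]; exact Finset.mem_union_left _ h₁
    · exact (mem_altOn.1 (le hg)).1 (apply_mem_support.2 (mem_support.2 e))
  have b₁ := Finset.card_le_card a₁
  have b₃ := (Finset.card_le_card a₃).trans (Finset.card_union_le _ _)
  rw [s3.card_support, hk] at b₁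
  rw [s3.card_support, r3.card_support, hk] at b₃
  have : k = 1 := by
    obtain _ | _ | k := k
    · omega
    · rfl
    · have := Nat.one_le_pow k 3 (by omega)
      rw [pow_succ, pow_succ] at b₃; omega
  rw [Finset.eq_of_subset_of_card_le a₁ (by rw [hk, this, s3.card_support]; omega),
    Finset.eq_of_subset_of_card_le a₂ (by rw [hk, this, r3.card_support]; omega)]

/-- Points joined by a three-cycle of `M`. -/
def R (M : Subgroup (Perm α)) (x y : α) : Prop := x = y ∨ ∃ s ∈ M, s.IsThreeCycle ∧ x ∈ s.support ∧ y ∈ s.support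

theorem R.symm {x y : α} (h : R M x y) : R M y x := h.imp Eq.symm fun ⟨s, a, b, c, d⟩ => ⟨s, a, b, d, c⟩

theorem R.of_cyc {x y w : α} (h₁ : x ≠ y) (h₂ : x ≠ w) (h₃ : y ≠ w) (h : cyc x y w ∈ M) : R M x y :=
  Or.inr ⟨_, h, isThreeCycle_cyc h₁ h₂ h₃, mem_support.2 (by rw [cyc_apply_left h₂ h₃]; exact h₂.symm),
    mem_support.2 (by rw [cyc_apply_mid h₁ h₃]; exact h₁)⟩

theorem R.trans {x y z : α} (h : R M x y) (k : R M y z) : R M x z := by
  obtain rfl | ⟨s, hs, s3, h₁, h₂⟩ := h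
  · exact k
  obtain rfl | ⟨r, hr, r3, k₁, k₂⟩ := k
  · exact Or.inr ⟨s, hs, s3, h₁, h₂⟩
  by_cases e : x = z
  · exact Or.inl e
  obtain ⟨Ω, a₁, a₂, a₃⟩ := exists_block s3 hs
  obtain ⟨w, hw, w₁, w₂⟩ := exists_third (s3.card_support ▸ Finset.card_le_card a₁) x z
  exact R.of_cyc e w₁.symm w₂.symm (a₂ (cyc_mem_altOn (a₁ h₁) (a₃ r hr r3 y k₁ (a₁ h₂) k₂) hw e w₁.symm))

theorem conj3 {s : Perm α} (h : s.IsThreeCycle) (g : Perm α) : (g * s * g⁻¹).IsThreeCycle :=
  cycleType_conj.trans h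

theorem mem_conj_supp {s g : Perm α} {x : α} (h : x ∈ s.support) : g x ∈ (g * s * g⁻¹).support := by
  rw [support_conj]; exact Finset.mem_map_of_mem _ h

theorem R.map {x y : α} (h : R M x y) {g : Perm α} (hg : g ∈ M) : R M (g x) (g y) :=
  h.imp (congrArg g) fun ⟨_, a, b, c, d⟩ =>
    ⟨_, mul_mem (mul_mem hg a) (inv_mem hg), conj3 b g, mem_conj_supp c, mem_conj_supp d⟩

theorem swap_mem {T : α → β} {x x' y y' y'' z z' z'' : α} (hx : T x' = T x) (x1 : x ≠ x')
    (hy : ∀ w, T w = T y ↔ w = y ∨ w = y' ∨ w = y'') (hz : ∀ w, T w = T z ↔ w = z ∨ w = z' ∨ w = z'')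
    (y1 : y ≠ y') (y2 : y ≠ y'') (y3 : y' ≠ y'') (z1 : z ≠ z') (z2 : z ≠ z'') (z3 : z' ≠ z'')
    (xy : T x ≠ T y) (xz : T x ≠ T z) (yz : T y ≠ T z) :
    ∃ g ∈ alternatingGroup α ⊓ St T, g y = z ∧ ∀ w, T w = T x → w ≠ x → w ≠ x' → g w = w := by
  classical
  have ty' := (hy y').2 (by simp)
  have ty'' := (hy y'').2 (by simp)
  have tz' := (hz z').2 (by simp)
  have tz'' := (hz z'').2 (by simp)
  have n : ∀ {u v : α} {a b : β}, T u = a → T v = b → a ≠ b → u ≠ v := fun h k l e => l (h.symm.trans (e ▸ k))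
  have e₁ : ∀ w, T (swap x x' w) = T w := fun w => by
    rw [swap_apply_def]; split_ifs with a b
    exacts [a ▸ hx, b ▸ hx.symm, rfl]
  have fx : ∀ w, T w ≠ T y → T w ≠ T z → (swap y z * swap y' z' * swap y'' z'') w = w := fun w a b => by
    rw [Perm.mul_apply, Perm.mul_apply, swap_apply_of_ne_of_ne (n rfl ty'' a) (n rfl tz'' b),
      swap_apply_of_ne_of_ne (n rfl ty' a) (n rfl tz' b), swap_apply_of_ne_of_ne (n rfl rfl a) (n rfl rfl b)]
  have a₁ := n rfl rfl yz
  have a₂ := n rfl tz' yz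
  have a₃ := n rfl tz'' yz
  have a₄ := n ty' rfl yz
  have a₅ := n ty' tz' yz
  have a₆ := n ty' tz'' yz
  have a₇ := n ty'' rfl yz
  have a₈ := n ty'' tz' yz
  have a₉ := n ty'' tz'' yz
  have e₂ : ∀ w, T ((swap y z * swap y' z' * swap y'' z'') w) = swap (T y) (T z) (T w) := fun w => by
    by_cases a : T w = T y
    · rw [a, swap_apply_left]
      obtain rfl | rfl | rfl := (hy w).1 a <;>
        simp [swap_apply_def, *, Ne.symm, y1.symm, y2.symm, y3.symm, z1.symm, z2.symm, z3.symm, a₂.symm, a₃.symm,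
          a₄.symm, a₆.symm, a₇.symm, a₈.symm]
    by_cases b : T w = T z
    · rw [b, swap_apply_right]
      obtain rfl | rfl | rfl := (hz w).1 b <;>
        simp [swap_apply_def, *, Ne.symm, y1.symm, y2.symm, y3.symm, z1.symm, z2.symm, z3.symm, a₂.symm, a₃.symm,
          a₄.symm, a₆.symm, a₇.symm, a₈.symm, a₁.symm, a₅.symm, a₉.symm]
    · rw [fx w a b, swap_apply_of_ne_of_ne a b]
  refine ⟨swap y z * swap y' z' * swap y'' z'' * swap x x', ⟨?_, fun u v => ?_⟩, ?_, fun w a b c => ?_⟩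
  · simp [mem_alternatingGroup, sign_swap, *]
  · rw [Perm.mul_apply, Perm.mul_apply _ (swap x x'), e₂, e₂, e₁, e₁, (swap _ _).injective.eq_iff]
  · rw [Perm.mul_apply, swap_apply_of_ne_of_ne (n rfl rfl xy.symm) (n rfl hx xy.symm), Perm.mul_apply,
      Perm.mul_apply, swap_apply_of_ne_of_ne y2 a₃, swap_apply_of_ne_of_ne y1 a₂, swap_apply_left]
  · rw [Perm.mul_apply, swap_apply_of_ne_of_ne b c, fx w (a ▸ xy) (a ▸ xz)]

/-- The hypothesis. -/
structure Hyp (S M : Subgroup (Perm α)) : Prop where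
  h5 : 5 ≤ Fintype.card α
  syl : IsSylowIn 3 S (alternatingGroup α)
  lt : ¬ alternatingGroup α ≤ M
  uq : ∀ H, S ≤ H → H ≤ alternatingGroup α → ¬ alternatingGroup α ≤ H → H ≤ M

namespace Hyp

variable (h : Hyp S M)
include h

theorem not_all : ¬ ∀ x y, R M x y := fun k => by
  obtain ⟨x, y, e⟩ := Fintype.one_lt_card_iff.1 (show 1 < Fintype.card α by have := h.h5; omega)
  obtain ⟨s, hs, s3, h₁, -⟩ := (k x y).resolve_left e
  obtain ⟨Ω, a₁, a₂, a₃⟩ := exists_block s3 hs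
  refine h.lt fun g hg => a₂ (mem_altOn.2 ⟨fun z _ => ?_, hg⟩)
  obtain rfl | ⟨r, hr, r3, k₁, k₂⟩ := k x z
  exacts [a₁ h₁, a₃ r hr r3 x k₁ (a₁ h₁) k₂]

theorem st_le {T : α → β} (hT : S ≤ St T) {x y z : α} (e : x ≠ y) (h₁ : T x = T y) (h₂ : T x ≠ T z) :
    alternatingGroup α ⊓ St T ≤ M := h.uq _ (le_inf h.syl.le hT) inf_le_left fun k => by
  obtain ⟨w, hw, w₁, w₂⟩ := exists_third (Ω := Finset.univ.erase x) (by
    rw [Finset.card_erase_of_mem (Finset.mem_univ x), Finset.card_univ]; have := h.h5; omega) y z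
  have yz : y ≠ z := fun e => h₂ (e ▸ h₁)
  have := ((k (cyc_mem w₁.symm yz)).2 x y).2 h₁
  rw [cyc_apply_left yz w₂, cyc_apply_of_ne e (Finset.ne_of_mem_erase hw).symm fun e => h₂ (e ▸ rfl)] at this
  exact h₂ this

theorem rel3 {T : α → β} (hT : S ≤ St T) {x y w z : α} (h₁ : T x = T y) (h₂ : T x ≠ T z) (h₃ : T x = T w)
    (w₁ : w ≠ x) (w₂ : w ≠ y) : R M x y := by
  by_cases e : x = y
  · exact Or.inl e
  have k : ∀ u, T (cyc x y w u) = T u := fun u => by
    by_cases a : u = x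
    · rw [a, cyc_apply_left w₁.symm w₂.symm, h₃]
    by_cases b : u = y
    · rw [b, cyc_apply_mid e w₂.symm, h₁]
    by_cases c : u = w
    · rw [c, cyc_apply_right, ← h₁, h₃]
    · rw [cyc_apply_of_ne a b c]
  exact R.of_cyc e w₁.symm w₂.symm (h.st_le hT e h₁ h₂ ⟨cyc_mem e w₁.symm, fun u v => by rw [k, k]⟩)

theorem rel_set {Δ : Finset α} (inv : ∀ s ∈ S, ∀ u ∈ Δ, s u ∈ Δ) {z : α} (hz : z ∉ Δ) (c : 3 ≤ Δ.card) {x y : α}
    (hx : x ∈ Δ) (hy : y ∈ Δ) : R M x y := by
  obtain ⟨w, hw, w₁, w₂⟩ := exists_third c x y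
  have i : ∀ s ∈ S, ∀ u, s u ∈ Δ ↔ u ∈ Δ := fun s hs u =>
    ⟨fun k => by simpa using inv _ (inv_mem hs) _ k, inv s hs u⟩
  exact h.rel3 (T := (· ∈ Δ)) (z := z) (fun s hs u v => by simp only [i s hs]) (by simp [hx, hy]) (by simp [hx, hz])
    (by simp [hx, hw]) w₁ w₂

theorem few {Δ : Finset α} (inv : ∀ s ∈ S, ∀ u ∈ Δ, s u ∈ Δ) (c : 3 ≤ Δ.card) :
    ∃ s ∈ S, s.IsThreeCycle ∧ s.support ⊆ Δ := by
  haveI := Fact.mk Nat.prime_three
  obtain ⟨a, ha⟩ := Finset.card_pos.1 (show 0 < Δ.card by omega)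
  obtain ⟨b, hb, ba, -⟩ := exists_third c a a
  obtain ⟨d, hd, da, db⟩ := exists_third c a b
  have s := h.syl.inf_of_le_normalizer (N := altOn Δ) (fun g hg => (mem_altOn.1 hg).2) fun s hs => by
    rw [mem_normalizer_iff_conj_eq, conj_altOn, Finset.eq_of_subset_of_card_le (s := Δ.map s.toEmbedding) (t := Δ)
      (fun u hu => by obtain ⟨v, hv, rfl⟩ := Finset.mem_map.1 hu; exact inv s hs v hv) (by simp)]
  obtain ⟨g, -, e⟩ := s.exists_conj_mem (k := 1) (cyc_mem_altOn ha hb hd ba.symm da.symm)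
    (cyc_pow_three ba.symm da.symm db.symm)
  exact ⟨_, e.1, conj3 (isThreeCycle_cyc ba.symm da.symm db.symm) g, (mem_altOn.1 e.2).1⟩

theorem orb_pow (a : α) : ∃ k, (orb S a).card = 3 ^ k := by
  rw [card_orb]; exact relIndex_eq_pow Nat.prime_three h.syl.isPGroup _

theorem main : Fintype.card α = 6 ∨ Fintype.card α = 9 ∨ ∃ a : ℕ, 2 ≤ a ∧ Fintype.card α = 3 ^ a + 1 := by
  classical
  have h5 := h.h5
  let N : Finset α := Finset.univ.filter fun x => ¬ ∃ s ∈ S, s.IsThreeCycle ∧ x ∈ s.support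
  have mN : ∀ x, x ∈ N ↔ ¬ ∃ s ∈ S, s.IsThreeCycle ∧ x ∈ s.support := fun x => by simp only [N, Finset.mem_filter,
    Finset.mem_univ, true_and]
  have iN : ∀ s ∈ S, ∀ u ∈ N, s u ∈ N := fun s hs u hu => (mN _).2 fun ⟨r, hr, r3, k⟩ => (mN u).1 hu
    ⟨_, mul_mem (mul_mem (inv_mem hs) hr) (inv_mem (inv_mem hs)), conj3 r3 _, by simpa using mem_conj_supp (g := s⁻¹) k⟩
  have cN : N.card < 3 := by
    by_contra k
    obtain ⟨s, hs, s3, l⟩ := h.few iN (by omega)
    obtain ⟨a, ha⟩ := Finset.card_pos.1 (show 0 < s.support.card by rw [s3.card_support]; omega)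
    exact (mN a).1 (l ha) ⟨s, hs, s3, ha⟩
  have fN : ∀ a ∈ N, ∀ s ∈ S, s a = a := fun a ha s hs => by
    obtain ⟨k, hk⟩ := h.orb_pow a
    have := Finset.card_le_card (show orb S a ⊆ N from fun u hu => by
      obtain ⟨r, hr, rfl⟩ := mem_orb.1 hu; exact iN r hr a ha)
    obtain _ | k := k
    · exact Finset.card_le_one.1 hk.le _ (smul_orb hs (self_orb a)) _ (self_orb a)
    · have := Nat.one_le_pow k 3 (by omega)
      rw [pow_succ] at hk; omega
  have rN : ∀ a ∈ N, ∀ x y, x ≠ a → y ≠ a → R M x y := fun a ha x y hx hy => h.rel_set (Δ := Finset.univ.erase a)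
    (fun s hs u hu => Finset.mem_erase.2 ⟨fun e => Finset.ne_of_mem_erase hu (s.injective (e.trans (fN a ha s hs).symm)),
      Finset.mem_univ _⟩) (Finset.notMem_erase a _) (by
        rw [Finset.card_erase_of_mem (Finset.mem_univ a), Finset.card_univ]; omega) (by simpa) (by simpa)
  have cO : ∀ x, ∀ s ∈ S, ∀ u ∈ (orb S x)ᶜ, s u ∈ (orb S x)ᶜ := fun x s hs u hu => Finset.mem_compl.2 fun k =>
    Finset.mem_compl.1 hu (by simpa using smul_orb (inv_mem hs) k)
  by_cases hN : ∃ a, a ∈ N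
  · obtain ⟨a, ha⟩ := hN
    have fin : ∀ y, y ≠ a → ¬ R M a y := fun y hy k => h.not_all fun u v => by
      have : ∀ u, R M u y := fun u => by
        by_cases e : u = a
        exacts [e ▸ k, rN a ha u y e hy]
      exact (this u).trans (this v).symm
    have uN : ∀ b ∈ N, b = a := fun b hb => by
      by_contra e
      obtain ⟨c, -, c₁, c₂⟩ := exists_third (Ω := Finset.univ) (by rw [Finset.card_univ]; omega) a b
      exact fin c c₁ (rN b hb a c (Ne.symm e) c₂)
    obtain ⟨x, -, xa, -⟩ := exists_third (Ω := Finset.univ) (by rw [Finset.card_univ]; omega) a a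
    have aO : a ∉ orb S x := fun k => by
      obtain ⟨s, hs, e⟩ := mem_orb.1 k
      exact xa (s.injective (e.trans (fN a ha s hs).symm))
    have eO : orb S x = Finset.univ.erase a := by
      refine Finset.Subset.antisymm (fun u hu => Finset.mem_erase.2 ⟨fun e => aO (e ▸ hu), Finset.mem_univ _⟩)
        fun y hy => by_contra fun k => ?_
      have ya := Finset.ne_of_mem_erase hy
      obtain ⟨s, hs, s3, l⟩ := not_not.1 (mt (mN y).2 fun m => ya (uN y m))
      refine fin y ya (h.rel_set (cO x) (z := x) (by simp [self_orb]) ?_ (by simpa) (by simpa))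
      refine s3.card_support ▸ Finset.card_le_card ((supp_le_orb hs s3 l).trans fun u hu => ?_)
      obtain ⟨r, hr, rfl⟩ := mem_orb.1 hu
      exact cO x r hr y (by simpa)
    obtain ⟨k, hk⟩ := h.orb_pow x
    rw [eO, Finset.card_erase_of_mem (Finset.mem_univ a), Finset.card_univ] at hk
    refine Or.inr (Or.inr ⟨k, ?_, by omega⟩)
    obtain _ | _ | k := k <;> omega
  have ex : ∀ x, ∃ s ∈ S, s.IsThreeCycle ∧ x ∈ s.support := fun x => not_not.1 (mt (mN x).2 fun m => hN ⟨x, m⟩)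
  choose c cS c3 cx using ex
  have tr : ∀ {x y : α}, (c x).support = (c y).support ↔ x ∈ (c y).support := fun {x y} =>
    ⟨fun e => e ▸ cx x, supp_eq h.syl.isPGroup (cS x) (cS y) (c3 x) (c3 y) (cx x)⟩
  have tS : ∀ s ∈ S, ∀ u v, (c u).support = (c v).support → (c (s u)).support = (c (s v)).support :=
    fun s hs u v e => by
      have m := mul_mem (mul_mem hs (cS v)) (inv_mem hs)
      exact (supp_eq h.syl.isPGroup (cS _) m (c3 _) (conj3 (c3 v) s) (cx _) (mem_conj_supp (tr.1 e))).trans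
        (supp_eq h.syl.isPGroup (cS _) m (c3 _) (conj3 (c3 v) s) (cx _) (mem_conj_supp (cx v))).symm
  have hT : S ≤ St fun x => (c x).support := fun s hs u v =>
    ⟨fun e => by simpa using tS _ (inv_mem hs) _ _ e, tS s hs u v⟩
  have tri : ∀ y, ∃ y' y'', y ≠ y' ∧ y ≠ y'' ∧ y' ≠ y'' ∧
      ∀ w, (c w).support = (c y).support ↔ w = y ∨ w = y' ∨ w = y'' := fun y => by
    obtain ⟨y', h₁, a, -⟩ := exists_third (c3 y).card_support.ge y y
    obtain ⟨y'', h₂, b, d⟩ := exists_third (c3 y).card_support.ge y y'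
    refine ⟨y', y'', a.symm, b.symm, d.symm, fun w => ?_⟩
    rw [tr, ← Finset.eq_of_subset_of_card_le (s := {y, y', y''}) (t := (c y).support) (by
      simp [Finset.subset_iff, -mem_support, cx, h₁, h₂]) (by
        rw [(c3 y).card_support, Finset.card_eq_three.2 ⟨_, _, _, a.symm, b.symm, d.symm, rfl⟩])]
    simp
  have key : ∀ x y, R M x y → y ∈ (c x).support := fun x y k => by
    by_contra l
    have xy : (c x).support ≠ (c y).support := fun e => l (tr.1 e.symm)
    obtain ⟨x', x'', x1, x2, x3, hx⟩ := tri x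
    have hM := h.st_le hT x1 ((hx x').2 (by simp)).symm xy
    have SM : S ≤ M := (le_inf h.syl.le hT).trans hM
    have : ∀ z, R M x z := fun z => by
      by_cases a : (c z).support = (c x).support
      · exact Or.inr ⟨_, SM (cS x), c3 x, cx x, tr.1 a⟩
      by_cases b : (c z).support = (c y).support
      · exact k.trans (Or.inr ⟨_, SM (cS y), c3 y, cx y, tr.1 b⟩)
      obtain ⟨y', y'', y1, y2, y3, hy⟩ := tri y
      obtain ⟨z', z'', z1, z2, z3, hz⟩ := tri z
      have t' := (hx x').2 (by simp)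
      obtain ⟨g, hg, e₁, e₂⟩ := swap_mem (T := fun x => (c x).support) (x := x') (x' := x'')
        (((hx x'').2 (by simp)).trans t'.symm) x3 hy hz y1 y2 y3 z1 z2 z3 (fun e => xy (t'.symm.trans e))
        (fun e => a (e.symm.trans t')) (Ne.symm b)
      simpa only [e₁, e₂ x t'.symm x1 x2] using k.map (hM hg)
    exact h.not_all fun u v => (this u).symm.trans (this v)
  have small : ∀ Δ : Finset α, ∀ x ∈ Δ, (3 ≤ Δ.card → ∀ y ∈ Δ, R M x y) → Δ.card ≤ 3 := fun Δ x _ k => by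
    by_contra l
    exact l ((c3 x).card_support ▸ Finset.card_le_card fun y hy => key x y (k (by omega) y hy))
  obtain ⟨x⟩ : Nonempty α := Fintype.card_pos_iff.1 (by omega)
  by_cases o : ∃ y, y ∉ orb S x
  · obtain ⟨y, hy⟩ := o
    have a₁ := small _ x (self_orb x) fun k u hu => h.rel_set (fun s hs u => smul_orb hs) hy k (self_orb x) hu
    have a₂ := small _ y (Finset.mem_compl.2 hy) fun k u hu => h.rel_set (cO x) (z := x) (by simp [self_orb]) k
      (Finset.mem_compl.2 hy) hu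
    have a₃ := (c3 x).card_support ▸ Finset.card_le_card (supp_le_orb (cS x) (c3 x) (cx x))
    have a₄ := (c3 y).card_support ▸ Finset.card_le_card ((supp_le_orb (cS y) (c3 y) (cx y)).trans (c := (orb S x)ᶜ)
      fun u hu => by
      obtain ⟨r, hr, rfl⟩ := mem_orb.1 hu
      exact cO x r hr y (Finset.mem_compl.2 hy))
    have := Finset.card_add_card_compl (orb S x)
    omega
  push Not at o
  have eO : (orb S x).card = Fintype.card α := by rw [Finset.eq_univ_of_forall o, Finset.card_univ]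
  obtain ⟨k, hk⟩ := h.orb_pow x
  obtain ⟨K, k₁, k₂, k₃⟩ := exists_relIndex_eq_of_lt Nat.prime_three h.syl.isPGroup
    (Q := MulAction.stabilizer (Perm α) x ⊓ S) (lt_of_le_of_ne inf_le_right fun e => by
      have := relIndex_eq_one.2 (e.ge.trans inf_le_left)
      rw [← card_orb] at this; omega)
  have n := (normalIn_of_relIndex_eq Nat.prime_three h.syl.isPGroup k₂ k₃).2
  have a₁ := relIndex_mul_relIndex _ _ _ k₁ k₂
  rw [k₃, inf_relIndex_right, ← card_orb, eO, ← inf_relIndex_right, inf_assoc, inf_eq_right.2 k₂, inf_relIndex_right,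
    ← card_orb] at a₁
  have tK : ∀ s ∈ S, ∀ u v, orb K u = orb K v → orb K (s u) = orb K (s v) := fun s hs u v e => by
    obtain ⟨r, hr, rfl⟩ := mem_orb.1 (orb_eq.1 e)
    exact orb_eq.2 (mem_orb.2 ⟨s * r * s⁻¹, (mem_normalizer_iff.1 (n hs) r).1 hr, by simp⟩)
  obtain ⟨z, hz⟩ : ∃ z, z ∉ orb K x := by
    by_contra l
    push Not at l
    rw [Finset.eq_univ_of_forall l, Finset.card_univ] at a₁
    omega
  have a₂ := small _ x (self_orb x) fun l y hy => by
    obtain ⟨w, hw, w₁, w₂⟩ := exists_third l x y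
    exact h.rel3 (T := orb K) (fun s hs u v => ⟨fun e => by simpa using tK _ (inv_mem hs) _ _ e, tK s hs u v⟩)
      (orb_eq.2 hy) (mt orb_eq.1 hz) (orb_eq.2 hw) w₁ w₂
  rw [eO] at hk
  obtain _ | _ | _ | k := k
  · omega
  · omega
  · omega
  · have := Nat.one_le_pow k 3 (by omega)
    rw [pow_succ, pow_succ, pow_succ] at hk; omega

end Hyp

end Cfsg.Agent.Lib.Alt3Min
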