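/-
Involutions whose centralizer is a double cover of an alternating group: general degree.
-/
import Cfsg.Agent.Lib.BsPure
import Cfsg.Agent.Lib.AltPres

set_option autoImplicit false
set_option linter.unusedSectionVars false

namespace Cfsg.Agent.Lib.AnCov

open Subgroup Equiv Equiv.Perm Cfsg.Agent.Lib.BsDefs Cfsg.Agent.Lib.PCoreConj
  Cfsg.Agent.Lib.FTDefs Cfsg.Agent.Lib.AltPres

variable {G : Type*} [Group G] {α : Type*} [Fintype α] [DecidableEq α]

/-- `L g σ` says that `g` centralizes `z` and maps to `σ` in the alternating group. -/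
structure Pre (z : G) (L : G → Perm α → Prop) : Prop where
  inv : Invol z
  mem : ∀ {g σ}, L g σ → g * z = z * g
  tot : ∀ {g}, g * z = z * g → ∃ σ, L g σ
  uniq : ∀ {g σ τ}, L g σ → L g τ → σ = τ
  mul : ∀ {g h σ τ}, L g σ → L h τ → L (g * h) (σ * τ)
  z1 : L z 1
  ker : ∀ {g}, L g 1 → g = 1 ∨ g = z
  even : ∀ {g σ}, L g σ → sign σ = 1
  surj : ∀ {σ}, sign σ = 1 → ∃ g, L g σ

/-- The cover does not split. -/
structure Cov (z : G) (L : G → Perm α → Prop) : Prop extends Pre z L where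
  sq : ∀ {g a b c d}, [a, b, c, d].Nodup → L g (swap a b * swap c d) → g * g = z

section perm

variable {σ : Perm α} {a b c d p q : α}

theorem ex_notin (s : Finset α) (l : List α) (h : l.length < s.card) : ∃ q ∈ s, q ∉ l := by
  by_contra e
  push Not at e
  exact absurd ((Finset.card_le_card fun q hq => List.mem_toFinset.2 (e q hq)).trans
    (List.toFinset_card_le l)) (not_le.2 h)

theorem app2 (h : σ * σ = 1) (p : α) : σ (σ p) = p := by
  rw [← mul_apply, h, one_apply]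

theorem eq_iff_app (h : σ * σ = 1) : σ p = q ↔ p = σ q :=
  ⟨fun e => by rw [← e, app2 h], fun e => by rw [e, app2 h]⟩

theorem swap_comm_self (h : σ * σ = 1) (p : α) : σ * swap p (σ p) = swap p (σ p) * σ := by
  rw [mul_swap_eq_swap_mul, app2 h, swap_comm]

theorem peel_sq (h : σ * σ = 1) (p : α) : swap p (σ p) * σ * (swap p (σ p) * σ) = 1 := by
  rw [mul_assoc, ← mul_assoc σ, swap_comm_self h, mul_assoc, h, mul_one, swap_mul_self]

theorem peel_apply (h : σ * σ = 1) (h1 : q ≠ p) (h2 : q ≠ σ p) : (swap p (σ p) * σ) q = σ q := by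
  rw [mul_apply, swap_apply_of_ne_of_ne (fun e => h2 ((eq_iff_app h).1 e)) (σ.injective.ne h1)]

theorem peel_fix (h : σ * σ = 1) (h1 : q = p ∨ q = σ p) : (swap p (σ p) * σ) q = q := by
  rcases h1 with rfl | rfl <;> simp [app2 h]

theorem eq_swap (h : σ * σ = 1) (h1 : ∀ q, q ∉ [a, σ a] → σ q = q) : σ = swap a (σ a) := by
  have : swap a (σ a) * σ = 1 := by
    ext q
    by_cases e : q = a ∨ q = σ a
    · exact peel_fix h e
    · rw [peel_apply h (not_or.1 e).1 (not_or.1 e).2, h1 q (by simpa using e), one_apply]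
  rw [← swap_inv]
  exact (inv_eq_of_mul_eq_one_right this).symm

theorem eq_swap2 (h : σ * σ = 1) (hn : [a, σ a, b, σ b].Nodup)
    (h1 : ∀ q, q ∉ [a, σ a, b, σ b] → σ q = q) : σ = swap a (σ a) * swap b (σ b) := by
  simp only [List.nodup_cons, List.mem_cons, not_or] at hn
  have e1 : (swap a (σ a) * σ) b = σ b := peel_apply h (by tauto) (by tauto)
  rw [← e1, ← eq_swap (a := b) (peel_sq h a) fun q hq => ?_, swap_mul_self_mul]
  by_cases e : q = a ∨ q = σ a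
  · exact peel_fix h e
  · rw [peel_apply h (not_or.1 e).1 (not_or.1 e).2]
    rw [e1] at hq
    exact h1 q (by simp_all)

theorem eq_swap3 (h : σ * σ = 1) (hn : [a, σ a, b, σ b, c, σ c].Nodup)
    (h1 : ∀ q, q ∉ [a, σ a, b, σ b, c, σ c] → σ q = q) :
    σ = swap a (σ a) * (swap b (σ b) * swap c (σ c)) := by
  have hn' := hn
  simp only [List.nodup_cons, List.mem_cons, not_or] at hn
  have e1 : (swap a (σ a) * σ) b = σ b := peel_apply h (by tauto) (by tauto)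
  have e2 : (swap a (σ a) * σ) c = σ c := peel_apply h (by tauto) (by tauto)
  rw [← e1, ← e2, ← eq_swap2 (a := b) (b := c) (peel_sq h a) (by
    rw [e1, e2]; exact hn'.of_cons.of_cons) fun q hq => ?_, swap_mul_self_mul]
  by_cases e : q = a ∨ q = σ a
  · exact peel_fix h e
  · rw [peel_apply h (not_or.1 e).1 (not_or.1 e).2]
    rw [e1, e2] at hq
    exact h1 q (by simp_all)

theorem swap_swap_comm (h : σ * σ = 1) (p q : α) :
    swap p (σ p) * swap q (σ q) = swap q (σ q) * swap p (σ p) := by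
  rw [mul_swap_eq_swap_mul]
  by_cases e1 : q = p
  · subst e1; simp [swap_comm]
  by_cases e2 : q = σ p
  · subst e2; simp [app2 h, swap_comm]
  rw [swap_apply_of_ne_of_ne e1 e2,
    swap_apply_of_ne_of_ne (fun e => e2 ((eq_iff_app h).1 e)) (σ.injective.ne e1)]

theorem nodup_add (h : σ * σ = 1) {l : List α} (hl : ∀ x ∈ l, σ x ∈ l) (hn : l.Nodup) (h1 : q ∉ l)
    (h2 : σ q ≠ q) : (l ++ [q, σ q]).Nodup := by
  refine List.nodup_append.2 ⟨hn, by simpa using h2.symm, fun x hx y hy e => ?_⟩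
  subst e
  rcases List.mem_cons.1 hy with rfl | hy
  · exact h1 hx
  · rw [List.mem_singleton.1 hy] at hx
    exact h1 (app2 h q ▸ hl _ hx)

theorem moved (h : σ * σ = 1) (hn : [a, σ a, b, σ b, c, σ c, d, σ d].Nodup) :
    ∀ x ∈ [a, σ a, b, σ b, c, σ c, d, σ d], σ x ≠ x := by
  have := app2 h
  simp only [List.nodup_cons, List.mem_cons, List.not_mem_nil, or_false, not_or] at hn ⊢
  grind

theorem sign_cyc (hab : a ≠ b) (hac : a ≠ c) : sign (cyc a b c) = 1 :=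
  mem_alternatingGroup.1 (cyc_mem hab hac)

theorem comm_cyc (ha : σ a = a) (hb : σ b = b) (hc : σ c = c) : σ * cyc a b c = cyc a b c * σ := by
  rw [← mul_inv_eq_iff_eq_mul, conj_cyc, ha, hb, hc]

theorem dt_apply (hn : [a, b, c, d].Nodup) : (swap a b * swap c d) a = b ∧
    (swap a b * swap c d) b = a ∧ (swap a b * swap c d) c = d ∧ (swap a b * swap c d) d = c ∧
    ∀ q, q ∉ [a, b, c, d] → (swap a b * swap c d) q = q := by
  simp only [List.nodup_cons, List.mem_cons, not_or, List.not_mem_nil, not_false_eq_true,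
    and_true, List.nodup_nil] at hn ⊢
  obtain ⟨⟨h1, h2, h3⟩, ⟨h4, h5⟩, h6⟩ := hn
  refine ⟨?_, ?_, ?_, ?_, fun q ⟨q1, q2, q3, q4⟩ => ?_⟩
  · rw [mul_apply, swap_apply_of_ne_of_ne h2 h3, swap_apply_left]
  · rw [mul_apply, swap_apply_of_ne_of_ne h4 h5, swap_apply_right]
  · rw [mul_apply, swap_apply_left, swap_apply_of_ne_of_ne (Ne.symm h3) (Ne.symm h5)]
  · rw [mul_apply, swap_apply_right, swap_apply_of_ne_of_ne (Ne.symm h2) (Ne.symm h4)]
  · rw [mul_apply, swap_apply_of_ne_of_ne q3 q4, swap_apply_of_ne_of_ne q1 q2]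

theorem dt_ext {τ : Perm α} (hn : [a, b, c, d].Nodup) (h1 : τ a = b) (h2 : τ b = a) (h3 : τ c = d)
    (h4 : τ d = c) (h5 : ∀ q, q ∉ [a, b, c, d] → τ q = q) : τ = swap a b * swap c d := by
  obtain ⟨e1, e2, e3, e4, e5⟩ := dt_apply hn
  ext q
  by_cases hq : q ∈ [a, b, c, d]
  · simp only [List.mem_cons, List.not_mem_nil, or_false] at hq
    rcases hq with rfl | rfl | rfl | rfl <;> simp only [*]
  · rw [h5 q hq, e5 q hq]

theorem sign_dt (hn : [a, b, c, d].Nodup) : sign (swap a b * swap c d) = 1 := by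
  simp only [List.nodup_cons, List.mem_cons, not_or] at hn
  rw [Perm.sign_mul, sign_swap (by tauto), sign_swap (by tauto)]
  decide

theorem conj_swap2 (κ : Perm α) (a b c d : α) :
    κ * (swap a b * swap c d) * κ⁻¹ = swap (κ a) (κ b) * swap (κ c) (κ d) := by
  simp only [swap_apply_apply]
  group

theorem noncomm {φ : Perm α} (hs : σ * σ = 1) (f2 : φ * φ = σ) (h8 : 8 < σ.support.card) :
    ∃ κ : Perm α, κ ^ 3 = 1 ∧ sign κ = 1 ∧ σ * κ = κ * σ ∧ φ * (κ * φ * κ⁻¹) ≠ κ * φ * κ⁻¹ * φ ∧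
      φ * (κ * φ * κ⁻¹) ≠ σ * (κ * φ * κ⁻¹ * φ) := by
  have fs : ∀ q, φ (φ q) = σ q := fun q => by rw [← mul_apply, f2]
  have fc : ∀ q, φ (σ q) = σ (φ q) := fun q => by rw [← fs, ← fs]
  have s2 := app2 hs
  have fi := φ.injective
  have si := σ.injective
  obtain ⟨p, hp, -⟩ := ex_notin σ.support [] (by simp only [List.length_nil]; omega)
  obtain ⟨q, hq, hq'⟩ := ex_notin σ.support [p, φ p, σ p, σ (φ p)] (by simp only [List.length]; omega)
  obtain ⟨r, hr, hr'⟩ := ex_notin σ.support [p, φ p, σ p, σ (φ p), q, φ q, σ q, σ (φ q)]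
    (by simp only [List.length]; omega)
  rw [mem_support] at hp hq hr
  simp only [List.mem_cons, List.not_mem_nil, or_false, not_or] at hq' hr'
  have d1 : p ≠ q ∧ p ≠ r ∧ q ≠ r := by grind
  have d2 : σ p ≠ σ q ∧ σ p ≠ σ r ∧ σ q ≠ σ r := by grind
  have d3 : (p ≠ σ p ∧ p ≠ σ q ∧ p ≠ σ r) ∧ (q ≠ σ p ∧ q ≠ σ q ∧ q ≠ σ r) ∧
    r ≠ σ p ∧ r ≠ σ q ∧ r ≠ σ r := by grind
  obtain ⟨⟨a1, a2, a3⟩, ⟨a4, a5, a6⟩, a7, a8, a9⟩ := d3
  have d4 : ∀ x, x = p ∨ x = q →
      (φ x ≠ p ∧ φ x ≠ q ∧ φ x ≠ r) ∧ φ x ≠ σ p ∧ φ x ≠ σ q ∧ φ x ≠ σ r := by grind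
  have c1 : cyc (σ p) (σ q) (σ r) * cyc p q r = cyc p q r * cyc (σ p) (σ q) (σ r) :=
    comm_cyc (cyc_apply_of_ne a1 a2 a3) (cyc_apply_of_ne a4 a5 a6) (cyc_apply_of_ne a7 a8 a9)
  obtain ⟨κ, hκ⟩ : ∃ κ, κ = cyc p q r * cyc (σ p) (σ q) (σ r) := ⟨_, rfl⟩
  have κf : ∀ x, x = p ∨ x = q → κ (φ x) = φ x := fun x hx => by
    obtain ⟨⟨a1, a2, a3⟩, a4, a5, a6⟩ := d4 x hx
    rw [hκ, mul_apply, cyc_apply_of_ne a4 a5 a6, cyc_apply_of_ne a1 a2 a3]
  have κq : κ q = p := by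
    rw [hκ, mul_apply, cyc_apply_of_ne a4 a5 a6, cyc_apply_mid d1.1 d1.2.2]
  have κp : κ (σ p) = σ r := by
    rw [hκ, mul_apply, cyc_apply_left d2.2.1 d2.2.2, cyc_apply_of_ne a3.symm a6.symm a9.symm]
  have l1 : (φ * (κ * φ * κ⁻¹)) p = σ q := by
    have : κ⁻¹ p = q := by rw [inv_eq_iff_eq, κq]
    simp only [mul_apply, this, κf q (Or.inr rfl), fs]
  have l2 : (κ * φ * κ⁻¹ * φ) p = σ r := by
    have : κ⁻¹ (φ p) = φ p := by rw [inv_eq_iff_eq, κf p (Or.inl rfl)]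
    simp only [mul_apply, this, fs, κp]
  refine ⟨κ, ?_, ?_, ?_, fun w3 => ?_, fun w3 => ?_⟩
  · rw [hκ, Commute.mul_pow c1.symm, cyc_pow_three d1.1 d1.2.1 d1.2.2,
      cyc_pow_three d2.1 d2.2.1 d2.2.2, one_mul]
  · rw [hκ, Perm.sign_mul, sign_cyc d1.1 d1.2.1, sign_cyc d2.1 d2.2.1, one_mul]
  · rw [← mul_inv_eq_iff_eq_mul, hκ, ← conj_mul, conj_cyc, conj_cyc, s2, s2, s2, c1]
  · rw [w3, l2] at l1; exact d2.2.2 l1.symm
  · rw [w3, mul_apply, l2, s2] at l1; exact a8 l1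

end perm

namespace Pre

variable {z g h y k : G} {L : G → Perm α → Prop} {σ τ : Perm α} {a b c d : α} (C : Pre z L)
include C

theorem one : L 1 1 := by simpa [C.inv.sq] using C.mul C.z1 C.z1

theorem linv (hg : L g σ) : L g⁻¹ σ⁻¹ := by
  obtain ⟨τ, hτ⟩ := C.tot (g := g⁻¹) (by
    rw [inv_mul_eq_iff_eq_mul, ← mul_assoc, C.mem hg, mul_inv_cancel_right])
  have := C.mul hg hτ
  rw [mul_inv_cancel] at this
  rwa [inv_eq_of_mul_eq_one_right (C.uniq this C.one)]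

theorem pow (hg : L g σ) (n : ℕ) : L (g ^ n) (σ ^ n) := by
  induction n with
  | zero => simpa using C.one
  | succ n ih => rw [pow_succ, pow_succ]; exact C.mul ih hg

theorem conj (hg : L g σ) (hh : L h τ) : L (g * h * g⁻¹) (σ * τ * σ⁻¹) :=
  C.mul (C.mul hg hh) (C.linv hg)

theorem zmul (hg : L g σ) : L (z * g) σ := by simpa using C.mul C.z1 hg

theorem eq_or (hg : L g σ) (hh : L h σ) : g = h ∨ g = z * h := by
  have := C.mul hg (C.linv hh)
  rw [mul_inv_cancel] at this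
  exact (C.ker this).imp mul_inv_eq_one.1 mul_inv_eq_iff_eq_mul.1

theorem zpow_odd {n : ℕ} (hn : Odd n) : z ^ n = z := by
  obtain ⟨m, rfl⟩ := hn
  rw [pow_succ, pow_mul, pow_two, C.inv.sq, one_pow, one_mul]

theorem zmul_pow {n : ℕ} (hn : Odd n) (hg : L g σ) : (z * g) ^ n = z * g ^ n := by
  rw [Commute.mul_pow (C.mem hg).symm, C.zpow_odd hn]

theorem eq_of_odd {n : ℕ} (hn : Odd n) (hg : L g σ) (hh : L h σ) (e1 : g ^ n = 1) (e2 : h ^ n = 1) :
    g = h := by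
  refine (C.eq_or hg hh).resolve_right fun e => C.inv.ne ?_
  rwa [e, C.zmul_pow hn hh, e2, mul_one] at e1

theorem exists_odd {n : ℕ} (hn : Odd n) (h1 : sign σ = 1) (h2 : σ ^ n = 1) :
    ∃ g, L g σ ∧ g ^ n = 1 := by
  obtain ⟨g, hg⟩ := C.surj h1
  rcases C.ker (h2 ▸ C.pow hg n) with e | e
  · exact ⟨g, hg, e⟩
  · exact ⟨z * g, C.zmul hg, by rw [C.zmul_pow hn hg, e, C.inv.sq]⟩

theorem conj_odd {n : ℕ} {κ : Perm α} (hn : Odd n) (hk : L k κ) (hg : L g σ) (hh : L h τ)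
    (e1 : g ^ n = 1) (e2 : h ^ n = 1) (e : κ * σ * κ⁻¹ = τ) : k * g * k⁻¹ = h :=
  C.eq_of_odd hn (e ▸ C.conj hk hg) hh (by rw [conj_pow, e1]; simp) e2

theorem comm_odd {n : ℕ} (hn : Odd n) (hg : L g σ) (hh : L h τ) (e1 : h ^ n = 1)
    (e : σ * τ = τ * σ) : g * h = h * g :=
  mul_inv_eq_iff_eq_mul.1 (C.conj_odd hn hg hh hh e1 e1 (mul_inv_eq_iff_eq_mul.2 e))

theorem comm_of (hg : L g σ) (hh : L h τ) (e : g * h = h * g) : σ * τ = τ * σ :=
  C.uniq (C.mul hg hh) (e ▸ C.mul hh hg)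

theorem exists_cyc (hab : a ≠ b) (hac : a ≠ c) (hbc : b ≠ c) : ∃ x, L x (cyc a b c) ∧ x ^ 3 = 1 :=
  C.exists_odd (by decide) (sign_cyc hab hac) (cyc_pow_three hab hac hbc)

theorem comm_dt (hn : [a, d, b, c].Nodup) (hg : L g σ) (hh : L h (swap a d * swap b c))
    (ha : σ a = a) (hb : σ b = b) (hc : σ c = c) (hd : σ d = d) : g * h = h * g := by
  simp only [List.nodup_cons, List.mem_cons, not_or] at hn
  obtain ⟨u, hu, u3⟩ := C.exists_cyc (a := a) (b := b) (c := c) (by tauto) (by tauto) (by tauto)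
  obtain ⟨v, hv, v3⟩ := C.exists_cyc (a := a) (b := b) (c := d) (by tauto) (by tauto) (by tauto)
  have e1 : Commute g u := C.comm_odd (by decide) hg hu u3 (comm_cyc ha hb hc)
  have e2 : Commute g v := C.comm_odd (by decide) hg hv v3 (comm_cyc ha hb hd)
  have := C.mul hu hv
  rw [cyc_mul_cyc (by tauto) (by tauto) (by tauto) (by tauto) (by tauto) (by tauto)] at this
  rcases C.eq_or hh this with rfl | rfl
  · exact e1.mul_right e2
  · exact Commute.mul_right (C.mem hg) (e1.mul_right e2)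

theorem exists_conj {κ ρ : Perm α} (h1 : sign ρ = -1) (h2 : ρ * σ * ρ⁻¹ = σ) :
    ∃ k μ, L k μ ∧ μ * σ * μ⁻¹ = κ * σ * κ⁻¹ := by
  rcases Int.units_eq_one_or (sign κ) with e | e
  · exact let ⟨k, hk⟩ := C.surj e; ⟨k, κ, hk, rfl⟩
  · obtain ⟨k, hk⟩ := C.surj (σ := κ * ρ) (by rw [Perm.sign_mul, e, h1]; decide)
    refine ⟨k, _, hk, ?_⟩
    conv_rhs => rw [← h2]
    group

theorem split (hn : [a, b, c, d].Nodup) (hg : L g (swap a b * swap c d)) (e : g * g = 1) :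
    ∃ K : Subgroup G, K ≤ c[z] ∧ 2 * Nat.card K ≤ (Fintype.card α).factorial ∧ Finite K ∧
      ∀ h, h * z = z * h → h ∈ K ∨ z * h ∈ K := by
  have hab : a ≠ b := by grind
  have all : ∀ a' b' c' d' g', [a', b', c', d'].Nodup → L g' (swap a' b' * swap c' d') →
      g' * g' = 1 := fun a' b' c' d' g' hn' hg' => by
    obtain ⟨κ, hκ⟩ := Perm.exists_extending_pair (α := Fin 4) (f := [a, b, c, d].get)
      (g := [a', b', c', d'].get) (List.nodup_iff_injective_get.1 hn)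
      (List.nodup_iff_injective_get.1 hn')
    obtain ⟨k, μ, hk, hμ⟩ := C.exists_conj (κ := κ) (σ := swap a b * swap c d) (sign_swap hab) (by
      rw [conj_swap2, swap_apply_left, swap_apply_right, swap_comm b a,
        swap_apply_of_ne_of_ne (by grind) (by grind), swap_apply_of_ne_of_ne (by grind) (by grind)])
    have w := C.conj hk hg
    rw [hμ, conj_swap2, show κ a = a' from hκ 0, show κ b = b' from hκ 1, show κ c = c' from hκ 2,
      show κ d = d' from hκ 3] at w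
    have e' : k * g * k⁻¹ * (k * g * k⁻¹) = 1 := by rw [conj_mul, e]; simp
    rcases C.eq_or hg' w with rfl | rfl
    · exact e'
    · rw [mul_assoc, ← mul_assoc _ z, C.mem w, mul_assoc z, e', mul_one, C.inv.sq]
  have : ∀ i, ∃ x, i ≠ a ∧ i ≠ b → L x (cyc a b i) ∧ x ^ 3 = 1 := fun i => by
    by_cases hi : i ≠ a ∧ i ≠ b
    · exact (C.exists_cyc hab hi.1.symm hi.2.symm).imp fun _ h _ => h
    · exact ⟨1, fun h => absurd h hi⟩
  choose x hx using this
  let s : Finset α := Finset.univ.filter fun c => c ≠ a ∧ c ≠ b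
  have hs : ∀ i, i ∈ s ↔ i ≠ a ∧ i ≠ b := by simp [s]
  obtain ⟨h1, h2⟩ := card_closure_le s x (fun i hi => (hx i ((hs i).1 hi)).2) fun i hi j hj hij => by
    rw [hs] at hi hj
    have := C.mul (hx i hi).1 (hx j hj).1
    rw [cyc_mul_cyc hab hi.1.symm hi.2.symm hj.1.symm hj.2.symm hij] at this
    exact (pow_two _).trans (all _ _ _ _ _ (by grind) this)
  rw [card_index a b hab] at h2
  refine ⟨_, (closure_le _).2 ?_, h2, h1, fun h hh => ?_⟩
  · rintro _ ⟨i, hi, rfl⟩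
    exact mem_cent1.2 (C.mem (hx i ((hs i).1 hi)).1)
  obtain ⟨σ, hσ⟩ := C.tot hh
  have h3 : σ ∈ closure (cyc a b '' {c | c ≠ a ∧ c ≠ b}) :=
    (closure_cyc hab).symm ▸ mem_alternatingGroup.2 (C.even hσ)
  obtain ⟨k, hk, h4⟩ : ∃ k ∈ closure (x '' s), L k σ := by
    clear hσ
    induction h3 using closure_induction with
    | mem _ h => obtain ⟨i, hi, rfl⟩ := h
                 exact ⟨x i, subset_closure ⟨i, (hs i).2 hi, rfl⟩, (hx i hi).1⟩
    | one => exact ⟨1, one_mem _, C.one⟩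
    | mul _ _ _ _ h1 h2 =>
      obtain ⟨u, hu, h1⟩ := h1
      obtain ⟨v, hv, h2⟩ := h2
      exact ⟨u * v, mul_mem hu hv, C.mul h1 h2⟩
    | inv _ _ h1 => obtain ⟨u, hu, h1⟩ := h1
                    exact ⟨u⁻¹, inv_mem hu, C.linv h1⟩
  rcases C.eq_or hσ h4 with rfl | rfl
  · exact Or.inl hk
  · exact Or.inr (by rwa [Bs.sq_mul C.inv])

end Pre

theorem of_cover [Finite G] {z : G} (hz : orderOf z = 2) (h2 : 2 ≤ Fintype.card α)
    (h : IsNonsplitDoubleCover c[z] (alternatingGroup α)) : ∃ L : G → Perm α → Prop, Cov z L := by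
  obtain ⟨h1, ⟨e⟩, h3⟩ := h
  have iz := Bs.invol_iff.2 hz
  let π : c[z] →* Perm α := (alternatingGroup α).subtype.comp
    (e.toMonoidHom.comp (QuotientGroup.mk' _))
  have k1 : ∀ w, π w = 1 ↔ w ∈ center c[z] := fun w => by simp [π]
  have zc : (⟨z, mem_cent1.2 rfl⟩ : c[z]) ∈ center c[z] :=
    mem_center_iff.2 fun g => Subtype.ext (mem_cent1.1 g.2)
  have k2 : ∀ w ∈ center c[z], (w : G) = 1 ∨ w = z := fun w hw => by
    obtain ⟨y, -, hy⟩ := (Nat.card_eq_two_iff' (1 : center c[z])).1 h1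
    refine or_iff_not_imp_left.2 fun e => ?_
    have := (hy ⟨w, hw⟩ fun e' => e (congrArg (fun x : center c[z] => (x.1 : G)) e')).trans
      (hy ⟨_, zc⟩ fun e' => iz.ne (congrArg (fun x : center c[z] => (x.1 : G)) e')).symm
    exact congrArg (fun x : center c[z] => (x.1 : G)) this
  have C : Pre z fun g σ => ∃ h : g ∈ c[z], π ⟨g, h⟩ = σ :=
    ⟨iz, fun ⟨h, _⟩ => mem_cent1.1 h, fun h => ⟨_, mem_cent1.2 h, rfl⟩,
      fun ⟨_, a⟩ ⟨_, b⟩ => a.symm.trans b,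
      fun ⟨a, a'⟩ ⟨b, b'⟩ => ⟨mul_mem a b, by rw [← a', ← b', ← map_mul]; rfl⟩,
      ⟨_, (k1 _).2 zc⟩, fun ⟨a, a'⟩ => k2 _ ((k1 _).1 a'),
      fun ⟨a, a'⟩ => a' ▸ mem_alternatingGroup.1 (e _).2, fun {σ} hσ => by
        obtain ⟨w, hw⟩ := e.surjective ⟨σ, mem_alternatingGroup.2 hσ⟩
        obtain ⟨w, rfl⟩ := QuotientGroup.mk'_surjective _ w
        exact ⟨w, w.2, congrArg Subtype.val hw⟩⟩
  refine ⟨_, C, fun {g a b c d} hn hg => ?_⟩
  have := C.mul hg hg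
  rw [show swap a b * swap c d * (swap a b * swap c d) = 1 by
    obtain ⟨e1, e2, e3, e4, e5⟩ := dt_apply hn
    ext q
    by_cases hq : q ∈ [a, b, c, d]
    · simp only [List.mem_cons, List.not_mem_nil, or_false] at hq
      rcases hq with rfl | rfl | rfl | rfl <;> rw [mul_apply] <;> simp only [*, one_apply]
    · rw [mul_apply, e5 q hq, e5 q hq, one_apply]] at this
  refine (C.ker this).resolve_left fun e' => ?_
  obtain ⟨K, K1, K2, -, K3⟩ := C.split hn hg e'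
  have zK : z ∉ K := fun hz => by
    have : K = c[z] := le_antisymm K1 fun h hh => (K3 h (mem_cent1.1 hh)).elim id
      fun h => (mul_mem_cancel_left hz).1 h
    haveI i : Nontrivial α := Fintype.one_lt_card_iff_nontrivial.1 h2
    rw [this, card_eq_card_quotient_mul_card_subgroup (center c[z]), h1, Nat.card_congr e.toEquiv,
      mul_comm _ 2, two_mul_nat_card_alternatingGroup, Nat.card_perm, Nat.card_eq_fintype_card] at K2
    have := (Fintype.card α).factorial_pos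
    omega
  refine h3 (K.subgroupOf _) (isComplement'_of_disjoint_and_mul_eq_univ ?_ ?_)
  · refine disjoint_def.2 fun {w} h1 h2 => Subtype.ext ((k2 w h1).resolve_right fun e => zK (e ▸ h2))
  · refine Set.eq_univ_of_forall fun w => (K3 w (mem_cent1.1 w.2)).elim
      (fun h => ⟨1, one_mem _, w, h, one_mul _⟩) fun h => ⟨_, zc, ⟨z, mem_cent1.2 rfl⟩ * w, h, ?_⟩
    exact Subtype.ext (Bs.sq_mul iz _)

namespace Cov

variable {z g h y k : G} {L : G → Perm α → Prop} {σ τ : Perm α} {a b c d : α} (C : Cov z L)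
include C

theorem gconj (g : G) : Cov (g * z * g⁻¹) fun h (σ : Perm α) => L (g⁻¹ * h * g) σ where
  inv := Bs.iconj C.inv g
  mem := fun {h σ} hh => by
    have := C.mem hh
    calc h * (g * z * g⁻¹) = g * (g⁻¹ * h * g * z) * g⁻¹ := by group
      _ = _ := by rw [this]; group
  tot := fun {h} hh => C.tot (by
    calc g⁻¹ * h * g * z = g⁻¹ * (h * (g * z * g⁻¹)) * g := by group
      _ = _ := by rw [hh]; group)
  uniq := C.uniq
  mul := fun {h k σ τ} h1 h2 => by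
    have := C.mul h1 h2
    rwa [show g⁻¹ * h * g * (g⁻¹ * k * g) = g⁻¹ * (h * k) * g by group] at this
  z1 := by simpa [mul_assoc] using C.z1
  ker := fun {h} hh => (C.ker hh).imp (fun e => by
    calc h = g * (g⁻¹ * h * g) * g⁻¹ := by group
      _ = _ := by rw [e]; group) fun e => by rw [← e]; group
  even := C.even
  surj := fun h1 => let ⟨h, hh⟩ := C.surj h1; ⟨g * h * g⁻¹, by simpa [mul_assoc] using hh⟩
  sq := fun {h a b c d} hn hh => by
    rw [← C.sq hn hh]; group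

theorem pconj (κ : Perm α) : Cov z fun h (σ : Perm α) => L h (κ⁻¹ * σ * κ) where
  inv := C.inv
  mem := C.mem
  tot := fun hh => let ⟨σ, hσ⟩ := C.tot hh; ⟨κ * σ * κ⁻¹, by simpa [mul_assoc] using hσ⟩
  uniq := fun h1 h2 => by simpa using C.uniq h1 h2
  mul := fun {h k σ τ} h1 h2 => by
    have := C.mul h1 h2
    rwa [show κ⁻¹ * σ * κ * (κ⁻¹ * τ * κ) = κ⁻¹ * (σ * τ) * κ by group] at this
  z1 := by simpa using C.z1
  ker := fun hh => C.ker (by simpa using hh)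
  even := fun hh => by
    have := C.even hh
    rwa [Perm.sign_mul, Perm.sign_mul, sign_inv, mul_right_comm, Int.units_mul_self, one_mul] at this
  surj := fun h1 => C.surj (by
    rwa [Perm.sign_mul, Perm.sign_mul, sign_inv, mul_right_comm, Int.units_mul_self, one_mul])
  sq := fun {h a b c d} hn hh => by
    have := conj_swap2 κ⁻¹ a b c d
    rw [inv_inv] at this
    exact C.sq (by simpa using hn.map κ⁻¹.injective) (this ▸ hh)

theorem sq_one (hy : L y σ) (h2 : y * y = 1) : σ * σ = 1 := C.uniq (C.mul hy hy) (h2 ▸ C.one)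

theorem four (hy : L y σ) (h2 : y * y = 1) (h1 : σ ≠ 1) :
    ∃ a b c d, [a, σ a, b, σ b, c, σ c, d, σ d].Nodup := by
  have hs := C.sq_one hy h2
  have hv := C.even hy
  obtain ⟨a, ha⟩ : ∃ a, σ a ≠ a := by
    by_contra e
    exact h1 (Equiv.ext fun q => by_contra fun e' => e ⟨q, e'⟩)
  have n1 : [a, σ a].Nodup := by simpa using ha.symm
  obtain ⟨b, hb1, hb⟩ : ∃ b, b ∉ [a, σ a] ∧ σ b ≠ b := by
    by_contra e
    rw [eq_swap hs fun q hq => by_contra fun e' => e ⟨q, hq, e'⟩, sign_swap ha.symm] at hv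
    exact absurd hv (by decide)
  have n2 : [a, σ a, b, σ b].Nodup := nodup_add hs (by simp [app2 hs]) n1 hb1 hb
  obtain ⟨c, hc1, hc⟩ : ∃ c, c ∉ [a, σ a, b, σ b] ∧ σ c ≠ c := by
    by_contra e
    have := eq_swap2 hs n2 fun q hq => by_contra fun e' => e ⟨q, hq, e'⟩
    exact C.inv.ne ((C.sq n2 (this ▸ hy)).symm.trans h2)
  have n3 : [a, σ a, b, σ b, c, σ c].Nodup := nodup_add hs (by simp [app2 hs]) n2 hc1 hc
  obtain ⟨d, hd1, hd⟩ : ∃ d, d ∉ [a, σ a, b, σ b, c, σ c] ∧ σ d ≠ d := by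
    by_contra e
    rw [eq_swap3 hs n3 fun q hq => by_contra fun e' => e ⟨q, hq, e'⟩, Perm.sign_mul, Perm.sign_mul,
      sign_swap ha.symm, sign_swap hb.symm, sign_swap hc.symm] at hv
    exact absurd hv (by decide)
  exact ⟨a, b, c, d, nodup_add hs (by simp [app2 hs]) n3 hd1 hd⟩

theorem swapV (hy : L y σ) (hs : σ * σ = 1) (hn : [a, σ a, b, σ b].Nodup) :
    (∀ e, L e (swap a (σ a) * swap b (σ b)) → e * y = y * e) ∧
      ∀ g, L g (swap a b * swap (σ a) (σ b)) → g * y * g⁻¹ = z * y := by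
  obtain ⟨e1, e2, e3, e4, e5⟩ := dt_apply hn
  have key : ∀ e, L e (swap a (σ a) * swap b (σ b)) → ∃ τ, L (e⁻¹ * y) τ ∧ τ a = a ∧
      τ (σ a) = σ a ∧ τ b = b ∧ τ (σ b) = σ b := fun e he => by
    refine ⟨_, C.mul (C.linv he) hy, ?_, ?_, ?_, ?_⟩ <;>
      rw [mul_apply, inv_eq_iff_eq] <;> simp only [app2 hs, *]
  have k1 : ∀ e, L e (swap a (σ a) * swap b (σ b)) → e * y = y * e := fun e he => by
    obtain ⟨τ, h0, h1, h2, h3, h4⟩ := key e he
    have := C.comm_dt hn h0 he h1 h3 h4 h2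
    calc e * y = e * (e * (e⁻¹ * y)) := by group
      _ = _ := by rw [← this]; group
  refine ⟨k1, fun g hg => ?_⟩
  obtain ⟨e, he⟩ := C.surj (sign_dt hn)
  obtain ⟨τ, h0, h1, h2, h3, h4⟩ := key e he
  have n2 : [a, b, σ a, σ b].Nodup := hn.perm (by grind)
  have n3 : [a, σ b, b, σ a].Nodup := hn.perm (by grind)
  obtain ⟨f1, f2, f3, f4, f5⟩ := dt_apply n2
  have c1 := C.comm_dt n2 h0 hg h1 h2 h4 h3
  have s1 := C.sq hn he
  have s2 := C.sq n2 hg
  have s3 : g * e * (g * e) = z := C.sq n3 (by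
    rw [← dt_ext (τ := swap a b * swap (σ a) (σ b) * (swap a (σ a) * swap b (σ b))) n3
      (by rw [mul_apply, e1, f3]) (by rw [mul_apply, e4, f2]) (by rw [mul_apply, e3, f4])
      (by rw [mul_apply, e2, f1]) fun q hq => by
        rw [mul_apply, e5 q (by grind), f5 q (by grind)]]
    exact C.mul hg he)
  have e1 : g * e * g⁻¹ = z * e := by
    have : e * g * e = g := mul_left_cancel (a := g) (by rw [← s2] at s3; rw [← s3]; group)
    calc g * e * g⁻¹ = e⁻¹ * (e * g * e) * g⁻¹ := by group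
      _ = e * e * e * (e * e * (e * e))⁻¹ := by rw [this]; group
      _ = _ := by rw [s1, C.inv.sq]; simp
  calc g * y * g⁻¹ = g * e * g⁻¹ * (g * (e⁻¹ * y)) * g⁻¹ := by group
    _ = _ := by rw [← c1, e1]; group

theorem eq_one_of (hy : L y σ) (h2 : y * y = 1) {l : List α} (hl : Fintype.card α < 8 + l.length)
    (hn : l.Nodup) (hf : ∀ q ∈ l, σ q = q) : y = 1 ∨ y = z := by
  refine C.ker (by_contra fun e => ?_)
  obtain ⟨a, b, c, d, h⟩ := C.four hy h2 fun e' => e (e' ▸ hy)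
  have hs := C.sq_one hy h2
  have := (List.nodup_append.2 ⟨h, hn, fun x hx y hy e =>
    moved hs h x hx (hf x (e ▸ hy))⟩).length_le_card
  simp at this
  omega

section big

variable {h : G} (hy : L y σ) (h2 : y * y = 1) (hh : h * y * h⁻¹ = y) (hz : h * z * h⁻¹ = z * y)
include hy h2 hh hz

theorem K_conj (h1 : k * z = z * k) (h3 : k * y = y * k) :
    h * k * h⁻¹ * z = z * (h * k * h⁻¹) ∧ h * k * h⁻¹ * y = y * (h * k * h⁻¹) := by
  have e : z = h * (z * y) * h⁻¹ := by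
    calc z = z * y * y := by rw [mul_assoc, h2, mul_one]
      _ = h * z * h⁻¹ * (h * y * h⁻¹) := by rw [hz, hh]
      _ = _ := by group
  constructor
  · rw [e]
    calc _ = h * (k * z * y) * h⁻¹ := by group
      _ = _ := by rw [h1, mul_assoc z, h3]; group
  · rw [← hh]
    calc _ = h * (k * y) * h⁻¹ := by group
      _ = _ := by rw [h3]; group

omit C hy in
theorem inv_hyp : h⁻¹ * y * h⁻¹⁻¹ = y ∧ h⁻¹ * z * h⁻¹⁻¹ = z * y := by
  have e1 : h⁻¹ * y * h⁻¹⁻¹ = y := by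
    conv_lhs => rw [← hh]
    group
  refine ⟨e1, ?_⟩
  calc h⁻¹ * z * h⁻¹⁻¹ = h⁻¹ * (z * y * y) * h⁻¹⁻¹ := by rw [mul_assoc z, h2, mul_one]
    _ = h⁻¹ * (h * z * h⁻¹) * h * (h⁻¹ * y * h⁻¹⁻¹) := by rw [hz]; group
    _ = _ := by rw [e1]; group

theorem bigS (hn : [a, σ a, b, σ b].Nodup) : σ.support.card ≤ 8 := by
  by_contra h8
  have hs := C.sq_one hy h2
  obtain ⟨e, he⟩ := C.surj (sign_dt hn)
  have ey := (C.swapV hy hs hn).1 e he
  obtain ⟨i1, i2⟩ := inv_hyp h2 hh hz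
  obtain ⟨k1, k2⟩ := C.K_conj hy h2 hh hz (C.mem he) ey
  obtain ⟨φ, hφ⟩ := C.tot k1
  have f2 : φ * φ = σ := C.uniq (C.mul hφ hφ) (by
    rw [show h * e * h⁻¹ * (h * e * h⁻¹) = h * (e * e) * h⁻¹ by group, C.sq hn he, hz]
    exact C.zmul hy)
  obtain ⟨κ, κ3, κ1, κσ, n1, n2⟩ := noncomm hs f2 (not_le.1 h8)
  obtain ⟨k, hk, k3⟩ := C.exists_odd (by decide) κ1 κ3
  obtain ⟨m1, m2⟩ := C.K_conj hy h2 i1 i2 (C.mem hk) (C.comm_odd (by decide) hy hk k3 κσ).symm
  obtain ⟨μ, hμ⟩ := C.tot m1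
  have μσ : ∀ q, μ (σ q) = σ (μ q) := fun q => by
    rw [← mul_apply, C.comm_of hμ hy m2, mul_apply]
  have w := C.conj hμ he
  rw [conj_swap2, μσ, μσ] at w
  have cm : ∀ p q, Commute (swap p (σ p)) (swap q (σ q)) := swap_swap_comm hs
  have w1 := C.mul w he
  rw [(((cm _ _).mul_left (cm _ _)).mul_right ((cm _ _).mul_left (cm _ _))).eq] at w1
  have w2 := C.eq_or (C.mul he w) w1
  have u := C.conj hk hφ
  have a1 := C.mul hφ u
  have a2 := C.mul u hφ
  rw [show h * e * h⁻¹ * (k * (h * e * h⁻¹) * k⁻¹) =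
    h * (e * (h⁻¹ * k * h⁻¹⁻¹ * e * (h⁻¹ * k * h⁻¹⁻¹)⁻¹)) * h⁻¹ by group] at a1
  rcases w2 with w2 | w2 <;> rw [w2] at a1
  · exact n1 (C.uniq a1 (by convert a2 using 1; group))
  · refine n2 (C.uniq a1 ?_)
    convert C.mul (C.zmul hy) a2 using 1
    rw [← hz]; group

omit hh hz h2 in
theorem triv {u : G} {μ ν : Perm α} (h1 : σ ≠ 1) (hu : L u μ) (hk : L k ν) (e : k * y = y * k)
    (hf : ∀ q, σ q ≠ q → μ q = q) : k * u * k⁻¹ * u⁻¹ * (k * u * k⁻¹ * u⁻¹) ≠ z * y := fun e' => by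
  have w := C.mul (C.conj hk hu) (C.linv hu)
  have := C.uniq (C.mul w w) (e' ▸ C.zmul hy)
  have c := C.comm_of hk hy e
  have k1 : ∀ q, σ q ≠ q → (ν * μ * ν⁻¹ * μ⁻¹) q = q := fun q hq => by
    have : μ⁻¹ q = q := by rw [inv_eq_iff_eq, hf q hq]
    have i : ν (ν⁻¹ q) = q := by simp
    rw [mul_apply, this, mul_apply, mul_apply, hf, i]
    intro e
    apply hq
    have := congrArg ν e
    rwa [← mul_apply, c, mul_apply, i] at this
  refine h1 (Equiv.ext fun q => by_contra fun hq => hq ?_)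
  rw [← this, mul_apply, k1 q hq, k1 q hq, one_apply]

theorem bigF (h1 : σ ≠ 1) (hn : [a, b, c, d].Nodup) (ha : σ a = a) (hb : σ b = b) (hc : σ c = c)
    (hd : σ d = d) : False := by
  have hs := C.sq_one hy h2
  have s2 := app2 hs
  obtain ⟨i1, i2⟩ := inv_hyp h2 hh hz
  have d1 : a ≠ b ∧ a ≠ c ∧ b ≠ c ∧ a ≠ d ∧ b ≠ d ∧ c ≠ d := by grind
  obtain ⟨x, hx, x3⟩ := C.exists_cyc d1.1 d1.2.1 d1.2.2.1
  obtain ⟨k, hk⟩ := C.surj (sign_dt hn)
  have xy := C.comm_odd (by decide) hy hx x3 (comm_cyc ha hb hc)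
  have ky := C.comm_dt hn hy hk ha hc hd hb
  obtain ⟨e1, e2, e3, -, -⟩ := dt_apply hn
  have w := C.mul (C.conj hk hx) (C.linv hx)
  rw [conj_cyc, e1, e2, e3, ← cyc_swap d1.1 d1.2.1 d1.2.2.1, cyc_mul_cyc d1.1.symm d1.2.2.2.2.1
    d1.2.2.2.1 d1.2.2.1 d1.2.1 d1.2.2.2.2.2.symm] at w
  have wz := C.sq (hn.perm (by grind)) w
  obtain ⟨x1, x2⟩ := C.K_conj hy h2 hh hz (C.mem hx) xy.symm
  obtain ⟨k1, k2⟩ := C.K_conj hy h2 hh hz (C.mem hk) ky.symm
  obtain ⟨ξ, hξ⟩ := C.tot x1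
  obtain ⟨ν, hν⟩ := C.tot k1
  obtain ⟨p, hp, hp'⟩ : ∃ p, σ p ≠ p ∧ ξ p ≠ p := by
    by_contra e
    refine C.triv hy h1 hξ hν k2 (fun q hq => by_contra fun e' => e ⟨q, hq, e'⟩) ?_
    rw [← hz, ← wz]
    group
  have ξ3 : ∀ q, ξ (ξ (ξ q)) = q := fun q => by
    have := C.uniq (C.pow hξ 3) (by rw [conj_pow, x3, mul_one, mul_inv_cancel]; exact C.one)
    rw [← mul_apply, ← mul_apply, ← pow_three', this, one_apply]
  have ξσ : ∀ q, ξ (σ q) = σ (ξ q) := fun q => by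
    rw [← mul_apply, C.comm_of hξ hy x2, mul_apply]
  have ξi := ξ.injective
  have n1 : [ξ p, σ (ξ p), ξ (ξ p), σ (ξ (ξ p))].Nodup := by grind
  obtain ⟨e, he⟩ := C.surj (sign_dt n1)
  have w := C.linv he
  rw [mul_inv_rev, swap_inv, swap_inv] at w
  replace w := C.conj hξ w
  rw [conj_swap2, ξσ, ξσ, ξ3] at w
  have w' := C.mul he w
  rw [swap_swap_comm hs p, mul_assoc (swap _ _), swap_mul_self_mul] at w'
  have n3 : [ξ p, σ (ξ p), p, σ p].Nodup := by grind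
  have wz := C.sq n3 w'
  obtain ⟨m1, m2⟩ := C.K_conj hy h2 i1 i2 (C.mem he) ((C.swapV hy hs n1).1 e he)
  obtain ⟨μ, hμ⟩ := C.tot m1
  refine C.triv hy h1 hx hμ m2 (fun q hq => cyc_apply_of_ne ?_ ?_ ?_) ?_
  · rintro rfl; exact hq ha
  · rintro rfl; exact hq hb
  · rintro rfl; exact hq hc
  · rw [← i2, ← wz]
    group

end big

theorem main (hy : Invol y) (h1 : y * z = z * y) (h2 : y ≠ z) (h3 : IsConj z y) :
    ∃ σ a b c d h, L y σ ∧ [a, σ a, b, σ b, c, σ c, d, σ d].Nodup ∧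
      (∀ q, q ∉ [a, σ a, b, σ b, c, σ c, d, σ d] → σ q = q) ∧ Fintype.card α ≤ 11 ∧
      h * z * h⁻¹ = y ∧ h * y * h⁻¹ = z * y := by
  obtain ⟨σ, hσ⟩ := C.tot h1
  have ne : σ ≠ 1 := fun e => (C.ker (e ▸ hσ)).elim hy.ne h2
  have hs := C.sq_one hσ hy.sq
  obtain ⟨a, b, c, d, hn⟩ := C.four hσ hy.sq ne
  have n2 : [a, σ a, b, σ b].Nodup := hn.sublist (by grind)
  obtain ⟨g, hg⟩ := C.surj (sign_dt (a := a) (b := b) (c := σ a) (d := σ b) (n2.perm (by grind)))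
  have gy := (C.swapV hσ hs n2).2 g hg
  obtain ⟨u, rfl⟩ := isConj_iff.1 h3
  have D := C.gconj u
  obtain ⟨τ, hτ⟩ := D.tot h1.symm
  obtain ⟨a', b', c', d', hn'⟩ := D.four hτ C.inv.sq fun e =>
    (D.ker (e ▸ hτ)).elim C.inv.ne (Ne.symm h2)
  have n3 : [a', τ a', b', τ b'].Nodup := hn'.sublist (by grind)
  obtain ⟨h, hh⟩ := D.surj (sign_dt (a := a') (b := b') (c := τ a') (d := τ b') (n3.perm (by grind)))
  have hz := (D.swapV hτ (D.sq_one hτ C.inv.sq) n3).2 h hh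
  have hy' := mul_inv_eq_iff_eq_mul.2 (D.mem hh)
  rw [h1] at hz
  have h8 := C.bigS hσ hy.sq hy' hz n2
  have s2 := app2 hs
  have fx : ∀ q, q ∉ [a, σ a, b, σ b, c, σ c, d, σ d] → σ q = q := fun q hq => by
    by_contra e
    have := (List.toFinset_card_of_nodup (List.nodup_cons.2 ⟨hq, hn⟩)).symm.trans_le
      (Finset.card_le_card (t := σ.support) fun x hx => mem_support.2 (by
        rcases List.mem_cons.1 (List.mem_toFinset.1 hx) with rfl | hx
        exacts [e, moved hs hn x hx]))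
    simp only [List.length] at this
    omega
  refine ⟨σ, a, b, c, d, g * h, hσ, hn, fx, ?_, ?_, ?_⟩
  · by_contra e
    rw [← Finset.card_univ] at e
    obtain ⟨p, -, hp⟩ := ex_notin Finset.univ [a, σ a, b, σ b, c, σ c, d, σ d]
      (by simp only [List.length]; omega)
    obtain ⟨q, -, hq⟩ := ex_notin Finset.univ (p :: [a, σ a, b, σ b, c, σ c, d, σ d])
      (by simp only [List.length]; omega)
    obtain ⟨r, -, hr⟩ := ex_notin Finset.univ (q :: p :: [a, σ a, b, σ b, c, σ c, d, σ d])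
      (by simp only [List.length]; omega)
    obtain ⟨s, -, hs⟩ := ex_notin Finset.univ (r :: q :: p :: [a, σ a, b, σ b, c, σ c, d, σ d])
      (by simp only [List.length]; omega)
    rw [List.mem_cons, not_or] at hq hr hs
    rw [List.mem_cons, not_or] at hr hs
    rw [List.mem_cons, not_or] at hs
    exact C.bigF hσ hy.sq hy' hz ne (a := s) (b := r) (c := q) (d := p) (by grind)
      (fx s hs.2.2.2) (fx r hr.2.2) (fx q hq.2) (fx p hp)
  · calc g * h * z * (g * h)⁻¹ = g * (h * z * h⁻¹) * g⁻¹ := by group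
      _ = g * z * g⁻¹ * (g * (u * z * u⁻¹) * g⁻¹) := by rw [hz]; group
      _ = _ := by rw [gy, C.mem hg, mul_inv_cancel_right, ← mul_assoc, C.inv.sq, one_mul]
  · calc g * h * (u * z * u⁻¹) * (g * h)⁻¹ = g * (h * (u * z * u⁻¹) * h⁻¹) * g⁻¹ := by group
      _ = _ := by rw [hy', gy]

end Cov

end Cfsg.Agent.Lib.AnCov
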