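import Mathlib
import Cfsg.Agent.Lib.AutSylowC

/-!
Anisotropic quadratic maps over `F₂`, and actions on sections.
-/

set_option autoImplicit false

namespace Cfsg.Agent.Lib.AutSylow

open scoped commutatorElement
open Subgroup Cfsg.Agent.Lib.PCoreConj Cfsg.Agent.Lib.PCore Cfsg.Agent.Lib.PCoreResidual
  Cfsg.Agent.Lib.FTDefs

section quad

variable {V W : Type*} [CommGroup V] [CommGroup W]

/-- an anisotropic quadratic map of elementary abelian `2`-groups -/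
structure Quad (q : V → W) (b : V → V → W) : Prop where
  sqV : ∀ v : V, v * v = 1
  sqW : ∀ w : W, w * w = 1
  mul : ∀ u v, q (u * v) = q u * q v * b u v
  bil : ∀ u v w, b (u * v) w = b u w * b v w
  ani : ∀ v, q v = 1 → v = 1
  one : q 1 = 1

namespace Quad

variable {q : V → W} {b : V → V → W} (h : Quad q b) {k g g' : MulAut V} {c : V}
include h

theorem b_eq (u v : V) : b u v = q (u * v) * (q u * q v) := by
  rw [h.mul, mul_right_comm, h.sqW, one_mul]

theorem symm (u v : V) : b u v = b v u := by rw [h.b_eq, h.b_eq, mul_comm u, mul_comm (q u)]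

theorem self (u : V) : b u u = 1 := by rw [h.b_eq, h.sqV, h.sqW, h.one, one_mul]

theorem inv (hg : ∀ v, q (g v) = q v) (u v : V) : b (g u) (g v) = b u v := by
  rw [h.b_eq, h.b_eq, ← map_mul, hg, hg, hg]

theorem eq_of_mul {u v : V} (e : u * v = 1) : u = v := by
  rw [← mul_left_inj v, e, h.sqV]

theorem perp (hg : ∀ v, q (g v) = q v) (hc : g c = c) (v : V) : b (g v * v) c = 1 := by
  rw [h.bil]
  nth_rw 1 [← hc]
  rw [h.inv hg, h.sqW]

variable (hk : ∀ v, q (k v) = q v) (hs : ∀ w, ∃ v, q (k v * v) = w)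
include hk hs

theorem fix (hg : ∀ v, q (g v) = q v) (hgk : ∀ c, k c = c → k (g c) = g c) (hc : k c = c) :
    g c = c := by
  obtain ⟨v, hv⟩ := hs (q c)
  have e : k v * v = c := h.eq_of_mul (h.ani _ (by rw [h.mul, hv, h.sqW, h.perp hk hc, one_mul]))
  refine (h.eq_of_mul (h.ani _ ?_)).symm
  rw [h.mul, hg, h.sqW, one_mul]
  nth_rw 1 [← e]
  exact h.perp hk (hgk c hc) v

theorem fix' (h2 : k * k = 1) (hg : ∀ v, q (g v) = q v) (hgk : ∀ c, k c = c → k (g c) = g c)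
    (v : V) : k (g v * v) = g v * v := by
  generalize hw : g v * v = w
  have e : k (k w * w) = k w * w := by
    rw [map_mul, ← MulAut.mul_apply, h2, MulAut.one_apply, mul_comm]
  have e1 := h.perp hg (h.fix hk hs hg hgk e) v
  rw [hw, h.symm, h.bil, h.self, mul_one] at e1
  exact h.eq_of_mul (h.ani _ (by rw [h.mul, hk, h.sqW, e1, one_mul]))

theorem apply (h2 : k * k = 1) (hg : ∀ v, q (g v) = q v) (hgk : ∀ c, k c = c → k (g c) = g c)
    (hg' : ∀ v, q (g' v) = q v) (hgk' : ∀ c, k c = c → k (g' c) = g' c) (v : V) :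
    (g * g') v = g v * g' v * v := by
  have e := h.fix hk hs hg hgk (h.fix' hk hs h2 hg' hgk' v)
  rw [map_mul] at e
  rw [MulAut.mul_apply, ← mul_left_inj (g v), e, mul_assoc (g v), mul_comm (g v), mul_assoc _ (g v),
    h.sqV, mul_one]

omit hk hs in
theorem npc [Finite V] {Γ : Subgroup (MulAut V)} (hΓ : ∀ g ∈ Γ, ∀ v, q (g v) = q v)
    (hs : ∀ k ∈ Γ, k ≠ 1 → k * k = 1 → ∀ w, ∃ v, q (k v * v) = w) : NPC 2 Γ := by
  obtain ⟨P, hP⟩ := exists_isSylowIn 2 Γ
  refine npc_of_norm_le_cent Nat.prime_two hP ?_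
  by_cases h0 : P = ⊥
  · rw [h0, centralizer_bot']; exact le_top
  haveI := nil_of_isPGroup Nat.prime_two hP.isPGroup
  obtain ⟨z, z1, z2, z3⟩ := BurnsidePQ.exists_central h0
  obtain ⟨k, k1, k2⟩ := exists_prime_order_mem_zpowers z2
  have kP : k ∈ P := zpowers_le.2 z1 k1
  have k3 : orderOf k = 2 := eq_of_isPGroup_of_dvd Nat.prime_two hP.isPGroup k2 (P.orderOf_dvd_natCard kP)
  have k4 : k ≠ 1 := fun e => by rw [e, orderOf_one] at k3; omega
  have k5 : k * k = 1 := by rw [← sq, ← k3, pow_orderOf_eq_one]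
  have hk := hΓ k (hP.le kP)
  have hsk := hs k (hP.le kP) k4 k5
  have cm : ∀ {x y : MulAut V}, x * y = y * x → ∀ c, y c = c → y (x c) = x c := fun e c hc => by
    rw [← MulAut.mul_apply, ← e, MulAut.mul_apply, hc]
  have p1 : ∀ x ∈ P, x * k = k * x := fun x hx => mem_cent1.1 (cent1_le_of_mem_zpowers k1 (z3 hx))
  have p2 : ∀ x ∈ P, x * x = 1 := fun x hx => MulEquiv.ext fun v => by
    rw [h.apply hk hsk k5 (hΓ x (hP.le hx)) (cm (p1 x hx)) (hΓ x (hP.le hx)) (cm (p1 x hx)), h.sqV,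
      one_mul, MulAut.one_apply]
  intro g hg x hx
  have g1 : ∀ c, k c = c → k (g c) = g c := fun c hc => by
    have a1 : g⁻¹ * k * g ∈ P := by simpa using (mem_normalizer_iff.1 (inv_mem hg.2) k).1 kP
    have a2 := h.fix hk hsk (hΓ _ (hP.le a1)) (cm (p1 _ a1)) hc
    rw [MulAut.mul_apply, MulAut.mul_apply] at a2
    rw [← g.apply_symm_apply (k (g c))]
    exact congrArg g a2
  ext v
  rw [h.apply hk hsk k5 (hΓ x (hP.le hx)) (cm (p1 x hx)) (hΓ g hg.1) g1,
    h.apply hk hsk k5 (hΓ g hg.1) g1 (hΓ x (hP.le hx)) (cm (p1 x hx)), mul_comm (x v)]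

end Quad

end quad

variable {X : Type*} [Group X] {V A E D O W : Subgroup X} {x : X}

theorem solvMod_of_trans' [Finite X] (hFT : OddOrder) (hV : IsElementaryAbelian 2 V) (hA : A ≤ N[V])
    (hE : NormalIn E A) (ht : ∀ v ∈ V, v ≠ 1 → ∀ w ∈ V, w ≠ 1 → ∃ e ∈ E, e * v * e⁻¹ = w) :
    SolvMod A (E ⊔ C[V]) := by
  let H := V ⋊[MonoidHom.id (MulAut V)] MulAut V
  haveI : Finite H := Finite.of_equiv _ SemidirectProduct.equivProd.symm
  let ψ : A →* H := SemidirectProduct.inr.comp (conjAct hA)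
  let ι : V →* H := SemidirectProduct.inl
  have key : ∀ (a : A) (v : V), ψ a * ι v * (ψ a)⁻¹ = ι (conjAct hA a v) := fun a v => by
    have := (SemidirectProduct.inl_aut (φ := MonoidHom.id (MulAut V)) (conjAct hA a) v).symm
    rwa [map_inv] at this
  have hi : Function.Injective ι := SemidirectProduct.inl_injective
  have h1 : IsElementaryAbelian 2 ι.range := ⟨⟨⟨by
      rintro ⟨_, v, rfl⟩ ⟨_, w, rfl⟩
      exact Subtype.ext (by
        change ι v * ι w = ι w * ι v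
        rw [← map_mul, ← map_mul, hV.1.is_comm.comm])⟩⟩, by
    rintro _ ⟨v, rfl⟩
    rw [← map_pow, show v ^ 2 = 1 from Subtype.ext (hV.2 v v.2), map_one]⟩
  have h2 : pim ψ A ≤ N[ι.range] := le_normalizer_iff_conj_le.2 (by
    rintro _ ⟨a, -, rfl⟩
    rw [conj_le_iff]
    rintro _ ⟨v, rfl⟩
    exact ⟨_, (key a v).symm⟩)
  have h3 : pim ψ A ⊓ C[ι.range] = ⊥ := eq_bot_iff.2 (by
    rintro _ ⟨⟨a, -, rfl⟩, ha⟩
    have : conjAct hA a = 1 := MulEquiv.ext fun v => hi (by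
      rw [← key, ← ha _ ⟨v, rfl⟩, mul_inv_cancel_right, MulAut.one_apply])
    change SemidirectProduct.inr (conjAct hA a) = 1
    rw [this, map_one])
  refine (SolvMod.of_pim le_rfl hE.1 (solvMod_of_trans hFT h1 h2 h3 (hE.pim ψ) ?_)).trans
    (.of_le (sup_le_sup_left ?_ _))
  · rintro _ ⟨v, rfl⟩ hv _ ⟨w, rfl⟩ hw
    obtain ⟨e, he, h4⟩ := ht v v.2 (fun e => hv (by rw [show v = 1 from Subtype.ext e, map_one])) w w.2
      (fun e => hw (by rw [show w = 1 from Subtype.ext e, map_one]))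
    exact ⟨_, apply_mem_pim (hE.1 he) he, (key _ _).trans (congrArg ι (Subtype.ext h4))⟩
  · rintro _ ⟨a, ha, rfl⟩
    have : a ∈ (conjAct hA).ker := SemidirectProduct.inr_injective (ha.trans (map_one _).symm)
    rwa [ker_conjAct] at this

/-- the action of `W` on the section `D / O` -/
def secAct (h₁ : W ≤ N[D]) (h₂ : W ≤ N[O]) : W →* MulAut ↥(D /ₙ O) :=
  (D /ₙ O).normalizerMonoidHom.comp (((qmap O).comp (inclusion h₂)).codRestrict _
    fun w => apply_mem_norm_pim (h₂ w.2) (h₁ w.2))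

/-- the image of an element in the section `D / O` -/
def smk (h : D ≤ N[O]) : D →* ↥(D /ₙ O) :=
  ((qmap O).comp (inclusion h)).codRestrict _ fun x => apply_mem_pim (h x.2) x.2

theorem smk_surj (h : D ≤ N[O]) : Function.Surjective (smk h) := by
  rintro ⟨_, x, hx, rfl⟩
  exact ⟨⟨x, hx⟩, rfl⟩

theorem smk_eq_one (h : D ≤ N[O]) (x : D) : smk h x = 1 ↔ (x : X) ∈ O :=
  Subtype.ext_iff.trans (qmap_eq_one_iff (h x.2))

theorem smk_eq (h : D ≤ N[O]) (x y : D) : smk h x = smk h y ↔ (x : X) * (y : X)⁻¹ ∈ O := by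
  rw [← mul_inv_eq_one, ← map_inv, ← map_mul, smk_eq_one]; rfl

theorem secAct_smk (h₁ : W ≤ N[D]) (h₂ : W ≤ N[O]) (h : D ≤ N[O]) (w : W) (x : D) :
    secAct h₁ h₂ w (smk h x) = smk h (conjAct h₁ w x) :=
  Subtype.ext (by
    change qmap O ⟨w, h₂ w.2⟩ * qmap O ⟨x, h x.2⟩ * (qmap O ⟨w, h₂ w.2⟩)⁻¹ = qmap O _
    rw [← map_inv, ← map_mul, ← map_mul]; rfl)

theorem secAct_eq_one (h₁ : W ≤ N[D]) (h₂ : W ≤ N[O]) (h : D ≤ N[O]) (w : W) :
    secAct h₁ h₂ w = 1 ↔ ∀ x ∈ D, ⁅(w : X), x⁆ ∈ O := by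
  constructor
  · intro e x hx
    have := secAct_smk h₁ h₂ h w ⟨x, hx⟩
    rw [e, MulAut.one_apply, eq_comm, smk_eq] at this
    exact this
  · intro e
    ext v
    obtain ⟨x, rfl⟩ := smk_surj h v
    rw [secAct_smk, MulAut.one_apply, (smk_eq h _ x).2 (e x x.2)]

theorem comm_pker_le (h₁ : W ≤ N[D]) (h₂ : W ≤ N[O]) (h : D ≤ N[O]) :
    ⁅pker (secAct h₁ h₂), D⁆ ≤ O := commutator_le.2 fun w hw x hx => by
  obtain ⟨h3, h4⟩ := mem_pker.1 hw
  exact (secAct_eq_one h₁ h₂ h _).1 h4 x hx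

end Cfsg.Agent.Lib.AutSylow
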