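import Mathlib
import Cfsg.Agent.Lib.AutSylowD

/-!
Criteria on a Sylow `2`-subgroup `S` of a simple group `G` for `Out(G)` to be solvable.
-/

set_option autoImplicit false

namespace Cfsg.Agent.Lib.AutSylow

open scoped commutatorElement
open Subgroup Cfsg.Agent.Lib.PCoreConj Cfsg.Agent.Lib.PCore Cfsg.Agent.Lib.PCoreResidual
  Cfsg.Agent.Lib.FTDefs

theorem comm_of_sq {V : Type*} [Group V] (h : ∀ v : V, v * v = 1) (u v : V) : u * v = v * u := by
  rw [← inv_eq_of_mul_eq_one_right (h (u * v)), mul_inv_rev, inv_eq_of_mul_eq_one_right (h u),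
    inv_eq_of_mul_eq_one_right (h v)]

theorem quad_npc {V W : Type*} [Group V] [Group W] [Finite V] {q : V → W} {b : V → V → W}
    (sqV : ∀ v : V, v * v = 1) (sqW : ∀ w : W, w * w = 1)
    (mul : ∀ u v, q (u * v) = q u * q v * b u v) (bil : ∀ u v w, b (u * v) w = b u w * b v w)
    (ani : ∀ v, q v = 1 → v = 1) (one : q 1 = 1) {Γ : Subgroup (MulAut V)}
    (hΓ : ∀ g ∈ Γ, ∀ v, q (g v) = q v)
    (hs : ∀ k ∈ Γ, k ≠ 1 → k * k = 1 → ∀ w, ∃ v, q (k v * v) = w) : NPC 2 Γ := by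
  letI : CommGroup V := { (inferInstance : Group V) with mul_comm := comm_of_sq sqV }
  letI : CommGroup W := { (inferInstance : Group W) with mul_comm := comm_of_sq sqW }
  exact Quad.npc ⟨sqV, sqW, mul, bil, ani, one⟩ hΓ hs

variable {X : Type*} [Group X] [Finite X] {N S T O W K E D M : Subgroup X}

theorem solv_of_npc (hFT : OddOrder) (h : NPC 2 M) : Group.IsSolvable M := by
  obtain ⟨P, hP⟩ := exists_isSylowIn 2 M
  rw [← (h.sdp Nat.prime_two hP).sup]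
  exact solv_sup (hFT.solvable (Nat.coprime_two_right.1 (coprime_card_pPrimeCoreOf 2 M)))
    (solv_of_isPGroup Nat.prime_two hP.isPGroup) (hP.le.trans (NormalIn.pPrimeCoreOf 2 M).2)

theorem false_of_special (hFT : OddOrder) (hD : W ≤ N[D]) (hO : W ≤ N[O]) (hOD : O ≤ D)
    (hc : D ≤ C[O]) (h1 : ∀ x ∈ O, x ^ 2 = 1) (h2 : ∀ x ∈ D, x ^ 2 ∈ O)
    (h3 : ∀ x ∈ D, x ^ 2 = 1 → x ∈ O) (hK : NormalIn K W) (hp : ⁅K, K⁆ = K) (hKO : K ≤ C[O])
    (hE : E ≤ W) (ht : ∀ v ∈ O, v ≠ 1 → ∀ w ∈ O, w ≠ 1 → ∃ e ∈ E, e * v * e⁻¹ = w)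
    (hodd : ∀ e ∈ E, ∀ k ∈ K, ∃ j, Odd j ∧ ∀ x ∈ D, ⁅⁅e, k⁆ ^ j, x⁆ ∈ O) : ⁅K, D⁆ ≤ O := by
  have DO : D ≤ N[O] := hc.trans (centralizer_le_normalizer _)
  let π := smk DO
  let φ := secAct hD hO
  have hπ : Function.Surjective π := smk_surj DO
  let q : ↥(D /ₙ O) → O := fun v => ⟨((Function.surjInv hπ v : D) : X) ^ 2, h2 _ (Function.surjInv hπ v).2⟩
  have hq : ∀ x : D, (q (π x) : X) = (x : X) ^ 2 := fun x => by
    have e := (smk_eq DO _ x).1 (Function.surjInv_eq hπ (π x))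
    change ((Function.surjInv hπ (π x) : D) : X) ^ 2 = _
    generalize ((Function.surjInv hπ (π x) : D) : X) = y at e
    rw [← inv_mul_cancel_right y x, (show Commute (y * (x : X)⁻¹) x from hc x.2 _ e).mul_pow, h1 _ e,
      one_mul]
  have sqV : ∀ v : ↥(D /ₙ O), v * v = 1 := fun v => by
    obtain ⟨x, rfl⟩ := hπ v
    rw [← map_mul, smk_eq_one, ← sq]; exact h2 x x.2
  have cz : ∀ x ∈ D, ∀ y ∈ D, ⁅x, y⁆ ∈ O := fun x hx y hy =>
    (smk_eq_one DO ⁅(⟨x, hx⟩ : D), ⟨y, hy⟩⁆).1 (by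
      rw [map_commutatorElement, commutatorElement_eq_one_iff_mul_comm, comm_of_sq sqV])
  have sqO : ∀ w : O, w * w = 1 := fun w => Subtype.ext (by rw [← sq]; exact h1 w w.2)
  have hb : ∀ x y : D, ((q (π x * π y) * (q (π x) * q (π y)) : O) : X) = ⁅(x : X)⁻¹, (y : X)⁆ :=
    fun x y => by
      have e : ((x : X) * y) ^ 2 = ⁅(x : X)⁻¹, (y : X)⁆ * (x ^ 2 * y ^ 2) := by
        rw [← mul_assoc, hc (pow_mem x.2 2) _ (cz _ (inv_mem x.2) _ y.2), commutatorElement_def]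
        simp only [sq]; group
      have e2 := h1 _ (mul_mem (h2 x x.2) (h2 y y.2))
      rw [← map_mul, coe_mul, coe_mul, hq, hq, hq, coe_mul, e, mul_assoc, ← sq, e2, mul_one]
  have hw : ∀ (w : W) (v), (q (φ w v) : X) = w * q v * (w : X)⁻¹ := fun w v => by
    obtain ⟨x, rfl⟩ := hπ v
    rw [secAct_smk hD hO DO, hq, hq, conjAct_apply, conj_pow]
  have npc : NPC 2 (pim φ K) := quad_npc (q := q) (b := fun u v => q (u * v) * (q u * q v)) sqV sqO
    (fun u v => by rw [comm_of_sq sqO (q (u * v)), ← mul_assoc, sqO, one_mul])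
    (fun u v w => by
      obtain ⟨x, rfl⟩ := hπ u
      obtain ⟨y, rfl⟩ := hπ v
      obtain ⟨z, rfl⟩ := hπ w
      apply Subtype.ext
      rw [← map_mul π x y, hb, O.coe_mul, hb, hb, D.coe_mul, mul_inv_rev]
      calc _ = (y : X)⁻¹ * ⁅(x : X)⁻¹, (z : X)⁆ * y * ⁅(y : X)⁻¹, (z : X)⁆ := by
            simp only [commutatorElement_def]; group
        _ = _ := by
            rw [mul_assoc _ _ (y : X), hc y.2 _ (cz _ (inv_mem x.2) _ z.2), inv_mul_cancel_left])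
    (fun v e => by
      obtain ⟨x, rfl⟩ := hπ v
      exact (smk_eq_one DO x).2 (h3 x x.2 (by rw [← hq, e]; rfl)))
    (Subtype.ext (by rw [← map_one π, hq]; simp))
    (by
      rintro _ ⟨k, hk, rfl⟩ v
      exact Subtype.ext (by rw [hw, mul_inv_eq_iff_eq_mul]; exact (hKO hk _ (q v).2).symm))
    (by
      rintro _ ⟨k, hk, rfl⟩ k1 k2 w
      by_cases w1 : w = 1
      · exact ⟨1, Subtype.ext (by rw [w1, map_one, mul_one, ← map_one π, hq]; simp)⟩
      obtain ⟨v, hv⟩ : ∃ v, φ k v * v ≠ 1 := by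
        by_contra hh
        push Not at hh
        exact k1 (MulEquiv.ext fun v => by rw [← mul_left_inj v, hh, MulAut.one_apply, sqV])
      obtain ⟨e, he, e1⟩ := ht _ (q (φ k v * v)).2 (fun e => hv (by
        obtain ⟨x, hx⟩ := hπ (φ k v * v)
        rw [← hx] at e ⊢
        exact (smk_eq_one DO x).2 (h3 x x.2 (by rw [← hq, e])))) w w.2 fun e => w1 (Subtype.ext e)
      obtain ⟨j, j1, j2⟩ := hodd e he k hk
      let e' : W := ⟨e, hE he⟩
      have y1 : φ e' * φ k * (φ e')⁻¹ * φ k = φ ⁅e', k⁆ := by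
        rw [map_commutatorElement, commutatorElement_def, inv_eq_of_mul_eq_one_right k2]
      obtain ⟨_, ⟨i, rfl⟩, c2⟩ := ZStar.exists_conj_of_odd (t := φ e' * φ k * (φ e')⁻¹) (s := φ k)
        (by rw [conj_pow, sq, k2]; simp) (by rw [sq, k2]) (by
          rw [y1]
          exact j1.of_dvd_nat (orderOf_dvd_of_pow_eq_one (by
            rw [← map_pow]; exact (secAct_eq_one hD hO DO _).2 j2)))
      simp only [y1, ← map_zpow] at c2
      have y2 : ((⁅e', k⁆ ^ i : W) : X) ∈ K := zpow_mem (hK.comm_le' le_rfl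
        (commutator_mem_commutator e'.2 hk)) i
      generalize ⁅e', k⁆ ^ i = y at c2 y2
      have c3 : φ k * φ (y⁻¹ * e') = φ (y⁻¹ * e') * φ k := by
        rw [map_mul, map_inv]
        calc _ = (φ y)⁻¹ * (φ y * φ k * (φ y)⁻¹) * φ e' := by group
          _ = _ := by rw [c2]; group
      refine ⟨φ (y⁻¹ * e') v, Subtype.ext ?_⟩
      rw [← MulAut.mul_apply, c3, MulAut.mul_apply, ← map_mul, hw]
      calc _ = (y : X)⁻¹ * ((e * (q (φ k v * v) : X) * e⁻¹) * y) := by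
            simp only [coe_mul, coe_inv, e']; group
        _ = _ := by rw [e1, hKO y2 _ w.2, inv_mul_cancel_left])
  have := (SolvMod.of_pim hK.1 bot_le (.of_solv (solv_of_npc hFT npc) _)).le hp
  rw [bot_sup_eq] at this
  exact (commutator_mono this le_rfl).trans (comm_pker_le hD hO DO)

theorem le_cent_of_trans (hFT : OddOrder) (hT : IsPGroup 2 T) (hO : ∀ x, x ∈ O ↔ x ∈ T ∧ x ^ 2 = 1)
    (hTO : T ≤ C[O]) (hW : W ≤ N[T]) (hTW : T ≤ W) (hK : NormalIn K W) (hp : ⁅K, K⁆ = K)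
    (hKO : K ≤ C[O]) (hE : E ≤ W)
    (ht : ∀ v ∈ O, v ≠ 1 → ∀ w ∈ O, w ≠ 1 → ∃ e ∈ E, e * v * e⁻¹ = w)
    (hodd : ∀ e ∈ E, ∀ k ∈ K, ∃ j, Odd j ∧ ⁅e, k⁆ ^ j ∈ T) : K ≤ C[T] := by
  by_contra hh
  obtain ⟨D, ⟨hD, hWD, hKD⟩, hm⟩ := (wellFounded_lt (α := Subgroup X)).has_min
    {D | D ≤ T ∧ W ≤ N[D] ∧ ¬ K ≤ C[D]} ⟨T, le_rfl, hW, hh⟩
  have hZ : ∀ D' < D, W ≤ N[D'] → D' ≤ D ⊓ C[K] := fun D' h1 h2 => le_inf h1.le (le_cent_comm.1 (by
    by_contra e
    exact hm D' ⟨h1.le.trans hD, h2, e⟩ h1))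
  have pD := hT.to_le hD
  have h1 : ⁅D, K⁆ = D := by
    by_contra e
    have h2 := hZ _ (lt_of_le_of_ne (commutator_le_left_of_le_normalizer (hK.1.trans hWD)) e)
      (le_normalizer_commutator hWD hK.2)
    have res := FStarAct.pResidualOf_eq_of_perfect 2 hp
    have := PCoreMod.pResidualOf_le_centralizer_of_commutator (K := K) pD
      (by rw [res]; exact hK.1.trans hWD) (by rw [res]; exact le_cent_comm.1 (h2.trans inf_le_right))
    exact hKD (res ▸ this)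
  have ZW : W ≤ N[D ⊓ C[K]] := le_normalizer_inf hWD (le_normalizer_centralizer hK.2)
  generalize hZe : D ⊓ C[K] = Z at hZ ZW
  have ZD : Z ≤ D := hZe ▸ inf_le_left
  have ZK : Z ≤ C[K] := hZe ▸ inf_le_right
  have h3 : Z ≤ C[D] := by
    rw [← commutator_eq_bot_iff_le_centralizer', ← h1, ← le_bot_iff]
    refine three_subgroups le_normalizer_of_normal le_normalizer_of_normal le_normalizer_of_normal ?_ ?_
    · rw [commutator_eq_bot_iff_le_centralizer'.2 ZK, commutator_bot_left]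
    · exact (commutator_eq_bot_iff_le_centralizer'.2 (le_cent_comm.1
        ((commutator_le_left_of_le_normalizer ((hD.trans hTW).trans ZW)).trans ZK))).le
  have D0 : D ≠ ⊥ := fun e => hKD (by rw [e, centralizer_bot']; exact le_top)
  have h4 : ⁅D, T⁆ ≤ Z := hZ _ (commutator_lt hT pD (hTW.trans hWD) D0) (le_normalizer_commutator hWD hW)
  have h5 : ∀ x ∈ D, x ^ 2 ∈ Z := fun x hx => hZ _ (phiOf_lt D0)
    (hWD.trans (normalizer_le_normalizer_phiOf D)) (pow_mem_phiOf Nat.prime_two pD hx)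
  have cz : ∀ x ∈ D, ∀ y ∈ D, ⁅x, y⁆ ∈ Z := fun x hx y hy => h4 (commutator_mem_commutator hx (hD hy))
  have p4 : ∀ x ∈ D, ∀ y ∈ D, (x * y) ^ 4 = x ^ 4 * y ^ 4 := fun x hx y hy => by
    have c1 := h3 (cz _ (inv_mem hx) _ hy)
    have e : (x * y) ^ 2 = ⁅x⁻¹, y⁆ * (x ^ 2 * y ^ 2) := by
      rw [← mul_assoc, ← c1 _ (pow_mem hx 2), commutatorElement_def]
      simp only [sq]; group
    have e2 : ⁅x⁻¹, y⁆ ^ 2 = 1 := by
      calc _ = x⁻¹ * (x * ⁅x⁻¹, y⁆) * ⁅x⁻¹, y⁆ := by rw [sq]; group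
        _ = (x ^ 2)⁻¹ * (y * x ^ 2) * y⁻¹ := by
          rw [c1 x hx]; simp only [commutatorElement_def, sq]; group
        _ = 1 := by rw [h3 (h5 x hx) y hy]; group
    rw [show 4 = 2 * 2 from rfl, pow_mul, pow_mul, pow_mul, e,
      (show Commute ⁅x⁻¹, y⁆ (x ^ 2 * y ^ 2) from
        (c1 _ (mul_mem (pow_mem hx 2) (pow_mem hy 2))).symm).mul_pow, e2, one_mul,
      (show Commute (x ^ 2) (y ^ 2) from h3 (h5 y hy) _ (pow_mem hx 2)).mul_pow]
  have h6 : ∀ x ∈ D, x ^ 4 = 1 := by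
    let D4 : Subgroup X :=
      { carrier := {x | x ∈ D ∧ x ^ 4 = 1}
        mul_mem' := fun {x y} hx hy => ⟨mul_mem hx.1 hy.1, by rw [p4 x hx.1 y hy.1, hx.2, hy.2, mul_one]⟩
        one_mem' := ⟨one_mem _, one_pow _⟩
        inv_mem' := fun {x} hx => ⟨inv_mem hx.1, by rw [inv_pow, hx.2, inv_one]⟩ }
    have : ⁅D, K⁆ ≤ D4 := commutator_le.2 fun x hx k hk => ⟨h1 ▸ commutator_mem_commutator hx hk, by
      have a1 := (mem_normalizer_iff.1 (hWD (hK.1 hk)) _).1 (inv_mem hx)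
      have a2 : (x⁻¹) ^ 4 ∈ Z := by
        rw [show 4 = 2 * 2 from rfl, pow_mul]; exact pow_mem (h5 _ (inv_mem hx)) 2
      rw [commutatorElement_def, mul_assoc x, mul_assoc x, p4 x hx _ a1, conj_pow, ZK a2 k hk,
        mul_inv_cancel_right, inv_pow, mul_inv_cancel]⟩
    exact fun x hx => (this (h1.symm ▸ hx)).2
  have h6' : ∀ x ∈ D, x ^ 2 ∈ O := fun x hx =>
    (hO _).2 ⟨hD (pow_mem hx 2), by rw [← pow_mul]; exact h6 x hx⟩
  have h7 : O ≤ D := fun w hw => by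
    by_cases w1 : w = 1
    · exact w1 ▸ one_mem D
    obtain ⟨z, z1, z2⟩ := exists_mem_prime_order D0
    have z3 := eq_of_isPGroup_of_dvd Nat.prime_two pD z2 (D.orderOf_dvd_natCard z1)
    obtain ⟨e, he, rfl⟩ := ht z ((hO z).2 ⟨hD z1, z3 ▸ pow_orderOf_eq_one z⟩)
      (fun e => by rw [e, orderOf_one] at z3; omega) w hw w1
    exact (mem_normalizer_iff.1 (hWD (hE he)) _).1 z1
  have OZ : O ≤ Z := hZe ▸ le_inf h7 (le_cent_comm.1 hKO)
  have h8 : Z ≤ O := fun z hz => by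
    by_contra z1
    refine hKD (le_cent_comm.1 (le_trans (fun x hx => ?_) ZK))
    by_cases x1 : x ^ 2 = 1
    · exact OZ ((hO x).2 ⟨hD hx, x1⟩)
    obtain ⟨e, he, e1⟩ := ht _ (h6' z (ZD hz)) (fun e => z1 ((hO z).2 ⟨hD (ZD hz), e⟩)) _ (h6' x hx) x1
    have a1 := (mem_normalizer_iff.1 (ZW (hE he)) _).1 hz
    have a2 : x * (e * z * e⁻¹)⁻¹ ∈ O := (hO _).2 ⟨hD (mul_mem hx (inv_mem (ZD a1))), by
      rw [(show Commute x (e * z * e⁻¹)⁻¹ from h3 (inv_mem a1) x hx).mul_pow, inv_pow, conj_pow, e1,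
        mul_inv_cancel]⟩
    simpa only [inv_mul_cancel_right] using mul_mem (OZ a2) a1
  have WO : W ≤ N[O] := le_antisymm h8 OZ ▸ ZW
  have := false_of_special hFT hWD WO h7 (hD.trans hTO) (fun x hx => ((hO x).1 hx).2) h6'
    (fun x hx e => (hO x).2 ⟨hD hx, e⟩) hK hp hKO hE ht fun e he k hk => by
      obtain ⟨j, j1, j2⟩ := hodd e he k hk
      exact ⟨j, j1, fun x hx => h8 (h4 (commutator_comm T D ▸ commutator_mem_commutator j2 hx))⟩
  rw [commutator_comm, h1] at this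
  exact hKD (hKO.trans (centralizer_anti this))

theorem isPGroup_zpowers {x : X} {k : ℕ} (h : x ^ 2 ^ k = 1) : IsPGroup 2 (zpowers x) :=
  isPGroup_of_card_dvd Nat.prime_two (n := k) (Nat.card_zpowers x ▸ orderOf_dvd_of_pow_eq_one h)

theorem mem_of_norm (hT : IsSylowIn 2 T M) {x : X} {k : ℕ} (hx : x ∈ M) (hn : x ∈ N[T])
    (h : x ^ 2 ^ k = 1) : x ∈ T :=
  hT.le_of_le_normalizer (zpowers_le.2 hx) (isPGroup_zpowers h) (zpowers_le.2 hn) (mem_zpowers x)

theorem Setup.of_omega (h : Setup N S) (hFT : OddOrder)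
    (h1 : ∀ s ∈ S, ∀ t ∈ S, s ^ 2 = 1 → t ^ 2 = 1 → s * t = t * s)
    (h2 : ∀ s ∈ S, ∀ t ∈ S, s ≠ 1 → t ≠ 1 → s ^ 2 = 1 → t ^ 2 = 1 → ∃ g ∈ N, g * s * g⁻¹ = t) :
    SolvMod ⊤ N := by
  have hN := h.normal
  have hS := h.syl
  obtain ⟨O, hO⟩ : ∃ O : Subgroup X, ∀ x, x ∈ O ↔ x ∈ S ∧ x ^ 2 = 1 :=
    ⟨{ carrier := {x | x ∈ S ∧ x ^ 2 = 1}
       mul_mem' := fun {x y} hx hy => ⟨mul_mem hx.1 hy.1, by
         rw [(show Commute x y from h1 x hx.1 y hy.1 hx.2 hy.2).mul_pow, hx.2, hy.2, mul_one]⟩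
       one_mem' := ⟨one_mem _, one_pow _⟩
       inv_mem' := fun {x} hx => ⟨inv_mem hx.1, by rw [inv_pow, hx.2, inv_one]⟩ }, fun _ => Iff.rfl⟩
  have OS : O ≤ S := fun x hx => ((hO x).1 hx).1
  have OO : O ≤ C[O] := fun x hx y hy => h1 y (OS hy) x (OS hx) ((hO y).1 hy).2 ((hO x).1 hx).2
  have wc : ∀ g, O ^ᶜ g ≤ S → g ∈ N[O] := fun g hg => mem_normalizer_of_conj_le (conj_le_iff.2
    fun x hx => (hO _).2 ⟨hg (conj_mem_conj g hx), by rw [conj_pow, ((hO x).1 hx).2]; simp⟩)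
  have SO : N[S] ≤ N[O] := fun g hg => wc g (conj_le_of_mem_normalizer OS hg)
  have pO := hS.isPGroup.to_le OS
  have tr : ∀ v ∈ O, v ≠ 1 → ∀ w ∈ O, w ≠ 1 → ∃ e ∈ N ⊓ N[O], e * v * e⁻¹ = w := fun v hv v1 w hw w1 => by
    obtain ⟨g, hg, e⟩ := h2 v (OS hv) w (OS hw) v1 w1 ((hO v).1 hv).2 ((hO w).1 hw).2
    obtain ⟨U, hU, hOU⟩ := exists_isSylowIn_ge (le_inf (OS.trans hS.le) (OO.trans (cent_le_cent1 hw))) pO
    obtain ⟨c, hc, h3⟩ := hU.exists_conj_le (Q := O ^ᶜ g) (le_inf (conj_le_of_mem (OS.trans hS.le) hg) (by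
      rw [← e, ← conj_cent1]; exact conj_mono g (OO.trans (cent_le_cent1 hv)))) (isPGroup_conj pO g)
    obtain ⟨d, -, h4⟩ := hS.exists_conj_le (hU.le.trans inf_le_left) hU.isPGroup
    have a1 := wc d ((conj_mono d hOU).trans h4)
    have a2 := wc (d * (c * g)) (by rw [← conj_conj, ← conj_conj]; exact (conj_mono d h3).trans h4)
    refine ⟨c * g, mem_inf.2 ⟨mul_mem hc.1 hg, by simpa using mul_mem (inv_mem a1) a2⟩, ?_⟩
    calc _ = c * (g * v * g⁻¹) * c⁻¹ := by group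
      _ = w := by rw [e, mem_cent1.1 hc.2, mul_inv_cancel_right]
  have s1 := solvMod_of_trans' hFT ⟨comm_iff_le_cent.2 OO, fun x hx => ((hO x).1 hx).2⟩ le_rfl
    ⟨inf_le_right, le_normalizer_inf le_normalizer_of_normal le_normalizer⟩ tr
  have CO : C[O] ≤ N[O] := centralizer_le_normalizer _
  have nM : N[O] ≤ N[N ⊓ C[O]] :=
    le_normalizer_inf le_normalizer_of_normal (normalizer_le_normalizer_centralizer O)
  have hT := (hS.of_le (le_inf hS.le (le_normalizer.trans SO)) inf_le_left).inf_normal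
    (inf_le_inf_left N CO) (inf_le_right.trans nM)
  have ST : S ≤ N[S ⊓ (N ⊓ C[O])] := le_normalizer_inf le_normalizer ((le_normalizer.trans SO).trans nM)
  have OT : O ≤ S ⊓ (N ⊓ C[O]) := le_inf OS (le_inf (OS.trans hS.le) OO)
  have TS : S ⊓ (N ⊓ C[O]) ≤ S := inf_le_left
  generalize S ⊓ (N ⊓ C[O]) = T at hT ST OT TS
  have s2 := h.solv_cent' hFT TS ST fun x hx hc ⟨k, hk⟩ =>
    mem_of_norm hT (mem_inf.2 ⟨hx, centralizer_anti OT hc⟩) (centralizer_le_normalizer _ hc) hk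
  have s3 : SolvMod (C[O] ⊓ N[T]) C[T] := .of_perfect fun K hK hn hp => by
    have hKW : NormalIn K (N[O] ⊓ N[T]) := ⟨hK.trans (inf_le_inf_right _ CO), le_trans (le_normalizer_inf
      (inf_le_left.trans (normalizer_le_normalizer_centralizer O)) (inf_le_right.trans le_normalizer)) hn⟩
    refine le_cent_of_trans hFT hT.isPGroup (fun x => ⟨fun hx => ⟨OT hx, ((hO x).1 hx).2⟩,
      fun hx => (hO x).2 ⟨TS hx.1, hx.2⟩⟩) (hT.le.trans inf_le_right) inf_le_right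
      (le_inf (TS.trans (le_normalizer.trans SO)) le_normalizer) hKW hp (hK.trans inf_le_left)
      (E := N ⊓ (N[O] ⊓ N[T])) inf_le_right (fun v hv v1 w hw w1 => ?_) fun e he k hk => ?_
    · obtain ⟨e, he, e1⟩ := tr v hv v1 w hw w1
      obtain ⟨n, hn, x, hx, rfl⟩ := hT.frattini (nM he.2)
      refine ⟨x, mem_inf.2 ⟨by simpa using mul_mem (inv_mem (mem_inf.1 hn).1) (mem_inf.1 he).1,
        mem_inf.2 ⟨by simpa using mul_mem (inv_mem (CO hn.2)) (mem_inf.1 he).2, hx⟩⟩, ?_⟩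
      calc _ = n⁻¹ * ((n * x * v * (n * x)⁻¹) * n) := by group
        _ = w := by rw [e1, hn.2 w hw, inv_mul_cancel_left]
    · have a1 := hK (hKW.comm_le' le_rfl (commutator_mem_commutator he.2 hk))
      have a2 : ⁅e, k⁆ ∈ N := by
        simpa only [commutatorElement_def, mul_assoc] using
          mul_mem (mem_inf.1 he).1 (hN.conj_mem _ (inv_mem (mem_inf.1 he).1) k)
      obtain ⟨a, j, j1, j2⟩ := Nat.exists_eq_two_pow_mul_odd (orderOf_pos ⁅e, k⁆).ne'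
      exact ⟨j, j1, mem_of_norm hT (k := a) (pow_mem (mem_inf.2 ⟨a2, a1.1⟩) j) (pow_mem a1.2 j)
        (by rw [← pow_mul, mul_comm, ← j2, pow_orderOf_eq_one])⟩
  have s4 := (s3.trans (.of_solv s2 (N ⊔ ⊥))).sup
  rw [sup_bot_eq] at s4
  refine (SolvMod.of_le ?_).trans ((s1.trans (.of_le (sup_le_sup_right inf_le_left _))).sup.trans
    ((SolvMod.of_le (sup_le le_sup_left ?_)).trans s4))
  · rw [← hS.frattini_top]; exact sup_le_sup_left SO _
  · exact (hT.frattini_sup inf_le_right (CO.trans nM)).ge.trans (sup_le_sup_right inf_le_left _)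

theorem mem_cent_of_phi (hS : IsPGroup 2 S) {x : X} (ho : (orderOf x).Coprime 2)
    (hx : x ∈ pker (secAct (le_refl N[S]) (normalizer_le_normalizer_phiOf S))) : x ∈ C[S] :=
  le_cent_of_comm_le_phiOf (coprime_of_isPGroup_left Nat.prime_two hS (Nat.card_zpowers x ▸ ho))
    (by
      rw [commutator_comm]
      exact (commutator_mono (zpowers_le.2 hx) le_rfl).trans (comm_pker_le _ _ (NormalIn.phiOf S).2))
    (mem_zpowers x)

theorem solvMod_of_phi (hS : IsPGroup 2 S)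
    (h : Group.IsSolvable (secAct (le_refl N[S]) (normalizer_le_normalizer_phiOf S)).range) :
    SolvMod N[S] C[S] := .of_perfect fun K hK _ hp => by
  have := ((SolvMod.of_le hK).trans (.of_hom _ h)).le hp
  rw [← FStarAct.pResidualOf_eq_of_perfect 2 hp, pResidualOf_eq_closure, closure_le]
  exact fun x hx => mem_cent_of_phi hS hx.2 (this hx.1)

theorem card_closure_dvd {V : Type*} [Group V] (h : ∀ v : V, v * v = 1) (l : List V) :
    Nat.card (closure {x | x ∈ l}) ∣ 2 ^ l.length := by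
  induction l with
  | nil => simp
  | cons a l ih =>
    have e : closure {x | x ∈ a :: l} = zpowers a ⊔ closure {x | x ∈ l} := by
      rw [zpowers_eq_closure, ← Subgroup.closure_union]; congr 1; ext; simp
    rw [e, List.length_cons, pow_succ']
    exact (card_sup_dvd (le_normalizer_of_le_centralizer fun x _ y _ => comm_of_sq h y x)).trans
      (mul_dvd_mul (Nat.card_zpowers a ▸ orderOf_dvd_of_pow_eq_one (by rw [sq, h])) ih)

theorem card_quo_phi_dvd (hS : IsPGroup 2 S) {Y : Type*} [Group Y] (f : Y →* S)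
    (hf : Function.Surjective f) (l : List Y) (hl : closure {x | x ∈ l} = ⊤) :
    Nat.card (S /ₙ phiOf S) ∣ 2 ^ l.length := by
  have := card_closure_dvd (V := ↥(S /ₙ phiOf S)) (fun v => Subtype.ext (by
    rw [← sq]; exact (elem_quo_phiOf Nat.prime_two hS).2 v v.2))
    (l.map ((smk (NormalIn.phiOf S).2).comp f))
  rwa [show {x | x ∈ l.map ((smk (NormalIn.phiOf S).2).comp f)} =
      ((smk (NormalIn.phiOf S).2).comp f) '' {x | x ∈ l} by ext; simp, ← MonoidHom.map_closure, hl,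
    map_top_of_surjective ((smk (NormalIn.phiOf S).2).comp f) ((smk_surj _).comp hf), card_top, List.length_map] at this

theorem solv_of_dvd_168 {F : Subgroup X} (hM : Nat.card M ∣ 168) (hF : NormalIn F M) (h0 : F ≠ ⊥)
    (h2 : ¬ 2 ∣ Nat.card F) (hs : Group.IsSolvable F) : Group.IsSolvable M := by
  refine solv_of_quo hF.2 ?_ hs
  obtain ⟨r, hr, h1⟩ := exists_prime_dvd_card h0
  have h3 := (mul_dvd_mul_left _ h1).trans (card_quo_mul hF ▸ hM)
  have h4 : r ∣ 2 ^ 3 * 3 * 7 := (dvd_mul_left _ _).trans h3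
  simp only [hr.dvd_mul] at h4
  rcases h4 with (h4 | h4) | h4
  · exact absurd ((Nat.prime_dvd_prime_iff_eq hr Nat.prime_two).1 (hr.dvd_of_dvd_pow h4) ▸ h1) h2
  · obtain rfl := (Nat.prime_dvd_prime_iff_eq hr Nat.prime_three).1 h4
    exact BurnsidePQ.isSolvable_of_card_dvd (p := 2) (q := 7) (a := 3) (b := 1) Nat.prime_two
      (by norm_num) (Nat.dvd_of_mul_dvd_mul_right (by norm_num) h3)
  · obtain rfl := (Nat.prime_dvd_prime_iff_eq hr (by norm_num)).1 h4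
    exact BurnsidePQ.isSolvable_of_card_dvd (p := 2) (q := 3) (a := 3) (b := 1) Nat.prime_two
      Nat.prime_three (Nat.dvd_of_mul_dvd_mul_right (by norm_num) h3)

theorem Setup.of_four (h : Setup N S) (hFT : OddOrder) (hc : Nat.card (S /ₙ phiOf S) ≤ 4) :
    SolvMod ⊤ N :=
  haveI := GL2Solv.solvable_mulAut_of_card_le_four hc
  h.of_norm hFT (solvMod_of_phi h.syl.isPGroup inferInstance)

theorem Setup.of_eight (h : Setup N S) (hFT : OddOrder) (hc : Nat.card (S /ₙ phiOf S) ∣ 2 ^ 3)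
    {g : X} (g1 : g ∈ N ⊓ N[S]) (g2 : Odd (orderOf g)) (g3 : g ∉ C[S]) : SolvMod ⊤ N := by
  haveI := h.normal
  have hS := h.syl
  obtain ⟨n, hn, e⟩ := (Nat.dvd_prime_pow Nat.prime_two).1 hc
  rcases hn.lt_or_eq with hn | rfl
  · exact h.of_four hFT (e ▸ Nat.pow_le_pow_right (by norm_num) (show n ≤ 2 by omega))
  refine h.of_norm hFT (solvMod_of_phi hS.isPGroup ?_)
  have h1 := sylow_pim Nat.prime_two (hS.of_le (le_inf hS.le le_normalizer) inf_le_left) inf_le_right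
    (secAct (le_refl N[S]) (normalizer_le_normalizer_phiOf S))
  have h2 := h1.eq_bot_iff.1 (pim_eq_bot_of_le fun x hx => mem_pker.2 ⟨le_normalizer hx,
    (secAct_eq_one _ _ (NormalIn.phiOf S).2 _).2 fun y hy =>
      der_le_phiOf Nat.prime_two hS.isPGroup (commutator_mem_commutator hx hy)⟩)
  rw [← pim_dom]
  refine solv_of_dvd_168 ((card_subgroup_dvd_card _).trans ?_) (NormalIn.pim
    ⟨inf_le_right, le_normalizer_inf le_normalizer_of_normal le_normalizer⟩ _) (fun e => g3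
      (mem_cent_of_phi hS.isPGroup (Nat.coprime_two_right.2 g2) ((pim_eq_bot_iff inf_le_right).1 e g1)))
    h2 (hFT.solvable (Nat.two_dvd_ne_zero.1 h2 |> Nat.odd_iff.2))
  simpa [Fin.prod_univ_three] using card_mulAut_dvd (elem_quo_phiOf Nat.prime_two hS.isPGroup) e

end Cfsg.Agent.Lib.AutSylow
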