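import Cfsg.Agent.Lib.DCE4
import Cfsg.Agent.Lib.PermModel

/-! Backtrack searches in a permutation group with a stabiliser chain. -/

set_option autoImplicit false

namespace Cfsg.Agent.Lib.BT

open Cfsg.Agent.Lib.PermNet Cfsg.Agent.Lib.Words Cfsg.Agent.Lib.PermGroup Cfsg.Agent.Lib.DCE
  Cfsg.Agent.Lib.PermModel

/-- A base point, with the points of its orbit and inverse coset representatives. -/
structure Lv where
  b : ℕ
  T : List (ℕ × List ℕ)

/-- A word `u` in the conjugate pairs, its two values, and the position of a base point. -/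
structure Cn where
  j : ℕ
  u : List ℕ
  xw : List ℕ
  yw : List ℕ

/-- The conditions on the image of a base point. -/
structure Tst where
  fo : List Cn
  ps : List Cn
  ns : List Cn

/-- Certificates: solutions and symmetries, keyed by the image of the base point. -/
inductive CT where
  | nil : CT
  | leaf (q : ℕ) (u : List ℕ) (rest : CT) : CT
  | node (q : ℕ) (ks : List (List ℕ)) (cert : List (ℕ × ℕ)) (m0 : ℕ) (kids rest : CT) : CT

noncomputable def bnot (a : Bool) : Bool := bif' a false true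

noncomputable def bitB (m p : ℕ) : Bool :=
  Nat.beq (Nat.land (Nat.shiftRight m p) (nat_lit 1)) (nat_lit 1)

section defs
variable (wb mask : ℕ) (tt : TT)

noncomputable def ap1i (w : List ℕ) (p : ℕ) : ℕ :=
  List.rec (motive := fun _ => ℕ) p (fun l _ ih => force ih fun q =>
    Nat.land (Nat.shiftRight (tt.get (Nat.xor l (nat_lit 1))) (Nat.mul wb q)) mask) w

noncomputable def apF (ip : List (List ℕ)) : ℕ → ℕ :=
  List.rec (motive := fun _ => ℕ → ℕ) (fun p => p)
    (fun w _ ih p => force (ap1 wb mask tt w p) ih) ip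

noncomputable def apB (ip : List (List ℕ)) (p : ℕ) : ℕ :=
  List.rec (motive := fun _ => ℕ) p (fun w _ ih => force ih (ap1i wb mask tt w)) ip

/-- The letter `nv` stands for the unknown. -/
noncomputable def apE (nv : ℕ) (ip : List (List ℕ)) (u : List ℕ) : ℕ → ℕ :=
  List.rec (motive := fun _ => ℕ → ℕ) (fun p => p)
    (fun l _ ih p => force (@Bool.rec (fun _ => ℕ)
      (Nat.land (Nat.shiftRight (tt.get l) (Nat.mul wb p)) mask)
      (@Bool.rec (fun _ => ℕ) (apF wb mask tt ip p) (apB wb mask tt ip p)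
        (Nat.beq (Nat.land l (nat_lit 1)) (nat_lit 0)))
      (Nat.beq (Nat.shiftRight l (nat_lit 1)) nv)) ih) u

noncomputable def fixE (nv : ℕ) (ip : List (List ℕ)) (B u : List ℕ) : Bool :=
  allL (fun b => Nat.beq (apE wb mask tt nv ip u b) b) B

noncomputable def lvB (okA : ℕ → Bool) (bs : List ℕ) (b : ℕ) (T : List (ℕ × List ℕ)) : ℕ → Bool :=
  List.rec (motive := fun _ => ℕ → Bool) (fun _ => true)
    (fun e _ ih m => band (allL okA e.2) (band (apW wb mask tt e.2 bs (eqL bs))
      (band (Nat.beq (ap1 wb mask tt e.2 b) e.1) (band (bnot (bitB m e.1))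
        (forceB (Nat.lor m (Nat.shiftLeft (nat_lit 1) e.1)) ih))))) T

noncomputable def chB (N : ℕ) (okA : ℕ → Bool) (ch : List Lv) : List ℕ → Bool :=
  List.rec (motive := fun _ => List ℕ → Bool) (fun _ => true)
    (fun l _ ih bs => band (Nat.blt l.b N) (band (lvB wb mask tt okA bs l.b l.T (nat_lit 0))
      (ih (l.b :: bs)))) ch

noncomputable def cnB (xs ys : List (List ℕ)) (bs : List ℕ) (e : Cn) : Bool :=
  band (eqL (subst xs e.u) e.xw) (band (eqL (subst ys e.u) e.yw) (Nat.blt e.j bs.length))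

noncomputable def tstB (xs ys : List (List ℕ)) (bs : List ℕ) (b : ℕ) (t : Tst) : Bool :=
  band (allL (fun e => band (cnB xs ys bs e) (Nat.beq (ap1 wb mask tt e.xw (getD 0 bs e.j)) b)) t.fo)
    (band (allL (fun e => band (cnB xs ys (b :: bs) e)
      (Nat.beq (ap1 wb mask tt e.xw (getD 0 (b :: bs) e.j)) b)) t.ps)
    (allL (fun e => band (cnB xs ys (b :: bs) e)
      (bnot (Nat.beq (ap1 wb mask tt e.xw (getD 0 (b :: bs) e.j)) b))) t.ns))

noncomputable def hdT (ts : List Tst) : Tst :=
  List.rec (motive := fun _ => Tst) ⟨[], [], []⟩ (fun t _ _ => t) ts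

noncomputable def tlT (ts : List Tst) : List Tst :=
  List.rec (motive := fun _ => List Tst) [] (fun _ r _ => r) ts

noncomputable def statB (xs ys : List (List ℕ)) (ch : List Lv) : List Tst → List ℕ → Bool :=
  List.rec (motive := fun _ => List Tst → List ℕ → Bool) (fun _ _ => true)
    (fun l _ ih ts bs => band (tstB wb mask tt xs ys bs l.b (hdT ts)) (ih (tlT ts) (l.b :: bs))) ch

noncomputable def passB (t : Tst) (imgs : List ℕ) (q : ℕ) : Bool :=
  band (allL (fun e => Nat.beq (ap1 wb mask tt e.yw (getD 0 (q :: imgs) e.j)) q) t.ps)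
    (allL (fun e => bnot (Nat.beq (ap1 wb mask tt e.yw (getD 0 (q :: imgs) e.j)) q)) t.ns)

noncomputable def target (N : ℕ) (t : Tst) (ip : List (List ℕ)) (imgs : List ℕ) : ℕ :=
  List.rec (motive := fun _ => ℕ) N
    (fun e _ _ => apB wb mask tt ip (ap1 wb mask tt e.yw (getD 0 imgs e.j))) t.fo

noncomputable def bfsM (N : ℕ) (ks : List (List ℕ)) (cert : List (ℕ × ℕ)) :
    ℕ → (ℕ → Bool) → Bool :=
  List.rec (motive := fun _ => ℕ → (ℕ → Bool) → Bool) (fun m k => k m)
    (fun e _ ih m k => band (Nat.blt e.1 N) (band (bitB m e.1)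
      (forceB (ap1 wb mask tt (getW ks e.2) e.1) fun q =>
        forceB (Nat.lor m (Nat.shiftLeft (nat_lit 1) q)) fun m' => ih m' k))) cert

noncomputable def pick (q : ℕ) (ct : CT) (k : CT → CT → Bool) : Bool :=
  CT.rec (motive := fun _ => Bool) (k .nil .nil)
    (fun q' u r _ => bif' (Nat.beq q q') (k (.leaf q' u r) r) (k .nil (.leaf q' u r)))
    (fun q' ks c m kids r _ _ => bif' (Nat.beq q q') (k (.node q' ks c m kids r) r)
      (k .nil (.node q' ks c m kids r))) ct

noncomputable def nodeK (ct : CT) (k : List (List ℕ) → List (ℕ × ℕ) → ℕ → CT → Bool) : Bool :=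
  CT.rec (motive := fun _ => Bool) (k [] [] (nat_lit 0) .nil) (fun _ _ _ _ => false)
    (fun _ ks c m kids _ _ _ => k ks c m kids) ct

variable (N nv : ℕ) (B : List ℕ) (eqs neqs : List (List ℕ)) (okK : ℕ → Bool)
  (okU : List ℕ → Bool) (mk : List ℕ → List ℕ)

noncomputable def leafB (ip : List (List ℕ)) (ct : CT) : Bool :=
  bif' (band (allL (fixE wb mask tt nv ip B) eqs)
      (allL (fun u => bnot (fixE wb mask tt nv ip B u)) neqs))
    (CT.rec (motive := fun _ => Bool) false
      (fun _ u _ _ => band (okU u)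
        (allL (fun b => Nat.beq (apF wb mask tt ip b) (ap1i wb mask tt (mk u) b)) B))
      (fun _ _ _ _ _ _ _ _ => false) ct) true

noncomputable def loop (t : Tst) (ip : List (List ℕ)) (imgs : List ℕ) (m0 m p : ℕ)
    (sub : List (List ℕ) → List ℕ → CT → Bool) (T : List (ℕ × List ℕ)) : CT → Bool :=
  List.rec (motive := fun _ => CT → Bool) (fun _ => true)
    (fun e _ ih kids => bif' (band (Nat.blt p N) (bnot (Nat.beq e.1 p))) (ih kids)
      (forceB (apF wb mask tt ip e.1) fun q =>
        bif' (band (passB wb mask tt t imgs q) (bif' (bitB m q) (bitB m0 q) true))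
          (pick q kids fun c r => band (sub (e.2 :: ip) (q :: imgs) c) (ih r)) (ih kids))) T

/-- The search. -/
noncomputable def go (ch : List Lv) : List Tst → List (List ℕ) → List ℕ → CT → Bool :=
  List.rec (motive := fun _ => List Tst → List (List ℕ) → List ℕ → CT → Bool)
    (fun _ ip _ ct => leafB wb mask tt nv B eqs neqs okU mk ip ct)
    (fun l _ ih ts ip imgs ct => nodeK ct fun ks cert m0 kids =>
      band (allL (fun w => band (allL okK w) (apW wb mask tt w imgs (eqL imgs))) ks)
        (bfsM wb mask tt N ks cert m0 fun m =>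
          forceB (target wb mask tt N (hdT ts) ip imgs) fun p =>
            loop wb mask tt N (hdT ts) ip imgs m0 m p (ih (tlT ts)) l.T kids)) ch

end defs

theorem bnot_true {a : Bool} (h : bnot a = true) : a = false := by
  cases a
  · rfl
  · exact Bool.noConfusion h

theorem bitB_eq (m p : ℕ) : bitB m p = m.testBit p := by
  unfold bitB
  rw [bit_eq]
  cases m.testBit p <;> rfl

theorem allL_of {α : Type} {p : α → Bool} {l : List α} (h : ∀ a ∈ l, p a = true) :
    allL p l = true := by
  induction l with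
  | nil => rfl
  | cons a l ih =>
    change (band (p a) (allL p l)) = true
    rw [h a List.mem_cons_self]
    exact ih fun b hb => h b (List.mem_cons_of_mem _ hb)

theorem eqL_refl (u : List ℕ) : eqL u u = true := by
  induction u with
  | nil => rfl
  | cons a u ih =>
    change (band (Nat.beq a a) (eqL u u)) = true
    rw [Nat.beq_refl]; exact ih

theorem getD_map (g : ℕ → ℕ) (l : List ℕ) {j : ℕ} (hj : j < l.length) :
    getD 0 (l.map g) j = g (getD 0 l j) ∧ getD 0 l j ∈ l := by
  induction l generalizing j with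
  | nil => simp at hj
  | cons a l ih =>
    cases j with
    | zero => exact ⟨rfl, List.mem_cons_self⟩
    | succ j =>
      have := ih (j := j) (by simpa using hj)
      exact ⟨this.1, List.mem_cons_of_mem _ this.2⟩

section sound
variable {W : Type*} [Group W] {π : W →* Equiv.Perm ℕ} {N wb mask : ℕ} {tt : TT} {f : ℕ → W}

theorem ap1i_eq (h : Good π N wb mask tt f) (w : List ℕ) {p : ℕ} (hp : p < N) :
    ap1i wb mask tt w p = π (wval f w) p := by
  induction w with
  | nil => simp [ap1i]
  | cons l w ih =>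
    change lk wb mask (tt.get (Nat.xor l (nat_lit 1))) (ap1i wb mask tt w p) = _
    rw [ih, (h _ _ (h.lt' w hp)).1, lval_xor, wval_cons, map_mul, map_inv, inv_inv,
      Equiv.Perm.mul_apply]

theorem apF_eq (h : Good π N wb mask tt f) (ip : List (List ℕ)) {p : ℕ} (hp : p < N) :
    apF wb mask tt ip p = (π (wval f ip.flatten))⁻¹ p := by
  induction ip generalizing p with
  | nil => simp [apF]
  | cons w ip ih =>
    change apF wb mask tt ip (ap1 wb mask tt w p) = _
    rw [ap1_eq h w hp, ih (h.lt w hp), List.flatten_cons, wval_append, map_mul, mul_inv_rev,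
      Equiv.Perm.mul_apply]

theorem apB_eq (h : Good π N wb mask tt f) (ip : List (List ℕ)) {p : ℕ} (hp : p < N) :
    apB wb mask tt ip p = π (wval f ip.flatten) p := by
  induction ip with
  | nil => simp [apB]
  | cons w ip ih =>
    change ap1i wb mask tt w (apB wb mask tt ip p) = _
    rw [ih, ap1i_eq h w (h.lt' _ hp), List.flatten_cons, wval_append, map_mul,
      Equiv.Perm.mul_apply]

theorem apE_eq (h : Good π N wb mask tt f) (nv : ℕ) (ip : List (List ℕ)) {c : W}
    (hc : π c = (π (wval f ip.flatten))⁻¹) (u : List ℕ) {p : ℕ} (hp : p < N) :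
    apE wb mask tt nv ip u p = (π (wval (Function.update f nv c) u))⁻¹ p := by
  induction u generalizing p with
  | nil => simp [apE]
  | cons l u ih =>
    have key : ∀ q, q = (π (lval (Function.update f nv c) l))⁻¹ p → q < N →
        apE wb mask tt nv ip u q = (π (wval (Function.update f nv c) (l :: u)))⁻¹ p :=
      fun q e hq => by rw [ih hq, wval_cons, map_mul, mul_inv_rev, Equiv.Perm.mul_apply, e]
    change apE wb mask tt nv ip u (@Bool.rec (fun _ => ℕ) (lk wb mask (tt.get l) p)
      (@Bool.rec (fun _ => ℕ) (apF wb mask tt ip p) (apB wb mask tt ip p)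
        (Nat.beq (Nat.land l (nat_lit 1)) (nat_lit 0)))
      (Nat.beq (Nat.shiftRight l (nat_lit 1)) nv)) = _
    have e1 : Nat.shiftRight l (nat_lit 1) = l / 2 := Nat.shiftRight_one l
    have e2 : Nat.land l (nat_lit 1) = l % 2 := Nat.and_one_is_mod l
    rw [e1, e2]
    cases h1 : Nat.beq (l / 2) nv
    · have h1 : l / 2 ≠ nv := Nat.ne_of_beq_eq_false h1
      have e : lval (Function.update f nv c) l = lval f l := by
        unfold lval; rw [Function.update_of_ne h1]
      exact key _ (by rw [e]; exact (h l p hp).1) (by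
        change lk wb mask (tt.get l) p < N
        rw [(h l p hp).1]; exact (h l p hp).2)
    · have h1 := beq_eq h1
      cases h2 : Nat.beq (l % 2) (nat_lit 0)
      · have h2 : l % 2 ≠ 0 := Nat.ne_of_beq_eq_false h2
        refine key _ ?_ (by
          change apF wb mask tt ip p < N
          rw [apF_eq h ip hp]; exact h.lt _ hp)
        change apF wb mask tt ip p = _
        rw [apF_eq h ip hp, lval, if_neg h2, h1, Function.update_self, map_inv, inv_inv, hc]
      · have h2 : l % 2 = 0 := beq_eq h2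
        refine key _ ?_ (by
          change apB wb mask tt ip p < N
          rw [apB_eq h ip hp]; exact h.lt' _ hp)
        change apB wb mask tt ip p = _
        rw [apB_eq h ip hp, lval, if_pos h2, h1, Function.update_self, hc, inv_inv]

/-- A stabiliser chain of `A` below the points `bs`. -/
def ChainP (π : W →* Equiv.Perm ℕ) (f : ℕ → W) (N : ℕ) (A : Subgroup W) : List Lv → List ℕ → Prop
  | [], bs => ∀ g ∈ A, (∀ b ∈ bs, π g b = b) → π g = 1
  | l :: ls, bs => l.b < N ∧ (∀ g ∈ A, (∀ b ∈ bs, π g b = b) → ∃ e ∈ l.T, π g l.b = e.1) ∧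
      (∀ e ∈ l.T, wval f e.2 ∈ A ∧ (∀ b ∈ bs, (π (wval f e.2))⁻¹ b = b) ∧
        (π (wval f e.2))⁻¹ l.b = e.1) ∧ ChainP π f N A ls (l.b :: bs)

theorem fix_of_apW (h : Good π N wb mask tt f) {w bs : List ℕ} (hbs : ∀ b ∈ bs, b < N)
    (hw : apW wb mask tt w bs (eqL bs) = true) : ∀ b ∈ bs, (π (wval f w))⁻¹ b = b := by
  rw [apW_eq h w bs hbs] at hw
  have := eqL_eq hw
  intro b hb
  exact (List.map_inj_left.1 ((List.map_id bs).trans this) b hb).symm

theorem lvB_sound (h : Good π N wb mask tt f) {A : Subgroup W} {okA : ℕ → Bool}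
    (hA : ∀ l, okA l = true → f (l / 2) ∈ A) {bs : List ℕ} (hbs : ∀ b ∈ bs, b < N) {b : ℕ}
    (hb : b < N) (T : List (ℕ × List ℕ)) (m : ℕ) (hl : lvB wb mask tt okA bs b T m = true) :
    (∀ e ∈ T, (wval f e.2 ∈ A ∧ (∀ b ∈ bs, (π (wval f e.2))⁻¹ b = b) ∧
      (π (wval f e.2))⁻¹ b = e.1) ∧ m.testBit e.1 = false) ∧ (T.map Prod.fst).Nodup := by
  induction T generalizing m with
  | nil => simp
  | cons e T ih =>
    obtain ⟨h1, hl⟩ := band_eq hl
    obtain ⟨h2, hl⟩ := band_eq hl
    obtain ⟨h3, hl⟩ := band_eq hl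
    obtain ⟨h4, hl⟩ := band_eq hl
    obtain ⟨i1, i2⟩ := ih _ hl
    have ho : ∀ p, (Nat.lor m (Nat.shiftLeft (nat_lit 1) e.1)).testBit p =
        (m.testBit p || decide (p = e.1)) := fun p => by
      change (m ||| pt _).testBit p = _
      rw [Nat.testBit_or, testBit_pt]
    refine ⟨fun x hx => ?_, ?_⟩
    · rcases List.mem_cons.1 hx with rfl | hx
      · exact ⟨⟨wval_mem fun l hl => hA l (allL_all h1 l hl), fix_of_apW h hbs h2,
          by rw [← ap1_eq h _ hb]; exact beq_eq h3⟩, by rw [← bitB_eq]; exact bnot_true h4⟩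
      · have := (i1 x hx).2
        rw [ho, Bool.or_eq_false_iff] at this
        exact ⟨(i1 x hx).1, this.1⟩
    · rw [List.map_cons, List.nodup_cons]
      refine ⟨fun hm => ?_, i2⟩
      obtain ⟨x, hx, e1⟩ := List.mem_map.1 hm
      have := (i1 x hx).2
      rw [ho, e1] at this
      simp at this

theorem chB_sound (h : Good π N wb mask tt f) {A : Subgroup W} [Finite (A.map π)] {okA : ℕ → Bool}
    (hA : ∀ l, okA l = true → f (l / 2) ∈ A) (ch : List Lv) (bs : List ℕ) (hbs : ∀ b ∈ bs, b < N)
    (hc : chB wb mask tt N okA ch bs = true) :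
    (ch.map fun l => l.T.length).prod ≤ Nat.card (fixer (A.map π) bs) ∧
    (Nat.card (fixer (A.map π) bs) ≤ (ch.map fun l => l.T.length).prod → ChainP π f N A ch bs) := by
  induction ch generalizing bs with
  | nil =>
    refine ⟨one_le_card_fixer bs, fun hle g hg hb => ?_⟩
    have := finite_fixer (A := A.map π) bs
    exact congrArg Subtype.val ((Finite.card_le_one_iff_subsingleton.1 hle).elim
      (⟨π g, ⟨g, hg, rfl⟩, hb⟩ : fixer (A.map π) bs) 1)
  | cons l ch ih =>
    obtain ⟨h1, hc⟩ := band_eq hc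
    obtain ⟨h2, hc⟩ := band_eq hc
    have h1 := blt_lt h1
    obtain ⟨i1, i2⟩ := ih (l.b :: bs) (by simpa using ⟨h1, hbs⟩) hc
    obtain ⟨j1, j2⟩ := lvB_sound h hA hbs h1 l.T _ h2
    have := finite_fixer (A := A.map π) bs
    have hsub : ((l.T.map Prod.fst).toFinset : Set ℕ) ⊆ MulAction.orbit (fixer (A.map π) bs) l.b := by
      intro p hp
      obtain ⟨e, he, rfl⟩ := List.mem_map.1 (List.mem_toFinset.1 hp)
      obtain ⟨a1, a2, a3⟩ := (j1 e he).1
      exact ⟨⟨(π (wval f e.2))⁻¹, inv_mem ⟨_, a1, rfl⟩, a2⟩, a3⟩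
    have hfin : (MulAction.orbit (fixer (A.map π) bs) l.b).Finite := Set.finite_range _
    have hn : ((l.T.map Prod.fst).toFinset : Set ℕ).ncard = l.T.length := by
      rw [Set.ncard_coe_finset, List.toFinset_card_of_nodup j2, List.length_map]
    have hle := Set.ncard_le_ncard hsub hfin
    rw [hn] at hle
    rw [List.map_cons, List.prod_cons, card_fixer bs l.b]
    refine ⟨Nat.mul_le_mul hle i1, fun hh => ?_⟩
    have hp := one_le_card_fixer (A := A.map π) (l.b :: bs)
    have ho : 0 < (MulAction.orbit (fixer (A.map π) bs) l.b).ncard :=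
      (Set.ncard_pos hfin).2 ⟨_, MulAction.mem_orbit_self _⟩
    have e1 : (MulAction.orbit (fixer (A.map π) bs) l.b).ncard ≤ l.T.length :=
      Nat.le_of_mul_le_mul_right (hh.trans (Nat.mul_le_mul_left _ i1)) hp
    have e2 := Nat.le_of_mul_le_mul_left (hh.trans (Nat.mul_le_mul_right _ hle)) ho
    refine ⟨h1, fun g hg hb => ?_, fun e he => (j1 e he).1, i2 e2⟩
    have := Set.eq_of_subset_of_ncard_le hsub (hn ▸ e1) hfin
    have hm : π g l.b ∈ MulAction.orbit (fixer (A.map π) bs) l.b := ⟨⟨π g, ⟨g, hg, rfl⟩, hb⟩, rfl⟩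
    rw [← this] at hm
    obtain ⟨e, he, e3⟩ := List.mem_map.1 (List.mem_toFinset.1 hm)
    exact ⟨e, he, e3.symm⟩

theorem conj_subst {c : W} {xs ys : List (List ℕ)}
    (h : ∀ i, c * wval f (xs.getD i []) = wval f (ys.getD i []) * c) (u : List ℕ) :
    c * wval f (subst xs u) = wval f (subst ys u) * c := by
  rw [wval_subst, wval_subst]
  induction u with
  | nil => simp
  | cons l u ih =>
    rw [wval_cons, wval_cons, ← mul_assoc, mul_assoc _ _ c, ← ih, ← mul_assoc]
    congr 1
    unfold lval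
    split_ifs
    · exact h _
    · rw [eq_inv_mul_iff_mul_eq, ← mul_assoc, ← h]; simp

theorem cnB_sound (h : Good π N wb mask tt f) {c : W} {xs ys : List (List ℕ)}
    (hc : ∀ i, π c * π (wval f (xs.getD i [])) = π (wval f (ys.getD i [])) * π c)
    (hlt : ∀ p < N, π c p < N) {bs : List ℕ} (hbs : ∀ b ∈ bs, b < N) {e : Cn}
    (he : cnB xs ys bs e = true) :
    ap1 wb mask tt e.yw (getD 0 (bs.map (π c)) e.j) = π c (ap1 wb mask tt e.xw (getD 0 bs e.j)) := by
  obtain ⟨h1, he⟩ := band_eq he
  obtain ⟨h2, h3⟩ := band_eq he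
  obtain ⟨a1, a2⟩ := getD_map (π c) bs (blt_lt h3)
  have := conj_subst (f := fun i => π (f i)) (c := π c) (xs := xs) (ys := ys)
    (by simpa only [map_wval] using hc) e.u
  rw [eqL_eq h1, eqL_eq h2, ← map_wval, ← map_wval] at this
  rw [a1, ap1_eq h _ (hlt _ (hbs _ a2)), ap1_eq h _ (hbs _ a2), ← Equiv.Perm.mul_apply,
    ← Equiv.Perm.mul_apply, show (π (wval f e.yw))⁻¹ * π c = π c * (π (wval f e.xw))⁻¹ by
      rw [inv_mul_eq_iff_eq_mul, ← mul_assoc, ← this]; simp]

theorem bfsM_sound (h : Good π N wb mask tt f) {K : Subgroup W} {ks : List (List ℕ)}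
    (hks : ∀ w ∈ ks, wval f w ∈ K) {m0 : ℕ} (cert : List (ℕ × ℕ)) (m : ℕ) (k : ℕ → Bool)
    (hm : ∀ p, m.testBit p = true → ∃ g ∈ K, m0.testBit (π g p) = true)
    (hb : bfsM wb mask tt N ks cert m k = true) :
    ∃ m', (∀ p, m'.testBit p = true → ∃ g ∈ K, m0.testBit (π g p) = true) ∧ k m' = true := by
  induction cert generalizing m with
  | nil => exact ⟨m, hm, hb⟩
  | cons e cert ih =>
    obtain ⟨h1, hb⟩ := band_eq hb
    obtain ⟨h2, hb⟩ := band_eq hb
    refine ih _ (fun p hp => ?_) hb
    change (m ||| pt _).testBit p = true at hp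
    rw [Nat.testBit_or, testBit_pt, Bool.or_eq_true, decide_eq_true_eq] at hp
    rcases hp with hp | rfl
    · exact hm p hp
    · obtain ⟨g, hg, e1⟩ := hm _ (bitB_eq m e.1 ▸ h2)
      refine ⟨g * wval f (getW ks e.2), mul_mem hg ?_, ?_⟩
      · rcases getW_mem_or ks e.2 with h' | h'
        · exact hks _ h'
        · rw [h']; exact one_mem _
      · rw [ap1_eq h _ (blt_lt h1), map_mul, Equiv.Perm.mul_apply]
        simpa using e1

theorem pick_sound {q : ℕ} {ct : CT} {k : CT → CT → Bool} (h : pick q ct k = true) :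
    ∃ c r, k c r = true := by
  cases ct with
  | nil => exact ⟨_, _, h⟩
  | leaf q' u r =>
    change (bif' (Nat.beq q q') (k (.leaf q' u r) r) (k .nil (.leaf q' u r))) = true at h
    cases e : Nat.beq q q' <;> rw [e] at h <;> exact ⟨_, _, h⟩
  | node q' ks c m kids r =>
    change (bif' (Nat.beq q q') (k (.node q' ks c m kids r) r)
      (k .nil (.node q' ks c m kids r))) = true at h
    cases e : Nat.beq q q' <;> rw [e] at h <;> exact ⟨_, _, h⟩

theorem nodeK_sound {ct : CT} {k : List (List ℕ) → List (ℕ × ℕ) → ℕ → CT → Bool}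
    (h : nodeK ct k = true) : ∃ ks c m kids, k ks c m kids = true := by
  cases ct with
  | nil => exact ⟨_, _, _, _, h⟩
  | leaf q' u r => exact Bool.noConfusion h
  | node q' ks c m kids r => exact ⟨_, _, _, _, h⟩

theorem loop_sound {t : Tst} {ip : List (List ℕ)} {imgs : List ℕ} {m0 m p : ℕ}
    {sub : List (List ℕ) → List ℕ → CT → Bool} (T : List (ℕ × List ℕ)) (kids : CT)
    (hl : loop wb mask tt N t ip imgs m0 m p sub T kids = true) :
    ∀ e ∈ T, (p < N → e.1 = p) → passB wb mask tt t imgs (apF wb mask tt ip e.1) = true →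
      (m.testBit (apF wb mask tt ip e.1) = true → m0.testBit (apF wb mask tt ip e.1) = true) →
      ∃ c, sub (e.2 :: ip) (apF wb mask tt ip e.1 :: imgs) c = true := by
  induction T generalizing kids with
  | nil => intro e he; cases he
  | cons a T ih =>
    change (bif' (band (Nat.blt p N) (bnot (Nat.beq a.1 p)))
      (loop wb mask tt N t ip imgs m0 m p sub T kids)
      (bif' (band (passB wb mask tt t imgs (apF wb mask tt ip a.1))
          (bif' (bitB m (apF wb mask tt ip a.1)) (bitB m0 (apF wb mask tt ip a.1)) true))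
        (pick (apF wb mask tt ip a.1) kids fun c r =>
          band (sub (a.2 :: ip) (apF wb mask tt ip a.1 :: imgs) c)
            (loop wb mask tt N t ip imgs m0 m p sub T r))
        (loop wb mask tt N t ip imgs m0 m p sub T kids))) = true at hl
    have key : (∃ r, loop wb mask tt N t ip imgs m0 m p sub T r = true) ∧
        ((p < N → a.1 = p) → passB wb mask tt t imgs (apF wb mask tt ip a.1) = true →
        (m.testBit (apF wb mask tt ip a.1) = true → m0.testBit (apF wb mask tt ip a.1) = true) →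
        ∃ c, sub (a.2 :: ip) (apF wb mask tt ip a.1 :: imgs) c = true) := by
      cases h1 : (band (Nat.blt p N) (bnot (Nat.beq a.1 p)))
      · rw [h1] at hl
        cases h2 : (band (passB wb mask tt t imgs (apF wb mask tt ip a.1))
          (bif' (bitB m (apF wb mask tt ip a.1)) (bitB m0 (apF wb mask tt ip a.1)) true))
        · rw [h2] at hl
          refine ⟨⟨_, hl⟩, fun _ a2 a3 => ?_⟩
          rw [a2, bitB_eq, bitB_eq] at h2
          cases h3 : m.testBit (apF wb mask tt ip a.1)
          · rw [h3] at h2; exact Bool.noConfusion h2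
          · rw [h3, a3 h3] at h2; exact Bool.noConfusion h2
        · rw [h2] at hl
          obtain ⟨c, r, h3⟩ := pick_sound hl
          exact ⟨⟨r, (band_eq h3).2⟩, fun _ _ _ => ⟨c, (band_eq h3).1⟩⟩
      · rw [h1] at hl
        refine ⟨⟨_, hl⟩, fun a1 => ?_⟩
        exact absurd (a1 (blt_lt (band_eq h1).1))
          (Nat.ne_of_beq_eq_false (bnot_true (band_eq h1).2))
    intro e he
    rcases List.mem_cons.1 he with rfl | he
    · exact key.2
    · obtain ⟨r, hr⟩ := key.1
      exact ih r hr e he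

theorem go_sound (h : Good π N wb mask tt f) {A K : Subgroup W} (hKA : K ≤ A)
    (hlt : ∀ g ∈ A, ∀ p < N, π g p < N) {B : List ℕ} (hB : ∀ b ∈ B, b < N)
    (hf : ∀ g : W, (∀ b ∈ B, π g b = b) → π g = 1) {nv : ℕ} {xs ys eqs neqs : List (List ℕ)}
    {okK : ℕ → Bool} (hK : ∀ l, okK l = true → f (l / 2) ∈ K) {okU : List ℕ → Bool}
    {mk : List ℕ → List ℕ}
    {S : W → Prop} (hS : ∀ k ∈ K, ∀ c, S c → S (k * c))
    (h1 : ∀ c, S c → ∀ i, π c * π (wval f (xs.getD i [])) = π (wval f (ys.getD i [])) * π c)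
    (h2 : ∀ c, S c → ∀ u ∈ eqs, π (wval (Function.update f nv c) u) = 1)
    (h3 : ∀ c, S c → ∀ u ∈ neqs, π (wval (Function.update f nv c) u) ≠ 1)
    (ch : List Lv) (ts : List Tst) (bs : List ℕ) (ip : List (List ℕ)) (imgs : List ℕ) (ct : CT)
    (hbs : ∀ b ∈ bs, b < N) (hch : ChainP π f N A ch bs)
    (hst : statB wb mask tt xs ys ch ts bs = true)
    (hgo : go wb mask tt N nv B eqs neqs okK okU mk ch ts ip imgs ct = true)
    (hip : wval f ip.flatten ∈ A) (hi : bs.map (π (wval f ip.flatten)⁻¹) = imgs)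
    {c : W} (hc : c ∈ A) (hs : S c) (hci : bs.map (π c) = imgs) :
    ∃ k ∈ K, ∃ u, okU u = true ∧ π c = π (k * wval f (mk u)) := by
  induction ch generalizing ts bs ip imgs ct c with
  | nil =>
    have e : π c = (π (wval f ip.flatten))⁻¹ := by
      have := hch _ (mul_mem hip hc) fun b hb => by
        have := List.map_inj_left.1 (hci.trans hi.symm) b hb
        rw [map_mul, Equiv.Perm.mul_apply, this, map_inv]; simp
      rw [map_mul] at this
      exact eq_inv_of_mul_eq_one_right this
    change leafB wb mask tt nv B eqs neqs okU mk ip ct = true at hgo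
    unfold leafB at hgo
    rw [allL_of (p := fixE wb mask tt nv ip B) (l := eqs) (fun u hu => allL_of fun b hb => by
        rw [apE_eq h nv ip e u (hB b hb), h2 c hs u hu]; simp),
      allL_of (l := neqs) (fun u hu => by
        cases h4 : fixE wb mask tt nv ip B u
        · rfl
        · refine absurd (hf _ fun b hb => ?_) (h3 c hs u hu)
          have := beq_eq (allL_all h4 b hb)
          rw [apE_eq h nv ip e u (hB b hb), Equiv.Perm.inv_eq_iff_eq] at this
          exact this.symm)] at hgo
    cases ct with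
    | nil => exact Bool.noConfusion hgo
    | node => exact Bool.noConfusion hgo
    | leaf q u r =>
      refine ⟨1, one_mem _, u, (band_eq hgo).1, ?_⟩
      have := hf ((wval f (mk u))⁻¹ * c) fun b hb => by
        have := beq_eq (allL_all (band_eq hgo).2 b hb)
        rw [apF_eq h ip (hB b hb), ap1i_eq h _ (hB b hb), ← e] at this
        rw [map_mul, Equiv.Perm.mul_apply, this, map_inv]; simp
      rw [map_mul, map_inv, inv_mul_eq_one] at this
      rw [one_mul, this]
  | cons l ch ih =>
    obtain ⟨c1, c2, c3, c4⟩ := hch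
    obtain ⟨s1, s2⟩ := band_eq hst
    change (nodeK ct fun ks cert m0 kids =>
      band (allL (fun w => band (allL okK w) (apW wb mask tt w imgs (eqL imgs))) ks)
        (bfsM wb mask tt N ks cert m0 fun m =>
          loop wb mask tt N (hdT ts) ip imgs m0 m (target wb mask tt N (hdT ts) ip imgs)
            (go wb mask tt N nv B eqs neqs okK okU mk ch (tlT ts)) l.T kids)) = true at hgo
    obtain ⟨ks, cert, m0, kids, hgo⟩ := nodeK_sound hgo
    obtain ⟨g1, hgo⟩ := band_eq hgo
    have himg : ∀ q ∈ imgs, q < N := fun q hq => by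
      obtain ⟨b, hb, rfl⟩ := List.mem_map.1 (hci ▸ hq)
      exact hlt c hc b (hbs b hb)
    let K' : Subgroup W := K ⊓ (fixer ⊤ imgs).comap π
    obtain ⟨m, hm, hgo⟩ := bfsM_sound h (K := K') (m0 := m0) (fun w hw => by
      obtain ⟨a1, a2⟩ := band_eq (allL_all g1 w hw)
      refine ⟨wval_mem fun l hl => hK l (allL_all a1 l hl), trivial, fun q hq => ?_⟩
      have := fix_of_apW h himg a2 q hq
      rwa [Equiv.Perm.inv_eq_iff_eq, eq_comm] at this) cert m0 _
      (fun p hp => ⟨1, one_mem _, by simpa using hp⟩) hgo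
    have hbs' : ∀ b ∈ l.b :: bs, b < N := by simpa using ⟨c1, hbs⟩
    have main : ∀ c ∈ A, S c → bs.map (π c) = imgs →
        (m.testBit (π c l.b) = true → m0.testBit (π c l.b) = true) →
        ∃ k ∈ K, ∃ u, okU u = true ∧ π c = π (k * wval f (mk u)) := by
      intro c hc hs hci hm
      have hfix : ∀ b ∈ bs, π (wval f ip.flatten * c) b = b := fun b hb => by
        have := List.map_inj_left.1 (hci.trans hi.symm) b hb
        rw [map_mul, Equiv.Perm.mul_apply, this, map_inv]; simp
      obtain ⟨e, he, e1⟩ := c2 _ (mul_mem hip hc) hfix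
      obtain ⟨d1, d2, d3⟩ := c3 e he
      have e2 : apF wb mask tt ip e.1 = π c l.b := by
        rw [apF_eq h ip (d3 ▸ h.lt _ c1), ← e1, map_mul]; simp
      obtain ⟨t1, s1⟩ := band_eq s1
      obtain ⟨t2, t3⟩ := band_eq s1
      obtain ⟨ct', h5⟩ := loop_sound l.T kids hgo e he (fun hp => by
        unfold target at hp ⊢
        generalize (hdT ts).fo = fo at t1 hp
        cases fo with
        | nil => exact absurd hp (lt_irrefl N)
        | cons a fo =>
          obtain ⟨a1, a2⟩ := band_eq (allL_all t1 a List.mem_cons_self)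
          change _ = apB wb mask tt ip (ap1 wb mask tt a.yw (getD 0 imgs a.j))
          rw [← hci, cnB_sound h (h1 c hs) (hlt c hc) hbs a1, beq_eq a2,
            apB_eq h ip (hlt c hc _ c1), ← e1, map_mul, Equiv.Perm.mul_apply]) (by
        rw [e2, ← hci]
        unfold passB
        rw [allL_of (l := (hdT ts).ps) fun a ha => by
          obtain ⟨a1, a2⟩ := band_eq (allL_all t2 a ha)
          have := cnB_sound h (h1 c hs) (hlt c hc) hbs' a1
          rw [List.map_cons, beq_eq a2] at this
          rw [this]; exact Nat.beq_refl _]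
        refine allL_of fun a ha => ?_
        obtain ⟨a1, a2⟩ := band_eq (allL_all t3 a ha)
        have := cnB_sound h (h1 c hs) (hlt c hc) hbs' a1
        rw [List.map_cons] at this
        rw [this]
        cases h6 : Nat.beq (π c (ap1 wb mask tt a.xw (getD 0 (l.b :: bs) a.j))) (π c l.b)
        · rfl
        · exact absurd ((π c).injective (beq_eq h6)) (Nat.ne_of_beq_eq_false (bnot_true a2)))
        (by rw [e2]; exact hm)
      refine ih (tlT ts) (l.b :: bs) (e.2 :: ip) _ ct' hbs' c4 s2 h5 (by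
        rw [List.flatten_cons, wval_append]; exact mul_mem d1 hip) ?_ hc hs (by
        rw [List.map_cons, e2, hci])
      rw [List.flatten_cons, wval_append, mul_inv_rev, map_mul, List.map_cons, ← hi,
        apF_eq h ip (d3 ▸ h.lt _ c1), Equiv.Perm.mul_apply, map_inv π (wval f e.2), d3, map_inv]
      congr 1
      exact List.map_congr_left fun b hb => by rw [Equiv.Perm.mul_apply, d2 b hb]
    by_cases hcov : m.testBit (π c l.b) = true
    · obtain ⟨g, hg, e1⟩ := hm _ hcov
      obtain ⟨k, hk, u, hu, e2⟩ := main (g * c) (mul_mem (hKA hg.1) hc) (hS g hg.1 c hs) (by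
        rw [← hci]
        exact List.map_congr_left fun b hb => by
          rw [map_mul, Equiv.Perm.mul_apply]
          exact hg.2.2 _ (hci ▸ List.mem_map_of_mem hb)) (fun _ => by
        rw [map_mul, Equiv.Perm.mul_apply]; exact e1)
      refine ⟨g⁻¹ * k, mul_mem (inv_mem hg.1) hk, u, hu, ?_⟩
      rw [mul_assoc, map_mul, ← e2, ← map_mul]; simp
    · exact main c hc hs hci fun h' => absurd h' hcov

theorem ChainP.drop {A : Subgroup W} (k : ℕ) {ch : List Lv} {bs : List ℕ}
    (h : ChainP π f N A ch bs) (hbs : ∀ b ∈ bs, b < N) :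
    ChainP π f N A (ch.drop k) (((ch.take k).map Lv.b).reverse ++ bs) ∧
      ∀ b ∈ ((ch.take k).map Lv.b).reverse ++ bs, b < N := by
  induction k generalizing ch bs with
  | zero => simpa using ⟨h, hbs⟩
  | succ k ih =>
    cases ch with
    | nil => simpa using ⟨h, hbs⟩
    | cons l ch => simpa using ih h.2.2.2 (by simpa using ⟨h.1, hbs⟩)

theorem ChainP.faith {A : Subgroup W} {ch : List Lv} (h : ChainP π f N A ch []) :
    (∀ g ∈ A, (∀ b ∈ ch.map Lv.b, π g b = b) → π g = 1) ∧ ∀ b ∈ ch.map Lv.b, b < N := by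
  have := h.drop ch.length (by simp)
  rw [List.drop_length, List.take_length, List.append_nil] at this
  exact ⟨fun g hg hb => this.1 g hg fun b h => hb b (List.mem_reverse.1 h),
    fun b h => this.2 b (List.mem_reverse.2 h)⟩

end sound

/-- A permutation model of `H`, with kernel `Z`, in which the letters `F` act by the tables. -/
structure Model {G : Type*} [Group G] (F : ℕ → G) (H Z : Subgroup G) (N wb mask : ℕ) (tt : TT)
    (B : List ℕ) (T : ℕ) where
  π : H →* Equiv.Perm ℕ
  y : ℕ → H
  hy : ∀ i, (y i : G) = F i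
  good : Good π N wb mask tt y
  lt : ∀ g, ∀ p < N, π g p < N
  faith : ∀ g, (∀ b ∈ B, π g b = b) → π g = 1
  hB : ∀ b ∈ B, b < N
  ker : ∀ g, π g = 1 ↔ (g : G) ∈ Z
  card : Nat.card π.range ≠ 0 ∧ Nat.card π.range ≤ T

theorem exists_model {G X : Type*} [Group G] [Group X] {f : ℕ → G} {H : Subgroup G} {n0 : ℕ}
    (hH : gp f (sing n0) = H) (q : H →* X) {Z : Subgroup G} (hZ : ∀ g, q g = 1 ↔ (g : G) ∈ Z)
    {nets : NL} {Kr : List (List ℕ)} {T : ℕ}
    (hq : ∀ y : ℕ → H, (∀ i < n0, (y i : G) = f i) → ∀ w ∈ Kr, q (wval y w) = 1)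
    (hn : ∀ w ∈ Kr, wval nets.perm w = 1)
    (hub : ∀ z : ℕ → X × Equiv.Perm ℕ, (∀ w ∈ Kr, wval z w = 1) →
      Nat.card (gp z (sing n0)) ≠ 0 ∧ Nat.card (gp z (sing n0)) ≤ T)
    (hT : T ≤ Nat.card q.range) {defs : List (List ℕ)}
    (hd : ∀ w ∈ defRels n0 defs, wval nets.perm w = 1) {N K nS KS wb mask n idT : ℕ} {tt : TT}
    (hv : nets.Valid N)
    (ht : AllR (fun l => tabB nets N K nS KS wb mask (.node n tt (.leaf idT)) l = true) 0 n)
    {ch : List Lv}
    (hc : chB wb mask (.node n tt (.leaf idT)) nS (fun _ => true) ch [] = true)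
    (h0 : (decide (N ≤ 2 ^ K ∧ nS ≤ N ∧ nS ≤ 2 ^ KS ∧ KS ≤ K ∧ 2 * NL.len nets ≤ n) &&
      idB nS wb mask idT && (defsOK n0 defs && decide (NL.len nets ≤ n0 + defs.length)) &&
      decide (T ≤ (ch.map fun l => l.T.length).prod)) = true) :
    Nonempty (Model (ext f n0 defs) H Z nS wb mask (.node n tt (.leaf idT)) (ch.map Lv.b) T) := by
  simp only [Bool.and_eq_true, decide_eq_true_eq] at h0
  obtain ⟨⟨⟨a1, a2⟩, a3⟩, a4⟩ := h0
  subst hH
  let y0 : ℕ → gp f (sing n0) := fun i => if h : i < n0 then ⟨f i, mem_sing f h⟩ else 1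
  have hy0 : ∀ i < n0, (y0 i : G) = f i := fun i hi => by simp [y0, hi]
  have top : gp y0 (sing n0) = ⊤ := by
    apply Subgroup.map_injective (gp f (sing n0)).subtype_injective
    rw [map_gp, ← MonoidHom.range_eq_map, Subgroup.range_subtype]
    exact gp_congr hy0 (by simp [sing])
  have hb := hub _ (rels_pair (f := fun i => q (y0 i))
    (fun w hw => by rw [← map_wval]; exact hq y0 hy0 w hw) hn)
  let ψ := psi (fun i => q (y0 i)) nets n0
  have hr : ψ.range = q.range := by
    rw [psi_range, ← map_gp, top, MonoidHom.range_eq_map]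
  have hfin : Finite (WW (fun i => q (y0 i)) nets n0) := Nat.finite_of_card_ne_zero hb.1
  have hψ : Function.Bijective ψ.rangeRestrict :=
    (Nat.bijective_iff_surjective_and_card _).2 ⟨ψ.rangeRestrict_surjective, le_antisymm
      (hb.2.trans (hr ▸ hT)) (Nat.card_le_card_of_surjective _ ψ.rangeRestrict_surjective)⟩
  let σ : gp f (sing n0) →* WW (fun i => q (y0 i)) nets n0 :=
    ((MulEquiv.ofBijective _ hψ).symm.toMonoidHom.comp
      (MulEquiv.subgroupCongr hr.symm).toMonoidHom).comp q.rangeRestrict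
  have hσ : ∀ g, ψ (σ g) = q g := fun g =>
    congrArg Subtype.val ((MulEquiv.ofBijective _ hψ).apply_symm_apply _)
  have hψi : Function.Injective ψ := fun a b e => hψ.1 (Subtype.ext e)
  let π := (pi' (fun i => q (y0 i)) nets n0).comp σ
  have hπ : ∀ i, π (ext y0 n0 defs i) = nets.perm i := map_ext π y0 n0 defs nets (fun i hi => by
    have : σ (y0 i) = ⟨_, mem_sing (fun i => (q (y0 i), nets.perm i)) hi⟩ := hψi (hσ _)
    change pi' _ nets n0 (σ (y0 i)) = _
    rw [this]; rfl) hd (by simpa using a3)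
  have good := good_of_tabB hv hπ a1 a2 fun l hl => ht l (Nat.zero_le _) hl
  have hle : Nat.card π.range ≤ Nat.card (pi' (fun i => q (y0 i)) nets n0).range ∧
      Finite π.range ∧ Nat.card (pi' (fun i => q (y0 i)) nets n0).range ≤
        Nat.card (WW (fun i => q (y0 i)) nets n0) := by
    have s := (pi' (fun i => q (y0 i)) nets n0).rangeRestrict_surjective
    have := Finite.of_surjective _ s
    have le : π.range ≤ (pi' (fun i => q (y0 i)) nets n0).range := by
      rintro _ ⟨g, rfl⟩; exact ⟨_, rfl⟩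
    exact ⟨Subgroup.card_le_of_le le, Finite.of_injective _ (Subgroup.inclusion_injective le),
      Nat.card_le_card_of_surjective _ s⟩
  have hf2 := hle.2.1
  have hb2 : Nat.card (WW (fun i => q (y0 i)) nets n0) ≤ T := hb.2
  have hs2 := Nat.card_le_card_of_surjective _
    (pi' (fun i => q (y0 i)) nets n0).rangeRestrict_surjective
  have hf3 : Finite ((⊤ : Subgroup (gp f (sing n0))).map π) := MonoidHom.range_eq_map π ▸ hf2
  obtain ⟨c1, c2⟩ := chB_sound good (A := ⊤) (fun _ _ => trivial) ch [] (by simp) hc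
  rw [fixer_nil, ← MonoidHom.range_eq_map] at c1 c2
  have c3 := (c2 (by omega)).faith
  have inj : Function.Injective (pi' (fun i => q (y0 i)) nets n0) := fun a b e =>
    ((Nat.bijective_iff_surjective_and_card _).2
      ⟨(pi' (fun i => q (y0 i)) nets n0).rangeRestrict_surjective, by omega⟩).1 (Subtype.ext e)
  refine ⟨⟨π, ext y0 n0 defs, fun i => ?_, good, fun g p hp => ?_, fun g hg => c3.1 g trivial hg,
    c3.2, fun g => ?_, Nat.card_pos.ne', by omega⟩⟩
  · by_cases hi : i < n0 + defs.length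
    · refine eq_of_defRels (f := fun i => (gp f (sing n0)).subtype (ext y0 n0 defs i)) n0 defs a3.1 (fun w hw => ?_)
        (ext_rels f n0 defs a3.1) (fun j hj => by rw [ext_of_lt _ _ hj, ext_of_lt _ _ hj]; exact hy0 j hj)
        i hi
      exact (map_wval (gp f (sing n0)).subtype _ w).symm.trans
        (congrArg Subtype.val (ext_rels y0 n0 defs a3.1 w hw))
    · rw [ext, ext, extGo_of_lt _ _ _ (Or.inr (by omega)), extGo_of_lt _ _ _ (Or.inr (by omega)),
        if_neg (by omega), if_neg (by omega)]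
      rfl
  · obtain ⟨w, hw, rfl⟩ := exists_word (y := y0) (n := n0) (ws := sing n0) (by simp [sing])
      (top ▸ Subgroup.mem_top g)
    rw [← wval_ext y0 n0 defs w hw]
    exact good.lt' w hp
  · rw [← hZ, ← hσ]
    exact ⟨fun e => by rw [inj (e.trans (map_one _).symm), map_one],
      fun e => by change pi' _ nets n0 (σ g) = 1; rw [hψi (e.trans (map_one ψ).symm), map_one]⟩

/-- The letter belongs to one of the listed generators. -/
noncomputable def okL (L : List ℕ) (l : ℕ) : Bool := memL L (Nat.shiftRight l (nat_lit 1))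

def sl (L : List ℕ) : List (List ℕ) := L.map fun i => [2 * i]

theorem mem_of_okL {G : Type*} [Group G] (F : ℕ → G) {L : List ℕ} {l : ℕ} (h : okL L l = true) :
    F (l / 2) ∈ gp F (sl L) := by
  rw [← wval_single F]
  refine mem_gp (List.mem_map.2 ⟨_, ?_, rfl⟩)
  have := memL_mem h
  rwa [show Nat.shiftRight l (nat_lit 1) = l / 2 from Nat.shiftRight_one l] at this

/-- The word fixes the points. -/
noncomputable def fixW (wb mask : ℕ) (tt : TT) (B w : List ℕ) : Bool := apW wb mask tt w B (eqL B)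

/-- All checks of a search below the first `k` base points. -/
noncomputable def solveB (wb mask : ℕ) (tt : TT) (N nv : ℕ) (B : List ℕ) (okA : ℕ → Bool)
    (ch : List Lv) (k : ℕ) (Cg xs ys eqs neqs : List (List ℕ)) (KL : List ℕ) (okU : List ℕ → Bool)
    (mk : List ℕ → List ℕ) (ts : List Tst) (ct : CT) : Bool :=
  band (allL (fixW wb mask tt ((ch.take k).map Lv.b).reverse) Cg)
  (band (allL (fun i => band (okA (2 * i)) (band (eqs.isEmpty && neqs.isEmpty)
    (allL (fun v => fixW wb mask tt B (2 * i :: (v ++ (2 * i + 1) :: invW v))) ys))) KL)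
  (band (Nat.beq xs.length ys.length)
  (band (statB wb mask tt xs ys (ch.drop k) ts ((ch.take k).map Lv.b).reverse)
    (go wb mask tt N nv B eqs neqs (okL KL) okU mk (ch.drop k) ts []
      ((ch.take k).map Lv.b).reverse ct))))

namespace Model
variable {G : Type*} [Group G] {F : ℕ → G} {H Z : Subgroup G} {N wb mask : ℕ} {tt : TT}
  {B : List ℕ} {T : ℕ} (M : Model F H Z N wb mask tt B T)
include M

theorem val (w : List ℕ) : ((wval M.y w : H) : G) = wval F w := by
  change H.subtype (wval M.y w) = _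
  rw [map_wval]
  congr 1; funext i; exact M.hy i

theorem mem (w : List ℕ) : wval F w ∈ H := M.val w ▸ (wval M.y w).2

theorem pi_eq {w : List ℕ} (h : fixW wb mask tt B w = true) : M.π (wval M.y w) = 1 :=
  M.faith _ fun b hb => by
    have := fix_of_apW M.good M.hB h b hb
    rwa [Equiv.Perm.inv_eq_iff_eq, eq_comm] at this

/-- Relations. -/
theorem rels (R : List (List ℕ)) (h : allL (fixW wb mask tt B) R = true) :
    ∀ w ∈ R, wval F w ∈ Z := fun w hw => M.val w ▸ (M.ker _).1 (M.pi_eq (allL_all h w hw))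

/-- Non-relations. -/
theorem nrels (R : List (List ℕ)) (h : allL (fun w => bnot (fixW wb mask tt B w)) R = true) :
    ∀ w ∈ R, wval F w ∉ Z := fun w hw hz => by
  have := bnot_true (allL_all h w hw)
  rw [fixW, apW_eq M.good w B M.hB, (M.ker _).2 (M.val w ▸ hz)] at this
  simp only [inv_one, Equiv.Perm.coe_one, id_eq, List.map_id'] at this
  rw [eqL_refl] at this
  cases this

/-- The stabiliser chain of `A`. -/
def Ch (A : Subgroup G) (ch : List Lv) : Prop := ChainP M.π M.y N (A.subgroupOf H) ch []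

theorem finite_map (A : Subgroup H) : Finite (A.map M.π) := by
  have : Finite M.π.range := Nat.finite_of_card_ne_zero M.card.1
  exact Finite.of_injective _ (Subgroup.inclusion_injective (Subgroup.map_le_range M.π A))

theorem ch_top (ch : List Lv) (h : (band (chB wb mask tt N (fun _ => true) ch [])
    (decide (T ≤ (ch.map fun l => l.T.length).prod))) = true) : M.Ch H ch := by
  have := M.finite_map (H.subgroupOf H)
  refine (chB_sound M.good (fun _ _ => (M.y _).2) ch [] (by simp) (band_eq h).1).2 ?_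
  rw [fixer_nil, Subgroup.subgroupOf_self, ← MonoidHom.range_eq_map]
  exact M.card.2.trans (of_decide_eq_true (band_eq h).2)

theorem mem_sub {A : Subgroup G} {i : ℕ} (h : F i ∈ A) : M.y i ∈ A.subgroupOf H := by
  rw [Subgroup.mem_subgroupOf, M.hy]; exact h

theorem le_card (L : List ℕ) (ch : List Lv) [Finite (gp F (sl L))]
    (h : chB wb mask tt N (okL L) ch [] = true) :
    (ch.map fun l => l.T.length).prod ≤ Nat.card (((gp F (sl L)).subgroupOf H).map M.π) ∧
    Nat.card (((gp F (sl L)).subgroupOf H).map M.π) ≤ Nat.card (gp F (sl L)) := by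
  have := M.finite_map ((gp F (sl L)).subgroupOf H)
  have e : (gp F (sl L)).subgroupOf H ≃* gp F (sl L) :=
    Subgroup.subgroupOfEquivOfLe (gp_le.2 fun w _ => M.mem w)
  have : Finite ((gp F (sl L)).subgroupOf H) := Finite.of_equiv _ e.toEquiv.symm
  refine ⟨?_, (Nat.card_le_card_of_surjective _ (M.π.subgroupMap_surjective _)).trans
    (Nat.card_congr e.toEquiv).le⟩
  simpa only [fixer_nil] using
    (chB_sound M.good (fun _ hl => M.mem_sub (mem_of_okL F hl)) ch [] (by simp) h).1

theorem ch_sub (L : List ℕ) (ch : List Lv) {n : ℕ}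
    (hn : Nat.card (gp F (sl L)) ≠ 0 ∧ Nat.card (gp F (sl L)) ≤ n)
    (h : (band (chB wb mask tt N (okL L) ch [])
      (decide (n ≤ (ch.map fun l => l.T.length).prod))) = true) : M.Ch (gp F (sl L)) ch := by
  have := M.finite_map ((gp F (sl L)).subgroupOf H)
  have := Nat.finite_of_card_ne_zero hn.1
  refine (chB_sound M.good (fun _ hl => M.mem_sub (mem_of_okL F hl)) ch [] (by simp)
    (band_eq h).1).2 ?_
  rw [fixer_nil]
  exact ((M.le_card L ch (band_eq h).1).2.trans hn.2).trans (of_decide_eq_true (band_eq h).2)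

theorem val_update (nv : ℕ) (c : H) (w : List ℕ) :
    ((wval (Function.update M.y nv c) w : H) : G) = wval (Function.update F nv c) w := by
  change H.subtype (wval _ w) = _
  rw [map_wval]
  congr 1; funext i
  by_cases h : i = nv
  · subst h; simp
  · simp [Function.update_of_ne h, M.hy]

theorem conj_pi {xs ys : List (List ℕ)} (c : H)
    (h1 : List.Forall₂ (fun x y => c * wval F x * (c : G)⁻¹ * (wval F y)⁻¹ ∈ Z) xs ys) (i : ℕ) :
    M.π c * M.π (wval M.y (xs.getD i [])) = M.π (wval M.y (ys.getD i [])) * M.π c := by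
  induction h1 generalizing i with
  | nil => simp
  | cons h _ ih =>
    cases i with
    | succ i => exact ih i
    | zero =>
      rw [List.getD_cons_zero, List.getD_cons_zero, ← mul_inv_eq_one, mul_inv_rev, ← mul_assoc,
        ← map_inv, ← map_inv, ← map_mul, ← map_mul, ← map_mul, M.ker]
      simpa [M.val] using h

theorem solve' {A : Subgroup G} {ch : List Lv} (hch : M.Ch A ch) {okA : ℕ → Bool}
    (hA : ∀ l, okA l = true → F (l / 2) ∈ A) {nv k : ℕ} {Cg xs ys eqs neqs : List (List ℕ)}
    {KL : List ℕ} {okU : List ℕ → Bool} {mk : List ℕ → List ℕ} {ts : List Tst} {ct : CT}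
    (h : solveB wb mask tt N nv B okA ch k Cg xs ys eqs neqs KL okU mk ts ct = true)
    {c : G} (hcH : c ∈ H) (hc : c ∈ A) 
    (hk : ∀ b ∈ (ch.take k).map Lv.b, M.π ⟨c, hcH⟩ b = b)
    (h1 : List.Forall₂ (fun x y => c * wval F x * c⁻¹ * (wval F y)⁻¹ ∈ Z) xs ys)
    (h2 : ∀ u ∈ eqs, wval (Function.update F nv c) u ∈ Z)
    (h3 : ∀ u ∈ neqs, wval (Function.update F nv c) u ∉ Z) :
    ∃ g ∈ gp F (sl KL), ∃ u, okU u = true ∧ ∃ z ∈ Z, c = g * wval F (mk u) * z := by
  obtain ⟨-, h⟩ := band_eq h
  obtain ⟨b2, h⟩ := band_eq h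
  obtain ⟨-, h⟩ := band_eq h
  obtain ⟨b4, b5⟩ := band_eq h
  obtain ⟨d1, d2⟩ := ChainP.drop k hch (by simp)
  rw [List.append_nil] at d1 d2
  have hKy : (gp M.y (sl KL)).map H.subtype = gp F (sl KL) := by
    rw [map_gp]; congr 1; funext i; exact M.hy i
  obtain ⟨g, hg, u, hu, e⟩ := go_sound M.good (A := A.subgroupOf H) (K := gp M.y (sl KL))
    (gp_le.2 fun w hw => by
      obtain ⟨i, hi, rfl⟩ := List.mem_map.1 hw
      rw [wval_single]
      have := hA _ (band_eq (allL_all b2 i hi)).1
      exact M.mem_sub (by rwa [show 2 * i / 2 = i by omega] at this))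
    (fun g _ => M.lt g) M.hB M.faith (fun l hl => mem_of_okL M.y hl)
    (S := fun c => (∀ i, M.π c * M.π (wval M.y (xs.getD i [])) =
        M.π (wval M.y (ys.getD i [])) * M.π c) ∧
      (∀ u ∈ eqs, M.π (wval (Function.update M.y nv c) u) = 1) ∧
      ∀ u ∈ neqs, M.π (wval (Function.update M.y nv c) u) ≠ 1)
    (fun g hg c hc => by
      cases KL with
      | nil => rw [show g = 1 by simpa [sl, gp_nil] using hg, one_mul]; exact hc
      | cons i0 KL =>
        have := (band_eq (band_eq (allL_all b2 i0 List.mem_cons_self)).2).1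
        simp only [Bool.and_eq_true, List.isEmpty_iff] at this
        refine ⟨fun i => ?_, by simp [this.1], by simp [this.2]⟩
        have : g ∈ (Subgroup.centralizer {M.π (wval M.y (ys.getD i []))}).comap M.π := by
          refine gp_le.2 (fun w hw => ?_) hg
          obtain ⟨j, hj, rfl⟩ := List.mem_map.1 hw
          rw [Subgroup.mem_comap, Subgroup.mem_centralizer_singleton_iff, wval_single]
          by_cases hi : i < ys.length
          · have := M.pi_eq (allL_all (band_eq (band_eq (allL_all b2 j hj)).2).2 (ys.getD i [])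
              (by rw [List.getD_eq_getElem _ _ hi]; exact List.getElem_mem hi))
            rw [wval_cons, wval_append, wval_odd, wval_invW, lval, if_pos (by omega),
              show 2 * j / 2 = j by omega, ← mul_assoc, ← mul_inv_rev, map_mul, map_inv,
              mul_inv_eq_one, map_mul, map_mul] at this
            exact this
          · rw [List.getD_eq_default _ _ (by omega)]; simp
        rw [Subgroup.mem_comap, Subgroup.mem_centralizer_singleton_iff] at this
        rw [map_mul, mul_assoc, hc.1 i, ← mul_assoc, this, mul_assoc])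
    (fun _ h => h.1) (fun _ h => h.2.1) (fun _ h => h.2.2) _ ts _ [] _ ct d2 d1 b4 b5
    (one_mem _) (by simp) (c := ⟨c, hcH⟩) hc ⟨M.conj_pi ⟨c, hcH⟩ h1,
      fun u hu => (M.ker _).2 (by rw [M.val_update]; exact h2 u hu),
      fun u hu e => h3 u hu (by rw [← M.val_update nv ⟨c, hcH⟩]; exact (M.ker _).1 e)⟩ (by
      exact (List.map_congr_left fun b hb => hk b (List.mem_reverse.1 hb)).trans (List.map_id _))
  refine ⟨g, hKy ▸ ⟨g, hg, rfl⟩, u, hu, _, (M.ker ((g * wval M.y (mk u))⁻¹ * ⟨c, hcH⟩)).1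
    (by rw [map_mul, e, map_inv, inv_mul_cancel]), ?_⟩
  simp [M.val, mul_assoc]

theorem solve {A : Subgroup G} {ch : List Lv} (hch : M.Ch A ch) {okA : ℕ → Bool}
    (hA : ∀ l, okA l = true → F (l / 2) ∈ A) {nv k : ℕ} {Cg xs ys eqs neqs : List (List ℕ)}
    {KL : List ℕ} {okU : List ℕ → Bool} {mk : List ℕ → List ℕ} {ts : List Tst} {ct : CT}
    (h : solveB wb mask tt N nv B okA ch k Cg xs ys eqs neqs KL okU mk ts ct = true)
    {c : G} (hcH : c ∈ H) (hc : c ∈ A) (hk : k = 0 ∨ c ∈ gp F Cg)
    (h1 : List.Forall₂ (fun x y => c * wval F x * c⁻¹ * (wval F y)⁻¹ ∈ Z) xs ys)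
    (h2 : ∀ u ∈ eqs, wval (Function.update F nv c) u ∈ Z)
    (h3 : ∀ u ∈ neqs, wval (Function.update F nv c) u ∉ Z) :
    ∃ g ∈ gp F (sl KL), ∃ u, okU u = true ∧ ∃ z ∈ Z, c = g * wval F (mk u) * z := by
  refine M.solve' hch hA h hcH hc (fun b hb => ?_) h1 h2 h3
  rcases hk with rfl | hk
  · simp at hb
  · have d2 := (ChainP.drop k hch (by simp)).2
    rw [List.append_nil] at d2
    have : (⟨c, hcH⟩ : H) ∈ (fixer ⊤ [b]).comap M.π := by
      have e : (gp M.y Cg).map H.subtype = gp F Cg := by
        rw [map_gp]; congr 1; funext i; exact M.hy i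
      obtain ⟨c', h', e'⟩ := e.symm ▸ hk
      rw [show (⟨c, hcH⟩ : H) = c' from Subtype.ext e'.symm]
      refine (gp_le.2 fun w hw => ⟨trivial, ?_⟩ : gp M.y Cg ≤ (fixer ⊤ [b]).comap M.π) h'
      have := fix_of_apW M.good d2 (allL_all (band_eq h).1 w hw) b (List.mem_reverse.2 hb)
      rw [Equiv.Perm.inv_eq_iff_eq] at this
      simpa using this.symm
    exact this.2 b List.mem_cons_self

end Model

end Cfsg.Agent.Lib.BT
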