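import Cfsg.Agent.Lib.BT

/-! Permutation models given by tables; the conjugation model; consequences of searches. -/

set_option autoImplicit false

namespace Cfsg.Agent.Lib.BT

open Cfsg.Agent.Lib.PermNet Cfsg.Agent.Lib.Words Cfsg.Agent.Lib.PermGroup Cfsg.Agent.Lib.DCE
  Cfsg.Agent.Lib.PermModel

section tables
variable (N wb mask : ℕ)

noncomputable def okT (T T' : ℕ) : Bool :=
  allR (fun p => forceB (lk wb mask T p) fun q =>
    band (Nat.blt q N) (Nat.beq (lk wb mask T' q) p)) (nat_lit 0) N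

def TOK (T T' : ℕ) : Prop := ∀ p < N, lk wb mask T p < N ∧ lk wb mask T' (lk wb mask T p) = p

variable {N wb mask}

theorem TOK.symm {T T' : ℕ} (h : TOK N wb mask T T') : TOK N wb mask T' T := fun p hp => by
  obtain ⟨q, e⟩ := (Finite.injective_iff_surjective (f := fun q : Fin N =>
    (⟨lk wb mask T q, (h q q.2).1⟩ : Fin N))).1 (fun a b e => Fin.ext (by
      rw [← (h a a.2).2, ← (h b b.2).2]; exact congrArg _ (congrArg Fin.val e))) ⟨p, hp⟩
  have e : lk wb mask T q = p := congrArg Fin.val e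
  rw [← e, (h q q.2).2]
  exact ⟨q.2, rfl⟩

variable (N wb mask) in
open Classical in
/-- The permutation of letter `i`. -/
noncomputable def tp (tt : TT) (i : ℕ) : Equiv.Perm ℕ :=
  if h : TOK N wb mask (tt.get (2 * i)) (tt.get (2 * i + 1)) then
    { toFun := fun p => if p < N then lk wb mask (tt.get (2 * i + 1)) p else p
      invFun := fun p => if p < N then lk wb mask (tt.get (2 * i)) p else p
      left_inv := fun p => by
        by_cases hp : p < N
        · simp only [hp, (h.symm p hp).1, (h.symm p hp).2, if_true]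
        · simp only [hp, if_false]
      right_inv := fun p => by
        by_cases hp : p < N
        · simp only [hp, (h p hp).1, (h p hp).2, if_true]
        · simp only [hp, if_false] }
  else 1

theorem tp_fix (tt : TT) (w : List ℕ) {p : ℕ} (hp : N ≤ p) : wval (tp N wb mask tt) w p = p := by
  refine (wval_mem (K := fixer ⊤ [p]) fun l _ => ⟨trivial, fun b hb => ?_⟩).2 p List.mem_cons_self
  rw [List.mem_singleton.1 hb, tp]
  split_ifs
  · exact if_neg (by omega)
  · rfl

/-- The tables of `m` letters. -/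
abbrev tabs (m : ℕ) (th : TT) (idT : ℕ) : TT := .node (2 * m) th (.leaf idT)

theorem get_tabs {m idT l : ℕ} {th : TT} (h : 2 * m ≤ l) : (tabs m th idT).get l = idT := by
  change @Bool.rec (fun _ => ℕ) (th.get l) idT (Nat.ble (2 * m) l) = _
  rw [Nat.ble_eq_true_of_le h]

variable (N wb mask) in
/-- The tables describe permutations. -/
def TabsOK (m : ℕ) (th : TT) (idT : ℕ) : Prop :=
  idB N wb mask idT = true ∧ AllR (fun i => okT N wb mask ((tabs m th idT).get (2 * i))
    ((tabs m th idT).get (2 * i + 1)) = true) 0 m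

variable {m idT : ℕ} {th : TT} (h : TabsOK N wb mask m th idT)
include h

theorem TabsOK.id {p : ℕ} (hp : p < N) : lk wb mask idT p = p :=
  beq_eq (allR_all h.1 p (Nat.zero_le _) (by simpa using hp))

theorem TabsOK.tok (i : ℕ) :
    TOK N wb mask ((tabs m th idT).get (2 * i)) ((tabs m th idT).get (2 * i + 1)) := fun p hp => by
  by_cases hi : i < m
  · have := band_eq (allR_all (h.2 i (Nat.zero_le _) hi) p (Nat.zero_le _) (by simpa using hp))
    exact ⟨blt_lt this.1, beq_eq this.2⟩
  · rw [get_tabs (by omega), get_tabs (by omega), h.id hp, h.id hp]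
    exact ⟨hp, rfl⟩

theorem TabsOK.apply (i : ℕ) {p : ℕ} (hp : p < N) :
    tp N wb mask (tabs m th idT) i p = lk wb mask ((tabs m th idT).get (2 * i + 1)) p := by
  rw [tp, dif_pos (h.tok i)]; exact if_pos hp

theorem TabsOK.good :
    Good (MonoidHom.id _) N wb mask (tabs m th idT) (tp N wb mask (tabs m th idT)) := fun l p hp => by
  have e : (lval (tp N wb mask (tabs m th idT)) l)⁻¹ p = lk wb mask ((tabs m th idT).get l) p ∧
      lk wb mask ((tabs m th idT).get l) p < N := by
    unfold lval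
    split_ifs with hl
    · rw [tp, dif_pos (h.tok _)]
      have := h.tok (l / 2) p hp
      rw [show 2 * (l / 2) = l by omega] at this
      refine ⟨(if_pos hp).trans ?_, this.1⟩
      rw [show 2 * (l / 2) = l by omega]
    · have := (h.tok (l / 2)).symm p hp
      rw [inv_inv, h.apply _ hp, show 2 * (l / 2) + 1 = l by omega] at *
      exact ⟨rfl, this.1⟩
  rw [MonoidHom.id_apply, e.1]
  exact ⟨rfl, e.2⟩

theorem TabsOK.one {i : ℕ} (hi : m ≤ i) : tp N wb mask (tabs m th idT) i = 1 := Equiv.ext fun p => by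
  by_cases hp : p < N
  · rw [h.apply _ hp, get_tabs (by omega), h.id hp]; rfl
  · simpa [wval, lval] using tp_fix (wb := wb) (mask := mask) (tabs m th idT) [2 * i]
      (Nat.le_of_not_lt hp)

omit h in
/-- The list `n - 1, …, 0`. -/
noncomputable def rng (n : ℕ) : List ℕ :=
  Nat.rec (motive := fun _ => List ℕ) [] (fun j ih => j :: ih) n

omit h in
theorem mem_rng {n p : ℕ} : p ∈ rng n ↔ p < n := by
  induction n with
  | zero => exact ⟨fun h => (List.not_mem_nil h).elim, fun h => absurd h (Nat.not_lt_zero _)⟩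
  | succ n ih =>
    change p ∈ n :: rng n ↔ _
    rw [List.mem_cons, ih]; omega

theorem TabsOK.rels (R : List (List ℕ))
    (hR : allL (fixW wb mask (tabs m th idT) (rng N)) R = true) :
    ∀ w ∈ R, wval (tp N wb mask (tabs m th idT)) w = 1 := fun w hw => Equiv.ext fun p => by
  by_cases hp : p < N
  · have := fix_of_apW h.good (fun _ hb => mem_rng.1 hb) (allL_all hR w hw) p (mem_rng.2 hp)
    rw [MonoidHom.id_apply, Equiv.Perm.inv_eq_iff_eq] at this
    exact this.symm
  · exact tp_fix _ w (Nat.le_of_not_lt hp)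

end tables

section models
variable {G : Type*} [Group G] {f : ℕ → G} {H Z : Subgroup G} {n0 N wb mask m idT T : ℕ} {th : TT}
  {defs : List (List ℕ)} {ch : List Lv}

variable (N wb mask n0 m idT T th defs ch) in
/-- The data of a model given by tables. -/
structure TM : Prop where
  ok : TabsOK N wb mask m th idT
  hd : ∀ w ∈ defRels n0 defs, wval (tp N wb mask (tabs m th idT)) w = 1
  hc : chB wb mask (tabs m th idT) N (fun _ => true) ch [] = true
  h0 : (defsOK n0 defs && decide (m ≤ n0 + defs.length) &&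
    decide (T ≤ (ch.map fun l => l.T.length).prod)) = true

theorem ext_out (y : ℕ → G) {i : ℕ} (hi : n0 + defs.length ≤ i) : ext y n0 defs i = 1 := by
  rw [ext, extGo_of_lt _ _ _ (Or.inr hi), if_neg (by omega)]

theorem map_ext' {X : Type*} [Group X] (φ : G →* X) (y : ℕ → G) (P : ℕ → X)
    (h1 : ∀ i < n0, φ (y i) = P i) (h2 : ∀ w ∈ defRels n0 defs, wval P w = 1)
    (h3 : defsOK n0 defs = true) (h4 : ∀ i, n0 + defs.length ≤ i → P i = 1) (i : ℕ) :
    φ (ext y n0 defs i) = P i := by
  by_cases hi : i < n0 + defs.length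
  · refine eq_of_defRels (f := fun i => φ (ext y n0 defs i)) n0 defs h3 (fun w hw => ?_) h2
      (fun j hj => by rw [ext_of_lt _ _ hj, h1 j hj]) i hi
    rw [← map_wval, ext_rels y n0 defs h3 w hw, map_one]
  · rw [h4 i (by omega), ext_out _ (by omega), map_one]

theorem TM.mk_model (D : TM n0 N wb mask m idT T th defs ch) (π : H →* Equiv.Perm ℕ) (y : ℕ → H)
    (hy : ∀ i < n0, (y i : G) = f i) (hπ : ∀ i < n0, π (y i) = tp N wb mask (tabs m th idT) i)
    (lt : ∀ g, ∀ p < N, π g p < N) (card : Nat.card π.range ≠ 0 ∧ Nat.card π.range ≤ T)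
    (ker : T ≤ Nat.card π.range → ∀ g, π g = 1 ↔ (g : G) ∈ Z) :
    ∃ M : Model (ext f n0 defs) H Z N wb mask (tabs m th idT) (ch.map Lv.b) T, M.π = π := by
  have h0 := D.h0
  simp only [Bool.and_eq_true, decide_eq_true_eq] at h0
  have hπ' := map_ext' π y _ hπ D.hd h0.1.1 fun i hi => D.ok.one (by omega)
  have good : Good π N wb mask (tabs m th idT) (ext y n0 defs) := fun l p hp => by
    rw [map_lval, funext hπ']; exact D.ok.good l p hp
  have := Nat.finite_of_card_ne_zero card.1
  have hf3 : Finite ((⊤ : Subgroup H).map π) := MonoidHom.range_eq_map π ▸ this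
  obtain ⟨c1, c2⟩ := chB_sound good (A := ⊤) (fun _ _ => trivial) ch [] (by simp) D.hc
  rw [fixer_nil, ← MonoidHom.range_eq_map] at c1 c2
  have c3 := (c2 (by omega)).faith
  exact ⟨⟨π, ext y n0 defs, map_ext' H.subtype y _ (fun i hi => by
      rw [ext_of_lt _ _ hi]; exact hy i hi) (ext_rels f n0 defs h0.1.1) h0.1.1
      (fun i hi => ext_out _ hi), good, lt, fun g hg => c3.1 g trivial hg, c3.2, ker (by omega),
    card⟩, rfl⟩

/-- A faithful model from a presentation. -/
theorem TM.fmodel (D : TM n0 N wb mask m idT T th defs ch) (hH : gp f (sing n0) = H)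
    {K : List (List ℕ)} (hK : ∀ w ∈ K, wval f w = 1)
    (hn : ∀ w ∈ K, wval (tp N wb mask (tabs m th idT)) w = 1)
    (hub : ∀ z : ℕ → G × Equiv.Perm ℕ, (∀ w ∈ K, wval z w = 1) →
      Nat.card (gp z (sing n0)) ≠ 0 ∧ Nat.card (gp z (sing n0)) ≤ T) (hT : T ≤ Nat.card H) :
    Nonempty (Model (ext f n0 defs) H ⊥ N wb mask (tabs m th idT) (ch.map Lv.b) T) := by
  subst hH
  set P := tp N wb mask (tabs m th idT) with hP
  let W := gp (fun i => (f i, P i)) (sing n0)
  have hb : Nat.card W ≠ 0 ∧ Nat.card W ≤ T := hub _ (rels_pair hK hn)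
  have : Finite W := Nat.finite_of_card_ne_zero hb.1
  have e1 : W.map (MonoidHom.fst _ _) = gp f (sing n0) := map_gp _ _
  have b1 : Function.Bijective ((MonoidHom.fst _ _).subgroupMap W) := by
    have hs := (MonoidHom.fst _ _).subgroupMap_surjective W
    have := Nat.card_le_card_of_surjective _ hs
    exact (Nat.bijective_iff_surjective_and_card _).2 ⟨hs, by rw [e1] at this ⊢; omega⟩
  let σ : gp f (sing n0) ≃* W :=
    (MulEquiv.subgroupCongr e1.symm).trans (MulEquiv.ofBijective _ b1).symm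
  have hσ : ∀ g, (σ g).1.1 = g := fun g =>
    congrArg Subtype.val ((MulEquiv.ofBijective _ b1).apply_symm_apply _)
  let π : gp f (sing n0) →* Equiv.Perm ℕ := ((MonoidHom.snd _ _).comp W.subtype).comp σ.toMonoidHom
  have hfin : Finite (gp f (sing n0)) := Finite.of_equiv _ σ.toEquiv.symm
  have hs := π.rangeRestrict_surjective
  have hle := (Nat.card_le_card_of_surjective _ hs).trans (Nat.card_congr σ.toEquiv).le
  have := Finite.of_surjective _ hs
  obtain ⟨M, -⟩ := D.mk_model (f := f) (Z := ⊥) π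
    (fun i => if h : i < n0 then ⟨f i, mem_sing f h⟩ else 1) (fun i hi => by simp [hi])
    (fun i hi => by
      have : σ ⟨f i, mem_sing f hi⟩ = ⟨_, mem_sing (fun i => (f i, P i)) hi⟩ :=
        b1.1 (Subtype.ext (hσ _))
      rw [dif_pos hi]
      exact congrArg (fun x : W => x.1.2) this)
    (fun g p hp => by
      obtain ⟨w, -, e⟩ := exists_word (n := n0) (ws := sing n0) (by simp [sing]) (σ g).2
      have : π g = wval P w := (congrArg Prod.snd e).symm.trans
        (map_wval (MonoidHom.snd G (Equiv.Perm ℕ)) (fun i => (f i, P i)) w)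
      rw [this]
      exact D.ok.good.lt' w hp)
    ⟨Nat.card_pos.ne', hle.trans hb.2⟩ fun h g => by
      have hi := ((Nat.bijective_iff_surjective_and_card _).2 ⟨hs, le_antisymm
        (((Nat.card_congr σ.toEquiv).le.trans hb.2).trans h)
        (Nat.card_le_card_of_surjective _ hs)⟩).1
      rw [Subgroup.mem_bot, OneMemClass.coe_eq_one]
      exact ⟨fun e => hi (Subtype.ext (e.trans (map_one π).symm)), fun e => by rw [e, map_one]⟩
  exact ⟨M⟩

/-- The action by conjugation on an invariant set of elements. -/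
theorem TM.cmodel (D : TM n0 N wb mask m idT T th defs ch) [Finite H] {s : ℕ → G}
    (hf : ∀ i < n0, f i ∈ H) (inj : ∀ p < N, ∀ q < N, s p = s q → p = q)
    (cl : ∀ g ∈ H, ∀ p < N, ∃ q < N, g * s p * g⁻¹ = s q)
    (hZ : ∀ g ∈ H, (∀ p < N, g * s p * g⁻¹ = s p) ↔ g ∈ Z)
    (hc : ∀ i < n0, ∀ p < N, f i * s p * (f i)⁻¹ = s (lk wb mask ((tabs m th idT).get (2 * i + 1)) p))
    (hT : Nat.card H ≤ T * Nat.card (Z.subgroupOf H)) :
    ∃ M : Model (ext f n0 defs) H Z N wb mask (tabs m th idT) (ch.map Lv.b) T,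
      ∀ g : H, ∀ p < N, g * s p * (g : G)⁻¹ = s (M.π g p) := by
  classical
  choose! a a1 a2 using cl
  let b : H → ℕ → ℕ := fun g p => if p < N then a g p else p
  have b1 : ∀ g, ∀ p < N, b g p < N ∧ g * s p * (g : G)⁻¹ = s (b g p) := fun g p hp => by
    simp only [b, hp, if_true]; exact ⟨a1 g g.2 p hp, a2 g g.2 p hp⟩
  have b2 : ∀ g p, ¬ p < N → b g p = p := fun g p hp => if_neg hp
  have bm : ∀ g k p, b (g * k) p = b g (b k p) := fun g k p => by
    by_cases hp : p < N
    · refine inj _ (b1 _ p hp).1 _ (b1 g _ (b1 k p hp).1).1 ?_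
      rw [← (b1 _ p hp).2, ← (b1 g _ (b1 k p hp).1).2, ← (b1 k p hp).2]
      simp [mul_assoc]
    · rw [b2 _ p hp, b2 k p hp, b2 g p hp]
  have b0 : ∀ p, b 1 p = p := fun p => by
    by_cases hp : p < N
    · exact inj _ (b1 _ p hp).1 _ hp (by rw [← (b1 _ p hp).2]; simp)
    · exact b2 _ p hp
  let π : H →* Equiv.Perm ℕ := MonoidHom.mk' (fun g => ⟨b g, b g⁻¹,
    fun p => by rw [← bm, inv_mul_cancel, b0], fun p => by rw [← bm, mul_inv_cancel, b0]⟩)
    fun g k => Equiv.ext (bm g k)
  have ker : ∀ g, π g = 1 ↔ (g : G) ∈ Z := fun g => by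
    rw [← hZ g g.2]
    refine ⟨fun e p hp => by rw [(b1 g p hp).2, show b g p = p from congrArg (· p) e],
      fun e => Equiv.ext fun p => ?_⟩
    by_cases hp : p < N
    · exact inj _ (b1 _ p hp).1 _ hp ((b1 g p hp).2.symm.trans (e p hp))
    · exact b2 _ p hp
  have := Finite.of_surjective _ π.rangeRestrict_surjective
  obtain ⟨M, e⟩ := D.mk_model (f := f) (Z := Z) π
    (fun i => if h : i < n0 then ⟨f i, hf i h⟩ else 1) (fun i hi => by simp [hi])
    (fun i hi => Equiv.ext fun p => by
      rw [dif_pos hi]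
      by_cases hp : p < N
      · rw [D.ok.apply i hp]
        exact inj _ (b1 _ p hp).1 _ ((D.ok.tok i).symm p hp).1 ((b1 _ p hp).2.symm.trans (hc i hi p hp))
      · refine (b2 _ p hp).trans ?_
        simpa [wval, lval] using (tp_fix (wb := wb) (mask := mask) (tabs m th idT) [2 * i]
          (Nat.le_of_not_lt hp)).symm)
    (fun g p hp => (b1 g p hp).1) ⟨Nat.card_pos.ne', by
      have h1 := π.ker.index_mul_card
      rw [Subgroup.index_ker, show π.ker = Z.subgroupOf H from Subgroup.ext ker] at h1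
      exact Nat.le_of_mul_le_mul_right (h1.le.trans hT) Nat.card_pos⟩ fun _ => ker
  exact ⟨M, fun g p hp => e ▸ (b1 g p hp).2⟩

end models

end Cfsg.Agent.Lib.BT
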