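import Cfsg.Agent.Lib.BT2

/-! Consequences of a model: generation, fixed points of `p`-elements, automorphism groups,
conjugation by an element that normalises a subgroup. -/

set_option autoImplicit false

namespace Cfsg.Agent.Lib.BT

open Cfsg.Agent.Lib.PermNet Cfsg.Agent.Lib.Words Cfsg.Agent.Lib.PermGroup Cfsg.Agent.Lib.DCE
  Cfsg.Agent.Lib.PermModel

section chain
variable {W : Type*} [Group W] {π : W →* Equiv.Perm ℕ} {N wb mask : ℕ} {tt : TT} {f : ℕ → W}
  {A : Subgroup W}

theorem ChainP.word {ch : List Lv} {bs : List ℕ} (h : ChainP π f N A ch bs) {g : W} (hg : g ∈ A)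
    (hb : ∀ b ∈ bs, π g b = b) : ∃ w, π g = π (wval f w) := by
  induction ch generalizing bs g with
  | nil => exact ⟨[], by rw [h g hg hb, wval_nil, map_one]⟩
  | cons l ch ih =>
    obtain ⟨e, he, e1⟩ := h.2.1 g hg hb
    obtain ⟨a1, a2, a3⟩ := h.2.2.1 e he
    obtain ⟨w, hw⟩ := ih h.2.2.2 (mul_mem a1 hg) fun b hb' => by
      rw [map_mul, Equiv.Perm.mul_apply, ← Equiv.Perm.eq_inv_iff_eq]
      rcases List.mem_cons.1 hb' with rfl | hb'
      · rw [e1, a3]
      · rw [hb b hb', a2 b hb']
    exact ⟨invW e.2 ++ w, by rw [wval_append, wval_invW, map_mul, ← hw, map_inv, map_mul]; simp⟩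

theorem ChainP.pfix (hg : Good π N wb mask tt f) {okA : ℕ → Bool} {p j : ℕ} [Fact p.Prime]
    (k : ℕ) {ch : List Lv} {bs : List ℕ} (h : ChainP π f N A ch bs) (hbs : ∀ b ∈ bs, b < N)
    (hc : chB wb mask tt N okA ch bs = true) (hk : ∀ l ∈ ch.take k, ¬ p ∣ l.T.length)
    {c : W} (hA : c ∈ A) (hp : π c ^ p ^ j = 1) (hb : ∀ b ∈ bs, π c b = b) :
    ∃ g ∈ A, ∀ b ∈ ((ch.take k).map Lv.b).reverse ++ bs, π (g * c * g⁻¹) b = b := by
  induction k generalizing ch bs c with
  | zero => exact ⟨1, one_mem _, by simpa using hb⟩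
  | succ k ih =>
    cases ch with
    | nil => exact ⟨1, one_mem _, by simpa using hb⟩
    | cons l ch =>
      obtain ⟨-, hc⟩ := band_eq hc
      obtain ⟨h2, hc⟩ := band_eq hc
      have nd := (lvB_sound hg (A := ⊤) (fun _ _ => trivial) hbs h.1 l.T _ h2).2
      have key : ∀ c ∈ A, (∀ b ∈ bs, π c b = b) → ∀ x ∈ (l.T.map Prod.fst).toFinset,
          π c x ∈ (l.T.map Prod.fst).toFinset := fun c hc hb x hx => by
        obtain ⟨e, he, rfl⟩ := List.mem_map.1 (List.mem_toFinset.1 hx)
        obtain ⟨a1, a2, a3⟩ := h.2.2.1 e he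
        obtain ⟨e', he', e1⟩ := h.2.1 _ (mul_mem hc (inv_mem a1)) fun b hb' => by
          rw [map_mul, map_inv, Equiv.Perm.mul_apply, a2 b hb', hb b hb']
        rw [map_mul, map_inv, Equiv.Perm.mul_apply, a3] at e1
        exact List.mem_toFinset.2 (List.mem_map.2 ⟨e', he', e1.symm⟩)
      obtain ⟨⟨x, hx⟩, e1⟩ := Equiv.Perm.exists_fixed_point_of_prime (p := p) (n := j)
        (α := {x // x ∈ (l.T.map Prod.fst).toFinset}) (by
          rw [Fintype.card_coe, List.toFinset_card_of_nodup nd, List.length_map]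
          exact hk l (by simp))
        (σ := (π c).subtypePerm fun x => ⟨fun hx => by
          simpa using key c⁻¹ (inv_mem hA) (fun b hb' => by
            rw [map_inv, Equiv.Perm.inv_eq_iff_eq, hb b hb']) _ hx, key c hA hb x⟩)
        (by rw [Equiv.Perm.subtypePerm_pow]; exact Equiv.ext fun x => Subtype.ext (by simp [hp]))
      obtain ⟨e, he, rfl⟩ := List.mem_map.1 (List.mem_toFinset.1 hx)
      obtain ⟨a1, a2, a3⟩ := h.2.2.1 e he
      have e1 : π c e.1 = e.1 := congrArg Subtype.val e1
      obtain ⟨g, g1, g2⟩ := ih h.2.2.2 (by simpa using ⟨h.1, hbs⟩) hc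
        (fun l hl => hk l (by simp [hl])) (c := wval f e.2 * c * (wval f e.2)⁻¹)
        (mul_mem (mul_mem a1 hA) (inv_mem a1))
        (by rw [map_mul, map_mul, map_inv, conj_pow, hp]; simp) fun b hb' => by
          rw [map_mul, map_mul, map_inv, Equiv.Perm.mul_apply, Equiv.Perm.mul_apply,
            ← Equiv.Perm.eq_inv_iff_eq]
          rcases List.mem_cons.1 hb' with rfl | hb'
          · rw [a3, e1]
          · rw [a2 b hb', hb b hb']
      refine ⟨g * wval f e.2, mul_mem g1 a1, fun b hb' => ?_⟩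
      rw [show g * wval f e.2 * c * (g * wval f e.2)⁻¹ =
        g * (wval f e.2 * c * (wval f e.2)⁻¹) * g⁻¹ by group]
      exact g2 b (by simpa using hb')

end chain

section aut
variable {X : Type*} [Group X] {y : ℕ → X} {n : ℕ}

theorem card_le_steps [Finite X] (A : Subgroup (MulAut X)) (L : List (X × ℕ))
    (h : ∀ L1 e L2, L = L1 ++ e :: L2 → ∃ s : List X, s.length ≤ e.2 ∧
      ∀ φ ∈ A, (∀ a ∈ L1, φ a.1 = a.1) → φ e.1 ∈ s)
    (h1 : ∀ φ ∈ A, (∀ a ∈ L, φ a.1 = a.1) → φ = 1) : Nat.card A ≤ (L.map Prod.snd).prod := by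
  classical
  induction L generalizing A with
  | nil =>
    rw [show A = ⊥ from eq_bot_iff.2 fun φ hφ => h1 φ hφ (by simp)]
    simp
  | cons e L ih =>
    obtain ⟨s, s1, s2⟩ := h [] e L rfl
    have := ih (A ⊓ MulAction.stabilizer (MulAut X) e.1) (fun L1 a L2 hL => by
      obtain ⟨s, s1, s2⟩ := h (e :: L1) a L2 (by rw [hL]; rfl)
      exact ⟨s, s1, fun φ hφ hh => s2 φ hφ.1 (List.forall_mem_cons.2 ⟨hφ.2, hh⟩)⟩)
      fun φ hφ hh => h1 φ hφ.1 (List.forall_mem_cons.2 ⟨hφ.2, hh⟩)
    rw [← (MulAction.stabilizer A e.1).index_mul_card, MulAction.index_stabilizer, List.map_cons,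
      List.prod_cons]
    refine Nat.mul_le_mul (((Set.ncard_le_ncard (t := (s.toFinset : Set X)) (by
      rintro _ ⟨φ, rfl⟩
      exact List.mem_toFinset.2 (s2 φ φ.2 (by simp)))).trans (by
        rw [Set.ncard_coe_finset]; exact List.toFinset_card_le s)).trans s1) (le_trans ?_ this)
    exact Nat.card_le_card_of_injective (fun φ => ⟨φ.1.1, φ.1.2, φ.2⟩)
      fun a b e => Subtype.ext (Subtype.ext (Subtype.mk.inj e))

theorem aut_ext (top : gp y (sing n) = ⊤) {α : MulAut X} (h : ∀ i < n, α (y i) = y i) : α = 1 :=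
  MulEquiv.ext fun g => by
    obtain ⟨w, hw, rfl⟩ := exists_word (n := n) (ws := sing n) (by simp [sing])
      (top ▸ Subgroup.mem_top g)
    exact (map_wval α.toMonoidHom y w).trans (wval_congr h (by simpa using hw))

/-- Iterated substitution. -/
def itS (W : List (List ℕ)) : ℕ → List ℕ → List ℕ
  | 0, w => w
  | k + 1, w => subst W (itS W k w)

theorem exists_aut [Finite X] (top : gp y (sing n) = ⊤) {K W : List (List ℕ)} {k : ℕ}
    (hK : ∀ w ∈ K, wval y w = 1) (hK' : ∀ w ∈ K, wval y (subst W w) = 1)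
    (hub : ∀ z : ℕ → X × X, (∀ w ∈ K, wval z w = 1) → Nat.card (gp z (sing n)) ≠ 0 ∧
      Nat.card (gp z (sing n)) ≤ Nat.card X)
    (hW : W.all (fun w => w.all fun l => decide (l < 2 * n)) = true)
    (hk : ∀ i < n, wval y (itS W (k + 1) [2 * i]) = y i) :
    ∃ α : MulAut X, α ^ (k + 1) = 1 ∧ ∀ i < n, α (y i) = wval y (W.getD i []) := by
  let P := gp (fun i => (y i, wval y (W.getD i []))) (sing n)
  have hb : Nat.card P ≠ 0 ∧ Nat.card P ≤ Nat.card X :=
    hub _ (rels_pair hK fun w hw => by rw [← wval_subst]; exact hK' w hw)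
  have : Finite P := Nat.finite_of_card_ne_zero hb.1
  let p1 : P →* X := (MonoidHom.fst _ _).comp P.subtype
  have hs : Function.Surjective p1 := by
    rw [← MonoidHom.range_eq_top, MonoidHom.range_comp, Subgroup.range_subtype, map_gp]
    exact top
  have b1 := hs.bijective_of_nat_card_le hb.2
  let φ : X →* X :=
    ((MonoidHom.snd _ _).comp P.subtype).comp (MulEquiv.ofBijective _ b1).symm.toMonoidHom
  have hφ : ∀ i < n, φ (y i) = wval y (W.getD i []) := fun i hi => by
    have : (MulEquiv.ofBijective _ b1).symm (y i) =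
        ⟨_, mem_sing (fun i => (y i, wval y (W.getD i []))) hi⟩ :=
      (MulEquiv.symm_apply_eq _).2 rfl
    exact congrArg (fun x : P => x.1.2) this
  have hl : ∀ j w, (∀ l ∈ w, l < 2 * n) → (∀ l ∈ itS W j w, l < 2 * n) ∧
      φ^[j] (wval y w) = wval y (itS W j w) := fun j w hw => by
    induction j with
    | zero => exact ⟨hw, rfl⟩
    | succ j ih =>
      refine ⟨?_, by rw [Function.iterate_succ_apply', ih.2, itS, wval_subst, map_wval]
                     exact wval_congr hφ ih.1⟩
      rw [itS]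
      generalize itS W j w = v
      induction v with
      | nil => simp [subst]
      | cons a v ih =>
        have : ∀ l ∈ W.getD (a / 2) [], l < 2 * n := by
          rw [List.getD_eq_getElem?_getD]
          cases e : W[a / 2]? with
          | none => simp
          | some u => simpa using List.all_eq_true.1 hW u (List.mem_of_getElem? e)
        intro l hl
        rw [subst, List.mem_append] at hl
        rcases hl with hl | hl
        · split_ifs at hl
          · exact this l hl
          · obtain ⟨l', h', rfl⟩ := List.mem_map.1 (List.mem_reverse.1 hl)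
            have := this l' h'
            unfold invL; split_ifs <;> omega
        · exact ih l hl
  have hit : ∀ g, φ^[k + 1] g = g := fun g => by
    obtain ⟨w, hw, rfl⟩ := exists_word (n := n) (ws := sing n) (by simp [sing])
      (top ▸ Subgroup.mem_top g)
    refine (map_wval (MonoidHom.mk' φ^[k + 1] (iterate_map_mul φ _)) y w).trans
      (wval_congr (n := n) (fun i hi => ?_) (by simpa using hw))
    have := (hl (k + 1) [2 * i] (by simpa using hi)).2
    rw [hk i hi, wval_single] at this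
    exact this
  have hb := Function.Injective.bijective_of_finite
    (Function.LeftInverse.injective (g := φ^[k]) (f := φ) hit)
  refine ⟨MulEquiv.ofBijective φ hb, MulEquiv.ext fun g => ?_, hφ⟩
  have : ∀ j g, (MulEquiv.ofBijective φ hb ^ j : MulAut X) g = φ^[j] g := fun j => by
    induction j with
    | zero => exact fun _ => rfl
    | succ j ih => exact fun g => by rw [pow_succ, MulAut.mul_apply, ih]; rfl
  rw [this, hit]; rfl

end aut

/-- Automorphisms of odd order of `Q` are induced by `H` if `H` is large enough. -/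
theorem exists_lift {G : Type*} [Group G] {H Q : Subgroup G} [Finite H] [Finite Q]
    (hN : H ≤ Subgroup.normalizer Q) {z : G}
    (hC : ∀ g ∈ H, (∀ q ∈ Q, g * q = q * g) → g = 1 ∨ g = z)
    (hc : Nat.card (MulAut Q) ≤ Nat.card H) {α : MulAut Q} {k : ℕ} (hα : α ^ (2 * k + 1) = 1) :
    ∃ h ∈ H, ∀ q : Q, h * q * h⁻¹ = α q := by
  let ρ : H →* MulAut Q := Q.normalizerMonoidHom.comp (Subgroup.inclusion hN)
  have h1 : Nat.card ρ.ker ≤ 2 := by
    classical
    refine (Nat.card_le_card_of_injective (fun g : ρ.ker => decide ((g.1 : G) = 1)) fun a b e => ?_).trans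
      (by simp)
    have key : ∀ g : ρ.ker, (g.1 : G) = 1 ∨ (g.1 : G) = z := fun g => hC _ g.1.2 fun q hq =>
      mul_inv_eq_iff_eq_mul.1 (congrArg (fun φ : MulAut Q => (φ ⟨q, hq⟩ : G)) g.2)
    simp only [decide_eq_decide] at e
    refine Subtype.ext (Subtype.ext ?_)
    by_cases h : (a.1 : G) = 1
    · rw [h, e.1 h]
    · rw [(key a).resolve_left h, (key b).resolve_left (mt e.2 h)]
  have h2 := ρ.ker.index_mul_card
  have h3 := ρ.range.index_mul_card
  rw [Subgroup.index_ker] at h2
  have h4 : ρ.range.index ≤ 2 := Nat.le_of_mul_le_mul_right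
    (h3.le.trans (hc.trans (h2.ge.trans ((Nat.mul_le_mul_left _ h1).trans (mul_comm _ _).le))))
    Nat.card_pos
  have h5 : α * α ∈ ρ.range := by
    have := ρ.range.index_ne_zero_of_finite
    rcases (by omega : ρ.range.index = 1 ∨ ρ.range.index = 2) with h | h
    · rw [Subgroup.index_eq_one.1 h]; trivial
    · exact Subgroup.mul_self_mem_of_index_two h α
  obtain ⟨h, e⟩ := pow_mem h5 (k + 1)
  rw [← sq, ← pow_mul, show 2 * (k + 1) = 2 * k + 1 + 1 by ring, pow_succ, hα, one_mul] at e
  exact ⟨h, h.2, fun q => e ▸ rfl⟩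

/-- Elements of odd order that differ by a central involution are equal. -/
theorem rigid {G : Type*} [Group G] {a b z : G} {k : ℕ} (hz : z * z = 1) (hb : b * z = z * b)
    (h1 : a ^ (2 * k + 1) = 1) (h2 : b ^ (2 * k + 1) = 1) (h : a * b⁻¹ ∈ Subgroup.zpowers z) :
    a = b := by
  obtain ⟨j, hj⟩ := h
  change z ^ j = _ at hj
  have hc : Commute (z ^ j) b := (Commute.symm hb).zpow_left j
  have h3 : (z ^ j) ^ 2 = 1 := by
    rw [← zpow_natCast, ← zpow_mul, mul_comm, zpow_mul, zpow_natCast, sq, hz, one_zpow]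
  rw [eq_comm, mul_inv_eq_iff_eq_mul] at hj
  rw [hj, hc.mul_pow, h2, mul_one, pow_succ, pow_mul, h3, one_pow, one_mul] at h1
  rw [hj, h1, one_mul]

theorem mem_zpowers_two {G : Type*} [Group G] {a z : G} (hz : z * z = 1) :
    a ∈ Subgroup.zpowers z ↔ a = 1 ∨ a = z := by
  refine ⟨?_, by rintro (rfl | rfl); exacts [one_mem _, Subgroup.mem_zpowers _]⟩
  rintro ⟨j, rfl⟩
  have h2 : z ^ (2 : ℤ) = 1 := by rw [zpow_two, hz]
  rcases Int.even_or_odd' j with ⟨i, rfl | rfl⟩ <;> simp [zpow_add, zpow_mul, h2]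

/-- The product `t c₁ t c₂ ⋯`. -/
def tv {G : Type*} [Group G] (t : G) (F : ℕ → G) (cs : List (List ℕ)) : G :=
  (cs.map fun c => t * wval F c).prod

/-- Conjugate the word `k` by `t c₁ t c₂ ⋯`; `t` conjugates the words `us` to the words `vs`. -/
noncomputable def tchain (wb mask : ℕ) (tt : TT) (B : List ℕ) (us vs : List (List ℕ))
    (k : List ℕ) (st : List (List ℕ × List ℕ)) : (List ℕ → Bool) → Bool :=
  List.rec (motive := fun _ => (List ℕ → Bool) → Bool) (fun P => P k)
    (fun e _ ih P => ih fun k1 => band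
      (fixW wb mask tt B (e.1 ++ (k1 ++ (invW e.1 ++ invW (subst us e.2))))) (P (subst vs e.2))) st

/-- One step in the bound for the automorphism group. -/
structure AS where
  i : ℕ
  eqs : List (List ℕ)
  neqs : List (List ℕ)
  L : List (List ℕ)
  ct : CT

noncomputable def memLL (L : List (List ℕ)) (u : List ℕ) : Bool :=
  List.rec (motive := fun _ => Bool) false (fun b _ ih => bif' (eqL u b) true ih) L

theorem memLL_mem {L : List (List ℕ)} {u : List ℕ} (h : memLL L u = true) : u ∈ L := by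
  induction L with
  | nil => exact Bool.noConfusion h
  | cons b l ih =>
    change (bif' (eqL u b) true (memLL l u)) = true at h
    cases hb : eqL u b
    · rw [hb] at h; exact List.mem_cons_of_mem _ (ih h)
    · rw [eqL_eq hb]; exact List.mem_cons_self

/-- Replace the letter `nv` by the letter `i`. -/
def ren (nv i : ℕ) (w : List ℕ) : List ℕ := w.map fun l => if l / 2 = nv then 2 * i + l % 2 else l

theorem wval_ren {G : Type*} [Group G] (y : ℕ → G) (nv i : ℕ) (w : List ℕ) :
    wval y (ren nv i w) = wval (Function.update y nv (y i)) w := by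
  induction w with
  | nil => rfl
  | cons l w ih =>
    rw [ren, List.map_cons, wval_cons, wval_cons, ← ih]
    congr 1
    unfold lval
    by_cases h : l / 2 = nv
    · rw [if_pos h, h, Function.update_self, show (2 * i + l % 2) % 2 = l % 2 by omega,
        show (2 * i + l % 2) / 2 = i by omega]
    · rw [if_neg h, Function.update_of_ne h]

noncomputable def autB (wb mask : ℕ) (tt : TT) (N nv : ℕ) (B : List ℕ) (ch : List Lv) :
    List AS → List ℕ → Bool
  | [], _ => true
  | s :: r, J => band (allL (allL (okL (nv :: J))) (s.eqs ++ s.neqs))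
    (band (allL (fixW wb mask tt B) (s.eqs.map (ren nv s.i)))
    (band (allL (fun w => bnot (fixW wb mask tt B w)) (s.neqs.map (ren nv s.i)))
    (band (solveB wb mask tt N nv B (fun _ => true) ch 0 [] [] [] s.eqs s.neqs [] (memLL s.L) id []
      s.ct) (autB wb mask tt N nv B ch r (s.i :: J)))))

namespace Model
variable {G : Type*} [Group G] {F : ℕ → G} {H Z : Subgroup G} {N wb mask : ℕ} {tt : TT}
  {B : List ℕ} {T : ℕ} (M : Model F H Z N wb mask tt B T)
include M

theorem word {ch : List Lv} (h : M.Ch H ch) {g : G} (hg : g ∈ H) :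
    ∃ w, ∃ z ∈ Z, g = wval F w * z := by
  obtain ⟨w, e⟩ := ChainP.word h (g := ⟨g, hg⟩) hg (by simp)
  exact ⟨w, _, (M.ker ((wval M.y w)⁻¹ * ⟨g, hg⟩)).1 (by rw [map_mul, e, map_inv, inv_mul_cancel]),
    by simp [M.val]⟩

theorem gen {ch : List Lv} (h : M.Ch H ch) {K : Subgroup G} (h1 : ∀ i, F i ∈ K) (h2 : Z ≤ K) :
    H ≤ K := fun g hg => by
  obtain ⟨w, z, hz, rfl⟩ := M.word h hg
  exact mul_mem (wval_mem fun l _ => h1 _) (h2 hz)

theorem pfix {A : Subgroup G} {ch : List Lv} (hch : M.Ch A ch) {okA : ℕ → Bool}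
    (hc : chB wb mask tt N okA ch [] = true) {p j : ℕ} (hp : p.Prime) (k : ℕ)
    (hk : (ch.take k).all (fun l => decide (¬ p ∣ l.T.length)) = true) {c : G} (hcH : c ∈ H)
    (hA : c ∈ A) (h1 : c ^ p ^ j ∈ Z) :
    ∃ g : H, g.1 ∈ A ∧ ∀ b ∈ (ch.take k).map Lv.b, M.π (g * ⟨c, hcH⟩ * g⁻¹) b = b := by
  have := Fact.mk hp
  obtain ⟨g, g1, g2⟩ := ChainP.pfix M.good (p := p) (j := j) k hch (by simp) hc (by simpa using hk)
    (c := ⟨c, hcH⟩) hA (by rw [← map_pow, M.ker]; exact h1) (by simp)
  exact ⟨g, g1, fun b hb => g2 b (by simpa using hb)⟩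

theorem conj_pt {s : ℕ → G} (hs : ∀ g : H, ∀ p < N, g * s p * (g : G)⁻¹ = s (M.π g p))
    (w : List ℕ) (p q : ℕ) (h : band (Nat.blt p N) (Nat.beq (ap1i wb mask tt w p) q) = true) :
    wval F w * s p * (wval F w)⁻¹ = s q := by
  obtain ⟨h1, h2⟩ := band_eq h
  rw [← M.val, hs _ p (blt_lt h1), ← ap1i_eq M.good w (blt_lt h1), beq_eq h2]

theorem trans_pt {s : ℕ → G} (hs : ∀ g : H, ∀ p < N, g * s p * (g : G)⁻¹ = s (M.π g p))
    {l : Lv} {ch : List Lv} (hch : M.Ch H (l :: ch))
    (h : allR (memL (l.T.map Prod.fst)) 0 N = true) {p : ℕ} (hp : p < N) :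
    ∃ g ∈ H, g * s l.b * g⁻¹ = s p := by
  obtain ⟨e, he, rfl⟩ := List.mem_map.1 (memL_mem (allR_all h p (Nat.zero_le _) (by simpa using hp)))
  exact ⟨_, ((wval M.y e.2)⁻¹).2, by rw [hs _ _ hch.1, map_inv, (hch.2.2.1 e he).2.2]⟩

end Model

namespace Model
variable {G : Type*} [Group G] {F : ℕ → G} {H : Subgroup G} {N wb mask : ℕ} {tt : TT}
  {B : List ℕ} {T : ℕ} (M : Model F H ⊥ N wb mask tt B T)
include M

theorem one (w : List ℕ) (h : fixW wb mask tt B w = true) : wval F w = 1 :=
  M.val w ▸ (M.ker _).1 (M.pi_eq h)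

theorem ne_one (w : List ℕ) (h : bnot (fixW wb mask tt B w) = true) : wval F w ≠ 1 :=
  M.nrels [w] (allL_of fun _ hu => List.mem_singleton.1 hu ▸ h) w List.mem_cons_self

theorem eq (u v : List ℕ) (h : fixW wb mask tt B (u ++ invW v) = true) : wval F u = wval F v := by
  have := M.one _ h
  rwa [wval_append, wval_invW, mul_inv_eq_one] at this

theorem ne (u v : List ℕ) (h : bnot (fixW wb mask tt B (u ++ invW v)) = true) :
    wval F u ≠ wval F v := by
  have := M.ne_one _ h
  rwa [wval_append, wval_invW, Ne, mul_inv_eq_one] at this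

theorem tchain_sound {t : G} {us vs : List (List ℕ)}
    (ht : ∀ i, t * wval F (us.getD i []) = wval F (vs.getD i []) * t) (k : List ℕ)
    (st : List (List ℕ × List ℕ)) (P : List ℕ → Bool) (h : tchain wb mask tt B us vs k st P = true) :
    ∃ k', tv t F (st.map Prod.fst) * wval F k = wval F k' * tv t F (st.map Prod.fst) ∧
      P k' = true := by
  induction st generalizing P with
  | nil => exact ⟨k, by simp [tv], h⟩
  | cons e st ih =>
    obtain ⟨k1, e1, h⟩ := ih _ h
    obtain ⟨h1, h2⟩ := band_eq h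
    have := M.one _ h1
    rw [wval_append, wval_append, wval_append, wval_invW, wval_invW, ← mul_inv_rev, ← mul_assoc,
      mul_inv_eq_one] at this
    refine ⟨_, ?_, h2⟩
    simp only [tv, List.map_cons, List.prod_cons] at e1 ⊢
    rw [mul_assoc, e1, mul_assoc, ← mul_assoc (wval F e.1), this, mul_assoc, ← mul_assoc t,
      conj_subst ht, mul_assoc, mul_assoc]

theorem tchain_comm {t : G} {us vs : List (List ℕ)}
    (ht : ∀ i, t * wval F (us.getD i []) = wval F (vs.getD i []) * t) (k : List ℕ)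
    (st : List (List ℕ × List ℕ)) (k2 : List ℕ)
    (h : tchain wb mask tt B us vs k st (fun k' => fixW wb mask tt B (k' ++ invW k2)) = true) :
    tv t F (st.map Prod.fst) * wval F k = wval F k2 * tv t F (st.map Prod.fst) := by
  obtain ⟨k', e, h⟩ := M.tchain_sound ht k st _ h
  rw [e, M.eq _ _ h]

theorem card_aut [Finite H] {ch : List Lv} (hch : M.Ch H ch) {n nv : ℕ}
    (top : gp M.y (sing n) = ⊤) (st : List AS) (J : List ℕ)
    (hJ : ∀ φ : MulAut H, ∀ j ∈ J, φ (M.y j) = M.y j) (h : autB wb mask tt N nv B ch st J = true)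
    (hn : (List.range n).all (fun i => (J ++ st.map AS.i).contains i) = true) :
    Nat.card (MulAut H) ≤ (st.map fun s => s.L.length).prod := by
  have key : ∀ (st : List AS) (J : List ℕ), autB wb mask tt N nv B ch st J = true →
      ∀ L1 e L2, st = L1 ++ e :: L2 → ∀ φ : MulAut H, (∀ j ∈ J, φ (M.y j) = M.y j) →
      (∀ a ∈ L1, φ (M.y a.i) = M.y a.i) → φ (M.y e.i) ∈ e.L.map (wval M.y) := by
    intro st J h L1
    induction L1 generalizing st J with
    | cons a L1 ih =>
      rintro e L2 rfl φ h1 h2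
      exact ih _ (a.i :: J) (band_eq (band_eq (band_eq (band_eq h).2).2).2).2 e L2 rfl φ
        (List.forall_mem_cons.2 ⟨h2 a List.mem_cons_self, h1⟩)
        fun b hb => h2 b (List.mem_cons_of_mem _ hb)
    | nil =>
      rintro e L2 rfl φ h1 -
      obtain ⟨b1, h⟩ := band_eq h
      obtain ⟨b2, h⟩ := band_eq h
      obtain ⟨b3, h⟩ := band_eq h
      have hv : ∀ u ∈ e.eqs ++ e.neqs, wval (Function.update F nv (φ (M.y e.i))) u =
          φ (wval M.y (ren nv e.i u)) := fun u hu => by
        rw [← M.val_update, wval_ren]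
        refine congrArg Subtype.val (Eq.trans ?_ (map_wval φ.toMonoidHom _ u).symm)
        refine congrArg List.prod (List.map_congr_left fun l hl => ?_)
        have := memL_mem (allL_all (allL_all b1 u hu) l hl)
        rw [show Nat.shiftRight l (nat_lit 1) = l / 2 from Nat.shiftRight_one l] at this
        unfold lval
        by_cases hn : l / 2 = nv
        · simp [hn]
        · simp [Function.update_of_ne hn, h1 _ ((List.mem_cons.1 this).resolve_left hn)]
      obtain ⟨g, hg, u, hu, z, hz, e1⟩ := M.solve hch (fun l _ => (M.hy _) ▸ (M.y _).2)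
        (band_eq h).1 (φ (M.y e.i)).2 (φ (M.y e.i)).2 (Or.inl rfl) List.Forall₂.nil
        (fun u hu => by
          rw [hv u (List.mem_append_left _ hu), show wval M.y (ren nv e.i u) = 1 from
            Subtype.ext ((M.val _).trans (M.rels _ b2 _ (List.mem_map_of_mem hu))), map_one]
          exact one_mem _)
        fun u hu h => M.nrels _ b3 _ (List.mem_map_of_mem hu) (by
          rw [hv u (List.mem_append_right _ hu), Subgroup.mem_bot, OneMemClass.coe_eq_one,
            map_eq_one_iff _ φ.injective] at h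
          rw [← M.val, h]; exact one_mem _)
      rw [show g = 1 by simpa [sl, gp_nil] using hg, Subgroup.mem_bot.1 hz, one_mul, mul_one,
        ← M.val] at e1
      exact List.mem_map.2 ⟨u, memLL_mem hu, Subtype.ext e1.symm⟩
  have := card_le_steps ⊤ (st.map fun s => (M.y s.i, s.L.length)) (fun L1 e L2 hL => by
    obtain ⟨l1, l2, rfl, rfl, h2⟩ := List.map_eq_append_iff.1 hL
    obtain ⟨a, l2, rfl, rfl, rfl⟩ := List.map_eq_cons_iff.1 h2
    exact ⟨_, by simp, fun φ _ hh => key _ J h l1 a l2 rfl φ (hJ φ)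
      fun b hb => hh _ (List.mem_map_of_mem hb)⟩) fun φ _ hh => aut_ext top fun i hi => by
      have := List.all_eq_true.1 hn i (List.mem_range.2 hi)
      rw [List.contains_iff_mem, List.mem_append] at this
      rcases this with h | h
      · exact hJ φ i h
      · obtain ⟨a, ha, rfl⟩ := List.mem_map.1 h
        exact hh _ (List.mem_map_of_mem ha)
  rwa [Subgroup.card_top, List.map_map] at this

end Model

end Cfsg.Agent.Lib.BT
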