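import Cfsg.Agent.Lib.BT3
import Cfsg.Agent.Lib.DCE7

/-! Further tools for models: lifting automorphisms, transport along a conjugation, collapse of a
double coset enumeration. -/

set_option autoImplicit false

namespace Cfsg.Agent.Lib.BT

open Cfsg.Agent.Lib.PermNet Cfsg.Agent.Lib.Words Cfsg.Agent.Lib.PermGroup Cfsg.Agent.Lib.DCE
  Cfsg.Agent.Lib.PermModel

/-- The word fixes all points. -/
noncomputable def fixA (wb mask : ℕ) (tt : TT) (N : ℕ) (w : List ℕ) : Bool :=
  allR (fun p => Nat.beq (ap1 wb mask tt w p) p) (nat_lit 0) N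

theorem TabsOK.relsA {N wb mask m idT : ℕ} {th : TT} (h : TabsOK N wb mask m th idT)
    (R : List (List ℕ)) (hR : allL (fixA wb mask (tabs m th idT) N) R = true) :
    ∀ w ∈ R, wval (tp N wb mask (tabs m th idT)) w = 1 := fun w hw => Equiv.ext fun p => by
  by_cases hp : p < N
  · have := beq_eq (allR_all (allL_all hR w hw) p (Nat.zero_le _) (by simpa using hp))
    rw [ap1_eq h.good w hp, MonoidHom.id_apply, Equiv.Perm.inv_eq_iff_eq] at this
    exact this.symm
  · exact tp_fix _ w (Nat.le_of_not_lt hp)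

noncomputable def lf (l : List (ℕ × List ℕ)) : CT :=
  List.rec (motive := fun _ => CT) .nil (fun e _ ih => .leaf e.1 e.2 ih) l

noncomputable def nd (l : List (ℕ × CT)) : CT :=
  List.rec (motive := fun _ => CT) .nil (fun e _ ih => .node e.1 [] [] (nat_lit 0) e.2 ih) l

/-- All letters are below `n`. -/
abbrev lt2 (n : ℕ) (w : List ℕ) : Bool := w.all fun l => decide (l < 2 * n)

section words
variable {G : Type*} [Group G] {f F : ℕ → G} {n : ℕ} {t : G} {us vs : List (List ℕ)}

theorem ext_mem (f : ℕ → G) (n : ℕ) {defs : List (List ℕ)} (h : defsOK n defs = true) (i : ℕ) :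
    ext f n defs i ∈ gp f (sing n) := by
  rw [← map_ext' (gp f (sing n)).subtype (fun i => if h : i < n then ⟨f i, mem_sing f h⟩ else 1) _
    (fun i hi => by rw [ext_of_lt _ _ hi]; simp [hi]) (ext_rels f n defs h) h
    (fun i hi => ext_out _ hi) i]
  exact SetLike.coe_mem _

theorem letter_eq (f : ℕ → G) (n : ℕ) (defs : List (List ℕ)) (i : ℕ) (w : List ℕ)
    (h : (defsOK n defs && (defRels n defs).contains ((2 * i + 1) :: w)) = true) :
    ext f n defs i = wval (ext f n defs) w := by
  rw [Bool.and_eq_true, List.contains_iff_mem] at h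
  have := ext_rels f n defs h.1 _ h.2
  rwa [wval_odd, inv_mul_eq_one] at this

theorem conj_word {c : G} {W : List (List ℕ)} (h : ∀ j < n, c * F j * c⁻¹ = wval F (W.getD j []))
    {u : List ℕ} (hu : lt2 n u = true) : c * wval F u * c⁻¹ = wval F (subst W u) := by
  rw [wval_subst]
  exact (map_wval (MulAut.conj c).toMonoidHom F u).trans (wval_congr h (by simpa using hu))

theorem comm_word {c : G} (L : List ℕ) (h : ∀ i ∈ L, F i * c = c * F i) {u : List ℕ}
    (hu : allL (okL L) u = true) : wval F u * c = c * wval F u :=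
  Subgroup.mem_centralizer_singleton_iff.1 (wval_mem fun l hl => by
    have := memL_mem (allL_all hu l hl)
    exact Subgroup.mem_centralizer_singleton_iff.2 (h _ (Nat.shiftRight_one l ▸ this)))

theorem mem_word {K : Subgroup G} (L : List ℕ) (h : ∀ i ∈ L, F i ∈ K) {u : List ℕ}
    (hu : allL (okL L) u = true) : wval F u ∈ K :=
  wval_mem fun l hl => h _ (Nat.shiftRight_one l ▸ memL_mem (allL_all hu l hl))

/-- `t` conjugates the words `us` to the words `vs`. -/
def Cj (t : G) (F : ℕ → G) (us vs : List (List ℕ)) : Prop :=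
  ∀ i, t * wval F (us.getD i []) = wval F (vs.getD i []) * t

theorem Cj.nil : Cj t F [] [] := fun _ => by simp

theorem Cj.cons {u v : List ℕ} (h1 : t * wval F u = wval F v * t) (h : Cj t F us vs) :
    Cj t F (u :: us) (v :: vs) := fun i => by
  cases i
  exacts [h1, h _]

theorem Cj.comm (h : Cj t F us vs) {r : G} (p : List ℕ)
    (hr : r * wval F (subst us p) = wval F (subst us p) * r) :
    t * r * t⁻¹ * wval F (subst vs p) = wval F (subst vs p) * (t * r * t⁻¹) := by
  rw [← mul_inv_eq_iff_eq_mul.2 (conj_subst h p), conj_mul, conj_mul, hr]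

theorem Cj.transport (h : Cj t F us vs) (r : List ℕ) (nv : ℕ) (ps : List (List ℕ))
    (h1 : ∀ w ∈ ps.map (subst (r :: us)), wval F w = 1) (hv : vs.all (lt2 nv) = true) :
    ∀ w ∈ ps.map (subst ([2 * nv] :: vs)),
      wval (Function.update F nv (t * wval F r * t⁻¹)) w ∈ (⊥ : Subgroup G) := by
  intro w hw
  obtain ⟨p, hp, rfl⟩ := List.mem_map.1 hw
  have := congrArg (MulAut.conj t).toMonoidHom (h1 _ (List.mem_map_of_mem hp))
  rw [map_one, wval_subst, map_wval] at this
  rw [Subgroup.mem_bot, wval_subst, ← this]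
  congr 1
  funext i
  cases i with
  | zero => rw [List.getD_cons_zero, wval_single, Function.update_self]; rfl
  | succ i =>
    rw [List.getD_cons_succ, List.getD_cons_succ]
    refine Eq.trans (wval_congr (n := nv) (fun j hj => Function.update_of_ne hj.ne _ _) ?_)
      (eq_mul_inv_of_mul_eq (h i).symm)
    rw [List.getD_eq_getElem?_getD]
    cases e : vs[i]? with
    | none => simp
    | some u => simpa using List.all_eq_true.1 hv u (List.mem_of_getElem? e)

theorem comm_pairs {c : G} {Z : Subgroup G} (ws : List (List ℕ))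
    (h : ∀ w ∈ ws, c * wval F w = wval F w * c) :
    List.Forall₂ (fun x y => c * wval F x * c⁻¹ * (wval F y)⁻¹ ∈ Z) ws ws :=
  List.forall₂_same.2 fun w hw => by rw [h w hw]; simp

theorem tv_rep (k : ℕ) (cs : List (List ℕ)) :
    tv t F (List.replicate k cs).flatten = tv t F cs ^ k := by
  induction k with
  | zero => simp [tv]
  | succ k ih =>
    rw [List.replicate_succ, List.flatten_cons, pow_succ', ← ih, tv, List.map_append,
      List.prod_append]; rfl

theorem pow_swap {a b : G} {k : ℕ} (h : (a * b) ^ k = 1) : (b * a) ^ k = 1 := by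
  rw [show b * a = b * (a * b) * b⁻¹ by group, conj_pow, h]; simp

/-- The relators of the amalgam. -/
def amRels (n : ℕ) (us vs : List (List ℕ)) (rs : List (List (List ℕ))) : List (List ℕ) :=
  (us.zip vs).map (fun p => p.2 ++ 2 * n :: (invW p.1 ++ [2 * n + 1])) ++
    [2 * n, 2 * n] :: rs.map fun cs => cs.flatMap (2 * n :: ·)

theorem amRels_one (hF : ∀ i < n, f i = F i) (h : Cj t F us vs) (ht : t * t = 1)
    {rs : List (List (List ℕ))} (hr : ∀ cs ∈ rs, tv t F cs = 1)
    (hb : (us.all (lt2 n) && vs.all (lt2 n) && rs.all (·.all (lt2 n))) = true) :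
    ∀ w ∈ amRels n us vs rs, wval (Function.update f n t) w = 1 := by
  simp only [Bool.and_eq_true, List.all_eq_true (p := lt2 n), List.all_eq_true (l := rs)] at hb
  have e : ∀ w, lt2 n w = true → wval (Function.update f n t) w = wval F w := fun w hw =>
    wval_congr (n := n) (fun j hj => (Function.update_of_ne hj.ne _ _).trans (hF j hj))
      (by simpa using hw)
  have e0 : lval (Function.update f n t) (2 * n) = t := by simp [lval]
  refine all_append (fun w hw => ?_) (List.forall_mem_cons.2 ⟨by simp [wval_cons, e0, ht],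
    fun w hw => ?_⟩)
  · obtain ⟨p, hp, rfl⟩ := List.mem_map.1 hw
    obtain ⟨i, hi, rfl⟩ := List.mem_iff_getElem.1 hp
    rw [List.length_zip, lt_min_iff] at hi
    have := h i
    rw [List.getD_eq_getElem _ _ hi.1, List.getD_eq_getElem _ _ hi.2] at this
    rw [List.getElem_zip, wval_append, wval_cons, wval_append, wval_invW, wval_odd, e0,
      e _ (hb.1.1 _ (List.getElem_mem _)), e _ (hb.1.2 _ (List.getElem_mem _)), ← mul_assoc,
      ← this, Function.update_self]
    simp
  · obtain ⟨cs, hc, rfl⟩ := List.mem_map.1 hw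
    rw [← hr cs hc]
    have := hb.2 cs hc
    clear hw hc
    induction cs with
    | nil => rfl
    | cons c cs ih =>
      rw [List.flatMap_cons, wval_append, wval_cons, e0, e c (this c List.mem_cons_self),
        ih fun x hx => this x (List.mem_cons_of_mem _ hx)]
      rfl

end words

/-- A faithful model from a homomorphism. -/
theorem TM.hmodel {G : Type*} [Group G] [Finite G] {f : ℕ → G} {n0 N wb mask m idT T : ℕ} {th : TT}
    {defs : List (List ℕ)} {ch : List Lv} (D : TM n0 N wb mask m idT T th defs ch)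
    (top : gp f (sing n0) = ⊤) (φ : G →* Equiv.Perm ℕ)
    (hφ : ∀ i < n0, φ (f i) = tp N wb mask (tabs m th idT) i) (hT : Nat.card G ≤ T) :
    Nonempty (Model (ext f n0 defs) ⊤ ⊥ N wb mask (tabs m th idT) (ch.map Lv.b) T) := by
  let π := φ.comp (⊤ : Subgroup G).subtype
  have hs := π.rangeRestrict_surjective
  have := Finite.of_surjective _ hs
  have hle := Nat.card_le_card_of_surjective _ hs
  rw [Subgroup.card_top] at hle
  obtain ⟨M, -⟩ := D.mk_model (f := f) (Z := ⊥) π (fun i => ⟨f i, trivial⟩) (fun _ _ => rfl) hφ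
    (fun g p hp => by
      obtain ⟨w, hw, e⟩ := exists_word (n := n0) (ws := sing n0) (by simp [sing])
        (top.ge (Subgroup.mem_top g.1))
      have : π g = wval _ w := (congrArg φ e).symm.trans
        ((map_wval φ f w).trans (wval_congr hφ (by simpa using hw)))
      rw [this]
      exact D.ok.good.lt' w hp) ⟨Nat.card_pos.ne', hle.trans hT⟩ fun h g => by
      have hi := (hs.bijective_of_nat_card_le (by rw [Subgroup.card_top]; omega)).1
      rw [Subgroup.mem_bot, OneMemClass.coe_eq_one]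
      exact ⟨fun e => hi (Subtype.ext (e.trans (map_one π).symm)), fun e => by rw [e, map_one]⟩
  exact ⟨M⟩

namespace Model
variable {G : Type*} [Group G] {F : ℕ → G} {H Z : Subgroup G} {N wb mask : ℕ} {tt : TT}
  {B : List ℕ} {T : ℕ} (M : Model F H Z N wb mask tt B T)
include M

theorem lmem (i : ℕ) : F i ∈ H := M.hy i ▸ (M.y i).2

theorem top {n : ℕ} (h : gp F (sing n) = H) : gp M.y (sing n) = ⊤ := by
  apply Subgroup.map_injective H.subtype_injective
  rw [map_gp, ← MonoidHom.range_eq_map, Subgroup.range_subtype]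
  exact (congrArg (gp · _) (funext M.hy)).trans h

theorem rel (w : List ℕ) (h : fixW wb mask tt B w = true) : wval F w ∈ Z :=
  M.val w ▸ (M.ker _).1 (M.pi_eq h)

theorem nrel (w : List ℕ) (h : bnot (fixW wb mask tt B w) = true) : wval F w ∉ Z :=
  M.nrels [w] (allL_of fun _ hu => List.mem_singleton.1 hu ▸ h) w List.mem_cons_self

theorem fix_pt {s : ℕ → G} {n : ℕ} (hs : ∀ g : H, ∀ p < n, M.π g p < n ∧
    g * s p * (g : G)⁻¹ = s (M.π g p)) (inj : ∀ p < n, ∀ q < n, s p = s q → p = q) {c : G}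
    (hc : c ∈ H) {b : ℕ} (hb : b < n) (h : c * s b = s b * c) : M.π ⟨c, hc⟩ b = b :=
  inj _ (hs _ b hb).1 _ hb ((hs ⟨c, hc⟩ b hb).2.symm.trans (mul_inv_eq_iff_eq_mul.2 h))

omit M in
/-- Two conjugates of words of odd order. -/
theorem rigid {z : G} (M : Model F H (Subgroup.zpowers z) N wb mask tt B T) (hz : z * z = 1)
    (hc : ∀ g ∈ H, g * z = z * g) (k : ℕ) (u a v b : List ℕ) (ha : wval F a ^ (2 * k + 1) = 1)
    (hb : wval F b ^ (2 * k + 1) = 1)
    (h : fixW wb mask tt B (u ++ a ++ invW u ++ invW (v ++ b ++ invW v)) = true) :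
    wval F u * wval F a * (wval F u)⁻¹ = wval F v * wval F b * (wval F v)⁻¹ := by
  have := M.rel _ h
  simp only [wval_append, wval_invW] at this
  exact BT.rigid hz (hc _ (mul_mem (mul_mem (M.mem v) (M.mem b)) (inv_mem (M.mem v))))
    (by rw [conj_pow, ha]; simp) (by rw [conj_pow, hb]; simp) this

end Model

namespace Model
variable {G : Type*} [Group G] {F : ℕ → G} {H : Subgroup G} {N wb mask : ℕ} {tt : TT}
  {B : List ℕ} {T : ℕ} (M : Model F H ⊥ N wb mask tt B T)
include M

theorem comm (u v : List ℕ) (h : fixW wb mask tt B ((u ++ v) ++ invW (v ++ u)) = true) :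
    wval F u * wval F v = wval F v * wval F u := by
  rw [← wval_append, ← wval_append, M.eq _ _ h]

theorem cj (u v w : List ℕ) (h : fixW wb mask tt B ((u ++ v ++ invW u) ++ invW w) = true) :
    wval F u * wval F v * (wval F u)⁻¹ = wval F w := by
  rw [← M.eq _ _ h, wval_append, wval_append, wval_invW]

theorem pow (u : List ℕ) (k : ℕ) (h : fixW wb mask tt B (rep k u) = true) : wval F u ^ k = 1 := by
  rw [← wval_rep, M.one _ h]

theorem link {n0 n : ℕ} (top : gp F (sing n0) = H) (hn : n ≤ N) (sw : List (List ℕ))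
    (h : AllR (fun l => allR (fun p => forceB (ap1i wb mask tt [l] p) fun q => band (Nat.blt q n)
      (fixW wb mask tt B (([l] ++ getW sw p ++ invW [l]) ++ invW (getW sw q)))) (nat_lit 0) n = true)
      0 (2 * n0)) (g : H) : ∀ p < n, M.π g p < n ∧
      g * wval F (getW sw p) * (g : G)⁻¹ = wval F (getW sw (M.π g p)) := by
  obtain ⟨w, hw, rfl⟩ := exists_word (n := n0) (ws := sing n0) (by simp [sing])
    (M.top top ▸ Subgroup.mem_top g)
  induction w with
  | nil => simp
  | cons l w ih =>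
    intro p hp
    rw [List.all_cons, Bool.and_eq_true, decide_eq_true_eq] at hw
    obtain ⟨i1, i2⟩ := ih hw.2 p hp
    obtain ⟨j1, j2⟩ := band_eq (allR_all (h l (Nat.zero_le _) hw.1) _ (Nat.zero_le _)
      (by simpa using i1))
    rw [ap1i_eq M.good _ (i1.trans_le hn)] at j1 j2
    rw [show l :: w = [l] ++ w from rfl, wval_append, map_mul, Equiv.Perm.mul_apply]
    refine ⟨blt_lt j1, ?_⟩
    rw [← M.cj _ _ _ j2, ← i2, ← M.val [l]]
    simp [mul_assoc]

theorem lift [Finite H] {L : Subgroup G} [Finite L] (hN : L ≤ Subgroup.normalizer H) (hL : H ≤ L)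
    {z : G} (hz : z * z = 1) (hzL : z ∈ L) (hc : ∀ g ∈ L, g * z = z * g)
    (hC : ∀ g ∈ L, (∀ q ∈ H, g * q = q * g) → g = 1 ∨ g = z)
    (hA : Nat.card (MulAut H) ≤ Nat.card L) {n : ℕ} (top : gp F (sing n) = H) {K : List (List ℕ)}
    (hK : ∀ w ∈ K, wval F w = 1) (hub : ∀ y : ℕ → H × H, (∀ w ∈ K, wval y w = 1) →
      Nat.card (gp y (sing n)) ≠ 0 ∧ Nat.card (gp y (sing n)) ≤ Nat.card H)
    (W : List (List ℕ)) (k : ℕ) (h : (band (W.all (lt2 n)) (band
      (allL (fixW wb mask tt B) (K.map (subst W))) (allR (fun i => fixW wb mask tt B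
        (itS W (2 * k + 1) [2 * i] ++ invW [2 * i])) 0 n))) = true) :
    ∃ g ∈ L, g ^ (2 * k + 1) = 1 ∧ ∀ i < n, g * F i * g⁻¹ = wval F (W.getD i []) := by
  obtain ⟨h1, h⟩ := band_eq h
  obtain ⟨h2, h3⟩ := band_eq h
  obtain ⟨α, a1, a2⟩ := exists_aut (M.top top) (K := K) (W := W) (k := 2 * k)
    (fun w hw => Subtype.ext ((M.val w).trans (hK w hw)))
    (fun w hw => Subtype.ext ((M.val _).trans (M.rels _ h2 _ (List.mem_map_of_mem hw)))) hub h1
    fun i hi => Subtype.ext (by
      rw [M.val, M.eq _ _ (allR_all h3 i (Nat.zero_le _) (by simpa using hi)), wval_single, M.hy])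
  obtain ⟨g, hg, e⟩ := exists_lift hN hC hA a1
  have e1 : ∀ i < n, g * F i * g⁻¹ = wval F (W.getD i []) := fun i hi => by
    rw [← M.hy, e, a2 i hi, M.val]
  have e2 : ∀ j (q : H), g ^ j * q * (g ^ j)⁻¹ = (α ^ j) q := fun j => by
    induction j with
    | zero => simp
    | succ j ih =>
      intro q
      rw [pow_succ α, MulAut.mul_apply, ← ih, ← e, pow_succ]; group
  rcases hC _ (pow_mem hg (2 * k + 1)) (fun q hq => mul_inv_eq_iff_eq_mul.1
    ((e2 _ ⟨q, hq⟩).trans (by rw [a1]; rfl))) with e3 | e3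
  · exact ⟨g, hg, e3, e1⟩
  · refine ⟨g * z, mul_mem hg hzL, ?_, fun i hi => ?_⟩
    · rw [Commute.mul_pow (hc g hg), e3, pow_succ, pow_mul, sq, hz, one_pow, one_mul, hz]
    · rw [← e1 i hi, mul_assoc g, ← hc _ (hL (M.lmem i))]; group

theorem tfilter {t : G} {us vs : List (List ℕ)} (ht : Cj t F us vs) (cs good : List (List ℕ))
    (L : List (List ℕ × List (List ℕ × List ℕ)))
    (h : allL (fun e => bif' (memLL good e.1) true (band (eqLL (e.2.map Prod.fst) cs)
      (tchain wb mask tt B us vs e.1 e.2 fun k => bnot (fixW wb mask tt B (e.1 ++ invW k))))) L = true)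
    {u : List ℕ} (hu : memLL (L.map Prod.fst) u = true)
    (hc : tv t F cs * wval F u = wval F u * tv t F cs) : u ∈ good := by
  obtain ⟨e, he, rfl⟩ := List.mem_map.1 (memLL_mem hu)
  have := allL_all h e he
  cases h1 : memLL good e.1
  · rw [h1] at this
    obtain ⟨k, e1, e2⟩ := M.tchain_sound ht _ _ _ (band_eq this).2
    rw [eqLL_eq (band_eq this).1, hc] at e1
    exact absurd (mul_right_cancel e1) (M.ne _ _ e2)
  · exact memLL_mem h1

end Model

/-- A fact that joins the first node to itself puts the extra generator into the subgroup. -/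
theorem collapse {d : Dat} (h : d.OKI) {G : Type*} [Group G] (f : ℕ → G) {R : List (List ℕ)}
    (hR : ∀ w ∈ R, wval f w = 1)
    (hub : Nat.card (WW f d.nets d.n0) ≠ 0 ∧ Nat.card (WW f d.nets d.n0) ≤ d.T) {F : FT}
    {TM : List Tm} {XW : List (List (List ℕ))} {nF : ℕ} (tc : List (List (List ℕ × ℕ))) (c : ℕ)
    (facts : AllR (fun c => ∃ e, checkF d.wb d.mask d.tH d.tK d.tK' d.B F TM XW c e = true) 0 nF)
    (hk : (R.contains (d.u ++ (2 * d.n0 :: (d.v ++ [2 * d.n0]))) && pairB d.n0 d.defs R d.k0 d.nK &&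
      tmB d.n0 d.u d.v (R.map (posW d.n0 d.u d.v)) TM tc && getD [] XW 0 == [] &&
      decide (c < nF ∧ (F.get c).e = true ∧ (F.get c).i = 0 ∧ (F.get c).j = 0)) = true) :
    f d.n0 ∈ gp f (sing d.n0) := by
  simp only [Bool.and_eq_true, decide_eq_true_eq] at hk
  obtain ⟨⟨⟨⟨k1, k2⟩, k3⟩, k4⟩, k5, k6, k7, k8⟩ := hk
  have hl := h.light
  simp only [Dat.lightI, Bool.and_eq_true, decide_eq_true_eq] at hl
  obtain ⟨⟨⟨⟨⟨⟨⟨⟨⟨⟨⟨⟨⟨l1, l2⟩, l3⟩, -⟩, l5⟩, -⟩, -⟩, -⟩, -⟩, l10⟩, l11⟩, l12⟩, -⟩, -⟩ := hl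
  obtain ⟨-, -, -, -, m5, -, -⟩ := l2
  set ψ := psi f d.nets d.n0 with hψ
  set π := pi' f d.nets d.n0 with hπd
  set Z := ZZ f d.nets d.n0 d.defs with hZ
  have hfin : Finite (WW f d.nets d.n0) := Nat.finite_of_card_ne_zero hub.1
  have hπ : ∀ i, π (Z i) = d.nets.perm i :=
    pi_ZZ f d.nets d.n0 d.defs h.hdefs (by simpa using l3)
  have hπw : ∀ w, π (wval Z w) = wval d.nets.perm w := fun w => map_wval' hπ w
  have gH : Good π d.nS d.wb d.mask d.tH Z :=
    good_of_tabB h.hv hπ l1 l10 fun l hl => h.tab l (Nat.zero_le _) hl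
  have gK : Good π d.nS d.wb d.mask d.tK (kfun Z d.k0 d.nK) := good_kfun gH l10 l11
  have gK' : Good π d.nS d.wb d.mask d.tK' (kfun Z (d.k0 + 1) d.nK) := good_kfun gH l10 l12
  have hword : ∀ x, ∃ w, π x = π (wval Z w) := fun x => by
    have : π x ∈ gp d.nets.perm (sing d.n0) := pi_range f d.nets d.n0 ▸ ⟨x, rfl⟩
    generalize π x = g at this
    induction this using Subgroup.closure_induction with
    | mem g hg => obtain ⟨w, -, rfl⟩ := hg; exact ⟨w, (hπw w).symm⟩
    | one => exact ⟨[], by simp⟩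
    | mul a b _ _ ha hb =>
      obtain ⟨u, rfl⟩ := ha
      obtain ⟨v, rfl⟩ := hb
      exact ⟨u ++ v, by rw [wval_append, map_mul]⟩
    | inv a _ ha => obtain ⟨u, rfl⟩ := ha; exact ⟨invW u, by rw [wval_invW, map_inv]⟩
  have hltS : ∀ x, ∀ p < d.nS, π x p < d.nS := fun x p hp => by
    obtain ⟨w, e⟩ := hword x
    rw [e]; exact gH.lt' w hp
  have hfr : Finite π.range := Finite.of_surjective _ π.rangeRestrict_surjective
  have hch := chainB_sound gH (A := π.range) (fun w => ⟨_, rfl⟩) d.chH [] h.cH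
  rw [fixer_nil, List.append_nil] at hch
  have hcr : Nat.card π.range ≤ Nat.card (WW f d.nets d.n0) :=
    Nat.card_le_card_of_surjective _ π.rangeRestrict_surjective
  have hf1 := one_le_card_fixer (A := π.range) (d.chH.map Lev.b).reverse
  have hT : Nat.card (WW f d.nets d.n0) = d.T ∧ Nat.card π.range = d.T ∧
      Nat.card (fixer π.range (d.chH.map Lev.b).reverse) ≤ 1 := by
    have a1 := Nat.mul_le_mul m5 hf1
    have a2 := Nat.mul_le_mul_right (Nat.card (fixer π.range (d.chH.map Lev.b).reverse)) m5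
    refine ⟨by omega, by omega, Nat.le_of_mul_le_mul_left (c := d.T) ?_ (by omega)⟩
    omega
  have hπi : Function.Injective π := by
    have := ((Nat.bijective_iff_surjective_and_card π.rangeRestrict).2
      ⟨π.rangeRestrict_surjective, by omega⟩).1
    exact fun a b e => this (Subtype.ext e)
  have faith : ∀ x, (∀ b ∈ d.B, π x b = b) → x = 1 := fun x hx => by
    have := finite_fixer (A := π.range) (d.chH.map Lev.b).reverse
    have hs := Finite.card_le_one_iff_subsingleton.1 hT.2.2
    have := hs.elim ⟨π x, ⟨x, rfl⟩, fun b hb => hx b (List.mem_reverse.1 hb)⟩ 1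
    exact hπi (by rw [map_one]; exact congrArg Subtype.val this)
  have hpair := pair_of_pairB f d.nets d.n0 d.defs hR l3.1 k2
  have C : Ctx ψ π Z (kfun Z d.k0 d.nK) (kfun Z (d.k0 + 1) d.nK) (f d.n0) d.nS d.wb d.mask d.tH
      d.tK d.tK' d.B := ⟨gH, gK, gK', hltS, by simpa using l5, faith, hpair⟩
  have hrev : (f d.n0)⁻¹ = wval f d.u * f d.n0 * wval f d.v := by
    have := hR _ (List.contains_iff_mem.1 k1)
    rw [wval_append, wval_cons, wval_append, wval_single, lval, if_pos (by omega),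
      show 2 * d.n0 / 2 = d.n0 by omega, ← mul_assoc, ← mul_assoc] at this
    exact (eq_inv_of_mul_eq_one_left this).symm
  have hTM := tmOK_of_tmB f d.nets d.n0 d.defs hrev hR TM tc k3
  have hq : ∀ x, ψ x • ((1 : G) : G ⧸ ψ.range) = ((1 : G) : G ⧸ ψ.range) :=
    fun x => smul_one_eq.2 ⟨x, rfl⟩
  have hX : getD [] XW 0 = [] := by simpa using k4
  set q := node ψ Z (f d.n0) XW ((1 : G) : G ⧸ ψ.range) with hqd
  have hV : ∀ c < nF, V ψ Z (f d.n0) q (F.get c) := fun c => by
    induction c using Nat.strong_induction_on with | _ c ih => ?_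
    intro hc
    obtain ⟨e, he⟩ := facts c (Nat.zero_le _) hc
    exact C.checkF_sound hq hX hTM (fun x hx => ih x hx (hx.trans hc)) e he
  have := (hV c k5).1 k6
  rw [k7, k8, hqd, node_zero hX, smul_one_eq, ψ.range.mul_mem_cancel_right ⟨_, rfl⟩,
    ψ.range.mul_mem_cancel_left ⟨_, rfl⟩] at this
  exact psi_range f d.nets d.n0 ▸ this

end Cfsg.Agent.Lib.BT
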