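import Cfsg.Agent.Lib.BT4

/-! Convenient forms of the backtrack searches. -/

set_option autoImplicit false

namespace Cfsg.Agent.Lib.BT

open Cfsg.Agent.Lib.PermNet Cfsg.Agent.Lib.Words Cfsg.Agent.Lib.PermGroup Cfsg.Agent.Lib.DCE
  Cfsg.Agent.Lib.PermModel

theorem getW_eq (ws : List (List ℕ)) (i : ℕ) : getW ws i = ws.getD i [] := by
  induction ws generalizing i with
  | nil => rfl
  | cons w ws ih =>
    cases i with
    | zero => rfl
    | succ j => exact ih j

/-- The conjugation conditions as equations. -/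
def prEq (nv : ℕ) (xs ys : List (List ℕ)) : List (List ℕ) :=
  List.zipWith (fun x y => 2 * nv :: (x ++ (2 * nv + 1) :: invW y)) xs ys

/-- The conjugate of a representative. -/
noncomputable def mkC (reps : List (List ℕ)) (u : List ℕ) : List ℕ :=
  u.tail ++ getW reps (u.headD 0) ++ invW u.tail

/-- Shift the letters. -/
def sh (k : ℕ) (w : List ℕ) : List ℕ := w.map (· + 2 * k)

section
variable {G : Type*} [Group G] {F : ℕ → G} {H Z : Subgroup G} {nv : ℕ} {c : G}

theorem wval_sh (F : ℕ → G) (k : ℕ) (w : List ℕ) : wval F (sh k w) = wval (fun i => F (i + k)) w := by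
  induction w with
  | nil => rfl
  | cons l w ih =>
    rw [sh, List.map_cons, wval_cons, wval_cons, ← ih, lval, lval, Nat.add_mul_mod_self_left,
      Nat.add_mul_div_left _ _ two_pos]
    rfl

theorem wval_upd (c : G) {w : List ℕ} (h : lt2 nv w = true) :
    wval (Function.update F nv c) w = wval F w :=
  wval_congr (n := nv) (fun _ hi => Function.update_of_ne hi.ne _ _) (by simpa using h)

theorem lval_upd (c : G) : lval (Function.update F nv c) (2 * nv) = c := by
  rw [lval, if_pos (by omega), show 2 * nv / 2 = nv by omega, Function.update_self]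

theorem prEq_mem {xs ys : List (List ℕ)}
    (h1 : List.Forall₂ (fun x y => c * wval F x * c⁻¹ * (wval F y)⁻¹ ∈ Z) xs ys)
    (h : (xs ++ ys).all (lt2 nv) = true) :
    ∀ u ∈ prEq nv xs ys, wval (Function.update F nv c) u ∈ Z := by
  induction h1 with
  | nil => simp [prEq]
  | @cons x y xs ys h2 _ ih =>
    rw [List.all_eq_true] at h
    refine List.forall_mem_cons.2 ⟨?_, ih (List.all_eq_true.2 fun w hw => h w (by
      simp only [List.mem_append, List.mem_cons] at hw ⊢; tauto))⟩
    rw [wval_cons, wval_append, wval_odd, wval_invW, lval_upd, Function.update_self,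
      wval_upd c (h x (by simp)), wval_upd c (h y (by simp))]
    simpa only [mul_assoc] using h2

theorem wval_mkC (reps : List (List ℕ)) (u : List ℕ) : wval F (mkC reps u) =
    wval F u.tail * wval F (reps.getD (u.headD 0) []) * (wval F u.tail)⁻¹ := by
  rw [mkC, wval_append, wval_append, wval_invW, getW_eq]

/-- Letters that are defined by words in earlier letters. -/
noncomputable def defB (D : List (List ℕ)) : List (ℕ × List ℕ) → List ℕ → List ℕ → Bool
  | [], L, goal => allL (memL L) goal
  | e :: r, L, goal => band (memLL D ((2 * e.1 + 1) :: e.2)) (band (allL (okL L) e.2)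
      (defB D r (e.1 :: L) goal))

theorem mem_of_defB {D : List (List ℕ)} (hD : ∀ w ∈ D, wval F w = 1) {K : Subgroup G}
    (st : List (ℕ × List ℕ)) (L goal : List ℕ) (hL : ∀ i ∈ L, F i ∈ K)
    (h : defB D st L goal = true) : ∀ i ∈ goal, F i ∈ K := by
  induction st generalizing L with
  | nil => exact fun i hi => hL i (memL_mem (allL_all h i hi))
  | cons e r ih =>
    obtain ⟨h1, h⟩ := band_eq h
    refine ih _ (List.forall_mem_cons.2 ⟨?_, hL⟩) (band_eq h).2
    have := hD _ (memLL_mem h1)
    rw [wval_odd, inv_mul_eq_one] at this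
    exact this ▸ mem_word L hL (band_eq h).1

namespace Model
variable {N wb mask : ℕ} {tt : TT} {B : List ℕ} {T : ℕ}

/-- Another order of the base. -/
def rebase (M : Model F H Z N wb mask tt B T) (B' : List ℕ)
    (h : (B.all B'.contains && B'.all B.contains) = true) : Model F H Z N wb mask tt B' T :=
  { M with
    faith := fun g hg => M.faith g fun b hb => hg b (by
      simp only [Bool.and_eq_true, List.all_eq_true, List.contains_iff_mem] at h; exact h.1 b hb)
    hB := fun b hb => M.hB b (by
      simp only [Bool.and_eq_true, List.all_eq_true, List.contains_iff_mem] at h; exact h.2 b hb) }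

theorem find (M : Model F H Z N wb mask tt B T) {ch : List Lv} (hch : M.Ch H ch) {k : ℕ}
    {xs ys eqs neqs : List (List ℕ)} {okU : List ℕ → Bool} {mk : List ℕ → List ℕ} {ts : List Tst}
    {ct : CT} (h : solveB wb mask tt N nv B (fun _ => true) ch k []
      xs ys (prEq nv xs ys ++ eqs) neqs [] okU mk ts ct = true)
    (h0 : (xs ++ ys).all (lt2 nv) = true) (hc : c ∈ H)
    (hk : ∀ b ∈ (ch.take k).map Lv.b, M.π ⟨c, hc⟩ b = b)
    (h1 : List.Forall₂ (fun x y => c * wval F x * c⁻¹ * (wval F y)⁻¹ ∈ Z) xs ys)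
    (h2 : ∀ u ∈ eqs, wval (Function.update F nv c) u ∈ Z)
    (h3 : ∀ u ∈ neqs, wval (Function.update F nv c) u ∉ Z) :
    ∃ u, okU u = true ∧ ∃ z ∈ Z, c = wval F (mk u) * z := by
  obtain ⟨g, hg, u, hu, z, hz, e⟩ := M.solve' hch (fun l _ => M.lmem _) h hc hc hk h1
    (List.forall_mem_append.2 ⟨prEq_mem h1 h0, h2⟩) h3
  rw [show g = 1 by simpa [sl, gp_nil] using hg, one_mul] at e
  exact ⟨u, hu, z, hz, e⟩

theorem find1 (M : Model F H ⊥ N wb mask tt B T) {ch : List Lv} (hch : M.Ch H ch) {k : ℕ}
    {xs ys eqs neqs : List (List ℕ)} {okU : List ℕ → Bool} {mk : List ℕ → List ℕ} {ts : List Tst}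
    {ct : CT} (h : solveB wb mask tt N nv B (fun _ => true) ch k []
      xs ys (prEq nv xs ys ++ eqs) neqs [] okU mk ts ct = true)
    (h0 : (xs ++ ys).all (lt2 nv) = true) (hc : c ∈ H)
    (hk : ∀ b ∈ (ch.take k).map Lv.b, M.π ⟨c, hc⟩ b = b)
    (h1 : List.Forall₂ (fun x y => c * wval F x * c⁻¹ * (wval F y)⁻¹ ∈ (⊥ : Subgroup G)) xs ys)
    (h2 : ∀ u ∈ eqs, wval (Function.update F nv c) u ∈ (⊥ : Subgroup G))
    (h3 : ∀ u ∈ neqs, wval (Function.update F nv c) u ∉ (⊥ : Subgroup G)) :
    ∃ u, okU u = true ∧ c = wval F (mk u) := by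
  obtain ⟨u, hu, z, hz, e⟩ := M.find hch h h0 hc hk h1 h2 h3
  exact ⟨u, hu, by rw [e, Subgroup.mem_bot.1 hz, mul_one]⟩

theorem inj (M : Model F H ⊥ N wb mask tt B T) (sw : List (List ℕ)) (n : ℕ)
    (h : allR (fun p => allR (fun q => bif' (Nat.beq p q) true
      (bnot (fixW wb mask tt B (getW sw p ++ invW (getW sw q))))) 0 n) 0 n = true) :
    ∀ p < n, ∀ q < n, wval F (getW sw p) = wval F (getW sw q) → p = q := fun p hp q hq e => by
  have := allR_all (allR_all h p (Nat.zero_le _) (by simpa using hp)) q (Nat.zero_le _)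
    (by simpa using hq)
  cases hb : Nat.beq p q
  · rw [hb] at this
    exact absurd e (M.ne _ _ this)
  · exact beq_eq hb

end Model

end

end Cfsg.Agent.Lib.BT
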