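import Cfsg.Agent.Lib.BT5

/-! Models from homomorphisms; conjugation into a subgroup of index prime to `p`; fixed points. -/

set_option autoImplicit false

namespace Cfsg.Agent.Lib.BT

open Cfsg.Agent.Lib.PermNet Cfsg.Agent.Lib.Words Cfsg.Agent.Lib.PermGroup Cfsg.Agent.Lib.DCE
  Cfsg.Agent.Lib.PermModel

theorem tp_eq {N wb mask m m' idT idT' i j : ℕ} {th th' : TT} (h : TabsOK N wb mask m th idT)
    (h' : TabsOK N wb mask m' th' idT')
    (e : Nat.beq ((tabs m th idT).get (2 * i + 1)) ((tabs m' th' idT').get (2 * j + 1)) = true) :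
    tp N wb mask (tabs m th idT) i = tp N wb mask (tabs m' th' idT') j := Equiv.ext fun p => by
  by_cases hp : p < N
  · rw [h.apply i hp, h'.apply j hp, beq_eq e]
  · rw [← wval_single (tp _ _ _ _) i, ← wval_single (tp _ _ _ _) j, tp_fix _ _ (Nat.le_of_not_lt hp),
      tp_fix _ _ (Nat.le_of_not_lt hp)]

section
variable {G : Type*} [Group G] {f : ℕ → G} {n0 N wb mask m idT T : ℕ} {th : TT}
  {defs : List (List ℕ)} {ch : List Lv} (D : TM n0 N wb mask m idT T th defs ch)
include D

theorem TM.le_card (φ : G →* Equiv.Perm ℕ) (hφ : ∀ i < n0, φ (f i) = tp N wb mask (tabs m th idT) i)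
    [Finite (gp f (sing n0))] : T ≤ Nat.card (gp f (sing n0)) := by
  have h0 := D.h0
  simp only [Bool.and_eq_true, decide_eq_true_eq] at h0
  have hπ' := map_ext' φ f _ hφ D.hd h0.1.1 fun i hi => D.ok.one (by omega)
  have good : Good φ N wb mask (tabs m th idT) (ext f n0 defs) := fun l p hp => by
    rw [map_lval, funext hπ']; exact D.ok.good l p hp
  have hs := φ.subgroupMap_surjective (gp f (sing n0))
  have := Finite.of_surjective _ hs
  have c1 := (chB_sound good (A := gp f (sing n0)) (fun _ _ => ext_mem f n0 h0.1.1 _) ch [] (by simp)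
    D.hc).1
  rw [fixer_nil] at c1
  exact (h0.2.trans c1).trans (Nat.card_le_card_of_surjective _ hs)

/-- A faithful model of a subgroup from a homomorphism. -/
theorem TM.hmodel' {H : Subgroup G} [Finite H] (top : gp f (sing n0) = H) (π : H →* Equiv.Perm ℕ)
    (hφ : ∀ i < n0, ∀ h, π ⟨f i, h⟩ = tp N wb mask (tabs m th idT) i) (hT : Nat.card H ≤ T) :
    Nonempty (Model (ext f n0 defs) H ⊥ N wb mask (tabs m th idT) (ch.map Lv.b) T) := by
  subst top
  have hs := π.rangeRestrict_surjective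
  have := Finite.of_surjective _ hs
  have hle := Nat.card_le_card_of_surjective _ hs
  let y : ℕ → gp f (sing n0) := fun i => if h : i < n0 then ⟨f i, mem_sing f h⟩ else 1
  have hy : ∀ i < n0, (y i : G) = f i := fun i hi => by simp [y, hi]
  have hπ : ∀ i < n0, π (y i) = tp N wb mask (tabs m th idT) i := fun i hi => by
    simp only [y, dif_pos hi]; exact hφ i hi _
  obtain ⟨M, -⟩ := D.mk_model (f := f) (Z := ⊥) π y hy hπ
    (fun g p hp => by
      obtain ⟨w, hw, e⟩ := exists_word (n := n0) (ws := sing n0) (by simp [sing]) g.2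
      have e' : wval y w = g := Subtype.ext ((map_wval (Subgroup.subtype _) y w).trans
        ((wval_congr hy (by simpa using hw)).trans e))
      rw [← e', map_wval, wval_congr hπ (by simpa using hw)]
      exact D.ok.good.lt' w hp) ⟨Nat.card_pos.ne', hle.trans hT⟩ fun h g => by
      have hi := (hs.bijective_of_nat_card_le (by omega)).1
      rw [Subgroup.mem_bot, OneMemClass.coe_eq_one]
      exact ⟨fun e => hi (Subtype.ext (e.trans (map_one π).symm)), fun e => by rw [e, map_one]⟩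
  exact ⟨M⟩

end

theorem conj_into {G : Type*} [Group G] {M H : Subgroup G} [Finite M] {p k : ℕ} (hp : p.Prime)
    (hi : ¬ p ∣ H.relIndex M) {P : Subgroup G} (hP : P ≤ M) (h : ∀ v ∈ P, v ^ p ^ k = 1) :
    ∃ m ∈ M, ∀ v ∈ P, m * v * m⁻¹ ∈ H := by
  have := Fact.mk hp
  obtain ⟨q, hq⟩ := IsPGroup.nonempty_fixed_point_of_prime_not_dvd_card
    (G := P.subgroupOf M) (p := p) (fun g => ⟨k, Subtype.ext (Subtype.ext (h _ g.2))⟩)
    (M ⧸ H.subgroupOf M) hi
  obtain ⟨m, rfl⟩ := QuotientGroup.mk_surjective q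
  refine ⟨(m⁻¹ : M), (m⁻¹).2, fun v hv => ?_⟩
  have := QuotientGroup.eq.1 (hq ⟨⟨v, hP hv⟩, hv⟩).symm
  simpa [Subgroup.mem_subgroupOf, mul_assoc] using this

/-- The number of fixed points below `n`. -/
noncomputable def nfix (wb mask : ℕ) (tt : TT) (w : List ℕ) (n : ℕ) : ℕ :=
  Nat.rec (motive := fun _ => ℕ) (nat_lit 0) (fun p ih => force ih fun c =>
    @Bool.rec (fun _ => ℕ) c (Nat.succ c) (Nat.beq (ap1 wb mask tt w p) p)) n

theorem nfix_eq (wb mask : ℕ) (tt : TT) (w : List ℕ) (n : ℕ) : nfix wb mask tt w n =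
    ((Finset.range n).filter fun p => ap1 wb mask tt w p = p).card := by
  induction n with
  | zero => rfl
  | succ n ih =>
    change @Bool.rec (fun _ => ℕ) (nfix wb mask tt w n) (Nat.succ (nfix wb mask tt w n))
      (Nat.beq (ap1 wb mask tt w n) n) = _
    rw [Finset.range_add_one, Finset.filter_insert, ih]
    cases h : Nat.beq (ap1 wb mask tt w n) n
    · rw [if_neg (Nat.ne_of_beq_eq_false h)]
    · rw [if_pos (beq_eq h), Finset.card_insert_of_notMem (by simp)]

theorem Model.nfix_conj {G : Type*} [Group G] {F : ℕ → G} {H Z : Subgroup G} {N wb mask : ℕ} {tt : TT}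
    {B : List ℕ} {T : ℕ} (M : Model F H Z N wb mask tt B T) {g : G} (hg : g ∈ H) {u v : List ℕ}
    (e : g * wval F u * g⁻¹ = wval F v) : nfix wb mask tt u N = nfix wb mask tt v N := by
  have e' : ⟨g, hg⟩ * wval M.y u * ⟨g, hg⟩⁻¹ = wval M.y v := Subtype.ext (by simpa [M.val] using e)
  rw [nfix_eq, nfix_eq]
  refine Finset.card_bij' (fun p _ => M.π ⟨g, hg⟩ p) (fun p _ => M.π ⟨g, hg⟩⁻¹ p) (fun p hp => ?_)
    (fun p hp => ?_) (fun p _ => by simp) (fun p _ => by simp)
  · simp only [Finset.mem_filter, Finset.mem_range] at hp ⊢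
    rw [ap1_eq M.good _ hp.1] at hp
    refine ⟨M.lt _ p hp.1, ?_⟩
    rw [ap1_eq M.good _ (M.lt _ p hp.1), ← e']
    simpa using hp.2
  · simp only [Finset.mem_filter, Finset.mem_range] at hp ⊢
    rw [ap1_eq M.good _ hp.1, ← e'] at hp
    refine ⟨M.lt _ p hp.1, ?_⟩
    rw [ap1_eq M.good _ (M.lt _ p hp.1)]
    nth_rw 2 [← hp.2]
    simp

end Cfsg.Agent.Lib.BT
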