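import Cfsg.Agent.Lib.BT6

/-! An element that interchanges two commuting involutions: its action on the common centraliser. -/

set_option autoImplicit false

namespace Cfsg.Agent.Lib.BT

open Cfsg.Agent.Lib.PermNet Cfsg.Agent.Lib.Words Cfsg.Agent.Lib.PermGroup Cfsg.Agent.Lib.DCE
  Cfsg.Agent.Lib.PermModel

theorem ChainP.mem {W : Type*} [Group W] {π : W →* Equiv.Perm ℕ} {N : ℕ} {f : ℕ → W}
    {A K : Subgroup W} {ch : List Lv} {bs : List ℕ} (h : ChainP π f N A ch bs)
    (hK : ∀ l ∈ ch, ∀ e ∈ l.T, wval f e.2 ∈ K) {g : W} (hg : g ∈ A) (hb : ∀ b ∈ bs, π g b = b) :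
    ∃ k ∈ K, π g = π k := by
  induction ch generalizing bs g with
  | nil => exact ⟨1, one_mem _, by rw [h g hg hb, map_one]⟩
  | cons l ch ih =>
    obtain ⟨e, he, e1⟩ := h.2.1 g hg hb
    obtain ⟨a1, a2, a3⟩ := h.2.2.1 e he
    obtain ⟨k, hk, hw⟩ := ih h.2.2.2 (fun l hl => hK l (List.mem_cons_of_mem _ hl)) (mul_mem a1 hg)
      fun b hb' => by
        rw [map_mul, Equiv.Perm.mul_apply, ← Equiv.Perm.eq_inv_iff_eq]
        rcases List.mem_cons.1 hb' with rfl | hb'
        · rw [e1, a3]
        · rw [hb b hb', a2 b hb']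
    exact ⟨_, mul_mem (inv_mem (hK l List.mem_cons_self e he)) hk, by
      rw [map_mul, ← hw, map_inv, map_mul]; simp⟩

section defs
variable (wb mask : ℕ) (tt : TT) (B : List ℕ)

/-- The words commute. -/
noncomputable def cmW (u v : List ℕ) : Bool := fixW wb mask tt B ((u ++ v) ++ invW (v ++ u))

/-- The stabiliser of the first base point is the centraliser of the word `y`. -/
noncomputable def fxB (y L : List ℕ) (ch : List Lv) : Bool :=
  band (allL (fun i => cmW wb mask tt B [2 * i] y) L)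
    (band (allL (fun l => allL (fun e => allL (okL L) e.2) l.T) (ch.drop 1))
      (allL (fun l => allL (fun e => bif' (Nat.beq e.1 l.b) true (bnot (cmW wb mask tt B e.2 y))) l.T)
        (ch.take 1)))

/-- The action of `t c₁ t c₂ ⋯` on a word. -/
noncomputable def actB (us vs cs : List (List ℕ)) (e : List ℕ × List (List ℕ × List ℕ) × List ℕ) :
    Bool :=
  band (eqLL (e.2.1.map Prod.fst) cs)
    (tchain wb mask tt B us vs e.1 e.2.1 fun k => fixW wb mask tt B (k ++ invW e.2.2))

/-- The image of a further word `r` of the common centraliser. -/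
noncomputable def stepB (N nv : ℕ) (ch : List Lv) (z y : List ℕ) (us vs : List (List ℕ))
    (r pz py : List ℕ) (pp : List (List ℕ × List ℕ)) (ps qs reps : List (List ℕ)) (ts : List Tst)
    (ct : CT) : Bool :=
  band (band (eqL (subst vs pz) z) (band (eqL (subst vs py) y)
    (band (cmW wb mask tt B r (subst us pz)) (cmW wb mask tt B r (subst us py)))))
  (band (allL (fun p => fixW wb mask tt B ((r ++ subst us p.1 ++ invW r) ++ invW (subst us p.2))) pp)
  (band (allL (fixW wb mask tt B) (ps.map (subst (r :: us))))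
  (band (allL (fun w => bnot (fixW wb mask tt B w)) (qs.map (subst (r :: us))))
  (band (vs.all (lt2 nv) &&
    (pp.map (fun p => subst vs p.1) ++ pp.map (fun p => subst vs p.2)).all (lt2 nv))
  (solveB wb mask tt N nv B (fun _ => true) ch 1 [] (pp.map fun p => subst vs p.1)
    (pp.map fun p => subst vs p.2) (prEq nv (pp.map fun p => subst vs p.1)
      (pp.map fun p => subst vs p.2) ++ ps.map (subst ([2 * nv] :: vs)))
    (qs.map (subst ([2 * nv] :: vs))) []
    (fun u => band (Nat.blt (u.headD 0) reps.length) (allL (cmW wb mask tt B u.tail) vs))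
    (mkC reps) ts ct)))))

end defs

section
variable {G : Type*} [Group G] {F : ℕ → G} {t : G} {us vs : List (List ℕ)}

theorem Cj.val (h : Cj t F us vs) (r : List ℕ) {nv : ℕ} (hv : vs.all (lt2 nv) = true) (p : List ℕ) :
    wval (Function.update F nv (t * wval F r * t⁻¹)) (subst ([2 * nv] :: vs) p) =
      t * wval F (subst (r :: us) p) * t⁻¹ := by
  rw [wval_subst, wval_subst]
  refine Eq.trans ?_ (map_wval (MulAut.conj t).toMonoidHom _ p).symm
  congr 1
  funext i
  cases i with
  | zero => rw [List.getD_cons_zero, wval_single, Function.update_self]; rfl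
  | succ i =>
    rw [List.getD_cons_succ, List.getD_cons_succ]
    refine (wval_upd _ ?_).trans (eq_mul_inv_of_mul_eq (h i).symm)
    rw [← getW_eq]
    rcases getW_mem_or vs i with h | h
    · exact List.all_eq_true.1 hv _ h
    · rw [h]; rfl

theorem Cj.left (h : Cj t F us vs) {g : G} (hg : ∀ v ∈ vs, g * wval F v = wval F v * g) :
    Cj (g * t) F us vs := fun i => by
  rw [mul_assoc, h i, ← mul_assoc, ← mul_assoc, ← getW_eq vs]
  rcases getW_mem_or vs i with h | h
  · rw [hg _ h]
  · rw [h]; simp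

theorem Cj.right (h : Cj t F us vs) {g : G} (hg : ∀ v, g * wval F v = wval F v * g) :
    Cj (t * g) F us vs := fun i => by
  rw [mul_assoc, hg, ← mul_assoc, h i, mul_assoc]

end

namespace Model
variable {G : Type*} [Group G] {F : ℕ → G} {H : Subgroup G} {N wb mask : ℕ} {tt : TT}
  {B : List ℕ} {T : ℕ} (M : Model F H ⊥ N wb mask tt B T)

/-- `H` is the centraliser of `z`, the first base point belongs to `y`. -/
structure SC (ch : List Lv) (z y : List ℕ) : Prop where
  hch : M.Ch H ch
  hH : ∀ g, g * wval F z = wval F z * g → g ∈ H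
  fx : ∀ c (hc : c ∈ H), c * wval F y = wval F y * c → ∀ b ∈ (ch.take 1).map Lv.b, M.π ⟨c, hc⟩ b = b

theorem mkSC {ch : List Lv} (hch : M.Ch H ch) {z : List ℕ}
    (hH : ∀ g, g * wval F z = wval F z * g → g ∈ H) (y L : List ℕ)
    (h : fxB wb mask tt B y L ch = true) : M.SC ch z y := by
  refine ⟨hch, hH, fun c hc e => ?_⟩
  obtain ⟨h1, h⟩ := band_eq h
  obtain ⟨h2, h3⟩ := band_eq h
  cases ch with
  | nil => simp
  | cons l ch =>
    refine List.forall_mem_singleton.2 ?_
    obtain ⟨a, ha, e1⟩ := hch.2.1 ⟨c, hc⟩ hc (by simp)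
    obtain ⟨a1, -, a3⟩ := hch.2.2.1 a ha
    obtain ⟨k, hk, e2⟩ := ChainP.mem (K := (Subgroup.centralizer {wval F y}).subgroupOf H) hch.2.2.2
      (fun l hl x hx => by
        rw [Subgroup.mem_subgroupOf, M.val, Subgroup.mem_centralizer_singleton_iff]
        exact comm_word L (fun i hi => wval_single F i ▸ M.comm _ _ (allL_all h1 i hi))
          (allL_all (allL_all h2 l hl) x hx)) (g := wval M.y a.2 * ⟨c, hc⟩) (mul_mem a1 hc)
      (List.forall_mem_singleton.2 (by
        rw [map_mul, Equiv.Perm.mul_apply, ← Equiv.Perm.eq_inv_iff_eq, e1, a3]))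
    have e3 : wval F a.2 * c * (k : G)⁻¹ = 1 := by
      have := (M.ker (wval M.y a.2 * ⟨c, hc⟩ * k⁻¹)).1 (by rw [map_mul, e2, map_inv, mul_inv_cancel])
      simpa [M.val] using this
    rw [mul_inv_eq_one, ← eq_mul_inv_iff_mul_eq] at e3
    have e4 := Subgroup.mem_centralizer_singleton_iff.1 (e3 ▸ mul_mem (Subgroup.mem_subgroupOf.1 hk)
      (inv_mem (Subgroup.mem_centralizer_singleton_iff.2 e)))
    have := allL_all (allL_all h3 l List.mem_cons_self) a ha
    cases hb : Nat.beq a.1 l.b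
    · rw [hb] at this
      exact absurd (by rw [wval_append, wval_append, e4]) (M.ne _ _ this)
    · exact e1.trans (beq_eq hb)

include M in
theorem act {t : G} {us vs : List (List ℕ)} (C : Cj t F us vs) {cs : List (List ℕ)}
    {e : List ℕ × List (List ℕ × List ℕ) × List ℕ} (h : actB wb mask tt B us vs cs e = true) :
    tv t F cs * wval F e.1 = wval F e.2.2 * tv t F cs :=
  eqLL_eq (band_eq h).1 ▸ M.tchain_comm C _ _ _ (band_eq h).2

include M in
theorem derive {t : G} {us vs : List (List ℕ)} (C : Cj t F us vs)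
    (L : List (List ℕ × List ℕ × List ℕ))
    (h : allL (fun e => band (fixW wb mask tt B (subst us e.1 ++ invW e.2.1))
      (fixW wb mask tt B (subst vs e.1 ++ invW e.2.2))) L = true) :
    Cj t F (L.map (·.2.1)) (L.map (·.2.2)) := by
  induction L with
  | nil => exact .nil
  | cons e L ih =>
    obtain ⟨h1, h2⟩ := band_eq (band_eq h).1
    exact .cons (M.eq _ _ h1 ▸ M.eq _ _ h2 ▸ conj_subst C e.1) (ih (band_eq h).2)

variable {M} {ch : List Lv} {z y : List ℕ} (S : M.SC ch z y) {t : G} {us vs : List (List ℕ)}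
  (C : Cj t F us vs)
include S C

theorem SC.step {nv : ℕ} {r pz py : List ℕ} {pp : List (List ℕ × List ℕ)}
    {ps qs reps : List (List ℕ)} {ts : List Tst} {ct : CT}
    (h : stepB wb mask tt B N nv ch z y us vs r pz py pp ps qs reps ts ct = true) :
    ∃ v ∈ reps, ∃ t', Cj t' F (r :: us) (v :: vs) := by
  obtain ⟨h0, h⟩ := band_eq h
  obtain ⟨h1, h⟩ := band_eq h
  obtain ⟨h2, h⟩ := band_eq h
  obtain ⟨h3, h⟩ := band_eq h
  obtain ⟨h4, h⟩ := band_eq h
  obtain ⟨a1, h0⟩ := band_eq h0
  obtain ⟨a2, h0⟩ := band_eq h0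
  obtain ⟨a3, a4⟩ := band_eq h0
  rw [Bool.and_eq_true] at h4
  obtain ⟨u, hu, e⟩ := M.find1 S.hch h h4.2
    (S.hH _ (eqL_eq a1 ▸ C.comm pz (M.comm _ _ a3))) (S.fx _ _ (eqL_eq a2 ▸ C.comm py (M.comm _ _ a4)))
    (by
      rw [List.forall₂_map_left_iff, List.forall₂_map_right_iff, List.forall₂_same]
      intro p hp
      rw [← mul_inv_eq_iff_eq_mul.2 (conj_subst C p.1), ← mul_inv_eq_iff_eq_mul.2 (conj_subst C p.2),
        ← M.cj _ _ _ (allL_all h1 p hp), Subgroup.mem_bot]
      group)
    (C.transport r nv ps (M.rels _ h2) h4.1) (fun w hw hb => by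
      obtain ⟨p, hp, rfl⟩ := List.mem_map.1 hw
      rw [C.val r h4.1, Subgroup.mem_bot, conj_eq_one_iff] at hb
      exact M.nrels _ h3 _ (List.mem_map_of_mem hp) hb)
  have hi := blt_lt (band_eq hu).1
  refine ⟨_, List.getElem_mem hi, (wval F u.tail)⁻¹ * t, .cons ?_ (C.left fun v hv => ?_)⟩
  · rw [wval_mkC, List.getD_eq_getElem _ _ hi, mul_inv_eq_iff_eq_mul] at e
    rw [mul_assoc, e]; group
  · exact (Commute.inv_left (M.comm _ _ (allL_all (band_eq hu).2 v hv))).eq

theorem SC.power {nv : ℕ} (cs : List (List ℕ)) (sz sy : List (List ℕ × List ℕ))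
    (ks : List (List ℕ × List (List ℕ × List ℕ) × List ℕ)) {xs ys : List (List ℕ)}
    {okU : List ℕ → Bool} {ts : List Tst} {ct : CT}
    (h : solveB wb mask tt N nv B (fun _ => true) ch 1 [] xs ys (prEq nv xs ys ++ []) [] [] okU id
      ts ct = true)
    (h1 : band (allL (actB wb mask tt B us vs cs) ((z, sz, z) :: (y, sy, y) :: ks))
      (band (eqLL (ks.map (·.1)) xs) (band (eqLL (ks.map (·.2.2)) ys)
        ((xs ++ ys).all (lt2 nv)))) = true) :
    ∃ u, okU u = true ∧ tv t F cs = wval F u := by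
  obtain ⟨h1, h2⟩ := band_eq h1
  obtain ⟨h2, h3⟩ := band_eq h2
  obtain ⟨h3, h4⟩ := band_eq h3
  have k := fun e he => M.act C (allL_all h1 e he)
  refine M.find1 S.hch h h4 (S.hH _ (k _ List.mem_cons_self)) (S.fx _ _ (k (y, sy, y) (by simp))) ?_
    (by simp) (by simp)
  rw [← eqLL_eq h2, ← eqLL_eq h3, List.forall₂_map_left_iff, List.forall₂_map_right_iff,
    List.forall₂_same]
  intro e he
  rw [k e (by simp [he])]
  simp

theorem SC.powIn {nv : ℕ} (c : List ℕ) (k : ℕ) (sz sy : List (List ℕ × List ℕ))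
    (ks : List (List ℕ × List (List ℕ × List ℕ) × List ℕ)) {xs ys : List (List ℕ)}
    (good : List (List ℕ)) (L : List (List ℕ × List (List ℕ × List ℕ))) {U : List (List ℕ)}
    {ts : List Tst} {ct : CT}
    (h : solveB wb mask tt N nv B (fun _ => true) ch 1 [] xs ys (prEq nv xs ys ++ []) [] []
      (memLL U) id ts ct = true)
    (h1 : band (band (allL (actB wb mask tt B us vs (List.replicate k [c]).flatten)
        ((z, sz, z) :: (y, sy, y) :: ks))
      (band (eqLL (ks.map (·.1)) xs) (band (eqLL (ks.map (·.2.2)) ys)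
        ((xs ++ ys).all (lt2 nv))))) (band (eqLL (L.map Prod.fst) U)
      (allL (fun e => bif' (memLL good e.1) true (band (eqLL (e.2.map Prod.fst) [c])
        (tchain wb mask tt B us vs e.1 e.2 fun k => bnot (fixW wb mask tt B (e.1 ++ invW k))))) L))
      = true) :
    ∃ u ∈ good, tv t F (List.replicate k [c]).flatten = wval F u := by
  obtain ⟨h1, h2⟩ := band_eq h1
  obtain ⟨u, hu, e⟩ := S.power C _ sz sy ks h h1
  exact ⟨u, M.tfilter C _ _ _ (band_eq h2).2 (eqLL_eq (band_eq h2).1 ▸ hu)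
    (by rw [← e, tv_rep]; exact (Commute.self_pow _ k).eq), e⟩

end Model

end Cfsg.Agent.Lib.BT
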