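import Cfsg.Agent.Lib.BT7

/-! An element that interchanges two commuting involutions, for a model of a subgroup that contains
their common centraliser; models of quotients. -/

set_option autoImplicit false

namespace Cfsg.Agent.Lib.BT

open Cfsg.Agent.Lib.PermNet Cfsg.Agent.Lib.Words Cfsg.Agent.Lib.PermGroup Cfsg.Agent.Lib.DCE
  Cfsg.Agent.Lib.PermModel

/-- The image of a further word `r` of the common centraliser. -/
noncomputable def stepB0 (wb mask : ℕ) (tt : TT) (B : List ℕ) (N nv : ℕ) (ch : List Lv)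
    (z y : List ℕ) (us vs : List (List ℕ))
    (r pz py : List ℕ) (pp : List (List ℕ × List ℕ)) (ps qs reps : List (List ℕ)) (ts : List Tst)
    (ct : CT) : Bool :=
  band (band (eqL (subst vs pz) z) (band (eqL (subst vs py) y)
    (band (cmW wb mask tt B r (subst us pz)) (cmW wb mask tt B r (subst us py)))))
  (band (allL (fun p => fixW wb mask tt B ((r ++ subst us p.1 ++ invW r) ++ invW (subst us p.2))) pp)
  (band (allL (fixW wb mask tt B) (ps.map (subst (r :: us))))
  (band (allL (fun w => bnot (fixW wb mask tt B w)) (qs.map (subst (r :: us))))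
  (band (vs.all (lt2 nv) &&
    (pp.map (fun p => subst vs p.1) ++ pp.map (fun p => subst vs p.2)).all (lt2 nv))
  (solveB wb mask tt N nv B (fun _ => true) ch 0 [] (pp.map fun p => subst vs p.1)
    (pp.map fun p => subst vs p.2) (prEq nv (pp.map fun p => subst vs p.1)
      (pp.map fun p => subst vs p.2) ++ ps.map (subst ([2 * nv] :: vs)))
    (qs.map (subst ([2 * nv] :: vs))) []
    (fun u => band (Nat.blt (u.headD 0) reps.length) (allL (cmW wb mask tt B u.tail) vs))
    (mkC reps) ts ct)))))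

namespace Model
variable {G : Type*} [Group G] {F : ℕ → G} {H : Subgroup G} {N wb mask : ℕ} {tt : TT}
  {B : List ℕ} {T : ℕ} (M : Model F H ⊥ N wb mask tt B T)

/-- `H` contains the common centraliser of `z` and `y`. -/
structure SD (ch : List Lv) (z y : List ℕ) : Prop where
  hch : M.Ch H ch
  hH : ∀ g, g * wval F z = wval F z * g → g * wval F y = wval F y * g → g ∈ H

include M in
/-- The words that are inverted by `t`. -/
theorem ifilter {t : G} {us vs : List (List ℕ)} (ht : Cj t F us vs) (good : List (List ℕ))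
    (L : List (List ℕ × List ℕ))
    (h : allL (fun e => bif' (memLL good e.1) true (band
      (fixW wb mask tt B (e.1 ++ invW (subst us e.2)))
      (bnot (fixW wb mask tt B (e.1 ++ subst vs e.2))))) L = true)
    {u : List ℕ} (hu : u ∈ L.map Prod.fst)
    (hc : t * wval F u = (wval F u)⁻¹ * t) : u ∈ good := by
  obtain ⟨e, he, rfl⟩ := List.mem_map.1 hu
  have := allL_all h e he
  cases h1 : memLL good e.1
  · rw [h1] at this
    obtain ⟨e1, e2⟩ := band_eq this
    have e3 := conj_subst ht e.2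
    rw [← M.eq _ _ e1, hc, mul_left_inj] at e3
    exact absurd (by rw [wval_append, ← e3, mul_inv_cancel]) (M.ne_one _ e2)
  · exact memLL_mem h1

variable {M} {ch : List Lv} {z y : List ℕ} (S : M.SD ch z y) {t : G} {us vs : List (List ℕ)}
  (C : Cj t F us vs)
include S C

theorem SD.step {nv : ℕ} {r pz py : List ℕ} {pp : List (List ℕ × List ℕ)}
    {ps qs reps : List (List ℕ)} {ts : List Tst} {ct : CT}
    (h : stepB0 wb mask tt B N nv ch z y us vs r pz py pp ps qs reps ts ct = true) :
    ∃ v ∈ reps, ∃ g, g * wval F z = wval F z * g ∧ g * wval F y = wval F y * g ∧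
      Cj (g * t) F (r :: us) (v :: vs) := by
  obtain ⟨h0, h⟩ := band_eq h
  obtain ⟨h1, h⟩ := band_eq h
  obtain ⟨h2, h⟩ := band_eq h
  obtain ⟨h3, h⟩ := band_eq h
  obtain ⟨h4, h⟩ := band_eq h
  obtain ⟨a1, h0⟩ := band_eq h0
  obtain ⟨a2, h0⟩ := band_eq h0
  obtain ⟨a3, a4⟩ := band_eq h0
  rw [Bool.and_eq_true] at h4
  obtain ⟨u, hu, e⟩ := M.find1 S.hch h h4.2
    (S.hH _ (eqL_eq a1 ▸ C.comm pz (M.comm _ _ a3)) (eqL_eq a2 ▸ C.comm py (M.comm _ _ a4))) (by simp)
    (by
      rw [List.forall₂_map_left_iff, List.forall₂_map_right_iff, List.forall₂_same]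
      intro p hp
      rw [← mul_inv_eq_iff_eq_mul.2 (conj_subst C p.1), ← mul_inv_eq_iff_eq_mul.2 (conj_subst C p.2),
        ← M.cj _ _ _ (allL_all h1 p hp), Subgroup.mem_bot]
      group)
    (C.transport r nv ps (M.rels _ h2) h4.1) (fun w hw hb => by
      obtain ⟨p, hp, rfl⟩ := List.mem_map.1 hw
      rw [C.val r h4.1, Subgroup.mem_bot, conj_eq_one_iff] at hb
      exact M.nrels _ h3 _ (List.mem_map_of_mem hp) hb)
  have hi := blt_lt (band_eq hu).1
  have hv : ∀ v ∈ vs, (wval F u.tail)⁻¹ * wval F v = wval F v * (wval F u.tail)⁻¹ := fun v hv =>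
    (Commute.inv_left (M.comm _ _ (allL_all (band_eq hu).2 v hv))).eq
  have hp : ∀ p, (wval F u.tail)⁻¹ * wval F (subst vs p) = wval F (subst vs p) * (wval F u.tail)⁻¹ :=
    conj_subst (show Cj (wval F u.tail)⁻¹ F vs vs by
      simpa using Cj.left (t := 1) (us := vs) (fun _ => by simp) hv)
  refine ⟨_, List.getElem_mem hi, (wval F u.tail)⁻¹, eqL_eq a1 ▸ hp pz, eqL_eq a2 ▸ hp py,
    .cons ?_ (C.left hv)⟩
  rw [wval_mkC, List.getD_eq_getElem _ _ hi, mul_inv_eq_iff_eq_mul] at e
  rw [mul_assoc, e]; group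

theorem SD.step' {nv : ℕ} {r pz py : List ℕ} {pp : List (List ℕ × List ℕ)}
    {ps qs reps : List (List ℕ)} {ts : List Tst} {ct : CT}
    (h : stepB0 wb mask tt B N nv ch z y us vs r pz py pp ps qs reps ts ct = true) :
    ∃ v ∈ reps, ∃ t', Cj t' F (r :: us) (v :: vs) := by
  obtain ⟨v, hv, g, -, -, h⟩ := S.step C h
  exact ⟨v, hv, _, h⟩

theorem SD.power {nv : ℕ} (cs : List (List ℕ)) (sz sy : List (List ℕ × List ℕ))
    (ks : List (List ℕ × List (List ℕ × List ℕ) × List ℕ)) {xs ys : List (List ℕ)}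
    {okU : List ℕ → Bool} {ts : List Tst} {ct : CT}
    (h : solveB wb mask tt N nv B (fun _ => true) ch 0 [] xs ys (prEq nv xs ys ++ []) [] [] okU id
      ts ct = true)
    (h1 : band (allL (actB wb mask tt B us vs cs) ((z, sz, z) :: (y, sy, y) :: ks))
      (band (eqLL (ks.map (·.1)) xs) (band (eqLL (ks.map (·.2.2)) ys)
        ((xs ++ ys).all (lt2 nv)))) = true) :
    ∃ u, okU u = true ∧ tv t F cs = wval F u := by
  obtain ⟨h1, h2⟩ := band_eq h1
  obtain ⟨h2, h3⟩ := band_eq h2
  obtain ⟨h3, h4⟩ := band_eq h3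
  have k := fun e he => M.act C (allL_all h1 e he)
  refine M.find1 S.hch h h4 (S.hH _ (k _ List.mem_cons_self) (k (y, sy, y) (by simp))) (by simp) ?_
    (by simp) (by simp)
  rw [← eqLL_eq h2, ← eqLL_eq h3, List.forall₂_map_left_iff, List.forall₂_map_right_iff,
    List.forall₂_same]
  intro e he
  rw [k e (by simp [he])]
  simp

theorem SD.powIn {nv : ℕ} (c : List ℕ) (k : ℕ) (sz sy : List (List ℕ × List ℕ))
    (ks : List (List ℕ × List (List ℕ × List ℕ) × List ℕ)) {xs ys : List (List ℕ)}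
    (good : List (List ℕ)) (L : List (List ℕ × List (List ℕ × List ℕ))) {U : List (List ℕ)}
    {ts : List Tst} {ct : CT}
    (h : solveB wb mask tt N nv B (fun _ => true) ch 0 [] xs ys (prEq nv xs ys ++ []) [] []
      (memLL U) id ts ct = true)
    (h1 : band (band (allL (actB wb mask tt B us vs (List.replicate k [c]).flatten)
        ((z, sz, z) :: (y, sy, y) :: ks))
      (band (eqLL (ks.map (·.1)) xs) (band (eqLL (ks.map (·.2.2)) ys)
        ((xs ++ ys).all (lt2 nv))))) (band (eqLL (L.map Prod.fst) U)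
      (allL (fun e => bif' (memLL good e.1) true (band (eqLL (e.2.map Prod.fst) [c])
        (tchain wb mask tt B us vs e.1 e.2 fun k => bnot (fixW wb mask tt B (e.1 ++ invW k))))) L))
      = true) :
    ∃ u ∈ good, (t * wval F c) ^ k = wval F u := by
  obtain ⟨h1, h2⟩ := band_eq h1
  obtain ⟨u, hu, e⟩ := S.power C _ sz sy ks h h1
  refine ⟨u, M.tfilter C _ _ _ (band_eq h2).2 (eqLL_eq (band_eq h2).1 ▸ hu)
    (by rw [← e, tv_rep]; exact (Commute.self_pow _ k).eq), ?_⟩
  rw [← e, tv_rep]
  simp [tv]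

end Model

/-- A model of a quotient gives a model with a kernel. -/
def Model.comap {G X : Type*} [Group G] [Group X] {F : ℕ → G} {F' : ℕ → X} {H Z : Subgroup G}
    {N wb mask : ℕ} {tt : TT} {B : List ℕ} {T : ℕ} (M : Model F' ⊤ ⊥ N wb mask tt B T)
    (q : H →* X) (hZ : ∀ g, q g = 1 ↔ (g : G) ∈ Z) (y : ℕ → H) (hy : ∀ i, (y i : G) = F i)
    (hq : ∀ i, q (y i) = F' i) : Model F H Z N wb mask tt B T where
  π := M.π.comp (q.codRestrict ⊤ fun _ => trivial)
  y := y
  hy := hy
  good := fun l p hp => by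
    have := M.good l p hp
    rw [map_lval] at this ⊢
    have e : (fun i => (M.π.comp (q.codRestrict ⊤ fun _ => trivial)) (y i)) = fun i => M.π (M.y i) :=
      funext fun i => congrArg M.π (Subtype.ext ((hq i).trans (M.hy i).symm))
    rw [e]; exact this
  lt := fun g => M.lt _
  faith := fun g => M.faith _
  hB := M.hB
  ker := fun g => (M.ker _).trans (Subgroup.mem_bot.trans (hZ g))
  card := by
    have := Nat.finite_of_card_ne_zero M.card.1
    have le : (M.π.comp (q.codRestrict ⊤ fun _ => trivial)).range ≤ M.π.range := by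
      rintro _ ⟨g, rfl⟩; exact ⟨_, rfl⟩
    have := Finite.of_injective _ (Subgroup.inclusion_injective le)
    exact ⟨Nat.card_pos.ne', (Subgroup.card_le_of_le le).trans M.card.2⟩

/-- Two involutions that differ by a commuting element of order three. -/
theorem rigid3 {G : Type*} [Group G] {a b x : G} (ha : a * a = 1) (hb : b * b = 1) (hx : x ^ 3 = 1)
    (hc : b * x = x * b) (h : a * b⁻¹ ∈ Subgroup.zpowers x) : a = b := by
  obtain ⟨n, hn⟩ := h
  have hn : x ^ n = a * b⁻¹ := hn
  have e : a = x ^ n * b := by rw [hn]; group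
  have c : Commute b (x ^ n) := Commute.zpow_right hc n
  have e2 : x ^ n * x ^ n = 1 := by
    rw [e, mul_assoc, ← mul_assoc b, c.eq, mul_assoc, hb, mul_one] at ha; exact ha
  have e3 : (x ^ n) ^ 3 = 1 := by rw [← zpow_natCast, ← zpow_mul, mul_comm, zpow_mul, zpow_natCast, hx, one_zpow]
  rw [pow_succ, sq, e2, one_mul] at e3
  rw [e, e3, one_mul]

end Cfsg.Agent.Lib.BT
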