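import Mathlib
import Cfsg.Agent.Lib.ZassRecog
import Cfsg.Agent.Lib.CoprimeInvert
import Cfsg.Agent.Lib.ConjCount
import Cfsg.Agent.Lib.SmallRecog

/-!
Bender's counting of involutions in the cosets of a trivial intersection subgroup `M` whose
nontrivial elements have centralisers of odd order.
-/

set_option autoImplicit false

namespace Cfsg.Agent.Lib.BenderTI

open Subgroup

variable {G : Type*} [Group G]

/-- The involutions. -/
def J (G : Type*) [Group G] : Set G := {g | g * g = 1 ∧ g ≠ 1}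

theorem conj_mem_J {t : G} (ht : t ∈ J G) (g : G) : g * t * g⁻¹ ∈ J G :=
  ⟨by calc g * t * g⁻¹ * (g * t * g⁻¹) = g * (t * t) * g⁻¹ := by group
        _ = 1 := by rw [ht.1]; simp,
    fun h => ht.2 (by simpa using h)⟩

theorem inv_eq {t : G} (ht : t * t = 1) : t⁻¹ = t := inv_eq_of_mul_eq_one_right ht

theorem eq_one_of_odd {t : G} (ht : t * t = 1) (ho : Odd (orderOf t)) : t = 1 := by
  have h1 : orderOf t ∣ 2 := orderOf_dvd_of_pow_eq_one (by rw [sq, ht])
  rcases (Nat.dvd_prime Nat.prime_two).1 h1 with h | h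
  · exact orderOf_eq_one_iff.1 h
  · rw [h] at ho; exact absurd ho (by decide)

/-- The hypotheses, with `N = N(M)`. -/
structure Hyp (M N : Subgroup G) (z : G) : Prop where
  ne : M ≠ ⊥
  le : M ≤ N
  norm : N ≤ normalizer (M : Set G)
  ti : ∀ g, ∀ m ∈ M, m ≠ 1 → g⁻¹ * m * g ∈ M → g ∈ N
  zJ : z ∈ J G
  zN : z ∈ N
  fac : ∀ n ∈ N, ∃ m ∈ M, ∃ c ∈ N, c * z = z * c ∧ n = m * c
  odd : ∀ x ∈ M, x ≠ 1 → ∀ g, g * x = x * g → Odd (orderOf g)
  many : M.index < (J G).ncard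
  proper : N ≠ ⊤

namespace Hyp

variable [Finite G] {M N : Subgroup G} {z : G} (h : Hyp M N z)
include h

omit [Finite G] in
theorem conj_mem {n m : G} (hn : n ∈ N) (hm : m ∈ M) : n * m * n⁻¹ ∈ M :=
  (mem_normalizer_iff.1 (h.norm hn) m).1 hm

omit [Finite G] in
theorem conj_mem' {n m : G} (hn : n ∈ N) (hm : m ∈ M) : n⁻¹ * m * n ∈ M := by
  simpa using h.conj_mem (N.inv_mem hn) hm

omit [Finite G] in
theorem eq_one_of_comm {t m : G} (ht : t ∈ J G) (hm : m ∈ M) (hc : t * m = m * t) : m = 1 := by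
  by_contra h1
  exact ht.2 (eq_one_of_odd ht.1 (h.odd m hm h1 t hc))

omit [Finite G] in
theorem eq_one_of_sq {m : G} (hm : m ∈ M) (hs : m * m = 1) : m = 1 := by
  by_contra h1
  exact h1 (h.eq_one_of_comm ⟨hs, h1⟩ hm rfl)

theorem inverts {t : G} (ht : t ∈ J G) (htN : t ∈ N) {m : G} (hm : m ∈ M) : t * m * t = m⁻¹ := by
  have := CoprimeInvert.inverts_of_inf_centralizer_eq_bot (h.norm htN) (by rw [sq, ht.1])
    (by
      rw [eq_bot_iff]
      rintro x ⟨hx, hx'⟩
      exact h.eq_one_of_comm ht hx (mem_centralizer_iff.1 hx' t rfl)) hm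
  rwa [inv_eq ht.1] at this

theorem comm {a b : G} (ha : a ∈ M) (hb : b ∈ M) : a * b = b * a :=
  CoprimeInvert.commute_of_inverts (z := z)
    (fun k hk => by rw [inv_eq h.zJ.1]; exact h.inverts h.zJ h.zN hk) ha hb

theorem mul_mem_of_J {t : G} (ht : t ∈ J G) (htN : t ∈ N) : z * t ∈ M := by
  obtain ⟨⟨x, hx⟩, hx1⟩ := ne_bot_iff_exists_ne_one.1 h.ne
  have hx1' : x ≠ 1 := fun e => hx1 (Subtype.ext e)
  have hz := h.zJ.1
  have ho : Odd (orderOf (z * t)) := h.odd x hx hx1' _ (by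
    have h1 := h.inverts ht htN hx
    have h2 := h.inverts h.zJ h.zN (M.inv_mem hx)
    rw [inv_inv] at h2
    calc z * t * x = z * (t * x * t) * t := by rw [mul_assoc, mul_assoc, mul_assoc, mul_assoc, ht.1, mul_one]
      _ = (z * x⁻¹ * z) * (z * t) := by
        rw [h1, mul_assoc (z * x⁻¹), ← mul_assoc z z, hz, one_mul]
      _ = _ := by rw [h2])
  refine CoprimeInvert.mem_of_sq_mem (Nat.coprime_two_right.2 ho) ?_
  obtain ⟨m, hm, c, hc, hcz, rfl⟩ := h.fac t htN
  have hcc : c * c ∈ M := by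
    have h2 : c * c = m⁻¹ * (m * c * (m * c)) * (c⁻¹ * m⁻¹ * c) := by group
    rw [h2, ht.1, mul_one]
    exact M.mul_mem (M.inv_mem hm) (h.conj_mem' hc (M.inv_mem hm))
  have h3 : (z * (m * c)) ^ 2 = (z * m * z⁻¹) * (c * m * c⁻¹) * (c * c) := by
    rw [inv_eq hz, sq]
    calc z * (m * c) * (z * (m * c)) = z * m * (c * z) * m * c := by group
      _ = z * m * (z * c) * m * c := by rw [hcz]
      _ = _ := by group
  rw [h3]
  exact M.mul_mem (M.mul_mem (h.conj_mem h.zN hm) (h.conj_mem hc hm)) hcc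

theorem mul_mem_of_J' {s t : G} (hs : s ∈ J G) (hsN : s ∈ N) (ht : t ∈ J G) (htN : t ∈ N) :
    s * t ∈ M := by
  have := M.mul_mem (M.inv_mem (h.mul_mem_of_J hs hsN)) (h.mul_mem_of_J ht htN)
  rwa [mul_inv_rev, inv_eq hs.1, mul_assoc, inv_mul_cancel_left] at this

theorem mul_mem_J {t m : G} (ht : t ∈ J G) (htN : t ∈ N) (hm : m ∈ M) : t * m ∈ J G :=
  ⟨by rw [← mul_assoc, h.inverts ht htN hm, inv_mul_cancel], fun e => by
    have : t = m⁻¹ := eq_inv_of_mul_eq_one_left e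
    exact ht.2 (h.eq_one_of_sq (this ▸ M.inv_mem hm) ht.1)⟩

theorem exists_conj {t : G} (ht : t ∈ J G) (htN : t ∈ N) : ∃ m ∈ M, m * z * m⁻¹ = t := by
  have hm : t * z ∈ M := h.mul_mem_of_J' ht htN h.zJ h.zN
  obtain ⟨k, hk, e⟩ := CoprimeInvert.exists_eq_inv_mul_conj (h.norm h.zN) (by
      rw [eq_bot_iff]
      rintro x ⟨hx, hx'⟩
      exact h.eq_one_of_comm h.zJ hx (mem_centralizer_iff.1 hx' z rfl)) hm
  refine ⟨k⁻¹, M.inv_mem hk, ?_⟩
  rw [inv_eq h.zJ.1, ← mul_assoc, mul_left_inj] at e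
  rw [← e, inv_inv, mul_assoc]

omit [Finite G] in
theorem uniq {s t : G} (hs : s * s = 1) (ht : t * t = 1) (hsN : s ∉ N) (hst : s⁻¹ * t ∈ M) :
    s = t := by
  by_contra hne
  refine hsN (h.ti s _ hst (fun e => hne (inv_mul_eq_one.1 e)) ?_)
  have := M.inv_mem hst
  rw [mul_inv_rev, inv_inv, inv_eq ht] at this
  rw [inv_eq hs, ← mul_assoc, hs, one_mul]
  exact this

theorem ncard_J_inter : (J G ∩ N).ncard = Nat.card M := by
  have : J G ∩ N = (fun m => z * m) '' M := by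
    ext t
    constructor
    · rintro ⟨ht, htN⟩
      exact ⟨z * t, h.mul_mem_of_J ht htN, by simp only; rw [← mul_assoc, h.zJ.1, one_mul]⟩
    · rintro ⟨m, hm, rfl⟩
      exact ⟨h.mul_mem_J h.zJ h.zN hm, N.mul_mem h.zN (h.le hm)⟩
  rw [this, Set.ncard_image_of_injective _ (mul_right_injective z)]
  rfl

theorem count : (∀ g ∉ N, ∃ t, t * t = 1 ∧ g⁻¹ * t ∈ M) ∧
    Nat.card N < Nat.card M * Nat.card M ∧
    Nat.card G = Nat.card N + Nat.card M * (J G \ N).ncard := by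
  let A : Set (G ⧸ M) := QuotientGroup.mk '' (N : Set G)
  let B : Set (G ⧸ M) := QuotientGroup.mk '' (J G \ N)
  have hA : ∀ g : G, (g : G ⧸ M) ∈ A ↔ g ∈ N := fun g =>
    ⟨fun ⟨n, hn, e⟩ => (N.mul_mem_cancel_left (N.inv_mem hn)).1 (h.le (QuotientGroup.eq.1 e)),
      fun hg => ⟨g, hg, rfl⟩⟩
  have hAc : Nat.card N = Nat.card M * A.ncard := by
    have : QuotientGroup.mk ⁻¹' A = (N : Set G) := Set.ext hA
    have h1 := QuotientGroup.card_preimage_mk M A
    rw [this] at h1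
    exact h1
  have hBc : B.ncard = (J G \ N).ncard := Set.InjOn.ncard_image fun s hs t ht e =>
    h.uniq hs.1.1 ht.1.1 hs.2 (QuotientGroup.eq.1 e)
  have hAB : Disjoint A B := by
    rw [Set.disjoint_left]
    rintro _ hx ⟨t, ht, rfl⟩
    exact ht.2 ((hA t).1 hx)
  have hX : Nat.card M ∣ (A ∪ B)ᶜ.ncard := by
    refine DicksonCount.card_dvd_of_free M _ ?_ ?_
    · intro m hm y hy
      obtain ⟨g, rfl⟩ := QuotientGroup.mk_surjective y
      rintro (h1 | ⟨t, ht, e⟩)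
      · exact hy (Or.inl ((hA g).2 ((N.mul_mem_cancel_left (h.le hm)).1 ((hA _).1 h1))))
      · refine hy (Or.inr ⟨m⁻¹ * t * m⁻¹⁻¹, ⟨conj_mem_J ht.1 _, fun hh => ht.2 ?_⟩, ?_⟩)
        · have := N.mul_mem (N.mul_mem (h.le hm) hh) (N.inv_mem (h.le hm))
          simpa [mul_assoc] using this
        · have e' : t⁻¹ * (m * g) ∈ M := QuotientGroup.eq.1 e
          rw [QuotientGroup.eq]
          have := M.mul_mem (M.inv_mem hm) e'
          convert this using 1; group
    · intro m hm y hy e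
      obtain ⟨g, rfl⟩ := QuotientGroup.mk_surjective y
      by_contra h1
      have e' : (m * g)⁻¹ * g ∈ M := QuotientGroup.eq.1 e
      refine hy (Or.inl ((hA g).2 (h.ti g m hm h1 ?_)))
      have := M.inv_mem e'
      convert this using 1; group
  have h1 : (A ∪ B).ncard + (A ∪ B)ᶜ.ncard = M.index := Set.ncard_add_ncard_compl _
  rw [Set.ncard_union_eq hAB, hBc] at h1
  have h2 := Set.ncard_inter_add_ncard_diff_eq_ncard (J G) N
  rw [h.ncard_J_inter] at h2
  have h3 := h.many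
  have h4 : (A ∪ B)ᶜ.ncard = 0 := Nat.eq_zero_of_dvd_of_lt hX (by omega)
  refine ⟨fun g hg => ?_, ?_, ?_⟩
  · have h5 : (g : G ⧸ M) ∈ A ∪ B := by
      by_contra h5
      have : (g : G ⧸ M) ∈ (A ∪ B)ᶜ := h5
      rw [(Set.ncard_eq_zero).1 h4] at this
      exact this
    rcases h5 with h5 | ⟨t, ht, e⟩
    · exact absurd ((hA g).1 h5) hg
    · exact ⟨t, ht.1.1, QuotientGroup.eq.1 e.symm⟩
  · rw [hAc]
    exact Nat.mul_lt_mul_of_pos_left (by omega) Nat.card_pos
  · rw [hAc, ← mul_add, ← M.card_mul_index, ← h1, h4, add_zero]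

theorem exists_inverted {u : G} (hu : u * u = 1) (huN : u ∉ N) {n : G} (hn : n ∈ N) :
    ∃ n' ∈ N, n⁻¹ * n' ∈ M ∧ u * n' * u = n'⁻¹ := by
  obtain ⟨t, ht, hm⟩ := h.count.1 (u * n) fun hh => huN ((N.mul_mem_cancel_right hn).1 hh)
  rw [mul_inv_rev, inv_eq hu, mul_assoc] at hm
  refine ⟨u * t, (N.mul_mem_cancel_left (N.inv_mem hn)).1 (h.le hm), hm, ?_⟩
  rw [mul_inv_rev, inv_eq hu, inv_eq ht, ← mul_assoc, hu, one_mul]

theorem exists_comm {u : G} (hu : u * u = 1) (huN : u ∉ N) :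
    ∃ w ∈ J G, w ∈ N ∧ u * w * u = w := by
  obtain ⟨w, hw, hm, e⟩ := h.exists_inverted hu huN h.zN
  have hJ := h.mul_mem_J h.zJ h.zN hm
  rw [mul_inv_cancel_left] at hJ
  exact ⟨w, hJ, hw, by rw [e, inv_eq hJ.1]⟩

theorem eq_one_of_D {u : G} (hu : u * u = 1) (huN : u ∉ N) {e : G} (he : e ∈ M)
    (hue : u * e * u ∈ N) : e = 1 := by
  obtain ⟨w, hw, hwN, hc⟩ := h.exists_comm hu huN
  have h1 := h.mul_mem_of_J' hw hwN (conj_mem_J hw (u * e * u)⁻¹)
    (N.mul_mem (N.mul_mem (N.inv_mem hue) hwN) (N.inv_mem (N.inv_mem hue)))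
  have h2 := h.inverts hw hwN (M.inv_mem he)
  have huw : u * w = w * u := by
    calc u * w = u * w * (u * u) := by rw [hu, mul_one]
      _ = _ := by rw [← mul_assoc, hc]
  have h3 : w * ((u * e * u)⁻¹ * w * (u * e * u)⁻¹⁻¹) = u⁻¹ * (e * e) * u := by
    rw [inv_inv, mul_inv_rev, mul_inv_rev, inv_eq hu]
    calc w * (u * (e⁻¹ * u) * w * (u * e * u)) = (w * u) * e⁻¹ * (u * w * u) * e * u := by group
      _ = u * (w * e⁻¹ * w) * e * u := by rw [← huw, hc]; group
      _ = _ := by rw [h2]; group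
  rw [h3] at h1
  by_contra h4
  exact huN (h.ti u _ (M.mul_mem he he) (fun e2 => h4 (h.eq_one_of_sq he e2)) h1)

theorem inv_D {u : G} (hu : u * u = 1) (huN : u ∉ N) {d : G} (hd : d ∈ N) (hud : u * d * u ∈ N) :
    u * d * u = d⁻¹ := by
  obtain ⟨n, hn, hm, e⟩ := h.exists_inverted hu huN hd
  have := h.eq_one_of_D hu huN hm (by
    have h1 := N.mul_mem (N.inv_mem hud) (e ▸ N.inv_mem hn : u * n * u ∈ N)
    convert h1 using 1
    rw [mul_inv_rev, mul_inv_rev, inv_eq hu]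
    calc u * (d⁻¹ * n) * u = u * d⁻¹ * (u * u) * n * u := by rw [hu]; group
      _ = _ := by group)
  rw [inv_mul_eq_one.1 this, e]

theorem comm_D {u : G} (hu : u * u = 1) (huN : u ∉ N) {a b : G} (ha : a ∈ N) (hua : u * a * u ∈ N)
    (hb : b ∈ N) (hub : u * b * u ∈ N) : a * b = b * a := by
  have e : u * (a * b) * u = (u * a * u) * (u * b * u) := by
    calc u * (a * b) * u = u * a * (u * u) * b * u := by rw [hu]; group
      _ = _ := by group
  have h1 := h.inv_D hu huN (N.mul_mem ha hb) (e ▸ N.mul_mem hua hub)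
  rw [e, h.inv_D hu huN ha hua, h.inv_D hu huN hb hub, ← mul_inv_rev, inv_inj] at h1
  exact h1.symm

theorem mem_D_iff {u : G} (hu : u * u = 1) (huN : u ∉ N) {w : G} (hw : w ∈ J G) (hwN : w ∈ N)
    (hc : u * w * u = w) {d : G} (hd : d ∈ N) : u * d * u ∈ N ↔ d * w = w * d := by
  refine ⟨fun hud => h.comm_D hu huN hd hud hwN (by rwa [hc]), fun hdw => ?_⟩
  obtain ⟨n, hn, hm, e⟩ := h.exists_inverted hu huN hd
  have hun : u * n * u ∈ N := e ▸ N.inv_mem hn
  have h1 := h.comm_D hu huN hn hun hwN (by rwa [hc])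
  have := h.eq_one_of_comm hw hm (by
    calc w * (d⁻¹ * n) = d⁻¹ * (d * w) * d⁻¹ * n := by group
      _ = d⁻¹ * (w * n) := by rw [hdw]; group
      _ = _ := by rw [← h1, mul_assoc])
  rwa [inv_mul_eq_one.1 this]

theorem exists_inv_comm {g : G} (hg : g ∉ N) : ∃ t, t * t = 1 ∧ t ∉ N ∧ g⁻¹ * t ∈ M ∧
    ∀ n ∈ N, n * g = g * n → n * t = t * n := by
  obtain ⟨t, ht, hm⟩ := h.count.1 g hg
  have htN : t ∉ N := fun hh => hg (by
    have := N.mul_mem hh (N.inv_mem (h.le hm))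
    simpa using this)
  refine ⟨t, ht, htN, hm, fun n hn hc => ?_⟩
  have h1 : t = n * t * n⁻¹ := h.uniq ht
    (by calc n * t * n⁻¹ * (n * t * n⁻¹) = n * (t * t) * n⁻¹ := by group
          _ = 1 := by rw [ht]; simp) htN (by
      have := M.mul_mem (M.inv_mem hm) (h.conj_mem hn hm)
      convert this using 1
      calc t⁻¹ * (n * t * n⁻¹) = t⁻¹ * (n * g) * g⁻¹ * t * n⁻¹ := by group
        _ = t⁻¹ * g * n * g⁻¹ * t * n⁻¹ := by rw [hc]; group
        _ = _ := by group)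
  exact mul_inv_eq_iff_eq_mul.1 h1.symm

theorem sq_of_comm {w : G} (hw : w ∈ J G) (hwN : w ∈ N) {g : G} (hg : g ∉ N)
    (hc : g * w = w * g) : g * g = 1 := by
  obtain ⟨t, ht, -, hm, h1⟩ := h.exists_inv_comm hg
  have h2 := h1 w hwN hc.symm
  have := h.eq_one_of_comm hw hm (by
    calc w * (g⁻¹ * t) = g⁻¹ * (g * w) * g⁻¹ * t := by group
      _ = g⁻¹ * (w * t) := by rw [hc]; group
      _ = _ := by rw [h2, mul_assoc])
  rw [inv_mul_eq_one.1 this, ht]

theorem ti' {g : G} (hg : g ∉ N) {m : G} (hm : m ∈ M) (hgm : g⁻¹ * m * g ∈ N) : m = 1 := by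
  obtain ⟨t, ht, htN, hm', -⟩ := h.exists_inv_comm hg
  refine h.eq_one_of_D ht htN hm ?_
  have := N.mul_mem (N.mul_mem (N.inv_mem (h.le hm')) hgm) (h.le hm')
  have e : (g⁻¹ * t)⁻¹ * (g⁻¹ * m * g) * (g⁻¹ * t) = t⁻¹ * m * t := by group
  rwa [e, inv_eq ht] at this

theorem free {u : G} (hu : u * u = 1) (huN : u ∉ N) {d : G} (hd : d ∈ N) (hud : u * d * u ∈ N)
    {m : G} (hm : m ∈ M) (hm1 : m ≠ 1) (hc : d * m = m * d) : d = 1 := by
  have hi := h.inv_D hu huN hd hud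
  have hg : u * m * u ∉ N := fun hh => hm1 (h.eq_one_of_D hu huN hm hh)
  obtain ⟨t, ht, htN, -, h1⟩ := h.exists_inv_comm hg
  have hcg : d⁻¹ * (u * m * u) = u * m * u * d⁻¹ := by
    rw [← hi]
    calc u * d * u * (u * m * u) = u * d * (u * u) * m * u := by group
      _ = u * (d * m) * u := by rw [hu]; group
      _ = u * m * (u * u) * d * u := by rw [hu, hc]; group
      _ = _ := by group
  have h2 : t * d⁻¹ * t = d⁻¹ := by rw [← h1 _ (N.inv_mem hd) hcg, mul_assoc, ht, mul_one]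
  have h3 := h.inv_D ht htN (N.inv_mem hd) (by rw [h2]; exact N.inv_mem hd)
  rw [h2, inv_inv] at h3
  by_contra h4
  exact hm1 (h.eq_one_of_comm ⟨by nth_rewrite 2 [← h3]; simp, h4⟩ hm hc)

theorem card_N : Nat.card N = Nat.card M * Nat.card (N ⊓ centralizer {z} : Subgroup G) := by
  rw [← Nat.card_prod]
  refine (Nat.card_congr (Equiv.ofBijective
    (fun p : M × (N ⊓ centralizer {z} : Subgroup G) =>
      (⟨p.1 * p.2, N.mul_mem (h.le p.1.2) p.2.2.1⟩ : N)) ⟨?_, ?_⟩)).symm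
  · intro p p' hp
    exact mul_injective_of_disjoint (H₂ := N ⊓ centralizer {z}) (disjoint_def.2 fun ha hd =>
      h.eq_one_of_comm h.zJ ha (mem_centralizer_singleton_iff.1 hd.2).symm)
      (congrArg Subtype.val hp)
  · intro b
    obtain ⟨a, ha, d, hd, hc, e⟩ := h.fac b b.2
    exact ⟨(⟨a, ha⟩, ⟨d, hd, mem_centralizer_singleton_iff.2 hc⟩), Subtype.ext e.symm⟩

theorem exists_conj_comm {u : G} (hu : u * u = 1) (huN : u ∉ N) :
    ∃ m ∈ M, m⁻¹ * u * m ∈ centralizer ({z} : Set G) := by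
  obtain ⟨w, hw, hwN, hc⟩ := h.exists_comm hu huN
  obtain ⟨m, hm, rfl⟩ := h.exists_conj hw hwN
  refine ⟨m, hm, mem_centralizer_singleton_iff.2 ?_⟩
  calc m⁻¹ * u * m * z = m⁻¹ * (u * (m * z * m⁻¹) * u) * u⁻¹ * m := by group
    _ = _ := by rw [hc, inv_eq hu]; group

theorem conj_eq_of_comm {u : G} (huN : u ∉ N) (hc : u * z = z * u) : u * z * u = z := by
  rw [hc, mul_assoc, h.sq_of_comm h.zJ h.zN huN hc, mul_one]

theorem conj_inj {m m' g g' : G} (hm : m ∈ M) (hm' : m' ∈ M) (hg : g ∈ centralizer ({z} : Set G))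
    (hgN : g ∉ N) (hg' : g' ∈ centralizer ({z} : Set G)) (hgN' : g' ∉ N)
    (e : m * g * m⁻¹ = m' * g' * m'⁻¹) : m = m' ∧ g = g' := by
  have hc := mem_centralizer_singleton_iff.1 hg
  have hc' := mem_centralizer_singleton_iff.1 hg'
  have hgg := h.sq_of_comm h.zJ h.zN hgN hc
  have hk : m⁻¹ * m' ∈ M := M.mul_mem (M.inv_mem hm) hm'
  have e' : g = (m⁻¹ * m') * g' * (m⁻¹ * m')⁻¹ := by
    calc g = m⁻¹ * (m * g * m⁻¹) * m := by group
      _ = _ := by rw [e]; group
  have hk1 : m⁻¹ * m' = 1 := by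
    generalize m⁻¹ * m' = k at hk e'
    have hw : k * z * k⁻¹ ∈ N := N.mul_mem (N.mul_mem (h.le hk) h.zN) (N.inv_mem (h.le hk))
    have h3 : g * (k * z * k⁻¹) * g = k * z * k⁻¹ := by
      calc g * (k * z * k⁻¹) * g = k * (g' * z * g') * k⁻¹ := by rw [e']; group
        _ = _ := by rw [h.conj_eq_of_comm hgN' hc']
    have h4 := h.eq_one_of_D hgg hgN (h.mul_mem_of_J' h.zJ h.zN (conj_mem_J h.zJ k) hw) (by
      have : g * (z * (k * z * k⁻¹)) * g = (g * z * g) * (g * (k * z * k⁻¹) * g) := by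
        calc g * (z * (k * z * k⁻¹)) * g = g * z * (g * g) * (k * z * k⁻¹) * g := by
              rw [hgg]; group
          _ = _ := by group
      rw [this, h3, h.conj_eq_of_comm hgN hc]
      exact N.mul_mem h.zN hw)
    refine h.eq_one_of_comm h.zJ hk ?_
    calc z * k = z * k * (z * k⁻¹ * k * z⁻¹) := by group
      _ = z * (k * z * k⁻¹) * k * z⁻¹ := by group
      _ = _ := by rw [h4, inv_eq h.zJ.1, one_mul]
  have hmm : m = m' := inv_mul_eq_one.1 hk1
  subst hmm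
  exact ⟨rfl, by simpa using e'⟩

theorem ncard_J_diff : (J G \ N).ncard = Nat.card M *
    (Nat.card (centralizer ({z} : Set G)) - Nat.card (N ⊓ centralizer {z} : Subgroup G)) := by
  have h1 : ((centralizer ({z} : Set G) : Set G) \ N).ncard =
      Nat.card (centralizer ({z} : Set G)) - Nat.card (N ⊓ centralizer {z} : Subgroup G) := by
    have := Set.ncard_inter_add_ncard_diff_eq_ncard (centralizer ({z} : Set G) : Set G) N
    rw [Set.inter_comm] at this
    exact Nat.eq_sub_of_add_eq' this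
  rw [← h1, ← Nat.card_coe_set_eq, ← Nat.card_coe_set_eq, ← Nat.card_prod]
  have hN : ∀ m ∈ M, ∀ g, m * g * m⁻¹ ∈ N → g ∈ N := fun m hm g hh => by
    have := N.mul_mem (N.mul_mem (N.inv_mem (h.le hm)) hh) (h.le hm)
    simpa [mul_assoc] using this
  refine (Nat.card_congr (Equiv.ofBijective
    (fun p : M × ((centralizer ({z} : Set G) : Set G) \ N : Set G) =>
      (⟨p.1 * p.2 * (p.1 : G)⁻¹, conj_mem_J ⟨h.sq_of_comm h.zJ h.zN p.2.2.2
        (mem_centralizer_singleton_iff.1 p.2.2.1), fun e => p.2.2.2 (e ▸ N.one_mem)⟩ _,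
        fun hh => p.2.2.2 (hN _ p.1.2 _ hh)⟩ : (J G \ N : Set G))) ⟨?_, ?_⟩)).symm
  · rintro ⟨⟨m, hm⟩, ⟨g, hg, hgN⟩⟩ ⟨⟨m', hm'⟩, ⟨g', hg', hgN'⟩⟩ hp
    obtain ⟨rfl, rfl⟩ := h.conj_inj hm hm' hg hgN hg' hgN' (congrArg Subtype.val hp)
    rfl
  · rintro ⟨u, hu, huN⟩
    obtain ⟨m, hm, hc⟩ := h.exists_conj_comm hu.1 huN
    refine ⟨(⟨m, hm⟩, ⟨m⁻¹ * u * m, hc, fun hh => huN (hN m⁻¹ (M.inv_mem hm) u ?_)⟩),
      Subtype.ext (by simp [mul_assoc])⟩
    rwa [inv_inv]

theorem exists_u : ∃ u, u ∉ N ∧ u * z = z * u := by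
  obtain ⟨g, hg⟩ : ∃ g, g ∉ N := by
    by_contra hh
    push Not at hh
    exact h.proper (eq_top_iff.2 fun g _ => hh g)
  obtain ⟨t, ht, htN, -⟩ := h.exists_inv_comm hg
  obtain ⟨m, hm, hc⟩ := h.exists_conj_comm ht htN
  refine ⟨_, fun hh => htN ?_, mem_centralizer_singleton_iff.1 hc⟩
  have := N.mul_mem (N.mul_mem (h.le hm) hh) (N.inv_mem (h.le hm))
  simpa [mul_assoc] using this

theorem mem_D {u : G} (huN : u ∉ N) (hc : u * z = z * u) (d : G) :
    d ∈ (N ⊓ centralizer {z} : Subgroup G) ↔ d ∈ N ∧ u * d * u ∈ N := by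
  have := fun hd => h.mem_D_iff (h.sq_of_comm h.zJ h.zN huN hc) huN h.zJ h.zN
    (h.conj_eq_of_comm huN hc) (d := d) hd
  rw [mem_inf, mem_centralizer_singleton_iff]
  exact ⟨fun hd => ⟨hd.1, (this hd.1).2 hd.2⟩, fun hd => ⟨hd.1, (this hd.1).1 hd.2⟩⟩

theorem card_D_dvd : Nat.card (N ⊓ centralizer {z} : Subgroup G) ∣ Nat.card M - 1 := by
  obtain ⟨u, huN, hc⟩ := h.exists_u
  have := DicksonCount.card_dvd_of_free (H := ConjAct G) (X := G)
    ((N ⊓ centralizer {z} : Subgroup G).map ConjAct.toConjAct.toMonoidHom) ((M : Set G) \ {1}) (by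
      rintro _ ⟨d, hd, rfl⟩ y ⟨hy, hy1⟩
      refine ⟨h.conj_mem hd.1 hy, fun e => hy1 ?_⟩
      have e' : d * y * d⁻¹ = 1 := e
      simpa using e') (by
      rintro _ ⟨d, hd, rfl⟩ y ⟨hy, hy1⟩ e
      have e' : d * y * d⁻¹ = y := e
      rw [h.free (h.sq_of_comm h.zJ h.zN huN hc) huN hd.1 ((h.mem_D huN hc d).1 hd).2 hy hy1
        (mul_inv_eq_iff_eq_mul.1 e')]
      rfl)
  rwa [card_map_of_injective ConjAct.toConjAct.injective,
    Set.ncard_diff_singleton_of_mem M.one_mem] at this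

/-- The numerical data: `|M| = q`, `|C_N(z)| = c`, `|C(z)| = c (k + 1)`. -/
theorem numbers : ∃ q c k j : ℕ, Nat.card M = q ∧ Nat.card (N ⊓ centralizer {z} : Subgroup G) = c ∧
    (N ⊓ centralizer {z} : Subgroup G).relIndex (centralizer {z}) = k + 1 ∧
    Nat.card (centralizer ({z} : Set G)) = c * (k + 1) ∧ 0 < k ∧ 0 < c ∧ c < q ∧ c ∣ q - 1 ∧
    Nat.card N = q * c ∧ N.index = 1 + q * k ∧ Nat.card G = q * c * (1 + q * k) ∧
    (J G).ncard = q * (1 + c * k) ∧ {y | IsConj z y}.ncard = j ∧ j * (k + 1) = q * (1 + q * k) := by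
  set c := Nat.card (N ⊓ centralizer {z} : Subgroup G) with hc
  set q := Nat.card M with hq
  have hc0 : 0 < c := Nat.card_pos
  have hq0 : 0 < q := Nat.card_pos
  have h1 : c * (N ⊓ centralizer {z} : Subgroup G).relIndex (centralizer {z}) =
      Nat.card (centralizer ({z} : Set G)) := by
    rw [hc, ← Nat.card_congr (subgroupOfEquivOfLe (inf_le_right (a := N))).toEquiv]
    exact card_mul_index _
  have h2 : (N ⊓ centralizer {z} : Subgroup G).relIndex (centralizer {z}) ≠ 1 := fun e => by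
    obtain ⟨u, huN, hu⟩ := h.exists_u
    exact huN (relIndex_eq_one.1 e (mem_centralizer_singleton_iff.2 hu)).1
  have h3 : (N ⊓ centralizer {z} : Subgroup G).relIndex (centralizer {z}) ≠ 0 := index_ne_zero_of_finite
  obtain ⟨k, hk⟩ : ∃ k, (N ⊓ centralizer {z} : Subgroup G).relIndex (centralizer {z}) = k + 1 :=
    ⟨_, (Nat.succ_pred_eq_of_ne_zero h3).symm⟩
  rw [hk] at h1
  have h4 := h.ncard_J_diff
  rw [← h1, ← hc, ← hq, mul_add, mul_one, Nat.add_sub_cancel] at h4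
  have h5 := h.card_N
  obtain ⟨-, h6, h7⟩ := h.count
  rw [← hq, ← hc] at h5
  rw [h5, ← hq] at h6 h7
  have hG : Nat.card G = q * c * (1 + q * k) := by rw [h7, h4]; ring
  have h8 := Set.ncard_inter_add_ncard_diff_eq_ncard (J G) N
  rw [h.ncard_J_inter, h4] at h8
  have h9 := ConjCount.card_isConj_mul z
  refine ⟨q, c, k, _, rfl, rfl, hk, h1.symm, by omega, hc0, lt_of_mul_lt_mul_left h6 (Nat.zero_le _),
    h.card_D_dvd, h5, ?_, hG, by rw [← h8]; ring, rfl, ?_⟩
  · have := N.card_mul_index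
    rw [h5, hG] at this
    exact Nat.eq_of_mul_eq_mul_left (Nat.mul_pos hq0 hc0) this
  · rw [← h1, hG] at h9
    refine Nat.eq_of_mul_eq_mul_left hc0 ?_
    change Nat.card {y // IsConj z y} * _ = _ at h9
    change c * (Nat.card {y // IsConj z y} * _) = _
    linarith

omit [Finite G] in
theorem class_subset : {y | IsConj z y} ⊆ J G := fun y hy => by
  obtain ⟨g, rfl⟩ := isConj_iff.1 hy
  exact conj_mem_J h.zJ g

theorem setup (hi : N.index = Nat.card M + 1) {u : G} (huN : u ∉ N) (hc : u * z = z * u) :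
    ZassRecog.Setup M N (N ⊓ centralizer {z}) u where
  le := h.le
  norm := h.norm
  comm _ ha _ hb := h.comm ha hb
  idx := hi
  ti _ hg _ ha := h.ti' hg ha
  sq := h.sq_of_comm h.zJ h.zN huN hc
  nmem := huN
  memD := h.mem_D huN hc
  inv d hd := h.inv_D (h.sq_of_comm h.zJ h.zN huN hc) huN hd.1 ((h.mem_D huN hc d).1 hd).2
  free d hd _ ha ha1 e :=
    h.free (h.sq_of_comm h.zJ h.zN huN hc) huN hd.1 ((h.mem_D huN hc d).1 hd).2 ha ha1 e

theorem sq_of_relIndex
    (hi : (N ⊓ centralizer {z} : Subgroup G).relIndex (centralizer {z}) ≠ 2) {g : G}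
    (hg : g * z = z * g) : g * g = 1 := by
  by_cases hgN : g ∈ N
  swap
  · exact h.sq_of_comm h.zJ h.zN hgN hg
  obtain ⟨u, huN, hu⟩ := h.exists_u
  rw [Ne, relIndex_eq_two_iff_exists_notMem_and] at hi
  push Not at hi
  obtain ⟨b, hb, hbu, hbN⟩ := hi u (mem_centralizer_singleton_iff.2 hu) fun hh => huN hh.1
  have hbu' := (centralizer {z}).mul_mem hb (mem_centralizer_singleton_iff.2 hu)
  have key : ∀ v ∈ centralizer ({z} : Set G), v ∉ (N ⊓ centralizer {z} : Subgroup G) →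
      v * v = 1 ∧ ∀ d ∈ (N ⊓ centralizer {z} : Subgroup G), v * d * v = d⁻¹ := fun v hv hvN => by
    have h1 : v ∉ N := fun hh => hvN ⟨hh, hv⟩
    have h2 := mem_centralizer_singleton_iff.1 hv
    have h3 := h.sq_of_comm h.zJ h.zN h1 h2
    exact ⟨h3, fun d hd => h.inv_D h3 h1 hd.1 ((h.mem_D h1 h2 d).1 hd).2⟩
  have hgD : g ∈ (N ⊓ centralizer {z} : Subgroup G) := ⟨hgN, mem_centralizer_singleton_iff.2 hg⟩
  obtain ⟨a1, a2⟩ := key u (mem_centralizer_singleton_iff.2 hu) fun hh => huN hh.1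
  obtain ⟨b1, b2⟩ := key b hb hbN
  obtain ⟨c1, c2⟩ := key _ hbu' hbu
  have e := c2 g hgD
  nth_rewrite 2 [← inv_eq c1] at e
  rw [mul_inv_rev, inv_eq a1, inv_eq b1] at e
  have e2 : b * u * g * (u * b) = b * (u * g * u) * b := by group
  rw [e2, a2 g hgD, b2 _ (inv_mem hgD), inv_inv] at e
  nth_rewrite 2 [e]; simp

theorem eq_of_mem_D {d : G} (hd : d ∈ J G) (hdN : d ∈ N) (hc : d * z = z * d) : d = z := by
  have := h.eq_one_of_comm h.zJ (h.mul_mem_of_J hd hdN) (by rw [mul_assoc, hc])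
  rw [eq_inv_of_mul_eq_one_right this, inv_eq h.zJ.1]

section B

variable (he : ∀ g, g * z = z * g → g * g = 1)
include he

theorem mem_D_cases {d : G} (hdN : d ∈ N) (hc : d * z = z * d) : d = 1 ∨ d = z := by
  by_cases h1 : d = 1
  · exact Or.inl h1
  · exact Or.inr (h.eq_of_mem_D ⟨he d hc, h1⟩ hdN hc)

theorem card_D : Nat.card (N ⊓ centralizer {z} : Subgroup G) = 2 := by
  have : (N ⊓ centralizer {z} : Subgroup G) = zpowers z := by
    refine le_antisymm (fun d hd => ?_)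
      (zpowers_le.2 ⟨h.zN, mem_centralizer_singleton_iff.2 rfl⟩)
    rcases h.mem_D_cases he hd.1 (mem_centralizer_singleton_iff.1 hd.2) with rfl | rfl
    · exact one_mem _
    · exact mem_zpowers _
  rw [this, Nat.card_zpowers]
  exact orderOf_eq_prime (by rw [sq, h.zJ.1]) h.zJ.2

omit h [Finite G] in
theorem sq_of_conj {a x : G} (ha : IsConj z a) (hx : x * a = a * x) : x * x = 1 := by
  obtain ⟨g, rfl⟩ := isConj_iff.1 ha
  have := he (g⁻¹ * x * g) (by
    calc g⁻¹ * x * g * z = g⁻¹ * (x * (g * z * g⁻¹)) * g := by group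
      _ = _ := by rw [hx]; group)
  calc x * x = g * (g⁻¹ * x * g * (g⁻¹ * x * g)) * g⁻¹ := by group
    _ = 1 := by rw [this]; simp

omit h [Finite G] in
theorem comm_of_conj {a x y : G} (ha : IsConj z a) (hx : x * a = a * x) (hy : y * a = a * y) :
    x * y = y * x := by
  have h1 := sq_of_conj he ha (x := x * y) (by rw [mul_assoc, hy, ← mul_assoc, hx, mul_assoc])
  rw [← inv_eq h1, mul_inv_rev, inv_eq (sq_of_conj he ha hx), inv_eq (sq_of_conj he ha hy)]

omit h [Finite G] in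
theorem comm_iff {a : G} (ha : IsConj z a) (hc : a * z = z * a) (x : G) :
    x * a = a * x ↔ x * z = z * x :=
  ⟨fun hx => comm_of_conj he ha hx hc.symm, fun hx => comm_of_conj he (IsConj.refl z) hx hc⟩

omit h [Finite G] in
theorem mem_normalizer_C {g : G} : g ∈ normalizer (centralizer ({z} : Set G) : Set G) ↔
    g * z * g⁻¹ ∈ centralizer ({z} : Set G) := by
  refine ⟨fun hg => (mem_normalizer_iff.1 hg z).1 (mem_centralizer_singleton_iff.2 rfl),
    fun hg => mem_normalizer_iff.2 fun x => ?_⟩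
  rw [mem_centralizer_singleton_iff, mem_centralizer_singleton_iff,
    ← comm_iff he (isConj_iff.2 ⟨g, rfl⟩) (mem_centralizer_singleton_iff.1 hg) (g * x * g⁻¹)]
  constructor
  · intro e
    calc g * x * g⁻¹ * (g * z * g⁻¹) = g * (x * z) * g⁻¹ := by group
      _ = _ := by rw [e]; group
  · intro e
    calc x * z = g⁻¹ * (g * x * g⁻¹ * (g * z * g⁻¹)) * g := by group
      _ = _ := by rw [e]; group

omit h in
theorem card_C : ∃ n, Nat.card (centralizer ({z} : Set G)) = 2 ^ n :=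
  IsPGroup.iff_card.1 fun g => ⟨1, Subtype.ext (by
    rw [pow_one, sq]; exact he g (mem_centralizer_singleton_iff.1 g.2))⟩

theorem numbersB : ∃ d : ℕ, 1 ≤ d ∧
    (N ⊓ centralizer {z} : Subgroup G).relIndex (centralizer {z}) = 2 ^ d ∧
    Nat.card (centralizer ({z} : Set G)) = 2 * 2 ^ d ∧ Nat.card N = Nat.card M * 2 ∧
    (J G).ncard + Nat.card M = Nat.card M * (2 * 2 ^ d) ∧
    ((Nat.card M = 2 * 2 ^ d + 1 ∧ {y | IsConj z y} = J G ∧
      Nat.card G + Nat.card M * (2 * 2 ^ d) = Nat.card M * (2 * 2 ^ d) * (2 * 2 ^ d)) ∨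
     (Nat.card M = 2 ^ d + 1 ∧ {y | IsConj z y}.ncard = Nat.card M * 2 ^ d ∧
      Nat.card G = Nat.card M * 2 * (2 ^ d * 2 ^ d))) := by
  obtain ⟨q, c, k, j, hq, hc, hk, hC, hk0, -, hcq, hdvd, hN, -, hG, hJ, hj, hjk⟩ := h.numbers
  rw [h.card_D he] at hc
  subst hc
  obtain ⟨n, hn⟩ := card_C he
  obtain ⟨d, hd⟩ : ∃ d, k + 1 = 2 ^ d := by
    rcases n with _ | n
    · omega
    · exact ⟨n, by rw [hn, pow_succ] at hC; omega⟩
  have hd1 : 1 ≤ d := by
    rcases d with _ | d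
    · omega
    · omega
  have hle : j ≤ q * (1 + 2 * k) := by
    rw [← hj, ← hJ]; exact Set.ncard_le_ncard h.class_subset
  have hq0 : 0 < q := by omega
  have hcop : Nat.Coprime (k + 1) q := by
    rw [hd]
    exact Nat.Coprime.pow_left _ ((Nat.coprime_two_left).2 (Nat.odd_iff.2 (by omega)))
  have h1 : k + 1 ∣ 1 + q * k := hcop.dvd_of_dvd_mul_left ⟨j, by rw [← hjk, mul_comm]⟩
  have h2 : k + 1 ∣ q - 1 := by
    have := Nat.dvd_sub (dvd_mul_left (k + 1) q) h1
    rwa [show q * (k + 1) - (1 + q * k) = q - 1 by rw [mul_add]; omega] at this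
  have h3 : 1 + q * k ≤ (1 + 2 * k) * (k + 1) := by
    refine Nat.le_of_mul_le_mul_left ?_ hq0
    rw [← hjk, ← mul_assoc]
    exact Nat.mul_le_mul_right _ hle
  have h4 : q ≤ 2 * k + 3 := by
    refine Nat.le_of_mul_le_mul_right ?_ hk0
    nlinarith
  obtain ⟨i, hi⟩ := h2
  have hi' : i = 1 ∨ i = 2 := by
    have : i ≠ 0 := by rintro rfl; omega
    have : ¬ 3 ≤ i := fun h3 => by
      have := Nat.mul_le_mul_left (k + 1) h3
      omega
    omega
  refine ⟨d, hd1, hd ▸ hk, hd ▸ hC, hq ▸ hN, by rw [hq, hJ, ← hd]; ring, ?_⟩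
  rw [hq, ← hd]
  rcases hi' with rfl | rfl
  · have hq' : q = k + 2 := by omega
    subst hq'
    refine Or.inr ⟨rfl, ?_, by rw [hG]; ring⟩
    rw [hj]
    refine Nat.eq_of_mul_eq_mul_right (Nat.succ_pos k) (hjk.trans ?_)
    simp only [Nat.succ_eq_add_one]; ring
  · have hq' : q = 2 * k + 3 := by omega
    subst hq'
    refine Or.inl ⟨by ring, Set.eq_of_subset_of_ncard_le h.class_subset ?_, by rw [hG]; ring⟩
    rw [hj, hJ]
    refine le_of_eq (Nat.eq_of_mul_eq_mul_right (Nat.succ_pos k) (Eq.trans ?_ hjk.symm))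
    simp only [Nat.succ_eq_add_one]; ring

omit h in
theorem card_normalizer_C (hall : {y | IsConj z y} = J G) :
    Nat.card (normalizer (centralizer ({z} : Set G) : Set G)) =
      (Nat.card (centralizer ({z} : Set G)) - 1) * Nat.card (centralizer ({z} : Set G)) := by
  classical
  have := Fintype.ofFinite G
  have hz : z ∈ J G := hall ▸ IsConj.refl z
  let S : Finset G := (Finset.univ.filter (· ∈ centralizer ({z} : Set G))).erase 1
  have hS : S.card = Nat.card (centralizer ({z} : Set G)) - 1 := by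
    rw [Finset.card_erase_of_mem (by simp), Nat.card_eq_fintype_card, Fintype.card_subtype]
  rw [← hS, Nat.card_eq_fintype_card, Fintype.card_subtype,
    Finset.card_eq_sum_card_fiberwise (f := fun g => g * z * g⁻¹) (t := S), ← smul_eq_mul,
    ← Finset.sum_const]
  · refine Finset.sum_congr rfl fun y hy => ?_
    have hy' := (Finset.mem_filter.1 (Finset.mem_of_mem_erase hy)).2
    have hc : IsConj z y := by
      have : y ∈ J G := ⟨he y (mem_centralizer_singleton_iff.1 hy'), Finset.ne_of_mem_erase hy⟩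
      rwa [← hall] at this
    rw [← ConjCount.card_filter_conj_eq hc, Finset.filter_filter]
    congr 1
    refine Finset.filter_congr fun g _ => ⟨And.right, fun e => ⟨?_, e⟩⟩
    rw [mem_normalizer_C he, e]; exact hy'
  · intro g hg
    have hg' := (mem_normalizer_C he).1 (Finset.mem_filter.1 hg).2
    exact Finset.mem_erase.2 ⟨(conj_mem_J hz g).2, Finset.mem_filter.2 ⟨Finset.mem_univ _, hg'⟩⟩

omit h [Finite G] in
theorem mem_C_of_J (hall : {y | IsConj z y} = J G) {t : G} (ht : t * t = 1)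
    (htB : t ∈ normalizer (centralizer ({z} : Set G) : Set G)) : t * z = z * t := by
  have h1 := mem_centralizer_singleton_iff.1 ((mem_normalizer_C he).1 htB)
  rw [inv_eq ht] at h1
  by_cases h2 : z * (t * z * t) = 1
  · have hz : z ∈ J G := hall ▸ IsConj.refl z
    have h3 := eq_inv_of_mul_eq_one_right h2
    rw [inv_eq hz.1] at h3
    calc t * z = t * z * (t * t) := by rw [ht, mul_one]
      _ = _ := by rw [← mul_assoc, h3]
  · have h3 : z * (t * z * t) * z = z * (z * (t * z * t)) := by rw [mul_assoc, h1]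
    have h4 : z * (t * z * t) ∈ J G := ⟨he _ h3, h2⟩
    rw [← hall] at h4
    refine (comm_iff he h4 h3 t).1 ?_
    calc t * (z * (t * z * t)) = t * z * t * z * t := by group
      _ = _ := by rw [h1]

omit h [Finite G] in
theorem ti_C (hall : {y | IsConj z y} = J G) {g : G}
    (hg : g ∉ normalizer (centralizer ({z} : Set G) : Set G)) {a : G} (ha : a * z = z * a)
    (hga : g⁻¹ * a * g ∈ normalizer (centralizer ({z} : Set G) : Set G)) : a = 1 := by
  by_contra h1
  have h2 := conj_mem_J ⟨he a ha, h1⟩ g⁻¹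
  rw [inv_inv] at h2
  have h3 := mem_C_of_J he hall h2.1 hga
  rw [← hall] at h2
  refine hg ((normalizer _).inv_mem_iff.1 ((mem_normalizer_C he).2
    (mem_centralizer_singleton_iff.2 ((comm_iff he h2 h3 _).1 ?_))))
  calc g⁻¹ * z * g⁻¹⁻¹ * (g⁻¹ * a * g) = g⁻¹ * (z * a) * g := by group
    _ = _ := by rw [← ha]; group

theorem caseB1 {Q : ℕ} (hQ : Nat.card (centralizer ({z} : Set G)) = Q)
    (hall : {y | IsConj z y} = J G) (hG : Nat.card G + (Q + 1) * Q = (Q + 1) * Q * Q) :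
    ∃ (F : Type) (_ : Field F) (_ : Fintype F), Fintype.card F = Q ∧
      Nonempty (G ≃* PGL2Action.PGL2 F) := by
  obtain ⟨⟨m, hm⟩, hm1⟩ := ne_bot_iff_exists_ne_one.1 h.ne
  have hm1' : m ≠ 1 := fun e => hm1 (Subtype.ext e)
  have huJ := h.mul_mem_J h.zJ h.zN hm
  have huB : z * m ∉ normalizer (centralizer ({z} : Set G) : Set G) := fun hh => by
    have := mem_C_of_J he hall huJ.1 hh
    rw [mul_assoc, mul_right_inj] at this
    exact hm1' (h.eq_one_of_comm h.zJ hm this.symm)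
  generalize z * m = u at huJ huB
  have hB := card_normalizer_C he hall
  rw [hQ] at hB
  have hQ1 : 1 < Q := by
    rw [← hQ, one_lt_card_iff_ne_bot, ne_bot_iff_exists_ne_one]
    exact ⟨⟨z, mem_centralizer_singleton_iff.2 rfl⟩, fun e => h.zJ.2 (congrArg Subtype.val e)⟩
  obtain ⟨R, rfl⟩ : ∃ R, Q = R + 1 := ⟨Q - 1, by omega⟩
  rw [Nat.add_sub_cancel] at hB
  let B := normalizer (centralizer ({z} : Set G) : Set G)
  let D : Subgroup G := B ⊓ B.comap (MulAut.conj u).toMonoidHom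
  have hD : ∀ d, d ∈ D ↔ d ∈ B ∧ u * d * u ∈ B := fun d => by
    rw [mem_inf, mem_comap]
    simp [inv_eq huJ.1]
  have hDC : ∀ d ∈ D, d * z = z * d → d = 1 := fun d hd hc =>
    ti_C he hall huB hc (by rw [inv_eq huJ.1]; exact ((hD d).1 hd).2)
  have hS : ZassRecog.Setup (centralizer {z}) B D u :=
    { le := le_normalizer
      norm := le_rfl
      comm := fun a ha b hb => comm_of_conj he (IsConj.refl z)
        (mem_centralizer_singleton_iff.1 ha) (mem_centralizer_singleton_iff.1 hb)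
      idx := by
        have := B.card_mul_index
        rw [hB] at this
        rw [hQ]
        refine Nat.eq_of_mul_eq_mul_left (Nat.mul_pos (by omega : 0 < R) (Nat.succ_pos R)) ?_
        rw [Nat.succ_eq_add_one, this]
        nlinarith
      ti := fun g hg a ha => ti_C he hall hg (mem_centralizer_singleton_iff.1 ha)
      sq := huJ.1
      nmem := huB
      memD := hD
      inv := fun d hd => by
        have := CoprimeInvert.inverts_of_inf_centralizer_eq_bot (K := D) (z := u)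
          (mem_normalizer_iff.2 fun x => by
            rw [hD, hD, inv_eq huJ.1]
            have : u * (u * x * u) * u = x := by
              calc u * (u * x * u) * u = (u * u) * x * (u * u) := by group
                _ = x := by rw [huJ.1]; simp
            rw [this, and_comm]) (by rw [sq, huJ.1]) (by
            rw [eq_bot_iff]
            rintro x ⟨hx, hx'⟩
            have hu : IsConj z u := by have := huJ; rwa [← hall] at this
            exact hDC x hx (mem_C_of_J he hall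
              (sq_of_conj he hu (mem_centralizer_singleton_iff.1 hx')) hx.1)) hd
        rwa [inv_eq huJ.1] at this
      free := fun d hd a ha ha1 e => by
        have ha' := mem_centralizer_singleton_iff.1 ha
        have : a ∈ J G := ⟨he a ha', ha1⟩
        rw [← hall] at this
        exact hDC d hd ((comm_iff he this ha' d).1 e) }
  have h1 := hS.card_B
  rw [hB, hQ, mul_comm] at h1
  have h2 : Nat.card D + 1 = Nat.card (centralizer ({z} : Set G)) := by
    rw [hQ, ← Nat.eq_of_mul_eq_mul_left (Nat.succ_pos R) h1]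
  obtain ⟨F, _, _, p, _, _, hF, -, h3, -⟩ := hS.recog (by
    rw [← one_lt_card_iff_ne_bot, hQ]; exact hQ1) (Or.inl h2)
  exact ⟨F, inferInstance, inferInstance, hF.trans hQ, h3 h2⟩

theorem mem_M_of_odd {x : G} (hx : x ∈ N) (ho : Odd (orderOf x)) : x ∈ M := by
  refine CoprimeInvert.mem_of_sq_mem (Nat.coprime_two_right.2 ho) ?_
  obtain ⟨m, hm, c, hc, hcz, rfl⟩ := h.fac x hx
  rcases h.mem_D_cases he hc hcz with rfl | rfl
  · rw [mul_one]; exact M.pow_mem hm 2
  · rw [sq, mul_assoc, ← mul_assoc c, h.inverts h.zJ h.zN hm, mul_inv_cancel]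
    exact M.one_mem

theorem isCyclic_of_order (hi : N.index.Coprime (Nat.card M)) {y : G}
    (hy : orderOf y = Nat.card M) : IsCyclic M := by
  have hq : Nat.card M ≠ 1 := fun e => h.ne (card_eq_one.1 e)
  obtain ⟨p, hp, hpq⟩ := Nat.exists_prime_and_dvd hq
  haveI := Fact.mk hp
  have hodd : Odd (Nat.card M) := by
    have := h.card_D_dvd
    rw [h.card_D he] at this
    have h0 : 0 < Nat.card M := Nat.card_pos
    exact Nat.odd_iff.2 (by omega)
  have hx : orderOf (y ^ (orderOf y / p)) = p := orderOf_pow_orderOf_div (orderOf_pos y).ne' (hy ▸ hpq)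
  have hxy : y * y ^ (orderOf y / p) = y ^ (orderOf y / p) * y := (Commute.self_pow y _).eq
  generalize y ^ (orderOf y / p) = x at hx hxy
  have hP : IsPGroup p (zpowers x) := IsPGroup.of_card (n := 1) (by rw [Nat.card_zpowers, hx, pow_one])
  obtain ⟨w, hw⟩ := hP.nonempty_fixed_point_of_prime_not_dvd_card (G ⧸ N) fun hd =>
    hp.one_lt.ne' (Nat.eq_one_of_dvd_coprimes hi hd hpq)
  obtain ⟨g, rfl⟩ := QuotientGroup.mk_surjective w
  have h1 : ((x * g : G) : G ⧸ N) = g := hw ⟨x, mem_zpowers x⟩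
  have h2 : g⁻¹ * (x * g) ∈ N := QuotientGroup.eq.1 h1.symm
  have ho : ∀ a : G, orderOf (g⁻¹ * (a * g)) = orderOf a := fun a => by
    have := (MulAut.conj g⁻¹).orderOf_eq a
    rwa [MulAut.conj_apply, inv_inv, mul_assoc] at this
  have h3 := h.mem_M_of_odd he h2 (by rw [ho, hx]; exact hodd.of_dvd_nat hpq)
  have h4 : g⁻¹ * (y * g) ∈ N := h.ti _ _ h3 (fun e => hp.one_lt.ne' (by
    rw [← hx, ← ho, e, orderOf_one])) (by
      convert h3 using 1
      calc (g⁻¹ * (y * g))⁻¹ * (g⁻¹ * (x * g)) * (g⁻¹ * (y * g)) = g⁻¹ * y⁻¹ * (x * y) * g := by group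
        _ = _ := by rw [← hxy]; group)
  have h5 := h.mem_M_of_odd he h4 (by rw [ho, hy]; exact hodd)
  exact isCyclic_of_orderOf_eq_card ⟨_, h5⟩ (by rw [← orderOf_coe, ho, hy])

theorem dichotomy {r : ℕ}
    (hi : (N ⊓ centralizer {z} : Subgroup G).relIndex (centralizer {z}) = r)
    (hC : Nat.card (centralizer ({z} : Set G)) = 2 * r) (hq : Nat.card M = r + 1)
    (hJ : (J G).ncard + Nat.card M = Nat.card M * (2 * r))
    (hj : {y | IsConj z y}.ncard = Nat.card M * r) {b : G} (hb : IsConj z b) :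
    b * z = z * b ∨ ∃ u, ∃ m ∈ M, m ≠ 1 ∧ z * b = u * m * u⁻¹ := by
  let Y : Set G := J G \ {y | IsConj z y}
  let C : Set G := centralizer ({z} : Set G)
  have hYN : ∀ y ∈ Y, y ∉ N := fun y hy hN => by
    obtain ⟨m, -, e⟩ := h.exists_conj hy.1 hN
    exact hy.2 (isConj_iff.2 ⟨m, e⟩)
  have hY : Y.ncard + {y | IsConj z y}.ncard = (J G).ncard :=
    Set.ncard_diff_add_ncard_of_subset h.class_subset
  have h1 : Nat.card M * (C ∩ Y).ncard ≤ Y.ncard := by
    rw [← Nat.card_coe_set_eq, ← Nat.card_coe_set_eq, ← Nat.card_prod]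
    refine Nat.card_le_card_of_injective (fun p : M × (C ∩ Y : Set G) =>
      (⟨p.1 * p.2 * (p.1 : G)⁻¹, conj_mem_J p.2.2.2.1 _, fun hh => p.2.2.2.2
        (IsConj.trans hh (isConj_iff.2 ⟨(p.1 : G), rfl⟩).symm)⟩ : Y)) ?_
    rintro ⟨⟨m, hm⟩, ⟨g, hg, hgN⟩⟩ ⟨⟨m', hm'⟩, ⟨g', hg', hgN'⟩⟩ hp
    obtain ⟨rfl, rfl⟩ := h.conj_inj hm hm' hg (hYN _ hgN) hg' (hYN _ hgN') (congrArg Subtype.val hp)
    rfl
  have h2 : (C ∩ Y).ncard + 1 ≤ r := by
    refine Nat.le_of_mul_le_mul_left ?_ (Nat.card_pos (α := M))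
    rw [hj] at hY
    nlinarith
  let T2 : Set G := C ∩ {y | IsConj z y}
  have h3 : r ≤ T2.ncard := by
    have hsub : C ⊆ (T2 ∪ (C ∩ Y)) ∪ {1} := fun x hx => by
      by_cases h1 : x = 1
      · exact Or.inr h1
      by_cases h2 : IsConj z x
      · exact Or.inl (Or.inl ⟨hx, h2⟩)
      · exact Or.inl (Or.inr ⟨hx, ⟨he x (mem_centralizer_singleton_iff.1 hx), h1⟩, h2⟩)
    have h4 := (Set.ncard_le_ncard hsub).trans (Set.ncard_union_le _ _)
    have h5 := Set.ncard_union_le T2 (C ∩ Y)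
    have h6 : C.ncard = 2 * r := hC
    rw [Set.ncard_singleton] at h4
    omega
  let T1 : Set G := {b | ∃ u ∈ C, ∃ m ∈ M, m ≠ 1 ∧ b = u * (z * m) * u⁻¹}
  have h4 : r * r ≤ T1.ncard := by
    have h5 : Nat.card ((M : Set G) \ {1} : Set G) = r := by
      rw [Nat.card_coe_set_eq, Set.ncard_diff_singleton_of_mem M.one_mem]
      exact Nat.sub_eq_of_eq_add hq
    nth_rewrite 1 [← hi]
    rw [← h5, relIndex, index, ← Nat.card_prod, ← Nat.card_coe_set_eq]
    refine Nat.card_le_card_of_injective (fun p => (⟨(p.1.out : G) * (z * p.2) * (p.1.out : G)⁻¹,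
      _, p.1.out.2, p.2, p.2.2.1, p.2.2.2, rfl⟩ : T1)) ?_
    rintro ⟨x, ⟨m, hm, hm1⟩⟩ ⟨x', ⟨m', hm', hm1'⟩⟩ hp
    have e : (x.out : G) * (z * m) * (x.out : G)⁻¹ = (x'.out : G) * (z * m') * (x'.out : G)⁻¹ :=
      congrArg Subtype.val hp
    have hv := mem_centralizer_singleton_iff.1 (x.out⁻¹ * x'.out).2
    rw [coe_mul, coe_inv] at hv
    have e2 : ((x.out : G)⁻¹ * x'.out)⁻¹ * m * ((x.out : G)⁻¹ * x'.out) = m' := by
      have e3 : z * m * ((x.out : G)⁻¹ * x'.out) = ((x.out : G)⁻¹ * x'.out) * z * m' := by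
        calc _ = (x.out : G)⁻¹ * ((x.out : G) * (z * m) * (x.out : G)⁻¹) * x'.out := by group
          _ = _ := by rw [e]; group
      rw [hv, mul_assoc, mul_assoc, mul_right_inj] at e3
      rw [mul_assoc, e3]; group
    have hN := h.ti _ m hm hm1 (e2 ▸ hm')
    have hx : x = x' := by
      rw [← QuotientGroup.out_eq' x, ← QuotientGroup.out_eq' x', QuotientGroup.eq]
      exact ⟨hN, (x.out⁻¹ * x'.out).2⟩
    subst hx
    have : m = m' := by simpa using e
    subst this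
    rfl
  have h5 : T1 ∪ T2 = {y | IsConj z y} := by
    refine Set.eq_of_subset_of_ncard_le ?_ ?_
    · rintro x (⟨u, -, m, hm, -, rfl⟩ | hx)
      · obtain ⟨k, -, e⟩ := h.exists_conj (h.mul_mem_J h.zJ h.zN hm) (N.mul_mem h.zN (h.le hm))
        exact (isConj_iff.2 ⟨k, e⟩).trans (isConj_iff.2 ⟨u, rfl⟩)
      · exact hx.2
    · rw [Set.ncard_union_eq, hj, hq]
      · nlinarith
      · rw [Set.disjoint_left]
        rintro _ ⟨u, hu, m, hm, hm1, rfl⟩ hx
        have h6 := (centralizer {z}).mul_mem ((centralizer {z}).mul_mem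
          ((centralizer {z}).inv_mem hu) hx.1) hu
        have h7 : u⁻¹ * (u * (z * m) * u⁻¹) * u = z * m := by group
        rw [h7, mem_centralizer_singleton_iff, mul_assoc, mul_right_inj] at h6
        exact hm1 (h.eq_one_of_comm h.zJ hm h6.symm)
  have h6 : b ∈ T1 ∪ T2 := h5 ▸ hb
  rcases h6 with ⟨u, hu, m, hm, hm1, rfl⟩ | h6
  · refine Or.inr ⟨u, m, hm, hm1, ?_⟩
    calc z * (u * (z * m) * u⁻¹) = z * (u * z) * m * u⁻¹ := by group
      _ = (z * z) * u * m * u⁻¹ := by rw [mem_centralizer_singleton_iff.1 hu]; group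
      _ = _ := by rw [h.zJ.1, one_mul]
  · exact Or.inl (mem_centralizer_singleton_iff.1 h6.1)

theorem caseB2 {r : ℕ}
    (hi : (N ⊓ centralizer {z} : Subgroup G).relIndex (centralizer {z}) = r)
    (hC : Nat.card (centralizer ({z} : Set G)) = 2 * r) (hq : Nat.card M = r + 1)
    (hJ : (J G).ncard + Nat.card M = Nat.card M * (2 * r))
    (hj : {y | IsConj z y}.ncard = Nat.card M * r) (hN : Nat.card N = Nat.card M * 2)
    (hG : Nat.card G = Nat.card M * 2 * (r * r)) :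
    ∃ E : Subgroup G, E.Normal ∧ (∀ x ∈ E, x * x = 1) ∧ Nat.card E = r * r ∧ E ⊓ N = ⊥ ∧
      E ⊔ N = ⊤ := by
  let Y : Set G := J G \ {y | IsConj z y}
  let B := normalizer (centralizer ({z} : Set G) : Set G)
  have hYB : ∀ y ∈ Y, y ∈ B := fun y hy => by
    rw [mem_normalizer_C he, mem_centralizer_singleton_iff]
    refine (h.dichotomy he hi hC hq hJ hj (isConj_iff.2 ⟨y, rfl⟩)).resolve_right ?_
    rintro ⟨u, m, hm, hm1, e⟩
    rw [inv_eq hy.1.1] at e
    have h1 : u⁻¹ * y * u ∈ N := h.ti _ m hm hm1 (by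
      have : (u⁻¹ * y * u)⁻¹ * m * (u⁻¹ * y * u) = m⁻¹ := by
        calc _ = u⁻¹ * y⁻¹ * (u * m * u⁻¹) * y * u := by group
          _ = u⁻¹ * (y⁻¹ * z * y * z * (y * y)) * u := by rw [← e]; group
          _ = u⁻¹ * (z * (y * z * y))⁻¹ * u := by
            rw [hy.1.1, mul_inv_rev, mul_inv_rev, mul_inv_rev, inv_eq h.zJ.1, inv_eq hy.1.1]; group
          _ = _ := by rw [e]; group
      rw [this]; exact M.inv_mem hm)
    have h2 := conj_mem_J hy.1 u⁻¹
    rw [inv_inv] at h2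
    obtain ⟨k, -, e'⟩ := h.exists_conj h2 h1
    refine hy.2 ((isConj_iff.2 ⟨k, e'⟩).trans (isConj_iff.2 ⟨u, by group⟩))
  have hYE : ∀ y ∈ Y, y ∈ B.normalCore := fun y hy g =>
    hYB _ ⟨conj_mem_J hy.1 g, fun hh => hy.2 (IsConj.trans hh (isConj_iff.2 ⟨g, rfl⟩).symm)⟩
  have hEN : B.normalCore ⊓ N = ⊥ := by
    rw [eq_bot_iff]
    rintro n ⟨hn, hnN⟩
    have key : ∀ m ∈ M, m * n * m⁻¹ = 1 ∨ m * n * m⁻¹ = z := fun m hm => by
      have h1 : m * n * m⁻¹ ∈ N := N.mul_mem (N.mul_mem (h.le hm) hnN) (N.inv_mem (h.le hm))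
      refine h.mem_D_cases he h1 (mul_inv_eq_iff_eq_mul.1 (h.eq_of_mem_D (conj_mem_J h.zJ _)
        (N.mul_mem (N.mul_mem h1 h.zN) (N.inv_mem h1)) ?_))
      exact mem_centralizer_singleton_iff.1 ((mem_normalizer_C he).1 (hn m))
    obtain ⟨⟨m, hm⟩, hm1⟩ := ne_bot_iff_exists_ne_one.1 h.ne
    rcases key 1 M.one_mem with h1 | h1
    · simpa using h1
    rw [one_mul, inv_one, mul_one] at h1
    subst h1
    rcases key m hm with h1 | h1
    · simpa using h1
    · exact absurd (Subtype.ext (h.eq_one_of_comm h.zJ hm (mul_inv_eq_iff_eq_mul.1 h1).symm)) hm1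
  have hq0 : 0 < Nat.card M * 2 := Nat.mul_pos Nat.card_pos two_pos
  have h1 := DicksonCount.card_mul_le_of_disjoint (le_sup_left (a := B.normalCore) (b := N))
    le_sup_right (disjoint_iff.2 hEN)
  have h2 := card_le_card_group (B.normalCore ⊔ N)
  have hY : Y.ncard + {y | IsConj z y}.ncard = (J G).ncard :=
    Set.ncard_diff_add_ncard_of_subset h.class_subset
  have h3 : (insert 1 Y).ncard = r * r := by
    rw [Set.ncard_insert_of_notMem fun hh => hh.1.2 rfl]
    rw [hj] at hY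
    rw [hq] at hY hJ
    nlinarith
  have h4 : Nat.card B.normalCore ≤ r * r := by
    refine Nat.le_of_mul_le_mul_left ?_ hq0
    rw [← hG, ← hN, mul_comm]
    exact h1.trans h2
  have h5 : insert 1 Y = B.normalCore := Set.eq_of_subset_of_ncard_le (by
    rintro x (rfl | hx)
    · exact one_mem _
    · exact hYE x hx) (by rw [h3]; exact h4)
  have h6 : Nat.card B.normalCore = r * r := by rw [← h3, h5]; rfl
  refine ⟨B.normalCore, inferInstance, fun x hx => ?_, h6, hEN, ?_⟩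
  · have : x ∈ insert 1 Y := h5 ▸ hx
    rcases this with rfl | hx
    · exact mul_one 1
    · exact hx.1.1
  · refine eq_top_of_le_card _ ?_
    rw [hG, ← hN, ← h6, mul_comm]
    exact h1

theorem dihedral (hc : IsCyclic M) (hN : Nat.card N = Nat.card M * 2) :
    Nonempty (N ≃* DihedralGroup (Nat.card M)) := by
  obtain ⟨⟨x, hx⟩, hx'⟩ := IsCyclic.exists_generator (α := M)
  have h1 : zpowers x = M := le_antisymm (zpowers_le.2 hx) fun y hy => by
    obtain ⟨k, hk⟩ := hx' ⟨y, hy⟩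
    exact ⟨k, congrArg Subtype.val hk⟩
  have ho : orderOf (⟨x, h.le hx⟩ : N) = Nat.card M := by
    rw [← orderOf_coe, ← Nat.card_zpowers, h1]
  rw [← ho]
  refine SmallRecog.equiv_dihedral _ ?_ fun g hg => ?_
  · have := (zpowers (⟨x, h.le hx⟩ : N)).card_mul_index
    rw [Nat.card_zpowers, ho, hN] at this
    exact Nat.eq_of_mul_eq_mul_left Nat.card_pos this
  · obtain ⟨m, hm, c, hc, hcz, e⟩ := h.fac g g.2
    rcases h.mem_D_cases he hc hcz with rfl | rfl
    · rw [mul_one] at e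
      rw [← h1] at hm
      obtain ⟨k, hk⟩ := hm
      exact absurd ⟨k, Subtype.ext (by rw [e]; simpa using hk)⟩ hg
    · apply Subtype.ext
      rw [coe_pow, e, sq, mul_assoc, ← mul_assoc c, h.inverts h.zJ h.zN hm, mul_inv_cancel]
      rfl

end B

end Hyp

end Cfsg.Agent.Lib.BenderTI
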