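import Cfsg.Agent.Lib.FormDisc
import Cfsg.Agent.Lib.FormSpin
import Cfsg.Agent.S3085
import Cfsg.Agent.Lib.DCE2

/-! The order of `Ω⁻₆(2)`, generators of extraspecial groups of order `2 ^ 7`, Sylow subgroups of
prime order. -/

set_option autoImplicit false

namespace Cfsg.Agent.Lib.SuzG1

open Subgroup Cfsg.Agent.Lib.FormDisc Cfsg.Agent.Lib.FormPerp Cfsg.Agent.Lib.FormMatrix

abbrev Ix := (Fin 2 ⊕ Fin 2) ⊕ Fin 2

abbrev qf := quadFormMinus 2 (ZMod 2) 1 1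

theorem sep0 : ∀ u, (∀ v, QuadraticMap.polar qf u v = 0) → u = 0 := by decide +kernel

theorem sep : (QuadraticMap.polarBilin (qMinus 2 (ZMod 2) 1 1)).SeparatingLeft := sep0

/-- Pointwise stabilisers of basis vectors. -/
abbrev Fx (S : Finset Ix) := fixer (σ := RingHom.id _) (QuadraticMap.polarBilin (qMinus 2 (ZMod 2) 1 1))
  (qMinus 2 (ZMod 2) 1 1) (Submodule.span (ZMod 2) (Pi.basisFun (ZMod 2) Ix '' (S : Set Ix)))

set_option synthInstance.maxSize 1024 in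
theorem step (S : Finset Ix) (i : Ix) (n : ℕ) (h : i ∉ S ∧ (Finset.univ.filter fun b : Ix → ZMod 2 =>
    (∃ j, j ∉ S ∧ b j ≠ 0) ∧ qf b = qf (Pi.single i 1) ∧ ∀ j ∈ S,
      QuadraticMap.polar qf (Pi.single j 1) b =
        QuadraticMap.polar qf (Pi.single j 1) (Pi.single i 1)).card = n) :
    Nat.card (Fx S) = n * Nat.card (Fx (insert i S)) := by
  have hm : ∀ b : Ix → ZMod 2, b ∉ Submodule.span (ZMod 2) (Pi.basisFun (ZMod 2) Ix '' (S : Set Ix)) ↔
      ∃ j, j ∉ S ∧ b j ≠ 0 := fun b => by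
    rw [Module.Basis.mem_span_image, Set.not_subset]
    simp only [Finset.mem_coe, Finsupp.mem_support_iff, Pi.basisFun_repr, and_comm]
  rw [card_fixer_step (FormWitt.isFormSpace_quad _ sep) _ (Pi.single i 1)
    ((hm _).2 ⟨i, h.1, by simp⟩), ← h.2, ← Fintype.card_subtype, ← Nat.card_eq_fintype_card]
  congr 1
  · refine Nat.card_congr (Equiv.subtypeEquivRight fun b => and_congr (hm b) (and_congr_right
      fun _ => ⟨fun h j hj => h _ (Submodule.subset_span ⟨j, hj, by simp⟩), fun h x hx => ?_⟩))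
    induction hx using Submodule.span_induction with
    | mem x hx => obtain ⟨j, hj, rfl⟩ := hx; rw [Pi.basisFun_apply]; exact h j hj
    | zero => simp
    | add x y _ _ hx hy => simp only [map_add, LinearMap.add_apply, hx, hy]
    | smul c x _ hx => simp only [map_smul, LinearMap.smul_apply, hx]
  · rw [Fx, Finset.coe_insert, Set.image_insert_eq,
      Submodule.span_insert, sup_comm, Pi.basisFun_apply]

theorem card_omega : Nat.card (Cfsg.Omega (ZMod 2) qf) = 25920 := by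
  have h1 : Nat.card (orth (qMinus 2 (ZMod 2) 1 1)) = 51840 := by
    have : Fx ∅ = orth (qMinus 2 (ZMod 2) 1 1) := by simp [Fx, fixer_bot]
    rw [← this, step _ (.inl (.inl 0)) 27 (by decide +kernel), step _ (.inl (.inr 0)) 16
      (by decide +kernel), step _ (.inl (.inl 1)) 5 (by decide +kernel), step _ (.inl (.inr 1)) 4
      (by decide +kernel), step _ (.inr 0) 3 (by decide +kernel), step _ (.inr 1) 2
      (by decide +kernel), Fx, Set.eq_univ_of_forall (s := ((_ : Finset Ix) : Set Ix))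
        (fun x => Finset.mem_coe.2 (by revert x; decide)),
      Set.image_univ, Module.Basis.span_eq, fixer_top, card_bot]
  have h2 := (Cfsg.Omega (ZMod 2) ⇑(qMinus 2 (ZMod 2) 1 1)).index_mul_card
  rw [index_eq_of_equiv (orthEquiv _) (mem_commutator_iff_of_equiv (orthEquiv _)),
    FormSpin.index_commutator_even sep (by decide) (by simp) (Or.inr (by simp)),
    Nat.card_congr (orthEquiv _).toEquiv, h1] at h2
  change 2 * Nat.card (Cfsg.Omega (ZMod 2) qf) = _ at h2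
  omega

/-- Conjugacy into a Sylow subgroup of prime order. -/
theorem sylow_conj {G : Type*} [Group G] {H : Subgroup G} [Finite H] {p : ℕ} (hp : p.Prime)
    (h : ¬ p ^ 2 ∣ Nat.card H) {a c : G} (ha : a ∈ H) (hc : c ∈ H) (a1 : a ^ p = 1) (a2 : a ≠ 1)
    (c1 : c ^ p = 1) (c2 : c ≠ 1) : ∃ g ∈ H, zpowers (g * c * g⁻¹) = zpowers a := by
  have := Fact.mk hp
  have key : ∀ x : H, x.1 ^ p = 1 → x.1 ≠ 1 → ∃ P : Sylow p H, zpowers x = P := fun x x1 x2 => by
    have ho : Nat.card (zpowers x) = p := by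
      rw [Nat.card_zpowers, orderOf_eq_prime (Subtype.ext x1) (mt (congrArg Subtype.val) x2)]
    obtain ⟨P, hP⟩ := (IsPGroup.of_card (n := 1) (ho.trans (pow_one p).symm)).exists_le_sylow
    obtain ⟨n, hn⟩ := IsPGroup.iff_card.1 P.2
    refine ⟨P, eq_of_le_of_card_ge hP ?_⟩
    rw [ho, hn]
    exact (Nat.pow_le_pow_right hp.pos (Nat.le_of_not_lt fun h2 => h
      ((pow_dvd_pow p h2).trans (hn ▸ card_subgroup_dvd_card _)))).trans (pow_one p).le
  obtain ⟨P, hP⟩ := key ⟨a, ha⟩ a1 a2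
  obtain ⟨R, hR⟩ := key ⟨c, hc⟩ c1 c2
  obtain ⟨g, rfl⟩ := MulAction.exists_smul_eq H R P
  refine ⟨g, g.2, ?_⟩
  have := congrArg (map H.subtype) hP
  rw [Sylow.coe_subgroup_smul, ← hR] at this
  simpa [pointwise_smul_def, MonoidHom.map_zpowers] using this.symm

section ex
open Cfsg.Agent.S3085 Cfsg.Agent.Lib.Words Cfsg.Agent.Lib.PermNet Cfsg.Agent.Lib.DCE
variable {Q : Type*} [Group Q] [Finite Q] {z : Q}

theorem two_mul_le {A B : Subgroup Q} (h : A ≤ B) {x : Q} (h1 : x ∈ B) (h2 : x ∉ A) :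
    2 * Nat.card A ≤ Nat.card B := by
  obtain ⟨k, hk⟩ := card_dvd_of_le h
  have h3 : Nat.card B ≠ Nat.card A := fun e => h2 (eq_of_le_of_card_ge h e.le ▸ h1)
  have h4 : 0 < Nat.card B := Nat.card_pos
  rw [hk] at h3 h4 ⊢
  rw [mul_comm]
  refine Nat.mul_le_mul_left _ (by_contra fun h5 => ?_)
  rcases (by omega : k = 0 ∨ k = 1) with rfl | rfl <;> simp at h3 h4

/-- The centre of `H` lies in the centre. -/
def Nd (H : Subgroup Q) : Prop := ∀ c ∈ H, (∀ g ∈ H, g * c = c * g) → c ∈ center Q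

theorem split (h : Ex z) {H : Subgroup Q} (hH : Nd H) {x y : Q} (hx : x ∈ H) (hy : y ∈ H)
    (e : x * y ≠ y * x) : ∃ K ≤ H, (∀ k ∈ K, x * k = k * x ∧ y * k = k * y) ∧
      Nat.card H = 4 * Nat.card K ∧ Nd K ∧ ∀ L : Subgroup Q, K ≤ L → x ∈ L → y ∈ L → H ≤ L := by
  let K : Subgroup Q := H ⊓ centralizer {x} ⊓ centralizer {y}
  have hK : ∀ k, k ∈ K ↔ k ∈ H ∧ x * k = k * x ∧ y * k = k * y := fun k => by
    simp only [K, mem_inf, mem_centralizer_singleton_iff, and_assoc, eq_comm]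
  have dec : ∀ g ∈ H, g ∈ K ∨ g * x ∈ K ∨ g * y ∈ K ∨ g * (x * y) ∈ K := fun g hg => by
    simp only [hK]
    by_cases a : x * g = g * x <;> by_cases b : y * g = g * y
    · exact Or.inl ⟨hg, a, b⟩
    · exact Or.inr (Or.inl ⟨mul_mem hg hx, Ex.cc a rfl, h.aa b (Ne.symm e)⟩)
    · exact Or.inr (Or.inr (Or.inl ⟨mul_mem hg hy, h.aa a e, Ex.cc b rfl⟩))
    · exact Or.inr (Or.inr (Or.inr ⟨mul_mem hg (mul_mem hx hy), h.aa a (h.ca rfl e),
        h.aa b (h.ac (Ne.symm e) rfl)⟩))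
  refine ⟨K, fun k hk => ((hK k).1 hk).1, fun k hk => ((hK k).1 hk).2, le_antisymm ?_ ?_,
    fun c hc hc' => hH c ((hK c).1 hc).1 fun g hg => ?_, fun L h1 h2 h3 g hg => ?_⟩
  · have : Function.Surjective (fun p : Fin 4 × K =>
        (⟨p.2.1 * (![1, x, y, x * y] p.1)⁻¹, mul_mem ((hK _).1 p.2.2).1 (inv_mem (by
          obtain ⟨i, -⟩ := p
          fin_cases i
          exacts [one_mem _, hx, hy, mul_mem hx hy]))⟩ : H)) := by
      rintro ⟨g, hg⟩
      rcases dec g hg with a | a | a | a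
      · exact ⟨(0, ⟨_, a⟩), Subtype.ext (by simp)⟩
      · exact ⟨(1, ⟨_, a⟩), Subtype.ext (by simp)⟩
      · exact ⟨(2, ⟨_, a⟩), Subtype.ext (by simp)⟩
      · exact ⟨(3, ⟨_, a⟩), Subtype.ext (by simp [mul_assoc])⟩
    simpa using Nat.card_le_card_of_surjective _ this
  · have a : 2 * Nat.card K ≤ _ := two_mul_le (inf_le_left : K ≤ _) (x := x)
      ⟨hx, mem_centralizer_singleton_iff.2 rfl⟩ fun h => e ((hK x).1 h).2.2.symm
    have b := two_mul_le (inf_le_left : H ⊓ centralizer {x} ≤ _) hy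
      fun h => e (mem_centralizer_singleton_iff.1 h.2).symm
    omega
  · obtain ⟨-, a, b⟩ := (hK c).1 hc
    have key : ∀ u, u * c = c * u → g * u ∈ K → g * c = c * g := fun u hu hg => by
      have := hc' _ hg
      rw [mul_assoc, hu, ← mul_assoc, ← mul_assoc] at this
      exact mul_right_cancel this
    rcases dec g hg with d | d | d | d
    · exact hc' g d
    · exact key x a d
    · exact key y b d
    · exact key _ (Ex.cc a.symm b.symm).symm d
  · rcases dec g hg with d | d | d | d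
    · exact h1 d
    · exact (L.mul_mem_cancel_right h2).1 (h1 d)
    · exact (L.mul_mem_cancel_right h3).1 (h1 d)
    · exact (L.mul_mem_cancel_right (mul_mem h2 h3)).1 (h1 d)

theorem sq_mul (h : Ex z) {x y : Q} (e : x * y ≠ y * x) :
    x * y * (x * y) = z * (x * x * (y * y)) := by
  rw [mul_assoc, ← mul_assoc y, h.anti e.symm, ← mul_assoc, ← mul_assoc, h.zc]; group

theorem pairD (h : Ex z) {H : Subgroup Q} (hH : Nd H) (h8 : 8 < Nat.card H) :
    ∃ x ∈ H, ∃ y ∈ H, x * x = 1 ∧ y * y = 1 ∧ x * y ≠ y * x := by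
  obtain ⟨x, hx, y, hy, x2, e, K, hK, hc, h1, h2⟩ := h.step (by omega) hH
  obtain ⟨u, hu, -, -, u2, -⟩ := h.step (by omega) h2
  have a : x * u * (x * u) = 1 := by
    rw [mul_assoc, ← mul_assoc u, ← (hc u hu).1, ← mul_assoc, ← mul_assoc, x2, mul_assoc, u2, h.zz]
  have b : x * u * y ≠ y * (x * u) := (h.ac e.symm (hc u hu).2).symm
  by_cases y2 : y * y = 1
  · exact ⟨_, mul_mem hx (hK hu), y, hy, a, y2, b⟩
  · exact ⟨_, mul_mem hx (hK hu), _, mul_mem (mul_mem hx (hK hu)) hy, a,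
      by rw [sq_mul h b, a, h.sq y2, one_mul, h.zz], h.ca rfl b⟩

/-- Relators of the extraspecial groups of order `2 ^ 7`. -/
def RQ (m : Bool) : List (List ℕ) :=
  (if m then [[8, 8, 13], [10, 10, 13]] else [[8, 8], [10, 10]]) ++
  [[0, 0], [2, 2], [4, 4], [6, 6], [12, 12], [0, 2, 1, 3, 13], [4, 6, 5, 7, 13], [8, 10, 9, 11, 13],
    [0, 4, 1, 5], [2, 4, 3, 5], [0, 6, 1, 7], [2, 6, 3, 7], [0, 8, 1, 9], [2, 8, 3, 9],
    [0, 10, 1, 11], [2, 10, 3, 11], [4, 8, 5, 9], [6, 8, 7, 9], [4, 10, 5, 11], [6, 10, 7, 11],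
    [0, 12, 1, 13], [2, 12, 3, 13], [4, 12, 5, 13], [6, 12, 7, 13], [8, 12, 9, 13],
    [10, 12, 11, 13]]

theorem exists_gens (h : Ex z) (hc : Nat.card Q = 128) :
    ∃ (m : Bool) (e : ℕ → Q), e 6 = z ∧ (∀ w ∈ RQ m, wval e w = 1) ∧ gp e (sing 7) = ⊤ := by
  have n0 : Nd (⊤ : Subgroup Q) := fun c _ hc => mem_center_iff.2 fun g => hc g trivial
  obtain ⟨a, -, b, -, a2, b2, ab⟩ := pairD h n0 (by rw [card_top]; omega)
  obtain ⟨K1, -, c1, d1, n1, g1⟩ := split h n0 (mem_top a) (mem_top b) ab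
  rw [card_top] at d1
  obtain ⟨c, hc, d, hd, c2, d2, cd⟩ := pairD h n1 (by omega)
  obtain ⟨K2, l2, e1, f1, n2, g2⟩ := split h n1 hc hd cd
  obtain ⟨m, u, hu, v, hv, uv, hm⟩ : ∃ m : Bool, ∃ u ∈ K2, ∃ v ∈ K2, u * v ≠ v * u ∧
      if m then u * u = z ∧ v * v = z else u * u = 1 ∧ v * v = 1 := by
    obtain ⟨x, hx, y, hy, x2, e, -⟩ := h.step (by omega) n2
    by_cases y2 : y * y = 1
    · exact ⟨false, _, mul_mem hx hy, y, hy, (h.ac e.symm rfl).symm,
        by rw [sq_mul h e, x2, y2, mul_one, h.zz], y2⟩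
    · exact ⟨true, x, hx, y, hy, e, x2, h.sq y2⟩
  obtain ⟨K3, -, -, f3, n3, g3⟩ := split h n2 hu hv uv
  have s0 : ∀ {x : Q}, x * x = 1 → x * (x * 1) = 1 := fun h => by rw [mul_one, h]
  have s1 : ∀ {x : Q}, x * x = z → x * (x * (z⁻¹ * 1)) = 1 := fun h => by rw [← h]; group
  have t0 : ∀ {x y : Q}, x * y = y * x → x * (y * (x⁻¹ * (y⁻¹ * 1))) = 1 := fun h => by
    rw [← mul_assoc, h]; group
  have t1 : ∀ {x y : Q}, x * y ≠ y * x → x * (y * (x⁻¹ * (y⁻¹ * (z⁻¹ * 1)))) = 1 := fun e => by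
    rw [← mul_assoc, h.anti e]; group
  refine ⟨m, fun i => [a, b, c, d, u, v, z].getD i 1, rfl, all_append ?_ (by
    simp only [List.forall_mem_cons]
    exact ⟨s0 a2, s0 b2, s0 c2, s0 d2, s0 h.zz, t1 ab, t1 cd, t1 uv, t0 (c1 c hc).1, t0 (c1 c hc).2,
      t0 (c1 d hd).1, t0 (c1 d hd).2, t0 (c1 u (l2 hu)).1, t0 (c1 u (l2 hu)).2, t0 (c1 v (l2 hv)).1,
      t0 (c1 v (l2 hv)).2, t0 (e1 u hu).1, t0 (e1 u hu).2, t0 (e1 v hv).1, t0 (e1 v hv).2,
      t0 (h.zc a), t0 (h.zc b), t0 (h.zc c), t0 (h.zc d), t0 (h.zc u), t0 (h.zc v), by simp⟩), ?_⟩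
  · cases m <;> simp only [List.forall_mem_cons, if_true, Bool.false_eq_true, if_false] at hm ⊢
    · exact ⟨s0 hm.1, s0 hm.2, by simp⟩
    · exact ⟨s1 hm.1, s1 hm.2, by simp⟩
  · have k := fun i (hi : i < 7) => mem_sing (fun i => [a, b, c, d, u, v, z].getD i 1) hi
    refine eq_top_iff.2 (g1 _ (g2 _ (g3 _ (fun x hx => ?_) (k 4 (by omega)) (k 5 (by omega)))
      (k 2 (by omega)) (k 3 (by omega))) (k 0 (by omega)) (k 1 (by omega)))
    have : IsCyclic K3 := isCyclic_of_prime_card (p := 2) (by omega)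
    rcases (h.cen x).1 (n3 x hx fun g hg => congrArg Subtype.val
      (IsCyclic.commGroup.mul_comm (⟨g, hg⟩ : K3) ⟨x, hx⟩)) with rfl | rfl
    exacts [one_mem _, k 6 (by omega)]

end ex

end Cfsg.Agent.Lib.SuzG1
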