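import Cfsg.Agent.S3035

/-! Relations in a group with an involution centraliser `D₈`. -/

set_option autoImplicit false

namespace Cfsg.Agent.Lib.SuzG3

open Subgroup DihedralGroup D8Amalg S3035

variable {X : Type*} [Group X] {a b z : X}

theorem exists_setup (ha : a * a = 1) (hb : b * b = 1) (hz : a * b * (a * b) = z) (hzz : z * z = 1)
    (h1 : z ≠ 1) (hc : ∀ g, g * z = z * g → g ∈ closure {a, b}) :
    ∃ δ : DihedralGroup 4 →* X, S3035.Setup z δ ∧ δ (sr 0) = a ∧ δ (sr 1) = b := by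
  have h4 : (a * b) ^ 4 = 1 := by rw [← hzz, ← hz]; simp only [pow_succ, pow_zero, one_mul, mul_assoc]
  have hm : ∀ i : ℕ, (a * b) ^ (i % 4) = (a * b) ^ i := fun i => pow_eq_pow_mod i h4 |>.symm
  have hi : ∀ i : ℕ, (a * b) ^ i * a = a * ((a * b) ^ i)⁻¹ := fun i => by
    have : a * b = a * (a * b)⁻¹ * a⁻¹ := by
      rw [mul_inv_rev, inv_eq_of_mul_eq_one_right ha, inv_eq_of_mul_eq_one_right hb, mul_assoc,
        mul_assoc, ha, mul_one]
    nth_rw 1 [this]
    rw [conj_pow, inv_pow]; simp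
  have hv : ∀ i j : ZMod 4, (a * b) ^ (i + j).val = (a * b) ^ i.val * (a * b) ^ j.val := fun i j => by
    rw [ZMod.val_add, hm, pow_add]
  have hs : ∀ i j : ZMod 4, (a * b) ^ (j - i).val = ((a * b) ^ i.val)⁻¹ * (a * b) ^ j.val :=
    fun i j => by rw [eq_inv_mul_iff_mul_eq, ← hv, add_sub_cancel]
  let δ : DihedralGroup 4 →* X := MonoidHom.mk' (fun
    | r i => (a * b) ^ i.val
    | sr i => a * (a * b) ^ i.val) (by
      rintro (i | i) (j | j)
      · exact hv i j
      · change a * (a * b) ^ (j - i).val = _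
        rw [hs, ← mul_assoc, ← hi, mul_assoc]
      · change a * (a * b) ^ (i + j).val = _
        rw [hv, mul_assoc]
      · change (a * b) ^ (j - i).val = a * (a * b) ^ i.val * (a * (a * b) ^ j.val)
        rw [hs, mul_assoc, ← mul_assoc _ a, hi, ← mul_assoc, ← mul_assoc, ha, one_mul])
  have e0 : δ (sr 0) = a := by
    change a * (a * b) ^ 0 = a
    rw [pow_zero, mul_one]
  have e1 : δ (sr 1) = b := by
    change a * (a * b) ^ 1 = b
    rw [pow_one, ← mul_assoc, ha, one_mul]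
  have e2 : δ (r 2) = z := (sq _).trans hz
  refine ⟨δ, ⟨(injective_iff_map_eq_one δ).2 fun y hy => by_contra fun h => h1 ?_, fun g =>
    ⟨fun h => ?_, ?_⟩, e2⟩, e0, e1⟩
  · have key : ∀ y : DihedralGroup 4, y ≠ 1 → y = r 2 ∨ ∃ u, u * y * u⁻¹ * y⁻¹ = r 2 := by decide
    rcases key y h with rfl | ⟨u, hu⟩
    · rw [← e2, hy]
    · rw [← e2, ← hu]; simp [hy]
  · exact (closure_le δ.range).2 (by rintro _ (rfl | rfl); exacts [⟨_, e0⟩, ⟨_, e1⟩]) (hc g h)
  · rintro ⟨y, rfl⟩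
    rw [← e2, ← map_mul, ← map_mul]
    congr 1; revert y; decide

theorem s6_pow : ∀ g : Equiv.Perm (Fin 6), g ^ 4 = 1 ∨ g ^ 5 = 1 ∨ g ^ 6 = 1 := by
  decide +kernel

variable [Finite X] {δ : DihedralGroup 4 →* X} (S : S3035.Setup z δ)
include S

omit [Finite X] in
theorem exists_c {t : X} (ht : t * z * t⁻¹ = z * δ (sr 0)) :
    ∃ c : X, c * c = 1 ∧ δ (sr 0) * c = c * δ (sr 0) ∧ c * z * c = z * δ (sr 0) ∧
      (δ (sr 1) * c) ^ 3 = 1 :=
  S.exists_c (((S.isConj_iff' (sr 2)).mp (isConj_iff.mpr ⟨t, by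
    rw [ht, ← S.z_eq, ← map_mul]; rfl⟩)).elim (fun h => absurd h (by decide))
    (fun h => h.elim And.left fun h => absurd h.2 (by decide)))

theorem d8rel {c d : X} (hc : c * c = 1) (hac : δ (sr 0) * c = c * δ (sr 0))
    (hcz : c * z * c = z * δ (sr 0)) (hbc : (δ (sr 1) * c) ^ 3 = 1) (hd : d * d = 1)
    (hbd : δ (sr 1) * d = d * δ (sr 1)) (hdz : d * z * d = z * δ (sr 1))
    (had : (δ (sr 0) * d) ^ 3 = 1) :
    (c * d) ^ 3 = 1 ∨ (c * (d * δ (sr 1))) ^ 3 = 1 ∨ (δ (sr 0) * (δ (sr 1) * (c * d))) ^ 4 = 1 := by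
  have haa : δ (sr 0) * δ (sr 0) = 1 := by rw [← map_mul]; exact δ.map_one
  have hbb : δ (sr 1) * δ (sr 1) = 1 := by rw [← map_mul]; exact δ.map_one
  have hz : δ (sr 0) * δ (sr 1) * δ (sr 0) * δ (sr 1) = z := by
    rw [← S.z_eq, ← map_mul, ← map_mul, ← map_mul]; rfl
  have hza : z * δ (sr 0) * z * δ (sr 0) = 1 := by
    rw [← S.z_eq, ← map_mul, ← map_mul, ← map_mul]; exact δ.map_one
  have hzb : z * δ (sr 1) * z * δ (sr 1) = 1 := by
    rw [← S.z_eq, ← map_mul, ← map_mul, ← map_mul]; exact δ.map_one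
  have hrel : D8Amalg.Rel (δ (sr 0)) (δ (sr 1)) c d (D8Amalg.rl []) := by
    have hzz := S.zz
    generalize δ (sr 0) = a at *
    generalize δ (sr 1) = b at *
    intro w hw
    simp only [D8Amalg.rl, List.append_nil, List.mem_cons, List.not_mem_nil, or_false] at hw
    rcases hw with rfl | rfl | rfl | rfl | rfl | rfl | rfl | rfl | rfl | rfl | rfl | rfl <;>
      simp only [D8Amalg.ev, D8Amalg.gn, List.map_cons, List.map_nil, List.prod_cons,
        List.prod_nil, mul_one]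
    · exact haa
    · exact hbb
    · exact hc
    · exact hd
    · rw [← hzz, ← hz]; group
    · rw [← mul_assoc c, ← hac, mul_assoc, hc, mul_one, haa]
    · rw [← hbc, pow_three]; group
    · rw [← hza, ← hcz, ← hz]; group
    · rw [← mul_assoc d, ← hbd, mul_assoc, hd, mul_one, hbb]
    · rw [← had, pow_three]; group
    · rw [← hzb, ← hdz, ← hz]; group
  by_cases h1 : (c * d) ^ 3 = 1
  · exact Or.inl h1
  by_cases h2 : (c * (d * δ (sr 1))) ^ 3 = 1
  · exact Or.inr (Or.inl h2)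
  refine Or.inr (Or.inr ?_)
  clear haa hbb hz hza hzb
  have hy : ∀ {Y : Type _} [Group Y] {z c d : Y} {δ : DihedralGroup 4 →* Y}, S3035.Setup z δ →
      c * c = 1 → d * d = 1 → c * z * c = z * δ (sr 0) → d * z * d = z * δ (sr 1) →
      IsConj z (δ (sr 0)) ∧ IsConj z (δ (sr 1)) := fun {Y _ z c d δ} S hc hd hcz hdz =>
    ⟨((S.isConj_iff' (sr 2)).mp (isConj_iff.mpr ⟨c, by
      rw [inv_eq_of_mul_eq_one_right hc, hcz, ← S.z_eq, ← map_mul]; rfl⟩)).elim
      (fun h => absurd h (by decide)) (fun h => h.elim And.left fun h => absurd h.2 (by decide)),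
    ((S.isConj_iff' (sr 3)).mp (isConj_iff.mpr ⟨d, by
      rw [inv_eq_of_mul_eq_one_right hd, hdz, ← S.z_eq, ← map_mul]; rfl⟩)).elim
      (fun h => absurd h (by decide)) (fun h => h.elim (fun h => absurd h.2 (by decide)) And.left)⟩
  obtain ⟨h0, h0'⟩ := hy S hc hd hcz hdz
  have := S.simple h0 h0'
  set K := closure {x | x ∈ [δ (sr 0), δ (sr 1), c, d]} with hK
  have hφK : ∀ y, δ y ∈ K := by
    intro y
    have key : ∀ y : DihedralGroup 4, ∃ k : Fin 4, y = (sr 0 * sr 1) ^ (k : ℕ) ∨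
      y = sr 0 * (sr 0 * sr 1) ^ (k : ℕ) := by decide
    have ha : sr 0 ∈ K.comap δ := subset_closure (by simp)
    have hb : sr 1 ∈ K.comap δ := subset_closure (by simp)
    obtain ⟨k, rfl | rfl⟩ := key y
    · exact (pow_mem (mul_mem ha hb) k : _ ∈ K.comap δ)
    · exact (mul_mem ha (pow_mem (mul_mem ha hb) k) : _ ∈ K.comap δ)
  have S' := S.restrict K hφK
  have h3 := hy S' (c := ⟨c, subset_closure (by simp)⟩) (d := ⟨d, subset_closure (by simp)⟩)
    (Subtype.ext hc) (Subtype.ext hd) (Subtype.ext (S.z_eq ▸ hcz)) (Subtype.ext (S.z_eq ▸ hdz))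
  have hK' := S'.card_both h3.1 h3.2
  have hG := S.card_both h0 h0'
  have hgen : K = ⊤ := by
    have h2 := card_subgroup_dvd_card K
    refine eq_top_of_card_eq K ?_
    rcases hK' with h3 | h3 <;> rcases hG with h4 | h4 <;> rw [h3, h4] at h2 ⊢ <;>
      exact absurd h2 (by decide)
  have h4 := fun g => S.pow_four_of_even h0 h0' (g := g)
  have hc1 : c ≠ 1 := by
    rintro rfl
    rw [one_mul, mul_one, left_eq_mul, map_eq_one_iff δ S.inj] at hcz
    exact absurd hcz (by decide)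
  have hbb : δ (sr 1) * δ (sr 1) = 1 := by rw [← map_mul]; exact δ.map_one
  rcases hG with hG | hG
  · exact absurd (card_le' (rel2 hrel ((order168 hG h4 hc hc1 hd).resolve_left h1)
      ((order168 hG h4 hc hc1 (by
        rw [mul_assoc, ← mul_assoc (δ (sr 1)), hbd, mul_assoc, hbb, mul_one, hd])).resolve_left h2))
      hgen t44C) (by rw [hG]; decide)
  have ho : ∀ g : X, g ^ 3 = 1 ∨ g ^ 4 = 1 ∨ g ^ 5 = 1 := by
    refine (order360 hG h4).elim (fun ⟨e⟩ g => ?_) id
    by_cases h5 : 2 ∣ orderOf g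
    · exact Or.inr (Or.inl (h4 g h5))
    have h6 : ∀ n, (e g).1 ^ n = 1 → g ^ n = 1 := fun n h =>
      e.injective (by rw [map_pow, map_one]; exact Subtype.ext h)
    rcases s6_pow (e g).1 with h | h | h
    · exact Or.inr (Or.inl (h6 _ h))
    · exact Or.inr (Or.inr (h6 _ h))
    · exact Or.inl (orderOf_dvd_iff_pow_eq_one.mp (Nat.Coprime.dvd_of_dvd_mul_left
        ((Nat.prime_two.coprime_iff_not_dvd.mpr h5).symm) (orderOf_dvd_of_pow_eq_one (h6 (2 * 3) h))))
  rcases (ho (c * d)).resolve_left h1 with h5 | h5 <;>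
    rcases (ho (c * (d * δ (sr 1)))).resolve_left h2 with h6 | h6
  · exact absurd (card_le' (rel2 hrel h5 h6) hgen t44C) (by rw [hG]; decide)
  · exact absurd (card_le' (rel2 hrel h5 h6) hgen t45C) (by rw [hG]; decide)
  · exact absurd (card_le' (rel2 hrel h5 h6) hgen t54C) (by rw [hG]; decide)
  rcases ho (δ (sr 0) * (δ (sr 1) * (c * d))) with h7 | h7 | h7
  · exact absurd (card_le' (rel3 hrel h5 h6 h7) hgen t553C) (by rw [hG]; decide)
  · exact h7
  · exact absurd (card_le' (rel3 hrel h5 h6 h7) hgen t555C) (by rw [hG]; decide)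

end Cfsg.Agent.Lib.SuzG3
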