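import Cfsg.Agent.Lib.Co1S1
import Cfsg.Agent.Lib.SuzG1
import Cfsg.Agent.Lib.SuzG3

/-! The involution that interchanges `z` with a non-central involution of `Q`. -/

set_option autoImplicit false
set_option maxRecDepth 100000

namespace Cfsg.Agent.Lib.Co1S2

open Subgroup Cfsg.Agent.Lib.PermNet Cfsg.Agent.Lib.Words Cfsg.Agent.Lib.PermGroup Cfsg.Agent.Lib.DCE
  Cfsg.Agent.Lib.BT Cfsg.Agent.Lib.Co1Defs Cfsg.Agent.Lib.Co1SM Cfsg.Agent.Lib.Co1SN Cfsg.Agent.Lib.Co1S1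
open Cfsg.Agent.Lib.ThDefs hiding Hyp

variable {G : Type*} [Group G] {z v : G} {Q : Subgroup G} {n F : ℕ → G}

theorem d8 [Finite G] {X : Subgroup G} {a b t : G} (ha : a ∈ X) (hb : b ∈ X) (ht : t ∈ X)
    (aa : a * a = 1) (bb : b * b = 1) (hz : a * b * (a * b) = z)
    (zz : z * z = 1) (z1 : z ≠ 1) (hc : ∀ g ∈ X, g * z = z * g → g ∈ closure {a, b})
    (tz : t * z * t⁻¹ = z * a) : ∃ c ∈ X, c * c = 1 ∧ c * z * c = z * a ∧ (b * c) ^ 3 = 1 := by
  have hzX : z ∈ X := hz ▸ mul_mem (mul_mem ha hb) (mul_mem ha hb)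
  obtain ⟨δ, S, e0, e1⟩ := SuzG3.exists_setup (a := (⟨a, ha⟩ : X)) (b := ⟨b, hb⟩) (z := ⟨z, hzX⟩)
    (Subtype.ext aa) (Subtype.ext bb) (Subtype.ext hz) (Subtype.ext zz)
    (fun e => z1 (congrArg Subtype.val e)) fun g hg => by
      have := hc g g.2 (congrArg Subtype.val hg)
      rw [show ({a, b} : Set G) = X.subtype '' {⟨a, ha⟩, ⟨b, hb⟩} by simp [Set.image_pair],
        ← MonoidHom.map_closure] at this
      obtain ⟨k, hk, e⟩ := this
      exact Subtype.ext (p := (· ∈ X)) e ▸ hk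
  obtain ⟨c, c1, -, c3, c4⟩ := SuzG3.exists_c S (t := ⟨t, ht⟩) (by rw [e0]; exact Subtype.ext tz)
  rw [e0] at c3
  rw [e1] at c4
  exact ⟨c, c.2, congrArg Subtype.val c1, congrArg Subtype.val c3, congrArg Subtype.val c4⟩

/-- The orders of the letters. -/
def PW : List (List ℕ) := [rep 7 [18], rep 3 [20], rep 7 [22], rep 3 [24], rep 3 [26], rep 3 [28], rep 3 [30]]

theorem pw (S : SF z n F) : ∀ w ∈ PW, wval F w = 1 := by
  have k := fun i a b => wval_single F i ▸ (S.act i a b).2.2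
  simp only [PW, List.forall_mem_cons, wval_rep]
  exact ⟨k 9 (by decide) (by decide), k 10 (by decide) (by decide), k 11 (by decide) (by decide),
    k 12 (by decide) (by decide), k 13 (by decide) (by decide), k 14 (by decide) (by decide),
    k 15 (by decide) (by decide), by simp⟩

theorem cj_one {w : List ℕ} (h : wval F w = 1) (u : List ℕ) : wval F (cjw u w) = 1 := by
  rw [wval_cjw, h]; simp

variable (h : Hyp z Q) (E : Enc z Q n) (S : SF z n F) (C : Cx z n F)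
include h E S C

theorem exists_g [Finite G] {g : G} (gQ : g * z * g⁻¹ ∈ Q) (gz : g * z * g⁻¹ ≠ z) :
    ∃ g, g ∈ centralizer {F 9, F 10} ∧ g * z * g⁻¹ = n 1 := by
  have w1 := wval_single F
  have n0 : ∀ p < 512, n p = 1 → p = 0 := fun p hp e => E.inj p hp 0 (by decide) (e.trans E.zero.symm)
  obtain ⟨g, gc⟩ : ∃ g, g * n 1 * g⁻¹ = z := by
    obtain ⟨p, hp, e⟩ := E.surj _ gQ
    have xx : n p * n p = 1 := by rw [e, conj_mul, h.zz]; simp
    rw [E.mul p hp p hp] at xx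
    rcases (by decide +kernel : ∀ p < 512, qm p p = 0 → p = 0 ∨ p = 256 ∨
      memL ((hch.headD ⟨0, []⟩).T.map Prod.fst) p = true) p hp (n0 _ (qm_lt hp hp) xx) with rfl | rfl | e0
    · exact absurd (conj_eq_one_iff.1 (e.symm.trans E.zero)) h.ne
    · exact absurd (e.symm.trans E.z256) gz
    obtain ⟨a, ha, rfl⟩ := List.mem_map.1 (memL_mem e0)
    have := C.hs (wval C.M.y a.2)⁻¹ 1 (by decide)
    rw [map_inv, show (C.M.π (wval C.M.y a.2))⁻¹ 1 = a.1 from (C.ch.2.2.1 a ha).2.2, e] at this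
    exact ⟨g⁻¹ * ((wval C.M.y a.2)⁻¹ : centralizer ({z} : Set G)), by
      rw [mul_inv_rev, mul_assoc g⁻¹, mul_assoc g⁻¹, ← mul_assoc _ _ g⁻¹⁻¹, this]; group⟩
  have nk : ∀ {g : G} (w), g * n 1 * g⁻¹ = z → band (Nat.blt 1 512) (Nat.beq (pt w 1) 1) = true →
      g * wval F w * g⁻¹ ∈ centralizer ({z} : Set G) := fun {g} w a hw => by
    rw [mem_centralizer_singleton_iff, ← a, conj_mul, conj_mul, mul_inv_eq_iff_eq_mul.1 (C.cpt w 1 1 hw)]
  have mv : ∀ {k g}, k ∈ centralizer ({z} : Set G) → g * n 1 * g⁻¹ = z → k * g * n 1 * (k * g)⁻¹ = z :=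
    fun {k g} hk a => by
      rw [show k * g * n 1 * (k * g)⁻¹ = k * (g * n 1 * g⁻¹) * k⁻¹ by group, a,
        mem_centralizer_singleton_iff.1 hk, mul_inv_cancel_right]
  have s7 : F 9 ^ 7 = 1 := (S.act 9 (by decide) (by decide)).2.2
  have s1 : F 9 ≠ 1 := fun e => C.M.nrel [18] (by decide +kernel) (by rw [w1 9, e]; exact one_mem _)
  obtain ⟨k, hk, e⟩ := SuzG1.sylow_conj (H := centralizer {z}) (p := 7) (by norm_num)
    (by rw [h.cH]; decide) (C.M.lmem 9) (w1 9 ▸ nk [18] gc (by decide +kernel)) s7 s1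
    (by rw [conj_pow, s7]; simp) (by simpa using s1)
  have o7 : orderOf (F 9) = 7 := have := Fact.mk (show Nat.Prime 7 by norm_num); orderOf_eq_prime s7 s1
  obtain ⟨i, hi, h1⟩ : ∃ i < 7, F 9 ^ i = k * g * F 9 * (k * g)⁻¹ := by
    classical
    simpa [o7, mul_assoc] using (orderOf_pos_iff.1 (o7 ▸ by decide)).mem_zpowers_iff_mem_range_orderOf.1
      (e.le (mem_zpowers _))
  have i0 : i ≠ 0 := by rintro rfl; exact s1 (conj_eq_one_iff.1 (h1.symm.trans (pow_zero _)))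
  replace gc := mv hk gc
  generalize k * g = g at gc h1
  have p7 : wval F [18] ^ 7 = 1 := w1 9 ▸ s7
  have ts : F 10 * F 9 * (F 10)⁻¹ = F 9 * F 9 := by
    have := C.rig1 h.zz S [2 * 10] [2 * 9] [] ([2 * 9] ++ [2 * 9]) (by decide +kernel)
    rwa [wval_cjw, wval_cjw, wval_append, w1, w1, wval_nil, one_mul, inv_one, mul_one] at this
  have t3 : F 10 ^ 3 = 1 := (S.act 10 (by decide) (by decide)).2.2
  have tH := w1 10 ▸ nk [20] gc (by decide +kernel)
  obtain ⟨j, hj⟩ : ∃ j, F 9 = (g * F 9 * g⁻¹) ^ j := by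
    obtain ⟨j, -, hj⟩ := (by decide : ∀ i < 7, i ≠ 0 → ∃ j < 7, i * j % 7 = 1) i hi i0
    exact ⟨j, by rw [← h1, ← pow_mul, ← pow_mod_orderOf, o7, hj, pow_one]⟩
  obtain ⟨u, hu, x, hx, e⟩ := C.M.find C.ch s_t (by decide) tH (by simp)
    (.cons (by
      have e : g * F 10 * g⁻¹ * (g * F 9 * g⁻¹) * (g * F 10 * g⁻¹)⁻¹ = g * F 9 * g⁻¹ * (g * F 9 * g⁻¹) := by
        rw [conj_mul (a := F 9) (b := g) (c := F 9), ← ts]; group
      rw [show [18, 18] = [2 * 9] ++ [2 * 9] from rfl, wval_append, w1 9]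
      generalize g * F 9 * g⁻¹ = x at hj e
      rw [hj, ← conj_pow, e, (Commute.refl _).mul_pow, mul_inv_cancel]
      exact one_mem _) .nil)
    (List.forall_mem_singleton.2 (by
      rw [show [1000, 1000, 1000] = rep 3 [2 * 500] from rfl, wval_rep, wval_single,
        Function.update_self, conj_pow, t3]; simp)) (by simp)
  rw [mkC, beq_eq (band_eq hu).1] at e
  have e := C.rig2 h.zz S (c := g * F 10 * g⁻¹) (by
      rw [conj_pow, ← w1 10, S.p21 _ (by decide)]; simp) u.tail (a := [20]) (by decide)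
    (by rw [e]; exact cjZ (C.M.mem _) hx)
  rw [wval_cjw] at e
  have c := comm_word (F := F) (c := F 9) [9] (by simp) (band_eq hu).2
  replace gc := mv (inv_mem (C.M.mem u.tail)) gc
  have gs : (wval F u.tail)⁻¹ * g * F 9 * ((wval F u.tail)⁻¹ * g)⁻¹ = F 9 ^ i := by
    rw [mul_inv_rev, inv_inv, mul_assoc _ g, mul_assoc, ← mul_assoc _ g⁻¹, ← h1,
      ← (Commute.pow_right c i).eq]; simp
  have gt : (wval F u.tail)⁻¹ * g * F 10 * ((wval F u.tail)⁻¹ * g)⁻¹ = F 10 := by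
    rw [mul_inv_rev, inv_inv, mul_assoc _ g, mul_assoc, ← mul_assoc _ g⁻¹, e, w1 10]; simp
  generalize (wval F u.tail)⁻¹ * g = g at gc gs gt
  obtain ⟨m, -, j, -, a1, a2, a3⟩ := (by decide +kernel : ∀ i < 7, i ≠ 0 → ∃ m ∈ [[], [20], [21], DW,
    20 :: DW, 21 :: DW], ∃ j < 7, i * j % 7 = 1 ∧ rigB [(m, [20], [], [20])] = true ∧
    fx (m ++ [18] ++ invW m ++ invW (rep j [18])) = true) i hi i0
  have ms := BT.rigid (k := 3) h.zz (mem_centralizer_singleton_iff.1 (C.M.mem (rep j [18])))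
    (by rw [wval_append, wval_append, wval_invW, conj_pow, p7]; simp)
    (by rw [wval_rep, ← pow_mul, mul_comm, pow_mul, p7, one_pow]) (C.md _ _ a3)
  have mt := C.rig1 h.zz S _ _ _ _ a2
  rw [wval_cjw, wval_cjw, w1 10, wval_nil, one_mul, inv_one, mul_one] at mt
  rw [wval_append, wval_append, wval_invW, wval_rep, w1 9] at ms
  have e : ∀ x, wval F m * g * x * (wval F m * g)⁻¹ = wval F m * (g * x * g⁻¹) * (wval F m)⁻¹ :=
    fun x => by group
  refine ⟨(wval F m * g)⁻¹, inv_mem ?_, by rw [← mv (C.M.mem m) gc]; group⟩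
  simp only [mem_centralizer_iff, Set.mem_insert_iff, Set.mem_singleton_iff, forall_eq_or_imp, forall_eq]
  refine ⟨(mul_inv_eq_iff_eq_mul.1 ?_).symm, (mul_inv_eq_iff_eq_mul.1 ?_).symm⟩
  · rw [e, gs, ← conj_pow, ms, ← pow_mul, mul_comm, ← pow_mod_orderOf, o7, a1, pow_one]
  · rw [e, gt, mt]

theorem exists_v [Finite G] {g : G} (gQ : g * z * g⁻¹ ∈ Q) (gz : g * z * g⁻¹ ≠ z) :
    ∃ v, SW z n v ∧ (n 2 * v) ^ 3 = 1 ∧ Cj v F us0 us0 := by
  obtain ⟨g, gX, gz⟩ := exists_g h E S C gQ gz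
  have w1 := wval_single F
  have mX : ∀ {c}, c ∈ centralizer {F 9, F 10} ↔ F 9 * c = c * F 9 ∧ F 10 * c = c * F 10 := by
    simp [mem_centralizer_iff]
  have nX : ∀ p, band (band (Nat.blt p 512) (Nat.beq (pt [18] p) p))
      (band (Nat.blt p 512) (Nat.beq (pt [20] p) p)) = true → n p ∈ centralizer {F 9, F 10} := fun p hp =>
    mX.2 ⟨mul_inv_eq_iff_eq_mul.1 (w1 9 ▸ C.cpt _ _ _ (band_eq hp).1),
      mul_inv_eq_iff_eq_mul.1 (w1 10 ▸ C.cpt _ _ _ (band_eq hp).2)⟩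
  have mu : ∀ a b c, decide (a < 512 ∧ b < 512 ∧ qm a b = c) = true → n a * n b = n c :=
    fun a b c e => by
      obtain ⟨a1, a2, rfl⟩ := of_decide_eq_true e
      exact E.mul a a1 b a2
  have bb : n 2 * n 2 = 1 := (mu 2 2 0 (by decide +kernel)).trans E.zero
  have bi := inv_eq_of_mul_eq_one_right bb
  have hz : n 1 * n 2 * (n 1 * n 2) = z := by
    rw [mu 1 2 3 (by decide +kernel), mu 3 3 256 (by decide +kernel), E.z256]
  obtain ⟨w, wX, ww, wz, h3⟩ := d8 (z := z) (a := n 1) (b := n 2) (t := n 2 * g)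
    (nX 1 (by decide +kernel)) (nX 2 (by decide +kernel)) (mul_mem (nX 2 (by decide +kernel)) gX)
    ((mu 1 1 0 (by decide +kernel)).trans E.zero) bb hz h.zz h.ne
    (fun c hc e => by
      obtain ⟨u, hu, x, hx, e⟩ := C.M.find C.ch s_c (by decide) (mem_centralizer_singleton_iff.2 e) (by simp)
        (comm_pairs _ (by simpa [w1 9, w1 10, eq_comm] using mX.1 hc)) (by simp) (by simp)
      have m1 : n 1 ∈ closure {n 1, n 2} := subset_closure (by simp)
      have m2 : n 2 ∈ closure {n 1, n 2} := subset_closure (by simp)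
      exact e ▸ mul_mem (mem_word [1, 2] (by simpa [S.q 1, S.q 2] using ⟨m1, m2⟩) hu)
        (zpowers_le.2 (hz ▸ mul_mem (mul_mem m1 m2) (mul_mem m1 m2)) hx))
    (by rw [show n 2 * g * z * (n 2 * g)⁻¹ = n 2 * (g * z * g⁻¹) * (n 2)⁻¹ by group, gz, bi, ← E.z256,
      mu 2 1 259 (by decide +kernel), mu 259 2 257 (by decide +kernel), mu 256 1 257 (by decide +kernel)])
  have vX := mX.1 (mul_mem (mul_mem (nX 2 (by decide +kernel)) wX) (nX 2 (by decide +kernel)))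
  have wi := inv_eq_of_mul_eq_one_right ww
  refine ⟨n 2 * w * n 2, ⟨?_, ?_⟩, ?_, .cons (w1 9 ▸ vX.1.symm) (.cons (w1 10 ▸ vX.2.symm) .nil)⟩
  · rw [mul_assoc, ← mul_assoc (n 2) (n 2 * w), ← mul_assoc (n 2), bb, one_mul, mul_assoc, ← mul_assoc w, ww,
      one_mul, bb]
  · rw [mul_inv_rev, mul_inv_rev, bi, wi, mul_assoc _ (n 2), Co1Q.nz h.toHyp0 E (by decide),
      show n 2 * w * (z * n 2) * (n 2 * (w * n 2)) = n 2 * (w * z * (n 2 * n 2) * w) * n 2 by group, bb,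
      mul_one, wz, ← E.z256, mu 256 1 257 (by decide +kernel), mu 2 257 3 (by decide +kernel),
      mu 3 2 1 (by decide +kernel)]
  · rw [← mul_assoc, ← mul_assoc, bb, one_mul, pow_swap h3]

variable (W : SW z n v)
include W

theorem step_s (D : Cj v F us0 us0) : Cj v F us1 us1 := by
  obtain ⟨u, hu, e⟩ := step E C W D (r := [28]) s_s (by decide +kernel)
    (derive [] (all_append (pw S) (C.rig h.zz S [([28], [20], [], [20]),
      ([18, 18, 18, 28, 18, 20, 29, 18, 29, 19, 28], [18], [], [18])] (by decide +kernel))) _ (by decide +kernel))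
  rw [List.mem_singleton.1 hu] at e
  exact .cons (mul_inv_eq_iff_eq_mul.1 (C.rig2 h.zz S (by rw [conj_pow, S.p21 _ (by decide)]; simp) []
    (a := [28]) (by decide) e)) D

def TT (i : Fin 4) : List ℕ := cjw (TW.getD i []) [30]

def sg : Fin 4 → Fin 4 := ![0, 1, 3, 2]

theorem step_T (D : Cj v F us1 us1) (r3 : (n 2 * v) ^ 3 = 1) :
    Cj v F ([30] :: us1) ([30] :: us1) ∨ Cj v F (TT 1 :: us1) (TT 1 :: us1) := by
  have k1 : ∀ i, ∃ j, v * wval F (TT i) * v⁻¹ = wval F (TT j) := fun i => by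
    obtain ⟨a, b, c⟩ := (by decide +kernel : ∀ i, band (band (Nat.blt 1 512) (Nat.beq (pt (TT i) 1) 1))
      (us1.all (lt2 500) && (pa_T.map (subst us1) ++ pa_T.map (subst us1)).all (lt2 500)) = true ∧
      rigB [(TT i, [28], [], [28]), (TT i ++ [19], [28], [19], [28]),
        (subst (TT i :: us1) [4, 6, 0, 5, 6, 3, 4, 0], [18], [], [18])] = true ∧
      deriveB [] (cjw (TW.getD i []) (rep 3 [30]) :: [(TT i, [28], [], [28]), (TT i ++ [19], [28], [19], [28]),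
        (subst (TT i :: us1) [4, 6, 0, 5, 6, 3, 4, 0], [18], [], [18])].map rgw)
        (pa_T.map (fun p => cmw (TT i) (subst us1 p)) ++ ps_T.map (subst (TT i :: us1))) = true) i
    obtain ⟨u, hu, e⟩ := step E C W D (r := TT i) s_T a
      (derive [] (List.forall_mem_cons.2 ⟨cj_one (pw S _ (by decide)) _, C.rig h.zz S _ b⟩) _ c)
    obtain ⟨j, rfl⟩ := (by decide : ∀ u ∈ U_T, ∃ j, u = TT j) u hu
    exact ⟨j, C.rig2 h.zz S (by
      rw [conj_pow, TT, wval_cjw, conj_pow, S.p21 _ (by decide)]; simp) _ (by decide) e⟩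
  have k2 : ∀ i, n 2 * wval F (TT i) * (n 2)⁻¹ = wval F (TT (sg i)) := fun i => by
    have := C.rig1 h.zz S _ _ _ _ ((by decide +kernel : ∀ i : Fin 4,
      rigB [([2 * 2] ++ TW.getD i [], [30], TW.getD (sg i) [], [30])] = true) i)
    rw [wval_cjw, wval_append, wval_single, S.q 2 (by decide) (by decide)] at this
    rw [TT, TT, ← this, wval_cjw]; group
  have k3 : ∀ i j, wval F (TT i) = wval F (TT j) → i = j := fun i j e => by_contra fun ne =>
    C.M.nrel _ ((by decide +kernel : ∀ i j, i ≠ j → bnot (fx (TT i ++ invW (TT j))) = true) i j ne)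
      (by rw [wval_append, wval_invW, e, mul_inv_cancel]; exact one_mem _)
  choose π hπ using k1
  have k4 : ∀ i, n 2 * v * wval F (TT i) * (n 2 * v)⁻¹ = wval F (TT (sg (π i))) := fun i => by
    rw [← k2, ← hπ]; group
  refine ((by decide +kernel : ∀ π : Fin 4 → Fin 4, (∀ i, π (π i) = i) →
    (∀ i, sg (π (sg (π (sg (π i))))) = i) → π 0 = 0 ∨ π 1 = 1) π (fun i => k3 _ _ ?_)
    fun i => k3 _ _ ?_).imp (fun e => .cons ?_ D) fun e => .cons ?_ D
  · rw [← hπ, ← hπ, show v * (v * wval F (TT i) * v⁻¹) * v⁻¹ = v * v * wval F (TT i) * (v * v)⁻¹ by group, W.vv]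
    simp
  · rw [← k4, ← k4, ← k4]
    generalize n 2 * v = x at r3
    rw [show x * (x * (x * wval F (TT i) * x⁻¹) * x⁻¹) * x⁻¹ = x ^ 3 * wval F (TT i) * (x ^ 3)⁻¹ by
      simp [pow_succ, mul_assoc], r3]
    simp
  · have := hπ 0
    rw [e] at this
    exact mul_inv_eq_iff_eq_mul.1 this
  · have := hπ 1
    rw [e] at this
    exact mul_inv_eq_iff_eq_mul.1 this

def LS : List ℕ := [1, 2, 168, 84, 392, 276, 296, 324]

omit S in
theorem reb [Finite G] (S : SF z n F) (D : Cj v F (TT 1 :: us1) (TT 1 :: us1)) :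
    ∃ n' F', Enc z Q n' ∧ SF z n' F' ∧ Nonempty (Cx z n' F') ∧ n' 1 = n 1 ∧ n' 2 = n 2 ∧
      Cj v F' ([30] :: us1) ([30] :: us1) := by
  obtain ⟨n', E', e⟩ := Co1Q.rebase h.toHyp0 E (L := LS) (by decide +kernel)
  obtain ⟨F', S', C'⟩ := exists_cx h E'
  have k : ∀ i pu a, 9 ≤ i → i < 16 → a ∈ OW → ∀ pa, subst (TT 1 :: us1) pa = a →
      (∀ j < 8, band (Nat.blt (lin LS (2 ^ j)) 512)
        (Nat.beq (pt (cjw (subst (TT 1 :: us1) pu) a) (lin LS (2 ^ j))) (lin LS ((LA i).getD j 0))) = true) →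
      v * wval F' [2 * i] = wval F' [2 * i] * v := fun i pu a h1 h2 ha pa hp hj => by
    obtain ⟨a1, a2, -⟩ := S'.act i h1 h2
    have mW := C.M.mem (cjw (subst (TT 1 :: us1) pu) a)
    have a3 := (mem_zpowers_two h.zz).2 (Co1Q.of_act h.toHyp0 E' (mul_mem (inv_mem mW) a1)
      ⟨rfl, by decide, fun j hj' => by
        rw [(by decide : ∀ j < 8, L0.getD j 0 = 2 ^ j) j hj', mul_inv_rev, mul_assoc _ (F' i),
          mul_assoc _ (F' i * _), ← mul_assoc (F' i * _), a2.2.2 j hj', e _ (Co1Q.getD_lt a2.2.1 j),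
          ← C.cpt _ _ _ (hj j hj'), ← e _ (Co1Q.pl j hj')]
        group⟩)
    rw [C.rig2 h.zz S (c := wval F' [2 * i]) (S'.p21 _ ((by decide : ∀ i < 16, 9 ≤ i → [2 * i] ∈ OW) i h2 h1))
      _ ha (by rw [wval_single]; simpa [mul_assoc] using cjZ mW a3), ← mul_inv_eq_iff_eq_mul, wval_cjw,
      ← hp, ← conj_mul, ← conj_mul, ← conj_inv, sub D, sub D]
  exact ⟨n', F', E', S', C', e 1 (by decide), e 2 (by decide),
    .cons (k 15 [2, 0, 0, 4, 4] [28] (by decide) (by decide) (by decide) [2] rfl (by decide +kernel))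
    (.cons (k 14 [5, 2, 4, 7, 3, 5] [28] (by decide) (by decide) (by decide) [2] rfl (by decide +kernel))
    (.cons (k 9 [] [19] (by decide) (by decide) (by decide) [5] rfl (by decide +kernel))
    (.cons (k 10 [] [20] (by decide) (by decide) (by decide) [6] rfl (by decide +kernel)) .nil)))⟩

theorem step_e (D : Cj v F ([30] :: us1) ([30] :: us1)) :
    v * wval F (cjw [6, 8] [18]) * v⁻¹ = wval F [22] := by
  have ez : wval F [6, 8, 6, 8] = z := (C.coln E S _ 256 (by decide +kernel)).trans E.z256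
  have e1 : wval F [2] = n 1 := C.coln E S _ 1 (by decide +kernel)
  have D2 : Cj v F us2 vs2 := .cons (by rw [ez, e1, ← W.vz]; simp) D
  obtain ⟨u, hu, e⟩ := step E C W D2 (r := [6, 8]) s_e (by decide +kernel) (C.colrel E S _ (by decide +kernel))
  have vx : v * wval F [18] * v⁻¹ = wval F [18] := sub D [4]
  have vs : v * wval F [28] * v⁻¹ = wval F [28] := sub D [2]
  set c := v * wval F [6, 8] * v⁻¹ with hc
  have k : ∀ g ∈ centralizer ({z} : Set G), c * g * c⁻¹ = wval F u * g * (wval F u)⁻¹ := fun g hg => by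
    rw [← inv_mul_cancel_right c (wval F u), mul_inv_rev, mul_assoc _ (wval F u), ← mul_assoc _ (wval F u)⁻¹,
      mul_assoc _ (wval F u * g), ← cZ (mul_mem (mul_mem (C.M.mem u) hg) (inv_mem (C.M.mem u))) e]
    group
  rcases (by decide +kernel : ∀ u ∈ U_e, rigB [(u, [18], [], [22])] = true ∨
    (band (Nat.beq (col (cmw u (cjw [28] [6, 8])) 0) 1) (eqL (nf [] (nq (cmw u (cjw [28] [6, 8])))) []) = true ∧
     band (Nat.beq (col (cjw [28] (cmw (cjw [29] [6, 8]) u)) 0) 1)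
      (eqL (nf [] (nq (cjw [28] (cmw (cjw [29] [6, 8]) u)))) []) = true)) u hu with b | ⟨b1, b2⟩
  · have := C.rig1 h.zz S _ _ _ _ b
    rw [wval_cjw, ← k _ (C.M.mem _), wval_cjw, wval_nil, one_mul, inv_one, mul_one] at this
    rw [← this, wval_cjw, ← conj_mul, ← conj_mul, ← conj_inv, vx]
  · have x1 := C.coln E S _ _ b1
    have x2 := C.coln E S _ _ b2
    rw [wval_cmw, ← k _ (C.M.mem _), wval_cjw] at x1
    rw [wval_cjw, wval_cmw, mul_assoc (wval F (cjw _ _)), mul_assoc (wval F (cjw _ _)),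
      k _ (inv_mem (C.M.mem _)) |>.symm, wval_cjw, show wval F [29] = (wval F [28])⁻¹ from wval_invW F [28]] at x2
    refine absurd ?_ (n1 h E)
    have vc : v * c * v⁻¹ = wval F [6, 8] := by
      rw [hc, show v * (v * wval F [6, 8] * v⁻¹) * v⁻¹ = v * v * wval F [6, 8] * (v * v)⁻¹ by group, W.vv]
      simp
    have vX := congrArg (MulAut.conj v) x1
    simp only [map_mul, map_inv, MulAut.conj_apply] at vX
    simp only [vc, vs, ← hc, W.vc] at vX
    rw [← x2]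
    convert mem_zpowers z using 1
    rw [← vX]
    group

def UL : List (List ℕ) := [[], [2], [], [6], [8], [10], [12], [14], [16], [18], [20], [22], [24], [], [28], [30]]

def VL : List (List ℕ) := [[], [6, 8, 6, 8], [],
  [18, 18, 18, 22, 19, 19, 19, 19, 19, 22, 19, 19, 19, 22, 18, 18],
  [18, 18, 22, 19, 19, 19, 22, 18, 18, 22, 19, 19, 19, 19], [18, 22, 19, 19, 19, 22, 19, 19, 22, 18],
  [19, 22, 18, 18, 18, 22, 19, 19, 19, 19, 19, 19, 22, 18], [18, 22, 22, 19, 19, 19, 19, 19, 19, 22, 18, 18],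
  [22, 19, 19, 19, 22, 18, 18, 22, 19, 19], [18], [20], [6, 8, 18, 9, 7], [24], [], [28], [30]]

theorem full (D : Cj v F ([30] :: us1) ([30] :: us1)) : Cj v F UL VL := by
  have vi := inv_eq_of_mul_eq_one_right W.vv
  have e := step_e h E S C W D
  have ez : wval F [6, 8, 6, 8] = z := (C.coln E S _ 256 (by decide +kernel)).trans E.z256
  have e1 : wval F [2] = n 1 := C.coln E S _ 1 (by decide +kernel)
  have e3 : v * wval F [22] = wval F (cjw [6, 8] [18]) * v := by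
    rw [← e, vi, ← mul_assoc, ← mul_assoc, W.vv, one_mul]
  have D3 : Cj v F [cjw [6, 8] [18], [18]] [[22], [18]] :=
    .cons (mul_inv_eq_iff_eq_mul.1 e) (.cons (D 2) .nil)
  have k : ∀ i p, band (Nat.beq (col [2 * i] 0) (col (subst [cjw [6, 8] [18], [18]] p) 0))
      (eqL (nf [] (nq [2 * i])) (nf [] (nq (subst [cjw [6, 8] [18], [18]] p)))) = true →
      v * wval F [2 * i] = wval F (subst [[22], [18]] p) * v := fun i p b => by
    rw [C.coleq E S _ _ b]; exact conj_subst D3 p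
  have vb : v * wval F [24] = wval F [24] * v := by
    have := C.rig1 h.zz S [] [24] [30, 29, 18, 18, 31] [20] (by decide +kernel)
    rw [show wval F [24] = _ from this]
    exact conj_subst D [0, 3, 4, 4, 1, 6, 0, 5, 5, 2, 1]
  exact .cons (by simp) (.cons (by rw [e1, ez, ← W.vc]; simp) (.cons (by simp)
    (.cons (k 3 [2, 2, 2, 0, 3, 3, 3, 3, 3, 0, 3, 3, 3, 0, 2, 2] (by decide +kernel))
    (.cons (k 4 [2, 2, 0, 3, 3, 3, 0, 2, 2, 0, 3, 3, 3, 3] (by decide +kernel))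
    (.cons (k 5 [2, 0, 3, 3, 3, 0, 3, 3, 0, 2] (by decide +kernel))
    (.cons (k 6 [3, 0, 2, 2, 2, 0, 3, 3, 3, 3, 3, 3, 0, 2] (by decide +kernel))
    (.cons (k 7 [2, 0, 0, 3, 3, 3, 3, 3, 3, 0, 2, 2] (by decide +kernel))
    (.cons (k 8 [0, 3, 3, 3, 0, 2, 2, 0, 3, 3] (by decide +kernel))
    (.cons (D 2) (.cons (D 3) (.cons e3 (.cons vb (.cons (by simp) (.cons (D 1) (.cons (D 0) .nil)))))))))))))))

omit W E S C in
theorem exists_D [Finite G] (E : Enc z Q n) {g : G} (gQ : g * z * g⁻¹ ∈ Q) (gz : g * z * g⁻¹ ≠ z) :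
    ∃ n F v, Enc z Q n ∧ SF z n F ∧ Nonempty (Cx z n F) ∧ SW z n v ∧ (n 2 * v) ^ 3 = 1 ∧ Cj v F UL VL := by
  obtain ⟨F, S, ⟨C⟩⟩ := exists_cx h E
  obtain ⟨v, W, r3, D⟩ := exists_v h E S C gQ gz
  rcases step_T h E S C W (step_s h E S C W D) r3 with D | D
  · exact ⟨n, F, v, E, S, ⟨C⟩, W, r3, full h E S C W D⟩
  · obtain ⟨n', F', E', S', ⟨C'⟩, e1, e2, D'⟩ := reb h E C W S D
    have W' : SW z n' v := ⟨W.vv, e1 ▸ W.vz⟩
    exact ⟨n', F', v, E', S', ⟨C'⟩, W', e2 ▸ r3, full h E' S' C' W' D'⟩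

end Cfsg.Agent.Lib.Co1S2
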