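import Cfsg.Agent.Lib.Co1S2

/-! The elementary abelian subgroup of order `2 ^ 11` and the relations that follow from it. -/

set_option autoImplicit false
set_option maxRecDepth 100000

namespace Cfsg.Agent.Lib.Co1S3

open Subgroup Cfsg.Agent.Lib.PermNet Cfsg.Agent.Lib.Words Cfsg.Agent.Lib.PermGroup Cfsg.Agent.Lib.DCE
  Cfsg.Agent.Lib.BT Cfsg.Agent.Lib.Co1Defs Cfsg.Agent.Lib.Co1SM Cfsg.Agent.Lib.Co1SN Cfsg.Agent.Lib.Co1S1
  Cfsg.Agent.Lib.Co1S2
open Cfsg.Agent.Lib.ThDefs hiding Hyp

variable {G : Type*} [Group G] {z v : G} {Q : Subgroup G} {n F : ℕ → G}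

theorem aw_xor (l : List (List ℕ)) (h1 : ∀ a ∈ l, wval F a * wval F a = 1)
    (h2 : ∀ a ∈ l, ∀ b ∈ l, Commute (wval F a) (wval F b)) (m k : ℕ) :
    wval F (aw l (m ^^^ k)) = wval F (aw l m) * wval F (aw l k) := by
  have c : ∀ a, ∀ l : List (List ℕ), (∀ b ∈ l, Commute a (wval F b)) → ∀ m, Commute a (wval F (aw l m)) := by
    intro a l
    induction l with
    | nil => exact fun _ _ => Commute.one_right a
    | cons b l ih =>
      intro h m
      rw [aw, wval_append]
      refine Commute.mul_right ?_ (ih (fun b hb => h b (List.mem_cons_of_mem _ hb)) _)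
      split_ifs
      exacts [h b List.mem_cons_self, Commute.one_right a]
  induction l generalizing m k with
  | nil => simp [aw]
  | cons a l ih =>
    have s := h1 a List.mem_cons_self
    have e := (c _ l (fun b hb => h2 a List.mem_cons_self b (List.mem_cons_of_mem _ hb)) (m / 2)).eq
    simp only [aw, wval_append, Nat.xor_div_two, Nat.xor_mod_two_eq_one]
    rw [ih (fun b hb => h1 b (List.mem_cons_of_mem _ hb))
      fun b hb c hc => h2 b (List.mem_cons_of_mem _ hb) c (List.mem_cons_of_mem _ hc)]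
    by_cases hm : m % 2 = 1 <;> by_cases hk : k % 2 = 1 <;> simp [hm, hk, mul_assoc]
    · rw [← mul_assoc (wval F (aw l _)), ← e, ← mul_assoc, ← mul_assoc, s, one_mul]
    · rw [← mul_assoc, e, mul_assoc]

/-- The linear map with the given values on the basis. -/
def xl : List ℕ → ℕ → ℕ
  | [], _ => 0
  | a :: l, m => (if m % 2 = 1 then a else 0) ^^^ xl l (m / 2)

def tw (σ : List ℕ → List ℕ) (l : List (List ℕ)) (L : List ℕ) : List (List ℕ) :=
  List.zipWith (fun a p => σ a ++ invW (aw AW p)) l L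

theorem act_of {c : G} {σ : List ℕ → List ℕ}
    (hx : ∀ m k, wval F (aw AW (m ^^^ k)) = wval F (aw AW m) * wval F (aw AW k)) (l : List (List ℕ)) (L : List ℕ)
    (h0 : l.length = L.length) (h1 : ∀ a ∈ l, c * wval F a * c⁻¹ = wval F (σ a))
    (h2 : ∀ w ∈ tw σ l L, wval F w = 1) (m : ℕ) :
    c * wval F (aw l m) * c⁻¹ = wval F (aw AW (xl L m)) := by
  have a0 : wval F (aw AW 0) = 1 := rfl
  induction l generalizing L m with
  | nil =>
    rw [List.length_eq_zero_iff.1 h0.symm, xl, a0]; simp [aw]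
  | cons a l ih =>
    obtain _ | ⟨p, L⟩ := L
    · simp at h0
    have := h2 _ List.mem_cons_self
    rw [wval_append, wval_invW, mul_inv_eq_one, ← h1 a List.mem_cons_self] at this
    rw [xl, hx, ← ih L (by simpa using h0) (fun b hb => h1 b (List.mem_cons_of_mem _ hb))
      (fun w hw => h2 w (List.mem_cons_of_mem _ hw)), aw, wval_append, ← conj_mul]
    split_ifs
    · rw [this]
    · rw [a0]; simp

noncomputable def orcB (R : List (List ℕ)) : Bool :=
  allL (fun p => band (eqL (subst UL p) p) (band (fx p) (fx (subst VL p)))) R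

/-- The action of the letters on the basis. -/
def tb : ℕ → List ℕ
  | 0 => [2, 1, 8, 4, 31, 544, 1120, 128, 256, 512, 1536]
  | 4 => [1, 3, 4, 12, 16, 32, 64, 128, 256, 544, 1088]
  | 26 => [1, 6, 2, 12, 16, 32, 64, 1632, 1024, 992, 1312]
  | _ => [1, 2, 4, 8, 16, 64, 96, 384, 128, 1056, 1632]

def ph : List ℕ → ℕ → ℕ
  | [], m => m
  | l :: w, m => xl (tb l) (ph w m)

/-- The conjugates by the letter `13` of the last four words of the basis. -/
def AL : List (List ℕ × List ℕ × ℕ) := [
  ([20, 25, 20, 24, 19], [25, 19, 25, 19, 2, 22, 21, 23, 23, 20, 22, 22, 20, 23, 21, 24, 18, 24, 18, 6], 1632),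
  ([24, 18, 24, 6, 18], [14, 2, 6, 8, 6, 8, 23, 21, 22, 22, 20, 22, 22, 20, 23, 21], 1024),
  ([6, 22, 21, 23, 23, 20], [22, 14, 21, 23, 23, 20, 20, 25, 20, 24, 19, 25, 19, 25, 6, 19], 992),
  ([10, 6, 22, 22, 20, 23, 21], [22, 14, 22, 20, 23, 21, 24, 18, 24, 10, 18], 1312)]

theorem upd (w : List ℕ) (h : w.all (fun l => decide (2 ≤ l)) = true) :
    wval (Function.update F 0 v) w = wval F w := by
  induction w with
  | nil => rfl
  | cons l w ih =>
    simp only [List.all_cons, Bool.and_eq_true, decide_eq_true_eq] at h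
    rw [wval_cons, wval_cons, ih h.2, lval, lval, Function.update_of_ne (by omega)]

variable (h : Hyp z Q) (E : Enc z Q n) (S : SF z n F) (C : Cx z n F) (W : SW z n v) (D : Cj v F UL VL)
include h E C W D

theorem orcW (R : List (List ℕ)) (hb : orcB R = true) : ∀ w ∈ R, wval F w = 1 := fun w hw => by
  obtain ⟨a, b⟩ := band_eq (allL_all hb w hw)
  have e := eqL_eq a
  exact e ▸ orc h E C W D [w] (allL_of fun _ hu => by rw [List.mem_singleton.1 hu, e]; exact b) _
    List.mem_cons_self

theorem hx (m k : ℕ) : wval F (aw AW (m ^^^ k)) = wval F (aw AW m) * wval F (aw AW k) := by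
  have := orcW h E C W D (AW.flatMap fun a => (a ++ a) :: AW.map (cmw a)) (by decide +kernel)
  refine aw_xor _ (fun a ha => ?_) (fun a ha b hb => ?_) m k
  · rw [← wval_append]
    exact this _ (List.mem_flatMap.2 ⟨a, ha, List.mem_cons_self⟩)
  · have := this _ (List.mem_flatMap.2 ⟨a, ha, List.mem_cons_of_mem _ (List.mem_map_of_mem hb)⟩)
    rwa [wval_cmw, mul_inv_eq_one, mul_inv_eq_iff_eq_mul] at this

include S

theorem ac_letter : ∀ l ∈ [0, 4, 26, 20], (∀ m, wval (Function.update F 0 v) [l] * wval F (aw AW m) *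
    (wval (Function.update F 0 v) [l])⁻¹ = wval F (aw AW (xl (tb l) m))) ∧
    wval (Function.update F 0 v) [l] ∈ centralizer {wval F [20], wval F [28]} := by
  have k : ∀ l, 2 ≤ l → AW.length = (tb l).length → (∀ w ∈ [cmw [20] [l], cmw [28] [l]] ++ tw (cjw [l]) AW (tb l),
      wval F w = 1) → (∀ m, wval (Function.update F 0 v) [l] * wval F (aw AW m) *
      (wval (Function.update F 0 v) [l])⁻¹ = wval F (aw AW (xl (tb l) m))) ∧
      wval (Function.update F 0 v) [l] ∈ centralizer {wval F [20], wval F [28]} := fun l h1 h2 h3 => by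
    rw [upd _ (by simpa using h1)]
    refine ⟨act_of (hx h E C W D) _ _ h2 (fun a _ => (wval_cjw _ _).symm)
      fun w hw => h3 w (List.mem_append_right _ hw), ?_⟩
    have a := h3 _ List.mem_cons_self
    have b := h3 _ (List.mem_cons_of_mem _ List.mem_cons_self)
    rw [wval_cmw, mul_inv_eq_one, mul_inv_eq_iff_eq_mul] at a b
    simpa [mem_centralizer_iff] using ⟨a, b⟩
  simp only [List.forall_mem_cons]
  refine ⟨?_, k 4 (by decide) rfl (C.colrel E S _ (by decide +kernel)), k 26 (by decide) rfl ?_,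
    k 20 (by decide) rfl (orcW h E C W D _ (by decide +kernel)), by simp⟩
  · rw [show wval (Function.update F 0 v) [0] = v from (wval_single _ 0).trans (Function.update_self ..)]
    refine ⟨act_of (σ := subst VL) (hx h E C W D) _ _ rfl (fun a ha => ?_)
      (orcW h E C W D _ (by decide +kernel)), ?_⟩
    · rw [← sub D, (by decide : ∀ a ∈ AW, subst UL a = a) a ha]
    · simpa [mem_centralizer_iff] using ⟨(D 10).symm, (D 14).symm⟩
  have r := C.rig h.zz S [(AW.getD 3 [], [27], [2], [27]), (AW.getD 4 [], [26], [], [26]),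
    ([20], [26], [], [26]), ([28], [26], [], [26])] (by decide +kernel)
  have c := C.colrel E S ([26, 2, 27, 3, 15, 11, 7] :: [0, 1, 2, 5, 6].map fun i =>
    (tw (cjw [26]) AW (tb 26)).getD i []) (by decide +kernel)
  refine derive [] (K := (cjw [26] (rgw (AW.getD 3 [], [27], [2], [27])) ++ [26, 2, 27, 3, 15, 11, 7]) ::
    (AL.map (fun e => cjw [26] (cmw [20] e.1) ++ invW (aw AW e.2.2)) ++ (_ ++ _)))
    (List.forall_mem_cons.2 ⟨?_, all_append (fun w hw => ?_) (all_append r c)⟩) _ (by decide +kernel)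
  · rw [wval_append, cj_one (r _ List.mem_cons_self), c _ List.mem_cons_self, one_mul]
  · obtain ⟨e, he, rfl⟩ := List.mem_map.1 hw
    obtain ⟨a, b⟩ := (by decide +kernel : ∀ e ∈ AL, band (fx (cjw [26] [20] ++ invW [20]))
      (fx (cjw [26] e.1 ++ invW e.2.1)) = true ∧ orcB [cmw [20] e.2.1 ++ invW (aw AW e.2.2)] = true) e he
    rw [wval_append, C.crig [26] [20] e.1 [20] e.2.1 a, ← wval_append]
    exact orcW h E C W D _ b _ List.mem_cons_self

theorem ac_word (w : List ℕ) (hw : ∀ l ∈ w, l ∈ [0, 4, 26, 20]) :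
    (∀ m, wval (Function.update F 0 v) w * wval F (aw AW m) *
    (wval (Function.update F 0 v) w)⁻¹ = wval F (aw AW (ph w m))) ∧
    wval (Function.update F 0 v) w ∈ centralizer {wval F [20], wval F [28]} := by
  induction w with
  | nil => exact ⟨fun m => by simp [ph], one_mem _⟩
  | cons l w ih =>
    obtain ⟨a, b⟩ := ih fun k hk => hw k (List.mem_cons_of_mem _ hk)
    obtain ⟨c, d⟩ := ac_letter h E S C W D l (hw l List.mem_cons_self)
    rw [show l :: w = [l] ++ w from rfl, wval_append]
    exact ⟨fun m => by rw [show ph ([l] ++ w) m = xl (tb l) (ph w m) from rfl, ← c, ← a]; group, mul_mem d b⟩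

theorem key (p t : List ℕ) (ht : t = [] ∨ t = [20]) (hp : ∀ l ∈ p, l ∈ [0, 4, 26, 20])
    (b1 : ∀ m ∈ [1, 2, 68, 100, 96], ph (rep 5 p ++ t) m = m)
    (b2 : ∀ m < 16, m ^^^ ph p m ^^^ ph p (ph p m) ^^^ ph p (ph p (ph p m)) ^^^
      ph p (ph p (ph p (ph p m))) = 0) : wval (Function.update F 0 v) (rep 5 p ++ t) = 1 := by
  obtain ⟨a1, a2⟩ := ac_word h E S C W D p hp
  obtain ⟨a3, a4⟩ := ac_word h E S C W D (rep 5 p ++ t) fun l hl => by
    rcases List.mem_append.1 hl with hl | hl
    · exact hp l (by simpa [rep] using hl)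
    · rcases ht with rfl | rfl <;> simp at hl
      simp [hl]
  simp only [mem_centralizer_iff, Set.mem_insert_iff, Set.mem_singleton_iff, forall_eq_or_imp, forall_eq] at a2 a4
  have c : Commute (wval (Function.update F 0 v) p) (wval (Function.update F 0 v) (rep 5 p ++ t)) := by
    rw [wval_append, wval_rep]
    refine ((Commute.refl _).pow_right 5).mul_right ?_
    rcases ht with rfl | rfl
    · exact Commute.one_right _
    · rw [upd [20] rfl]; exact a2.1.symm
  generalize wval (Function.update F 0 v) (rep 5 p ++ t) = w at a3 a4 c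
  have x := hx h E C W D
  have k : ∀ m ∈ [1, 2, 68, 100, 96], ∀ q, band (Nat.beq (col (aw AW m) 0) q)
      (eqL (nf [] (nq (aw AW m))) []) = true → w * n q = n q * w := fun m hm q b => by
    rw [← C.coln E S _ _ b, ← mul_inv_eq_iff_eq_mul, a3, b1 m hm]
  have hw : w ∈ centralizer ({z} : Set G) :=
    mem_centralizer_singleton_iff.2 (E.z256 ▸ k 1 (by decide) 256 (by decide +kernel))
  obtain ⟨u, hu, y, hy, e⟩ := C.M.find C.ch s_y (by decide) hw (by
      rw [show (hch.take 4).map Lv.b = [1, 4, 324, 272] by decide +kernel]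
      simp only [List.forall_mem_cons]
      exact ⟨C.fixp E hw (by decide) (k 2 (by decide) _ (by decide +kernel)),
        C.fixp E hw (by decide) (k 68 (by decide) _ (by decide +kernel)),
        C.fixp E hw (by decide) (k 100 (by decide) _ (by decide +kernel)),
        C.fixp E hw (by decide) (k 96 (by decide) _ (by decide +kernel)), by simp⟩)
    (comm_pairs _ (by simpa using a4.1.symm)) (by simp) (by simp)
  obtain ⟨m, hm, e⟩ : ∃ m < 32, wval F (aw AW m) = w := by
    have hu : u.headD 0 < 32 := by simpa using hu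
    rcases (mem_zpowers_two h.zz).1 hy with rfl | rfl
    · exact ⟨_, hu, by rw [e, mul_one]⟩
    · exact ⟨u.headD 0 ^^^ 1, Nat.xor_lt_two_pow (n := 5) hu (by decide), by
        rw [e, x, C.coln E S (aw AW 1) 256 (by decide +kernel), E.z256]⟩
  have hm : m < 16 := by_contra fun hn => C.M.nrel _ ((by decide +kernel : ∀ m < 32, ¬ m < 16 →
    bnot (fx (cmw [28] (aw AW m))) = true) m hm hn) (by rw [wval_cmw, e, a4.2]; simp)
  have s : ∀ k, wval F (aw AW k) = w → wval F (aw AW (ph p k)) = w := fun k e => by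
    rw [← a1, e, c.eq, mul_inv_cancel_right]
  have s2 := x m m
  have s5 := congrArg (fun m => wval F (aw AW m)) (b2 m hm)
  simp only [x, s _ (s _ (s _ (s _ e))), s _ (s _ (s _ e)), s _ (s _ e), s _ e, e] at s5
  rw [Nat.xor_self, e] at s2
  rw [← s2, show wval F (aw AW 0) = 1 from rfl, one_mul, mul_assoc, ← s2] at s5
  simpa [show wval F (aw AW 0) = 1 from rfl] using s5

end Cfsg.Agent.Lib.Co1S3
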