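import Cfsg.Agent.Lib.Co1S3
import Cfsg.Agent.Lib.Co1TC
import Cfsg.Agent.Lib.Co1D
import Cfsg.Agent.Lib.Co1Q2

/-! The generators of a group of type `Co₁` satisfy the relations. -/

set_option autoImplicit false
set_option maxRecDepth 100000

namespace Cfsg.Agent.Lib.Co1S4

open Subgroup Cfsg.Agent.Lib.PermNet Cfsg.Agent.Lib.Words Cfsg.Agent.Lib.PermGroup Cfsg.Agent.Lib.DCE
  Cfsg.Agent.Lib.BT Cfsg.Agent.Lib.Co1Defs Cfsg.Agent.Lib.Co1SM Cfsg.Agent.Lib.Co1SN Cfsg.Agent.Lib.Co1S1
  Cfsg.Agent.Lib.Co1S2 Cfsg.Agent.Lib.Co1S3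
open Cfsg.Agent.Lib.ThDefs hiding Hyp

variable {G : Type*} [Group G] {z v : G} {Q : Subgroup G} {n F : ℕ → G}

def RU : List RE := [([20], [26], [], [26]), ([19, 27, 18], [20], [26, 19], [21]),
  ([21, 23, 18], [26], [8, 22, 19], [27]), ([18, 26, 19], [24], [4, 25, 26], [24]),
  ([23, 25, 22], [26], [10, 26, 23], [25]), ([26], [28], [], [28])]

def RV : List (List ℕ) := (List.range 16).map fun i => [0] ++ UL.getD i [] ++ invW [0] ++ invW (VL.getD i [])

def R5 : List (List ℕ) := [[0] ++ [2 * 1] ++ invW [0] ++ [6, 8, 6, 8], [0, 0], rep 3 [4, 0], rep 5 [0, 26] ++ [], rep 5 [0, 4, 26] ++ [],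
  rep 5 ([0, 4] ++ [27] ++ [0] ++ [27]) ++ [20]]

def RQ : List (List ℕ) := (List.range 8).map fun i => [2 * (i + 1), 2 * (i + 1)]

theorem cls : ∀ w ∈ Co1TC.K1 ++ Co1D.RR, (w.all (fun l => decide (2 ≤ l)) = true ∧
    (colB [w] = true ∨ orcB [w] = true)) ∨
    deriveB [0, 1, 2, 3, 4, 5, 6, 7, 8] ((RQ ++ (PW ++ RU.map rgw)) ++ (RV ++ R5)) [w] = true := by
  decide +kernel

variable (h : Hyp z Q) (E : Enc z Q n) (S : SF z n F) (C : Cx z n F) (W : SW z n v) (D : Cj v F UL VL)
include h E S C W D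

omit W D in
theorem ez : wval (Function.update F 0 v) [6, 8, 6, 8] = z :=
  (upd _ rfl).trans ((C.coln E S _ 256 (by decide +kernel)).trans E.z256)

theorem rels (r3 : (n 2 * v) ^ 3 = 1) : ∀ w ∈ Co1TC.K1 ++ Co1D.RR, wval (Function.update F 0 v) w = 1 := by
  have e0 : wval (Function.update F 0 v) [0] = v := (wval_single _ 0).trans (Function.update_self ..)
  have k1 : ∀ w ∈ RQ ++ (PW ++ RU.map rgw), wval (Function.update F 0 v) w = 1 := fun w hw => by
    rw [upd w ((by decide : ∀ w ∈ RQ ++ (PW ++ RU.map rgw), w.all (fun l => decide (2 ≤ l)) = true) w hw)]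
    exact all_append (C.colrel E S _ (by decide +kernel))
      (all_append (pw S) (C.rig h.zz S _ (by decide +kernel))) w hw
  have k2 : ∀ w ∈ RV, wval (Function.update F 0 v) w = 1 := fun w hw => by
    obtain ⟨i, hi, rfl⟩ := List.mem_map.1 hw
    obtain ⟨a, b⟩ := (by decide : ∀ i ∈ List.range 16, (UL.getD i []).all (fun l => decide (2 ≤ l)) = true ∧
      (VL.getD i []).all (fun l => decide (2 ≤ l)) = true) i hi
    rw [wval_append, wval_append, wval_append, wval_invW, wval_invW, e0, upd _ a, upd _ b, D i]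
    simp
  have u2 : wval (Function.update F 0 v) [27] = wval (Function.update F 0 v) [26, 26] := by
    have := k1 (rep 3 ([26])) (by decide)
    rw [show rep 3 [26] = [26, 26] ++ invW [27] from rfl, wval_append, wval_invW, mul_inv_eq_one] at this
    exact this.symm
  have k3 : ∀ w ∈ R5, wval (Function.update F 0 v) w = 1 := by
    simp only [R5, List.forall_mem_cons]
    refine ⟨?_, ?_, ?_, key h E S C W D _ _ (.inl rfl) (by decide) (by decide +kernel) (by decide +kernel),
      key h E S C W D _ _ (.inl rfl) (by decide) (by decide +kernel) (by decide +kernel), ?_, by simp⟩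
    · rw [wval_append, wval_append, wval_append, wval_invW, e0, ez h E S C, upd _ rfl, wval_single,
        S.q 1 (by decide) (by decide), show n (2 ^ (1 - 1)) = n 1 from rfl, W.vc, h.zz]
    · rw [show [0, 0] = [0] ++ [0] from rfl, wval_append, e0, W.vv]
    · rw [wval_rep, show [4, 0] = [2 * 2] ++ [0] from rfl, wval_append, e0, upd _ rfl, wval_single,
        S.q 2 (by decide) (by decide)]
      exact r3
    · have := key h E S C W D ([0, 4] ++ [26, 26] ++ [0] ++ [26, 26]) _ (.inr rfl) (by decide)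
        (by decide +kernel) (by decide +kernel)
      simpa only [wval_append, wval_rep, u2] using this
  intro w hw
  rcases cls w hw with ⟨a, b | b⟩ | b
  · rw [upd w a]; exact C.colrel E S _ b w List.mem_cons_self
  · rw [upd w a]; exact orcW h E C W D _ b w List.mem_cons_self
  · exact derive_one _ (all_append k1 (all_append k2 k3)) w b

omit W D in
theorem hC : centralizer {z} ≤ gp (Function.update F 0 v) (sing 15) := by
  have k : ∀ w : List ℕ, w.all (fun l => decide (l < 30)) = true →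
      wval (Function.update F 0 v) w ∈ gp (Function.update F 0 v) (sing 15) := fun w hw =>
    wval_mem fun l hl => mem_sing _ (by have := List.all_eq_true.1 hw l hl; simp at this; omega)
  refine C.M.gen C.ch (fun i => (gp_le.2 fun w hw => ?_ : gp F (sing 16) ≤ _) (C.gen i))
    (zpowers_le.2 (ez h E S C (v := v) ▸ k _ rfl))
  rcases (by decide : ∀ w ∈ sing 16, w = [2 * 0] ∨ w = [30] ∨ w.all (fun l => decide (2 ≤ l)) = true ∧
    w.all (fun l => decide (l < 30)) = true) w hw with rfl | rfl | ⟨a, b⟩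
  · rw [wval_single, S.f0]; exact one_mem _
  · rw [show wval F [30] = _ from C.rig1 h.zz S [] [30] [24, 18, 24] [28] (by decide +kernel), ← upd (v := v) _ rfl]
    exact k _ rfl
  · exact upd (v := v) w a ▸ k w b

omit E S C W D in
theorem exists_f [Finite G] {g : G} (gQ : g * z * g⁻¹ ∈ Q) (gz : g * z * g⁻¹ ≠ z) :
    ∃ f : ℕ → G, (∀ w ∈ Co1TC.K1, wval f w = 1) ∧ (∀ w ∈ Co1D.RR, wval f w = 1) ∧
      centralizer {wval f [6, 8, 6, 8]} ≤ gp f (sing 15) ∧
      Nat.card (centralizer ({wval f [6, 8, 6, 8]} : Set G)) = 89181388800 := by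
  obtain ⟨n, E⟩ := Co1Q2.exists_enc h
  obtain ⟨n, F, v, E, S, ⟨C⟩, W, r3, D⟩ := exists_D h E gQ gz
  have := rels h E S C W D r3
  refine ⟨Function.update F 0 v, fun w hw => this w (List.mem_append_left _ hw),
    fun w hw => this w (List.mem_append_right _ hw), ?_, ?_⟩ <;> rw [ez h E S C]
  exacts [hC h E S C, h.cH]

end Cfsg.Agent.Lib.Co1S4
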