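import Cfsg.Agent.Lib.Co1S4
import Cfsg.Agent.Lib.Co1Fin

/-! Recognition of the first Conway group. -/

set_option autoImplicit false

namespace Cfsg.Agent.Lib.Co1S5

theorem iso {G : Type*} [Group G] [Finite G] {z g : G} {Q : Subgroup G} (h : Co1Defs.Hyp z Q)
    (gQ : g * z * g⁻¹ ∈ Q) (gz : g * z * g⁻¹ ≠ z) : Spor.IsoCo1 G := by
  obtain ⟨f, a, b, c, d⟩ := Co1S4.exists_f h gQ gz
  exact Co1Fin.iso f a b c d

end Cfsg.Agent.Lib.Co1S5
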