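import Cfsg.Agent.Lib.DCE2

/-! The comparison of a packed table with a network, all entries at once. -/

set_option autoImplicit false

namespace Cfsg.Agent.Lib.DCE

open Cfsg.Agent.Lib.PermNet

/-- `2 ^ t` copies of `b` at distance `P`. -/
noncomputable def rp (b P t : ℕ) : ℕ :=
  Nat.rec (motive := fun _ => ℕ) b
    (fun j ih => force ih fun a => Nat.lor a (Nat.shiftLeft a (Nat.mul P (Nat.pow (nat_lit 2) j)))) t

noncomputable def stage (wb K k x : ℕ) : ℕ :=
  force (rp (ones (Nat.pow (nat_lit 2) k)) (Nat.mul wb (Nat.pow (nat_lit 2) (Nat.succ k)))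
      (Nat.sub K (Nat.succ k))) fun A =>
    Nat.lor (Nat.land x A) (Nat.land (Nat.shiftRight x (Nat.mul (Nat.pred wb) (Nat.pow (nat_lit 2) k)))
      (Nat.shiftLeft A (Nat.pow (nat_lit 2) k)))

/-- Collect the bits `0, wb, 2 wb, …`. -/
noncomputable def cmpr (wb K x k : ℕ) : ℕ :=
  Nat.rec (motive := fun _ => ℕ) x (fun j ih => force ih (stage wb K j)) k

noncomputable def tabD (nets : NL) (N K nS wb : ℕ) (tt : TT) (l : ℕ) : Bool :=
  band (Nat.beq (appL nets (Nat.xor l (nat_lit 1)) (ones nS)) (ones nS))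
    (forceB (tt.get l) fun T => allR (fun j =>
      Nat.beq (Nat.land (appL nets (Nat.xor l (nat_lit 1)) (plane N K j)) (ones nS))
        (Nat.land (cmpr wb wb (Nat.shiftRight T j) wb) (ones nS))) (nat_lit 0) wb)

theorem rp_bit {n P : ℕ} (hn : n ≤ P) (t m : ℕ) {r : ℕ} (hr : r < P) :
    (rp (ones n) P t).testBit (m * P + r) = (decide (m < 2 ^ t) && decide (r < n)) := by
  induction t generalizing m with
  | zero =>
    change (ones n).testBit _ = _
    rw [testBit_ones]
    cases m with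
    | zero => simp
    | succ m =>
      have : ¬ (m + 1) * P + r < n := by nlinarith
      simp [this]
  | succ t ih =>
    change (rp (ones n) P t ||| rp (ones n) P t <<< (P * 2 ^ t)).testBit _ = _
    rw [Nat.testBit_or, Nat.testBit_shiftLeft, ih, pow_succ]
    by_cases h : m < 2 ^ t
    · have : ¬ m * P + r ≥ P * 2 ^ t := by nlinarith
      simp [h, this, show m < 2 ^ t * 2 by omega]
    · obtain ⟨c, rfl⟩ := Nat.exists_eq_add_of_le (Nat.le_of_not_lt h)
      rw [show (2 ^ t + c) * P + r - P * 2 ^ t = c * P + r by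
        rw [Nat.add_mul, Nat.mul_comm P, Nat.add_assoc, Nat.add_sub_cancel_left], ih]
      have : (2 ^ t + c) * P + r ≥ P * 2 ^ t := by nlinarith
      simp only [h, this, decide_true, decide_false, Bool.false_and, Bool.false_or, Bool.true_and]
      congr 2
      exact propext (by omega)

theorem cmpr_bit {wb K x : ℕ} (hw : 0 < wb) (k : ℕ) (hk : k ≤ K) (m r : ℕ) (hm : m < 2 ^ (K - k))
    (hr : r < 2 ^ k) : (cmpr wb K x k).testBit (m * (wb * 2 ^ k) + r) = x.testBit (wb * (m * 2 ^ k + r)) := by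
  induction k generalizing m r with
  | zero =>
    obtain rfl : r = 0 := by simpa using hr
    change x.testBit _ = _
    simp [Nat.mul_comm]
  | succ k ih =>
    obtain ⟨v, rfl⟩ : ∃ v, wb = v + 1 := ⟨wb - 1, by omega⟩
    change ((cmpr (v + 1) K x k &&& rp (ones (2 ^ k)) ((v + 1) * 2 ^ (k + 1)) (K - (k + 1))) |||
      ((cmpr (v + 1) K x k >>> (v * 2 ^ k)) &&&
        (rp (ones (2 ^ k)) ((v + 1) * 2 ^ (k + 1)) (K - (k + 1)) <<< (2 ^ k)))).testBit _ = _
    have e2 : 2 ^ (k + 1) = 2 ^ k * 2 := pow_succ _ _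
    have e3 : 2 ^ (K - k) = 2 ^ (K - (k + 1)) * 2 := by
      rw [← pow_succ]; congr 1; omega
    have hn : 2 ^ k ≤ (v + 1) * 2 ^ (k + 1) := by nlinarith
    have hP : 2 ^ (k + 1) ≤ (v + 1) * 2 ^ (k + 1) := by nlinarith
    rw [Nat.testBit_or, Nat.testBit_and, Nat.testBit_and, Nat.testBit_shiftLeft,
      Nat.testBit_shiftRight, rp_bit hn _ _ (hr.trans_le hP)]
    by_cases h : r < 2 ^ k
    · have e : ¬ (m * ((v + 1) * 2 ^ (k + 1)) + r ≥ 2 ^ k ∧ (rp (ones (2 ^ k)) ((v + 1) * 2 ^ (k + 1))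
          (K - (k + 1))).testBit (m * ((v + 1) * 2 ^ (k + 1)) + r - 2 ^ k) = true) := fun ⟨h1, h2⟩ => by
        cases m with
        | zero => omega
        | succ m =>
          rw [show (m + 1) * ((v + 1) * 2 ^ (k + 1)) + r - 2 ^ k =
            m * ((v + 1) * 2 ^ (k + 1)) + ((v + 1) * 2 ^ (k + 1) + r - 2 ^ k) by
              rw [Nat.add_mul m]; omega, rp_bit hn _ _ (by omega)] at h2
          simp only [Bool.and_eq_true, decide_eq_true_eq] at h2
          omega
      have e' := ih (by omega) (m * 2) r (by omega) h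
      rw [show m * 2 * ((v + 1) * 2 ^ k) = m * ((v + 1) * 2 ^ (k + 1)) by rw [e2]; ring,
        show m * 2 * 2 ^ k = m * 2 ^ (k + 1) by rw [e2]; ring] at e'
      rw [← decide_eq_true_eq (p := _ ≥ _), ← Bool.and_eq_true, Bool.not_eq_true] at e
      rw [e', e]
      simp [h, hm]
    · obtain ⟨c, rfl⟩ := Nat.exists_eq_add_of_le (Nat.le_of_not_lt h)
      have e' := ih (by omega) (m * 2 + 1) c (by omega) (by omega)
      rw [show (m * 2 + 1) * ((v + 1) * 2 ^ k) + c =
          v * 2 ^ k + (m * ((v + 1) * 2 ^ (k + 1)) + (2 ^ k + c)) by rw [e2]; ring,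
        show (m * 2 + 1) * 2 ^ k + c = m * 2 ^ (k + 1) + (2 ^ k + c) by rw [e2]; ring] at e'
      rw [e', show m * ((v + 1) * 2 ^ (k + 1)) + (2 ^ k + c) - 2 ^ k =
        m * ((v + 1) * 2 ^ (k + 1)) + c by omega, rp_bit hn _ _ (by omega)]
      simp [hm, show c < 2 ^ k by omega, show 2 ^ k ≤ m * ((v + 1) * 2 ^ (k + 1)) + (2 ^ k + c) by omega]

theorem allR_of_all {p : ℕ → Bool} {lo n : ℕ} (h : ∀ a < n, p (lo + a) = true) :
    allR p lo n = true := by
  induction n with
  | zero => rfl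
  | succ n ih =>
    change band (p (lo + n)) (allR p lo n) = true
    rw [h n (by omega)]
    exact ih fun a ha => h a (by omega)

theorem tabB_of_tabD {nets : NL} {N K nS wb mask : ℕ} {tt : TT} {l : ℕ}
    (h0 : mask = ones wb ∧ 0 < wb ∧ nS ≤ 2 ^ wb)
    (h : tabD nets N K nS wb tt l = true) : tabB nets N K nS wb wb mask tt l = true := by
  obtain ⟨h1, h⟩ := band_eq h
  obtain ⟨rfl, hw, hn⟩ := h0
  unfold tabB
  rw [h1, forceB_eq, planesK_eq]
  refine allR_of_all fun a ha => ?_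
  rw [show (nat_lit 0 : ℕ) = 0 from rfl, Nat.zero_add,
    bitsAt_eq _ wb a (tt.get l >>> (wb * a)) 0 fun j hj => ?_]
  · rw [zero_mul, zero_add, ← Nat.and_two_pow_sub_one_eq_mod, ← Nat.one_shiftLeft]
    exact Nat.beq_refl _
  · have := beq_eq (allR_all h j (Nat.zero_le _) (by simpa using hj))
    refine (congrArg (·.testBit a) this).trans ?_
    have e := cmpr_bit (x := tt.get l >>> j) hw wb le_rfl 0 a (by simp) (by omega)
    rw [zero_mul, zero_add, zero_mul, zero_add] at e
    change (cmpr wb wb (tt.get l >>> j) wb &&& ones nS).testBit a = _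
    rw [Nat.testBit_and, e, testBit_ones, Nat.testBit_shiftRight, Nat.testBit_shiftRight, Nat.add_comm]
    simp [ha]

theorem tab_of_tabD {nets : NL} {N K nS wb mask : ℕ} {tt : TT} {lo n : ℕ}
    (h0 : mask = ones wb ∧ 0 < wb ∧ nS ≤ 2 ^ wb)
    (h : allR (tabD nets N K nS wb tt) lo n = true) :
    allR (tabB nets N K nS wb wb mask tt) lo n = true :=
  allR_of_all fun a ha => tabB_of_tabD h0 (allR_all h _ (by omega) (by omega))

end Cfsg.Agent.Lib.DCE
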