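import Mathlib
import Cfsg.Agent.Lib.PBlockMain
import Cfsg.Agent.Lib.CharClifford

/-!
Dimensions of fixed spaces of subgroups in complex representations, and sums over orbits of
`p`-groups modulo `p`.
-/

set_option autoImplicit false
set_option linter.unusedSectionVars false

namespace Cfsg.Agent.Lib.FixDim

open Cfsg Cfsg.Agent.Lib.CharBasic Cfsg.Agent.Lib.CharOrth Cfsg.Agent.Lib.CharInt
  Cfsg.Agent.Lib.PBlockVal Cfsg.Agent.Lib.PBlock Subgroup Module
open scoped ComplexConjugate Classical ComplexOrder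

universe u

section Orbits

variable {Γ : Type*} [LinearOrderedCommGroupWithZero Γ] {v : Valuation ℂ Γ} {p : ℕ}
  [hp : Fact p.Prime]

theorem val_sum_moved' (hv : v p < 1) {P : Type*} [Group P] [Finite P] (hP : IsPGroup p P)
    {Ω : Type*} (act : P → Ω → Ω) (h1 : ∀ x, act 1 x = x)
    (h2 : ∀ g h x, act (g * h) x = act g (act h x)) {F : Ω → ℂ} (s : Finset Ω)
    (hs : ∀ g, ∀ x ∈ s, act g x ∈ s) (hF : ∀ g, ∀ x ∈ s, F (act g x) = F x)
    (hF1 : ∀ x ∈ s, v (F x) ≤ 1) (h0 : ∀ x ∈ s, (∀ g, act g x = x) → v (F x) < 1) :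
    v (∑ x ∈ s, F x) < 1 := by
  let _ : MulAction P Ω := { smul := act, one_smul := h1, mul_smul := h2 }
  induction s using Finset.strongInduction with
  | H s ih =>
  rcases s.eq_empty_or_nonempty with rfl | ⟨x, hx⟩
  · simp
  have hfin : (MulAction.orbit P x).Finite := Set.finite_range _
  have hsub : hfin.toFinset ⊆ s := fun y hy => by
    obtain ⟨g, rfl⟩ := hfin.mem_toFinset.1 hy
    exact hs g x hx
  rw [← Finset.sum_sdiff hsub]
  refine v.map_add_lt (ih _ (Finset.sdiff_ssubset hsub ⟨x, by simp⟩) (fun g y hy => ?_)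
    (fun g y hy => hF g y (Finset.mem_sdiff.1 hy).1) (fun y hy => hF1 y (Finset.mem_sdiff.1 hy).1)
    fun y hy => h0 y (Finset.mem_sdiff.1 hy).1) ?_
  · rw [Finset.mem_sdiff, Set.Finite.mem_toFinset] at hy ⊢
    refine ⟨hs g y hy.1, fun h => hy.2 ?_⟩
    simpa using MulAction.mapsTo_smul_orbit g⁻¹ x (show g • y ∈ _ from h)
  rw [Finset.sum_congr rfl (g := fun _ => F x) fun y hy => by
    obtain ⟨g, rfl⟩ := hfin.mem_toFinset.1 hy
    exact hF g x hx, Finset.sum_const, nsmul_eq_mul]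
  have := hfin.to_subtype
  obtain ⟨k, hk⟩ := hP.card_orbit x
  rw [Nat.card_coe_set_eq, Set.ncard_eq_toFinset_card _ hfin] at hk
  rcases k with _ | k
  · refine val_mul_lt_right (val_nat_le _) (h0 x hx fun g => ?_)
    obtain ⟨y, hy⟩ := Finset.card_eq_one.1 hk
    have e1 : x ∈ hfin.toFinset := by simp
    have e2 : g • x ∈ hfin.toFinset := by simp
    rw [hy, Finset.mem_singleton] at e1 e2
    exact e2.trans e1.symm
  · rw [hk, pow_succ, Nat.cast_mul]
    exact val_mul_lt_left (val_mul_lt_right (val_nat_le _) hv) (hF1 x hx)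

variable {G : Type u} [Group G] [Fintype G]

theorem val_char {χ : G → ℂ} (hχ : IsCharacter G χ) (g : G) : v (χ g) ≤ 1 := by
  obtain ⟨s, -, h1, -, -, h2, -⟩ := exists_eigenvalues hχ g
  rw [h2]
  exact s.sum_induction (v · ≤ 1) (fun a b => v.map_add_le) (by simp) fun a ha =>
    ((pow_eq_one_iff_left (orderOf_pos g).ne').1 (by rw [← map_pow, h1 a ha, map_one])).le

/-- A function invariant under a `p`-group without fixed points on `X`. -/
theorem val_sum_sub (hv : v p < 1) {H X : Subgroup G} (hH : IsPGroup p H)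
    (hX : H ≤ normalizer (X : Set G)) (hC : X ⊓ centralizer (H : Set G) = ⊥) {F : G → ℂ}
    (hF : ∀ h ∈ H, ∀ x ∈ X, F (h * x * h⁻¹) = F x) (hF1 : ∀ x ∈ X, v (F x) ≤ 1) :
    v (∑ x : X, F x - F 1) < 1 := by
  rw [PBlockMain.sum_subgroup, ← Finset.add_sum_erase _ _ (show (1 : G) ∈ _ by simp),
    add_sub_cancel_left]
  refine val_sum_moved' hv hH (fun h x => h * x * (h : G)⁻¹) (by simp) (by simp [mul_assoc]) _
    (fun h x hx => ?_) (fun h x hx => hF h h.2 x (by simp_all)) (fun x hx => hF1 x (by simp_all))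
    fun x hx h => ?_
  · simp only [Finset.mem_erase, Finset.mem_filter, Finset.mem_univ, true_and] at hx ⊢
    exact ⟨by simpa using hx.1, (mem_normalizer_iff.1 (hX h.2) x).1 hx.2⟩
  · simp only [Finset.mem_erase, Finset.mem_filter, Finset.mem_univ, true_and] at hx
    exact absurd (mem_bot.1 (hC.le ⟨hx.2, fun g hg => mul_inv_eq_iff_eq_mul.1 (h ⟨g, hg⟩)⟩)) hx.1

theorem le_cker_of_sum_ne {χ : G → ℂ} (hχ : IsIrrCharacter G χ) {N : Subgroup G} [hN : N.Normal]
    (h : ∑ n : N, χ n ≠ 0) : N ≤ cker χ := by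
  let f : G → ℂ := fun g => if g ∈ N then 1 else 0
  have hf : IsClassFunction G f := fun g k => if_congr (hN.mem_comm_iff.trans (by simp)) rfl rfl
  have h1 : om χ f ≠ 0 := div_ne_zero (by
    rwa [PBlockMain.sum_subgroup, Finset.sum_filter, Finset.sum_congr rfl
      (g := fun g => f g * χ g) fun g _ => by simp [f]] at h) (irr_one_ne_zero hχ)
  intro n hn x
  refine mul_left_cancel₀ h1 ?_
  rw [← sum_mul_om (mem_irr.2 hχ) hf, ← sum_mul_om (mem_irr.2 hχ) hf]
  refine Fintype.sum_equiv (Equiv.mulRight n) _ _ fun g => ?_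
  simp [f, mul_mem_cancel_right hn, mul_assoc]

end Orbits

variable {G : Type u} [Group G] [Fintype G] {V : Type*} [AddCommGroup V] [Module ℂ V]
  [FiniteDimensional ℂ V] (ρ : Representation ℂ G V) {X Y : Subgroup G} {a : G}

/-- The fixed space of a subgroup. -/
def fixS (X : Subgroup G) : Submodule ℂ V where
  carrier := {w | ∀ x ∈ X, ρ x w = w}
  add_mem' ha hb x hx := by rw [map_add, ha x hx, hb x hx]
  zero_mem' _ _ := map_zero _
  smul_mem' c w h x hx := by rw [map_smul, h x hx]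

/-- The averaging operator of a subgroup. -/
noncomputable def avg (X : Subgroup G) : End ℂ V := (Nat.card X : ℂ)⁻¹ • ∑ x : X, ρ x

variable {ρ}

theorem mem_fixS {w : V} : w ∈ fixS ρ X ↔ ∀ x ∈ X, ρ x w = w := Iff.rfl

theorem fixS_anti (h : X ≤ Y) : fixS ρ Y ≤ fixS ρ X := fun _ hw x hx => hw x (h hx)

theorem fixS_sup (X Y : Subgroup G) : fixS ρ (X ⊔ Y) = fixS ρ X ⊓ fixS ρ Y := by
  refine le_antisymm (le_inf (fixS_anti le_sup_left) (fixS_anti le_sup_right)) fun w hw => ?_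
  let S : Subgroup G :=
    { carrier := {g | ρ g w = w}
      mul_mem' := fun {a b} ha hb => by
        simp only [Set.mem_setOf_eq, map_mul, End.mul_apply] at ha hb ⊢; rw [hb, ha]
      one_mem' := by simp
      inv_mem' := fun {a} ha => by
        simp only [Set.mem_setOf_eq] at ha ⊢
        rw [← ha, ← End.mul_apply, ← map_mul, inv_mul_cancel, map_one, End.one_apply, ha] }
  exact fun x hx => (sup_le (a := X) (b := Y) (c := S) hw.1 hw.2) hx

theorem mem_fixS_zpowers {w : V} : w ∈ fixS ρ (zpowers a) ↔ ρ a w = w := by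
  refine ⟨fun h => h a (mem_zpowers a), fun h x hx => ?_⟩
  obtain ⟨n, rfl⟩ := mem_powers_iff_mem_zpowers.2 hx
  induction n with
  | zero => simp
  | succ n ih => simp only [pow_succ, map_mul, End.mul_apply, h]; exact ih (pow_mem (mem_zpowers a) n)

theorem mul_avg (ha : a ∈ X) : ρ a * avg ρ X = avg ρ X := by
  rw [avg, mul_smul_comm, Finset.mul_sum]
  congr 1
  exact Fintype.sum_equiv (Equiv.mulLeft (⟨a, ha⟩ : X)) _ _ fun x => by simp

theorem avg_mul (ha : a ∈ X) : avg ρ X * ρ a = avg ρ X := by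
  rw [avg, smul_mul_assoc, Finset.sum_mul]
  congr 1
  exact Fintype.sum_equiv (Equiv.mulRight (⟨a, ha⟩ : X)) _ _ fun x => by simp

theorem avg_mul_avg (h : X ≤ Y) : avg ρ X * avg ρ Y = avg ρ Y := by
  rw [avg, smul_mul_assoc, Finset.sum_mul, Finset.sum_congr rfl fun x _ => mul_avg (h x.2),
    Finset.sum_const, Finset.card_univ, ← Nat.card_eq_fintype_card, ← Nat.cast_smul_eq_nsmul ℂ,
    inv_smul_smul₀ card_ne_zero]

theorem avg_mul_avg' (h : X ≤ Y) : avg ρ Y * avg ρ X = avg ρ Y := by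
  rw [avg.eq_1 ρ X, mul_smul_comm, Finset.mul_sum, Finset.sum_congr rfl fun x _ => avg_mul (h x.2),
    Finset.sum_const, Finset.card_univ, ← Nat.card_eq_fintype_card, ← Nat.cast_smul_eq_nsmul ℂ,
    inv_smul_smul₀ card_ne_zero]

theorem isProj_avg (X : Subgroup G) : LinearMap.IsProj (fixS ρ X) (avg ρ X) :=
  ⟨fun w x hx => by rw [← End.mul_apply, mul_avg hx], fun w hw => by
    rw [avg, LinearMap.smul_apply, LinearMap.sum_apply, Finset.sum_congr rfl fun (x : X) _ => hw x x.2,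
      Finset.sum_const, Finset.card_univ, ← Nat.card_eq_fintype_card, ← Nat.cast_smul_eq_nsmul ℂ,
      inv_smul_smul₀ card_ne_zero]⟩

theorem trace_mul_avg (a : G) (X : Subgroup G) : LinearMap.trace ℂ V (ρ a * avg ρ X) =
    (Nat.card X : ℂ)⁻¹ * ∑ x : X, ρ.character (a * x) := by
  simp [avg, Finset.mul_sum, Representation.character]

theorem sum_character (X : Subgroup G) :
    ∑ x : X, ρ.character x = Nat.card X * finrank ℂ (fixS ρ X) := by
  have := trace_mul_avg (ρ := ρ) 1 X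
  simp only [map_one, one_mul, (isProj_avg X).trace] at this
  rw [this, mul_inv_cancel_left₀ card_ne_zero]

theorem isProj_inv (ha : a ^ 2 = 1) {U : Submodule ℂ V} {E : End ℂ V} (hE : LinearMap.IsProj U E)
    (h : ρ a * E = E * ρ a) :
    LinearMap.IsProj (fixS ρ (zpowers a) ⊓ U) ((2 : ℂ)⁻¹ • (E + ρ a * E)) :=
  ⟨fun w => Submodule.smul_mem _ _ ⟨mem_fixS_zpowers.2 (by
      rw [← End.mul_apply, mul_add, ← mul_assoc, ← map_mul, ← sq, ha, map_one, one_mul, add_comm]),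
      by rw [h]; exact U.add_mem (hE.1 _) (hE.1 _)⟩, fun w hw => by
    rw [LinearMap.smul_apply, LinearMap.add_apply, End.mul_apply, hE.2 w hw.2,
      mem_fixS_zpowers.1 hw.1, ← two_smul ℂ, inv_smul_smul₀ two_ne_zero]⟩

theorem finrank_zpowers (ha : a ^ 2 = 1) :
    (2 * finrank ℂ (fixS ρ (zpowers a)) : ℂ) = finrank ℂ V + ρ.character a := by
  have := (isProj_inv (ρ := ρ) ha (E := 1) (U := ⊤) ⟨by simp, by simp⟩ (by simp)).trace
  rw [inf_top_eq] at this
  rw [← this]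
  simp [Representation.character, mul_add]

theorem one_step (ha : a ^ 2 = 1) {H O : Subgroup G} (haH : a ∈ H)
    (hO : O ≤ centralizer ({a} : Set G)) (hχ : ∀ w ∈ O, ρ.character (a * w) = ρ.character a) :
    finrank ℂ (fixS ρ H) + finrank ℂ (fixS ρ (zpowers a)) ≤
      finrank ℂ V + finrank ℂ (fixS ρ (H ⊔ O)) := by
  have h1 := (isProj_inv ha (isProj_avg (ρ := ρ) O) (by
    rw [avg, mul_smul_comm, smul_mul_assoc, Finset.mul_sum, Finset.sum_mul]
    exact congrArg _ (Finset.sum_congr rfl fun x _ => by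
      rw [← map_mul, ← map_mul, mem_centralizer_singleton_iff.1 (hO x.2)]))).trace
  rw [map_smul, map_add, trace_mul_avg, Finset.sum_congr rfl fun (x : O) _ => hχ x x.2, Finset.sum_const,
    Finset.card_univ, ← Nat.card_eq_fintype_card, nsmul_eq_mul, inv_mul_cancel_left₀ card_ne_zero,
    (isProj_avg O).trace, smul_eq_mul] at h1
  have h2 : 2 * finrank ℂ (fixS ρ (zpowers a)) + finrank ℂ (fixS ρ O) =
      finrank ℂ V + 2 * finrank ℂ ↥(fixS ρ (zpowers a) ⊓ fixS ρ O) := by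
    have := finrank_zpowers (ρ := ρ) ha
    refine Nat.cast_injective (R := ℂ) ?_
    push_cast
    linear_combination this + 2 * h1
  have h3 := Submodule.finrank_mono (inf_le_right : fixS ρ (zpowers a) ⊓ fixS ρ O ≤ _)
  have h4 := Submodule.finrank_sup_add_finrank_inf_eq (fixS ρ H) (fixS ρ (zpowers a) ⊓ fixS ρ O)
  have h5 := fixS_anti (ρ := ρ) (zpowers_le.2 haH)
  have h6 := Submodule.finrank_mono
    (sup_le h5 inf_le_left : fixS ρ H ⊔ fixS ρ (zpowers a) ⊓ fixS ρ O ≤ _)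
  rw [← inf_assoc, inf_of_le_left h5, ← fixS_sup H] at h4
  omega

theorem finrank_fix_top (h : ρ.IsIrreducible) (h1 : ρ.character ≠ 1) : finrank ℂ (fixS ρ ⊤) = 0 := by
  have := sum_character (ρ := ρ) ⊤
  rw [PBlockMain.sum_subgroup, Finset.filter_true_of_mem fun g _ => mem_top g,
    sum_irr_eq_zero (CharRep.isIrrCharacter_of_rep ρ h) h1, eq_comm,
    mul_eq_zero, or_iff_right card_ne_zero] at this
  exact_mod_cast this

/-- The bound for the prime `2`. -/
theorem bound_two {χ : G → ℂ} (hχ : IsIrrCharacter G χ) (h1 : χ ≠ 1) {H O₁ O₂ O₃ : Subgroup G}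
    {a b : G} (ha : a ^ 2 = 1) (hb : b ^ 2 = 1) (hab : Commute a b) (haH : a ∈ H) (hbH : b ∈ H)
    (hO₁ : O₁ ≤ centralizer ({a} : Set G)) (hO₂ : O₂ ≤ centralizer ({b} : Set G))
    (hO₃ : O₃ ≤ centralizer ({a * b} : Set G)) (h₁ : ∀ w ∈ O₁, χ (a * w) = χ a)
    (h₂ : ∀ w ∈ O₂, χ (b * w) = χ b) (h₃ : ∀ w ∈ O₃, χ (a * b * w) = χ (a * b))
    (hG : H ⊔ O₁ ⊔ O₂ ⊔ O₃ = ⊤) {m : ℕ} (hm : ∑ x : H, χ x = Nat.card H * m) :
    3 * m ≤ 2 * deg χ := by
  obtain ⟨n, ρ, hρ, rfl⟩ := hχ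
  obtain rfl : finrank ℂ (fixS ρ H) = m := by
    rw [sum_character] at hm
    exact_mod_cast mul_left_cancel₀ card_ne_zero hm
  have hc : (a * b) ^ 2 = 1 := by rw [hab.mul_pow, ha, hb, one_mul]
  have e1 := one_step ha haH hO₁ h₁
  have e2 := one_step hb hbH hO₂ h₂
  have e3 := one_step hc (mul_mem haH hbH) hO₃ h₃
  have e4 := (isProj_inv (ρ := ρ) ha (isProj_inv (ρ := ρ) hb (E := 1) (U := ⊤) ⟨by simp, by simp⟩ (by simp))
    (by simp [mul_add, add_mul, ← map_mul, hab.eq])).trace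
  have e5 : finrank ℂ (fixS ρ (zpowers a)) + finrank ℂ (fixS ρ (zpowers b)) +
      finrank ℂ (fixS ρ (zpowers (a * b))) = finrank ℂ (Fin n → ℂ) +
        2 * finrank ℂ ↥(fixS ρ (zpowers a) ⊓ (fixS ρ (zpowers b) ⊓ ⊤)) := by
    have k1 := finrank_zpowers (ρ := ρ) ha
    have k2 := finrank_zpowers (ρ := ρ) hb
    have k3 := finrank_zpowers (ρ := ρ) hc
    simp only [mul_one, mul_smul_comm, mul_add, map_smul, map_add, LinearMap.trace_one, ← map_mul,
      smul_eq_mul] at e4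
    simp only [Representation.character] at k1 k2 k3
    refine Nat.cast_injective (R := ℂ) ?_
    push_cast
    linear_combination (k1 + k2 + k3) / 2 + 2 * e4
  have e6 := Submodule.finrank_mono (le_inf (fixS_anti (ρ := ρ) (zpowers_le.2 haH))
    (le_inf (fixS_anti (zpowers_le.2 hbH)) le_top))
  have key : ∀ A B : Subgroup G, finrank ℂ (fixS ρ (H ⊔ A)) + finrank ℂ (fixS ρ (H ⊔ B)) ≤
      finrank ℂ (fixS ρ H) + finrank ℂ (fixS ρ (H ⊔ (A ⊔ B))) := fun A B => by
    rw [sup_sup_distrib_left, fixS_sup (H ⊔ A), ← Submodule.finrank_sup_add_finrank_inf_eq]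
    exact Nat.add_le_add_right (Submodule.finrank_mono
      (sup_le (fixS_anti le_sup_left) (fixS_anti le_sup_left))) _
  have e7 := key O₁ O₂
  have e8 := key (O₁ ⊔ O₂) O₃
  rw [show H ⊔ (O₁ ⊔ O₂ ⊔ O₃) = ⊤ by simpa only [← sup_assoc] using hG, finrank_fix_top hρ h1] at e8
  rw [deg_eq_of_eq ρ.char_one]
  omega

/-- `B` is the adjoint of `A`. -/
def Adj (ρ : Representation ℂ G V) (A B : End ℂ V) : Prop :=
  ∃ (ι : Type u) (_ : Fintype ι) (c : ι → ℂ) (g : ι → G),
    A = ∑ i, c i • ρ (g i) ∧ B = ∑ i, conj (c i) • ρ (g i)⁻¹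

theorem adj_avg (X : Subgroup G) : Adj ρ (avg ρ X) (avg ρ X) :=
  ⟨X, inferInstance, fun _ => (Nat.card X : ℂ)⁻¹, Subtype.val, by rw [avg, Finset.smul_sum], by
    rw [avg, Finset.smul_sum]
    exact Fintype.sum_equiv (Equiv.inv X) _ _ fun x => by simp⟩

theorem Adj.sub {A B A' B' : End ℂ V} (h : Adj ρ A B) (h' : Adj ρ A' B') :
    Adj ρ (A - A') (B - B') := by
  obtain ⟨ι, _, c, g, rfl, rfl⟩ := h
  obtain ⟨κ, _, c', g', rfl, rfl⟩ := h'
  exact ⟨ι ⊕ κ, inferInstance, Sum.elim c (-c'), Sum.elim g g', by simp [sub_eq_add_neg],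
    by simp [sub_eq_add_neg]⟩

theorem Adj.mul {A B A' B' : End ℂ V} (h : Adj ρ A B) (h' : Adj ρ A' B') :
    Adj ρ (A * A') (B' * B) := by
  obtain ⟨ι, _, c, g, rfl, rfl⟩ := h
  obtain ⟨κ, _, c', g', rfl, rfl⟩ := h'
  refine ⟨ι × κ, inferInstance, fun i => c i.1 * c' i.2, fun i => g i.1 * g' i.2, ?_, ?_⟩
  · simp [Finset.sum_mul_sum, Fintype.sum_prod_type, smul_smul, mul_comm]
  · rw [Finset.sum_mul_sum, Fintype.sum_prod_type, Finset.sum_comm]
    simp [smul_smul, mul_comm]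

theorem Adj.pos (hρ : ρ.IsIrreducible) {A B : End ℂ V} (h : Adj ρ A B) :
    0 ≤ LinearMap.trace ℂ V (B * A) := by
  obtain ⟨ι, _, c, g, rfl, rfl⟩ := h
  have hχ := CharRep.isIrrCharacter_of_rep ρ hρ
  have h1 : (0 : ℂ) < Nat.card G / ρ.character 1 := by
    obtain ⟨n, hn, e⟩ := irr_one_pos hχ
    rw [e]
    exact div_pos (Nat.cast_pos.2 Nat.card_pos) (Nat.cast_pos.2 hn)
  refine le_of_mul_le_mul_left (mul_zero _ |>.le.trans <| le_of_le_of_eq (Finset.sum_nonneg (s := Finset.univ)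
    fun k _ => star_mul_self_nonneg (∑ i, c i * ρ.character (k * g i))) ?_) h1
  simp only [Finset.sum_mul, star_sum, map_sum, Finset.mul_sum, smul_mul_smul_comm, map_smul,
    ← map_mul]
  rw [Finset.sum_comm]
  refine Finset.sum_congr rfl fun i _ => ?_
  rw [Finset.sum_comm]
  refine Finset.sum_congr rfl fun j _ => ?_
  have := sum_irr_mul_conj hχ hχ ((g j)⁻¹ * g i)
  rw [cinner_irr_self hχ, mul_one, ← Equiv.sum_comp (Equiv.mulRight (g j))] at this
  rw [smul_eq_mul, mul_left_comm, ← Representation.character, ← this, Finset.mul_sum]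
  exact Finset.sum_congr rfl fun k _ => by simp [mul_assoc, mul_comm, mul_left_comm]

theorem le_trace (hρ : ρ.IsIrreducible) (X Y : Subgroup G) :
    (finrank ℂ (fixS ρ (X ⊔ Y)) : ℂ) ≤ LinearMap.trace ℂ V (avg ρ X * avg ρ Y) := by
  have := (((adj_avg Y).mul (adj_avg X)).sub (adj_avg (X ⊔ Y))).pos hρ
  rwa [sub_mul, mul_sub, mul_sub, mul_assoc, mul_assoc, ← mul_assoc (avg ρ Y), avg_mul_avg le_rfl,
    avg_mul_avg le_sup_right, avg_mul_avg le_sup_left, ← mul_assoc (avg ρ (X ⊔ Y)),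
    avg_mul_avg' le_sup_right, avg_mul_avg' le_sup_left, avg_mul_avg le_rfl, sub_self, sub_zero,
    map_sub, (isProj_avg _).trace, sub_nonneg, ← mul_assoc, LinearMap.trace_mul_comm, ← mul_assoc,
    avg_mul_avg le_rfl] at this

theorem sum_sum_conj {χ : G → ℂ} (hχ : IsIrrCharacter G χ) (H : Subgroup G) :
    ∑ g, ∑ y : H, ∑ x : H, χ (g * y * g⁻¹ * x) = Nat.card G * (∑ x : H, χ x) ^ 2 / χ 1 := by
  rw [Finset.sum_comm, sq, Finset.sum_mul_sum, Finset.mul_sum, Finset.sum_div]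
  refine Finset.sum_congr rfl fun y _ => ?_
  rw [Finset.sum_comm, Finset.mul_sum, Finset.sum_div]
  exact Finset.sum_congr rfl fun x _ => by rw [CharSchur.sum_char_conj_mul hχ, mul_assoc]

open PCoreConj in
theorem trace_avg_conj (H : Subgroup G) (g : G) :
    (Nat.card H : ℂ) ^ 2 * LinearMap.trace ℂ V (avg ρ (H ^ᶜ g) * avg ρ H) =
      ∑ y : H, ∑ x : H, ρ.character (g * y * g⁻¹ * x) := by
  rw [avg, avg, card_conj, smul_mul_smul_comm, map_smul, smul_eq_mul, ← mul_inv, ← sq,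
    mul_inv_cancel_left₀ (pow_ne_zero _ card_ne_zero), Finset.sum_mul_sum,
    ← Equiv.sum_comp (conjEquiv H g).toEquiv]
  simp only [map_sum, ← map_mul]
  rfl

variable {p : ℕ} [hp : Fact p.Prime]

open CharClifford in
theorem three_le (hp2 : p ≠ 2) {H Y : Subgroup G} [hY : Y.Normal] (hH : IsPGroup p H)
    (hab : IsMulCommutative H) (hsup : Y ⊔ H = ⊤) (hc : (Nat.card Y).Coprime p)
    (hC : Y ⊓ centralizer (H : Set G) = ⊥) {φ : G → ℂ} (hφ : IsCharacter G φ) :
    3 * ((Nat.card H : ℂ)⁻¹ * ∑ x : H, φ x) + (Nat.card Y : ℂ)⁻¹ * ∑ x : Y, φ x ≤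
      φ 1 + 3 * ((Nat.card (⊤ : Subgroup G) : ℂ)⁻¹ * ∑ x : (⊤ : Subgroup G), φ x) := by
  refine char_induction (P := fun φ : G → ℂ => 3 * ((Nat.card H : ℂ)⁻¹ * ∑ x : H, φ x) +
    (Nat.card Y : ℂ)⁻¹ * ∑ x : Y, φ x ≤ φ 1 + 3 * ((Nat.card (⊤ : Subgroup G) : ℂ)⁻¹ *
      ∑ x : (⊤ : Subgroup G), φ x)) (by simp) (fun ψ hψ => ?_) (fun a b _ _ ha hb => ?_) hφ
  swap
  · simp only [Pi.add_apply, Finset.sum_add_distrib]
    linear_combination ha + hb
  obtain ⟨n, ρ, hρ, rfl⟩ := id hψ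
  simp only [sum_character, inv_mul_cancel_left₀ card_ne_zero, ρ.char_one]
  norm_cast
  by_cases h : Y ≤ cker ρ.character
  · have e : fixS ρ Y = ⊤ := eq_top_iff.2 fun w _ y hy => by simp [(mem_cker_rep ρ).1 (h hy)]
    rw [← hsup, fixS_sup, e, top_inf_eq, finrank_top]
    omega
  have h1 : ∑ y : Y, ρ.character y = 0 := by_contra fun e => h (le_cker_of_sum_ne hψ e)
  have h2 : finrank ℂ (fixS ρ Y) = 0 := by
    rw [sum_character, mul_eq_zero, or_iff_right card_ne_zero] at h1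
    exact_mod_cast h1
  let E := ofNormal Y
  obtain ⟨θ, hθ, h3⟩ := E.exists_constituent hψ
  have h4 : θ ≠ fun _ => 1 := by
    rintro rfl
    exact h3 (by rw [cinner_one_right]; exact mul_eq_zero_of_right _ h1)
  have h5 : ¬ H ≤ E.inertia θ := fun e => by
    obtain ⟨R, hv⟩ := exists_val p
    have := val_sum_sub hv hH le_normalizer_of_normal hC
      (F := fun g => if h : g ∈ Y then θ ⟨g, h⟩ else 0) (fun a ha x hx => by
        rw [dif_pos hx, dif_pos (hY.conj_mem x hx a)]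
        exact e ha ⟨x, hx⟩) fun x hx => by
        rw [dif_pos hx]
        exact val_char (irr_isChar hθ) _
    simp only [SetLike.coe_mem, dite_true, one_mem, Subtype.coe_eta] at this
    rw [sum_irr_eq_zero hθ h4, zero_sub, Valuation.map_neg, show (⟨1, one_mem Y⟩ : Y) = 1 from rfl,
      ← deg_cast (irr_isChar hθ), val_nat_eq hv fun e => hp.out.coprime_iff_not_dvd.1 hc.symm
        (e.trans (deg_dvd_card hθ))] at this
    exact this.false
  have hYT : Y ≤ E.inertia θ := fun y hy => E.i_mem_inertia (irr_classFun hθ) ⟨y, hy⟩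
  have hT : (E.inertia θ).Normal := ⟨fun t ht g => by
    refine (mul_mem_cancel_right (inv_mem ht)).1 (hYT ((QuotientGroup.eq_one_iff _).1 ?_))
    obtain ⟨y, hy, a, ha, rfl⟩ := mem_sup_of_normal_left.1 (hsup.ge (mem_top g))
    obtain ⟨z, hz, b, hb, rfl⟩ := mem_sup_of_normal_left.1 (hsup.ge (mem_top t))
    simp only [QuotientGroup.mk_mul, QuotientGroup.mk_inv, (QuotientGroup.eq_one_iff _).2 hy,
      (QuotientGroup.eq_one_iff _).2 hz, one_mul]
    rw [← QuotientGroup.mk_mul, PCoreResidual.isMulCommutative_iff_forall.1 hab a ha b hb]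
    simp⟩
  obtain ⟨ψ', -, h6, -⟩ := E.exists_ind_of_inertia hθ _ rfl (fun y => hYT y.2) hψ h3
  have h7 : ‖∑ x : H, ρ.character x‖ ≤ Nat.card ((E.inertia θ).subgroupOf H) * finrank ℂ (Fin n → ℂ) := by
    rw [← Finset.sum_filter_of_ne (p := (· ∈ (E.inertia θ).subgroupOf H)) fun x _ hx => by
      by_contra e
      exact hx (h6 ▸ (ofNormal (E.inertia θ)).ind_eq_zero_of_not_mem ψ'
        (by rwa [ofNormal_range])), Nat.card_eq_fintype_card, Fintype.card_subtype, ← nsmul_eq_mul]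
    exact norm_sum_le_of_le _ (fun x _ => (char_norm_le (irr_isChar hψ) _).trans
      (by rw [deg_eq_of_eq ρ.char_one])) |>.trans (Finset.sum_const _).le
  rw [sum_character, ← Nat.cast_mul, Complex.norm_natCast, ← Nat.cast_mul, Nat.cast_le,
    ← ((E.inertia θ).subgroupOf H).card_mul_index, mul_assoc, Nat.mul_le_mul_left_iff Nat.card_pos] at h7
  obtain ⟨k, hk⟩ := hH.index ((E.inertia θ).subgroupOf H)
  have h8 : 3 ≤ ((E.inertia θ).subgroupOf H).index := by
    rcases k with _ | k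
    · exact absurd (subgroupOf_eq_top.1 (index_eq_one.1 hk)) h5
    · have := hp.out.two_le
      exact hk ▸ (show 3 ≤ p by omega).trans (Nat.le_self_pow k.succ_ne_zero p)
  have := Nat.mul_le_mul_right (finrank ℂ (fixS ρ H)) h8
  omega

theorem sum_subgroupOf {H L : Subgroup G} (h : H ≤ L) (f : G → ℂ) :
    ∑ x : H.subgroupOf L, f x = ∑ x : H, f x :=
  Fintype.sum_equiv (subgroupOfEquivOfLe h).toEquiv _ _ fun _ => rfl

open PCoreConj in
/-- The bound for odd primes. -/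
theorem bound_odd (hp2 : p ≠ 2) {χ : G → ℂ} (hχ : IsIrrCharacter G χ) {H : Subgroup G}
    (hH : IsPGroup p H) (hab : IsMulCommutative H) (h1 : ¬ H ≤ cker χ)
    (hY : ∀ g, ∃ Y : Subgroup G, H ⊔ H ^ᶜ g ≤ normalizer (Y : Set G) ∧ Y ⊔ H = H ⊔ H ^ᶜ g ∧
      (Nat.card Y).Coprime p ∧ Y ⊓ centralizer (H : Set G) = ⊥)
    {m : ℕ} (hm : ∑ x : H, χ x = Nat.card H * m) : 2 * m ≤ deg χ := by
  obtain ⟨n, ρ, hρ, rfl⟩ := id hχ
  obtain rfl : finrank ℂ (fixS ρ H) = m := by
    rw [sum_character] at hm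
    exact_mod_cast mul_left_cancel₀ card_ne_zero hm
  have h2 : finrank ℂ (fixS ρ H) < finrank ℂ (Fin n → ℂ) := Submodule.finrank_lt fun e =>
    h1 fun x hx => (mem_cker_rep ρ).2 (LinearMap.ext fun w => e.ge Submodule.mem_top x hx)
  have h3 : ∀ g, (3 * finrank ℂ (fixS ρ H) - finrank ℂ (Fin n → ℂ) : ℂ) ≤
      2 * LinearMap.trace ℂ _ (avg ρ (H ^ᶜ g) * avg ρ H) := fun g => by
    obtain ⟨Y, k1, k2, k3, k4⟩ := hY g
    have k5 := le_trace hρ (H ^ᶜ g) H
    rw [sup_comm] at k5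
    generalize H ⊔ H ^ᶜ g = L at *
    have hYL : Y ≤ L := k2 ▸ le_sup_left
    have hHL : H ≤ L := k2 ▸ le_sup_right
    have := (normal_subgroupOf_iff_le_normalizer hYL).2 k1
    have k6 := three_le hp2 (H := H.subgroupOf L) (Y := Y.subgroupOf L) (PCore.isPGroup_subgroupOf hH L)
      inferInstance (by rw [← subgroupOf_sup hYL hHL, k2, subgroupOf_self])
      (by rwa [SolvBasic.card_subgroupOf hYL]) (eq_bot_iff.2 fun x hx => Subtype.ext
        (k4.le ⟨hx.1, fun a ha => congrArg Subtype.val (hx.2 ⟨a, hHL ha⟩ ha)⟩))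
      (isChar_res (irr_isChar hχ) L)
    rw [sum_subgroupOf hHL, sum_subgroupOf hYL, ← subgroupOf_self, sum_subgroupOf le_rfl,
      SolvBasic.card_subgroupOf hHL, SolvBasic.card_subgroupOf hYL,
      SolvBasic.card_subgroupOf le_rfl] at k6
    simp only [sum_character, inv_mul_cancel_left₀ card_ne_zero, OneMemClass.coe_one,
      ρ.char_one] at k6
    have k7 : (finrank ℂ (fixS ρ L) : ℂ) ≤ finrank ℂ (fixS ρ Y) :=
      Nat.cast_le.2 (Submodule.finrank_mono (fixS_anti hYL))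
    linear_combination k6 + k7 + 2 * k5
  have h4 := Finset.sum_le_sum fun g (_ : g ∈ Finset.univ) => h3 g
  have h5 := sum_sum_conj hχ H
  simp only [← trace_avg_conj] at h5
  rw [← Finset.mul_sum, hm, mul_pow, mul_left_comm, mul_div_assoc,
    mul_right_inj' (pow_ne_zero _ card_ne_zero), ρ.char_one] at h5
  rw [← Finset.mul_sum, h5, Finset.sum_const, Finset.card_univ, ← Nat.card_eq_fintype_card,
    nsmul_eq_mul, mul_div_assoc, mul_left_comm,
    mul_le_mul_iff_right₀ (Nat.cast_pos.2 Nat.card_pos), ← mul_div_assoc,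
    le_div_iff₀ (Nat.cast_pos.2 (by omega))] at h4
  have h6 : (3 * finrank ℂ (fixS ρ H) - finrank ℂ (Fin n → ℂ) : ℤ) * finrank ℂ (Fin n → ℂ) ≤
    2 * finrank ℂ (fixS ρ H) ^ 2 := by exact_mod_cast h4
  rw [deg_eq_of_eq ρ.char_one]
  nlinarith

end Cfsg.Agent.Lib.FixDim
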