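import Mathlib
import Cfsg.Prelude.Def_SubgroupEmbedding
import Cfsg.Agent.Lib.FixDim
import Cfsg.Agent.Lib.ZStar2
import Cfsg.Agent.Lib.LocFour

/-!
Extremely closed abelian `p`-subgroups: group theoretic reductions and the principal block identity.
-/

set_option autoImplicit false
set_option linter.unusedSectionVars false

namespace Cfsg.Agent.Lib.ExtClosed

open Cfsg Cfsg.Agent.Lib.CharBasic Cfsg.Agent.Lib.CharOrth Cfsg.Agent.Lib.CharInt
  Cfsg.Agent.Lib.PBlockVal Cfsg.Agent.Lib.PBlock Cfsg.Agent.Lib.PBlockMain Subgroup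
  Cfsg.Agent.Lib.PCore Cfsg.Agent.Lib.PCoreResidual Cfsg.Agent.Lib.PCoreConj
  Cfsg.Agent.Lib.TransferFrobenius Cfsg.Agent.Lib.FixDim
open scoped ComplexConjugate Classical

universe u

variable {G : Type u} [Group G] [Finite G] {p : ℕ} [hp : Fact p.Prime] {H Y L : Subgroup G} {g : G}

/-- An extremely closed abelian `p`-subgroup. -/
structure Hyp (p : ℕ) (H : Subgroup G) : Prop where
  pg : IsPGroup p H
  ab : IsMulCommutative H
  ec : ∀ g : G, (H ⊔ H ^ᶜ g) ⊓ normalizer (H : Set G) = H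

/-- `Y` is a normal `p`-complement of `L` on which the Sylow subgroup `H` has no fixed points. -/
structure Cpl (p : ℕ) (H L Y : Subgroup G) : Prop where
  norm : L ≤ normalizer (Y : Set G)
  sup : Y ⊔ H = L
  cop : (Nat.card Y).Coprime p
  fpf : Y ⊓ centralizer (H : Set G) = ⊥

theorem Cpl.le (c : Cpl p H L Y) : Y ≤ L := c.sup ▸ le_sup_left

theorem Cpl.le' (c : Cpl p H L Y) : H ≤ L := c.sup ▸ le_sup_right

theorem Cpl.exists_mul (c : Cpl p H L Y) {x : G} (hx : x ∈ L) : ∃ y ∈ Y, ∃ a ∈ H, y * a = x :=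
  (SolvBasic.mem_sup_iff_of_le_normalizer' (c.le'.trans c.norm)).1 (c.sup.ge hx)

theorem Hyp.le_cent (h : Hyp p H) : H ≤ centralizer (H : Set G) :=
  le_centralizer_iff_isMulCommutative.2 h.ab

theorem Hyp.comm (h : Hyp p H) {a b : G} (ha : a ∈ H) (hb : b ∈ H) : Commute a b :=
  h.le_cent hb a ha

theorem Hyp.pow (h : Hyp p H) {a : G} (ha : a ∈ H) : ∃ k, a ^ p ^ k = 1 :=
  isPGroup_iff_forall_mem.1 h.pg a ha

theorem Hyp.sylow (h : Hyp p H) (g : G) : IsSylowIn p H (H ⊔ H ^ᶜ g) :=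
  IsSylowIn.of_inf_normalizer (by rw [h.ec]; exact isSylowIn_self h.pg)

theorem Hyp.exists_cpl (h : Hyp p H) (g : G) :
    ∃ Y, Cpl p H (H ⊔ H ^ᶜ g) Y ∧ ∃ l ∈ Y, l⁻¹ * g ∈ normalizer (H : Set G) := by
  have hS := h.sylow g
  obtain ⟨N, hN, h1, -, h2, -⟩ := exists_complement (burnside hS.toSylow fun x hx y hy => by
    rw [hS.coe_toSylow, ← subgroupOf_normalizer_eq hS.le] at hx
    exact Subtype.ext (h.comm hy ((h.ec g).le ⟨x.2, hx⟩)))
  have c : Cpl p H (H ⊔ H ^ᶜ g) (N.map (Subgroup.subtype _)) := by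
    have h3 : (Nat.card (N.map (Subgroup.subtype _))).Coprime p := by
      rw [SolvBasic.card_map_subtype]; exact (hp.out.coprime_iff_not_dvd.2 h1).symm
    refine ⟨?_, ?_, h3, eq_bot_iff.2 fun x hx => (inf_eq_bot_of_isPGroup_of_coprime h.pg h3).le
      ⟨(h.ec g).le ⟨map_subtype_le _ hx.1, centralizer_le_normalizer _ hx.2⟩, hx.1⟩⟩
    · exact (normal_subgroupOf_iff_le_normalizer (map_subtype_le _)).1
        (by rwa [map_subtype_subgroupOf])
    · conv_lhs => enter [2]; rw [← hS.map_toSylow]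
      rw [← Subgroup.map_sup, (h2 _).sup_eq_top, ← MonoidHom.range_eq_map, range_subtype]
  obtain ⟨k, hk, e⟩ := hS.exists_conj_eq (hS.of_card_le le_sup_right (isPGroup_conj h.pg g)
    (card_conj H g).ge)
  obtain ⟨l, hl, a, ha, rfl⟩ := c.exists_mul hk
  refine ⟨_, c, l, hl, mem_normalizer_iff_conj_eq.2 ?_⟩
  rw [← conj_conj, ← e, conj_conj, inv_mul_cancel_left, conj_eq_of_mem ha]

theorem Hyp.subgroupOf (h : Hyp p H) {M : Subgroup G} (hM : H ≤ M) : Hyp p (H.subgroupOf M) := by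
  have := h.ab
  refine ⟨isPGroup_subgroupOf h.pg M, inferInstance, fun g => le_antisymm (fun x hx => ?_)
    (le_inf le_sup_left le_normalizer)⟩
  rw [← subgroupOf_normalizer_eq hM] at hx
  refine (h.ec g).le ⟨?_, hx.2⟩
  have := mem_map_of_mem M.subtype hx.1
  rwa [Subgroup.map_sup, map_conj, subgroupOf_map_subtype_of_le hM] at this

theorem Hyp.map (h : Hyp p H) {G' : Type*} [Group G'] {f : G →* G'} (hf : Function.Surjective f) :
    Hyp p (H.map f) := by
  have := h.ab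
  refine ⟨h.pg.map f, inferInstance, fun g => le_antisymm (fun x hx => ?_)
    (le_inf le_sup_left le_normalizer)⟩
  obtain ⟨g, rfl⟩ := hf g
  obtain ⟨Y, c, -⟩ := h.exists_cpl g
  rw [← map_conj, ← Subgroup.map_sup] at hx
  obtain ⟨⟨x, hx, rfl⟩, hx'⟩ := hx
  obtain ⟨y, hy, a, ha, rfl⟩ := c.exists_mul hx
  rw [map_mul] at hx' ⊢
  have h1 := (mul_mem_cancel_right (le_normalizer (mem_map_of_mem f ha))).1 hx'
  have h2 := CoprimeBasic.map_inf_centralizer f (c.le'.trans c.norm) (coprime_card_of_isPGroup h.pg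
    (coprime_card_of_le inf_le_left c.cop)) (Or.inl (CoprimeBasic.solvable_of_isPGroup h.pg))
  rw [c.fpf, Subgroup.map_bot] at h2
  have := Finite.of_surjective f hf
  rw [mem_bot.1 (h2.ge ⟨mem_map_of_mem f hy, fun b hb => ?_⟩), one_mul]
  · exact mem_map_of_mem f ha
  refine (mul_inv_eq_iff_eq_mul.1 (mul_inv_eq_one.1 (mem_bot.1 ((inf_eq_bot_of_isPGroup_of_coprime
    (h.pg.map f) (coprime_card_map f c.cop)).le
    (mem_inf.2 ⟨mul_mem ((mem_normalizer_iff.1 h1 b).1 hb) (inv_mem hb), ?_⟩))))).symm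
  obtain ⟨b, hb, rfl⟩ := hb
  exact ⟨y * (b * y⁻¹ * b⁻¹), mul_mem hy ((mem_normalizer_iff.1 (c.norm (c.le' hb)) _).1 (inv_mem hy)),
    by simp [mul_assoc]⟩

theorem Hyp.le_normalizer (h : Hyp p H) {P : Subgroup G} (hP : IsPGroup p P) (hHP : H ≤ P) :
    P ≤ normalizer (H : Set G) := fun g hg => mem_normalizer_of_conj_le (le_sup_right.trans
  ((h.sylow g).eq_of_isPGroup (hP.to_le (sup_le hHP (conj_le_of_mem hHP hg)))).ge)

theorem Hyp.isIsolated (h : Hyp p H) {u : G} (hu : u ∈ H) (h1 : ∀ x ∈ H, IsConj u x → x = u) :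
    IsIsolated u := fun g hg => by
  obtain ⟨S, hS, hHS⟩ := exists_isSylowIn_ge (H := Cn u)
    (fun x hx => mem_centralizer_singleton_iff.2 (h.comm hx hu)) h.pg
  obtain ⟨k, hk⟩ := h.pow hu
  obtain ⟨c, hc, hc'⟩ := hS.exists_conj_mem (k := k) (mem_centralizer_singleton_iff.2 hg.symm)
    (by rw [conj_pow, hk]; simp)
  have e : c * (g * u * g⁻¹) * c⁻¹ = c * g * u * (c * g)⁻¹ := by group
  have := h1 _ ((h.ec (c * g)).le ⟨mem_sup_right (e ▸ conj_mem_conj _ hu),
    h.le_normalizer hS.isPGroup hHS hc'⟩) (isConj_iff.2 ⟨c * g, e.symm⟩)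
  rwa [mul_inv_eq_iff_eq_mul, ← mem_centralizer_singleton_iff.1 hc, mul_right_inj] at this

theorem Cpl.comm_mem (c : Cpl p H L Y) (h : Hyp p H) {a b : G} (ha : a ∈ L) (hb : b ∈ L) :
    a * b * a⁻¹ * b⁻¹ ∈ Y := by
  obtain ⟨y, hy, a, ha', rfl⟩ := c.exists_mul ha
  obtain ⟨z, hz, b, hb', rfl⟩ := c.exists_mul hb
  have k : ∀ x ∈ L, ∀ y ∈ Y, x * y * x⁻¹ ∈ Y := fun x hx y hy =>
    (mem_normalizer_iff.1 (c.norm hx) y).1 hy
  have := mul_mem (mul_mem hy (k a (c.le' ha') z hz))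
    (mul_mem (k b (c.le' hb') _ (inv_mem hy)) (inv_mem hz))
  convert this using 1
  simp only [mul_inv_rev, mul_assoc, mul_right_inj]
  rw [← mul_assoc a⁻¹ b, ← (h.comm hb' ha').inv_right.eq, mul_assoc]

theorem Cpl.mem_of_coprime (c : Cpl p H L Y) (h : Hyp p H) {x : G} (hx : x ∈ L)
    (ho : (orderOf x).Coprime p) : x ∈ Y := by
  obtain ⟨k, hk⟩ := exists_pow_mem_pResidualOf (p := p) hx
  exact mem_of_pow_mem_of_coprime (ho.pow_right k)
    (pResidualOf_sup_le h.pg (c.le'.trans c.norm) (c.sup ▸ hk))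

theorem Cpl.exists_conj (c : Cpl p H L Y) (h : Hyp p H) (hS : IsSylowIn p H L) {x y l : G}
    (hx : x ∈ H) (hy : y ∈ H) (hl : l ∈ Y) :
    ∃ w ∈ Y, Commute (x * y) w ∧ IsConj (x * y * w) (l * y * l⁻¹ * x) := by
  let _ := Fintype.ofFinite G
  have hz : x * (l * y * l⁻¹) ∈ L :=
    mul_mem (c.le' hx) (mul_mem (mul_mem (c.le hl) (c.le' hy)) (inv_mem (c.le hl)))
  obtain ⟨v, w, hc, ⟨n, hn⟩, hw, e, hv', hw'⟩ := exists_decomp p (x * (l * y * l⁻¹))
  have hv := zpowers_le.2 hz hv'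
  have hwY := c.mem_of_coprime h (zpowers_le.2 hz hw') hw
  obtain ⟨k, hk, hk'⟩ := hS.exists_conj_mem hv hn
  have e1 : k * v * k⁻¹ = x * y := by
    refine mul_inv_eq_one.1 (mem_bot.1 ((inf_eq_bot_of_isPGroup_of_coprime h.pg c.cop).le
      (mem_inf.2 ⟨mul_mem hk' (inv_mem (mul_mem hx hy)), ?_⟩)))
    have := mul_mem (c.comm_mem h hk hv) (mul_mem ((mem_normalizer_iff.1 (c.norm hz) _).1
      (inv_mem hwY)) ((mem_normalizer_iff.1 (c.norm (c.le' hx)) _).1
        (c.comm_mem h (c.le hl) (c.le' hy))))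
    convert this using 1
    rw [show v = x * (l * y * l⁻¹) * w⁻¹ by rw [e, mul_inv_cancel_right]]
    group
  refine ⟨k * w * k⁻¹, (mem_normalizer_iff.1 (c.norm hk) _).1 hwY, ?_,
    isConj_iff.2 ⟨x⁻¹ * k⁻¹, ?_⟩⟩
  · rw [← e1, Commute, SemiconjBy, conj_mul, conj_mul, hc.eq]
  · rw [← e1, conj_mul, ← e]
    group

theorem le_core (h : Hyp p H) (hG : normalizer (H : Set G) ⊔ pPrimeCore p G = ⊤)
    (hY : H ≤ normalizer (Y : Set G)) (hc : (Nat.card Y).Coprime p)
    (hC : Y ⊓ centralizer (H : Set G) = ⊥) : Y ≤ pPrimeCore p G := fun y hy => by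
  have := SolvBasic.normal_of_sup_eq_top (L := pPrimeCore p G ⊔ H) (CoprimeBasic.le_normalizer_sup
    le_normalizer_of_normal le_rfl) (le_sup_left.trans le_normalizer) hG
  have h1 := CoprimeBasic.commutator_sup_centralizer hY (coprime_card_of_isPGroup h.pg hc)
    (Or.inl (CoprimeBasic.solvable_of_isPGroup h.pg))
  rw [hC, sup_bot_eq] at h1
  exact pResidualOf_sup_le h.pg le_normalizer_of_normal (mem_pResidualOf
    (((commutator_mono le_rfl le_sup_right).trans (commutator_le_right _ _)) (h1.ge hy))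
    (orderOf_coprime_of_mem hy hc))

/-- The statement proved by induction. -/
def Concl (p : ℕ) (G : Type u) [Group G] : Prop :=
  ∀ H : Subgroup G, Hyp p H → normalizer (H : Set G) ⊔ pPrimeCore p G = ⊤

theorem Cpl.mem_core (c : Cpl p H L Y) (h : Hyp p H) {u : G} (hu : u ∈ H) (ih : Concl p (Cn u))
    {w : Cn u} (hw : (w : G) ∈ Y) : w ∈ pPrimeCore p (Cn u) := by
  have hH : H ≤ Cn u := fun x hx => mem_centralizer_singleton_iff.2 (h.comm hx hu)
  exact le_core (Y := Y.subgroupOf _) (h.subgroupOf hH) (ih _ (h.subgroupOf hH))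
    ((comap_mono (c.le'.trans c.norm)).trans (le_normalizer_comap _))
    (by rw [SolvBasic.card_subgroupOf']; exact coprime_card_of_le inf_le_left c.cop)
    (eq_bot_iff.2 fun x hx => Subtype.ext
      (c.fpf.le ⟨hx.1, fun a ha => congrArg Subtype.val (hx.2 ⟨a, hH ha⟩ ha)⟩)) hw

theorem Hyp.eq_top (h : Hyp p H) {K : Subgroup G} (hK : ∀ g, H ⊔ H ^ᶜ g ≤ K) :
    normalizer (H : Set G) ⊔ K = ⊤ := eq_top_iff.2 fun g _ => by
  obtain ⟨Y, c, l, hl, hg⟩ := h.exists_cpl g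
  rw [← mul_inv_cancel_left l g]
  exact mul_mem (mem_sup_right (hK g (c.le hl))) (mem_sup_left hg)

theorem reduce (hfin : ∀ (G : Type u) [Group G] [Finite G] (H : Subgroup G), Hyp p H → H ≠ ⊥ →
    normalClosure (H : Set G) = ⊤ → pPrimeCore p G = ⊥ → H ⊓ center G = ⊥ →
      (∀ u ∈ H, u ≠ 1 → Concl p (Cn u)) → False) (G : Type u) [Group G] [Finite G] :
    Concl p G := by
  refine SolvBasic.card_induction (P := fun G _ _ => Concl p G) (fun G _ _ ih H h => ?_) G
  have hq : ∀ (N : Subgroup G) [N.Normal], N ≠ ⊥ →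
      (normalizer (H.map (QuotientGroup.mk' N) : Set (G ⧸ N))).comap (QuotientGroup.mk' N) ⊔
        (pPrimeCore p (G ⧸ N)).comap (QuotientGroup.mk' N) = ⊤ := fun N _ hN => by
    rw [comap_sup_eq _ _ _ (QuotientGroup.mk'_surjective N),
      ih _ (SolvBasic.card_quotient_lt hN) _ (h.map (QuotientGroup.mk'_surjective N)), comap_top]
  by_cases h1 : normalClosure (H : Set G) = ⊤
  swap
  · have hK : H ≤ normalClosure (H : Set G) := le_normalClosure
    have := congrArg (Subgroup.map (Subgroup.subtype _))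
      (ih _ (SolvBasic.card_lt_of_ne_top h1) _ (h.subgroupOf hK))
    rw [Subgroup.map_sup, ← MonoidHom.range_eq_map, range_subtype, ← subgroupOf_normalizer_eq hK]
      at this
    refine eq_top_iff.2 ((h.eq_top fun g => sup_le hK (conj_le_of_normal hK g)).ge.trans
      (sup_le le_sup_left (this.ge.trans (sup_le_sup ?_ (le_pPrimeCore inferInstance
        (coprime_card_map _ (coprime_card_pPrimeCore p _)))))))
    exact (subgroupOf_map_subtype _ _).le.trans inf_le_left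
  by_cases h2 : pPrimeCore p G = ⊥
  swap
  · have := hq _ h2
    rw [pPrimeCore_quotient_pPrimeCore, MonoidHom.comap_bot, QuotientGroup.ker_mk',
      comap_normalizer_eq_of_surjective _ (QuotientGroup.mk'_surjective _),
      SolvBasic.comap_map_mk] at this
    have := SolvBasic.normal_of_sup_eq_top le_rfl (le_sup_right.trans le_normalizer) this
    refine eq_top_iff.2 ((h.eq_top (K := H ⊔ pPrimeCore p G) fun g => sup_le le_sup_left
      (conj_le_of_normal le_sup_left g)).ge.trans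
      (sup_le le_sup_left (sup_le_sup_right le_normalizer _)))
  by_cases h3 : H ⊓ center G = ⊥
  swap
  · have := ZStar2.normal_of_le_center (inf_le_right : H ⊓ center G ≤ _)
    have := hq _ h3
    rw [comap_normalizer_eq_of_surjective _ (QuotientGroup.mk'_surjective _),
      SolvBasic.comap_map_mk, sup_inf_self] at this
    exact eq_top_iff.2 (this.ge.trans (sup_le le_sup_left ((ZStar2.comap_le h2 inf_le_right).trans
      (inf_le_left.trans (le_normalizer.trans le_sup_left)))))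
  by_cases h4 : H = ⊥
  · rw [h4, normalizer_eq_top, top_sup_eq]
  exact (hfin G H h h4 h1 h2 h3 fun u hu hu1 => ih _ (SolvBasic.card_lt_of_ne_top fun e =>
    hu1 (mem_bot.1 (h3.le ⟨hu, mem_center_iff.2 fun g =>
      mem_centralizer_singleton_iff.1 (e.ge (mem_top g))⟩)))).elim

theorem real_ineq {ι : Type*} {B : Finset ι} {o : ι} (ho : o ∈ B) {d m : ι → ℝ} {h ρ : ℝ}
    (h1 : d o = 1) (h2 : m o = 1) (hd : ∀ i ∈ B, 0 < d i) (hm : ∀ i ∈ B, i ≠ o → m i ≤ ρ * d i)
    (hh : 1 < h) (hρ : 1 ≤ ρ * h) (e1 : ∑ i ∈ B, d i * (h * m i - d i) = 0)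
    (e2 : ∑ i ∈ B, (m i ^ 2 / d i - m i) * (h * m i - d i) = 0) :
    ((1 - ρ) * h - 1) * ∑ i ∈ B, (h * m i - d i) ^ 2 < (h - 1) ^ 2 * h * (1 - ρ) := by
  obtain ⟨j, hj, hj'⟩ : ∃ j ∈ B, h * m j - d j < 0 := by
    by_contra! e
    have := Finset.single_le_sum (f := fun i => d i * (h * m i - d i))
      (fun i hi => mul_nonneg (hd i hi).le (e i hi)) ho
    simp only [e1, h1, h2] at this
    linarith
  have e3 : 0 < ∑ i ∈ B.erase o, (h * m i - d i) ^ 2 * (ρ - m i / d i) := Finset.sum_pos'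
    (fun i hi => mul_nonneg (sq_nonneg _) (sub_nonneg.2 ((div_le_iff₀
      (hd i (Finset.mem_of_mem_erase hi))).2 (hm i (Finset.mem_of_mem_erase hi)
        (Finset.ne_of_mem_erase hi)))))
    ⟨j, Finset.mem_erase.2 ⟨fun e => by rw [e, h1, h2] at hj'; linarith, hj⟩,
      mul_pos (sq_pos_of_neg hj') (sub_pos.2 ((div_lt_iff₀ (hd j hj)).2 (by
        have := hd j hj
        nlinarith [mul_le_mul_of_nonneg_right hρ this.le])))⟩
  have e4 : h * ∑ i ∈ B, (h * m i - d i) ^ 2 * (ρ - m i / d i) =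
      (ρ * h - h + 1) * ∑ i ∈ B, (h * m i - d i) ^ 2 := by
    rw [← add_zero (h * _), ← mul_zero (h ^ 2), ← e2, ← add_zero (_ + _), ← mul_zero (h - 1), ← e1]
    simp only [Finset.mul_sum, ← Finset.sum_add_distrib]
    exact Finset.sum_congr rfl fun i hi => by have := (hd i hi).ne'; field_simp; ring
  rw [← Finset.add_sum_erase _ _ ho, h1, h2] at e4
  nlinarith [mul_pos (by linarith : 0 < h) e3]

section Block

variable [Fintype G] {Γ : Type*} [LinearOrderedCommGroupWithZero Γ] {v : Valuation ℂ Γ} {u : G}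

/-- Products of columns of the principal block. -/
noncomputable def F (v : Valuation ℂ Γ) (u g : G) : ℂ := ∑ χ ∈ B0 v G, χ g * conj (χ u)

theorem F_conj {g g' : G} (h : IsConj g g') : F v u g = F v u g' :=
  Finset.sum_congr rfl fun _ hχ => by rw [classFun_isConj (irr_classFun (irr_of_mem hχ)) h]

theorem F_reg (hv : v p < 1) (hu : ∃ k, u ^ p ^ k = 1) (h1 : u ≠ 1) {w : G}
    (hw : (orderOf w).Coprime p) : F v u w = 0 := by
  simpa [F] using orth hv (Commute.one_left w) (Commute.one_right u) ⟨0, by simp⟩ hu hw (by simp)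
    (by simpa using h1.symm)

theorem F_sum (hv : v p < 1) (h : Hyp p H) (ih : ∀ u ∈ H, u ≠ 1 → Concl p (Cn u))
    (hu : ∃ k, u ^ p ^ k = 1) (h1 : u ≠ 1) (g : G) (x : H) :
    ∑ y : H, F v u (g * y * g⁻¹ * x) = ∑ y : H, F v u y := by
  obtain ⟨Y, c, l, hl, hg⟩ := h.exists_cpl g
  refine Fintype.sum_equiv ((H.normalizerMonoidHom ⟨_, hg⟩).toEquiv.trans (Equiv.mulLeft x)) _ _
    fun y => ?_
  obtain ⟨w, hw, hc, e⟩ := c.exists_conj h (h.sylow g) x.2 ((mem_normalizer_iff.1 hg _).1 y.2) hl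
  rw [show g * y * g⁻¹ = l * (l⁻¹ * g * y * (l⁻¹ * g)⁻¹) * l⁻¹ by group, ← F_conj e]
  have hz := mul_mem x.2 ((mem_normalizer_iff.1 hg _).1 y.2)
  change _ = F v u (x * (l⁻¹ * g * y * (l⁻¹ * g)⁻¹))
  generalize x * (l⁻¹ * g * y * (l⁻¹ * g)⁻¹) = z at *
  by_cases e : z = 1
  · rw [e, one_mul, F_reg hv hu h1 (orderOf_coprime_of_mem hw c.cop), F_reg hv hu h1 (by simp)]
  · exact Finset.sum_congr rfl fun χ hχ => by
      rw [apply_mul_eq' hv hχ (h.pow hz) (c.mem_core h hz (ih z hz e)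
        (w := ⟨w, mem_centralizer_singleton_iff.2 hc.symm⟩) hw)]

theorem identity (hv : v p < 1) (h : Hyp p H) (ih : ∀ u ∈ H, u ≠ 1 → Concl p (Cn u))
    (hu : ∃ k, u ^ p ^ k = 1) (h1 : u ≠ 1) :
    ∑ χ ∈ B0 v G, ((∑ x : H, χ x) ^ 2 / χ 1 - Nat.card H * ∑ x : H, χ x) * conj (χ u) = 0 := by
  have e1 : ∑ g : G, ∑ y : H, ∑ x : H, F v u (g * y * g⁻¹ * x) =
      Nat.card G * (Nat.card H * ∑ y : H, F v u y) := by
    rw [Finset.sum_congr rfl fun g _ => by
      rw [Finset.sum_comm, Finset.sum_congr rfl fun x _ => F_sum hv h ih hu h1 g x]]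
    simp
  simp only [F] at e1
  rw [Finset.sum_congr rfl fun g _ => by
    rw [Finset.sum_congr rfl fun y _ => Finset.sum_comm, Finset.sum_comm], Finset.sum_comm,
    Finset.sum_comm (s := Finset.univ), Finset.mul_sum, Finset.mul_sum, ← sub_eq_zero,
    ← Finset.sum_sub_distrib] at e1
  refine mul_left_cancel₀ (card_ne_zero (G := G)) ?_
  rw [mul_zero, ← e1, Finset.mul_sum]
  refine Finset.sum_congr rfl fun χ hχ => ?_
  simp only [← Finset.sum_mul, sum_sum_conj (irr_of_mem hχ)]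
  ring

theorem exists_mult {χ : G → ℂ} (hχ : IsCharacter G χ) (X : Subgroup G) :
    ∃ m : ℕ, ∑ x : X, χ x = Nat.card X * m := by
  obtain ⟨n, ρ, rfl⟩ := hχ
  exact ⟨_, sum_character X⟩

/-- The nonidentity elements of a subgroup. -/
noncomputable def nz (H : Subgroup G) : Finset G := (Finset.univ.filter (· ∈ H)).erase 1

theorem mem_nz : u ∈ nz H ↔ u ≠ 1 ∧ u ∈ H := by simp [nz]

theorem sum_nz (f : G → ℂ) : ∑ u ∈ nz H, f u = ∑ x : H, f x - f 1 := by
  rw [sum_subgroup, ← Finset.add_sum_erase (Finset.univ.filter _) _ (show (1 : G) ∈ _ by simp),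
    add_sub_cancel_left, nz]

theorem card_nz : (nz H).card + 1 = Nat.card H := by
  rw [nz, Finset.card_erase_add_one (by simp), Nat.card_eq_fintype_card, Fintype.card_subtype]

theorem dim_B0 (hv : v p < 1) {R : Subgroup G} (hR : IsPGroup p R) :
    ∃ n : ℕ, Nat.card R ≤ n ∧ ∑ χ ∈ B0 v G, χ 1 * χ 1 = n := by
  choose! m hm using fun χ hχ => exists_mult (χ := χ) hχ R
  have h1 : ∑ u ∈ nz R, conj (F v u 1) = 0 := Finset.sum_eq_zero fun u hu => by
    rw [F_reg hv (isPGroup_iff_forall_mem.1 hR u (mem_nz.1 hu).2) (mem_nz.1 hu).1 (by simp), map_zero]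
  simp only [F, map_sum, map_mul, Complex.conj_conj] at h1
  rw [Finset.sum_comm, Finset.sum_congr rfl (g := fun χ => Nat.card R * (deg χ * m χ : ℕ) - χ 1 * χ 1)
    fun χ hχ => by
      have := irr_isChar (irr_of_mem hχ)
      rw [← Finset.mul_sum, sum_nz, hm χ this, conj_char_one this, Nat.cast_mul, deg_cast this]
      ring, Finset.sum_sub_distrib, sub_eq_zero, ← Finset.mul_sum] at h1
  refine ⟨Nat.card R * ∑ χ ∈ B0 v G, deg χ * m χ, Nat.le_mul_of_pos_right _ (lt_of_lt_of_le ?_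
    (Finset.single_le_sum (f := fun χ => deg χ * m χ) (fun _ _ => Nat.zero_le _) one_mem_B0)),
    by rw [← h1]; simp⟩
  refine Nat.mul_pos (char_deg_pos isChar_one' one_ne_zero) (Nat.pos_of_ne_zero fun e => ?_)
  simpa [e] using hm 1 isChar_one'

theorem exists_W (hv : v p < 1) (hu : ∃ k, u ^ p ^ k = 1) {R : Subgroup G} (hR : IsPGroup p R)
    (hRu : R ≤ Cn u) : ∃ n : ℕ, Nat.card R ≤ n ∧ F v u u = n := by
  obtain ⟨n, h1, h2⟩ := dim_B0 hv (isPGroup_subgroupOf hR (Cn u))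
  refine ⟨n, SolvBasic.card_subgroupOf hRu ▸ h1, ?_⟩
  have h3 : F v u u = ∑ c : (Cn u), e0 v (Cn u) c * ∑ χ ∈ irr G, χ (u * c) * conj (χ u) := by
    simp only [F, Finset.mul_sum, ← mul_assoc]
    rw [Finset.sum_comm]
    trans ∑ χ ∈ irr G, ind v G χ * χ u * conj (χ u)
    · rw [← Finset.sum_subset (B0_subset (v := v)) fun χ _ h => by simp [ind, h]]
      exact Finset.sum_congr rfl fun χ h => by simp [ind, h]
    · refine Finset.sum_congr rfl fun χ hχ => ?_
      rw [← Finset.sum_mul]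
      simpa using congrArg (· * conj (χ u)) (second hv hu (Commute.one_right u) (by simp) hχ).symm
  rw [h3, Finset.sum_eq_single 1 (fun c _ hc => ?_) (by simp)]
  · rw [OneMemClass.coe_one, mul_one, second_orth_self, e0_apply, ← Finset.sum_div, inv_one, h2,
      div_mul_cancel₀ _ card_ne_zero]
  by_cases hc' : (orderOf c).Coprime p
  · rw [second_orth_of_not_isConj, mul_zero]
    intro e
    obtain ⟨k, hk⟩ := hu
    obtain ⟨g, hg⟩ := isConj_iff.1 e.symm
    have h3 : (u * c) ^ p ^ k = 1 := by rw [← hg, conj_pow, hk]; simp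
    rw [(Commute.symm (mem_centralizer_singleton_iff.1 c.2)).mul_pow, hk, one_mul] at h3
    exact hc (eq_one_of_coprime_of_pow_eq_one hc' (Subtype.ext h3))
  · rw [e0_eq_zero hv hc', zero_mul]

theorem main_ineq (hv : v p < 1) (h : Hyp p H) (ih : ∀ u ∈ H, u ≠ 1 → Concl p (Cn u)) (hH : H ≠ ⊥)
    {ρ : ℝ} (hρ : 1 ≤ ρ * Nat.card H) (hm : ∀ χ ∈ B0 v G, χ ≠ 1 → ∀ m : ℕ,
      ∑ x : H, χ x = Nat.card H * m → m ≤ ρ * deg χ) {R : Subgroup G} (hR : IsPGroup p R)
    (hRH : R ≤ centralizer (H : Set G)) (hρ' : 1 ≤ (1 - ρ) * Nat.card H) :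
    ((1 - ρ) * Nat.card H - 1) * (Nat.card R * ∑ u ∈ nz H, ((nz H).filter (IsConj u)).card : ℕ) <
      (Nat.card H - 1) ^ 2 * Nat.card H * (1 - ρ) := by
  choose! m hm' using fun χ hχ => exists_mult (χ := χ) hχ H
  have e0 : ∀ χ ∈ B0 v G, ∑ u ∈ nz H, χ u = ((Nat.card H * m χ - deg χ : ℝ) : ℂ) := fun χ hχ => by
    rw [sum_nz, hm' χ (irr_isChar (irr_of_mem hχ)), ← deg_cast (irr_isChar (irr_of_mem hχ))]
    simp
  have e0' : ∀ χ ∈ B0 v G, ∑ u ∈ nz H, conj (χ u) = ((Nat.card H * m χ - deg χ : ℝ) : ℂ) :=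
    fun χ hχ => by rw [← map_sum, e0 χ hχ, Complex.conj_ofReal]
  have e1 : ∀ f : (G → ℂ) → ℝ, (∀ u ∈ nz H, ∑ χ ∈ B0 v G, f χ * conj (χ u) = 0) →
      ∑ χ ∈ B0 v G, f χ * (Nat.card H * m χ - deg χ) = 0 := fun f hf => by
    have := Finset.sum_eq_zero hf
    rw [Finset.sum_comm, Finset.sum_congr rfl fun χ hχ => by rw [← Finset.mul_sum, e0' χ hχ]] at this
    exact_mod_cast this
  refine lt_of_le_of_lt (mul_le_mul_of_nonneg_left ?_ (by linarith)) (real_ineq one_mem_B0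
    (d := fun χ => deg χ) (m := fun χ => m χ) (by simp [deg]) ?_
    (fun χ hχ => Nat.cast_pos.2 (char_deg_pos (irr_isChar (irr_of_mem hχ))
      (irr_ne_zero (irr_of_mem hχ)))) (fun χ hχ e => hm χ hχ e _ (hm' χ (irr_isChar (irr_of_mem hχ))))
    (by exact_mod_cast (one_lt_card_iff_ne_bot _).2 hH) hρ (e1 _ fun u hu => ?_)
    (e1 _ fun u hu => ?_))
  · have e2 : ((∑ χ ∈ B0 v G, (Nat.card H * m χ - deg χ) ^ 2 : ℝ) : ℂ) =
        ∑ u ∈ nz H, ((nz H).filter (IsConj u)).card * F v u u := by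
      rw [Complex.ofReal_sum, Finset.sum_congr rfl (g := fun χ => ∑ u ∈ nz H, ∑ w ∈ nz H,
        χ w * conj (χ u)) fun χ hχ => by
          rw [Complex.ofReal_pow, sq, Finset.sum_comm, ← Finset.sum_mul_sum, e0 χ hχ, e0' χ hχ],
        Finset.sum_comm]
      refine Finset.sum_congr rfl fun u hu => ?_
      rw [Finset.sum_comm, ← nsmul_eq_mul, ← Finset.sum_const, Finset.sum_filter]
      refine Finset.sum_congr rfl fun w hw => ?_
      split_ifs with e
      · exact (F_conj e).symm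
      · simpa using orth hv (Commute.one_right w) (Commute.one_right u) (h.pow (mem_nz.1 hw).2)
          (h.pow (mem_nz.1 hu).2) (by simp) (by simp) fun e' => e e'.symm
    choose! W hW hW' using fun u (hu : u ∈ nz H) => exists_W hv (h.pow (mem_nz.1 hu).2) hR
      fun x hx => mem_centralizer_singleton_iff.2 (hRH hx u (mem_nz.1 hu).2).symm
    have e3 : (∑ χ ∈ B0 v G, (Nat.card H * m χ - deg χ) ^ 2 : ℝ) =
        (∑ u ∈ nz H, ((nz H).filter (IsConj u)).card * W u : ℕ) := Complex.ofReal_injective (by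
      rw [e2, Complex.ofReal_natCast, Nat.cast_sum]
      exact Finset.sum_congr rfl fun u hu => by rw [hW' u hu, Nat.cast_mul])
    rw [e3, Nat.cast_le, Finset.mul_sum]
    exact Finset.sum_le_sum fun u hu => by rw [mul_comm]; exact Nat.mul_le_mul_left _ (hW u hu)
  · have := hm' 1 isChar_one'
    simp only [Pi.one_apply, Finset.sum_const, Finset.card_univ, ← Nat.card_eq_fintype_card,
      nsmul_eq_mul] at this
    exact_mod_cast (mul_left_cancel₀ card_ne_zero this).symm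
  · rw [← F_reg hv (h.pow (mem_nz.1 hu).2) (mem_nz.1 hu).1 (w := 1) (by simp)]
    exact Finset.sum_congr rfl fun χ hχ => by
      rw [← deg_cast (irr_isChar (irr_of_mem hχ)), Complex.ofReal_natCast]
  · refine mul_left_cancel₀ (pow_ne_zero 2 (card_ne_zero (G := H))) ?_
    rw [mul_zero, ← identity hv h ih (h.pow (mem_nz.1 hu).2) (mem_nz.1 hu).1, Finset.mul_sum]
    refine Finset.sum_congr rfl fun χ hχ => ?_
    rw [hm' χ (irr_isChar (irr_of_mem hχ)), ← deg_cast (irr_isChar (irr_of_mem hχ))]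
    push_cast
    ring

end Block

theorem self_mem_filter {u : G} [Fintype G] (hu : u ∈ nz H) : u ∈ (nz H).filter (IsConj u) :=
  Finset.mem_filter.2 ⟨hu, IsConj.refl u⟩

theorem two_le_filter {u w : G} [Fintype G] (hu : u ∈ nz H) (hw : w ∈ H) (h : IsConj u w)
    (h' : w ≠ u) : 2 ≤ ((nz H).filter (IsConj u)).card :=
  Finset.one_lt_card.2 ⟨u, self_mem_filter hu, w, Finset.mem_filter.2 ⟨mem_nz.2 ⟨fun e =>
    (mem_nz.1 hu).1 (isConj_one_left.1 (e ▸ h)), hw⟩, h⟩, h'.symm⟩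

theorem not_le_cker [Fintype G] (h1 : normalClosure (H : Set G) = ⊤) {χ : G → ℂ}
    (hχ : IsIrrCharacter G χ) (h : χ ≠ 1) : ¬ H ≤ cker χ := fun e => by
  have := cker_normal (irr_classFun hχ)
  exact h (irr_eq_one_of_cker_top hχ fun g => normalClosure_le_normal e (h1.ge (mem_top g)))

theorem concl_two (G : Type u) [Group G] [Finite G] : Concl 2 G := by
  refine reduce (fun G _ _ H h hH h1 h2 h3 ih => ?_) G
  let _ := Fintype.ofFinite G
  obtain ⟨R, hv⟩ := exists_val 2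
  have h4 : ∀ u ∈ nz H, ∃ w ∈ H, IsConj u w ∧ w ≠ u := fun u hu => by
    by_contra! e
    obtain ⟨k, hk⟩ := h.pow (mem_nz.1 hu).2
    exact (mem_nz.1 hu).1 (mem_bot.1 (h3.le ⟨(mem_nz.1 hu).2, mem_center_iff.2 fun g => by
      simpa [h2, mul_inv_eq_iff_eq_mul] using
        ZStar2.zstar' k G u hk (h.isIsolated (mem_nz.1 hu).2 e) g⟩))
  obtain ⟨n, hn⟩ := h.pg.exists_card_eq
  obtain ⟨⟨a, haH⟩, ha⟩ := exists_prime_orderOf_dvd_card' (G := H) 2 (hn ▸ dvd_pow_self 2 (by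
    rintro rfl; exact hH (card_eq_one.1 hn)))
  rw [Subgroup.orderOf_mk] at ha
  have ha1 : a ≠ 1 := fun e => by simp [e] at ha
  have ha2 : a ^ 2 = 1 := ha ▸ pow_orderOf_eq_one a
  obtain ⟨b, hbH, hab, hba⟩ := h4 a (mem_nz.2 ⟨ha1, haH⟩)
  have hb1 : b ≠ 1 := fun e => ha1 (isConj_one_left.1 (e ▸ hab))
  have hb2 : b ^ 2 = 1 := isConj_one_right.1 (ha2 ▸ hab.pow 2)
  have hc := h.comm haH hbH
  have hc1 : a * b ≠ 1 := fun e => hba (by
    rw [eq_inv_of_mul_eq_one_right e, inv_eq_of_mul_eq_one_right (sq a ▸ ha2)])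
  have hsub : ({a, b, a * b} : Finset G) ⊆ nz H := by
    simp [Finset.insert_subset_iff, mem_nz, ha1, hb1, hc1, haH, hbH, mul_mem]
  have hcard : ({a, b, a * b} : Finset G).card = 3 := Finset.card_eq_three.2
    ⟨a, b, a * b, hba.symm, by simpa using hb1, by simpa using ha1, rfl⟩
  have h5 := Finset.card_le_card hsub
  have h6 := card_nz (H := H)
  have h7 : (4 : ℝ) ≤ Nat.card H := by exact_mod_cast (by omega : 4 ≤ Nat.card H)
  have key := main_ineq hv h ih hH (ρ := 2 / 3) (by linarith) (fun χ hχ hχ1 m hm => ?_) h.pg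
    h.le_cent (by linarith)
  · have h8 : ∀ u ∈ nz H, 2 ≤ ((nz H).filter (IsConj u)).card := fun u hu => by
      obtain ⟨w, k1, k2, k3⟩ := h4 u hu
      exact two_le_filter hu k1 k2 k3
    rcases (by omega : (nz H).card = 3 ∨ 4 ≤ (nz H).card) with e | e
    · have e1 := Finset.eq_of_subset_of_card_le hsub (by omega)
      have e2 : IsConj a (a * b) := by
        obtain ⟨w, k1, k2, k3⟩ := h4 (a * b) (hsub (by simp))
        have := e1.ge (mem_nz.2 ⟨fun e => hc1 (isConj_one_left.1 (e ▸ k2)), k1⟩)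
        simp only [Finset.mem_insert, Finset.mem_singleton, k3, or_false] at this
        rcases this with rfl | rfl
        exacts [k2.symm, hab.trans k2.symm]
      have e3 : ∀ u ∈ nz H, IsConj a u := by
        simp only [← e1, Finset.forall_mem_insert, Finset.mem_singleton, forall_eq]
        exact ⟨IsConj.refl a, hab, e2⟩
      rw [Finset.sum_congr rfl fun u hu => by
        rw [Finset.filter_true_of_mem fun w hw => (e3 u hu).symm.trans (e3 w hw)], Finset.sum_const,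
        ← h6, e] at key
      norm_num at key
    · have e1 := Finset.card_nsmul_le_sum _ _ _ h8
      rw [← h6, Nat.cast_mul] at key
      have e2 : ((nz H).card * 2 : ℝ) ≤ (∑ u ∈ nz H, ((nz H).filter (IsConj u)).card : ℕ) := by
        exact_mod_cast e1
      have e3 : (4 : ℝ) ≤ (nz H).card := by exact_mod_cast e
      generalize ((∑ u ∈ nz H, ((nz H).filter (IsConj u)).card : ℕ) : ℝ) = K at *
      generalize ((nz H).card) = N at *
      push_cast at key
      nlinarith [mul_le_mul_of_nonneg_left e2 (by nlinarith : (0 : ℝ) ≤ (N - 2) * (N + 1)),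
        mul_nonneg (by nlinarith : (0 : ℝ) ≤ N * (N + 1)) (by linarith : (0 : ℝ) ≤ N - 4)]
  let O : G → Subgroup G := fun u => (pPrimeCore 2 (Cn u)).map (Cn u).subtype
  have k1 : ∀ u ∈ H, ∀ w ∈ O u, χ (u * w) = χ u := by
    rintro u hu _ ⟨w, hw, rfl⟩
    exact apply_mul_eq' hv hχ (h.pow hu) hw
  have := bound_two (irr_of_mem hχ) hχ1 ha2 hb2 hc haH hbH (map_subtype_le _) (map_subtype_le _)
    (map_subtype_le _) (k1 a haH) (k1 b hbH) (k1 _ (mul_mem haH hbH)) ?_ hm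
  · have : (3 * m : ℝ) ≤ 2 * deg χ := by exact_mod_cast this
    linarith
  refine eq_top_iff.2 (h1.ge.trans ((closure_le _).2 fun x hx => ?_))
  obtain ⟨x, hx', e⟩ := Group.mem_conjugatesOfSet_iff.1 hx
  obtain ⟨g, rfl⟩ := isConj_iff.1 e
  obtain ⟨Y, c, -⟩ := h.exists_cpl g
  have hA : zpowers a ⊔ zpowers b ≤ H := sup_le (zpowers_le.2 haH) (zpowers_le.2 hbH)
  refine (c.sup.ge.trans (sup_le ?_ (le_sup_left.trans (le_sup_left.trans le_sup_left))))
    (mem_sup_right (conj_mem_conj g hx'))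
  refine CoprimeSylow.le_of_centralizer_elt_le (isMulCommutative_of_le h.ab hA) (fun e => ?_)
    (hA.trans (c.le'.trans c.norm)) (coprime_card_of_isPGroup (h.pg.to_le hA) c.cop)
    fun u hu hu1 w hw => ?_
  · obtain ⟨k, hk⟩ := QuatClass.unique_of_isCyclic (⟨a, mem_sup_left (mem_zpowers a)⟩ :
      ↥(zpowers a ⊔ zpowers b)) ⟨b, mem_sup_right (mem_zpowers b)⟩ (by simpa using ha)
      (Subtype.ext hb2)
    exact (LocFour.eq_one_or_eq_of_mem_zpowers ha2 ⟨k, congrArg Subtype.val hk⟩).elim hb1 hba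
  have k2 : w ∈ O u := ⟨⟨w, hw.2⟩, c.mem_core h (hA hu) (ih u (hA hu) hu1) hw.1, rfl⟩
  obtain ⟨y, hy, z, hz, rfl⟩ := (SolvBasic.mem_sup_iff_of_le_normalizer ((zpowers_le.2 haH).trans
    (h.le_cent.trans ((centralizer_le (zpowers_le.2 hbH)).trans
      (centralizer_le_normalizer _))))).1 hu
  rcases LocFour.eq_one_or_eq_of_mem_zpowers ha2 hy with rfl | rfl <;>
    rcases LocFour.eq_one_or_eq_of_mem_zpowers hb2 hz with rfl | rfl
  · simp at hu1
  · exact mem_sup_left (mem_sup_right (by rwa [one_mul] at k2))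
  · exact mem_sup_left (mem_sup_left (mem_sup_right (by rwa [mul_one] at k2)))
  · exact mem_sup_right k2

theorem concl_odd (hp2 : p ≠ 2) (G : Type u) [Group G] [Finite G] : Concl p G := by
  refine reduce (fun G _ _ H h hH h1 h2 h3 ih => ?_) G
  let _ := Fintype.ofFinite G
  obtain ⟨R, hv⟩ := exists_val p
  have hp3 : 3 ≤ p := by have := hp.out.two_le; omega
  have h5 : ∀ {S : Subgroup G}, IsPGroup p S → H < S → 3 * Nat.card H ≤ Nat.card S :=
    fun {S} hS e => by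
    obtain ⟨_ | n, hn⟩ := hS.index (H.subgroupOf S)
    · exact absurd (subgroupOf_eq_top.1 (index_eq_one.1 hn)) e.not_ge
    · rw [← SolvBasic.card_mul_relIndex e.le, mul_comm, relIndex, hn]
      exact Nat.mul_le_mul_left _ (hp3.trans (Nat.le_self_pow n.succ_ne_zero p))
  have h6 := card_nz (H := H)
  have h7 : 3 ≤ Nat.card H := by
    obtain ⟨_ | n, hn⟩ := h.pg.exists_card_eq
    · exact absurd (card_eq_one.1 hn) hH
    · exact hn ▸ hp3.trans (Nat.le_self_pow n.succ_ne_zero p)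
  have h8 : (3 : ℝ) ≤ Nat.card H := by exact_mod_cast h7
  have key : ∀ {S : Subgroup G}, IsPGroup p S → S ≤ centralizer (H : Set G) →
      ¬ Nat.card H * (Nat.card H + 1) ≤
        Nat.card S * ∑ u ∈ nz H, ((nz H).filter (IsConj u)).card := fun hS hSH e => by
    have := main_ineq hv h ih hH (ρ := 1 / 2) (by linarith) (fun χ hχ hχ1 m hm => ?_) hS hSH
      (by linarith)
    · have e1 := (Nat.cast_le (α := ℝ)).2 e
      generalize ((_ * ∑ u ∈ nz H, ((nz H).filter (IsConj u)).card : ℕ) : ℝ) = K at *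
      push_cast at e1
      nlinarith [mul_le_mul_of_nonneg_left e1 (by linarith : (0 : ℝ) ≤ Nat.card H - 2),
        mul_nonneg (by linarith : (0 : ℝ) ≤ Nat.card H) (by linarith : (0 : ℝ) ≤ Nat.card H - 3)]
    have := bound_odd hp2 (irr_of_mem hχ) h.pg h.ab (not_le_cker h1 (irr_of_mem hχ) hχ1) (fun g => by
      obtain ⟨Y, c, -⟩ := h.exists_cpl g
      exact ⟨Y, c.norm, c.sup, c.cop, c.fpf⟩) hm
    have : (2 * m : ℝ) ≤ deg χ := by exact_mod_cast this
    linarith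
  have h9 : ∀ u ∈ nz H, 1 ≤ ((nz H).filter (IsConj u)).card := fun u hu =>
    Finset.card_pos.2 ⟨u, self_mem_filter hu⟩
  by_cases e : ∃ u ∈ nz H, ∃ w ∈ H, IsConj u w ∧ w ≠ u
  · obtain ⟨u, hu, w, hw, e1, e2⟩ := e
    have hw' : w ∈ (nz H).erase u := Finset.mem_erase.2 ⟨e2, mem_nz.2 ⟨fun e =>
      (mem_nz.1 hu).1 (isConj_one_left.1 (e ▸ e1)), hw⟩⟩
    refine key h.pg h.le_cent (Nat.mul_le_mul_left _ ?_)
    have k1 := two_le_filter hu hw e1 e2
    have k2 := two_le_filter (Finset.mem_of_mem_erase hw') (mem_nz.1 hu).2 e1.symm e2.symm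
    have k3 := Finset.card_nsmul_le_sum (((nz H).erase u).erase w) _ _
      fun x hx => h9 x (Finset.mem_of_mem_erase (Finset.mem_of_mem_erase hx))
    rw [← Finset.add_sum_erase _ _ hu, ← Finset.add_sum_erase _ _ hw']
    rw [Finset.card_erase_of_mem hw', Finset.card_erase_of_mem hu, smul_eq_mul] at k3
    omega
  push Not at e
  have hN : normalizer (H : Set G) ≤ centralizer (H : Set G) := fun g hg x hx => by
    by_cases e1 : x = 1
    · simp [e1]
    · exact (mul_inv_eq_iff_eq_mul.1 (e x (mem_nz.2 ⟨e1, hx⟩) _ ((mem_normalizer_iff.1 hg x).1 hx)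
        (isConj_iff.2 ⟨g, rfl⟩))).symm
  obtain ⟨S, hS⟩ := h.pg.exists_le_sylow
  rcases hS.eq_or_lt with e1 | e1
  · have e2 := burnside S (e1 ▸ hN)
    have : H.Normal := normal_of_conj_le fun g => by
      obtain ⟨Y, c, l, hl, hg⟩ := h.exists_cpl g
      rw [ZStar2.eq_one_of_npc h2 (top_iff.2 e2) (mem_top l) (orderOf_coprime_of_mem hl c.cop),
        inv_one, one_mul] at hg
      exact (conj_eq_of_mem_normalizer hg).le
    rw [normalClosure_eq_self] at h1
    exact hH (eq_bot_iff.2 fun x hx => h3.le ⟨hx, mem_center_iff.2 fun g =>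
      h.comm (h1.ge (mem_top g)) hx⟩)
  · have k1 := Finset.card_nsmul_le_sum _ _ _ h9
    refine key S.isPGroup' ((h.le_normalizer S.isPGroup' hS).trans hN)
      (le_trans ?_ (Nat.mul_le_mul (h5 S.isPGroup' e1) k1))
    rw [smul_eq_mul]
    nlinarith

end Cfsg.Agent.Lib.ExtClosed
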