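import Mathlib
import Cfsg.Agent.Lib.ExtClosed
import Cfsg.Agent.Lib.CharExtend
import Cfsg.Agent.Lib.CharTI

/-!
A weak form of the Glauberman correspondence, and its application to extremely closed abelian
`p`-subgroups acting on a `p'`-group.
-/

set_option autoImplicit false
set_option linter.unusedSectionVars false

namespace Cfsg.Agent.Lib.ExtClosed2

open Cfsg Cfsg.Agent.Lib.CharBasic Cfsg.Agent.Lib.CharOrth Cfsg.Agent.Lib.CharInt
  Cfsg.Agent.Lib.CharInd Cfsg.Agent.Lib.CharTI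
  Cfsg.Agent.Lib.PBlockVal Cfsg.Agent.Lib.PBlock Cfsg.Agent.Lib.PBlockMain Subgroup
  Cfsg.Agent.Lib.PCore Cfsg.Agent.Lib.PCoreResidual Cfsg.Agent.Lib.PCoreConj
  Cfsg.Agent.Lib.FixDim Cfsg.Agent.Lib.ExtClosed
open scoped ComplexConjugate Classical

universe u

variable {G : Type u} [Group G] [Fintype G] {p : ℕ} [hp : Fact p.Prime] {H Y : Subgroup G}
  {Γ : Type*} [LinearOrderedCommGroupWithZero Γ] {v : Valuation ℂ Γ} {u : G} {χ : G → ℂ}

theorem val_char_eq (hv : v p < 1) (hχ : IsCharacter G χ) (hd : ¬ p ∣ deg χ) (hu : u ^ p = 1) :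
    v (χ u) = 1 := by
  obtain ⟨s, h1, h2, -, -, h3, -⟩ := exists_eigenvalues hχ u
  have h4 : v (χ u - χ 1) < 1 := by
    rw [h3, ← h1]
    have h5 : ∀ ε ∈ s, v (ε - 1) < 1 := fun ε hε => val_root hv (by
      obtain ⟨k, hk⟩ := orderOf_dvd_of_pow_eq_one hu
      rw [hk, pow_mul, h2 ε hε, one_pow])
    clear h1 h2 h3
    induction s using Multiset.induction_on with
    | empty => simp
    | cons a s ih =>
      rw [Multiset.sum_cons, Multiset.card_cons, Nat.cast_succ,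
        show a + s.sum - (s.card + 1) = (a - 1) + (s.sum - s.card) by ring]
      exact v.map_add_lt (h5 a (by simp)) (ih fun ε hε => h5 ε (by simp [hε]))
  have h6 : v (χ 1) = 1 := by rw [← deg_cast hχ]; exact val_nat_eq hv hd
  rw [← sub_add_cancel (χ u) (χ 1), v.map_add_eq_of_lt_right (by rwa [h6]), h6]

theorem exists_mul [Y.Normal] (hsup : Y ⊔ H = ⊤) (x : G) : ∃ y ∈ Y, ∃ a ∈ H, y * a = x :=
  SolvBasic.mem_normal_sup_iff.1 (hsup.ge (mem_top x))

theorem comm_mem [hY : Y.Normal] (hsup : Y ⊔ H = ⊤) (hab : IsMulCommutative H) (a b : G) :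
    a * b * a⁻¹ * b⁻¹ ∈ Y := by
  obtain ⟨y, hy, a, ha, rfl⟩ := exists_mul hsup a
  obtain ⟨z, hz, b, hb, rfl⟩ := exists_mul hsup b
  have := mul_mem (mul_mem hy (hY.conj_mem z hz a)) (mul_mem (hY.conj_mem _ (inv_mem hy) b) (inv_mem hz))
  convert this using 1
  have e : Commute b a := le_centralizer_iff_isMulCommutative.2 hab ha b hb
  simp only [mul_inv_rev, mul_assoc, mul_right_inj]
  rw [← mul_assoc a⁻¹ b, ← e.inv_right.eq, mul_assoc]

theorem mem_of_coprime [Y.Normal] (hsup : Y ⊔ H = ⊤) (hH : IsPGroup p H) {x : G}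
    (ho : (orderOf x).Coprime p) : x ∈ Y := by
  obtain ⟨k, hk⟩ := exists_pow_mem_pResidualOf (p := p) (hsup.ge (mem_top x))
  exact mem_of_pow_mem_of_coprime (ho.pow_right k)
    (pResidualOf_sup_le hH le_normalizer_of_normal hk)

theorem sylow [Y.Normal] (hc : (Nat.card Y).Coprime p) (hsup : Y ⊔ H = ⊤) (hH : IsPGroup p H) :
    IsSylowIn p H ⊤ := ⟨le_top, hH, fun Q _ hQ hHQ => le_antisymm (fun x hx => by
  obtain ⟨y, hy, a, ha, rfl⟩ := exists_mul hsup x
  rwa [mem_bot.1 ((inf_eq_bot_of_isPGroup_of_coprime hQ hc).le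
    ⟨(mul_mem_cancel_right (hHQ ha)).1 hx, hy⟩), one_mul]) hHQ⟩

theorem mem_zpowers_of_ne (hu : orderOf u = p) {a : G} (ha : a ∈ zpowers u) (h1 : a ≠ 1) :
    u ∈ zpowers a := by
  have h : Nat.card (zpowers u) = p := by rw [Nat.card_zpowers, hu]
  have := (mem_zpowers_of_prime_card h (g := ⟨a, ha⟩) (g' := ⟨u, mem_zpowers u⟩) (by simpa using h1))
  obtain ⟨k, hk⟩ := this
  exact ⟨k, congrArg Subtype.val hk⟩

/-- Weak Glauberman correspondence. -/
theorem gc [hY : Y.Normal] (hc : (Nat.card Y).Coprime p) (hu : orderOf u = p)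
    (hsup : Y ⊔ zpowers u = ⊤) (hχ : IsIrrCharacter G χ) (h0 : χ u ≠ 0) :
    ∃ α : Cn u → ℂ, IsIrrCharacter (Cn u) α ∧ ∀ a ∈ zpowers u, a ≠ 1 →
      ∃ c, ∀ w : Cn u, (w : G) ∈ Y → χ (a * w) = c * α w := by
  have hP : IsPGroup p (zpowers u) := isPGroup_zpowers_of_orderOf (k := 1) (by rw [hu, pow_one])
  have hI := inf_eq_bot_of_isPGroup_of_coprime hP hc
  have hu1 : u ≠ 1 := fun e => hp.out.one_lt.ne (by rw [← hu, e, orderOf_one])
  have hcm := comm_mem hsup inferInstance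
  obtain ⟨ψ, hψ, hψu⟩ : ∃ ψ, IsIrrCharacter (G ⧸ Y) ψ ∧ ψ u ≠ ψ 1 := by
    by_contra! e
    exact hu1 (mem_bot.1 (hI.le ⟨mem_zpowers u, (QuotientGroup.eq_one_iff u).1 (eq_one_of_forall_irr e)⟩))
  have hψ1 : ψ 1 = 1 := irr_one_eq_one_of_comm' (fun a b => by
    obtain ⟨a, rfl⟩ := QuotientGroup.mk_surjective a
    obtain ⟨b, rfl⟩ := QuotientGroup.mk_surjective b
    rw [← mul_inv_eq_iff_eq_mul, ← mul_inv_eq_one]
    exact (QuotientGroup.eq_one_iff _).2 (hcm a b)) hψ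
  set lam : G → ℂ := fun g => ψ (QuotientGroup.mk' Y g)
  have hl : IsCharacter G lam := isChar_comp (irr_isChar hψ) _
  have hl1 : lam 1 = 1 := hψ1
  have hlY : ∀ y ∈ Y, lam y = 1 := fun y hy => by
    simp only [lam, QuotientGroup.mk'_apply, (QuotientGroup.eq_one_iff y).2 hy, hψ1]
  have hla : ∀ a ∈ zpowers u, a ≠ 1 → lam a ≠ 1 := fun a ha h1 e => by
    obtain ⟨k, hk⟩ := mem_powers_iff_mem_zpowers.2 (mem_zpowers_of_ne hu ha h1)
    have := linear_pow hl hl1 a k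
    simp only at hk
    rw [hk, e, one_pow] at this
    exact hψu (this.trans hψ1.symm)
  have hχ' := irr_mul_linear hχ hl hl1
  have hne : χ ≠ χ * lam := fun e => hla u (mem_zpowers u) hu1
    (mul_left_cancel₀ h0 ((congrFun e u).symm.trans (mul_one _).symm))
  set Δ := χ - χ * lam
  have hΔ : IsGeneralizedCharacter G Δ := genChar_sub (genChar_of_irr hχ) (genChar_of_irr hχ')
  have hΔY : ∀ y ∈ Y, Δ y = 0 := fun y hy => by simp [Δ, hlY y hy]
  have hS := sylow hc hsup hP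
  have k1 : ∀ a ∈ Cn u, (∃ k, a ^ p ^ k = 1) → a ∈ zpowers u := fun a ha ⟨k, hk⟩ =>
    hS.le_of_le_normalizer le_top (isPGroup_zpowers hk) (zpowers_le.2 (centralizer_le_normalizer _ (by
      rwa [zpowers_eq_closure, centralizer_closure]))) (mem_zpowers a)
  have k2 : ∀ a ∈ zpowers u, a ≠ 1 → Cn a ≤ Cn u := fun a ha h1 x hx => by
    obtain ⟨k, rfl⟩ := mem_zpowers_of_ne hu ha h1
    exact mem_centralizer_singleton_iff.2
      (Commute.zpow_right (mem_centralizer_singleton_iff.1 hx) k)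
  have hind : indFun (Cn u) (fun x : Cn u => Δ x) = Δ := funext fun z => by
    by_cases hz : z ∈ Y
    · rw [hΔY z hz]
      exact indFun_eq_zero_of_not_conj _ _ fun x _ => hΔY _ (hY.conj_mem' z hz x)
    obtain ⟨a, y, hay, ⟨k, hk⟩, hy, e, ha', hy'⟩ := exists_decomp p z
    obtain ⟨x, -, hx⟩ := hS.exists_conj_mem (mem_top a) hk
    have ha1 : a ≠ 1 := fun e' => hz (by rw [e, e', one_mul]; exact mem_of_coprime hsup hP hy)
    have hx1 : x * a * x⁻¹ ≠ 1 := by simpa using ha1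
    have hzc : x * z * x⁻¹ ∈ Cn u := k2 _ hx hx1 (mem_centralizer_singleton_iff.2 (by
      rw [conj_mul, conj_mul, e, mul_assoc a y a, ← hay.eq]))
    rw [← indFun_classFun _ _ z x, ← genChar_classFun hΔ z x]
    refine indFun_eq_of_not_conj (Cn u) (classFun_res (genChar_classFun hΔ) _) ⟨_, hzc⟩
      fun g hg h => absurd (k2 _ hx hx1 (mem_centralizer_singleton_iff.2 ?_)) hg
    have k3 : g⁻¹ * (x * a * x⁻¹) * g ∈ zpowers u := k1 _ (by
      obtain ⟨j, rfl⟩ := ha'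
      have := zpow_mem h j
      simp only at this ⊢
      rwa [← conj_zpow, show g⁻¹ * (x * z * x⁻¹) ^ j * g = (g⁻¹ * (x * z * x⁻¹) * g) ^ j by
        simpa only [inv_inv] using (conj_zpow (a := g⁻¹)).symm]) ⟨k, by
          simpa using show (g⁻¹ * (x * a * x⁻¹) * g⁻¹⁻¹) ^ p ^ k = 1 by rw [conj_pow, conj_pow, hk]; simp⟩
    have k4 := mem_bot.1 (hI.le (mem_inf.2 ⟨mul_mem k3 (inv_mem hx), by simpa using hcm g⁻¹ (x * a * x⁻¹)⟩))
    rw [mul_inv_eq_one, mul_assoc, inv_mul_eq_iff_eq_mul] at k4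
    exact k4.symm
  have hn : classInner (fun x : Cn u => Δ x) (fun x : Cn u => Δ x) = 2 := by
    rw [← cinner_indFun_left _ _ (genChar_classFun hΔ), hind, cinner_sub_left, cinner_sub_right,
      cinner_sub_right, cinner_irr_self hχ, cinner_irr_self hχ', cinner_irr_ne hχ hχ' hne,
      cinner_irr_ne hχ' hχ hne.symm]
    norm_num
  obtain ⟨α, β, hα, hβ, -, e⟩ := genChar_norm_two_of_deg (genChar_res hΔ (Cn u)) hn
    (Or.inl (hΔY 1 (one_mem Y)))
  refine ⟨α, hα, fun a ha h1 => ?_⟩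
  have hau : a ∈ Cn u := by
    obtain ⟨k, rfl⟩ := ha
    exact mem_centralizer_singleton_iff.2 ((Commute.refl u).zpow_left k)
  have hz : (⟨a, hau⟩ : Cn u) ∈ center (Cn u) := mem_center_iff.2 fun g => Subtype.ext (by
    obtain ⟨k, rfl⟩ := ha
    exact Commute.zpow_right (mem_centralizer_singleton_iff.1 g.2) k)
  refine ⟨(α ⟨a, hau⟩ / α 1 - β ⟨a, hau⟩ / β 1) / (1 - lam a), fun w hw => ?_⟩
  have e1 := congrFun e (⟨a, hau⟩ * w)
  have e2 := congrFun e w
  rw [Pi.sub_apply, ccenter_apply_mul (irr_one_ne_zero hα) (center_le_ccenter hα hz),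
    ccenter_apply_mul (irr_one_ne_zero hβ) (center_le_ccenter hβ hz)] at e1
  rw [hΔY _ hw, Pi.sub_apply, eq_comm, sub_eq_zero] at e2
  simp only [Δ, Pi.sub_apply, Pi.mul_apply, coe_mul, linear_mul hl hl1, hlY _ hw] at e1
  rw [div_mul_eq_mul_div, eq_div_iff (sub_ne_zero.2 (hla a ha h1).symm), sub_mul]
  rw [← e2] at e1
  linear_combination e1

theorem gc2 [hY : Y.Normal] (hc : (Nat.card Y).Coprime p) (hu : orderOf u = p)
    (hsup : Y ⊔ zpowers u = ⊤) (hχ : IsIrrCharacter G χ) (h0 : χ u ≠ 0) {X : Subgroup G} (hXY : X ≤ Y)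
    (hXu : X ≤ Cn u) (hn : Cn u ≤ normalizer (X : Set G)) {a : G} (ha : a ∈ zpowers u) (h1 : a ≠ 1)
    (h : ∑ x : X, χ (a * x) ≠ 0) {w : G} (hw : w ∈ X) : χ (a * w) = χ a := by
  obtain ⟨α, hα, hc⟩ := gc hc hu hsup hχ h0
  obtain ⟨c, hc⟩ := hc a ha h1
  have := normal_subgroupOf_of_le hn
  rw [← sum_subgroupOf hXu fun x => χ (a * x),
    Finset.sum_congr rfl fun (x : X.subgroupOf (Cn u)) _ => hc x (hXY x.2), ← Finset.mul_sum] at h
  have k := (mem_cker (irr_isChar hα)).1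
    (le_cker_of_sum_ne hα (right_ne_zero_of_mul h) (show ⟨w, hXu hw⟩ ∈ X.subgroupOf (Cn u) from hw))
  rw [hc ⟨w, hXu hw⟩ (hXY hw), k, ← hc 1 (one_mem Y), OneMemClass.coe_one, mul_one]

theorem gc3 [hY : Y.Normal] (hc : (Nat.card Y).Coprime p) (hu : orderOf u = p)
    (hχ : IsCharacter G χ) (hres : IsIrrCharacter Y fun y => χ y) (h0 : χ u ≠ 0) {X : Subgroup G}
    (hXY : X ≤ Y) (hXu : X ≤ Cn u) (hn : Cn u ≤ normalizer (X : Set G)) {a : G} (ha : a ∈ zpowers u)
    (h1 : a ≠ 1) (h : ∑ x : X, χ (a * x) ≠ 0) {w : G} (hw : w ∈ X) : χ (a * w) = χ a := by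
  set K := Y ⊔ zpowers u
  have hYK : Y ≤ K := le_sup_left
  have huK : u ∈ K := mem_sup_right (mem_zpowers u)
  have haK : a ∈ K := mem_sup_right ha
  refine gc2 (G := K) (Y := Y.subgroupOf K) (u := ⟨u, huK⟩) (χ := fun x => χ x) (X := X.subgroupOf K)
    (a := ⟨a, haK⟩) (w := ⟨w, hYK (hXY hw)⟩) (by rwa [SolvBasic.card_subgroupOf hYK])
    (by rwa [Subgroup.orderOf_mk]) ?_ (irr_of_comp_irr (isChar_res hχ K) (inclusion hYK) hres) h0
    (comap_mono hXY) (fun x hx => mem_centralizer_singleton_iff.2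
      (Subtype.ext (mem_centralizer_singleton_iff.1 (hXu hx)))) (fun x hx => le_normalizer_comap _
      (hn (mem_centralizer_singleton_iff.2 (congrArg Subtype.val (mem_centralizer_singleton_iff.1 hx)))))
    ?_ (by simpa using h1) ?_ hw
  · refine Subgroup.map_injective K.subtype_injective ?_
    rw [Subgroup.map_sup, subgroupOf_map_subtype_of_le hYK, MonoidHom.map_zpowers, ← MonoidHom.range_eq_map,
      range_subtype]
    rfl
  · obtain ⟨k, rfl⟩ := ha
    exact ⟨k, rfl⟩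
  · rwa [← sum_subgroupOf (hXY.trans hYK) fun x => χ (a * x)] at h

theorem le_cker (hp2 : p ≠ 2) [hY : Y.Normal] (h : Hyp p H) (hc : (Nat.card Y).Coprime p)
    (hsup : Y ⊔ H = ⊤) (huH : u ∈ H) (hu : orderOf u = p)
    (hX : ⁅Y ⊓ Cn u, H⁆ ⊓ centralizer (H : Set G) = ⊥) (hχ : IsIrrCharacter G χ)
    (hres : IsIrrCharacter Y fun y => χ y) : ⁅Y, zpowers u⁆ ≤ cker χ := by
  obtain ⟨R, hv⟩ := exists_val p
  have hχ' := irr_isChar hχ
  have hd : ¬ p ∣ deg χ := fun e =>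
    hp.out.coprime_iff_not_dvd.1 hc.symm (e.trans (deg_dvd_card hres))
  have hup : ∀ a ∈ zpowers u, a ^ p = 1 := by
    rintro _ ⟨k, rfl⟩
    simp only
    rw [← zpow_natCast, ← zpow_mul, mul_comm, zpow_mul, zpow_natCast, ← hu, pow_orderOf_eq_one, one_zpow]
  have h0 : ∀ a ∈ zpowers u, χ a ≠ 0 := fun a ha e => by
    simpa [e] using val_char_eq hv hχ' hd (hup a ha)
  have hHu : H ≤ Cn u := fun x hx => mem_centralizer_singleton_iff.2 (h.comm hx huH)
  have hD : H ≤ normalizer ((Y ⊓ Cn u : Subgroup G) : Set G) :=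
    le_normalizer_inf le_normalizer_of_normal (le_normalizer_of_le hHu)
  have hXD := commutator_le_left_of_le_normalizer hD
  have hXn : Cn u ≤ normalizer ((⁅Y ⊓ Cn u, H⁆ : Subgroup G) : Set G) := fun x hx => by
    obtain ⟨y, hy, a, ha, rfl⟩ := exists_mul hsup x
    exact mul_mem (normalizer_commutator_ge_left _ _ ⟨hy, (mul_mem_cancel_right (hHu ha)).1 hx⟩)
      (normalizer_commutator_ge_right _ _ ha)
  have k1 : ∀ a ∈ zpowers u, a ≠ 1 → ∀ w ∈ ⁅Y ⊓ Cn u, H⁆, χ (a * w) = χ a := fun a ha h1 w hw => by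
    refine gc3 hc hu hχ' hres (h0 u (mem_zpowers u)) (hXD.trans inf_le_left) (hXD.trans inf_le_right)
      hXn ha h1 (fun e => ?_) hw
    have := val_sum_sub hv h.pg (hHu.trans hXn) hX (F := fun x => χ (a * x)) (fun b hb x _ => by
      rw [← char_conj hχ' (a * x) b, ← mul_assoc b, (h.comm hb (zpowers_le.2 huH ha)).eq]
      simp only [mul_assoc]) fun x _ => val_char hχ' _
    rw [e, zero_sub, Valuation.map_neg, mul_one, val_char_eq hv hχ' hd (hup a ha)] at this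
    exact this.false
  have hI := inf_eq_bot_of_isPGroup_of_coprime h.pg hc
  have k0 : ∀ a ∈ zpowers u, a ≠ 1 → a * a ≠ 1 := fun a ha h1 e => h1 (eq_one_of_coprime_of_pow_eq_one
    (p := 2) (k := 1) (((Nat.coprime_primes hp.out Nat.prime_two).2 hp2).coprime_dvd_left
      (orderOf_dvd_of_pow_eq_one (hup a ha))) (by rwa [pow_one, sq]))
  have k2 : ∀ a ∈ zpowers u, a ≠ 1 → χ a * χ a = χ 1 * χ (a * a) := fun a ha h1 => by
    have haH := zpowers_le.2 huH ha
    have := CharSchur.sum_char_conj_mul hχ a a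
    rw [Finset.sum_congr rfl (g := fun _ => χ (a * a)) fun g _ => ?_, Finset.sum_const,
      Finset.card_univ, ← Nat.card_eq_fintype_card, nsmul_eq_mul, mul_assoc, mul_div_assoc,
      mul_right_inj' card_ne_zero, eq_div_iff (irr_one_ne_zero hχ)] at this
    · rw [← this, mul_comm]
    obtain ⟨Z, c, l, hl, hg⟩ := h.exists_cpl g
    obtain ⟨w, hw, hcm, e⟩ := c.exists_conj h (h.sylow g) haH haH hl
    have e1 := mem_bot.1 (hI.le (mem_inf.2 ⟨mul_mem ((mem_normalizer_iff.1 hg a).1 haH) (inv_mem haH),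
      comm_mem hsup h.ab _ _⟩))
    rw [show g * a * g⁻¹ = l * (l⁻¹ * g * a * (l⁻¹ * g)⁻¹) * l⁻¹ by group, mul_inv_eq_one.1 e1,
      ← classFun_isConj (irr_classFun hχ) e]
    refine k1 _ (mul_mem ha ha) (k0 a ha h1) w ?_
    have hZ : H ≤ normalizer ((Z ⊓ Cn u : Subgroup G) : Set G) :=
      le_normalizer_inf (c.le'.trans c.norm) (le_normalizer_of_le hHu)
    have h2 := CoprimeBasic.commutator_sup_centralizer hZ (coprime_card_of_isPGroup h.pg
      (coprime_card_of_le inf_le_left c.cop)) (Or.inl (CoprimeBasic.solvable_of_isPGroup h.pg))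
    rw [inf_right_comm, c.fpf, bot_inf_eq, sup_bot_eq] at h2
    refine commutator_mono (inf_le_inf_right _ fun z hz =>
      mem_of_coprime hsup h.pg (orderOf_coprime_of_mem hz c.cop)) le_rfl (h2.ge ⟨hw, ?_⟩)
    obtain ⟨k, hk⟩ := mem_zpowers_of_ne hu (mul_mem ha ha) (k0 a ha h1)
    exact mem_centralizer_singleton_iff.2 (hk ▸ hcm.symm.zpow_right k)
  have hu1 : u ≠ 1 := fun e => hp.out.one_lt.ne (by rw [← hu, e, orderOf_one])
  obtain ⟨a, ha, hmin⟩ := Finset.exists_min_image (nz (zpowers u)) (fun a => ‖χ a‖)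
    ⟨u, mem_nz.2 ⟨hu1, mem_zpowers u⟩⟩
  obtain ⟨h1, ha⟩ := mem_nz.1 ha
  have k3 := hmin _ (mem_nz.2 ⟨k0 a ha h1, mul_mem ha ha⟩)
  have k4 := congrArg norm (k2 a ha h1)
  rw [norm_mul, norm_mul, ← deg_cast hχ', Complex.norm_natCast] at k4
  have k5 : a ∈ ccenter χ := (mem_ccenter hχ').2 (le_antisymm (char_norm_le hχ' a) (by
    have := norm_pos_iff.2 (h0 a ha)
    nlinarith [mul_le_mul_of_nonneg_left k3 (Nat.cast_nonneg (α := ℝ) (deg χ))]))
  rw [commutator_comm]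
  exact commutator_le.2 fun x hx y _ => commutator_mem_cker_of_mem_ccenter hχ'
    (zpowers_le.2 (zpowers_le.2 k5 (mem_zpowers_of_ne hu ha h1)) hx) y

theorem fpf (hp2 : p ≠ 2) (G : Type u) [Group G] [Finite G] : ∀ H Y : Subgroup G, Hyp p H → Y.Normal →
    (Nat.card Y).Coprime p → Y ⊔ H = ⊤ → ⁅Y, H⁆ ⊓ centralizer (H : Set G) = ⊥ := by
  refine SolvBasic.card_induction (P := fun G _ _ => ∀ H Y : Subgroup G, Hyp p H → Y.Normal →
    (Nat.card Y).Coprime p → Y ⊔ H = ⊤ → ⁅Y, H⁆ ⊓ centralizer (H : Set G) = ⊥)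
    (fun G _ _ ih H Y h hY hc hsup => eq_bot_iff.2 fun c ⟨hc1, hc2⟩ => ?_) G
  let _ := Fintype.ofFinite G
  have hcY : c ∈ Y := commutator_le_left _ _ hc1
  have hq : ∀ (N : Subgroup G) [N.Normal], N ≠ ⊥ → c ∈ N := fun N _ hN => by
    have hs := QuotientGroup.mk'_surjective N
    have := ih _ (SolvBasic.card_quotient_lt hN) _ _ (h.map hs) (hY.map _ hs) (coprime_card_map _ hc)
      (by rw [← Subgroup.map_sup, hsup, map_top_of_surjective _ hs])
    refine (QuotientGroup.eq_one_iff c).1 (mem_bot.1 (this.le ⟨?_, ?_⟩))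
    · rw [← map_commutator]; exact mem_map_of_mem _ hc1
    · rintro _ ⟨a, ha, rfl⟩
      exact (map_mul _ _ _).symm.trans ((congrArg _ (hc2 a ha)).trans (map_mul _ _ _))
  by_cases hH : H = ⊥
  · rwa [hH, commutator_bot_right] at hc1
  obtain ⟨u, huH, hu⟩ := exists_mem_orderOf_eq (dvd_card_of_isPGroup_of_ne_bot h.pg hH)
  have hu1 : u ≠ 1 := fun e => hp.out.one_lt.ne (by rw [← hu, e, orderOf_one])
  have hI := inf_eq_bot_of_isPGroup_of_coprime h.pg hc
  have hHu : H ≤ Cn u := fun x hx => mem_centralizer_singleton_iff.2 (h.comm hx huH)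
  by_cases hz : Cn u = ⊤
  · have := ZStar2.normal_of_le_center (zpowers_le.2 (mem_center_iff.2 fun g =>
      mem_centralizer_singleton_iff.1 (hz.ge (mem_top g))))
    exact hI.le ⟨zpowers_le.2 huH (hq (zpowers u) (by simpa using hu1)), hcY⟩
  have hX := ih _ (SolvBasic.card_lt_of_ne_top hz) _ (Y.subgroupOf (Cn u)) (h.subgroupOf hHu)
    inferInstance (by rw [SolvBasic.card_subgroupOf']; exact coprime_card_of_le inf_le_left hc)
    (eq_top_iff.2 fun x _ => by
      obtain ⟨y, hy, a, ha, e⟩ := exists_mul hsup x.1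
      rw [show x = ⟨y, (mul_mem_cancel_right (hHu ha)).1 (e ▸ x.2)⟩ * ⟨a, hHu ha⟩ from Subtype.ext e.symm]
      exact mul_mem (mem_sup_left hy) (mem_sup_right ha))
  have hX' : ⁅Y ⊓ Cn u, H⁆ ⊓ centralizer (H : Set G) = ⊥ := eq_bot_iff.2 fun x hx => by
    rw [← subgroupOf_map_subtype Y, ← subgroupOf_map_subtype_of_le hHu, ← map_commutator] at hx
    obtain ⟨⟨x, hx, rfl⟩, hx'⟩ := hx
    exact congrArg Subtype.val (mem_bot.1 (hX.le ⟨hx, fun a ha =>
      Subtype.ext (hx' a (mem_map_of_mem _ ha))⟩))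
  have hN : (⁅Y, zpowers u⁆ : Subgroup G).Normal := normal_iff_top_le.2 (hsup.ge.trans (sup_le
    (normalizer_commutator_ge_left _ _) (le_normalizer_commutator le_normalizer_of_normal
      (le_normalizer_of_le_centralizer (by rwa [zpowers_eq_closure, centralizer_closure])))))
  have hcN := hq ⁅Y, zpowers u⁆ fun e => hz (eq_top_iff.2 (hsup.ge.trans (sup_le (by
    rwa [commutator_eq_bot_iff_le_centralizer, zpowers_eq_closure, centralizer_closure] at e) hHu)))
  by_contra hc1'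
  obtain ⟨R, hv⟩ := exists_val p
  set E := CharClifford.ofNormal Y
  have key := val_sum_moved' hv h.pg (fun (a : H) θ => E.cj θ a⁻¹) (fun θ => by simp [E.cj_one])
    (fun a b θ => by simp [E.cj_cj]) (F := fun θ => θ 1 * (θ 1 - θ ⟨c, hcY⟩)) (irr Y)
    (fun a θ hθ => mem_irr.2 (E.irr_cj (mem_irr.1 hθ) _)) (fun a θ _ => ?_)
    (fun θ hθ => val_mul_le (val_char (irr_isChar (mem_irr.1 hθ)) _) (R.valuation.map_sub_le
      (val_char (irr_isChar (mem_irr.1 hθ)) _) (val_char (irr_isChar (mem_irr.1 hθ)) _)))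
    fun θ hθ hfix => ?_
  · simp only [mul_sub, Finset.sum_sub_distrib, sum_irr_deg_mul, if_true] at key
    rw [if_neg (fun e => hc1' (mem_bot.2 (congrArg Subtype.val e))), sub_zero,
      val_nat_eq hv (hp.out.coprime_iff_not_dvd.1 hc.symm)] at key
    exact key.false
  · rw [E.cj_apply_one, CharClifford.NormalEmb.cj, show E.a (a⁻¹ : G) ⟨c, hcY⟩ = ⟨c, hcY⟩ from
      E.inj (by rw [E.i_a]; exact mul_inv_eq_iff_eq_mul.2 (hc2 _ (inv_mem a.2)))]
  · have hθ := mem_irr.1 hθ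
    obtain ⟨χ, hχ, e⟩ := CharExtend.ext_of_coprime_card E hθ (E.inertia_eq_top.1 (eq_top_iff.2
      (hsup.ge.trans (sup_le (fun y hy => E.i_mem_inertia (irr_classFun hθ) ⟨y, hy⟩) fun a ha =>
        E.mem_inertia'.2 (by simpa using hfix ⟨a⁻¹, inv_mem ha⟩))))) (by
      rw [CharClifford.ofNormal_index]
      refine (coprime_card_of_isPGroup h.pg hc).coprime_dvd_left ?_
      rw [← relIndex_top_right, ← hsup, relIndex_sup_left]
      exact relIndex_dvd_card _ _)
    have := (mem_cker (irr_isChar hχ)).1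
      (le_cker hp2 h hc hsup huH hu hX' hχ (funext e ▸ hθ) hcN)
    rw [← e, ← e, map_one, ← this]
    simp [E, CharClifford.ofNormal]

theorem ncl_inf (hp2 : p ≠ 2) {G : Type u} [Group G] [Finite G] {H : Subgroup G} (h : Hyp p H) :
    normalClosure (H : Set G) ⊓ normalizer (H : Set G) = H := by
  refine le_antisymm (fun x ⟨hx1, hx2⟩ => ?_) (le_inf le_normalClosure le_normalizer)
  set O := pPrimeCore p G
  have hO := coprime_card_pPrimeCore p G
  have hK : H ≤ O ⊔ H := le_sup_right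
  have hOK : O ≤ O ⊔ H := le_sup_left
  have h1 := fpf hp2 _ _ (O.subgroupOf (O ⊔ H)) (h.subgroupOf hK) inferInstance
    (by rwa [SolvBasic.card_subgroupOf hOK]) (Subgroup.map_injective (Subgroup.subtype_injective _) (by
      rw [Subgroup.map_sup, subgroupOf_map_subtype_of_le hK, subgroupOf_map_subtype_of_le hOK,
        ← MonoidHom.range_eq_map, range_subtype]))
  have h2 : ⁅O, H⁆ ⊓ centralizer (H : Set G) = ⊥ := eq_bot_iff.2 fun x hx => by
    have e := map_commutator (O.subgroupOf (O ⊔ H)) (H.subgroupOf (O ⊔ H)) (O ⊔ H).subtype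
    rw [subgroupOf_map_subtype_of_le hOK, subgroupOf_map_subtype_of_le hK] at e
    obtain ⟨x, hx', rfl⟩ := e.ge hx.1
    exact congrArg Subtype.val (mem_bot.1 (h1.le ⟨hx', fun a ha => Subtype.ext (hx.2 a ha)⟩))
  have h3 : (nclIn H O).Normal := normal_iff_top_le.2 ((concl_odd hp2 G H h).ge.trans (sup_le
    (le_normalizer_nclIn_of le_rfl le_normalizer_of_normal) (le_normalizer_nclIn _ _)))
  have h4 := normalClosure_le_normal (le_nclIn H O) hx1
  rw [nclIn_eq_sup_commutator, commutator_comm] at h4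
  obtain ⟨a, ha, y, hy, rfl⟩ :=
    (mem_sup_iff_of_le_normalizer (normalizer_commutator_ge_right O H)).1 h4
  have hyO : y ∈ O := commutator_le_left _ _ hy
  have hyN := (mul_mem_cancel_left (le_normalizer ha)).1 hx2
  rwa [mem_bot.1 (h2.le ⟨hy, fun b hb => ?_⟩), mul_one]
  refine (mul_inv_eq_iff_eq_mul.1 (mul_inv_eq_one.1 (mem_bot.1
    ((inf_eq_bot_of_isPGroup_of_coprime h.pg hO).le (mem_inf.2
      ⟨mul_mem ((mem_normalizer_iff.1 hyN b).1 hb) (inv_mem hb), ?_⟩))))).symm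
  simpa [mul_assoc] using mul_mem hyO ((inferInstance : O.Normal).conj_mem _ (inv_mem hyO) b)

end Cfsg.Agent.Lib.ExtClosed2
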