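import Mathlib

/-! A computable model of `GL₂(3)` and facts about it checked by evaluation. -/

set_option autoImplicit false

namespace Cfsg.Agent.Lib.GL23

open Subgroup

/-- Invertible `2 × 2` matrices over `ZMod 3`. -/
@[ext] structure H where
  /-- entry `(0,0)` -/
  a : ZMod 3
  /-- entry `(0,1)` -/
  b : ZMod 3
  /-- entry `(1,0)` -/
  c : ZMod 3
  /-- entry `(1,1)` -/
  d : ZMod 3
  det_ne : a * d - b * c ≠ 0

instance instDecEq : DecidableEq H := fun x y =>
  decidable_of_iff (x.a = y.a ∧ x.b = y.b ∧ x.c = y.c ∧ x.d = y.d) H.ext_iff.symm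

instance instFintype : Fintype H :=
  Fintype.ofEquiv {p : ZMod 3 × ZMod 3 × ZMod 3 × ZMod 3 // p.1 * p.2.2.2 - p.2.1 * p.2.2.1 ≠ 0}
    ⟨fun p => ⟨p.1.1, p.1.2.1, p.1.2.2.1, p.1.2.2.2, p.2⟩, fun x => ⟨(x.a, x.b, x.c, x.d), x.det_ne⟩,
      fun _ => rfl, fun _ => rfl⟩

/-- The determinant. -/
def H.det (x : H) : ZMod 3 := x.a * x.d - x.b * x.c

theorem sq_of_ne : ∀ z : ZMod 3, z ≠ 0 → z * z = 1 := by decide

instance instMul : Mul H := ⟨fun x y => ⟨x.a * y.a + x.b * y.c, x.a * y.b + x.b * y.d,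
  x.c * y.a + x.d * y.c, x.c * y.b + x.d * y.d, by
    have := mul_ne_zero x.det_ne y.det_ne
    convert this using 1; ring⟩⟩

instance instOne : One H := ⟨⟨1, 0, 0, 1, by decide⟩⟩

instance instInv : Inv H := ⟨fun x => ⟨x.det * x.d, -(x.det * x.b), -(x.det * x.c), x.det * x.a, by
  have := mul_ne_zero (mul_ne_zero x.det_ne x.det_ne) x.det_ne
  convert this using 1; unfold H.det; ring⟩⟩

theorem mul_def (x y : H) : x * y = ⟨x.a * y.a + x.b * y.c, x.a * y.b + x.b * y.d,
  x.c * y.a + x.d * y.c, x.c * y.b + x.d * y.d, (x * y).det_ne⟩ := rfl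

instance instGroup : Group H := Group.ofLeftAxioms
  (fun x y z => by ext <;> simp only [mul_def] <;> ring)
  (by decide +kernel) (by decide +kernel)

/-- The identification with `GL₂(3)`. -/
def equivGL : H ≃* GL (Fin 2) (ZMod 3) where
  toFun x := Matrix.GeneralLinearGroup.mkOfDetNeZero !![x.a, x.b; x.c, x.d]
    (by simpa [Matrix.det_fin_two] using x.det_ne)
  invFun g := ⟨g 0 0, g 0 1, g 1 0, g 1 1, by simpa [Matrix.det_fin_two] using g.det_ne_zero⟩
  left_inv _ := rfl
  right_inv g := by ext i j; fin_cases i <;> fin_cases j <;> rfl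
  map_mul' x y := by
    ext i j
    fin_cases i <;> fin_cases j <;> simp [mul_def, Matrix.mul_apply, Fin.sum_univ_two]

theorem card_H : Nat.card H = 48 := by rw [Nat.card_eq_fintype_card]; decide +kernel

/-- a generating involution -/
def A : H := ⟨1, 2, 0, 2, by decide⟩
/-- a generating involution -/
def B : H := ⟨1, 0, 0, 2, by decide⟩
/-- a generating involution -/
def C : H := ⟨0, 1, 1, 0, by decide⟩
/-- the central involution -/
def T : H := ⟨2, 0, 0, 2, by decide⟩
/-- an element of order three -/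
def X : H := ⟨1, 1, 0, 1, by decide⟩
/-- an element of order four -/
def W : H := ⟨0, 1, 2, 0, by decide⟩
/-- an element of order eight -/
def E : H := ⟨1, 1, 2, 1, by decide⟩

theorem AA : A * A = 1 := by decide +kernel
theorem BB : B * B = 1 := by decide +kernel
theorem CC : C * C = 1 := by decide +kernel
theorem TT : T * T = 1 := by decide +kernel
theorem T_eq : B * C * B * C = T := by decide +kernel
theorem X_eq : A * B = X := by decide +kernel
theorem T_ne : T ≠ 1 := by decide +kernel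
theorem B_ne : B ≠ 1 := by decide +kernel
theorem B_ne_T : B ≠ T := by decide +kernel
theorem X_ne : X ≠ 1 := by decide +kernel
theorem X_cube : X ^ 3 = 1 := by decide +kernel
theorem AC_cube : (A * C) ^ 3 = 1 := by decide +kernel
theorem T_comm : ∀ h : H, h * T = T * h := by decide +kernel
theorem CBC : C * B * C = T * B := by decide +kernel
theorem BXB : B * X * B = X⁻¹ := by decide +kernel
theorem conj_TB : A * B * A * C * A * (T * B) * (A * C * A * B * A) = C := by decide +kernel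

theorem eq_T : ∀ z : H, z * A = A * z → z * C = C * z → z = 1 ∨ z = T := by decide +kernel

theorem invol : ∀ h : H, h * h = 1 → h = 1 ∨ h = T ∨ ∃ k, k * B * k⁻¹ = h := by decide +kernel

theorem exists_swap : ∀ h : H, h * h = 1 → h ≠ 1 → h ≠ T → ∃ r, r * r = 1 ∧ r * h * r = T * h := by
  decide +kernel

theorem cent_B : ∀ h : H, h * B = B * h → h = 1 ∨ h = T ∨ h = B ∨ h = T * B := by decide +kernel

theorem invol_of_three : ∀ x h : H, x ^ 3 = 1 → x ≠ 1 → h * h = 1 → h * x = x * h →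
    h = 1 ∨ h = T := by decide +kernel

theorem pow_24 : ∀ h : H, h ^ 24 = 1 := by decide +kernel

theorem cube_of_odd {h : H} (ho : Odd (orderOf h)) : h ^ 3 = 1 := by
  have h1 : orderOf h ∣ 3 * 2 ^ 3 := orderOf_dvd_of_pow_eq_one (pow_24 h)
  exact orderOf_dvd_iff_pow_eq_one.1
    (((Nat.coprime_two_right.2 ho).pow_right 3).dvd_of_dvd_mul_right h1)

theorem inverted : ∀ h : H, h ^ 3 = 1 → B * h * B = h⁻¹ →
    h = 1 ∨ h = X ∨ h = X⁻¹ ∨ h = C * X * C ∨ h = C * X⁻¹ * C := by decide +kernel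

theorem odd_core : ∀ h : H, h ^ 3 = 1 → (h * (W * h * W⁻¹)) ^ 3 = 1 →
    (h * (E * h * E⁻¹)) ^ 3 = 1 → h = 1 := by decide +kernel

/-- The words for all elements. -/
def words : List (List ℕ) :=
    [[], [1], [2], [3], [1,2], [1,3], [2,1], [2,3], [3,1], [3,2], [1,2,1], [1,2,3], [1,3,1],
    [1,3,2], [2,1,3], [2,3,1], [2,3,2], [3,1,2], [3,2,1], [3,2,3], [1,2,1,3], [1,2,3,1], [1,2,3,2],
    [1,3,1,2], [1,3,2,1], [1,3,2,3], [2,1,3,1], [2,1,3,2], [2,3,1,2], [2,3,2,1], [2,3,2,3],
    [3,1,2,1], [3,1,2,3], [3,2,1,3], [3,2,3,1], [1,2,1,3,1], [1,2,1,3,2], [1,2,3,1,2], [1,2,3,2,1],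
    [1,2,3,2,3], [1,3,1,2,1], [1,3,1,2,3], [1,3,2,1,3], [1,3,2,3,1], [2,1,3,1,2], [2,3,1,2,3],
    [1,2,1,3,1,2], [1,2,3,1,2,3]]

/-- The generators by number. -/
def gen : ℕ → H
  | 1 => A
  | 2 => B
  | _ => C

theorem exists_word : ∀ h : H, ∃ w ∈ words, (w.map gen).prod = h := by decide +kernel

theorem mem_of_gens {K : Subgroup H} (ha : A ∈ K) (hb : B ∈ K) (hc : C ∈ K) (h : H) : h ∈ K := by
  obtain ⟨w, -, rfl⟩ := exists_word h
  refine list_prod_mem fun x hx => ?_
  obtain ⟨i, -, rfl⟩ := List.mem_map.1 hx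
  unfold gen
  split <;> assumption

theorem S0_mul : ∀ x y : H, (x * W * x⁻¹ = W ∨ x * W * x⁻¹ = W⁻¹) →
    (y * W * y⁻¹ = W ∨ y * W * y⁻¹ = W⁻¹) →
    (x * y * W * (x * y)⁻¹ = W ∨ x * y * W * (x * y)⁻¹ = W⁻¹) := by decide +kernel

theorem S0_inv : ∀ x : H, (x * W * x⁻¹ = W ∨ x * W * x⁻¹ = W⁻¹) →
    (x⁻¹ * W * x⁻¹⁻¹ = W ∨ x⁻¹ * W * x⁻¹⁻¹ = W⁻¹) := by decide +kernel

/-- A Sylow `2`-subgroup. -/
def S0 : Subgroup H where
  carrier := {h | h * W * h⁻¹ = W ∨ h * W * h⁻¹ = W⁻¹}
  one_mem' := Or.inl (by simp)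
  mul_mem' := S0_mul _ _
  inv_mem' := S0_inv _

instance decS0 : DecidablePred (· ∈ S0) := fun h =>
  inferInstanceAs (Decidable (h * W * h⁻¹ = W ∨ h * W * h⁻¹ = W⁻¹))

theorem card_S0 : Nat.card S0 = 16 := by rw [Nat.card_eq_fintype_card]; decide +kernel

theorem AC_S0 : ∀ z : H, (∀ s ∈ S0, z * s = s * z) → z = 1 ∨ z = T := by decide +kernel

/-- A cyclic subgroup of order eight. -/
def C8 : Subgroup H := centralizer {E}

instance decC8 : DecidablePred (· ∈ C8) := fun h =>
  decidable_of_iff (h * E = E * h) mem_centralizer_singleton_iff.symm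

theorem card_C8 : Nat.card C8 = 8 := by rw [Nat.card_eq_fintype_card]; decide +kernel

theorem C8_le : C8 ≤ S0 := fun x => by revert x; decide +kernel

theorem invol_C8 : ∀ h ∈ C8, h * h = 1 → h = 1 ∨ h = T := by decide +kernel

/-- The Borel subgroup. -/
def Bo : Subgroup H where
  carrier := {h | h.c = 0}
  one_mem' := rfl
  mul_mem' {x y} hx hy := by
    change x.c * y.a + x.d * y.c = 0
    rw [show x.c = 0 from hx, show y.c = 0 from hy]; simp
  inv_mem' {x} hx := by
    change -(x.det * x.c) = 0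
    rw [show x.c = 0 from hx]; simp

instance decBo : DecidablePred (· ∈ Bo) := fun h => inferInstanceAs (Decidable (h.c = 0))

theorem card_Bo : Nat.card Bo = 12 := by rw [Nat.card_eq_fintype_card]; decide +kernel

/-- The values of the generalised character `1 + 1_{S0}^H - 1_{Bo}^H`. -/
def al (h : H) : ℕ := if h * h = T then 4 else if h * h * (h * h) = T then 2 else 0

theorem al_eq : ∀ g : H, 48 * al g + 4 * (Finset.univ.filter fun x : H => x⁻¹ * g * x ∈ Bo).card =
    48 + 3 * (Finset.univ.filter fun x : H => x⁻¹ * g * x ∈ S0).card := by decide +kernel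

theorem al_conj : ∀ g x : H, al (x * g * x⁻¹) = al g := by decide +kernel

theorem sum_al : ∑ g, al g = 48 := by decide +kernel

theorem sum_al_sq : ∑ g, al g * al g = 144 := by decide +kernel

theorem sum_al_invol : ∑ x : H with (x * x = 1 ∧ x ≠ 1), ∑ y : H with (y * y = 1 ∧ y ≠ 1),
    al (x * y) = 96 := by decide +kernel

theorem al_ne : ∀ g : H, al g ≠ 0 → (g ^ 4 = 1 ∧ g ^ 2 = T) ∨ g ^ 4 = T := by decide +kernel

/-- The underlying map of an automorphism fixing `B` and `C`. -/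
def psiFun (h : H) : H := if h.det = 1 then W * h * W⁻¹ else T * (W * h * W⁻¹)

theorem psi_mul : ∀ x y, psiFun (x * y) = psiFun x * psiFun y := by decide +kernel

theorem psi_psi : ∀ x, psiFun (psiFun x) = x := by decide +kernel

/-- An automorphism fixing `B` and `C`. -/
def psi : H ≃* H := ⟨⟨psiFun, psiFun, psi_psi, psi_psi⟩, psi_mul⟩

theorem psi_B : psi B = B := by decide +kernel
theorem psi_C : psi C = C := by decide +kernel
theorem psi_T : psi T = T := by decide +kernel
theorem psi_X : psi X = C * X⁻¹ * C := by decide +kernel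

end Cfsg.Agent.Lib.GL23
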