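import Mathlib
import Cfsg.Agent.Lib.GL23
import Cfsg.Agent.Lib.CharTI
import Cfsg.Agent.Lib.CharClassMul
import Cfsg.Agent.Lib.ConjCount

/-! The order of a group with an involution centraliser `GL₂(3)` and one class of involutions. -/

set_option autoImplicit false

namespace Cfsg.Agent.Lib.GL23Char

open Cfsg Subgroup GL23 CharBasic CharOrth CharInd CharTI CharClassMul Finset
open scoped ComplexConjugate

variable {G : Type*} [Group G]

/-- `f` maps `GL₂(3)` onto the centraliser of the image of the central involution. -/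
structure Cent (f : H →* G) : Prop where
  inj : Function.Injective f
  cent : ∀ g, g * f T = f T * g → ∃ h, f h = g

/-- Moreover the involutions of `GL₂(3)` are fused. -/
structure Hyp (f : H →* G) : Prop extends Cent f where
  fus : IsConj (f T) (f B)

namespace Cent

variable {f : H →* G} (h : Cent f)
include h

omit h in
theorem tt : f T * f T = 1 := by rw [← map_mul, TT, map_one]

theorem t_ne : f T ≠ 1 := fun e => T_ne (h.inj (e.trans (map_one f).symm))

omit h in
theorem comm (k : H) : f k * f T = f T * f k := by rw [← map_mul, T_comm, map_mul]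

theorem range_eq : centralizer ({f T} : Set G) = f.range := by
  ext g
  rw [mem_centralizer_singleton_iff]
  exact ⟨h.cent g, by rintro ⟨k, rfl⟩; exact comm k⟩

theorem card_cent : Nat.card (centralizer ({f T} : Set G)) = 48 := by
  rw [h.range_eq, ← Nat.card_congr (MonoidHom.ofInjective h.inj).toEquiv, card_H]

theorem exists_sylow [Finite G] : ∃ P : Sylow 2 G, (P : Subgroup G) = S0.map f := by
  have hc : Nat.card (S0.map f) = 16 := by rw [card_map_of_injective h.inj, card_S0]
  obtain ⟨P, hP⟩ := (IsPGroup.of_card (p := 2) (n := 4) hc).exists_le_sylow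
  have htP : f T ∈ (P : Subgroup G) := hP ⟨T, show T ∈ S0 by decide +kernel, rfl⟩
  haveI : Nontrivial P := ⟨⟨⟨_, htP⟩, 1, fun e => h.t_ne (congrArg Subtype.val e)⟩⟩
  haveI := P.isPGroup'.center_nontrivial
  obtain ⟨⟨⟨z, hzP⟩, hz⟩, hz1⟩ := exists_ne (1 : center P)
  have hz' : ∀ g ∈ (P : Subgroup G), g * z = z * g := fun g hg =>
    congrArg Subtype.val (mem_center_iff.1 hz ⟨g, hg⟩)
  obtain ⟨k, rfl⟩ := h.cent z (hz' _ htP).symm
  rcases AC_S0 k (fun s hs => h.inj (by
    rw [map_mul, map_mul]; exact (hz' _ (hP ⟨s, hs, rfl⟩)).symm)) with rfl | rfl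
  · exact absurd (Subtype.ext (Subtype.ext (map_one f))) hz1
  have hle : (P : Subgroup G) ≤ centralizer {f T} := fun g hg =>
    mem_centralizer_singleton_iff.2 (hz' g hg)
  have h1 := card_dvd_of_le hle
  obtain ⟨n, hn⟩ := P.isPGroup'.exists_card_eq
  rw [h.card_cent, hn] at h1
  have h2 : 2 ^ n ∣ 16 :=
    (Nat.Coprime.pow_left n (by norm_num : Nat.Coprime 2 3)).dvd_of_dvd_mul_right h1
  exact ⟨P, (eq_of_le_of_card_ge hP (by rw [hc, hn]; exact Nat.le_of_dvd (by norm_num) h2)).symm⟩

theorem card_G [Finite G] : Nat.card {y : G // IsConj (f T) y} * 48 = Nat.card G := by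
  rw [← h.card_cent]; exact ConjCount.card_isConj_mul _

theorem odd_m [Finite G] : Odd (Nat.card {y : G // IsConj (f T) y}) := by
  obtain ⟨P, hP⟩ := h.exists_sylow
  have h1 := P.not_dvd_index
  have h2 := (P : Subgroup G).index_mul_card
  rw [← h.card_G, hP, card_map_of_injective h.inj, card_S0, ← hP] at h2
  rw [Nat.odd_iff]
  omega

end Cent

/-- The generalised character of `GL₂(3)`. -/
noncomputable def α : H → ℂ := fun k => al k

theorem ind_one_apply {K : Type*} [Group K] [Fintype K] (U : Subgroup K) [DecidablePred (· ∈ U)]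
    (g : K) : ind U.subtype (fun _ => 1) g =
      (Nat.card U : ℂ)⁻¹ * (#{x : K | x⁻¹ * g * x ∈ U} : ℕ) := by
  classical
  rw [ind_apply, card_filter]
  push_cast
  congr 1
  refine sum_congr rfl fun x _ => ?_
  split_ifs with hx
  · rw [sum_eq_single ⟨_, hx⟩]
    · simp
    · intro b _ hb
      exact if_neg fun e : (b : K) = x⁻¹ * g * x => hb (Subtype.ext e)
    · simp
  · exact sum_eq_zero fun b _ => if_neg fun e : (b : K) = x⁻¹ * g * x => hx (e ▸ b.2)

theorem genChar_α : IsGeneralizedCharacter H α := by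
  have : α = (fun _ => 1) + ind S0.subtype (fun _ => 1) - ind Bo.subtype (fun _ => 1) := by
    ext g
    have := congrArg (Nat.cast : ℕ → ℂ) (al_eq g)
    push_cast at this
    simp only [Pi.sub_apply, Pi.add_apply, ind_one_apply, card_S0, card_Bo, α]
    push_cast
    linear_combination this / 48
  rw [this]
  exact genChar_sub (genChar_add (genChar_of_char isChar_one)
    (genChar_of_char (isChar_ind _ isChar_one))) (genChar_of_char (isChar_ind _ isChar_one))

theorem char_invol [Finite G] {χ : G → ℂ} (hχ : IsCharacter G χ) {t : G} (ht : t * t = 1) :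
    ∃ n : ℤ, χ t = n := by
  obtain ⟨s, -, h1, -, -, h2, -⟩ := exists_eigenvalues hχ t
  rw [h2]
  refine Multiset.sum_induction (fun z : ℂ => ∃ n : ℤ, z = n) s ?_ ⟨0, by simp⟩ fun ε hε => ?_
  · rintro _ _ ⟨a, rfl⟩ ⟨b, rfl⟩
    exact ⟨a + b, by simp⟩
  · obtain ⟨k, hk⟩ : orderOf t ∣ 2 := orderOf_dvd_of_pow_eq_one (by rw [sq, ht])
    have : ε ^ 2 = 1 := by rw [hk, pow_mul, h1 ε hε, one_pow]
    rcases sq_eq_one_iff.1 this with rfl | rfl
    · exact ⟨1, by simp⟩
    · exact ⟨-1, by simp⟩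

set_option synthInstance.maxSize 2000 in
theorem arith_aux : ∀ a : ℕ, a < 10 → ∀ b : ℕ, b < 1800 → ∀ y z : ℤ, y = (a : ℤ) - 5 → z = (b : ℤ) - 900 →
    (96 * (z + y) * (z + y + 1)) % (z * z) = 0 → z ≠ 0 →
    (96 * (z + y) * (z + y + 1)) / (z * z) % 2 = 1 →
    (96 * (z + y) * (z + y + 1)) / (z * z) ∈ [45, 63, 77, 93, 95, 97, 99, 117, 135, 165] := by
  intro a ha b hb y z hy hz
  subst hy hz
  revert a b
  decide +kernel

theorem arith {m : ℕ} (hm : Odd m) {x y : ℤ} (hx : x ≠ 0) (hx1 : x + 1 ≠ 0)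
    (hy : 1 + y ^ 2 + (-1 - y) ^ 2 ≤ 48) (h : m * (x - y) ^ 2 = 96 * x * (x + 1)) :
    m ∈ [45, 63, 77, 93, 95, 97, 99, 117, 135, 165] := by
  obtain ⟨z, rfl⟩ : ∃ z, x = z + y := ⟨x - y, by ring⟩
  rw [add_sub_cancel_right, sq] at h
  have hz : z ≠ 0 := by
    rintro rfl
    exact mul_ne_zero (mul_ne_zero (by norm_num) hx) hx1 (h.symm.trans (by simp))
  have h1 : -5 ≤ y := by nlinarith
  have h2 : y ≤ 4 := by nlinarith
  have h3 : ((m : ℤ) - 96) * (z * z) = 96 * ((2 * y + 1) * z + y * (y + 1)) := by linear_combination h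
  have h4 : (m : ℤ) % 2 = 1 := by have := Nat.odd_iff.1 hm; omega
  have h5 : -900 ≤ z ∧ z < 900 := by
    have : 1 ≤ (m : ℤ) - 96 ∨ (m : ℤ) - 96 ≤ -1 := by omega
    constructor <;> by_contra h6 <;> rcases this with h7 | h7 <;> nlinarith
  have h6 : 96 * (z + y) * (z + y + 1) / (z * z) = m := by
    rw [← h, Int.mul_ediv_cancel _ (mul_ne_zero hz hz)]
  have := arith_aux (y + 5).toNat (by omega) (z + 900).toNat (by omega) y z (by omega) (by omega)
    (by rw [← h]; simp) hz (by rw [h6, h4])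
  rw [h6] at this
  simp only [List.mem_cons, List.not_mem_nil, or_false] at this ⊢
  omega

theorem al_inv : ∀ k : H, al k ≠ 0 → al k⁻¹ ≠ 0 := by decide +kernel

namespace Hyp

variable {f : H →* G} (h : Hyp f)
include h

theorem isConj_f {k : H} (hk : k * k = 1) (hk1 : k ≠ 1) : IsConj (f T) (f k) := by
  rcases invol k hk with rfl | rfl | ⟨c, rfl⟩
  · exact absurd rfl hk1
  · exact IsConj.refl _
  · exact h.fus.trans (isConj_iff.2 ⟨f c, by simp⟩)

theorem isConj_of_invol [Finite G] {g : G} (hg : g * g = 1) (hg1 : g ≠ 1) : IsConj (f T) g := by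
  obtain ⟨P, hP⟩ := h.exists_sylow
  have hz : IsPGroup 2 (zpowers g) := IsPGroup.of_card_dvd_pow (n := 1) (by
    rw [Nat.card_zpowers, pow_one]; exact orderOf_dvd_of_pow_eq_one (by rw [sq, hg]))
  obtain ⟨Q, hQ⟩ := hz.exists_le_sylow
  obtain ⟨c, rfl⟩ := MulAction.exists_smul_eq G P Q
  have h1 := hQ (mem_zpowers g)
  rw [Sylow.coe_subgroup_smul, mem_pointwise_smul_iff_inv_smul_mem, hP] at h1
  obtain ⟨k, -, hk⟩ := h1
  have hk' : c * f k * c⁻¹ = g := by rw [hk]; simp [mul_assoc]
  refine (h.isConj_f (h.inj ?_) ?_).trans (isConj_iff.2 ⟨c, hk'⟩)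
  · rw [map_mul, map_one]
    calc f k * f k = c⁻¹ * (g * g) * c := by rw [← hk']; group
      _ = 1 := by rw [hg]; simp
  · rintro rfl
    exact hg1 (by rw [← hk']; simp)

omit h in
theorem sq_of_isConj {g : G} (hg : IsConj (f T) g) : g * g = 1 := by
  obtain ⟨c, rfl⟩ := isConj_iff.1 hg
  calc c * f T * c⁻¹ * (c * f T * c⁻¹) = c * (f T * f T) * c⁻¹ := by group
    _ = 1 := by rw [Cent.tt]; simp

theorem ne_of_isConj {g : G} (hg : IsConj (f T) g) : g ≠ 1 := by
  rintro rfl
  exact h.t_ne (isConj_one_right.1 hg.symm)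

theorem mem_of_conj {k k' : H} (hk : al k ≠ 0) (hk' : al k' ≠ 0) {x : G}
    (e : f k' = x⁻¹ * f k * x) : ∃ c, f c = x := by
  have e' : ∀ n : ℕ, f (k' ^ n) = x⁻¹ * f (k ^ n) * x := fun n => by
    rw [map_pow, map_pow, e]
    simpa using conj_pow (a := x⁻¹) (b := f k) (i := n)
  have key : ∀ n : ℕ, k ^ n = T → k' ^ n = T → ∃ c, f c = x := fun n h1 h2 => by
    have := e' n
    rw [h1, h2] at this
    refine h.cent x ?_
    nth_rewrite 1 [this]; group
  rcases al_ne k hk with ⟨h1, h2⟩ | h1 <;> rcases al_ne k' hk' with ⟨h3, h4⟩ | h3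
  · exact key 2 h2 h4
  · have := e' 4
    rw [h1, h3] at this
    exact absurd (by simpa using this) h.t_ne
  · have := e' 4
    rw [h1, h3, map_one] at this
    refine absurd ?_ h.t_ne
    calc f T = x * (x⁻¹ * f T * x) * x⁻¹ := by group
      _ = 1 := by rw [← this]; simp
  · exact key 4 h1 h3

theorem ind_α [Fintype G] {k : H} (hk : al k ≠ 0) : ind f α (f k) = α k := by
  classical
  rw [ind_apply, ← sum_subset (subset_univ (univ.image f)), sum_image h.inj.injOn]
  · rw [sum_congr rfl (g := fun _ => α k) fun c _ => ?_]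
    · simp [← Nat.card_eq_fintype_card, card_H]
    rw [sum_eq_single (c⁻¹ * k * c)]
    · have := al_conj k c⁻¹
      rw [inv_inv] at this
      simp [α, this]
    · intro b _ hb
      exact if_neg fun e => hb (h.inj (by simpa using e))
    · simp
  · intro x _ hx
    refine sum_eq_zero fun k' _ => ?_
    split_ifs with e
    · by_contra h1
      obtain ⟨c, rfl⟩ := h.mem_of_conj hk (by simpa [α] using h1) e
      exact hx (mem_image_of_mem f (mem_univ c))
    · rfl

theorem ind_α_invol [Finite G] {g : G} (hg : g * g = 1) : ind f α g = 0 := by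
  refine ind_eq_zero_of_not_conj f α fun x k e => ?_
  by_contra h1
  have h2 : k ^ 2 = 1 := h.inj (by
    rw [map_pow, e, map_one, sq]
    calc x⁻¹ * g * x * (x⁻¹ * g * x) = x⁻¹ * (g * g) * x := by group
      _ = 1 := by rw [hg]; simp)
  rcases al_ne k (by simpa [α] using h1) with ⟨-, h3⟩ | h3
  · exact T_ne (h3.symm.trans h2)
  · exact T_ne (by rw [← h3, show 4 = 2 * 2 from rfl, pow_mul, h2, one_pow])

open Classical in
theorem sum_pairs [Fintype G] :
    ∑ x with IsConj (f T) x, ∑ y with IsConj (f T) y, ind f α (x * y) =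
      (Nat.card G : ℂ) * 2 := by
  let β : G → ℂ := fun g => ∑ k : H, if f k = g then α k else 0
  let I : Finset H := {x | x * x = 1 ∧ x ≠ 1}
  have hβ : ∀ k, β (f k) = α k := fun k => by
    simp only [β]
    rw [sum_eq_single k] <;> simp +contextual [h.inj.eq_iff]
  have hI : I.image f ⊆ univ.filter (IsConj (f T) ·) := by
    intro x hx
    obtain ⟨k, hk, rfl⟩ := mem_image.1 hx
    simpa using h.isConj_f (mem_filter.1 hk).2.1 (mem_filter.1 hk).2.2
  have hI' : ∀ k, IsConj (f T) (f k) → f k ∈ I.image f := fun k hk =>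
    mem_image_of_mem f (mem_filter.2 ⟨mem_univ _, h.inj (by
      rw [map_mul, map_one]; exact sq_of_isConj hk), fun e => h.ne_of_isConj hk (by simp [e])⟩)
  have hz : ∀ x y, IsConj (f T) x → IsConj (f T) y → β (x * y) ≠ 0 →
      x ∈ I.image f ∧ y ∈ I.image f := fun x y hx hy hb => by
    obtain ⟨k, -, hk⟩ := exists_ne_zero_of_sum_ne_zero hb
    have e : f k = x * y := by by_contra e; exact hk (if_neg e)
    have hk' : al k ≠ 0 := by rw [if_pos e] at hk; simpa [α] using hk
    have hk'' : al k⁻¹ ≠ 0 := al_inv k hk'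
    have x2 := inv_eq_of_mul_eq_one_right (sq_of_isConj hx)
    have y2 := inv_eq_of_mul_eq_one_right (sq_of_isConj hy)
    obtain ⟨a, rfl⟩ := h.mem_of_conj hk' hk'' (x := x) (by
      rw [map_inv, e, mul_inv_rev, y2, inv_mul_cancel_left, x2])
    obtain ⟨b, rfl⟩ := h.mem_of_conj hk' hk'' (x := y) (by
      rw [map_inv, e, mul_inv_rev, x2, mul_assoc, mul_assoc, sq_of_isConj hy, mul_one])
    exact ⟨hI' a hx, hI' b hy⟩
  have h1 : ∑ x with IsConj (f T) x, ∑ y with IsConj (f T) y, β (x * y) = 96 := by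
    rw [← sum_subset hI fun x hx hx' => sum_eq_zero fun y hy => by
      by_contra hb
      exact hx' (hz x y (mem_filter.1 hx).2 (mem_filter.1 hy).2 hb).1]
    rw [sum_congr rfl fun x hx => (sum_subset hI fun y hy hy' => by
      by_contra hb
      exact hy' (hz x y (mem_filter.1 (hI hx)).2 (mem_filter.1 hy).2 hb).2).symm]
    simp only [sum_image h.inj.injOn, ← map_mul, hβ, α]
    have := congrArg (Nat.cast : ℕ → ℂ) sum_al_invol
    push_cast at this
    convert this
  have h2 : ∀ (z : G) (F : G → ℂ), ∑ x with IsConj (f T) x, F (z⁻¹ * x * z) =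
      ∑ x with IsConj (f T) x, F x := fun z F =>
    sum_equiv (MulAut.conj z⁻¹).toEquiv (fun x => by
      have := isConj_conj_iff (f T) x z⁻¹
      simpa using this.symm) (fun x _ => by simp)
  have h3 : ∀ z : G, ∑ x with IsConj (f T) x, ∑ y with IsConj (f T) y, β (z⁻¹ * (x * y) * z) = 96 :=
    fun z => by
      rw [← h1, ← h2 z fun x => ∑ y with IsConj (f T) y, β (x * y)]
      refine sum_congr rfl fun x _ => ?_
      rw [← h2 z fun y => β (z⁻¹ * x * z * y)]
      refine sum_congr rfl fun y _ => ?_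
      congr 1; group
  simp only [ind_apply, ← mul_sum]
  rw [sum_congr rfl fun x _ => sum_comm, sum_comm]
  have h4 : ∀ z : G, ∑ x with IsConj (f T) x, ∑ y with IsConj (f T) y,
      ∑ k : H, (if f k = z⁻¹ * (x * y) * z then α k else 0) = 96 := h3
  simp only [h4, sum_const, card_univ, card_H, ← Nat.card_eq_fintype_card, nsmul_eq_mul]
  push_cast
  ring

theorem card_mem [Finite G] : Nat.card {y : G // IsConj (f T) y} ∈
    [45, 63, 77, 93, 95, 97, 99, 117, 135, 165] := by
  classical
  haveI := Fintype.ofFinite G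
  have hθ := genChar_ind f genChar_α
  have h1 : classInner (ind f α) (fun _ => 1) = ((1 : ℤ) : ℂ) := by
    rw [cinner_ind_left f α (classFun_const 1), cinner_one_right, card_H]
    have := congrArg (Nat.cast : ℕ → ℂ) sum_al
    push_cast at this
    simp only [α, this]
    norm_num
  have h3 : classInner (ind f α) (ind f α) = 3 := by
    rw [cinner_ind_left f α (ind_classFun f α), classInner, card_H,
      sum_congr rfl (g := fun k => α k * α k) fun k _ => ?_]
    · have := congrArg (Nat.cast : ℕ → ℂ) sum_al_sq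
      push_cast at this
      simp only [α, this]
      norm_num
    · by_cases hk : al k = 0
      · simp [α, hk]
      · rw [h.ind_α hk]; simp [α]
  obtain ⟨χ₁, χ₂, ε₁, ε₂, i1, i2, hne, he1, he2, e⟩ := genChar_norm_two
    (genChar_sub hθ (genChar_zsmul (genChar_of_irr irr_one) 1))
    (by rw [cinner_sub_proj irr_one h1, h3]; norm_num)
  have h0 := cinner_sub_proj_irr irr_one h1
  rw [e, cinner_add_left, cinner_smul_left, cinner_smul_left] at h0
  have hε1 : (ε₁ : ℂ) ≠ 0 := by rcases he1 with rfl | rfl <;> simp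
  have hε2 : (ε₂ : ℂ) ≠ 0 := by rcases he2 with rfl | rfl <;> simp
  have n1 : χ₁ ≠ fun _ => 1 := by
    rintro rfl
    rw [cinner_irr_self irr_one, cinner_irr_ne i2 irr_one hne.symm] at h0
    exact hε1 (by simpa using h0)
  have n2 : χ₂ ≠ fun _ => 1 := by
    rintro rfl
    rw [cinner_irr_self irr_one, cinner_irr_ne i1 irr_one hne] at h0
    exact hε2 (by simpa using h0)
  have ev : ∀ g, ind f α g = 1 + ε₁ * χ₁ g + ε₂ * χ₂ g := fun g => by
    have := congrFun e g
    simp only [Pi.sub_apply, Pi.smul_apply, smul_eq_mul, Pi.add_apply] at this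
    push_cast at this
    linear_combination this
  obtain ⟨d1, hd1, e1⟩ := irr_one_pos i1
  obtain ⟨d2, hd2, e2⟩ := irr_one_pos i2
  obtain ⟨y1, f1⟩ := char_invol (irr_isChar i1) (Cent.tt (f := f))
  obtain ⟨y2, f2⟩ := char_invol (irr_isChar i2) (Cent.tt (f := f))
  have a1 := ev 1
  have a2 := ev (f T)
  rw [h.ind_α_invol (mul_one 1), e1, e2] at a1
  rw [h.ind_α_invol Cent.tt, f1, f2] at a2
  have a1' : (0 : ℤ) = 1 + ε₁ * d1 + ε₂ * d2 := by exact_mod_cast a1
  have a2' : (0 : ℤ) = 1 + ε₁ * y1 + ε₂ * y2 := by exact_mod_cast a2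
  have hb : 1 + y1 ^ 2 + y2 ^ 2 ≤ 48 := by
    have h4 := second_orth_self_real (f T)
    rw [h.card_cent] at h4
    have h5 := sum_le_sum_of_subset_of_nonneg (s := {fun _ => 1, χ₁, χ₂}) (t := irr G)
      (f := fun χ => ‖χ (f T)‖ ^ 2) (by
        intro χ hχ
        simp only [mem_insert, mem_singleton] at hχ
        rcases hχ with rfl | rfl | rfl
        exacts [mem_irr.2 irr_one, mem_irr.2 i1, mem_irr.2 i2]) fun _ _ _ => sq_nonneg _
    rw [h4, sum_insert (by simp [n1.symm, n2.symm]), sum_pair hne, f1, f2] at h5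
    simp only [norm_one, one_pow, Complex.norm_intCast, sq_abs] at h5
    have : ((1 + y1 ^ 2 + y2 ^ 2 : ℤ) : ℝ) ≤ (48 : ℤ) := by push_cast at h5 ⊢; linarith
    exact_mod_cast this
  have hs := h.sum_pairs
  simp only [ev, sum_add_distrib, ← mul_sum, sum_class_class i1, sum_class_class i2, sum_const,
    nsmul_eq_mul, mul_one] at hs
  have hm : #{x : G | IsConj (f T) x} = Nat.card {y : G // IsConj (f T) y} := by
    rw [Nat.card_eq_fintype_card, Fintype.card_subtype]
  rw [← h.card_G, hm, e1, e2, f1, f2] at hs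
  have hodd := h.odd_m
  generalize Nat.card {y : G // IsConj (f T) y} = m at hs hodd
  have hm0 : (m : ℂ) ≠ 0 := by
    have := Nat.odd_iff.1 hodd
    exact_mod_cast (by omega : m ≠ 0)
  have c1 : (d1 : ℂ) ≠ 0 := by exact_mod_cast hd1.ne'
  have c2 : (d2 : ℂ) ≠ 0 := by exact_mod_cast hd2.ne'
  have hs' : (m : ℤ) * (d1 * d2 + ε₁ * y1 ^ 2 * d2 + ε₂ * y2 ^ 2 * d1) = 96 * d1 * d2 := by
    push_cast at hs
    field_simp at hs
    have : (m : ℂ) * (d1 * d2 + ε₁ * y1 ^ 2 * d2 + ε₂ * y2 ^ 2 * d1) = 96 * d1 * d2 := by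
      linear_combination hs
    exact_mod_cast this
  refine arith hodd (x := ε₁ * d1) (y := ε₁ * y1) ?_ ?_ ?_ ?_
  · rcases he1 with rfl | rfl <;> omega
  · rcases he2 with rfl | rfl <;> omega
  · rw [show -1 - ε₁ * y1 = ε₂ * y2 by linarith]
    rcases he1 with rfl | rfl <;> rcases he2 with rfl | rfl <;> simpa using hb
  · rcases he1 with rfl | rfl <;> rcases he2 with rfl | rfl
    · omega
    · have u1 : (d2 : ℤ) = 1 + d1 := by omega
      have u2 : y2 = 1 + y1 := by omega
      rw [u1, u2] at hs'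
      linear_combination hs'
    · have u1 : (d2 : ℤ) = d1 - 1 := by omega
      have u2 : y2 = y1 - 1 := by omega
      rw [u1, u2] at hs'
      linear_combination hs'
    · omega

end Hyp

end Cfsg.Agent.Lib.GL23Char
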