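import Mathlib
import Cfsg.Agent.Lib.G3Model
import Cfsg.Agent.Lib.GL23Char
import Cfsg.Agent.Lib.GWBlock

/-! A group with involution centraliser `(SL₂(3) ∘ SL₂(3)) : 2`, one class of involutions and
all centralisers of elements of order `3` inside the involution centraliser has order prime to `7`. -/

set_option autoImplicit false
set_option maxRecDepth 100000

namespace Cfsg.Agent.Lib.G3Char

open Cfsg Subgroup G3Model CharBasic CharOrth CharInd CharTI CharClassMul CharInt Finset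
open scoped ComplexConjugate

variable {G : Type*} [Group G]

def As : Subgroup Dm where
  carrier := {x | x.v < 9}
  one_mem' := by decide
  mul_mem' := fun {a b} => (by decide +kernel : ∀ a b : Dm, a.v < 9 → b.v < 9 → (a * b).v < 9) a b
  inv_mem' := fun {a} => (by decide +kernel : ∀ a : Dm, a.v < 9 → (a⁻¹).v < 9) a

def Ls : Subgroup Dm where
  carrier := {x | x.v % 3 = 0}
  one_mem' := by decide
  mul_mem' := fun {a b} =>
    (by decide +kernel : ∀ a b : Dm, a.v % 3 = 0 → b.v % 3 = 0 → (a * b).v % 3 = 0) a b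
  inv_mem' := fun {a} => (by decide +kernel : ∀ a : Dm, a.v % 3 = 0 → (a⁻¹).v % 3 = 0) a

instance decAs : DecidablePred (· ∈ As) := fun x => inferInstanceAs (Decidable (x.v < 9))
instance decLs : DecidablePred (· ∈ Ls) := fun x => inferInstanceAs (Decidable (x.v % 3 = 0))

theorem card_As : Nat.card As = 9 := (@HJModel.card_subtype 17 (· ∈ As) decAs).trans (by decide +kernel)
theorem card_Ls : Nat.card Ls = 6 := (@HJModel.card_subtype 17 (· ∈ Ls) decLs).trans (by decide +kernel)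

theorem ad_eq : ∀ g : Dm, 18 * ad g + 3 * ∑ x : Dm, (if x⁻¹ * g * x ∈ Ls then 1 else 0) =
    18 + 2 * ∑ x : Dm, (if x⁻¹ * g * x ∈ As then 1 else 0) := by
  have h1 : ∀ g : Dm, ∑ x : Dm, (if x⁻¹ * g * x ∈ Ls then 1 else 0) = sumN (fun v =>
      (fun x : Dm => if x⁻¹ * g * x ∈ Ls then 1 else 0) (HJModel.Num.of 17 v)) 18 := fun g =>
    sum_Num fun x : Dm => if x⁻¹ * g * x ∈ Ls then 1 else 0
  have h2 : ∀ g : Dm, ∑ x : Dm, (if x⁻¹ * g * x ∈ As then 1 else 0) = sumN (fun v =>
      (fun x : Dm => if x⁻¹ * g * x ∈ As then 1 else 0) (HJModel.Num.of 17 v)) 18 := fun g =>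
    sum_Num fun x : Dm => if x⁻¹ * g * x ∈ As then 1 else 0
  simp only [h1, h2]
  decide +kernel

/-- The generalised character of `H`. -/
noncomputable def α : Hm → ℂ := fun k => al k

theorem genChar_α : IsGeneralizedCharacter Hm α := by
  have : (fun x : Dm => (ad x : ℂ)) =
      (fun _ => 1) + ind As.subtype (fun _ => 1) - ind Ls.subtype (fun _ => 1) := by
    ext g
    have := congrArg (Nat.cast : ℕ → ℂ) (ad_eq g)
    simp only [Pi.sub_apply, Pi.add_apply, GL23Char.ind_one_apply, card_As, card_Ls, card_filter]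
    push_cast at this ⊢
    linear_combination this / 18
  exact genChar_comp (θ := fun x : Dm => (ad x : ℂ)) (this ▸ genChar_sub (genChar_add
    (genChar_of_char isChar_one) (genChar_of_char (isChar_ind _ isChar_one)))
      (genChar_of_char (isChar_ind _ isChar_one))) pr

def ck (z x : ℤ) : Prop := x % 9 ≠ 0 → (x + 1) % 9 ≠ 0 → (10368 * x * (x + 1)) % (z * z) = 0 →
  10368 * x * (x + 1) / (z * z) % 2 = 1 → 10368 * x * (x + 1) / (z * z) % 3 ≠ 0 →
    10368 * x * (x + 1) / (z * z) % 7 = 0 → 10368 * x * (x + 1) / (z * z) ∈ [8911, 11935, 9835]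

set_option synthInstance.maxSize 2000 in
instance decCk (z x : ℤ) : Decidable (ck z x) := by unfold ck; infer_instance

theorem arith_aux : ∀ a : ℕ, a < 4900 → ∀ z : ℤ, z = (a : ℤ) - 2450 → 5971968 % (z * z) = 0 →
    ∀ b : ℕ, b < 34 → ∀ x : ℤ, x = z + ((b : ℤ) - 17) → x % 9 ≠ 0 → (x + 1) % 9 ≠ 0 →
    ∀ m : ℤ, m = 10368 * x * (x + 1) / (z * z) → (10368 * x * (x + 1)) % (z * z) = 0 → m % 2 = 1 →
    m % 3 ≠ 0 → m % 7 = 0 → m = 8911 ∨ m = 11935 ∨ m = 9835 := by
  have h : ∀ a : ℕ, a < 4900 → 5971968 % (((a : ℤ) - 2450) * ((a : ℤ) - 2450)) = 0 → ∀ b : ℕ, b < 34 →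
      ck ((a : ℤ) - 2450) ((a : ℤ) - 2450 + ((b : ℤ) - 17)) := by
    decide +kernel
  rintro a ha _ rfl h1 b hb _ rfl h2 h3 _ rfl h4 h5 h6 h7
  simpa only [List.mem_cons, List.not_mem_nil, or_false] using h a ha h1 b hb h2 h3 h4 h5 h6 h7

theorem arith {m : ℕ} (h2 : ¬ 2 ∣ m) (h3 : ¬ 3 ∣ m) (h7 : 7 ∣ m) {x y : ℤ} (hx : ¬ 9 ∣ x)
    (hx1 : ¬ 9 ∣ x + 1) (d1 : x ∣ m * 576) (d2 : x + 1 ∣ m * 576)
    (hy : 1 + y ^ 2 + (-1 - y) ^ 2 ≤ 576) (h : m * (x - y) ^ 2 = 10368 * x * (x + 1)) :
    m = 8911 ∨ m = 11935 ∨ m = 9835 := by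
  have x0 : x ≠ 0 := by rintro rfl; simp at hx
  have x1 : x + 1 ≠ 0 := fun e => by simp [e] at hx1
  obtain ⟨q, hq⟩ := IsCoprime.mul_dvd (show IsCoprime x (x + 1) from ⟨-1, 1, by ring⟩) d1 d2
  obtain ⟨z, rfl⟩ : ∃ z, x = z + y := ⟨x - y, by ring⟩
  rw [add_sub_cancel_right, sq] at h
  have hz : z ≠ 0 := by
    rintro rfl
    exact mul_ne_zero (mul_ne_zero (by norm_num) x0) x1 (h.symm.trans (by simp))
  have h4 : 5971968 = z * z * q := mul_left_cancel₀ (mul_ne_zero x0 x1) (by
    linear_combination (z * z) * hq - 576 * h)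
  have h5 : z * z ≤ 5971968 := Int.le_of_dvd (by norm_num) ⟨q, h4⟩
  have h6 : -2450 ≤ z ∧ z < 2450 := by constructor <;> nlinarith
  have h8 : -17 ≤ y := by nlinarith
  have h9 : y ≤ 16 := by nlinarith
  have := arith_aux (z + 2450).toNat (by omega) z (by omega) (by rw [h4]; simp) (y + 17).toNat (by omega)
    (z + y) (by omega) (by omega) (by omega) m (by rw [← h, Int.mul_ediv_cancel _ (mul_ne_zero hz hz)])
    (by rw [← h]; simp) (by omega) (by omega) (by omega)
  omega

structure Hyp (f : Hm →* G) : Prop where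
  inj : Function.Injective f
  cent : ∀ g, g * f ez = f ez * g → g ∈ f.range
  one : ∀ x, x * x = 1 → x ≠ 1 → IsConj (f ez) x
  three : ∀ c : Hm, c * c * c = 1 → c ≠ 1 → ∀ g, g * f c = f c * g → g ∈ f.range

theorem zz : ez * ez = 1 := by decide +kernel

namespace Hyp

variable {f : Hm →* G} (h : Hyp f)
include h

omit h in
theorem tt : f ez * f ez = 1 := by rw [← map_mul, zz, map_one]

theorem t_ne : f ez ≠ 1 := fun e => ez_ne (h.inj (e.trans (map_one f).symm))

theorem range_eq : centralizer ({f ez} : Set G) = f.range := by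
  ext g
  rw [mem_centralizer_singleton_iff]
  exact ⟨h.cent g, by rintro ⟨k, rfl⟩; rw [← map_mul, ez_cent, map_mul]⟩

theorem card_range : Nat.card f.range = 576 := by
  rw [← Nat.card_congr (MonoidHom.ofInjective h.inj).toEquiv, card_Hm]

theorem card_cent : Nat.card (centralizer ({f ez} : Set G)) = 576 := by
  rw [h.range_eq, h.card_range]

theorem card_G [Finite G] : Nat.card {y : G // IsConj (f ez) y} * 576 = Nat.card G := by
  rw [← h.card_cent]; exact ConjCount.card_isConj_mul _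

theorem card_cent' [Finite G] {x : G} (hx : x * x = 1) (h1 : x ≠ 1) :
    Nat.card (centralizer ({x} : Set G)) = 576 := by
  have e := ConjCount.card_isConj_mul x
  have c := h.one x hx h1
  rw [Nat.card_congr (Equiv.subtypeEquivRight fun y =>
    (⟨c.trans, c.symm.trans⟩ : IsConj x y ↔ IsConj (f ez) y)), ← h.card_G] at e
  refine Nat.eq_of_mul_eq_mul_left ?_ e
  have h2 := h.card_G
  have := Nat.card_pos (α := G)
  omega

omit h in
theorem m_eq [Finite G] {m : ℕ} (hm : m * 576 = Nat.card G) {U : Subgroup G} (hU : Nat.card U = 576) :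
    U.index = m := by
  have := U.index_mul_card
  rw [hU, ← hm] at this
  omega

omit h in
theorem exists_central [Finite G] {p : ℕ} [Fact p.Prime] (P : Sylow p G) (hp : p ∣ Nat.card G) :
    ∃ w ∈ (P : Subgroup G), w ≠ 1 ∧ w ^ p = 1 ∧ ∀ g ∈ (P : Subgroup G), g * w = w * g := by
  haveI : Nontrivial P := (nontrivial_iff_ne_bot _).2 (P.ne_bot_of_dvd_card hp)
  haveI := P.isPGroup'.center_nontrivial
  obtain ⟨n, hn0, hn⟩ := (P.isPGroup'.to_subgroup (center P)).nontrivial_iff_card.1 inferInstance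
  obtain ⟨⟨⟨w, hw⟩, hz⟩, ho⟩ := exists_prime_orderOf_dvd_card' (G := center P) p
    (hn ▸ dvd_pow_self p hn0.ne')
  refine ⟨w, hw, fun e => ?_, ?_, fun g hg => congrArg Subtype.val (mem_center_iff.1 hz ⟨g, hg⟩)⟩
  · subst e
    exact (Fact.out : p.Prime).one_lt.ne (by rw [← ho]; exact (orderOf_one).symm)
  · exact congrArg (fun x : center P => x.1.1) (ho ▸ pow_orderOf_eq_one _)

theorem not_two [Finite G] {m : ℕ} (hm : m * 576 = Nat.card G) : ¬ 2 ∣ m := by
  obtain ⟨P⟩ := (Sylow.nonempty : Nonempty (Sylow 2 G))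
  obtain ⟨w, -, h1, h2, h3⟩ := exists_central P (hm ▸ Dvd.dvd.mul_left (by norm_num) _)
  rw [← m_eq hm (h.card_cent' (by rw [← sq, h2]) h1)]
  exact fun e => P.not_dvd_index (e.trans (index_dvd_of_le fun g hg =>
    mem_centralizer_singleton_iff.2 (h3 g hg)))

theorem syl_three [Finite G] : ∃ P : Sylow 3 G, (P : Subgroup G) ≤ f.range := by
  have ha : ea * ea * ea = 1 ∧ ea ≠ 1 := by decide +kernel
  have hz : IsPGroup 3 (zpowers (f ea)) := IsPGroup.of_card_dvd_pow (n := 1) (by
    rw [Nat.card_zpowers, pow_one]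
    exact orderOf_dvd_of_pow_eq_one (by rw [← map_pow, pow_three', ha.1, map_one]))
  obtain ⟨P, hP⟩ := hz.exists_le_sylow
  obtain ⟨w, -, h1, h2, h3⟩ := exists_central P (h.card_G ▸ Dvd.dvd.mul_left (by norm_num) _)
  obtain ⟨c, rfl⟩ := h.three ea ha.1 ha.2 w (h3 _ (hP (mem_zpowers _))).symm
  exact ⟨P, fun g hg => h.three c (h.inj (by rw [← pow_three', map_pow, h2, map_one]))
    (fun e => h1 (by rw [e, map_one])) g (h3 g hg)⟩

theorem not_three [Finite G] {m : ℕ} (hm : m * 576 = Nat.card G) : ¬ 3 ∣ m := by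
  obtain ⟨P, hP⟩ := h.syl_three
  rw [← m_eq hm h.card_range]
  exact fun e => P.not_dvd_index (e.trans (index_dvd_of_le hP))

/-- An element that commutes with an element of order `2` or `3` has order dividing `576`. -/
theorem order_dvd [Finite G] {c g : G} (h1 : orderOf c = 2 ∨ orderOf c = 3) (e : g * c = c * g) :
    orderOf g ∣ 576 := by
  have hc : c ≠ 1 := by rintro rfl; simp at h1
  rcases h1 with h1 | h1
  · rw [← h.card_cent' (x := c) (by rw [← sq, ← h1, pow_orderOf_eq_one]) hc]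
    exact Subgroup.orderOf_dvd_natCard _ (mem_centralizer_singleton_iff.2 e)
  obtain ⟨P, hP⟩ := h.syl_three
  have hz : IsPGroup 3 (zpowers c) := IsPGroup.of_card (n := 1) (by rw [Nat.card_zpowers, pow_one, h1])
  obtain ⟨Q, hQ⟩ := hz.exists_le_sylow
  obtain ⟨u, rfl⟩ := MulAction.exists_smul_eq G P Q
  have h2 := hQ (mem_zpowers c)
  rw [Sylow.coe_subgroup_smul, mem_pointwise_smul_iff_inv_smul_mem] at h2
  obtain ⟨k, hk⟩ := hP h2
  have hk' : c = u * f k * u⁻¹ := by rw [hk]; simp [mul_assoc]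
  have h3 : u⁻¹ * g * u ∈ f.range := h.three k (h.inj (by
      rw [← pow_three', map_pow, map_one]
      have : c ^ 3 = 1 := by rw [← h1, pow_orderOf_eq_one]
      rwa [hk', conj_pow, conj_eq_one_iff] at this))
    (fun e => hc (by rw [hk', e]; simp)) _ (by
      calc u⁻¹ * g * u * f k = u⁻¹ * (g * c) * u := by rw [hk']; group
        _ = _ := by rw [e, hk']; group)
  have h4 := Subgroup.orderOf_dvd_natCard _ h3
  rwa [h.card_range, show u⁻¹ * g * u = (MulAut.conj u⁻¹) g by simp, MulEquiv.orderOf_eq] at h4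

theorem sylow_count [Finite G] (p r : ℕ) (hp : p.Prime) (h1 : ¬ p ∣ 576) (h2 : ¬ p ∣ r)
    (hG : p * r = Nat.card G) (h3 : 576 ∣ r) : ∃ n, n ∣ r ∧ n % p = 1 ∧ 576 ∣ n * (p - 1) := by
  haveI := Fact.mk hp
  obtain ⟨P⟩ := (Sylow.nonempty : Nonempty (Sylow p G))
  have hP : Nat.card P = p := by
    rw [P.card_eq_multiplicity, ← hG, Nat.factorization_mul hp.ne_zero (by rintro rfl; exact h2 (dvd_zero p)),
      Finsupp.add_apply, hp.factorization_self, Nat.factorization_eq_zero_of_not_dvd h2, pow_one]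
  have hi : (P : Subgroup G).index = r := by
    have := (P : Subgroup G).index_mul_card
    rw [hP, ← hG, mul_comm] at this
    exact Nat.eq_of_mul_eq_mul_left hp.pos this
  haveI : IsCyclic P := isCyclic_of_prime_card hP
  obtain ⟨⟨g, hg⟩, ho⟩ := exists_prime_orderOf_dvd_card' (G := P) p hP.symm.dvd
  rw [Subgroup.orderOf_mk] at ho
  have hc : ∀ q, q = 2 ∨ q = 3 → ¬ q ∣ Nat.card (centralizer (P : Set G)) := fun q hq e => by
    haveI : Fact q.Prime := ⟨by rcases hq with rfl | rfl <;> norm_num⟩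
    obtain ⟨⟨c, hc⟩, hco⟩ := exists_prime_orderOf_dvd_card' q e
    rw [Subgroup.orderOf_mk] at hco
    exact h1 (ho ▸ h.order_dvd (hco ▸ hq) (hc g hg))
  have k := card_dvd_of_injective _
    (QuotientGroup.kerLift_injective (P : Subgroup G).normalizerMonoidHom)
  rw [normalizerMonoidHom_ker, ← index, ← relIndex, IsCyclic.card_mulAut, hP, Nat.totient_prime hp] at k
  refine ⟨Nat.card (Sylow p G), hi ▸ P.card_dvd_index, ?_, ?_⟩
  · exact Eq.trans (card_sylow_modEq_one p G) (Nat.mod_eq_of_lt hp.one_lt)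
  · have e := (centralizer (P : Set G)).index_mul_card
    rw [← relIndex_mul_index (centralizer_le_normalizer (P : Set G)), ← P.card_eq_index_normalizer,
      ← hG] at e
    have c : Nat.Coprime 576 (Nat.card (centralizer (P : Set G))) :=
      Nat.Coprime.mul_left (m := 2 ^ 6) (n := 3 ^ 2)
        (((Nat.Prime.coprime_iff_not_dvd Nat.prime_two).2 (hc 2 (.inl rfl))).pow_left 6)
        (((Nat.Prime.coprime_iff_not_dvd Nat.prime_three).2 (hc 3 (.inr rfl))).pow_left 2)
    have := c.dvd_of_dvd_mul_right (e ▸ h3.mul_left p)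
    rw [mul_comm] at this
    exact this.trans (Nat.mul_dvd_mul_left _ k)

omit h in
theorem sq_of_isConj {g : G} (hg : IsConj (f ez) g) : g * g = 1 := by
  obtain ⟨c, rfl⟩ := isConj_iff.1 hg
  calc c * f ez * c⁻¹ * (c * f ez * c⁻¹) = c * (f ez * f ez) * c⁻¹ := by group
    _ = 1 := by rw [tt]; simp

theorem ne_of_isConj {g : G} (hg : IsConj (f ez) g) : g ≠ 1 := by
  rintro rfl
  exact h.t_ne (isConj_one_right.1 hg.symm)

theorem mem_of_conj {k k' : Hm} (hk' : al k' ≠ 0) {x : G}
    (e : f k' = x⁻¹ * f k * x) : ∃ c, f c = x := by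
  obtain ⟨-, h1, h2⟩ := al_ne k' hk'
  have e' : f (k' ^ 4) = x⁻¹ * f (k ^ 4) * x := by
    rw [map_pow, map_pow, e]
    simpa using conj_pow (a := x⁻¹) (b := f k) (i := 4)
  have h3 : x⁻¹ * f ez * x * f (k' ^ 4) = f (k' ^ 4) * (x⁻¹ * f ez * x) := by
    rw [e']
    calc x⁻¹ * f ez * x * (x⁻¹ * f (k ^ 4) * x) = x⁻¹ * f (ez * k ^ 4) * x := by rw [map_mul]; group
      _ = _ := by rw [← ez_cent, map_mul]; group
  obtain ⟨w, hw⟩ := h.three _ h1 h2 _ h3
  rcases cent_three _ h1 h2 w (h.inj (by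
    rw [map_mul, map_one, hw]
    exact sq_of_isConj (f := f) (isConj_iff.2 ⟨x⁻¹, by simp⟩))) (h.inj (by
      rw [map_mul, map_mul, hw, h3])) with rfl | rfl
  · rw [map_one] at hw
    exact absurd hw.symm (h.ne_of_isConj (isConj_iff.2 ⟨x⁻¹, by simp⟩))
  · refine h.cent x ?_
    nth_rewrite 1 [hw]; group

theorem ind_α [Fintype G] {k : Hm} : al k ≠ 0 → ind f α (f k) = α k := fun _ => by
  classical
  rw [ind_apply, ← sum_subset (subset_univ (univ.image f)), sum_image h.inj.injOn]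
  · rw [sum_congr rfl (g := fun _ => α k) fun c _ => ?_]
    · simp [← Nat.card_eq_fintype_card, card_Hm]
    rw [sum_eq_single (c⁻¹ * k * c)]
    · have := al_conj k c⁻¹
      rw [inv_inv] at this
      simp [α, this]
    · intro b _ hb
      exact if_neg fun e => hb (h.inj (by simpa using e))
    · simp
  · intro x _ hx
    refine sum_eq_zero fun k' _ => ?_
    split_ifs with e
    · by_contra h1
      obtain ⟨c, rfl⟩ := h.mem_of_conj (by simpa [α] using h1) e
      exact hx (mem_image_of_mem f (mem_univ c))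
    · rfl

theorem ind_α_invol [Finite G] {g : G} (hg : g * g = 1) : ind f α g = 0 := by
  refine ind_eq_zero_of_not_conj f α fun x k e => ?_
  by_contra h1
  have h2 : k ^ 2 = 1 := h.inj (by
    rw [map_pow, e, map_one, sq]
    calc x⁻¹ * g * x * (x⁻¹ * g * x) = x⁻¹ * (g * g) * x := by group
      _ = 1 := by rw [hg]; simp)
  exact (al_ne k (by simpa [α] using h1)).2.2 (by rw [show 4 = 2 * 2 from rfl, pow_mul, h2, one_pow])

open Classical in
theorem sum_pairs [Fintype G] :
    ∑ x with IsConj (f ez) x, ∑ y with IsConj (f ez) y, ind f α (x * y) =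
      (Nat.card G : ℂ) * 18 := by
  let β : G → ℂ := fun g => ∑ k : Hm, if f k = g then α k else 0
  let I : Finset Hm := {x | x * x = 1 ∧ x ≠ 1}
  have hβ : ∀ k, β (f k) = α k := fun k => by
    simp only [β]
    rw [sum_eq_single k] <;> simp +contextual [h.inj.eq_iff]
  have hI : I.image f ⊆ univ.filter (IsConj (f ez) ·) := by
    intro x hx
    obtain ⟨k, hk, rfl⟩ := mem_image.1 hx
    simpa using h.one (f k) (by rw [← map_mul, (mem_filter.1 hk).2.1, map_one])
      fun e => (mem_filter.1 hk).2.2 (h.inj (e.trans (map_one f).symm))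
  have hI' : ∀ k, IsConj (f ez) (f k) → f k ∈ I.image f := fun k hk =>
    mem_image_of_mem f (mem_filter.2 ⟨mem_univ _, h.inj (by
      rw [map_mul, map_one]; exact sq_of_isConj hk), fun e => h.ne_of_isConj hk (by simp [e])⟩)
  have hz : ∀ x y, IsConj (f ez) x → IsConj (f ez) y → β (x * y) ≠ 0 →
      x ∈ I.image f ∧ y ∈ I.image f := fun x y hx hy hb => by
    obtain ⟨k, -, hk⟩ := exists_ne_zero_of_sum_ne_zero hb
    have e : f k = x * y := by by_contra e; exact hk (if_neg e)
    have hk' : al k ≠ 0 := by rw [if_pos e] at hk; simpa [α] using hk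
    have hk'' : al k⁻¹ ≠ 0 := (al_ne k hk').1
    have x2 := inv_eq_of_mul_eq_one_right (sq_of_isConj hx)
    have y2 := inv_eq_of_mul_eq_one_right (sq_of_isConj hy)
    obtain ⟨a, rfl⟩ := h.mem_of_conj (k := k) hk'' (x := x) (by
      rw [map_inv, e, mul_inv_rev, y2, inv_mul_cancel_left, x2])
    obtain ⟨b, rfl⟩ := h.mem_of_conj (k := k) hk'' (x := y) (by
      rw [map_inv, e, mul_inv_rev, x2, mul_assoc, mul_assoc, sq_of_isConj hy, mul_one])
    exact ⟨hI' a hx, hI' b hy⟩
  have h1 : ∑ x with IsConj (f ez) x, ∑ y with IsConj (f ez) y, β (x * y) = 10368 := by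
    rw [← sum_subset hI fun x hx hx' => sum_eq_zero fun y hy => by
      by_contra hb
      exact hx' (hz x y (mem_filter.1 hx).2 (mem_filter.1 hy).2 hb).1]
    rw [sum_congr rfl fun x hx => (sum_subset hI fun y hy hy' => by
      by_contra hb
      exact hy' (hz x y (mem_filter.1 (hI hx)).2 (mem_filter.1 hy).2 hb).2).symm]
    simp only [sum_image h.inj.injOn, ← map_mul, hβ, α]
    have := congrArg (Nat.cast : ℕ → ℂ) sum_al_invol
    push_cast at this
    simp only [I, sum_filter]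
    convert this
  have h2 : ∀ (z : G) (F : G → ℂ), ∑ x with IsConj (f ez) x, F (z⁻¹ * x * z) =
      ∑ x with IsConj (f ez) x, F x := fun z F =>
    sum_equiv (MulAut.conj z⁻¹).toEquiv (fun x => by
      have := isConj_conj_iff (f ez) x z⁻¹
      simpa using this.symm) (fun x _ => by simp)
  have h3 : ∀ z : G, ∑ x with IsConj (f ez) x, ∑ y with IsConj (f ez) y, β (z⁻¹ * (x * y) * z) = 10368 :=
    fun z => by
      rw [← h1, ← h2 z fun x => ∑ y with IsConj (f ez) y, β (x * y)]
      refine sum_congr rfl fun x _ => ?_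
      rw [← h2 z fun y => β (z⁻¹ * x * z * y)]
      refine sum_congr rfl fun y _ => ?_
      congr 1; group
  simp only [ind_apply, ← mul_sum]
  rw [sum_congr rfl fun x _ => sum_comm, sum_comm]
  have h4 : ∀ z : G, ∑ x with IsConj (f ez) x, ∑ y with IsConj (f ez) y,
      ∑ k : Hm, (if f k = z⁻¹ * (x * y) * z then α k else 0) = 10368 := h3
  simp only [h4, sum_const, card_univ, card_Hm, ← Nat.card_eq_fintype_card, nsmul_eq_mul]
  push_cast
  ring

/-- A constituent of the induced character is not of `3`-defect zero. -/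
theorem not_nine [Fintype G] {m : ℕ} (hm : m * 576 = Nat.card G) {χ : G → ℂ} (hχ : IsIrrCharacter G χ)
    {d : ℕ} (e : χ 1 = d) (hne : classInner (ind f α) χ ≠ 0) : d ∣ m * 576 ∧ ¬ 9 ∣ d := by
  have hd := deg_dvd_card hχ
  rw [deg_eq_of_eq e, ← hm] at hd
  refine ⟨hd, fun h9 => hne ?_⟩
  obtain ⟨q, hq⟩ := hd
  have h3 := h.not_three hm
  rw [cinner_ind_left f α (irr_classFun hχ), classInner, sum_eq_zero fun k _ => ?_, mul_zero]
  by_cases hk : al k = 0
  · simp [α, hk]
  obtain ⟨-, h1, h2⟩ := al_ne k hk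
  have k1 : ¬ 3 ∣ q := fun h4 => by
    obtain ⟨a, rfl⟩ := h9
    obtain ⟨b, rfl⟩ := h4
    have : 3 ∣ m * 64 := ⟨a * b, by linarith⟩
    omega
  have k2 : 3 ∣ orderOf (f k) := by
    rw [orderOf_injective f h.inj, ← orderOf_eq_prime (p := 3) (x := k ^ 4) (by rw [pow_three', h1]) h2]
    exact orderOf_pow_dvd 4
  rw [GW.defect_zero hχ Nat.prime_three (n := q) (by rw [e, ← hm, hq]; push_cast; rfl) k1 k2, map_zero,
    mul_zero]

theorem card_mem [Finite G] {m : ℕ} (hG : m * 576 = Nat.card G) (h7 : 7 ∣ m) :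
    m = 8911 ∨ m = 11935 ∨ m = 9835 := by
  classical
  haveI := Fintype.ofFinite G
  have hθ := genChar_ind f genChar_α
  have h1 : classInner (ind f α) (fun _ => 1) = ((1 : ℤ) : ℂ) := by
    rw [cinner_ind_left f α (classFun_const 1), cinner_one_right, card_Hm]
    have := congrArg (Nat.cast : ℕ → ℂ) sum_al
    push_cast at this
    simp only [α, this]
    norm_num
  have h3 : classInner (ind f α) (ind f α) = 3 := by
    rw [cinner_ind_left f α (ind_classFun f α), classInner, card_Hm,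
      sum_congr rfl (g := fun k => α k * α k) fun k _ => ?_]
    · have := congrArg (Nat.cast : ℕ → ℂ) sum_al_sq
      push_cast at this
      simp only [α, this]
      norm_num
    · by_cases hk : al k = 0
      · simp [α, hk]
      · rw [h.ind_α hk]; simp [α]
  obtain ⟨χ₁, χ₂, ε₁, ε₂, i1, i2, hne, he1, he2, e⟩ := genChar_norm_two
    (genChar_sub hθ (genChar_zsmul (genChar_of_irr irr_one) 1))
    (by rw [cinner_sub_proj irr_one h1, h3]; norm_num)
  have h0 := cinner_sub_proj_irr irr_one h1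
  rw [e, cinner_add_left, cinner_smul_left, cinner_smul_left] at h0
  have hε1 : (ε₁ : ℂ) ≠ 0 := by rcases he1 with rfl | rfl <;> simp
  have hε2 : (ε₂ : ℂ) ≠ 0 := by rcases he2 with rfl | rfl <;> simp
  have n1 : χ₁ ≠ fun _ => 1 := by
    rintro rfl
    rw [cinner_irr_self irr_one, cinner_irr_ne i2 irr_one hne.symm] at h0
    exact hε1 (by simpa using h0)
  have n2 : χ₂ ≠ fun _ => 1 := by
    rintro rfl
    rw [cinner_irr_self irr_one, cinner_irr_ne i1 irr_one hne] at h0
    exact hε2 (by simpa using h0)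
  have ev : ∀ g, ind f α g = 1 + ε₁ * χ₁ g + ε₂ * χ₂ g := fun g => by
    have := congrFun e g
    simp only [Pi.sub_apply, Pi.smul_apply, smul_eq_mul, Pi.add_apply] at this
    push_cast at this
    linear_combination this
  have ev' : ind f α = (fun _ => 1) + ((ε₁ : ℂ) • χ₁ + (ε₂ : ℂ) • χ₂) := funext fun g => by
    rw [ev]; simp [add_assoc]
  obtain ⟨d1, hd1, e1⟩ := irr_one_pos i1
  obtain ⟨d2, hd2, e2⟩ := irr_one_pos i2
  obtain ⟨v1, w1⟩ := h.not_nine hG i1 e1 (by
    rw [ev', cinner_add_left, cinner_add_left, cinner_smul_left, cinner_smul_left, cinner_irr_self i1,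
      cinner_irr_ne irr_one i1 n1.symm, cinner_irr_ne i2 i1 hne.symm]
    simpa using hε1)
  obtain ⟨v2, w2⟩ := h.not_nine hG i2 e2 (by
    rw [ev', cinner_add_left, cinner_add_left, cinner_smul_left, cinner_smul_left, cinner_irr_self i2,
      cinner_irr_ne irr_one i2 n2.symm, cinner_irr_ne i1 i2 hne]
    simpa using hε2)
  have v1' : (d1 : ℤ) ∣ m * 576 := by exact_mod_cast v1
  have v2' : (d2 : ℤ) ∣ m * 576 := by exact_mod_cast v2
  obtain ⟨y1, f1⟩ := GL23Char.char_invol (irr_isChar i1) (tt (f := f))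
  obtain ⟨y2, f2⟩ := GL23Char.char_invol (irr_isChar i2) (tt (f := f))
  have a1 := ev 1
  have a2 := ev (f ez)
  rw [h.ind_α_invol (mul_one 1), e1, e2] at a1
  rw [h.ind_α_invol tt, f1, f2] at a2
  have a1' : (0 : ℤ) = 1 + ε₁ * d1 + ε₂ * d2 := by exact_mod_cast a1
  have a2' : (0 : ℤ) = 1 + ε₁ * y1 + ε₂ * y2 := by exact_mod_cast a2
  have hb : 1 + y1 ^ 2 + y2 ^ 2 ≤ 576 := by
    have h4 := second_orth_self_real (f ez)
    rw [h.card_cent] at h4
    have h5 := sum_le_sum_of_subset_of_nonneg (s := {fun _ => 1, χ₁, χ₂}) (t := irr G)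
      (f := fun χ => ‖χ (f ez)‖ ^ 2) (by
        intro χ hχ
        simp only [mem_insert, mem_singleton] at hχ
        rcases hχ with rfl | rfl | rfl
        exacts [mem_irr.2 irr_one, mem_irr.2 i1, mem_irr.2 i2]) fun _ _ _ => sq_nonneg _
    rw [h4, sum_insert (by simp [n1.symm, n2.symm]), sum_pair hne, f1, f2] at h5
    simp only [norm_one, one_pow, Complex.norm_intCast, sq_abs] at h5
    have : ((1 + y1 ^ 2 + y2 ^ 2 : ℤ) : ℝ) ≤ (576 : ℤ) := by push_cast at h5 ⊢; linarith
    exact_mod_cast this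
  have hs := h.sum_pairs
  simp only [ev, sum_add_distrib, ← mul_sum, sum_class_class i1, sum_class_class i2, sum_const,
    nsmul_eq_mul, mul_one] at hs
  have hm : #{x : G | IsConj (f ez) x} = m := by
    have := h.card_G
    rw [Nat.card_eq_fintype_card, Fintype.card_subtype, ← hG] at this
    omega
  rw [← hG, hm, e1, e2, f1, f2] at hs
  have hodd := h.not_two hG
  have hm0 : (m : ℂ) ≠ 0 := by exact_mod_cast (by omega : m ≠ 0)
  have c1 : (d1 : ℂ) ≠ 0 := by exact_mod_cast hd1.ne'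
  have c2 : (d2 : ℂ) ≠ 0 := by exact_mod_cast hd2.ne'
  have hs' : (m : ℤ) * (d1 * d2 + ε₁ * y1 ^ 2 * d2 + ε₂ * y2 ^ 2 * d1) = 10368 * d1 * d2 := by
    push_cast at hs
    field_simp at hs
    have : (m : ℂ) * (d1 * d2 + ε₁ * y1 ^ 2 * d2 + ε₂ * y2 ^ 2 * d1) = 10368 * d1 * d2 := by
      linear_combination hs
    exact_mod_cast this
  have b1 : ε₁ * d1 + 1 = -(ε₂ * d2) := by linarith
  refine arith hodd (h.not_three hG) h7 (x := ε₁ * d1) (y := ε₁ * y1) ?_ ?_ ?_ ?_ ?_ ?_
  · rcases he1 with rfl | rfl <;> omega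
  · rw [b1]; rcases he2 with rfl | rfl <;> omega
  · rcases he1 with rfl | rfl <;> simpa using v1'
  · rw [b1]; rcases he2 with rfl | rfl <;> simpa using v2'
  · rw [show -1 - ε₁ * y1 = ε₂ * y2 by linarith]
    rcases he1 with rfl | rfl <;> rcases he2 with rfl | rfl <;> simpa using hb
  · rcases he1 with rfl | rfl <;> rcases he2 with rfl | rfl
    · omega
    · have u1 : (d2 : ℤ) = 1 + d1 := by omega
      have u2 : y2 = 1 + y1 := by omega
      rw [u1, u2] at hs'
      linear_combination hs'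
    · have u1 : (d2 : ℤ) = d1 - 1 := by omega
      have u2 : y2 = y1 - 1 := by omega
      rw [u1, u2] at hs'
      linear_combination hs'
    · omega

end Hyp

theorem kill (p r c : ℕ) (hr : 0 < r) (hc : ∀ n, 576 ∣ n * (p - 1) → c ∣ n) (hc0 : 0 < c)
    (h : ∀ k < r + 1, k ∣ r → c * k % p ≠ 1) : ¬ ∃ n, n ∣ c * r ∧ n % p = 1 ∧ 576 ∣ n * (p - 1) := by
  rintro ⟨n, h1, h2, h3⟩
  obtain ⟨k, rfl⟩ := hc n h3
  have := Nat.dvd_of_mul_dvd_mul_left hc0 h1
  exact h k (Nat.lt_succ_of_le (Nat.le_of_dvd hr this)) this h2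

theorem false [Finite G] (f : Hm →* G) (inj : Function.Injective f)
    (hC : ∀ g, g * f ez = f ez * g → g ∈ f.range) (h1 : ∀ x, x * x = 1 → x ≠ 1 → IsConj (f ez) x)
    (h3 : ∀ c : Hm, c * c * c = 1 → c ≠ 1 → ∀ g, g * f c = f c * g → g ∈ f.range)
    (h7 : 7 ∣ Nat.card G) : False := by
  have h : Hyp f := ⟨inj, hC, h1, h3⟩
  have hG := h.card_G
  rcases h.card_mem hG (by omega) with e | e | e <;> rw [e] at hG
  · exact kill 67 798 96 (by norm_num) (fun n => by omega) (by norm_num) (by decide +kernel)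
      (h.sylow_count 67 _ (by norm_num) (by norm_num) (by norm_num) hG (by norm_num))
  · exact kill 11 2170 288 (by norm_num) (fun n => by omega) (by norm_num) (by decide +kernel)
      (h.sylow_count 11 _ (by norm_num) (by norm_num) (by norm_num) hG (by norm_num))
  · exact kill 281 280 72 (by norm_num) (fun n => by omega) (by norm_num) (by decide +kernel)
      (h.sylow_count 281 _ (by norm_num) (by norm_num) (by norm_num) hG (by norm_num))

end Cfsg.Agent.Lib.G3Char
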