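import Cfsg.Agent.Lib.G3Loc
import Cfsg.Agent.Lib.BsPure

/-! Fusion and the `3`-local dichotomy in a group of type `G₂(3)`. -/

set_option autoImplicit false

namespace Cfsg.Agent.Lib.G3Fus

open Subgroup Cfsg.Agent.Lib.G3Model Cfsg.Agent.Lib.G3Pres Cfsg.Agent.Lib.G3Loc Cfsg.Agent.Lib.BsDefs Cfsg.Agent.Lib.Bs
  Cfsg.Agent.Lib.FTDefs Cfsg.Agent.Lib.PCore Cfsg.Agent.Lib.PCoreResidual

variable {G : Type*} [Group G] {φ : Hm →* G} {n w : G}

theorem range_comp (φ : Hm →* G) {σ : Hm →* Hm} (hz : σ ez = ez) : (φ.comp σ).range = φ.range := by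
  have h : Function.Surjective σ := Finite.surjective_of_injective (inj_H σ (hz.symm ▸ ez_ne))
  rw [MonoidHom.range_comp, MonoidHom.range_eq_top.2 h, ← MonoidHom.range_eq_map]

theorem comp (S : Set φ) {σ : Hm →* Hm} (hz : σ ez = ez) (hs : IsConj (φ ez) (φ (σ es))) : Set (φ.comp σ) :=
  ⟨S.inj.comp (inj_H σ (hz.symm ▸ ez_ne)), fun g hg => by
    rw [range_comp φ hz]; exact S.cent g (by simpa [hz] using hg), by simpa [hz] using hs⟩

theorem ne_of (S : Set φ) {x y : Hm} (h : x ≠ y) : φ x ≠ φ y := fun e => h (S.inj e)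

theorem iz (S : Set φ) : Invol (φ ez) := ⟨sq_z φ, map_one φ ▸ ne_of S ez_ne⟩

theorem is (S : Set φ) : Invol (φ es) := ⟨sq_s φ, map_one φ ▸ ne_of S (by decide +kernel)⟩

theorem comm_z (φ : Hm →* G) (x : Hm) : φ x * φ ez = φ ez * φ x := by rw [← map_mul, ez_cent, map_mul]

/-- The centraliser of `⟨z, s⟩`. -/
theorem cent_V (S : Set φ) {g : G} (h1 : g * φ ez = φ ez * g) (h2 : g * φ es = φ es * g) :
    ∃ x ∈ [1, ez, es, et, eu, eu * ez, eu * es, eu * et], φ x = g := by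
  obtain ⟨x, rfl⟩ := S.cent g h1
  exact ⟨x, cent_s x (S.inj (by simpa using h2)), rfl⟩

theorem conj_eq (φ : Hm →* G) {c x y : Hm} (h : c * x * c⁻¹ = y) : φ c * φ x * (φ c)⁻¹ = φ y := by
  rw [← h, map_mul, map_mul, map_inv]

theorem T_facts : ∀ t ∈ [1, ez, es, et, eu, eu * ez, eu * es, eu * et], t * t = 1 ∧ t * ez * t⁻¹ = ez ∧
    t * es * t⁻¹ = es ∧ t * et * t⁻¹ = et ∧ t * eu * t⁻¹ = eu ∧ ek * es * ek⁻¹ * t * ez = es * t := by
  decide +kernel

/-- The relations of `n` without the last two. -/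
structure PR (φ : Hm →* G) (n : G) : Prop where
  n3 : n * n * n = 1
  nz : n * φ ez * n⁻¹ = φ es
  ns : n * φ es * n⁻¹ = φ et
  nt : n * φ et * n⁻¹ = φ ez

theorem exists_pr (S : Set φ) : ∃ n, PR φ n := by
  obtain ⟨g, hg⟩ := isConj_iff.1 S.fus
  obtain ⟨y, hy⟩ := S.cent (g⁻¹ * φ ez * g) (by
    have : φ ez = g⁻¹ * φ es * g := by rw [← hg]; group
    nth_rewrite 2 3 [this]
    calc _ = g⁻¹ * (φ ez * φ es) * g := by group
      _ = _ := by rw [← comm_z]; group)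
  have y2 : y * y = 1 := S.inj (by
    rw [map_mul, hy, map_one]
    calc _ = g⁻¹ * (φ ez * φ ez) * g := by group
      _ = 1 := by rw [sq_z]; group)
  have hy' : g * φ y * g⁻¹ = φ ez := by rw [hy]; group
  obtain ⟨x, xz, xs⟩ : ∃ x, x * φ ez * x⁻¹ = φ es ∧ x * φ es * x⁻¹ = φ ez := by
    rcases invol y y2 with rfl | rfl | ⟨c, rfl⟩ | ⟨c, rfl⟩
    · exact absurd (by simpa using hy'.symm) (iz S).ne
    · exact absurd (hy'.symm.trans hg) (ne_of S (by decide +kernel))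
    · obtain ⟨t, ht, e⟩ := cent_V S (g := g * φ (c * ek * c⁻¹) * g⁻¹) (by
        rw [← hy']
        calc _ = g * φ (c * (ek * eu) * c⁻¹) * g⁻¹ := by simp only [map_mul, map_inv]; group
          _ = _ := by rw [show ek * eu = eu * ek by decide +kernel]; simp only [map_mul, map_inv]; group) (by
        rw [← hg]
        calc _ = g * (φ (c * ek * c⁻¹) * φ ez) * g⁻¹ := by group
          _ = _ := by rw [comm_z]; group)
      have h1 : φ (t * t) = g * φ (c * (ek * ek) * c⁻¹) * g⁻¹ := by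
        rw [map_mul, e]; simp only [map_mul, map_inv]; group
      rw [(T_facts t ht).1, ← ez_eq, ez_cent, mul_inv_cancel_right, hg, map_one] at h1
      exact absurd h1.symm (is S).ne
    · refine ⟨g * φ c, ?_, ?_⟩
      · rw [← hg, mul_assoc g, comm_z]; group
      · rw [← hy']; simp only [map_mul, map_inv]; group
  have xt : x * φ et * x⁻¹ = φ et := by
    calc _ = x * φ es * x⁻¹ * (x * φ ez * x⁻¹) := by rw [et_eq, map_mul]; group
      _ = _ := by rw [xz, xs, ← comm_z, et_eq, map_mul]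
  have k1 := conj_eq φ (show ek * ez * ek⁻¹ = ez by decide +kernel)
  have k2 := conj_eq φ (show ek * es * ek⁻¹ = et by decide +kernel)
  have k3 := conj_eq φ (show ek * et * ek⁻¹ = es by decide +kernel)
  have c : ∀ y, x * φ ek * y * (x * φ ek)⁻¹ = x * (φ ek * y * (φ ek)⁻¹) * x⁻¹ := fun y => by group
  have n1 := c (φ ez)
  have n2 := c (φ es)
  have n3 := c (φ et)
  rw [k1, xz] at n1
  rw [k2, xt] at n2
  rw [k3, xs] at n3
  generalize x * φ ek = m at n1 n2 n3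
  have c3 : ∀ y, m * m * m * y * (m * m * m)⁻¹ = m * (m * (m * y * m⁻¹) * m⁻¹) * m⁻¹ := fun y => by group
  obtain ⟨t, ht, e⟩ := cent_V S (g := m * m * m) (mul_inv_eq_iff_eq_mul.1 (by rw [c3, n1, n2, n3]))
    (mul_inv_eq_iff_eq_mul.1 (by rw [c3, n2, n3, n1]))
  have h := T_facts t ht
  have c' : ∀ y, m * φ t * y * (m * φ t)⁻¹ = m * (φ t * y * (φ t)⁻¹) * m⁻¹ := fun y => by group
  refine ⟨m * φ t, ?_, by rw [c', conj_eq φ h.2.1, n1], by rw [c', conj_eq φ h.2.2.1, n2],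
    by rw [c', conj_eq φ h.2.2.2.1, n3]⟩
  calc _ = φ t * φ t * (φ t * φ t) := by rw [e]; group
    _ = 1 := by rw [← map_mul, h.1]; simp

theorem PR.sq (S : Set φ) (P : PR φ n) :
    ∃ x ∈ [1, ez, es, et, eu, eu * ez, eu * es, eu * et], φ x = φ ek * n * (φ ek * n) := by
  have k1 := conj_eq φ (show ek * ez * ek⁻¹ = ez by decide +kernel)
  have k2 := conj_eq φ (show ek * es * ek⁻¹ = et by decide +kernel)
  have k3 := conj_eq φ (show ek * et * ek⁻¹ = es by decide +kernel)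
  have c : ∀ y, φ ek * n * (φ ek * n) * y * (φ ek * n * (φ ek * n))⁻¹ =
      φ ek * (n * (φ ek * (n * y * n⁻¹) * (φ ek)⁻¹) * n⁻¹) * (φ ek)⁻¹ := fun y => by group
  exact cent_V S (mul_inv_eq_iff_eq_mul.1 (by rw [c, P.nz, k2, P.nt, k1]))
    (mul_inv_eq_iff_eq_mul.1 (by rw [c, P.ns, k3, P.ns, k3]))

theorem PR.u (S : Set φ) (P : PR φ n) : n * φ eu * n⁻¹ = φ eu ∨ n * φ (eu * ez) * n⁻¹ = φ (eu * ez) := by
  have c : ∀ x y, n * φ x * n⁻¹ * (n * φ y * n⁻¹) = n * φ (x * y) * n⁻¹ := fun x y => by rw [map_mul]; group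
  obtain ⟨t, ht, e⟩ := cent_V S (g := n * φ eu * n⁻¹)
    (by rw [← P.nt, c, c, show eu * et = et * eu by decide +kernel]) (by rw [← P.nz, c, c, ez_cent])
  obtain ⟨r, hr, e'⟩ := P.sq S
  have h1 : φ ek * (n * (φ ek * (n * φ eu * n⁻¹) * (φ ek)⁻¹) * n⁻¹) * (φ ek)⁻¹ = φ eu := by
    calc _ = φ r * φ eu * (φ r)⁻¹ := by rw [e']; group
      _ = _ := conj_eq φ (T_facts r hr).2.2.2.2.1
  have i : ∀ x y, n * φ x * n⁻¹ = n * φ y * n⁻¹ → x = y := fun x y h => S.inj (by simpa using h)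
  simp only [List.mem_cons, List.not_mem_nil, or_false] at ht
  rcases ht with rfl | rfl | rfl | rfl | rfl | rfl | rfl | rfl
  · exact absurd (i 1 eu (by simpa using e)) (by decide +kernel)
  · exact absurd (i _ _ (P.nt.trans e)) (by decide +kernel)
  · exact absurd (i _ _ (P.nz.trans e)) (by decide +kernel)
  · exact absurd (i _ _ (P.ns.trans e)) (by decide +kernel)
  · exact .inl e.symm
  · rw [← e, conj_eq φ (show ek * (eu * ez) * ek⁻¹ = eu * ez by decide +kernel), ← c, ← e, P.nz, ← map_mul,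
      conj_eq φ rfl] at h1
    exact absurd (S.inj h1) (by decide +kernel)
  · rw [← e, conj_eq φ (show ek * (eu * es) * ek⁻¹ = eu * et by decide +kernel), ← c, ← e, P.nt, ← map_mul,
      conj_eq φ rfl] at h1
    exact absurd (S.inj h1) (by decide +kernel)
  · exact .inr (by rw [← c, ← e, P.nz, ← map_mul, show eu * et * es = eu * ez by decide +kernel])

theorem PR.nr (S : Set φ) (P : PR φ n) (hu : n * φ eu * n⁻¹ = φ eu) : ∃ n, NR φ n := by
  have c : ∀ x y, n * φ x * n⁻¹ * (n * φ y * n⁻¹) = n * φ (x * y) * n⁻¹ := fun x y => by rw [map_mul]; group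
  obtain ⟨r, hr, e⟩ := P.sq S
  have h1 : φ ek * (n * φ r * n⁻¹) * (φ ek)⁻¹ = φ r := by rw [e]; group
  have cz : ∀ x, n * φ ez * φ x * (n * φ ez)⁻¹ = n * φ x * n⁻¹ := fun x => by rw [mul_assoc n, ← comm_z]; group
  have z3 : n * φ ez * (n * φ ez) * (n * φ ez) = 1 := by
    calc _ = n * φ ez * n⁻¹ * (n * (n * φ ez * n⁻¹) * n⁻¹) * (n * n * n) * φ ez := by group
      _ = 1 := by
        rw [P.n3, P.nz, P.ns, mul_one, ← map_mul, ← map_mul, show es * et * ez = 1 by decide +kernel, map_one]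
  have kz : φ ek * (n * φ ez) * (φ ek * (n * φ ez)) = φ (es * r) := by
    calc _ = φ ek * (n * φ ez * n⁻¹) * (φ ek)⁻¹ * (φ ek * n * (φ ek * n)) * φ ez := by group
      _ = _ := by
        rw [P.nz, ← e, conj_eq φ rfl, ← map_mul, ← map_mul, (T_facts r hr).2.2.2.2.2]
  have no : ∀ m : G, m * m * m = 1 → m * φ ez * (m * φ ez) * (m * φ ez) = 1 → m * φ eu * m⁻¹ = φ eu →
      φ ek * m * (φ ek * m) ≠ φ eu := fun m m3 mz mu h => by
    have a1 : Commute (φ eu) (φ ez * m) :=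
      Commute.mul_right (comm_z φ eu) (mul_inv_eq_iff_eq_mul.1 mu).symm
    have a2 : φ ek * m * (φ ek)⁻¹ = φ eu * (φ ez * m)⁻¹ := by rw [← h, ez_eq, map_mul]; group
    have a3 : (φ ez * m) ^ 3 = 1 := by
      calc _ = φ ez * (m * φ ez * (m * φ ez) * (m * φ ez)) * (φ ez)⁻¹ := by rw [pow_three']; group
        _ = 1 := by rw [mz]; group
    have a4 := congrArg (· ^ 3) a2
    simp only [conj_pow, a1.inv_right.mul_pow, inv_pow, a3] at a4
    rw [pow_three', m3, pow_three', sq_u] at a4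
    exact ne_of S (show 1 ≠ eu by decide +kernel) (by simpa using a4)
  simp only [List.mem_cons, List.not_mem_nil, or_false] at hr
  rcases hr with rfl | rfl | rfl | rfl | rfl | rfl | rfl | rfl
  · exact ⟨n, P.n3, P.nz, P.ns, P.nt, hu, e.symm.trans (map_one φ)⟩
  · rw [P.nz, conj_eq φ rfl] at h1; exact absurd (S.inj h1) (by decide +kernel)
  · exact ⟨n * φ ez, z3, (cz _).trans P.nz, (cz _).trans P.ns, (cz _).trans P.nt, (cz _).trans hu,
      kz.trans ((map_mul φ _ _).trans (sq_s φ))⟩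
  · rw [P.nt, conj_eq φ rfl] at h1; exact absurd (S.inj h1) (by decide +kernel)
  · exact absurd e.symm (no n P.n3 z3 hu)
  · rw [← c, hu, P.nz, ← map_mul, conj_eq φ rfl] at h1; exact absurd (S.inj h1) (by decide +kernel)
  · exact absurd (kz.trans (congrArg φ (by decide +kernel))) (no _ z3 (by
      simpa only [mul_assoc n, sq_z, mul_one] using P.n3) ((cz _).trans hu))
  · rw [← c, hu, P.nt, ← map_mul, conj_eq φ rfl] at h1; exact absurd (S.inj h1) (by decide +kernel)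

theorem exists_n (S : Set φ) : ∃ (σ : Hm →* Hm) (n : G), σ ea = ea ∧ (σ eb = eb ∨ σ eb = eb⁻¹) ∧ σ es = es ∧
    σ ez = ez ∧ NR (φ.comp σ) n := by
  obtain ⟨n, P⟩ := exists_pr S
  rcases P.u S with h | h
  · obtain ⟨m, N⟩ := P.nr S h
    exact ⟨MonoidHom.id _, m, rfl, .inl rfl, rfl, rfl, N⟩
  · obtain ⟨σ, h1, -, h3, h4, h5, h6, h7⟩ := exists_σ₃
    obtain ⟨m, N⟩ := PR.nr (n := n) (comp S h5 (h4.symm ▸ S.fus))
      ⟨P.n3, by simpa [h4, h5] using P.nz, by simpa [h4, h6] using P.ns, by simpa [h5, h6] using P.nt⟩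
      (by simpa only [MonoidHom.comp_apply, h7] using h)
    exact ⟨σ, m, h1, .inr h3, h4, h5, N⟩

/-- One class of involutions. -/
theorem conj_in [Finite G] (S : Set φ) (N : NR φ n) {L : Subgroup G} (hL : φ.range ≤ L) (hn : n ∈ L) {x : G}
    (hx : x ∈ L) (x2 : Invol x) : ∃ g ∈ L, g * φ ez * g⁻¹ = x := by
  have m : ∀ y, φ y ∈ L := fun y => hL ⟨y, rfl⟩
  have k : ∀ y : Hm, Invol (φ y) → ∃ g ∈ L, g * φ ez * g⁻¹ = φ y := fun y hy => by
    rcases invol y (S.inj (by simpa using hy.sq)) with rfl | rfl | ⟨c, rfl⟩ | ⟨c, rfl⟩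
    · exact absurd (map_one φ) hy.ne
    · exact ⟨1, one_mem _, by simp⟩
    · obtain ⟨d, hd⟩ := conj_us
      obtain ⟨e, he⟩ := conj_uz
      refine ⟨φ c * (φ e)⁻¹ * n⁻¹ * φ d * n, mul_mem (mul_mem (mul_mem (mul_mem (m c) (inv_mem (m e))) (inv_mem hn))
        (m d)) hn, ?_⟩
      have h1 : n * φ (eu * ez) * n⁻¹ = φ (eu * es) := by
        rw [map_mul, map_mul, ← N.nz]; nth_rewrite 2 [← N.nu]; group
      calc _ = φ c * (φ e)⁻¹ * n⁻¹ * (φ d * (n * φ ez * n⁻¹) * (φ d)⁻¹) * n * φ e * (φ c)⁻¹ := by group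
        _ = _ := by rw [N.nz, conj_eq φ hd, ← h1, ← conj_eq φ he, ← conj_eq φ (c := c) rfl]; group
    · exact ⟨φ c * n, mul_mem (m c) hn, by rw [← conj_eq φ (c := c) rfl, ← N.nz]; group⟩
  have hxz := mul_mem hx (m ez)
  by_cases h : Odd (orderOf (x * φ ez))
  · obtain ⟨d, hd, e⟩ := exists_conj (iz S) x2 h
    exact ⟨d, zpowers_le.2 hxz hd, e⟩
  obtain ⟨y, hy, y2⟩ := exists_invol_zpowers h
  have h1 := inv_zpow (iz S) (inv_of_invol (iz S) x2.sq) hy
  have h2 : x * y * x = y⁻¹ := inv_zpow x2 (by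
    rw [mul_inv_rev, inv_eq x2, inv_eq (iz S), ← mul_assoc, x2.sq, one_mul]) hy
  rw [inv_eq y2] at h1 h2
  obtain ⟨y, rfl⟩ := S.cent y (by rw [← mul_sq (iz S) (φ ez * y), h1])
  obtain ⟨g, hg, e⟩ := k y y2
  obtain ⟨t, ht⟩ := S.cent (g⁻¹ * x * g) (by
    have h3 : x * φ y = φ y * x := by rw [← mul_sq x2 (x * φ y), h2]
    calc _ = g⁻¹ * (x * (g * φ ez * g⁻¹)) * g := by group
      _ = g⁻¹ * (g * φ ez * g⁻¹ * x) * g := by rw [e, h3]
      _ = _ := by group)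
  obtain ⟨g', hg', e'⟩ := k t (by simpa [ht] using iconj x2 g⁻¹)
  exact ⟨g * g', mul_mem hg hg', by rw [mul_inv_rev, mul_assoc g, mul_assoc g, ← mul_assoc _ g'⁻¹, e', ht]; group⟩

theorem cube [Finite G] (S : Set φ) {v : G} (hv : IsConj (φ ez) v) (h : v * w = w * v) (ho : Odd (orderOf w)) :
    w * w * w = 1 := by
  obtain ⟨g, rfl⟩ := isConj_iff.1 hv
  obtain ⟨x, hx⟩ := S.cent (g⁻¹ * w * g) (by
    calc _ = g⁻¹ * (w * (g * φ ez * g⁻¹)) * g := by group
      _ = _ := by rw [← h]; group)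
  have h1 : w ^ 24 = 1 := by
    have : w = g * φ x * g⁻¹ := by rw [hx]; group
    rw [this, conj_pow, ← map_pow, pow_24]; simp
  have h2 : orderOf w ∣ 3 := (Nat.Coprime.pow_right 3 (Nat.coprime_two_right.2 ho)).dvd_of_dvd_mul_left
    (orderOf_dvd_of_pow_eq_one h1)
  rw [← pow_three', orderOf_dvd_iff_pow_eq_one.1 h2]

theorem conj_t (S : Set φ) : IsConj (φ ez) (φ et) :=
  S.fus.trans (isConj_iff.2 ⟨_, conj_eq φ (show ek * es * ek⁻¹ = et by decide +kernel)⟩)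

/-- An application of the `Z*`-theorem. -/
theorem zw [Finite G] (S : Set φ) {X : Subgroup G} (hz : φ ez ∈ X) (hs : φ es ∈ N[X])
    (hu : ∀ x : Hm, φ x ∈ X → x * x = 1 → x = 1 ∨ x = ez) : X ≤ φ.range ∨ ∃ w ∈ X, w ≠ 1 ∧ w * w * w = 1 ∧
      φ ez * w * (φ ez * w) = 1 ∧ (φ es * w = w * φ es ∨ φ et * w = w * φ et) := by
  have hO := odd_core X
  have n1 := normalizer_le_normalizer_pPrimeCoreOf 2 X (le_normalizer hz)
  have n2 := normalizer_le_normalizer_pPrimeCoreOf 2 X hs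
  by_cases h : pPrimeCoreOf 2 X ≤ c[φ ez]
  · refine .inl fun g hg => S.cent g ?_
    have h1 := ZStar.zstar X ⟨_, hz⟩ (Subtype.ext (by simp [sq, sq_z])) (fun x hx => by
      obtain ⟨y, hy⟩ := S.cent _ (congrArg Subtype.val hx.eq).symm
      have y2 : Invol (φ y) := hy ▸ iconj (iz S) (x : G)
      rcases hu y (hy ▸ (x * ⟨_, hz⟩ * x⁻¹).2) (S.inj (by simpa using y2.sq)) with rfl | rfl
      · exact absurd (map_one φ) y2.ne
      · exact Subtype.ext hy.symm) ⟨g, hg⟩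
    have h2 : g * φ ez * g⁻¹ * (φ ez)⁻¹ ∈ pPrimeCoreOf 2 X := mem_map_of_mem X.subtype h1
    have h3 := eq_one_of_inv_comm (iz S) (odd_order hO h2) (by
      rw [inv_eq (iz S)]; exact inv_of_invol (iz S) (iconj (iz S) g).sq) (mem_centralizer_singleton_iff.1 (h h2)).symm
    rwa [mul_inv_eq_one, mul_inv_eq_iff_eq_mul] at h3
  right
  have key : ∀ v, IsConj (φ ez) v → φ ez * v = v * φ ez → ¬ pPrimeCoreOf 2 X ⊓ c[v] ≤ c[φ ez] →
      ∃ w ∈ X, w ≠ 1 ∧ w * w * w = 1 ∧ φ ez * w * (φ ez * w) = 1 ∧ v * w = w * v := fun v hv e hn => by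
    obtain ⟨w, ⟨hw, w1⟩, w2⟩ := exists_Kv_ne (odd_of_le hO inf_le_left) (iz S) (mem_norm_inf n1 (mem_norm_cent1 e)) hn
    have w3 := (mem_centralizer_singleton_iff.1 hw.2).symm
    exact ⟨w, pPrimeCoreOf_le 2 X hw.1, w2, cube S hv w3 (odd_order hO hw.1), by
      rw [← mul_assoc, w1, inv_mul_cancel], w3⟩
  have e : φ ez * φ es = φ et := by rw [← comm_z, et_eq, map_mul]
  by_cases k1 : pPrimeCoreOf 2 X ⊓ c[φ es] ≤ c[φ ez]
  · obtain ⟨w, h1, h2, h3, h4, h5⟩ := key _ (conj_t S) (comm_z φ _).symm fun k2 =>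
      h (le_of_four hO (iz S) (is S) (ne_of S (by decide +kernel)) (comm_z φ _).symm n1 n2 inf_le_right k1 (e ▸ k2))
    exact ⟨w, h1, h2, h3, h4, .inr h5⟩
  · obtain ⟨w, h1, h2, h3, h4, h5⟩ := key _ S.fus (comm_z φ _).symm k1
    exact ⟨w, h1, h2, h3, h4, .inl h5⟩

/-- A Sylow `3`-subgroup of `H`. -/
def A0 : Subgroup Hm where
  carrier := {x | x.v % 32 = 0 ∧ x.v < 288}
  one_mem' := by decide +kernel
  mul_mem' := fun {a b} ha hb => (show ∀ a : Hm, a.v % 32 = 0 ∧ a.v < 288 → ∀ b : Hm, b.v % 32 = 0 ∧ b.v < 288 →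
    (a * b).v % 32 = 0 ∧ (a * b).v < 288 by decide +kernel) a ha b hb
  inv_mem' := fun {a} ha => (show ∀ a : Hm, a.v % 32 = 0 ∧ a.v < 288 → a⁻¹.v % 32 = 0 ∧ a⁻¹.v < 288 by
    decide +kernel) a ha

instance decA0 : DecidablePred (· ∈ A0) := fun x => inferInstanceAs (Decidable (x.v % 32 = 0 ∧ x.v < 288))

theorem card_A0 : Nat.card A0 = 9 := (@HJModel.card_subtype 575 (· ∈ A0) decA0).trans (by decide +kernel)

theorem A0_facts : ∀ x ∈ A0, x * x * x = 1 ∧ es * x * es = x⁻¹ := by decide +kernel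

theorem A0_gen : ∀ x ∈ A0, x ≠ 1 → ∀ y ∈ A0, y ≠ 1 → y ≠ x → y ≠ x⁻¹ → ∀ c ∈ A0, ∃ i < 3, ∃ j < 3,
    c = x ^ i * y ^ j := by decide +kernel

theorem ea_mem : ea ∈ A0 := by decide +kernel
theorem eb_mem : eb ∈ A0 := by decide +kernel

theorem uniq {c : Hm} (hc : c ∈ A0) (c1 : c ≠ 1) (S : Set φ) {x : Hm} (h : φ c * φ x = φ x * φ c) (x2 : x * x = 1) :
    x = 1 ∨ x = ez := cent_three c (A0_facts c hc).1 c1 x x2 (S.inj (by simpa using h.symm))

/-- The `3`-local dichotomy. -/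
theorem dichotomy [Finite G] (S : Set φ) :
    (∃ w, w ≠ 1 ∧ w * w * w = 1 ∧ φ ea * w = w * φ ea ∧ φ eb * w = w * φ eb ∧ φ ez * w * (φ ez * w) = 1 ∧
      (φ es * w = w * φ es ∨ φ et * w = w * φ et)) ∨
    ∀ c : Hm, c * c * c = 1 → c ≠ 1 → ∀ g, g * φ c = φ c * g → g ∈ φ.range := by
  haveI : Fact (Nat.Prime 3) := ⟨by norm_num⟩
  have a1 : ea ≠ 1 := by decide +kernel
  have hz : φ ez ∈ C[A0.map φ] := by rintro _ ⟨x, -, rfl⟩; exact comm_z φ x
  have si : ∀ x ∈ A0, φ es * φ x * (φ es)⁻¹ = (φ x)⁻¹ := fun x hx => by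
    rw [inv_eq (is S), ← map_mul, ← map_mul, (A0_facts x hx).2, map_inv]
  have ns : ∀ {P : Subgroup G}, (∀ x ∈ P, φ es * x * (φ es)⁻¹ ∈ P) → φ es ∈ N[P] := fun h =>
    mem_normalizer_iff.2 fun x => ⟨h x, fun h' => by
      have := h _ h'
      rwa [inv_eq (is S), ← mul_assoc, ← mul_assoc, sq_s, one_mul, mul_sq (is S)] at this⟩
  rcases zw S hz (mem_norm_cent (ns (by rintro _ ⟨x, hx, rfl⟩; rw [si x hx]; exact inv_mem ⟨x, hx, rfl⟩)))
    (fun x hx => uniq ea_mem a1 S (hx _ ⟨_, ea_mem, rfl⟩)) with h | ⟨w, hw, h1, h2, h3, h4⟩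
  swap
  · exact .inl ⟨w, h1, h2, hw _ ⟨_, ea_mem, rfl⟩, hw _ ⟨_, eb_mem, rfl⟩, h3, h4⟩
  right
  have u : ∀ y ∈ C[A0.map φ], Invol y → y = φ ez := fun y hy y2 => by
    obtain ⟨x, rfl⟩ := h hy
    rcases uniq ea_mem a1 S (hy _ ⟨_, ea_mem, rfl⟩) (S.inj (by simpa using y2.sq)) with rfl | rfl
    exacts [absurd (map_one φ) y2.ne, rfl]
  have c9 : Nat.card (A0.map φ) = 3 ^ 2 := by rw [card_map_of_injective S.inj, card_A0]; rfl
  have h27 : ¬ 3 ^ 3 ∣ Nat.card G := fun hd => by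
    obtain ⟨K, k1, k2⟩ := Sylow.exists_subgroup_card_pow_succ hd c9
    have k3 := ((A0.map φ).subgroupOf K).card_mul_index
    rw [Nat.card_congr (subgroupOfEquivOfLe k2).toEquiv, c9, k1] at k3
    have k4 := (normal_subgroupOf_iff_le_normalizer k2).1
      (normal_of_index_eq_minFac_card (by rw [k1]; norm_num; omega))
    have k5 : K ≤ φ.range := fun g hg => S.cent g (mul_inv_eq_iff_eq_mul.1
      (u _ (conj_mem_of_norm (mem_norm_cent (k4 hg)) hz) (iconj (iz S) g)))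
    have := card_dvd_of_le k5
    rw [k1, ← Nat.card_congr (MonoidHom.ofInjective S.inj).toEquiv, card_Hm] at this
    omega
  obtain ⟨Q, hQ⟩ := (IsPGroup.of_card c9).exists_le_sylow
  have hQ' : A0.map φ = Q := eq_of_le_of_card_ge hQ (by
    obtain ⟨k, hk⟩ := Q.isPGroup'.exists_card_eq
    rw [hk, c9]
    refine Nat.pow_le_pow_right (by norm_num) (not_lt.1 fun k2 => h27 ?_)
    exact (pow_dvd_pow 3 k2).trans (hk ▸ card_subgroup_dvd_card _))
  have main : ∀ c ∈ A0, c ≠ 1 → c[φ c] ≤ φ.range := fun c hc c1 => by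
    have hz' : φ ez ∈ c[φ c] := mem_centralizer_singleton_iff.2 (comm_z φ c).symm
    refine (zw S hz' (ns fun x hx => mem_centralizer_singleton_iff.2 ?_) fun x hx =>
      uniq hc c1 S (mem_centralizer_singleton_iff.1 hx).symm).resolve_right ?_
    · have e := (Commute.inv_right (mem_centralizer_singleton_iff.1 hx)).eq
      rw [← inv_inv (φ c), ← map_inv φ c, ← si _ (inv_mem hc), map_inv]
      calc _ = φ es * (x * (φ c)⁻¹) * (φ es)⁻¹ := by group
        _ = _ := by rw [e]; group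
    rintro ⟨w, hw, w1, w3, zw, -⟩
    have cw : Commute w (φ c) := mem_centralizer_singleton_iff.1 hw
    have c3 : φ c * φ c * φ c = 1 := by rw [← map_mul, ← map_mul, (A0_facts c hc).1, map_one]
    have zw' : φ ez * w * φ ez = w⁻¹ := by rw [eq_inv_iff_mul_eq_one, mul_assoc, zw]
    have nz : φ ez * w ≠ w * φ ez := fun e => w1 (by
      rw [e, mul_sq (iz S), eq_inv_iff_mul_eq_one] at zw'
      rwa [zw', one_mul] at w3)
    have pg : ∀ x : G, x * x * x = 1 → IsPGroup 3 (zpowers x) := fun x hx => IsPGroup.of_card_dvd_pow (n := 1) (by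
      rw [Nat.card_zpowers, pow_one]; exact orderOf_dvd_of_pow_eq_one (by rw [pow_three', hx]))
    obtain ⟨R, hR⟩ := ((pg w w3).to_sup_of_normal_right' (pg _ c3) (zpowers_le.2 (centralizer_le_normalizer _ (by
      rintro _ ⟨k, rfl⟩; exact (cw.zpow_right k).symm.eq)))).exists_le_sylow
    obtain ⟨g, rfl⟩ := MulAction.exists_smul_eq G Q R
    have m : ∀ x ∈ zpowers w ⊔ zpowers (φ c), ∃ y ∈ A0, x = g * φ y * g⁻¹ := fun x hx => by
      have h1 := hR hx
      rw [Sylow.coe_subgroup_smul, mem_pointwise_smul_iff_inv_smul_mem, ← hQ'] at h1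
      obtain ⟨y, hy, e⟩ := h1
      exact ⟨y, hy, by rw [e]; simp [mul_assoc]⟩
    obtain ⟨x, hx, ex⟩ := m _ (mem_sup_right (mem_zpowers _))
    obtain ⟨y, hy, ey⟩ := m _ (mem_sup_left (mem_zpowers _))
    have gen := A0_gen x hx (fun e => c1 (S.inj (by rw [ex, e]; simp))) y hy (fun e => w1 (by rw [ey, e]; simp))
      (fun e => nz (by rw [ey, e, ← ex, comm_z])) fun e => nz (by
        rw [ey, e, map_inv, ← conj_inv, ← ex, ← map_inv, comm_z])
    have u' : ∀ v, Invol v → Commute v (φ c) → Commute v w → v = g * φ ez * g⁻¹ := fun v hv v1 v2 => by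
      have := u (g⁻¹ * v * g) (by
        rintro _ ⟨d, hd, rfl⟩
        obtain ⟨i, -, j, -, rfl⟩ := gen d hd
        have e := ((v1.pow_right i).mul_right (v2.pow_right j)).eq
        rw [ex, ey, conj_pow, conj_pow] at e
        rw [map_mul, map_pow, map_pow]
        calc _ = g⁻¹ * (g * φ x ^ i * g⁻¹ * (g * φ y ^ j * g⁻¹) * v) * g := by group
          _ = _ := by rw [← e]; group) (by simpa using iconj hv g⁻¹)
      rw [← this]; group
    have q : ∀ d, Commute (g * φ ez * g⁻¹) (g * φ d * g⁻¹) := fun d => by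
      calc _ = g * (φ ez * φ d) * g⁻¹ := by group
        _ = _ := by rw [← comm_z]; group
    have q1 : Commute (g * φ ez * g⁻¹) (φ c) := ex ▸ q x
    have q2 : Commute (g * φ ez * g⁻¹) w := ey ▸ q y
    have zc : Commute (φ ez) (φ c) := (comm_z φ c).symm
    have e := u' _ (iconj (iconj (iz S) g) (φ ez)) ((zc.mul_left q1).mul_left zc.inv_left) (by
      have := q2.inv_right.eq
      rw [← zw'] at this
      rw [inv_eq (iz S)]
      calc _ = φ ez * (g * φ ez * g⁻¹ * (φ ez * w * φ ez)) * φ ez := by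
            simp only [mul_assoc, sq_z, mul_one]
        _ = _ := by rw [this]; simp only [← mul_assoc, sq_z, one_mul])
    obtain ⟨v, hv⟩ := S.cent _ (mul_inv_eq_iff_eq_mul.1 e).symm
    have v2 : Invol (φ v) := hv ▸ iconj (iz S) g
    rcases uniq hc c1 S (hv ▸ q1.symm.eq) (S.inj (by simpa using v2.sq)) with rfl | rfl
    · exact v2.ne (map_one φ)
    · exact nz (hv ▸ q2.eq)
  intro c c3 c1 g hg
  obtain ⟨d, i, -, j, -, e⟩ := conj_three c c3
  have h1 := main _ (e ▸ mul_mem (pow_mem ea_mem i) (pow_mem eb_mem j)) (by simpa using c1)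
    (show φ d * g * (φ d)⁻¹ ∈ _ from mem_centralizer_singleton_iff.2 (by
      rw [← conj_eq φ rfl]
      calc _ = φ d * (g * φ c) * (φ d)⁻¹ := by group
        _ = _ := by rw [hg]; group))
  simpa [mul_assoc] using mul_mem (mul_mem (inv_mem (⟨d, rfl⟩ : φ d ∈ φ.range)) h1) (⟨d, rfl⟩ : φ d ∈ φ.range)

end Cfsg.Agent.Lib.G3Fus
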