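import Cfsg.Prelude.Def_Transfer
import Cfsg.Agent.Lib.G3Pres
import Cfsg.Agent.Lib.SL23
import Cfsg.Agent.Lib.D8Amalg
import Cfsg.Agent.Lib.ConjCount

/-! The structure of the involution centraliser in a group of type `G₂(3)`. -/

set_option autoImplicit false

namespace Cfsg.Agent.Lib.G3Loc

open Subgroup Cfsg.Agent.Lib.G3Model Cfsg.Agent.Lib.G3Pres
open scoped MatrixGroups

variable {G : Type*} [Group G]

/-- `φ` maps the model onto the centraliser of `z`, and `z` is conjugate to `s`. -/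
structure Set (φ : Hm →* G) : Prop where
  inj : Function.Injective φ
  cent : ∀ g, g * φ ez = φ ez * g → g ∈ φ.range
  fus : IsConj (φ ez) (φ es)

theorem exists_sl2 {X : Subgroup G} (e : X ≃* SL(2, ZMod 3)) : Nat.card X = 24 ∧ ∃ a ∈ X, ∃ k ∈ X, a * a * a = 1 ∧
    k * k * (k * k) = 1 ∧ k * a * (k * a) * (k * a) = 1 ∧ k * k ≠ 1 ∧
    ∀ x, x ∈ X ⊓ centralizer (X : _root_.Set G) ↔ x = 1 ∨ x = k * k := by
  have h : ∃ a k : SL(2, ZMod 3), a * a * a = 1 ∧ k * k * (k * k) = 1 ∧ k * a * (k * a) * (k * a) = 1 ∧ k * k ≠ 1 ∧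
      (∀ x, x * (k * k) = k * k * x) ∧ ∀ x, a * x = x * a → k * x = x * k → x = 1 ∨ x = k * k :=
    ⟨SL23.Y, SL23.I⁻¹, by decide +kernel⟩
  obtain ⟨a, k, h1, h2, h3, h4, h5, h6⟩ := h
  let f : SL(2, ZMod 3) →* G := X.subtype.comp e.symm.toMonoidHom
  have hf : Function.Injective f := Subtype.val_injective.comp e.symm.injective
  have hm : ∀ y, f y ∈ X := fun y => (e.symm y).2
  have hs : ∀ x ∈ X, ∃ y, f y = x := fun x hx => ⟨e ⟨x, hx⟩, by simp [f]⟩
  refine ⟨(Nat.card_congr e.toEquiv).trans SL23.card_SL23, f a, hm a, f k, hm k, ?_, ?_, ?_, ?_, fun x => ⟨?_, ?_⟩⟩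
  · simp only [← map_mul, h1, map_one]
  · simp only [← map_mul, h2, map_one]
  · simp only [← map_mul, h3, map_one]
  · rw [← map_mul]; exact fun h => h4 (hf (h.trans (map_one f).symm))
  · rintro ⟨hx, hc⟩
    obtain ⟨y, rfl⟩ := hs x hx
    rcases h6 y (hf (by simpa using hc _ (hm a))) (hf (by simpa using hc _ (hm k))) with rfl | rfl
    · exact .inl (map_one f)
    · exact .inr (map_mul f _ _)
  · rintro (rfl | rfl)
    · exact one_mem _
    · refine ⟨mul_mem (hm k) (hm k), fun y hy => ?_⟩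
      obtain ⟨y, rfl⟩ := hs y hy
      simp only [← map_mul, h5]

theorem onto [Finite G] {X : Subgroup G} (hX : Nat.card X = 24) {f : Km →* G} (hf : Function.Injective f)
    {P : Km → Prop} (hP : Nat.card {x // P x} = 24) (h : ∀ x, P x → f x ∈ X) : ∀ y ∈ X, ∃ x, P x ∧ f x = y := by
  have hb : Function.Bijective fun x : {x // P x} => (⟨f x, h x x.2⟩ : X) :=
    Function.Injective.bijective_of_nat_card_le (fun x y e => Subtype.ext (hf (congrArg Subtype.val e)))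
      (by rw [hX, hP])
  intro y hy
  obtain ⟨x, e⟩ := hb.2 ⟨y, hy⟩
  exact ⟨x, x.2, congrArg Subtype.val e⟩

/-- The model of the product of the two factors. -/
theorem exists_K [Finite G] {H H₁ H₂ : Subgroup G} (h1 : H₁ ≤ H) (h2 : H₂ ≤ H) (hn1 : (H₁.subgroupOf H).Normal)
    (hn2 : (H₂.subgroupOf H).Normal) (e₁ : H₁ ≃* SL(2, ZMod 3)) (e₂ : H₂ ≃* SL(2, ZMod 3))
    (hint1 : H₁ ⊓ H₂ = H₁ ⊓ centralizer (H₁ : _root_.Set G)) (hint2 : H₁ ⊓ H₂ = H₂ ⊓ centralizer (H₂ : _root_.Set G)) :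
    ∃ f : Km →* G, Function.Injective f ∧ f.range = H₁ ⊔ H₂ ∧ (∀ x, x ∈ H₁ ⊓ H₂ ↔ x = 1 ∨ x = f kz) ∧
      (∀ y, y ∈ H₁ ↔ ∃ x, in1 x ∧ f x = y) ∧ ∀ y, y ∈ H₂ ↔ ∃ x, in2 x ∧ f x = y := by
  obtain ⟨c1, a, ha, k, hk, a3, k4, ka3, kne, z1⟩ := exists_sl2 e₁
  obtain ⟨c2, b, hb, l, hl, b3, -, lb3, lne, z2⟩ := exists_sl2 e₂
  rw [← hint1] at z1
  have z3 := z2
  rw [← hint2] at z2
  have lk : l * l = k * k := ((z1 _).1 ((z2 _).2 (.inr rfl))).resolve_left lne
  have cm : ∀ x ∈ H₁, x * x * x = 1 → ∀ y ∈ H₂, x * y = y * x := fun x hx h3 y hy => by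
    have m1 := (normal_subgroupOf_iff h1).1 hn1 _ y (inv_mem hx) (h2 hy)
    have m2 := (normal_subgroupOf_iff h2).1 hn2 _ x hy (h1 hx)
    rcases (z1 (x * y * x⁻¹ * y⁻¹)).1
      (mem_inf.2 ⟨by simpa only [mul_assoc] using mul_mem hx m1, mul_mem m2 (inv_mem hy)⟩)
      with h | h
    · rwa [mul_inv_eq_one, mul_inv_eq_iff_eq_mul] at h
    · have hz : x * (k * k) = k * k * x := (hint1 ▸ (z1 _).2 (.inr rfl)).2 x hx
      generalize k * k = z at h hz k4 kne
      have e : x * y = z * (y * x) := by rw [← h]; group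
      refine absurd ?_ kne
      calc z = z * (z * z) * (y * (x * x * x)) * y⁻¹ := by rw [k4, h3]; group
        _ = x * x * x * y * y⁻¹ := by
          simp only [mul_assoc x, e, ← mul_assoc x z, hz, ← mul_assoc x y, mul_assoc z, ← mul_assoc x (y * x),
            mul_assoc y]
        _ = 1 := by rw [h3]; group
  have ck : ∀ y ∈ H₂, k * y = y * k := fun y hy => by
    have := cm _ (mul_mem hk ha) ka3 y hy
    rw [mul_assoc, cm a ha a3 y hy, ← mul_assoc, ← mul_assoc] at this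
    exact mul_right_cancel this
  obtain ⟨f, f1, f2, f3, f4⟩ := exists_homK (a := a) (k := k) (b := b) (l := l)
    ⟨a3, k4, ka3, b3, lk, lb3, cm a ha a3 b hb, cm a ha a3 l hl, ck b hb, ck l hl⟩
  have fz : f kz = k * k := by rw [kz_eq, map_mul, f2]
  have hf := inj_K f (fz ▸ kne)
  have m1 : ∀ x, in1 x → f x ∈ H₁ := fun x hx => by
    obtain ⟨i, -, j, -, d, -, rfl⟩ := in1_form x hx
    simp only [map_mul, map_pow, map_inv, f1, f2]
    exact mul_mem (mul_mem (pow_mem hk _) (pow_mem (mul_mem (mul_mem ha hk) (inv_mem ha)) _)) (pow_mem ha _)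
  have m2 : ∀ x, in2 x → f x ∈ H₂ := fun x hx => by
    obtain ⟨i, -, j, -, d, -, rfl⟩ := in2_form x hx
    simp only [map_mul, map_pow, map_inv, f3, f4]
    exact mul_mem (mul_mem (pow_mem hl _) (pow_mem (mul_mem (mul_mem hb hl) (inv_mem hb)) _)) (pow_mem hb _)
  have o1 := onto c1 hf card_in1 m1
  have o2 := onto c2 hf card_in2 m2
  refine ⟨f, hf, le_antisymm (rangeK_le (f1 ▸ mem_sup_left ha) (f2 ▸ mem_sup_left hk) (f3 ▸ mem_sup_right hb)
    (f4 ▸ mem_sup_right hl)) (sup_le (fun y hy => ?_) fun y hy => ?_), fz ▸ z1,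
    fun y => ⟨o1 y, fun ⟨x, hx, e⟩ => e ▸ m1 x hx⟩, fun y => ⟨o2 y, fun ⟨x, hx, e⟩ => e ▸ m2 x hx⟩⟩
  · exact (o1 y hy).imp fun _ h => h.2
  · exact (o2 y hy).imp fun _ h => h.2

/-- The action of `M` on its normal subgroup of order eight. -/
theorem exists_M [Finite G] {M E : Subgroup G} {z : G} (hE : E ≤ M) (hn : ∀ m ∈ M, ∀ x ∈ E, m * x * m⁻¹ ∈ E)
    (c8 : Nat.card E = 8) (cM : Nat.card M = 1344) (hz : z ∈ E) (z1 : z ≠ 1)
    (hc : Nat.card (centralizer ({z} : _root_.Set G)) = 576) :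
    (∀ v ∈ E, v ≠ 1 → ∃ m ∈ M, m * v * m⁻¹ = z) ∧ ∃ c ∈ M, c * z = z * c ∧ c * c * c = 1 ∧ c ≠ 1 := by
  classical
  let z' : M := ⟨z, hE hz⟩
  have h1 := ConjCount.card_isConj_mul z'
  have h2 : Nat.card (centralizer ({z'} : _root_.Set M)) ∣ 576 := by
    rw [← hc, ← card_map_of_injective M.subtype_injective]
    refine card_dvd_of_le ?_
    rintro _ ⟨x, hx, rfl⟩
    exact mem_centralizer_singleton_iff.2 (congrArg Subtype.val (mem_centralizer_singleton_iff.1 hx))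
  let F : {y : M // IsConj z' y} → {x : E // x ≠ 1} := fun y => ⟨⟨y.1.1, by
    obtain ⟨c, e⟩ := isConj_iff.1 y.2
    rw [← e]; exact hn _ c.2 _ hz⟩, fun e => by
    have h := y.2
    rw [show y.1 = 1 from Subtype.ext (congrArg (fun t : E => t.1) e), isConj_one_left] at h
    exact z1 (congrArg Subtype.val h)⟩
  have hF : Function.Injective F := fun x y e =>
    Subtype.ext (Subtype.ext (congrArg (fun t : {x : E // x ≠ 1} => t.1.1) e))
  have h7 : Nat.card {x : E // x ≠ 1} = 7 := by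
    haveI := Fintype.ofFinite E
    rw [Nat.card_eq_fintype_card, Fintype.card_subtype_compl, Fintype.card_subtype_eq, ← Nat.card_eq_fintype_card, c8]
  have h3 := Nat.card_le_card_of_injective F hF
  rw [cM] at h1
  rw [h7] at h3
  have h4 : Nat.card (centralizer ({z'} : _root_.Set M)) ∣ 192 :=
    (by norm_num : Nat.gcd 1344 576 = 192) ▸ Nat.dvd_gcd (Dvd.intro_left _ h1) h2
  have h5 := Nat.le_of_dvd (by norm_num) h4
  have h6 : Nat.card {y : M // IsConj z' y} = 7 := by nlinarith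
  refine ⟨fun v hv v1 => ?_, ?_⟩
  · obtain ⟨y, e⟩ := (hF.bijective_of_nat_card_le (by rw [h6, h7])).2 ⟨⟨v, hv⟩, fun e => v1 (congrArg Subtype.val e)⟩
    obtain ⟨c, e'⟩ := isConj_iff.1 y.2.symm
    refine ⟨c, c.2, ?_⟩
    rw [← show y.1.1 = v from congrArg (fun t : {x : E // x ≠ 1} => t.1.1) e]
    exact congrArg Subtype.val e'
  · haveI : Fact (Nat.Prime 3) := ⟨by norm_num⟩
    obtain ⟨c, hc⟩ := exists_prime_orderOf_dvd_card' (G := centralizer ({z'} : _root_.Set M)) 3 (by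
      rw [h6] at h1; omega)
    refine ⟨c.1.1, c.1.2, congrArg Subtype.val (mem_centralizer_singleton_iff.1 c.2), ?_, fun e => ?_⟩
    · have := pow_orderOf_eq_one c
      rw [hc, pow_three'] at this
      exact congrArg (fun t : centralizer ({z'} : _root_.Set M) => t.1.1) this
    · rw [show c = 1 from Subtype.ext (Subtype.ext e), orderOf_one] at hc
      omega

theorem exists_notMem [Finite G] {E : Subgroup G} (s : Finset G) (h : s.card < Nat.card E) : ∃ x ∈ E, x ∉ s := by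
  by_contra hc
  push Not at hc
  have := Nat.card_le_card_of_injective (fun x : E => (⟨x, hc x x.2⟩ : s))
    fun x y e => Subtype.ext (congrArg (fun t : s => t.1) e)
  rw [Nat.card_eq_fintype_card (α := s), Fintype.card_coe] at this
  omega

/-- The elementary abelian group lies in the product of the two factors. -/
theorem le_K [Finite G] {H E : Subgroup G} {f : Km →* G} (hf : Function.Injective f) (hi : f.range.relIndex H = 2)
    (hE : E ≤ H) (c8 : Nat.card E = 8) (sq : ∀ x ∈ E, x * x = 1) (cm : ∀ x ∈ E, ∀ y ∈ E, x * y = y * x)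
    (hz : f kz ∈ E) {c : G} (hc : c ∈ H) (c3 : c * c * c = 1) (c1 : c ≠ 1) (hn : ∀ x ∈ E, c * x * c⁻¹ ∈ E) :
    E ≤ f.range ∧ ∃ v e : Km, f v ∈ E ∧ f e ∈ E ∧ v ≠ 1 ∧ v ≠ kz ∧ e ≠ 1 ∧ e ≠ kz ∧ e ≠ v ∧ e ≠ v * kz := by
  classical
  have hm : ∀ x ∈ H, ∀ y ∈ H, x * y ∈ f.range ↔ (x ∈ f.range ↔ y ∈ f.range) := fun x hx y hy =>
    mul_mem_iff_of_index_two (H := f.range.subgroupOf H) hi (a := ⟨x, hx⟩) (b := ⟨y, hy⟩)
  have z1 : f kz ≠ 1 := fun e => absurd (hf (e.trans (map_one f).symm)) (by decide +kernel)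
  obtain ⟨v, hv, v1, v2⟩ : ∃ v : Km, f v ∈ E ∧ v ≠ 1 ∧ v ≠ kz := by
    obtain ⟨x, hx, x1⟩ := exists_notMem (E := E) {1, f kz} (Finset.card_le_two.trans_lt (by omega))
    obtain ⟨y, hy, y1⟩ := exists_notMem (E := E) {1, f kz, x, x * f kz} (Finset.card_le_four.trans_lt (by omega))
    simp only [Finset.mem_insert, Finset.mem_singleton, not_or] at x1 y1
    have k : ∀ t ∈ E, t ≠ 1 → t ≠ f kz → t ∈ f.range → ∃ v : Km, f v ∈ E ∧ v ≠ 1 ∧ v ≠ kz := by
      rintro _ ht t1 t2 ⟨v, rfl⟩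
      exact ⟨v, ht, fun e => t1 (by rw [e, map_one]), fun e => t2 (by rw [e])⟩
    by_cases h1 : x ∈ f.range
    · exact k x hx x1.1 x1.2 h1
    by_cases h2 : y ∈ f.range
    · exact k y hy y1.1 y1.2.1 h2
    refine k (x * y) (mul_mem hx hy) (fun e => y1.2.2.1 ?_) (fun e => y1.2.2.2 ?_)
      ((hm x (hE hx) y (hE hy)).2 (iff_of_false h1 h2))
    · rw [← inv_eq_of_mul_eq_one_right e, inv_eq_of_mul_eq_one_right (sq x hx)]
    · rw [← e, ← mul_assoc, sq x hx, one_mul]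
  obtain ⟨e, he, e1, e2, e3, e4⟩ : ∃ e : Km, f e ∈ E ∧ e ≠ 1 ∧ e ≠ kz ∧ e ≠ v ∧ e ≠ v * kz := by
    by_contra h
    push Not at h
    obtain ⟨d, rfl⟩ : c ∈ f.range := by
      have : c = c * c * (c * c) := by rw [← mul_assoc, c3, one_mul]
      rw [this]
      exact (hm _ (mul_mem hc hc) _ (mul_mem hc hc)).2 Iff.rfl
    have d3 : d * d * d = 1 := hf (by simpa using c3)
    have h1 : d * v * d⁻¹ = v ∨ d * v * d⁻¹ = v * kz := or_iff_not_imp_left.2 <|
      h _ (by simpa using hn _ hv) (fun e => v1 (by simpa using e)) fun e => v2 (by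
        rw [mul_inv_eq_iff_eq_mul, ← kz_cent] at e; exact mul_left_cancel e)
    have h2 : d * v = v * d := by
      rcases h1 with h1 | h1
      · exact mul_inv_eq_iff_eq_mul.1 h1
      · have h3 : d * d * v = v * (d * d) := by
          rw [mul_inv_eq_iff_eq_mul] at h1
          calc d * d * v = d * (d * v) := mul_assoc _ _ _
            _ = d * (v * kz * d) := congrArg (d * ·) h1
            _ = d * v * kz * d := by simp only [mul_assoc]
            _ = v * (kz * (d * kz)) * d := by rw [h1]; simp only [mul_assoc]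
            _ = _ := by rw [kz_cent d, ← mul_assoc kz, kz_sq, one_mul, mul_assoc]
        have h4 : d = (d * d)⁻¹ := eq_inv_of_mul_eq_one_right d3
        rw [h4]
        exact (Commute.inv_left h3).eq
    rcases k_three v (hf (by simpa using sq _ hv)) d d3 h2 with h | h | h
    exacts [c1 (by rw [h, map_one]), v1 h, v2 h]
  refine ⟨?_, v, e, hv, he, v1, v2, e1, e2, e3, e4⟩
  have h5 : 5 ≤ Nat.card (E ⊓ f.range : Subgroup G) := by
    by_contra h
    have hc : (({1, kz, v, v * kz, e} : Finset Km).image f).card = 5 := by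
      have n1 : (1 : Km) ≠ kz := by decide +kernel
      have n2 : 1 ≠ v * kz := fun h => v2 (by
        rw [← inv_eq_of_mul_eq_one_left h.symm, inv_eq_of_mul_eq_one_left kz_sq])
      have n3 : kz ≠ v * kz := fun h => v1 (by simpa using h)
      have n4 : v ≠ v * kz := fun h => n1 (by simpa [eq_comm] using h)
      rw [Finset.card_image_of_injective _ hf]
      simp [Finset.card_insert_of_notMem, n1, n2, n3, n4, v1.symm, v2.symm, e1.symm, e2.symm, e3.symm, e4.symm]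
    have := Nat.card_le_card_of_injective (fun x : (({1, kz, v, v * kz, e} : Finset Km).image f) =>
      (⟨x, by
        obtain ⟨y, hy, e⟩ := Finset.mem_image.1 x.2
        refine e ▸ ⟨?_, y, rfl⟩
        simp only [Finset.mem_insert, Finset.mem_singleton] at hy
        rcases hy with rfl | rfl | rfl | rfl | rfl
        exacts [map_one f ▸ one_mem _, hz, hv, map_mul f _ _ ▸ mul_mem hv hz, he]⟩ : (E ⊓ f.range : Subgroup G)))
      fun x y e => Subtype.ext (congrArg (fun t : (E ⊓ f.range : Subgroup G) => t.1) e)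
    rw [Nat.card_eq_fintype_card (α := (({1, kz, v, v * kz, e} : Finset Km).image f)), Fintype.card_coe] at this
    omega
  have h6 := card_dvd_of_le (inf_le_left : E ⊓ f.range ≤ E)
  rw [c8] at h6
  have h7 := Nat.le_of_dvd (by norm_num) h6
  have h8 : Nat.card (E ⊓ f.range : Subgroup G) = 8 := by
    generalize Nat.card (E ⊓ f.range : Subgroup G) = n at *
    interval_cases n <;> omega
  exact inf_eq_left.1 (eq_of_le_of_card_ge inf_le_left (by omega))

/-- An outer involution that inverts suitable generators of one factor. -/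
theorem gen_aux {f : Km →* G} (hf : Function.Injective f) {s : G} (ss : s * s = 1) {P : Km → Prop}
    (hP : ∀ x, P x → ∃ y, P y ∧ f y = s * f x * s) {i j : Km} (hj : f j = s * f i * s)
    (h : i * j * (j * i) = 1 ∧ ∃ a, P a ∧ a * a * a = 1 ∧ a * i * a⁻¹ * j = 1 ∧ a * j * a⁻¹ = i * j ∧
      (∀ c, P c → c * c * c = 1 → c * j * c⁻¹ * i = 1 → c * i * c⁻¹ = j * i → c * a = 1) ∧
      ∃ k, P k ∧ (k = i * j ∨ k = j * i) ∧ k * k = kz ∧ k * a * (k * a) * (k * a) = 1) :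
    ∃ a k, P a ∧ P k ∧ a * a * a = 1 ∧ k * k = kz ∧ k * a * (k * a) * (k * a) = 1 ∧ s * f a * (s * f a) = 1 ∧
      s * f k * (s * f k) = 1 := by
  obtain ⟨h0, a, ha, a3, h1, h2, h3, k, hk, h4, h5, h6⟩ := h
  obtain ⟨c, hc, e⟩ := hP a ha
  have si := inv_eq_of_mul_eq_one_right ss
  let σ := MulAut.conj s
  have hσ : ∀ x, s * x * s = σ x := fun x => by rw [MulAut.conj_apply, si]
  have hi : f i = σ (f j) := by
    rw [← hσ, hj, ← mul_assoc, ← mul_assoc, ss, one_mul, mul_assoc, ss, mul_one]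
  rw [hσ] at hj e
  have h7 := h3 c hc (hf (by simp only [map_mul, map_one, e]; simp only [← map_mul, a3, map_one]))
    (hf (by
      rw [map_mul, map_mul, map_mul, map_inv, e, hj, map_one]
      nth_rewrite 2 [hi]
      simp only [← map_mul, ← map_inv, h1, map_one]))
    (hf (by
      rw [map_mul, map_mul, map_mul, map_inv, e, hi]
      nth_rewrite 2 [hj]
      simp only [← map_mul, ← map_inv, h2]))
  refine ⟨a, k, ha, hk, a3, h5, h6, ?_, ?_⟩
  · rw [← mul_assoc, hσ, ← e, ← map_mul, h7, map_one]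
  · rw [← mul_assoc, hσ]
    rcases h4 with rfl | rfl
    · rw [map_mul, map_mul, ← hj, ← hi, ← map_mul, ← map_mul, ← map_mul, mul_eq_one_comm.1 h0, map_one]
    · rw [map_mul, map_mul, ← hj, ← hi, ← map_mul, ← map_mul, ← map_mul, h0, map_one]

theorem exists_set [Finite G] {H H₁ H₂ M E : Subgroup G} (h1 : H₁ ≤ H) (h2 : H₂ ≤ H) (hn1 : (H₁.subgroupOf H).Normal)
    (hn2 : (H₂.subgroupOf H).Normal) (e₁ : H₁ ≃* SL(2, ZMod 3)) (e₂ : H₂ ≃* SL(2, ZMod 3))
    (hidx : (H₁ ⊔ H₂).relIndex H = 2)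
    (hint1 : H₁ ⊓ H₂ = H₁ ⊓ centralizer (H₁ : _root_.Set G)) (hint2 : H₁ ⊓ H₂ = H₂ ⊓ centralizer (H₂ : _root_.Set G))
    (hHC : H = centralizer ((H₁ ⊓ H₂ : Subgroup G) : _root_.Set G)) (hE : E ≤ M)
    (hn : ∀ m ∈ M, ∀ x ∈ E, m * x * m⁻¹ ∈ E) (c8 : Nat.card E = 8) (cM : Nat.card M = 1344)
    (sq : ∀ x ∈ E, x * x = 1) (cm : ∀ x ∈ E, ∀ y ∈ E, x * y = y * x) (hZ : H₁ ⊓ H₂ ≤ E) : ∃ φ : Hm →* G, Set φ := by
  obtain ⟨f, hf, hK, hz, m1, m2⟩ := exists_K h1 h2 hn1 hn2 e₁ e₂ hint1 hint2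
  have z1 : f kz ≠ 1 := fun e => absurd (hf (e.trans (map_one f).symm)) (by decide +kernel)
  have hH : ∀ g, g ∈ H ↔ g * f kz = f kz * g := fun g => by
    rw [hHC]
    refine ⟨fun h => (h _ ((hz _).2 (.inr rfl))).symm, fun h y hy => ?_⟩
    rcases (hz y).1 hy with rfl | rfl
    exacts [by simp, h.symm]
  have zE : f kz ∈ E := hZ ((hz _).2 (.inr rfl))
  have hKH : f.range ≤ H := hK ▸ sup_le h1 h2
  rw [← hK] at hidx
  have cH : Nat.card H = 576 := by
    have := (f.range.subgroupOf H).card_mul_index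
    rw [Nat.card_congr (subgroupOfEquivOfLe hKH).toEquiv, ← Nat.card_congr (MonoidHom.ofInjective hf).toEquiv,
      card_Km, show (f.range.subgroupOf H).index = 2 from hidx] at this
    omega
  obtain ⟨tr, c, hc, cz, c3, c1⟩ := exists_M hE hn c8 cM zE z1 (by
    rw [← cH, show centralizer {f kz} = H from Subgroup.ext fun g => by rw [hH, mem_centralizer_singleton_iff]])
  have hEH : E ≤ H := fun x hx => (hH x).2 (cm _ hx _ zE)
  obtain ⟨hEK, v, e, hv, he, v1, v2, e1, e2, e3, e4⟩ := le_K hf hidx hEH c8 sq cm zE ((hH c).2 cz) c3 c1 (hn c hc)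
  obtain ⟨u, u2, uv, ue, d, hd⟩ := k_move v (hf (by simpa using sq _ hv)) v1 v2 e (hf (by simpa using sq _ he))
    (hf (by simpa using cm _ he _ hv)) e1 e2 e3 e4
  obtain ⟨m, hm, mv⟩ := tr _ hv fun h => v1 (hf (h.trans (map_one f).symm))
  set s := m * f u * m⁻¹ with hs
  have ss : s * s = 1 := by
    calc s * s = m * f (u * u) * m⁻¹ := by rw [map_mul, hs]; group
      _ = 1 := by rw [u2]; simp
  have sH : s ∈ H := (hH s).2 (by
    calc s * f kz = m * f (u * v) * m⁻¹ := by rw [map_mul, hs, ← mv]; group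
      _ = f kz * s := by rw [uv, map_mul, hs, ← mv]; group)
  obtain ⟨e', he'⟩ := hEK (hn m hm _ he)
  have eE : f e' ∈ E := he' ▸ hn m hm _ he
  have key : s * f e' * s * f e' = m * f kz * m⁻¹ := by
    rw [← ue, he', hs]; simp only [map_mul]; group
  have k1 : m * f kz * m⁻¹ ≠ 1 := by simpa using z1
  have k2 : m * f kz * m⁻¹ ≠ f kz := fun h => v2 (hf (by
    simpa using mv.trans h.symm))
  have si := inv_eq_of_mul_eq_one_right ss
  have p1 : ∀ x, in1 x → ∃ y, in1 y ∧ f y = s * f x * s := fun x hx =>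
    (m1 _).1 (by simpa only [si] using (normal_subgroupOf_iff h1).1 hn1 _ s ((m1 _).2 ⟨x, hx, rfl⟩) sH)
  have p2 : ∀ x, in2 x → ∃ y, in2 y ∧ f y = s * f x * s := fun x hx =>
    (m2 _).1 (by simpa only [si] using (normal_subgroupOf_iff h2).1 hn2 _ s ((m2 _).2 ⟨x, hx, rfl⟩) sH)
  have q : ∀ x y, x * x = kz → f y = s * f x * s → y * y = kz := fun x y h h' => hf (by
    rw [map_mul, h']
    calc _ = s * (f x * (s * s) * f x) * s := by group
      _ = f kz := by rw [ss, mul_one, ← map_mul, h, (hH s).1 sH, mul_assoc, ss, mul_one])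
  obtain ⟨i, hi, i2, j, hj, j2, rfl⟩ := k_split e' (hf (by simpa using sq _ eE))
    (fun h => k1 (by rw [← key, h]; simp [ss])) fun h => k1 (by
      rw [← key, h, (hH s).1 sH, mul_assoc (f kz) s, ss, mul_one, ← map_mul, kz_sq, map_one])
  obtain ⟨i', hi', ei⟩ := p1 i hi
  obtain ⟨j', hj', ej⟩ := p2 j hj
  have e5 : f (i' * j') = s * f (i * j) * s := by
    rw [map_mul, map_mul, ei, ej]
    calc _ = s * (f i * (s * s) * f j) * s := by group
      _ = _ := by rw [ss, mul_one]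
  have e6 : f (i' * j') ∈ E := by
    rw [e5, ← mul_inv_cancel_right (s * _ * s) (f (i * j)), key]
    exact mul_mem (hn m hm _ zE) (inv_mem eE)
  obtain ⟨⟨n1, n2⟩, n3, n4⟩ := k_swap i hi i2 i' hi' (q i i' i2 ei) j hj j2 j' hj' (q j j' j2 ej)
    (hf (by simpa only [map_mul f (i' * j'), map_mul f (i * j)] using cm _ e6 _ eE))
    (fun h => k1 (by rw [← key, ← e5, ← map_mul, h, map_one])) fun h => k2 (by rw [← key, ← e5, ← map_mul, h])
  obtain ⟨a, k, ha, hk, a3, k2', ka3, sa, sk⟩ := gen_aux hf ss p1 ei (k_gen1 i hi i2 i' hi' (q i i' i2 ei) n1 n2)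
  obtain ⟨b, l, hb, hl, b3, l2, lb3, sb, sl⟩ := gen_aux hf ss p2 ej (k_gen2 j hj j2 j' hj' (q j j' j2 ej) n3 n4)
  obtain ⟨φ, f1, f2, f3, f4, f5⟩ := exists_homH (a := f a) (k := f k) (b := f b) (l := f l) (s := s) (by
    constructor <;> simp only [← map_mul, a3, k2', ka3, b3, l2, lb3, kz_sq, map_one, k_cent _ ha _ hb,
      k_cent _ ha _ hl, k_cent _ hk _ hb, k_cent _ hk _ hl]) ⟨ss, sa, sk, sb, sl⟩
  have fz : φ ez = f kz := by rw [ez_eq, map_mul, f2, ← map_mul, k2']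
  have hφ := inj_H φ (fz ▸ z1)
  have hr : φ.range = H := eq_of_le_of_card_ge
    (range_le (f1 ▸ hKH ⟨a, rfl⟩) (f2 ▸ hKH ⟨k, rfl⟩) (f3 ▸ hKH ⟨b, rfl⟩) (f4 ▸ hKH ⟨l, rfl⟩) (f5 ▸ sH))
    (by rw [cH, ← Nat.card_congr (MonoidHom.ofInjective hφ).toEquiv, card_Hm])
  refine ⟨φ, hφ, fun g hg => hr ▸ (hH g).2 (fz ▸ hg), ?_⟩
  rw [fz, f5, hs, ← hd, ← mv]
  exact isConj_iff.2 ⟨m * f d * m⁻¹, by simp only [map_mul, map_inv]; group⟩

end Cfsg.Agent.Lib.G3Loc
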