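import Cfsg.Agent.Lib.ChevTw
import Cfsg.Agent.Lib.Words

/-! The Chevalley group `G₂(3)`: generators satisfying the amalgam relators, a divisor of the order,
and the absence of normal subgroups of odd order. -/

set_option autoImplicit false
set_option maxRecDepth 100000

namespace Cfsg.Agent.Lib.G3Mat

open Cfsg.Lie Cfsg.Agent.Lib.ChevEval Cfsg.Agent.Lib.ChevGood Cfsg.Agent.Lib.ChevWeyl
  Cfsg.Agent.Lib.ChevFil Cfsg.Agent.Lib.ChevFil.Cx Cfsg.Agent.Lib.ChevBN Cfsg.Agent.Lib.ChevProd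
  Cfsg.Agent.Lib.ChevUn Cfsg.Agent.Lib.PermNet Cfsg.Agent.Lib.Words

instance factThree : Fact (Nat.Prime 3) := ⟨Nat.prime_three⟩

abbrev B : Type := chevG2.group (ZMod 3)

noncomputable abbrev C : Cx chevG2 (ZMod 3) := cG2 (ZMod 3)

/-- a word in root elements with integer parameters -/
noncomputable def xw (l : List (ℕ × ℤ)) : B := wd C (l.map fun x => (x.1, (x.2 : ZMod 3)))

def lf (l : List (ℕ × ℤ)) : List (ℕ × ℤ × ℕ) := l.map fun x => (x.1, x.2, 0)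

noncomputable def chk (l l' : List (ℕ × ℤ)) : Bool :=
  (lf l ++ lf l').all (fun x => Nat.blt x.1 ChevTG2.X.n) &&
    eqW mon1 3 (ChevTG2.X.l + ChevTG2.X.n) ChevTG2.X.colF (lf l) (lf l')

theorem xw_eq {l l' : List (ℕ × ℤ)} (e : chk l l' = true) : xw l = xw l' := by
  have h := wd_eq C ChevTG2.agree (mon1_sound (1 : ZMod 3)) (p := 3) (by decide) e
  simpa only [lf, xw, List.map_map, Function.comp_def, pow_zero, mul_one] using h

@[simp] theorem xw_nil : xw [] = 1 := rfl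

theorem xw_cons (r : ℕ) (t : ℤ) (l : List (ℕ × ℤ)) : xw ((r, t) :: l) = C.x r t * xw l := by
  simp [xw]

theorem xw_append (l l' : List (ℕ × ℤ)) : xw (l ++ l') = xw l * xw l' := by
  simp [xw, wd_append]

def iv : List (ℕ × ℤ) → List (ℕ × ℤ)
  | [] => []
  | x :: l => iv l ++ [(x.1, -x.2)]

theorem xw_iv (l : List (ℕ × ℤ)) : xw (iv l) = (xw l)⁻¹ := by
  induction l with
  | nil => simp [iv]
  | cons x l ih =>
    obtain ⟨r, t⟩ := x
    rw [iv, xw_append, ih, xw_cons, xw_cons, xw_nil, mul_one, Int.cast_neg, x_neg, mul_inv_rev]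

def rp : ℕ → List (ℕ × ℤ) → List (ℕ × ℤ)
  | 0, _ => []
  | n + 1, l => l ++ rp n l

theorem xw_rp (n : ℕ) (l : List (ℕ × ℤ)) : xw (rp n l) = xw l ^ n := by
  induction n with
  | zero => simp [rp]
  | succ n ih => rw [rp, xw_append, ih, pow_succ']

/-- the generators `a, k, b, l, s, n` -/
def gw : List (List (ℕ × ℤ)) :=
  [[(11, 1)], [(11, 1), (0, -1), (11, 1)], [(7, -1)], [(7, -1), (4, 1), (7, -1)],
    [(8, 1), (3, -1), (8, 1), (8, 1), (3, -1), (8, 1)],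
    [(6, 1), (5, -1), (6, 1), (11, 1), (0, -1), (11, 1)]]

noncomputable def f (i : ℕ) : B := xw (gw.getD i [])

def sb : List ℕ → List (ℕ × ℤ)
  | [] => []
  | a :: w => (if a % 2 = 0 then gw.getD (a / 2) [] else iv (gw.getD (a / 2) [])) ++ sb w

theorem wval_f (w : List ℕ) : wval f w = xw (sb w) := by
  induction w with
  | nil => rfl
  | cons a w ih =>
    rw [wval_cons, sb, xw_append, ih, lval]
    split_ifs
    · rfl
    · rw [xw_iv]; rfl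

/-- the relators, in the letters `a, k, b, l, s, n = 0, …, 5` (letter `2 i` is the generator `i`, letter
`2 i + 1` its inverse) -/
def K : List (List ℕ) :=
  [[0, 0, 0], [2, 2, 2, 2], [2, 0, 2, 0, 2, 0], [2, 2, 0, 3, 3, 1], [4, 4, 4], [6, 6, 3, 3],
    [6, 4, 6, 4, 6, 4], [6, 6, 4, 7, 7, 5], [0, 4, 1, 5], [0, 6, 1, 7], [2, 4, 3, 5], [2, 6, 3, 7],
    [8, 8], [8, 0, 8, 0], [8, 2, 8, 2], [8, 4, 8, 4], [8, 6, 8, 6], [10, 10, 10], [10, 2, 2, 11, 8],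
    [10, 8, 11, 8, 2, 2], [10, 8, 2, 2, 11, 2, 2], [10, 2, 6, 11, 2, 6], [2, 10, 2, 10],
    [0, 10, 2, 0, 3, 11, 1, 10, 2, 1, 3, 11], [4, 10, 2, 0, 3, 11, 5, 10, 2, 1, 3, 11],
    [8, 10, 2, 0, 3, 11, 8, 10, 2, 1, 3, 11], [2, 2, 10, 2, 0, 3, 11, 2, 2, 10, 2, 0, 3, 11]]

theorem rels : ∀ w ∈ K, wval f w = 1 := fun w hw => by
  have h : K.all (fun w => chk (sb w) []) = true := by decide +kernel
  rw [wval_f, xw_eq (List.all_eq_true.1 h w hw), xw_nil]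

/-- the root elements `x_r(1)` as words in the generators -/
def rw' : List (List ℕ) :=
  [[2, 1, 3], [10, 0, 11], [11, 4, 10], [10, 6, 4, 7, 11], [6, 4, 7], [11, 1, 10], [2, 10, 0, 11, 3],
    [5], [10, 5, 11], [11, 6, 5, 7, 10], [2, 11, 0, 10, 3], [0]]

theorem top_of {M : Subgroup B} (h : ∀ i < 6, f i ∈ M) : M = ⊤ := by
  have h1 : (List.range 12).all (fun r => chk (sb (rw'.getD r [])) [(r, 1)] &&
      (rw'.getD r []).all fun l => decide (l / 2 < 6)) = true := by decide +kernel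
  refine C.eq_top fun r hr t => ?_
  have h2 := List.all_eq_true.1 h1 r (List.mem_range.2 hr)
  rw [Bool.and_eq_true] at h2
  have h3 : C.x r 1 ∈ M := by
    have := xw_eq h2.1
    rw [← wval_f, xw_cons, xw_nil, mul_one, Int.cast_one] at this
    rw [← this]
    exact wval_mem fun l hl => h _ (of_decide_eq_true (List.all_eq_true.1 h2.2 l hl))
  have h4 : t = 0 ∨ t = 1 ∨ t = -1 := by revert t; decide
  rcases h4 with rfl | rfl | rfl
  · rw [x_zero]; exact one_mem _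
  · exact h3
  · rw [x_neg]; exact inv_mem h3

theorem gp_top : gp f [[0], [2], [4], [6], [8], [10]] = ⊤ :=
  top_of fun i hi => by
    rw [← wval_single f i]
    exact mem_gp (by interval_cases i <;> simp)

theorem kk_ne : f 1 * f 1 ≠ 1 := fun e => by
  have h := xw_eq (l := sb [2, 2] ++ [(6, 1)]) (l' := (6, -1) :: sb [2, 2]) (by decide +kernel)
  have e' : xw (sb [2, 2]) = 1 := by
    rw [← wval_f, ← e]; simp [wval, lval]
  rw [xw_append, xw_cons, xw_cons, e', xw_nil, one_mul, mul_one, mul_one, Int.cast_neg, x_neg,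
    eq_inv_iff_mul_eq_one, ← x_add] at h
  exact absurd (x_eq_one C (r := 6) (by decide) h) (by decide)

/-- The relators written out (`z = k * k`, `t = s * z`, `u = k * l`, `w = n * (k * a * k⁻¹) * n⁻¹`). -/
def Rel {G : Type*} [Group G] (a k b l s n z t u w : G) : Prop :=
    (a * a * a = 1 ∧ k * k * k * k = 1 ∧ (k * a) ^ 3 = 1 ∧ k * k * a * k⁻¹ * k⁻¹ * a⁻¹ = 1 ∧
      b * b * b = 1 ∧ l * l * k⁻¹ * k⁻¹ = 1 ∧ (l * b) ^ 3 = 1 ∧ l * l * b * l⁻¹ * l⁻¹ * b⁻¹ = 1 ∧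
      a * b * a⁻¹ * b⁻¹ = 1 ∧ a * l * a⁻¹ * l⁻¹ = 1 ∧ k * b * k⁻¹ * b⁻¹ = 1 ∧ k * l * k⁻¹ * l⁻¹ = 1 ∧
      s * s = 1 ∧ s * a * s * a = 1 ∧ s * k * s * k = 1 ∧ s * b * s * b = 1 ∧ s * l * s * l = 1) ∧
    (n * n * n = 1 ∧ n * z * n⁻¹ * s = 1 ∧ n * s * n⁻¹ * t = 1 ∧ n * t * n⁻¹ * z = 1 ∧
      n * u * n⁻¹ * u = 1 ∧ k * n * k * n = 1) ∧
    (a * w * a⁻¹ * w⁻¹ = 1 ∧ b * w * b⁻¹ * w⁻¹ = 1 ∧ s * w * s * w⁻¹ = 1 ∧ z * w * z * w = 1)

theorem rel_iff {G : Type*} [Group G] (y : ℕ → G) : (∀ w ∈ K, wval y w = 1) ↔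
    Rel (y 0) (y 1) (y 2) (y 3) (y 4) (y 5) (y 1 * y 1) (y 4 * (y 1 * y 1)) (y 1 * y 3)
      (y 5 * (y 1 * y 0 * (y 1)⁻¹) * (y 5)⁻¹) := by
  simp only [K, List.forall_mem_cons, wval_cons, wval_nil, lval, mul_one, List.not_mem_nil, false_imp_iff,
    implies_true, and_true, Nat.reduceMod, Nat.reduceDiv, if_true, one_ne_zero, if_false, Rel,
    pow_succ, pow_zero, one_mul, mul_inv_rev, inv_inv, mul_assoc, and_assoc]

theorem gens : ∃ a k b l s n z t u w : B, z = k * k ∧ t = s * z ∧ u = k * l ∧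
    w = n * (k * a * k⁻¹) * n⁻¹ ∧
    ((a * a * a = 1 ∧ k * k * k * k = 1 ∧ (k * a) ^ 3 = 1 ∧ k * k * a * k⁻¹ * k⁻¹ * a⁻¹ = 1 ∧
      b * b * b = 1 ∧ l * l * k⁻¹ * k⁻¹ = 1 ∧ (l * b) ^ 3 = 1 ∧ l * l * b * l⁻¹ * l⁻¹ * b⁻¹ = 1 ∧
      a * b * a⁻¹ * b⁻¹ = 1 ∧ a * l * a⁻¹ * l⁻¹ = 1 ∧ k * b * k⁻¹ * b⁻¹ = 1 ∧ k * l * k⁻¹ * l⁻¹ = 1 ∧
      s * s = 1 ∧ s * a * s * a = 1 ∧ s * k * s * k = 1 ∧ s * b * s * b = 1 ∧ s * l * s * l = 1) ∧
    (n * n * n = 1 ∧ n * z * n⁻¹ * s = 1 ∧ n * s * n⁻¹ * t = 1 ∧ n * t * n⁻¹ * z = 1 ∧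
      n * u * n⁻¹ * u = 1 ∧ k * n * k * n = 1) ∧
    (a * w * a⁻¹ * w⁻¹ = 1 ∧ b * w * b⁻¹ * w⁻¹ = 1 ∧ s * w * s * w⁻¹ = 1 ∧ z * w * z * w = 1)) ∧
    Subgroup.closure {a, k, b, l, s, n} = ⊤ ∧ k * k ≠ 1 := by
  refine ⟨f 0, f 1, f 2, f 3, f 4, f 5, _, _, _, _, rfl, rfl, rfl, rfl, (rel_iff f).1 rels,
    top_of fun i hi => Subgroup.subset_closure ?_, kk_ne⟩
  interval_cases i <;> simp only [Set.mem_insert_iff, Set.mem_singleton_iff, true_or, or_true]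

theorem fr_pos : ∀ r ∈ [6, 7, 8], 1 ≤ fr chevG2 C.rt (fun _ => 1) r := by
  change ∀ r ∈ [6, 7, 8], 1 ≤ fr chevG2 ChevTG2.X.rt (fun _ => 1) r
  decide +kernel

theorem x_mul_ne {r : ℕ} (hr : r < 12) (h1 : 1 ≤ fr chevG2 C.rt (fun _ => 1) r) {v : B}
    (hv : v ∈ C.W (-fun _ => 1) 0) : C.x r 1 * v ≠ 1 := fun e => by
  rw [mul_eq_one_iff_eq_inv] at e
  exact one_ne_zero (x_eq_one C (r := r) hr (eq_one_of_W (C.x_mem_W (c := fun _ => 1) (k := 1) hr h1 1)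
    (e ▸ inv_mem hv)))

theorem xw_neg {l : List (ℕ × ℤ)} (h : ∀ a ∈ l, a.1 < 6) : xw l ∈ C.W (-fun _ => 1) 0 :=
  wd_mem_W fun a ha => by
    obtain ⟨b, hb, rfl⟩ := List.mem_map.1 ha
    have h1 := h b hb
    refine ⟨show _ < 12 by omega, ?_⟩
    have : ∀ r < 6, (0 : ℤ) ≤ fr chevG2 C.rt (-fun _ => 1) r := by
      change ∀ r < 6, (0 : ℤ) ≤ fr chevG2 ChevTG2.X.rt (-fun _ => 1) r
      decide +kernel
    exact this _ h1

theorem prime_dvd (p : ℕ) (hp : p.Prime) (l : List (ℕ × ℤ)) (h : ∀ a ∈ l, a.1 < 6)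
    (e : chk (rp p ((8, 1) :: l)) [] = true) : p ∣ Nat.card B := by
  haveI := Fact.mk hp
  have h1 := xw_eq e
  rw [xw_rp, xw_nil] at h1
  rw [← orderOf_eq_prime h1 (by
    rw [xw_cons, Int.cast_one]
    exact x_mul_ne (by decide) (fr_pos 8 (by decide)) (xw_neg h))]
  exact orderOf_dvd_natCard _

def cc : Fin chevG2.rank → ℤ := ![2, 3]

theorem srt : [7, 6, 8, 9, 10, 11].Pairwise fun r s => fr chevG2 C.rt cc r < fr chevG2 C.rt cc s := by
  change [7, 6, 8, 9, 10, 11].Pairwise fun r s => fr chevG2 ChevTG2.X.rt cc r < fr chevG2 ChevTG2.X.rt cc s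
  decide +kernel

theorem psv : ∀ r ∈ [7, 6, 8, 9, 10, 11], r < chevG2.nroots ∧ 0 < fr chevG2 C.rt cc r := by
  change ∀ r ∈ [7, 6, 8, 9, 10, 11], r < 12 ∧ 0 < fr chevG2 ChevTG2.X.rt cc r
  decide +kernel

theorem exists_inj {D : ChevalleyDatum} {F : Type*} [Field F] (C : Cx D F) (c : Fin D.rank → ℤ) (R : List ℕ)
    (hs : R.Pairwise fun r s => fr D C.rt c r < fr D C.rt c s)
    (h0 : ∀ r ∈ R, r < D.nroots ∧ 0 < fr D C.rt c r) :
    ∃ φ : (Fin R.length → F) → C.W c 1, Function.Injective φ :=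
  ⟨fun v => ⟨wd C (R.zip (List.ofFn v)), wd_mem_W fun _ ha => h0 _ (List.of_mem_zip ha).1⟩,
    fun _ _ e => List.ofFn_injective (prod_uniq hs h0 List.length_ofFn List.length_ofFn
      (congrArg Subtype.val e))⟩

theorem dvd_729 : 729 ∣ Nat.card B := by
  obtain ⟨φ, hφ⟩ := exists_inj C cc _ srt psv
  have h1 := Nat.card_le_card_of_injective φ hφ
  obtain ⟨k, hk⟩ := IsPGroup.iff_card.1 (isPGroup_W (C := C) 3 cc)
  rw [Nat.card_fun, Nat.card_zmod, Nat.card_eq_fintype_card (α := Fin _), Fintype.card_fin, hk] at h1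
  refine Dvd.dvd.trans ?_ (Subgroup.card_subgroup_dvd_card (C.W cc 1))
  rw [hk]
  exact pow_dvd_pow 3 (show 6 ≤ k from (Nat.pow_le_pow_iff_right (by norm_num)).1 h1)

theorem dvd_card : 729 * 7 * 13 ∣ Nat.card B :=
  Nat.Coprime.mul_dvd_of_dvd_of_dvd (by norm_num)
    (Nat.Coprime.mul_dvd_of_dvd_of_dvd (by norm_num) dvd_729
      (prime_dvd 7 (by norm_num) [(1, 1), (2, 1), (5, 1)] (by decide) (by decide +kernel)))
    (prime_dvd 13 (by norm_num) [(1, 1), (5, 1)] (by decide) (by decide +kernel))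

theorem odd_normal (N : Subgroup B) [N.Normal] (h : Odd (Nat.card N)) : N = ⊥ := by
  refine ChevTw.normal_eq_bot C 3 N fun j hj b hb hm => ?_
  obtain ⟨r, q, hr, hq, e1, e2, h1, c1, c2⟩ : ∃ r q : ℕ, r < 12 ∧ q < 6 ∧ sp chevG2 j = r ∧
      ng chevG2 r = q ∧ 1 ≤ fr chevG2 C.rt (fun _ => 1) r ∧
      chk (rp 4 [(r, 1), (q, 1), (r, -1), (q, -1)]) [] = true ∧
      chk [(r, 1), (q, -1), (r, 1)] [(q, -1), (r, 1), (q, -1)] = true := by
    have : j = 0 ∨ j = 1 := by change j < 2 at hj; omega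
    rcases this with rfl | rfl
    · exact ⟨7, 4, by decide, by decide, by decide, by decide, fr_pos 7 (by decide),
        by decide +kernel, by decide +kernel⟩
    · exact ⟨6, 5, by decide, by decide, by decide, by decide, fr_pos 6 (by decide),
        by decide +kernel, by decide +kernel⟩
  rw [e1, e2] at hm
  have d1 := xw_eq c1
  have d2 := xw_eq c2
  simp only [xw_rp, xw_cons, xw_nil, mul_one, Int.cast_neg, Int.cast_one, x_neg] at d1 d2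
  have hv : C.x q 1 ∈ C.W (-fun _ => 1) 0 := by
    have := xw_neg (l := [(q, 1)]) (by simpa using hq)
    simpa only [xw_cons, xw_nil, mul_one, Int.cast_one] using this
  have hne := x_mul_ne hr h1 hv
  have hu := C.x_mem_W (c := fun _ => 1) (k := 1) hr h1 1
  generalize C.x r 1 = u at *
  generalize C.x q 1 = v at *
  obtain ⟨k, hk⟩ := isPGroup_W (C := C) 3 _ ⟨_, comm_W hu (inv_mem hb)⟩
  have hk' : (u * b⁻¹ * u⁻¹ * b⁻¹⁻¹) ^ 3 ^ k = 1 := congrArg Subtype.val hk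
  let π := QuotientGroup.mk' N
  have e3 : π v = (π b)⁻¹ := by
    rw [eq_inv_iff_mul_eq_one, mul_eq_one_comm, ← map_mul]
    exact (QuotientGroup.eq_one_iff _).2 hm
  have e4 : π (u * (v * (u⁻¹ * v⁻¹))) = 1 := by
    have a1 : π (u * (v * (u⁻¹ * v⁻¹))) ^ 4 = 1 := by rw [← map_pow, d1, map_one]
    have a2 : π (u * (v * (u⁻¹ * v⁻¹))) ^ 3 ^ k = 1 := by
      have := congrArg π hk'
      simpa only [map_pow, map_mul, map_inv, e3, map_one, mul_assoc] using this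
    rw [← orderOf_eq_one_iff]
    exact Nat.eq_one_of_dvd_coprimes (show Nat.Coprime 4 (3 ^ k) from
      Nat.Coprime.pow_right k (by norm_num)) (orderOf_dvd_of_pow_eq_one a1) (orderOf_dvd_of_pow_eq_one a2)
  have e5 : u * (v * (u⁻¹ * v⁻¹)) ∈ N := (QuotientGroup.eq_one_iff _).1 e4
  have e6 : u * (v * (u⁻¹ * v⁻¹)) = 1 := by
    rw [← orderOf_eq_one_iff]
    have a1 := orderOf_dvd_of_pow_eq_one d1
    have a2 := N.orderOf_dvd_natCard e5
    exact Nat.eq_one_of_dvd_coprimes (show Nat.Coprime 4 (Nat.card N) from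
      (Nat.coprime_two_left.2 h).pow_left 2) a1 a2
  have e7 : u * v = v * u := by
    rw [← mul_inv_eq_one, mul_inv_rev, mul_assoc, e6]
  have e8 : u * v⁻¹ = v⁻¹ * u := (Commute.inv_right e7 :)
  refine hne ?_
  rw [← mul_assoc, e8, mul_assoc, mul_right_inj, mul_left_inj] at d2
  rw [d2, inv_mul_cancel]

end Cfsg.Agent.Lib.G3Mat
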