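import Cfsg.Agent.Lib.GL23Char
import Cfsg.Agent.Lib.GL23TC
import Cfsg.Agent.Lib.CoprimeInvert

/-! Generators and relations for a group with an involution centraliser `GL₂(3)`. -/

set_option autoImplicit false

namespace Cfsg.Agent.Lib.GL23Recog

open Subgroup GL23 GL23Char GL23TC
open D8Amalg (gn ev Rel)

variable {G : Type*} [Group G]

theorem exists_invol {g : G} (hg : IsOfFinOrder g) (he : ¬ Odd (orderOf g)) :
    ∃ n : ℕ, g ^ n * g ^ n = 1 ∧ g ^ n ≠ 1 := by
  obtain ⟨n, hn⟩ := Nat.not_odd_iff_even.1 he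
  have := hg.orderOf_pos
  exact ⟨n, by rw [← pow_add, ← hn, pow_orderOf_eq_one], pow_ne_one_of_lt_orderOf (by omega) (by omega)⟩

/-- An involution permuting the involutions of `⟨T, B⟩`. -/
structure Swap (f : H →* G) (d : G) : Prop where
  dd : d * d = 1
  ds : d * f B = f B * d
  dt : d * f T * d = f T * f B

variable {f : H →* G}

theorem ss : f B * f B = 1 := by rw [← map_mul, BB, map_one]
theorem cc : f C * f C = 1 := by rw [← map_mul, CC, map_one]
theorem aa : f A * f A = 1 := by rw [← map_mul, AA, map_one]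

theorem canc {a : G} (h : a * a = 1) (x : G) : a * (a * x) = x := by rw [← mul_assoc, h, one_mul]

theorem inv_eq {a : G} (h : a * a = 1) : a⁻¹ = a := inv_eq_of_mul_eq_one_right h

theorem normal_bot [Finite G] (h : Hyp f) (N : Subgroup G) [hN : N.Normal] (ht : f T ∉ N) :
    N = ⊥ := by
  have h1 : ∀ g ∈ N, g * g = 1 → g = 1 := fun g hg h2 => by
    by_contra h3
    obtain ⟨c, rfl⟩ := isConj_iff.1 (h.isConj_of_invol h2 h3)
    exact ht (by simpa [mul_assoc] using hN.conj_mem _ hg c⁻¹)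
  have h2 : ∀ k, f k ∈ N → k ^ 3 = 1 := fun k hk => cube_of_odd (by
    by_contra h3
    obtain ⟨n, h4, h5⟩ := exists_invol (isOfFinOrder_of_finite k) h3
    refine h5 (h.inj ?_)
    rw [map_one, map_pow]
    exact h1 _ (N.pow_mem hk n) (by rw [← map_pow, ← map_mul, h4, map_one]))
  have h3 : N ⊓ centralizer {f T} = ⊥ := by
    rw [eq_bot_iff, h.range_eq]
    rintro _ ⟨hk, k, rfl⟩
    have : ∀ c, (k * (c * k * c⁻¹)) ^ 3 = 1 := fun c => h2 _ (by
      rw [map_mul, map_mul, map_mul, map_inv]; exact N.mul_mem hk (hN.conj_mem _ hk _))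
    rw [odd_core k (h2 k hk) (this W) (this E), map_one]
    exact one_mem _
  have h4 : ∀ u, IsConj (f T) u → ∀ n ∈ N, u * n * u⁻¹ = n⁻¹ := fun u hu n hn => by
    obtain ⟨c, rfl⟩ := isConj_iff.1 hu
    have := CoprimeInvert.inverts_of_inf_centralizer_eq_bot (K := N) (z := f T)
      (by rw [normalizer_eq_top]; trivial) (by rw [sq, Cent.tt]) h3 (hN.conj_mem _ hn c⁻¹)
    calc c * f T * c⁻¹ * n * (c * f T * c⁻¹)⁻¹
        = c * (f T * (c⁻¹ * n * c⁻¹⁻¹) * (f T)⁻¹) * c⁻¹ := by group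
      _ = n⁻¹ := by rw [this]; group
  rw [eq_bot_iff]
  intro n hn
  have e1 := h4 _ (IsConj.refl _) n⁻¹ (N.inv_mem hn)
  have e2 := h4 _ h.fus n hn
  have e3 := h4 _ (h.isConj_f (k := T * B) (by decide +kernel) (by decide +kernel)) n hn
  rw [map_mul] at e3
  refine h1 n hn ?_
  have : n = n⁻¹ := by
    rw [← e3]
    calc n = n⁻¹⁻¹ := (inv_inv n).symm
      _ = f T * (f B * n * (f B)⁻¹) * (f T)⁻¹ := by rw [← e1, e2]
      _ = _ := by group
  nth_rewrite 2 [this]
  exact mul_inv_cancel n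

theorem exists_swap' (h : Hyp f) : ∃ d, Swap f d := by
  obtain ⟨k, hk⟩ := isConj_iff.1 h.fus
  have hts : f B * f T = f T * f B := Cent.comm B
  obtain ⟨u, hu⟩ := h.cent (k⁻¹ * f T * k) (by
    calc k⁻¹ * f T * k * f T = k⁻¹ * (f T * (k * f T * k⁻¹)) * k := by group
      _ = k⁻¹ * ((k * f T * k⁻¹) * f T) * k := by rw [hk, hts]
      _ = _ := by group)
  have ht : f T = k * f u * k⁻¹ := by rw [hu]; group
  obtain ⟨r, hr, hr'⟩ := exists_swap u (h.inj (by
    rw [map_mul, hu, map_one]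
    calc k⁻¹ * f T * k * (k⁻¹ * f T * k) = k⁻¹ * (f T * f T) * k := by group
      _ = 1 := by rw [Cent.tt]; group)) (by rintro rfl; exact h.t_ne (by rw [ht]; simp))
    (by rintro rfl; exact B_ne_T (h.inj (hk.symm.trans ht.symm)))
  refine ⟨k * f r * k⁻¹, ?_, ?_, ?_⟩
  · calc k * f r * k⁻¹ * (k * f r * k⁻¹) = k * f (r * r) * k⁻¹ := by rw [map_mul]; group
      _ = 1 := by rw [hr]; simp
  · rw [← hk]
    calc k * f r * k⁻¹ * (k * f T * k⁻¹) = k * (f r * f T) * k⁻¹ := by group
      _ = _ := by rw [Cent.comm]; group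
  · rw [← hts, ← hk]
    calc _ = k * f r * k⁻¹ * (k * f u * k⁻¹) * (k * f r * k⁻¹) := by rw [← ht]
      _ = k * f (r * u * r) * k⁻¹ := by rw [map_mul, map_mul]; group
      _ = k * f T * k⁻¹ * (k * f u * k⁻¹) := by rw [hr', map_mul]; group
      _ = _ := by rw [← ht]

namespace Swap

variable {d : G} (hd : Swap f d)
include hd

theorem dsd : d * f B * d = f B := by rw [hd.ds, mul_assoc, hd.dd, mul_one]

theorem dts : d * (f T * f B) * d = f T := by
  rw [← hd.dt]; simp only [mul_assoc, canc hd.dd, hd.dd, mul_one]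

omit hd in
theorem ctc : f C * f T * f C = f T := by
  rw [Cent.comm, mul_assoc, cc, mul_one]

omit hd in
theorem csc : f C * f B * f C = f T * f B := by simp only [← map_mul, CBC]

omit hd in
theorem ctsc : f C * (f T * f B) * f C = f B := by
  rw [← csc]; simp only [mul_assoc, canc (cc (f := f)), cc, mul_one]

theorem cd_t : f C * d * f T * (f C * d)⁻¹ = f B := by
  rw [mul_inv_rev, inv_eq hd.dd, inv_eq cc, ← ctsc, ← hd.dt]; group

theorem cd_s : f C * d * f B * (f C * d)⁻¹ = f T * f B := by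
  rw [mul_inv_rev, inv_eq hd.dd, inv_eq cc, ← csc]
  nth_rewrite 2 [← hd.dsd]; group

theorem cd_ts : f C * d * (f T * f B) * (f C * d)⁻¹ = f T := by
  rw [mul_inv_rev, inv_eq hd.dd, inv_eq cc]
  calc _ = f C * (d * (f T * f B) * d) * f C := by group
    _ = _ := by rw [hd.dts, ctc]

theorem cube (h : Cent f) : (f C * d) ^ 3 = 1 := by
  have e1 := hd.cd_t
  have e2 := hd.cd_s
  have e3 := hd.cd_ts
  set u := f C * d
  have c1 : u ^ 3 * f T = f T * u ^ 3 := by
    calc u ^ 3 * f T = u * (u * (u * f T * u⁻¹) * u⁻¹) * u⁻¹ * u ^ 3 := by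
          simp [pow_succ, mul_assoc]
      _ = _ := by rw [e1, e2, e3]
  have c2 : u ^ 3 * f B = f B * u ^ 3 := by
    calc u ^ 3 * f B = u * (u * (u * f B * u⁻¹) * u⁻¹) * u⁻¹ * u ^ 3 := by
          simp [pow_succ, mul_assoc]
      _ = _ := by rw [e2, e3, e1]
  obtain ⟨k, hk⟩ := h.cent _ c1
  have c3 : u * f k * u⁻¹ = f k := by rw [hk]; group
  rw [← hk] at c2 ⊢
  rcases cent_B k (h.inj (by simpa using c2)) with rfl | rfl | rfl | rfl
  · simp
  · exact absurd (h.inj (e1.symm.trans c3)) B_ne_T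
  · rw [e2, ← map_mul] at c3
    exact absurd (h.inj c3) (by decide +kernel)
  · rw [map_mul, e3, ← map_mul] at c3
    exact absurd (h.inj c3) (by decide +kernel)

theorem rel (h : Cent f) : Rel (f A) (f B) (f C) d (rl []) := by
  intro r hr
  have key : ∀ k : H, k = 1 → f k = 1 := fun k hk => by rw [hk, map_one]
  simp only [rl, rl3, List.append_nil, List.cons_append, List.nil_append, List.mem_cons,
    List.not_mem_nil, or_false] at hr
  rcases hr with rfl | rfl | rfl | rfl | rfl | rfl | rfl | rfl | rfl | rfl | rfl | rfl <;>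
    simp only [ev, gn, List.map_cons, List.map_nil, List.prod_cons, List.prod_nil, mul_one]
  iterate 7
    simp only [← map_mul]
    exact key _ (by decide +kernel)
  · exact hd.dd
  · rw [← mul_assoc d, hd.dsd, ss]
  · simpa [pow_succ, mul_assoc] using hd.cube h
  · have e : f B * f C * f B * f C = f T := by simp only [← map_mul, T_eq]
    calc _ = d * (f B * f C * f B * f C) * d * f B * (f B * f C * f B * f C) := by
          simp only [mul_assoc]
      _ = 1 := by rw [e, hd.dt, mul_assoc (f T), ss, mul_one, Cent.tt]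

theorem not_mem (h : Cent f) : d ∉ f.range := by
  rintro ⟨k, rfl⟩
  have := hd.dt
  rw [Cent.comm, mul_assoc, hd.dd, ← map_one f, ← map_mul, ← map_mul] at this
  exact absurd (h.inj this) (by decide +kernel)

end Swap

theorem exists_comm [Finite G] (h : Hyp f) :
    ∃ r, r * r = 1 ∧ r ≠ 1 ∧ r ≠ f T ∧ r * f X = f X * r := by
  classical
  by_contra hne
  push Not at hne
  haveI := Fintype.ofFinite G
  haveI : Fact (Nat.Prime 3) := ⟨by norm_num⟩
  haveI : Fact (Nat.Prime 97) := ⟨by norm_num⟩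
  let φ : Function.End {y : G // IsConj (f T) y} := fun y =>
    ⟨f X * y * (f X)⁻¹, y.2.trans (isConj_iff.2 ⟨_, rfl⟩)⟩
  have hφ : φ ^ 3 ^ 1 = 1 := by
    funext y
    refine Subtype.ext ?_
    change f X * (f X * (f X * y * (f X)⁻¹) * (f X)⁻¹) * (f X)⁻¹ = y
    calc _ = f X ^ 3 * y * (f X ^ 3)⁻¹ := by simp [pow_succ, mul_assoc]
      _ = y := by rw [← map_pow, X_cube]; simp
  have h1 := Equiv.Perm.card_fixedPoints_modEq hφ
  have h2 : Fintype.card (Function.fixedPoints φ) = 1 := by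
    rw [Fintype.card_eq_one_iff]
    refine ⟨⟨⟨f T, IsConj.refl _⟩, Subtype.ext ?_⟩, fun y => Subtype.ext (Subtype.ext ?_)⟩
    · change f X * f T * (f X)⁻¹ = f T
      rw [Cent.comm]; group
    · by_contra hy
      refine hne y (Hyp.sq_of_isConj y.1.2) (h.ne_of_isConj y.1.2) hy ?_
      have : f X * y * (f X)⁻¹ = y := congrArg Subtype.val y.2
      rw [mul_inv_eq_iff_eq_mul] at this
      exact this.symm
  rw [h2, ← Nat.card_eq_fintype_card] at h1
  have h3 := h.card_mem
  have h4 := h.card_G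
  have h5 : Nat.card {y : G // IsConj (f T) y} = 97 := by
    simp only [List.mem_cons, List.not_mem_nil, or_false, Nat.ModEq] at h3 h1
    omega
  rw [h5] at h4
  obtain ⟨P⟩ : Nonempty (Sylow 97 G) := inferInstance
  have h6 : Nat.card P = 97 := by
    rw [P.card_eq_multiplicity, ← h4, Nat.factorization_mul (by norm_num) (by norm_num)]
    simp [Nat.Prime.factorization_self (by norm_num : Nat.Prime 97),
      Nat.factorization_eq_zero_of_lt (by norm_num : 48 < 97)]
  have h7 : (P : Subgroup G).index = 48 := by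
    have := (P : Subgroup G).index_mul_card
    rw [h6] at this
    omega
  have h8 := Nat.le_of_dvd (by norm_num) (h7 ▸ P.card_dvd_index)
  have h9 := card_sylow_modEq_one 97 G
  haveI : Subsingleton (Sylow 97 G) := by
    rw [← Finite.card_le_one_iff_subsingleton]
    simp only [Nat.ModEq] at h9
    omega
  haveI := P.normal_of_subsingleton
  have := normal_bot h P fun ht => by
    have h10 := orderOf_dvd_natCard _ ht
    rw [orderOf_eq_prime (p := 2) (by rw [sq, Cent.tt]) h.t_ne, h6] at h10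
    omega
  rw [this, card_bot] at h6
  omega

theorem odd_prod [Finite G] (h : Hyp f) {r₁ r₂ : G} (h1 : r₁ * r₁ = 1) (h2 : r₂ * r₂ = 1)
    (n1 : r₁ ≠ 1) (n2 : r₂ ≠ 1) (c1 : r₁ * f X = f X * r₁) (c2 : r₂ * f X = f X * r₂) :
    Odd (orderOf (r₁ * r₂)) := by
  by_contra he
  obtain ⟨n, hn, hn1⟩ := exists_invol (isOfFinOrder_of_finite _) he
  have z1 : r₁ * (r₁ * r₂) ^ n * r₁⁻¹ = (r₁ * r₂) ^ n := by
    rw [← conj_pow, ← inv_eq hn, ← inv_pow, mul_inv_rev, canc h1, inv_eq h2]
  have z2 : r₂ * (r₁ * r₂) ^ n * r₂⁻¹ = (r₁ * r₂) ^ n := by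
    rw [← conj_pow, ← inv_eq hn, ← inv_pow, mul_inv_rev, inv_eq h1, inv_eq h2, mul_assoc, mul_assoc,
      h2, mul_one]
  have z3 : Commute (f X) ((r₁ * r₂) ^ n) :=
    (Commute.mul_right (c1.symm : Commute _ _) (c2.symm : Commute _ _)).pow_right n
  obtain ⟨g, hg⟩ := isConj_iff.1 (h.isConj_of_invol hn hn1)
  set z := (r₁ * r₂) ^ n
  have key : ∀ y, y * z = z * y → ∃ k, y = g * f k * g⁻¹ := fun y hy => by
    obtain ⟨k, hk⟩ := h.cent (g⁻¹ * y * g) (by
      calc g⁻¹ * y * g * f T = g⁻¹ * (y * (g * f T * g⁻¹)) * g := by group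
        _ = _ := by rw [hg, hy, ← hg]; group)
    exact ⟨k, by rw [hk]; group⟩
  obtain ⟨x, hx⟩ := key _ z3
  have key2 : ∀ r, r * r = 1 → r ≠ 1 → r * f X = f X * r → r * z * r⁻¹ = z → r = z := by
    intro r h1 n1 c1 z1
    obtain ⟨k, rfl⟩ := key r (mul_inv_eq_iff_eq_mul.1 z1)
    have e1 : x ^ 3 = 1 := h.inj (by
      have := congrArg (· ^ 3) hx
      simp only [conj_pow, ← map_pow, X_cube, map_one] at this
      simpa using this.symm)
    rw [hx] at c1
    rcases invol_of_three x k e1 (by rintro rfl; exact X_ne (h.inj (by simpa using hx)))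
      (h.inj (by simpa using h1)) (h.inj (by simpa using c1)) with rfl | rfl
    · simp at n1
    · exact hg
  rw [key2 r₁ h1 n1 c1 z1, key2 r₂ h2 n2 c2 z2, hn] at he
  simp at he

theorem exists_fixed [Finite G] (h : Hyp f) : ∃ v r, (v = f B ∨ v = f T * f B) ∧ r * r = 1 ∧ r ≠ 1 ∧
    r ≠ f T ∧ r * f X = f X * r ∧ r * v = v * r := by
  obtain ⟨r, h1, n1, nt, c1⟩ := exists_comm h
  have sx : f B * f X * f B = (f X)⁻¹ := by rw [← map_mul, ← map_mul, BXB, map_inv]
  have c2 : f B * r * f B * f X = f X * (f B * r * f B) := by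
    have : Commute r (f X)⁻¹ := Commute.inv_right c1
    rw [← sx] at this
    calc f B * r * f B * f X = f B * (r * (f B * f X * f B)) * f B := by
          simp only [mul_assoc, ss, mul_one]
      _ = _ := by rw [this.eq]; simp only [mul_assoc, canc (ss (f := f))]
  have h2 : f B * r * f B * (f B * r * f B) = 1 := by
    simp only [mul_assoc, canc (ss (f := f)), canc h1, ss]
  obtain ⟨j, hj⟩ := odd_prod h h1 h2 n1 (fun e => n1 (by
    calc r = f B * (f B * r * f B) * f B := by simp only [mul_assoc, canc (ss (f := f)), ss, mul_one]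
      _ = 1 := by rw [e, mul_one, ss])) c1 c2
  set u := r * (f B * r * f B) with hu
  have u1 : u ^ (2 * j + 1) = 1 := by rw [← hj, pow_orderOf_eq_one]
  have u2 : r * u * r⁻¹ = u⁻¹ := by rw [hu, canc h1, mul_inv_rev, inv_eq h2]
  have u3 : f B * u * (f B)⁻¹ = u⁻¹ := by
    rw [hu, mul_inv_rev, inv_eq h2, inv_eq h1, inv_eq ss]
    simp only [mul_assoc, ss, mul_one]
  have u4 : r * u ^ j = (u ^ j)⁻¹ * r := by rw [← inv_pow, ← u2, conj_pow]; group
  have u5 : f B * u ^ j = (u ^ j)⁻¹ * f B := by rw [← inv_pow, ← u3, conj_pow]; group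
  have u6 : u ^ j * u ^ j = u⁻¹ := by
    rw [eq_inv_iff_mul_eq_one, ← u1]; group
  have u7 : f B * r * f B = u⁻¹ * r := by
    rw [hu, mul_inv_rev, inv_eq h2, inv_eq h1, mul_assoc _ r r, h1, mul_one]
  have r1 : u ^ j * r * (u ^ j * r) = 1 := by
    rw [mul_assoc, ← mul_assoc r, u4, mul_assoc, h1]; simp
  by_cases ht : u ^ j * r = f T
  · refine ⟨_, r, Or.inr rfl, h1, n1, nt, c1, ?_⟩
    have : f T * r * f T = f B * r * f B := by
      rw [← ht, u7, ← u6]; simp only [mul_assoc, canc h1]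
    calc r * (f T * f B) = f B * (f B * r * f B) * f T := by
          rw [← Cent.comm]; simp only [mul_assoc, canc (ss (f := f))]
      _ = _ := by rw [← this, ← Cent.comm]; simp only [mul_assoc, Cent.tt, mul_one]
  · refine ⟨_, u ^ j * r, Or.inl rfl, r1, fun e => n1 ?_, ht, ?_, ?_⟩
    · have e1 : u ^ j = r := by rw [eq_inv_of_mul_eq_one_left e, inv_eq h1]
      have e2 : u = 1 := by rw [← inv_eq_one, ← u6, e1, h1]
      rw [← e1, e2, one_pow]
    · exact (Commute.mul_left (Commute.pow_left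
        (Commute.mul_left (c1 : Commute _ _) (c2 : Commute _ _)) j) (c1 : Commute _ _)).eq
    · rw [← mul_assoc, u5]
      calc u ^ j * r * f B = (u ^ j)⁻¹ * (u ^ j * u ^ j) * r * f B := by group
        _ = (u ^ j)⁻¹ * (f B * r * f B) * f B := by rw [u6, u7]; group
        _ = _ := by simp only [mul_assoc, ss, mul_one]

theorem comm_of_conj [Finite G] (h : Hyp f) {g k : G} (hk : Odd (orderOf k)) (hk1 : k ≠ 1)
    (c1 : k * (g * f T * g⁻¹) = g * f T * g⁻¹ * k)
    (c2 : g * f B * g⁻¹ * k * (g * f B * g⁻¹) = k⁻¹) {y : G} (hy : Commute y k) :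
    Commute y (g * f X * g⁻¹) ∨ Commute y (g * (f C * f X * f C) * g⁻¹) := by
  obtain ⟨u, hu⟩ := h.cent (g⁻¹ * k * g) (by
    calc g⁻¹ * k * g * f T = g⁻¹ * (k * (g * f T * g⁻¹)) * g := by group
      _ = _ := by rw [c1]; group)
  obtain rfl : k = g * f u * g⁻¹ := by rw [hu]; group
  have h1 : orderOf (g * f u * g⁻¹) = orderOf u := by
    rw [← orderOf_injective f h.inj u]
    exact (MulAut.conj g).orderOf_eq (f u)
  have h2 : B * u * B = u⁻¹ := h.inj (by
    rw [map_mul, map_mul, map_inv]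
    calc _ = g⁻¹ * (g * f B * g⁻¹ * (g * f u * g⁻¹) * (g * f B * g⁻¹)) * g := by group
      _ = _ := by rw [c2]; group)
  rcases inverted u (cube_of_odd (h1 ▸ hk)) h2 with rfl | rfl | rfl | rfl | rfl
  · simp at hk1
  · exact Or.inl hy
  · left
    have := hy.inv_right
    simpa [mul_assoc] using this
  · right
    simpa using hy
  · right
    have := hy.inv_right
    simpa [mul_assoc, inv_eq (cc (f := f))] using this

theorem hyp_psi (h : Hyp f) : Hyp (f.comp psi.toMonoidHom) where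
  inj := h.inj.comp psi.injective
  cent g hg := by
    obtain ⟨k, rfl⟩ := h.cent g (by simpa [psi_T] using hg)
    exact ⟨psi.symm k, by simp⟩
  fus := by simpa [psi_T, psi_B] using h.fus

theorem exists_good [Finite G] (h : Hyp f) :
    ∃ (f' : H →* G) (d : G), Hyp f' ∧ Swap f' d ∧ Commute (f' X) (d * f' X * d) := by
  obtain ⟨d, hd⟩ := exists_swap' h
  obtain ⟨v, r, hv, h1, n1, nt, c1, c2⟩ := exists_fixed h
  have ho := odd_prod h Cent.tt h1 h.t_ne n1 (Cent.comm X).symm c1
  have hk1 : f T * r ≠ 1 := fun e => nt (by rw [eq_inv_of_mul_eq_one_right e, inv_eq Cent.tt])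
  have hy : Commute (f X) (f T * r) := Commute.mul_right (Cent.comm X) c1.symm
  have hinv : f T * (f T * r) * f T = (f T * r)⁻¹ := by
    rw [canc Cent.tt, mul_inv_rev, inv_eq h1, inv_eq Cent.tt]
  have hts : f B * f T = f T * f B := Cent.comm B
  have hkv : f T * r * v = v * (f T * r) := by
    refine (Commute.mul_left ?_ c2).eq
    rcases hv with rfl | rfl
    · exact hts.symm
    · exact Commute.mul_right rfl hts.symm
  have bad : ¬ Commute (f X) (d * (f C * f X * f C) * d) := fun hc =>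
    hd.not_mem h.toCent (mem_of_collapse (extra (hd.rel h.toCent) (fun w hw => by
      rw [List.mem_singleton.1 hw]
      refine ev_cm (hd.rel h.toCent) ?_
      rw [← X_eq, map_mul] at hc
      simpa [ev, gn, mul_assoc] using hc.eq)) tBC ⟨A, rfl⟩ ⟨B, rfl⟩ ⟨C, rfl⟩)
  rcases hv with rfl | rfl
  · have e1 : f C * d * f B * (f C * d)⁻¹ * f B = f T := by rw [hd.cd_s, mul_assoc, ss, mul_one]
    have hks : Commute (f B) (f T * r) := hkv.symm
    rcases comm_of_conj h (g := f C * d) ho hk1 (by rw [hd.cd_t, hkv]) (by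
      rw [hd.cd_s, ← hinv, mul_assoc (f T), hks.eq, ← hts]
      simp only [mul_assoc, canc (ss (f := f))]) hy with hc | hc
    · refine absurd ?_ bad
      have := (hc.map (MulAut.conj (f C * d)⁻¹)).symm
      simpa [mul_assoc, inv_eq (cc (f := f)), inv_eq hd.dd, canc (cc (f := f)), canc hd.dd, cc,
        hd.dd] using this
    · refine ⟨f.comp psi.toMonoidHom, d, hyp_psi h, ⟨hd.dd, by simpa [psi_B] using hd.ds,
        by simpa [psi_B, psi_T] using hd.dt⟩, ?_⟩
      have := (hc.map (MulAut.conj (f C))).inv_inv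
      simpa [psi_X, mul_assoc, inv_eq (cc (f := f)), inv_eq hd.dd, canc (cc (f := f))] using this
  · have hks : Commute (f T * f B) (f T * r) := hkv.symm
    rcases comm_of_conj h (g := d) ho hk1 (by rw [inv_eq hd.dd, hd.dt, hkv]) (by
      rw [inv_eq hd.dd, hd.dsd, ← hinv]
      calc _ = f T * (f T * f B * (f T * r)) * f B := by simp only [mul_assoc, canc Cent.tt]
        _ = _ := by rw [hks.eq]; simp only [mul_assoc, ss, mul_one]) hy with hc | hc
    · exact ⟨f, d, h, hd, by rwa [inv_eq hd.dd] at hc⟩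
    · exact absurd (by rwa [inv_eq hd.dd] at hc) bad

theorem rel_cases {d : G} (h : Cent f) (hd : Swap f d) (hc : Commute (f X) (d * f X * d)) :
    Rel (f A) (f B) (f C) d (rl (ex [1,2])) ∨ Rel (f A) (f B) (f C) d (rl (ex [2,1])) := by
  have hr := hd.rel h
  have hx : f A * f B = f X := by rw [← map_mul, X_eq]
  let w := A * B * A * C * A
  have hw : w⁻¹ = A * C * A * B * A := by decide +kernel
  have hg : ev (f A) (f B) (f C) d wg = f C * d * f w * (f C * d)⁻¹ := by
    simp [ev, gn, wg, w, mul_assoc, inv_eq hd.dd, inv_eq (cc (f := f))]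
  have e1 := hd.cd_t
  have e2 := hd.cd_s
  have e3 := hd.cd_ts
  have e4 : f C * d * f C * (f C * d)⁻¹ = d := by
    have := hd.cube h
    rw [mul_inv_rev, inv_eq hd.dd, inv_eq cc, ← mul_left_inj d, hd.dd, ← this]
    simp [pow_succ, mul_assoc]
  have e5 : f w * (f T * f B) * (f w)⁻¹ = f C := by
    rw [← map_inv, hw, ← map_mul, ← map_mul, ← map_mul, conj_TB]
  have e6 : f w * f T * (f w)⁻¹ = f T := by rw [Cent.comm]; group
  set u := f C * d
  set g := ev (f A) (f B) (f C) d wg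
  have g1 : g * f T * g⁻¹ = d := by
    rw [hg, ← e4, ← e5]
    nth_rewrite 1 [← e3]; group
  have g2 : g * f B * g⁻¹ = f B := by
    calc _ = u * (f w * f T * (f w)⁻¹) * u⁻¹ := by rw [hg, ← e1]; group
      _ = _ := by rw [e6, e1]
  set z := f X * (d * f X * d) with hz
  have z1 : z * d = d * z := by
    calc _ = d * (d * f X * d * f X) := by rw [hz]; simp only [mul_assoc, canc hd.dd, hd.dd, mul_one]
      _ = _ := by rw [← hc.eq]
  obtain ⟨k, hk⟩ := h.cent (g⁻¹ * z * g) (by
    calc _ = g⁻¹ * (z * (g * f T * g⁻¹)) * g := by group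
      _ = g⁻¹ * (g * f T * g⁻¹ * z) * g := by rw [g1, z1]
      _ = _ := by group)
  have x3 : f X ^ 3 = 1 := by rw [← map_pow, X_cube, map_one]
  have z2 : z ^ 3 = 1 := by
    rw [hz, hc.mul_pow, x3]
    nth_rewrite 2 [← inv_eq hd.dd]
    rw [conj_pow, x3]; simp
  have sx : f B * f X * f B = (f X)⁻¹ := by rw [← map_mul, ← map_mul, BXB, map_inv]
  have z3 : f B * z * f B = z⁻¹ := by
    rw [hz]
    nth_rewrite 2 [hc.eq]
    rw [mul_inv_rev, mul_inv_rev, mul_inv_rev, ← sx, inv_eq hd.dd]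
    calc _ = f B * f X * (d * (f B * f B) * f X * (d * f B)) := by rw [ss]; group
      _ = f B * f X * ((d * f B) * f B * f X * (d * f B)) := by group
      _ = _ := by rw [hd.ds]; group
  have key : ∀ v : List ℕ, f k = ev (f A) (f B) (f C) d v → Rel (f A) (f B) (f C) d (rl (ex v)) :=
    fun v hv => rel_ex hr (by rw [hx]; exact hc.eq) (by rw [hx, ← hv, hk])
  have bad := hd.not_mem h
  rcases inverted k (h.inj (by
      rw [map_pow, hk, map_one]
      calc _ = g⁻¹ * z ^ 3 * g := by simp [pow_succ, mul_assoc]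
        _ = 1 := by rw [z2]; simp)) (h.inj (by
      rw [map_mul, map_mul, map_inv, hk]
      calc _ = g⁻¹ * (g * f B * g⁻¹ * z * (g * f B * g⁻¹)) * g := by group
        _ = _ := by rw [g2, z3]; group)) with rfl | rfl | rfl | rfl | rfl
  · exact absurd (mem_of_collapse (K := f.range) (key [] (by simp [ev])) tOC ⟨A, rfl⟩ ⟨B, rfl⟩ ⟨C, rfl⟩) bad
  · exact Or.inl (key _ (by simp [ev, gn, hx]))
  · exact Or.inr (key _ (by simp [ev, gn, ← hx, inv_eq (aa (f := f)), inv_eq (ss (f := f))]))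
  · exact absurd (mem_of_collapse (K := f.range) (key _ (by simp [ev, gn, ← hx, mul_assoc])) tYC
      ⟨A, rfl⟩ ⟨B, rfl⟩ ⟨C, rfl⟩) bad
  · exact absurd (mem_of_collapse (K := f.range) (key _ (by
      simp [ev, gn, ← hx, mul_assoc, inv_eq (aa (f := f)), inv_eq (ss (f := f))])) tZC
      ⟨A, rfl⟩ ⟨B, rfl⟩ ⟨C, rfl⟩) bad

theorem ev_map {K : Type*} [Group K] (φ : G →* K) (a b c d : G) (w : List ℕ) :
    φ (ev a b c d w) = ev (φ a) (φ b) (φ c) (φ d) w := by
  rw [ev, ev, map_list_prod, List.map_map]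
  congr 2
  ext i
  simp only [Function.comp, gn]
  split <;> simp

theorem ident [Finite G] {d : G} (h : Hyp f) (hd : Swap f d) {l : List (List ℕ)}
    (hr : Rel (f A) (f B) (f C) d (rl l)) {K : Type*} [Group K] [Finite K] {a' b' c' d' : K}
    (hr' : Rel a' b' c' d' (rl l)) {F : SmallTC.Tr} {S : List (ℕ × ℕ × List ℕ)}
    {R : List (ℕ × List ℕ)} (hc : SmallTC.check id (rl l) [1,2,3] [1,2,3,4] F S R = true)
    {n p q : ℕ} (hn : R.length = n) (hK : Nat.card K ≤ n * 48) {u v : List ℕ}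
    (hu : orderOf (ev a' b' c' d' u) = p) (hv : orderOf (ev a' b' c' d' v) = q)
    (ht : ev a' b' c' d' [2,3,2,3] ≠ 1)
    (h1 : ∀ m ∈ [45, 63, 77, 93, 95, 97, 99, 117, 135, 165],
      Nat.lcm (m * 48) (Nat.lcm p q) ≤ n * 48 → m = n)
    (h2 : ∀ m ∈ [45, 63, 77, 93, 95, 97, 99, 117, 135, 165], n ∣ m → m = n) :
    Nonempty (G ≃* K) := by
  obtain ⟨hfin, hle⟩ := card_le (hr.prod hr') hc
  rw [hn] at hle
  set Γ := closure {x | x ∈ [(f A, a'), (f B, b'), (f C, c'), (d, d')]}
  have hev : ∀ w, (ev (f A) (f B) (f C) d w, ev a' b' c' d' w) ∈ Γ := fun w => by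
    have : ev (f A, a') (f B, b') (f C, c') (d, d') w ∈ Γ := list_prod_mem fun x hx => by
      obtain ⟨i, -, rfl⟩ := List.mem_map.1 hx
      unfold gn
      split <;> first | exact one_mem _ | exact subset_closure (by simp)
    have e : (ev (f A) (f B) (f C) d w, ev a' b' c' d' w) =
        ev (f A, a') (f B, b') (f C, c') (d, d') w :=
      Prod.ext (ev_map (MonoidHom.fst G K) (f A, a') (f B, b') (f C, c') (d, d') w).symm
        (ev_map (MonoidHom.snd G K) (f A, a') (f B, b') (f C, c') (d, d') w).symm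
    exact e ▸ this
  let π₁ : Γ →* G := (MonoidHom.fst _ _).comp Γ.subtype
  let π₂ : Γ →* K := (MonoidHom.snd _ _).comp Γ.subtype
  have hp : ∀ w, orderOf (ev a' b' c' d' w) ∣ Nat.card Γ := fun w =>
    (orderOf_map_dvd π₂ ⟨_, hev w⟩).trans (orderOf_dvd_natCard _)
  have hm : ∀ w, ev (f A) (f B) (f C) d w ∈ π₁.range := fun w => ⟨⟨_, hev w⟩, rfl⟩
  have hf : ∀ k, f k ∈ π₁.range := mem_of_gens (K := π₁.range.comap f)
    (by simpa [ev, gn] using hm [1]) (by simpa [ev, gn] using hm [2])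
    (by simpa [ev, gn] using hm [3])
  have h0 : Hyp (f.codRestrict _ hf) :=
    { inj := fun x y e => h.inj (congrArg Subtype.val e)
      cent := fun g hg => by
        obtain ⟨k, hk⟩ := h.cent g (congrArg Subtype.val hg)
        exact ⟨k, Subtype.ext hk⟩
      fus := isConj_iff.2 ⟨⟨f C * d, by simpa [ev, gn] using hm [3,4]⟩, Subtype.ext hd.cd_t⟩ }
  have c0 := h0.card_G
  have c1 := h.card_G
  have c2 : Nat.card π₁.range ∣ Nat.card Γ := card_range_dvd π₁
  have c3 := h1 _ h0.card_mem ((Nat.le_of_dvd Nat.card_pos (Nat.lcm_dvd (c0 ▸ c2)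
    (Nat.lcm_dvd (hu ▸ hp u) (hv ▸ hp v)))).trans hle)
  have c4 := card_subgroup_dvd_card π₁.range
  rw [← c0, ← c1, c3] at c4
  have c5 := h2 _ h.card_mem (Nat.dvd_of_mul_dvd_mul_right (by norm_num) c4)
  rw [c3] at c0
  rw [c5] at c1
  have hs : Function.Surjective π₁ :=
    MonoidHom.range_eq_top.1 (eq_top_of_card_eq _ (c0.symm.trans c1))
  let e := MulEquiv.ofBijective π₁ (hs.bijective_of_nat_card_le (c1 ▸ hle))
  let φ := π₂.comp e.symm.toMonoidHom
  have hφ : Function.Injective φ := by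
    rw [← MonoidHom.ker_eq_bot_iff]
    refine normal_bot h _ fun hT => ht ?_
    have : e.symm (f T) = ⟨_, hev [2,3,2,3]⟩ := by
      rw [MulEquiv.symm_apply_eq, ← T_eq]
      simp [e, π₁, ev, gn, mul_assoc]
    have h3 : π₂ (e.symm (f T)) = 1 := hT
    rwa [this] at h3
  exact ⟨MulEquiv.ofBijective φ (hφ.bijective_of_nat_card_le (c1 ▸ hK))⟩

end Cfsg.Agent.Lib.GL23Recog
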