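import Mathlib
import Cfsg.Agent.Lib.AltPres
import Cfsg.Agent.Lib.SmallTC

/-! The isomorphism `GL₄(2) ≅ A₈`. -/

set_option autoImplicit false

namespace Cfsg.Agent.Lib.GL42

open Subgroup Equiv Cfsg.Agent.Lib.AltPres
open scoped MatrixGroups

/-- six matrices of order three -/
def M : Fin 6 → Matrix (Fin 4) (Fin 4) (ZMod 2) :=
  ![!![1, 0, 0, 1; 0, 1, 1, 0; 0, 1, 0, 0; 1, 0, 0, 0],
    !![1, 0, 1, 1; 0, 1, 0, 1; 1, 1, 0, 0; 0, 1, 0, 0],
    !![1, 0, 1, 0; 0, 1, 1, 1; 1, 0, 0, 0; 1, 1, 0, 0],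
    !![0, 0, 0, 1; 0, 0, 1, 1; 1, 1, 1, 0; 1, 0, 0, 1],
    !![0, 0, 1, 0; 0, 0, 0, 1; 1, 0, 1, 0; 0, 1, 0, 1],
    !![0, 0, 1, 1; 0, 0, 1, 0; 0, 1, 1, 0; 1, 1, 0, 1]]

theorem M_three : ∀ i, M i * (M i * M i) = 1 := by decide +kernel

theorem M_two : ∀ i j, i ≠ j → M i * M j * (M i * M j) = 1 := by decide +kernel

/-- the matrices as units -/
def m (i : Fin 6) : GL (Fin 4) (ZMod 2) := ⟨M i, M i * M i, M_three i, by rw [mul_assoc, M_three]⟩

/-- the three-cycles -/
def c (i : Fin 6) : alternatingGroup (Fin 8) :=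
  ⟨cyc 0 1 i.succ.succ, cyc_mem (by decide) (Fin.succ_ne_zero _).symm⟩

theorem closure_c : closure (Set.range c) = ⊤ := by
  apply map_injective (alternatingGroup (Fin 8)).subtype_injective
  rw [MonoidHom.map_closure, ← MonoidHom.range_eq_map, range_subtype]
  refine Eq.trans ?_ (closure_cyc (a := (0 : Fin 8)) (b := 1) (by decide))
  congr 1
  ext g
  constructor
  · rintro ⟨_, ⟨i, rfl⟩, rfl⟩
    exact ⟨i.succ.succ, by revert i; decide, rfl⟩
  · rintro ⟨k, hk, rfl⟩
    obtain ⟨i, rfl⟩ : ∃ i : Fin 6, i.succ.succ = k := by revert k; decide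
    exact ⟨_, ⟨i, rfl⟩, rfl⟩

theorem card_A8 : Nat.card (alternatingGroup (Fin 8)) = 20160 := by
  have := two_mul_nat_card_alternatingGroup (α := Fin 8)
  rw [Nat.card_perm, Nat.card_eq_fintype_card (α := Fin 8), Fintype.card_fin] at this
  have h : Nat.factorial 8 = 40320 := by decide
  omega

theorem card_GL42 : Nat.card (GL (Fin 4) (ZMod 2)) = 20160 := by
  rw [Matrix.card_GL_field]
  simp [Fin.prod_univ_four]

theorem nonempty_equiv : Nonempty (GL (Fin 4) (ZMod 2) ≃* alternatingGroup (Fin 8)) := by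
  let y : Fin 6 → alternatingGroup (Fin 8) × GL (Fin 4) (ZMod 2) := fun i => (c i, m i)
  have h0 : ∀ i : Fin 6, (1 : Fin 8) ≠ i.succ.succ := by decide
  have h := card_closure_le Finset.univ y
    (fun i _ => Prod.ext (Subtype.ext (cyc_pow_three (by decide) (Fin.succ_ne_zero _).symm
      (h0 i))) (Units.ext (by rw [pow_three]; exact M_three i)))
    (fun i _ j _ hij => Prod.ext (Subtype.ext (cyc_mul_cyc_sq (by decide) (Fin.succ_ne_zero _).symm
      (h0 i) (Fin.succ_ne_zero _).symm (h0 j)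
      (fun e => hij (Fin.succ_injective _ (Fin.succ_injective _ e)))))
      (Units.ext (by rw [pow_two]; exact M_two i j hij)))
  have e1 : y '' (Finset.univ : Finset (Fin 6)) = {x | x ∈ List.ofFn y} := by
    ext x; simp only [Set.mem_setOf_eq, List.mem_ofFn', Finset.coe_univ, Set.image_univ]
  rw [e1] at h
  obtain ⟨f, hf⟩ := SmallTC.exists_hom (List.ofFn y) (by
    rw [← closure_c]
    congr 1
    ext x
    simp only [List.map_ofFn, Set.mem_setOf_eq, List.mem_ofFn']
    rfl) ⟨h.1, by
      have h1 := h.2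
      rw [card_A8]
      have h : Nat.factorial ((Finset.univ : Finset (Fin 6)).card + 2) = 40320 := by decide
      omega⟩
  haveI := alternatingGroup.isSimpleGroup (α := Fin 8) (by simp)
  have hinj : Function.Injective f := by
    rw [← MonoidHom.ker_eq_bot_iff]
    refine (IsSimpleGroup.eq_bot_or_eq_top_of_normal f.ker inferInstance).resolve_right fun e => ?_
    have h1 : f (c 0) = m 0 := hf (y 0) (by simp [List.mem_ofFn'])
    have h2 : f (c 0) = 1 := (e ▸ mem_top _ : c 0 ∈ f.ker)
    have h3 : M 0 = 1 := congrArg Units.val (h1.symm.trans h2)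
    exact absurd h3 (by decide)
  exact ⟨(MulEquiv.ofBijective f ((Nat.bijective_iff_injective_and_card f).2
    ⟨hinj, card_A8.trans card_GL42.symm⟩)).symm⟩

/-- The linear automorphisms of a module with sixteen elements over the field with two elements
embed into the even permutations of eight points. -/
theorem exists_embedding (V : Type*) [AddCommGroup V] [Module (ZMod 2) V] (h : Nat.card V = 16) :
    ∃ f : (Module.End (ZMod 2) V)ˣ →* Perm (Fin 8), Function.Injective f ∧
      f.range = alternatingGroup (Fin 8) := by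
  haveI : Finite V := Nat.finite_of_card_ne_zero (by omega)
  have h4 : Module.finrank (ZMod 2) V = 4 := by
    have := Module.natCard_eq_pow_finrank (K := ZMod 2) (V := V)
    rw [h, Nat.card_zmod] at this
    exact Nat.pow_right_injective le_rfl (this.symm.trans (by norm_num))
  let b := Module.finBasisOfFinrankEq (ZMod 2) V h4
  obtain ⟨e⟩ := nonempty_equiv
  let e' : (Module.End (ZMod 2) V)ˣ ≃* alternatingGroup (Fin 8) :=
    (Units.mapEquiv (LinearMap.toMatrixAlgEquiv b).toRingEquiv.toMulEquiv).trans e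
  refine ⟨(alternatingGroup (Fin 8)).subtype.comp e'.toMonoidHom,
    Subtype.val_injective.comp e'.injective, ?_⟩
  rw [← MonoidHom.map_range, MonoidHom.range_eq_top.2 e'.surjective, ← MonoidHom.range_eq_map,
    range_subtype]

end Cfsg.Agent.Lib.GL42
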