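import Cfsg.Agent.Lib.HJ3Loc
import Cfsg.Agent.Lib.HJ3Mat
import Cfsg.Agent.Lib.StrongEmb2

/-! A simple group with `C(z) = 2^{1+4}_- : A₅` and one class of involutions is `J₃`. -/

set_option autoImplicit false

namespace Cfsg.Agent.Lib.HJ3Fin

open Subgroup Cfsg.Agent.Lib.TCList Cfsg.Agent.Lib.HJModel Cfsg.Agent.Lib.HJCent
  Cfsg.Agent.Lib.HJFuse Cfsg.Agent.Lib.HJOrder Cfsg.Agent.Lib.HJ2Pres Cfsg.Agent.Lib.HJ3Pres
  Cfsg.Agent.Lib.HJ3Mat Cfsg.Agent.Lib.HJ3Loc

variable {G : Type*} [Group G]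

theorem inj_of_z {ψ : Hm false →* G} (hz : ψ (zh false) ≠ 1) : Function.Injective ψ := by
  refine (injective_iff_map_eq_one ψ).mpr fun h hh => ?_
  have key : ∀ h : Hm false, h = 1 ∨ h = zh false ∨ ∃ i j : Fin 4, (fun g k =>
    g = zh false ∨ g * (k * g⁻¹ * k⁻¹) = zh false)
      (h * (Hm.of false (2 ^ i.1) * h⁻¹ * (Hm.of false (2 ^ i.1))⁻¹)) (Hm.of false (2 ^ j.1)) := by
    decide +kernel
  rcases key h with rfl | rfl | ⟨i, j, h4 | h4⟩
  · rfl
  · exact absurd hh hz
  all_goals exact absurd (by rw [← h4]; simp [hh]) hz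

theorem ev_lg_map {A : Type*} [Group A] (π : G →* A) (ψ : Hm false →* G) (c : G) (w : List ℕ) :
    ev (lg (π.comp ψ) (π c)) w = π (ev (lg ψ c) w) := by
  rw [← ev_map]
  simp [lg]

theorem eq_one_of_odd {t : G} {k : ℕ} (h : t * t = 1) (h1 : t ^ (2 * k + 1) = 1) : t = 1 := by
  rwa [pow_succ, pow_mul, sq, h, one_pow, one_mul] at h1

theorem dvd_of {A : Type*} [Group A] {f : B →* A} (hz : f (ψB (zh false)) ≠ 1) :
    17 ∣ Nat.card A ∧ 19 ∣ Nat.card A := by
  have h0 : f (ψB (zh false)) * f (ψB (zh false)) = 1 := by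
    rw [← map_mul, ← map_mul, show zh false * zh false = 1 by decide +kernel, map_one, map_one]
  have h : ∀ (p k : ℕ) (s : B), p.Prime → s ^ p = 1 → (s * ψB (zh false)) ^ (2 * k + 1) = 1 →
      p ∣ Nat.card A := fun p k s hp h1 h2 => by
    have := Fact.mk hp
    rw [← orderOf_eq_prime (x := f s) (p := p) (by rw [← map_pow, h1, map_one]) fun h =>
      hz (eq_one_of_odd (k := k) h0 (by simpa [h] using congrArg f h2))]
    exact orderOf_dvd_natCard _
  obtain ⟨s, h1, h2⟩ := exists_17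
  obtain ⟨t, h3, h4⟩ := exists_19
  exact ⟨h 17 4 s (by norm_num) h1 h2, h 19 25 t (by norm_num) h3 h4⟩

theorem card_B : Finite B ∧ Nat.card B ≤ 150698880 := by
  have := card_le3 jrB r3B
  rw [genB, card_top] at this
  exact ⟨(Finite.of_equiv _ topEquiv.toEquiv (h := this.1)), this.2⟩

instance finiteB : Finite B := card_B.1

variable {z c : G} {φ : Hm false →* G}

theorem exists_f [Finite G] (J : JS z φ c) (h3 : TCList.Rel (lg φ c) r3)
    (hgen : φ.range ⊔ zpowers c = ⊤) :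
    ∃ f : B →* G, Function.Surjective f ∧ ∀ h, f (ψB h) = φ h := by
  have R0 := jr J
  have R := jrB
  obtain ⟨h1, h2⟩ := card_le3 (ψ := φ.prod ψB) (c := (c, cB)) ⟨Prod.ext R0.cc R.cc,
    Prod.ext R0.ca R.ca, Prod.ext R0.cx R.cx, Prod.ext R0.cz R.cz, Prod.ext R0.bc R.bc,
    Prod.ext R0.cu R.cu⟩ fun r hr => Prod.ext
      ((ev_lg_map (MonoidHom.fst G B) _ _ r).symm.trans (h3 r hr))
      ((ev_lg_map (MonoidHom.snd G B) _ _ r).symm.trans (r3B r hr))
  set Γ := (φ.prod ψB).range ⊔ zpowers (c, cB) with hΓ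
  let π₁ : Γ →* G := (MonoidHom.fst G B).comp Γ.subtype
  let π₂ : Γ →* B := (MonoidHom.snd G B).comp Γ.subtype
  have h4 : ∀ h, (φ h, ψB h) ∈ Γ := fun h => mem_sup_left ⟨h, rfl⟩
  have h5 : (c, cB) ∈ Γ := mem_sup_right (mem_zpowers _)
  have s1 : Function.Surjective π₁ := by
    rw [← MonoidHom.range_eq_top, eq_top_iff, ← hgen]
    exact sup_le (by rintro _ ⟨h, rfl⟩; exact ⟨⟨_, h4 h⟩, rfl⟩) (zpowers_le.mpr ⟨⟨_, h5⟩, rfl⟩)
  have s2 : Function.Surjective π₂ := by
    rw [← MonoidHom.range_eq_top, eq_top_iff, ← genB]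
    exact sup_le (by rintro _ ⟨h, rfl⟩; exact ⟨⟨_, h4 h⟩, rfl⟩) (zpowers_le.mpr ⟨⟨_, h5⟩, rfl⟩)
  have hn : (π₂.ker.map π₁).Normal := Normal.map inferInstance _ s1
  have h6 : π₂.ker.map π₁ = ⊥ := eq_bot_of_normal J _ fun hz => by
    have h7 := card_le_of_le (le_of_z R0 _ (J.z_eq ▸ hz))
    have h8 := Nat.le_of_dvd Nat.card_pos (card_map_dvd π₂.ker π₁)
    have h9 := Nat.card_le_card_of_injective _ J.inj
    have h10 := π₂.ker.card_mul_index
    have h11 := card_dvd_of_injective _ (inj_of_z z_ne)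
    obtain ⟨h12, h13⟩ := dvd_of (f := MonoidHom.id B) z_ne
    rw [hgen, card_top] at h7
    rw [card_Hm] at h9 h11
    rw [index_ker, MonoidHom.range_eq_top.mpr s2, card_top] at h10
    have h14 := Nat.le_of_dvd Nat.card_pos (Nat.Coprime.mul_dvd_of_dvd_of_dvd (by decide)
      (Nat.Coprime.mul_dvd_of_dvd_of_dvd (by decide) h12 h13) h11)
    have := Nat.mul_le_mul (h9.trans (h7.trans h8)) h14
    omega
  have i2 : Function.Injective π₂ := (injective_iff_map_eq_one _).mpr fun g hg =>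
    Subtype.ext (Prod.ext (h6.le ⟨g, hg, rfl⟩) hg)
  let e := MulEquiv.ofBijective π₂ ⟨i2, s2⟩
  exact ⟨π₁.comp e.symm.toMonoidHom, s1.comp e.symm.surjective, fun h =>
    congrArg π₁ (e.symm_apply_eq.mpr rfl : e.symm (ψB h) = ⟨_, h4 h⟩)⟩

theorem struct [Finite G] (J : JS z φ c) {f : B →* G}
    (hs : Function.Surjective f) (hf : ∀ h, f (ψB h) = φ h) : f.ker = center B ∧
      (∃ m ≤ 9, 0 < m ∧ Nat.card G = 5581440 * m) ∧
      ∀ α β : G, Commute α β → orderOf α = 17 → orderOf β = 19 → False := by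
  have hz : f (ψB (zh false)) ≠ 1 := by rw [hf, J.z_eq]; exact HJOrder.z_ne J.toSetup
  have h1 : center B ≤ f.ker := fun g hg => by
    have h2 : center G = ⊥ := eq_bot_of_normal J _ fun h =>
      not_mem J ((J.cent c).mp (mem_center_iff.mp h c))
    refine h2.le (mem_center_iff.mpr fun k => ?_)
    obtain ⟨k, rfl⟩ := hs k
    rw [← map_mul, mem_center_iff.mp hg k, map_mul]
  obtain ⟨g, hg, h2⟩ := three_dvd
  have h3 := h2 ▸ f.ker.orderOf_dvd_natCard (h1 hg)
  obtain ⟨h4, h5⟩ := dvd_of hz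
  have h6 := card_cent J.toSetup ▸ card_subgroup_dvd_card (centralizer ({z} : Set G))
  obtain ⟨m, hm⟩ : 5581440 ∣ Nat.card G := Nat.Coprime.mul_dvd_of_dvd_of_dvd (m := 17 * 19)
    (n := 27 * 640) (by decide) (Nat.Coprime.mul_dvd_of_dvd_of_dvd (by decide) h4 h5)
    (Nat.Coprime.mul_dvd_of_dvd_of_dvd (by decide) (dvd_card J) (Dvd.dvd.trans (by decide) h6))
  have h7 := f.ker.card_mul_index
  rw [index_ker, MonoidHom.range_eq_top.mpr hs, card_top, hm] at h7
  have h8 := card_B.2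
  have h9 : 0 < m := Nat.pos_of_mul_pos_left (hm ▸ Nat.card_pos)
  have h10 : 3 ≤ Nat.card f.ker := Nat.le_of_dvd Nat.card_pos h3
  have h11 : Nat.card f.ker * m ≤ 27 := by nlinarith
  have h12 : Nat.card f.ker ≤ 27 := by nlinarith
  refine ⟨le_antisymm ?_ h1, ⟨m, by nlinarith, h9, hm⟩, fun α β hc ha hb => ?_⟩
  · obtain ⟨s, h13, h14⟩ := exists_19
    have h15 := fix_mod (fun l : f.ker => MulAut.conjNormal s l) (p := 19) (by norm_num) (by
      have : ∀ (n : ℕ) (l : f.ker), (fun l : f.ker => MulAut.conjNormal s l)^[n] l =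
          MulAut.conjNormal (s ^ n) l := fun n l => by
        induction n with
        | zero => simp
        | succ n ih => rw [Function.iterate_succ_apply', ih, pow_succ', map_mul]; rfl
      funext l
      rw [this, h13, map_one]; rfl)
    have h16 : Nat.card (Function.fixedPoints fun l : f.ker => MulAut.conjNormal s l) =
        Nat.card ((centralizer {s}).subgroupOf f.ker) :=
      Nat.card_congr (Equiv.subtypeEquivRight fun l => by
        rw [mem_subgroupOf, mem_centralizer_singleton_iff, eq_comm, ← mul_inv_eq_iff_eq_mul]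
        exact Subtype.ext_iff)
    have h17 := card_subgroup_dvd_card ((centralizer {s}).subgroupOf f.ker)
    have h18 := eq_top_of_card_eq _ ((show ∀ n ≤ 27, ∀ k ≤ n, 3 ∣ n ∧ 3 ≤ n ∧ k ∣ n ∧
      n ≡ k [MOD 19] → k = n by decide) _ h12 _ (Nat.le_of_dvd Nat.card_pos h17)
        ⟨h3, h10, h17, h16 ▸ h15⟩)
    have h19 : s ∈ centralizer (f.ker : Set B) := fun l hl =>
      mem_centralizer_singleton_iff.mp (h18.ge (mem_top ⟨l, hl⟩))
    have h20 := le_of_z jrB (centralizer (f.ker : Set B)) (by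
      rw [← QuotientGroup.eq_one_iff] at h19 ⊢
      refine eq_one_of_odd (k := 25) ?_ ?_
      · rw [← QuotientGroup.mk_mul, ← map_mul, show zh false * zh false = 1 by decide +kernel,
          map_one, QuotientGroup.mk_one]
      · have := congrArg (QuotientGroup.mk (s := centralizer (f.ker : Set B))) h14
        rwa [QuotientGroup.mk_pow, QuotientGroup.mk_mul, h19, one_mul] at this)
    rw [genB] at h20
    exact fun l hl => mem_center_iff.mpr fun k => (h20 (mem_top k) l hl).symm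
  · obtain ⟨g, hg⟩ := hs (α * β)
    have h13 := hc.orderOf_mul_eq_mul_orderOf_of_coprime (by rw [ha, hb]; decide)
    rw [ha, hb] at h13
    have h14 : (g ^ (17 * 19)) ^ Nat.card f.ker = 1 := congrArg Subtype.val
      (pow_card_eq_one' (x := (⟨g ^ (17 * 19), by
        rw [MonoidHom.mem_ker, map_pow, hg, ← h13, pow_orderOf_eq_one]⟩ : f.ker)))
    have h15 : ∀ k, g ^ k = 1 → 17 * 19 ∣ k := fun k hk => by
      rw [← h13, orderOf_dvd_iff_pow_eq_one, ← hg, ← map_pow, hk, map_one]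
    rcases not_comm (Commute.pow_pow_self g (19 * Nat.card f.ker) (17 * Nat.card f.ker))
      (by rw [← h14, ← pow_mul, ← pow_mul]; congr 1; ring)
      (by rw [← h14, ← pow_mul, ← pow_mul]; congr 1; ring) with h | h <;> have := h15 _ h <;> omega

theorem main [Finite G] [IsSimpleGroup G] (J : JS z φ c) (hu : IsConj z (φ (mu false))) :
    ∃ f : B →* G, Function.Surjective f ∧ (∀ h, f (ψB h) = φ h) ∧ f.ker = center B := by
  have h3 := rel3 J hu
  suffices hgen : φ.range ⊔ zpowers c = ⊤ by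
    obtain ⟨f, h1, h2⟩ := exists_f J h3 hgen
    exact ⟨f, h1, h2, (struct J h1 h2).1⟩
  by_contra hne
  set K := φ.range ⊔ zpowers c with hK
  have h1 : ∀ h, φ h ∈ K := fun h => mem_sup_left ⟨h, rfl⟩
  have h2 : c ∈ K := mem_sup_right (mem_zpowers c)
  have J' := restrict J K h1 h2
  have hgen : (φ.codRestrict K h1).range ⊔ zpowers ⟨c, h2⟩ = ⊤ := by
    refine map_injective K.subtype_injective ?_
    rw [Subgroup.map_sup, MonoidHom.map_range, MonoidHom.map_zpowers, ← MonoidHom.range_eq_map,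
      range_subtype]
    rfl
  obtain ⟨f, h4, h5⟩ := exists_f J' (fun r hr => K.subtype_injective
    ((ev_lg_map K.subtype _ _ r).symm.trans (h3 r hr))) hgen
  obtain ⟨-, ⟨m, h6, h7, h8⟩, h9⟩ := struct J' h4 h5
  have hu' := f.map_isConj conj_zu
  rw [h5, h5] at hu'
  obtain ⟨j, hj, hjK⟩ : ∃ j, j * j = 1 ∧ j ∉ K := by
    by_contra! h
    rcases (normalClosure_normal (s := {z})).eq_bot_or_eq_top with e | e
    · exact HJOrder.z_ne J.toSetup (e.le (subset_normalClosure rfl))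
    · refine hne (top_le_iff.mp (e.ge.trans ((closure_le _).mpr fun g hg => ?_)))
      obtain ⟨_, rfl, h10⟩ := Group.mem_conjugatesOfSet_iff.mp hg
      exact h _ (InvolCount.sq_of_isConj (zz J.toSetup) h10)
  obtain ⟨D, h10, h11, h12⟩ := StrongEmb2.suzuki (zz J.toSetup) (HJOrder.z_ne J.toSetup)
    (J.z_eq ▸ h1 _) (fun g hg => mem_sup_left ((J.cent g).mp hg)) (fun t ht h10 h11 => by
      obtain ⟨k, hk⟩ := isConj_iff.mp ((invol_class J' (t := ⟨t, ht⟩) (Subtype.ext h10)
        fun h => h11 (congrArg Subtype.val h)).elim id hu'.trans)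
      exact ⟨k, k.2, J.z_eq ▸ congrArg Subtype.val hk⟩) hj hjK
  have h13 := card_dvd_of_le h10
  rw [card_cent J.toSetup, h8] at h12
  rw [h8] at h13
  obtain ⟨α, β, h14, h15, h16⟩ := StrongEmb2.exists_comm h11
    (Nat.Coprime.dvd_of_dvd_mul_right (by decide) (Dvd.dvd.trans (by omega) h12))
    (fun h => by have := h.trans h13; omega)
    (Nat.Coprime.dvd_of_dvd_mul_right (by decide) (Dvd.dvd.trans (by omega) h12))
    (fun h => by have := h.trans h13; omega)
  exact h9 _ _ (h14.map (inclusion h10))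
    ((orderOf_injective _ (inclusion_injective h10) _).trans h15)
    ((orderOf_injective _ (inclusion_injective h10) _).trans h16)

end Cfsg.Agent.Lib.HJ3Fin
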