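import Cfsg.Agent.S3035
import Cfsg.Agent.Lib.HJ3A6
import Cfsg.Agent.Lib.HJ3Pres

/-! The centralizer of an element of order `3` in a group with `C(z) = 2^{1+4}_- : A₅` and one
class of involutions. -/

set_option autoImplicit false

namespace Cfsg.Agent.Lib.HJ3Loc

open Subgroup DihedralGroup Cfsg.Agent.Lib.TCList Cfsg.Agent.Lib.HJModel Cfsg.Agent.Lib.HJCent
  Cfsg.Agent.Lib.HJFuse Cfsg.Agent.Lib.HJOrder Cfsg.Agent.Lib.HJ2Pres Cfsg.Agent.Lib.HJ3Pres
  Cfsg.Agent.Lib.HJ3A6

section Amalg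

open D8Amalg S3035

theorem amalg {X : Type*} [Group X] [Finite X] {z : X} {δ : DihedralGroup 4 →* X}
    (S : S3035.Setup z δ) {c d : X} (hc : c * c = 1) (hd : d * d = 1)
    (hbd : δ (sr 1) * d = d * δ (sr 1)) (hcz : c * z * c = z * δ (sr 0))
    (hdz : d * z * d = z * δ (sr 1)) (hrel : D8Amalg.Rel (δ (sr 0)) (δ (sr 1)) c d (rl []))
    (h1 : (c * d) ^ 3 ≠ 1) (h2 : (c * (d * δ (sr 1))) ^ 3 ≠ 1) :
    ∃ f : X ≃* alternatingGroup (Fin 6), f (δ (sr 0)) = pA ∧ f (δ (sr 1)) = pB ∧ f c = pC ∧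
      f d = pD := by
  have hz : ∀ {Y : Type _} [Group Y] {z c d : Y} {δ : DihedralGroup 4 →* Y}, S3035.Setup z δ →
      c * c = 1 → d * d = 1 → c * z * c = z * δ (sr 0) → d * z * d = z * δ (sr 1) →
      IsConj z (δ (sr 0)) ∧ IsConj z (δ (sr 1)) := fun {Y _ z c d δ} S hc hd hcz hdz =>
    ⟨((S.isConj_iff' (sr 2)).mp (isConj_iff.mpr ⟨c, by
      rw [inv_eq_of_mul_eq_one_right hc, hcz, ← S.z_eq, ← map_mul]; rfl⟩)).elim
      (fun h => absurd h (by decide)) (fun h => h.elim And.left fun h => absurd h.2 (by decide)),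
    ((S.isConj_iff' (sr 3)).mp (isConj_iff.mpr ⟨d, by
      rw [inv_eq_of_mul_eq_one_right hd, hdz, ← S.z_eq, ← map_mul]; rfl⟩)).elim
      (fun h => absurd h (by decide)) (fun h => h.elim (fun h => absurd h.2 (by decide)) And.left)⟩
  obtain ⟨h0, h0'⟩ := hz S hc hd hcz hdz
  have := S.simple h0 h0'
  set K := closure {x | x ∈ [δ (sr 0), δ (sr 1), c, d]} with hK
  have hφK : ∀ y, δ y ∈ K := by
    intro y
    have key : ∀ y : DihedralGroup 4, ∃ k : Fin 4, y = (sr 0 * sr 1) ^ (k : ℕ) ∨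
      y = sr 0 * (sr 0 * sr 1) ^ (k : ℕ) := by decide
    have ha : sr 0 ∈ K.comap δ := subset_closure (by simp)
    have hb : sr 1 ∈ K.comap δ := subset_closure (by simp)
    obtain ⟨k, rfl | rfl⟩ := key y
    · exact (pow_mem (mul_mem ha hb) k : _ ∈ K.comap δ)
    · exact (mul_mem ha (pow_mem (mul_mem ha hb) k) : _ ∈ K.comap δ)
  have S' := S.restrict K hφK
  have h3 := hz S' (c := ⟨c, subset_closure (by simp)⟩) (d := ⟨d, subset_closure (by simp)⟩)
    (Subtype.ext hc) (Subtype.ext hd) (Subtype.ext (S.z_eq ▸ hcz)) (Subtype.ext (S.z_eq ▸ hdz))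
  have hK' := S'.card_both h3.1 h3.2
  have hG := S.card_both h0 h0'
  have hgen : K = ⊤ := by
    have h2 := card_subgroup_dvd_card K
    refine eq_top_of_card_eq K ?_
    rcases hK' with h3 | h3 <;> rcases hG with h4 | h4 <;> rw [h3, h4] at h2 ⊢ <;>
      exact absurd h2 (by decide)
  have h4 := fun g => S.pow_four_of_even h0 h0' (g := g)
  have hc1 : c ≠ 1 := by
    rintro rfl
    rw [one_mul, mul_one, left_eq_mul, map_eq_one_iff δ S.inj] at hcz
    exact absurd hcz (by decide)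
  have hbb : δ (sr 1) * δ (sr 1) = 1 := by rw [← map_mul]; exact δ.map_one
  rcases hG with hG | hG
  · exact absurd (card_le' (rel2 hrel ((order168 hG h4 hc hc1 hd).resolve_left h1)
      ((order168 hG h4 hc hc1 (by
        rw [mul_assoc, ← mul_assoc (δ (sr 1)), hbd, mul_assoc, hbb, mul_one, hd])).resolve_left h2))
      hgen t44C) (by rw [hG]; decide)
  have ho : ∀ g : X, g ^ 3 = 1 ∨ g ^ 4 = 1 ∨ g ^ 5 = 1 := by
    refine (order360 hG h4).elim (fun ⟨e⟩ g => ?_) id
    by_cases h5 : 2 ∣ orderOf g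
    · exact Or.inr (Or.inl (h4 g h5))
    have h6 : ∀ n, (e g).1 ^ n = 1 → g ^ n = 1 := fun n h =>
      e.injective (by rw [map_pow, map_one]; exact Subtype.ext h)
    rcases s6_pow (e g).1 with h | h | h
    · exact Or.inr (Or.inl (h6 _ h))
    · exact Or.inr (Or.inr (h6 _ h))
    · exact Or.inl (orderOf_dvd_iff_pow_eq_one.mp (Nat.Coprime.dvd_of_dvd_mul_left
        ((Nat.prime_two.coprime_iff_not_dvd.mpr h5).symm) (orderOf_dvd_of_pow_eq_one (h6 (2 * 3) h))))
  rcases (ho (c * d)).resolve_left h1 with h5 | h5 <;>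
    rcases (ho (c * (d * δ (sr 1)))).resolve_left h2 with h6 | h6
  · exact absurd (card_le' (rel2 hrel h5 h6) hgen t44C) (by rw [hG]; decide)
  · exact absurd (card_le' (rel2 hrel h5 h6) hgen t45C) (by rw [hG]; decide)
  · exact absurd (card_le' (rel2 hrel h5 h6) hgen t54C) (by rw [hG]; decide)
  rcases ho (δ (sr 0) * (δ (sr 1) * (c * d))) with h7 | h7 | h7
  · exact absurd (card_le' (rel3 hrel h5 h6 h7) hgen t553C) (by rw [hG]; decide)
  · obtain ⟨f, hf⟩ := SmallTC.exists_hom [(δ (sr 0), pA), (δ (sr 1), pB), (c, pC), (d, pD)] hgen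
      (hG ▸ D8Amalg.card_le ((rel3 hrel h5 h6 h7).prod rel554) t554C)
    have hinj : Function.Injective f := by
      rw [← MonoidHom.ker_eq_bot_iff]
      refine (IsSimpleGroup.eq_bot_or_eq_top_of_normal f.ker inferInstance).resolve_right fun ht => ?_
      have h8 : c ∈ f.ker := ht ▸ mem_top c
      exact (show pC ≠ 1 by decide) ((hf (c, pC) (by simp)).symm.trans h8)
    exact ⟨MulEquiv.ofBijective f (hinj.bijective_of_nat_card_le (by rw [hG, card_A6])),
      hf (_, pA) (by simp), hf (_, pB) (by simp), hf (_, pC) (by simp), hf (_, pD) (by simp)⟩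
  · exact absurd (card_le' (rel3 hrel h5 h6 h7) hgen t555C) (by rw [hG]; decide)

end Amalg

variable {G : Type*} [Group G]

theorem kill {t x : G} (hx : x ^ 3 = 1) (ht : t ∈ zpowers x) (h : t * t = 1) : t = 1 := by
  obtain ⟨k, rfl⟩ := mem_zpowers_iff.mp ht
  have h3 : (x ^ k) ^ 3 = 1 := by
    rw [← zpow_natCast, ← zpow_mul, mul_comm, zpow_mul, zpow_natCast, hx, one_zpow]
  rwa [pow_succ, sq, h, one_mul] at h3

theorem kill' {s t x : G} (hx : x ^ 3 = 1) (hs : s * s = 1) (ht : t * t = 1) (h : Commute s x)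
    {k : ℕ} (hk : (s * t) ^ k ∈ zpowers x) : (s * t) ^ k = 1 := by
  refine kill hx hk ?_
  have h1 := InvolCount.conj_mul_zpow hs ht k
  rw [zpow_natCast] at h1
  obtain ⟨j, hj⟩ := mem_zpowers_iff.mp hk
  rw [← hj, (h.zpow_right j).eq, mul_inv_cancel_right] at h1
  rw [← hj, ← eq_inv_iff_mul_eq_one, ← h1]

theorem d8_map {B : Type*} [Group B] (f : G →* B) (a b c d : G) (w : List ℕ) :
    f (D8Amalg.ev a b c d w) = D8Amalg.ev (f a) (f b) (f c) (f d) w := by
  rw [D8Amalg.ev, D8Amalg.ev, map_list_prod, List.map_map]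
  refine congrArg List.prod (List.map_congr_left fun i _ => ?_)
  rw [Function.comp_apply]
  unfold D8Amalg.gn
  split <;> simp

/-- The dihedral group `⟨a, b⟩`. -/
def δ0 : DihedralGroup 4 →* Hm false := MonoidHom.mk' (fun
  | r i => (ma false * mb false) ^ i.val
  | sr i => ma false * (ma false * mb false) ^ i.val) (by decide +kernel)

variable {z c : G} {φ : Hm false →* G}

theorem x3 : φ (mx false) ^ 3 = 1 := by
  rw [← map_pow, show mx false ^ 3 = 1 by decide +kernel, map_one]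

theorem sx : φ ms * φ (mx false) * φ ms = (φ (mx false))⁻¹ := by
  rw [← map_mul, ← map_mul, ← map_inv]; exact congrArg φ (by decide +kernel)

theorem s_mem {g : G} (h : g ∈ centralizer ({φ (mx false)} : Set G)) :
    φ ms * g * φ ms ∈ centralizer ({φ (mx false)} : Set G) := by
  have h1 := conj_comm (g := φ ms) (mem_centralizer_singleton_iff.mp h)
  rw [inv_eq_of_mul_eq_one_right ss, sx] at h1
  exact mem_centralizer_singleton_iff.mpr (Commute.inv_right_iff.mp h1)

theorem rel_d8 (J : JR φ c) :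
    D8Amalg.Rel (φ (ma false)) (φ (mb false)) c (de φ c) (D8Amalg.rl []) := fun w hw => by
  have h1 : ∀ i, D8Amalg.gn (φ (ma false)) (φ (mb false)) c (de φ c) i =
      gen (lg φ c) (inv [1,2,15,16] i)
    | 0 | 1 | 2 | 3 | 4 | _ + 5 => rfl
  rw [D8Amalg.ev, funext h1, ← Function.comp_def, ← List.map_map]
  rcases (show ∀ w ∈ D8Amalg.rl [], w = [] ∨ w.map (inv [1,2,15,16]) ∈ cDT.map Prod.fst by
    decide +kernel) w hw with rfl | h
  exacts [rfl, rel_D J _ h]

theorem exists_F [Finite G] (J : JS z φ c) :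
    ∃ (F : centralizer ({φ (mx false)} : Set G) →* alternatingGroup (Fin 6))
      (a' b' c' d' : centralizer ({φ (mx false)} : Set G)), Function.Surjective F ∧
      (∀ g, F g = 1 ↔ g.1 ∈ zpowers (φ (mx false))) ∧
      (a'.1 = φ (ma false) ∧ b'.1 = φ (mb false) ∧ c'.1 = c ∧ d'.1 = de φ c) ∧
      F a' = D8Amalg.pA ∧ F b' = D8Amalg.pB ∧ F c' = D8Amalg.pC ∧ F d' = D8Amalg.pD := by
  have hδ : ∀ y, φ (δ0 y) ∈ centralizer ({φ (mx false)} : Set G) := fun y =>
    mem_centralizer_singleton_iff.mpr (by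
      rw [← map_mul, ← map_mul, (show ∀ y, δ0 y * mx false = mx false * δ0 y by decide +kernel) y])
  have hc : c ∈ centralizer ({φ (mx false)} : Set G) := mem_centralizer_singleton_iff.mpr J.cx
  have hcom : ∀ {g t}, g ∈ centralizer ({φ (mx false)} : Set G) → t ∈ zpowers (φ (mx false)) →
      g * t = t * g := fun {g t} hg ht => by
    obtain ⟨k, rfl⟩ := mem_zpowers_iff.mp ht
    exact (Commute.zpow_right (mem_centralizer_singleton_iff.mp hg) k).eq
  let N := (zpowers (φ (mx false))).subgroupOf (centralizer ({φ (mx false)} : Set G))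
  have hN : N.Normal := ⟨fun n hn g => by
    change g.1 * n.1 * g.1⁻¹ ∈ zpowers (φ (mx false))
    rwa [hcom (t := n.1) g.2 hn, mul_inv_cancel_right]⟩
  let π := QuotientGroup.mk' N
  have hπ : ∀ g, π g = 1 ↔ g.1 ∈ zpowers (φ (mx false)) := fun g => QuotientGroup.eq_one_iff g
  let δ1 := (φ.comp δ0).codRestrict _ hδ
  have hz : (δ1 (r 2)).1 = z := (congrArg φ (by decide +kernel)).trans J.z_eq
  have ha : (δ1 (sr 0)).1 = φ (ma false) := congrArg φ (by decide +kernel)
  have hb : (δ1 (sr 1)).1 = φ (mb false) := congrArg φ (by decide +kernel)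
  have S : S3035.Setup (π (δ1 (r 2))) (π.comp δ1) := by
    refine ⟨(injective_iff_map_eq_one _).mpr fun y hy => ?_, fun g => ⟨fun h => ?_, ?_⟩, rfl⟩
    · obtain ⟨k, hk⟩ := mem_zpowers_iff.mp ((hπ _).mp hy)
      refine (show ∀ y, δ0 y ^ 3 = 1 → y = 1 by decide +kernel) y (J.inj ?_)
      rw [map_pow, map_one, show φ (δ0 y) = _ from hk.symm, ← zpow_natCast, ← zpow_mul, mul_comm,
        zpow_mul, zpow_natCast, x3, one_zpow]
    · obtain ⟨g, rfl⟩ : ∃ k, π k = g := QuotientGroup.mk'_surjective N g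
      have h1 : z⁻¹ * (g.1⁻¹ * z * g.1) ∈ zpowers (φ (mx false)) := by
        rw [← hz]
        refine (hπ ((δ1 (r 2))⁻¹ * (g⁻¹ * δ1 (r 2) * g))).mp ?_
        rw [map_mul, map_mul, map_mul, mul_assoc, ← h, map_inv, map_inv]
        group
      have h2 := kill x3 h1 (by
        have h3 := hcom (hz ▸ (δ1 (r 2)).2 : z ∈ centralizer ({φ (mx false)} : Set G)) h1
        have h4 : z * (z⁻¹ * (g.1⁻¹ * z * g.1)) * (z * (z⁻¹ * (g.1⁻¹ * z * g.1))) = 1 := by
          calc _ = g.1⁻¹ * (z * z) * g.1 := by group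
            _ = 1 := by rw [zz J.toSetup]; group
        generalize z⁻¹ * (g.1⁻¹ * z * g.1) = t at h3 h4
        rwa [mul_assoc, ← mul_assoc t, ← h3, ← mul_assoc, ← mul_assoc, zz J.toSetup, one_mul] at h4)
      obtain ⟨h, hh⟩ := (J.cent g.1).mp (by
        rw [inv_mul_eq_one] at h2
        conv_lhs => rw [h2]
        group)
      obtain ⟨y, i, h3⟩ := (show ∀ h : Hm false, h * mx false = mx false * h → ∃ y, ∃ i : Fin 3,
        (δ0 y)⁻¹ * h = mx false ^ i.1 by decide +kernel) h (J.inj (by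
          rw [map_mul, map_mul, hh]; exact mem_centralizer_singleton_iff.mp g.2))
      refine ⟨y, inv_mul_eq_one.mp ?_⟩
      rw [MonoidHom.comp_apply, ← map_inv, ← map_mul, hπ]
      change (φ (δ0 y))⁻¹ * g.1 ∈ _
      rw [← hh, ← map_inv, ← map_mul, h3, map_pow]
      exact npow_mem_zpowers _ _
    · rintro ⟨y, rfl⟩
      rw [MonoidHom.comp_apply, ← map_mul, ← map_mul, ← map_mul, ← map_mul,
        (show ∀ y : DihedralGroup 4, y * r 2 = r 2 * y by decide) y]
  have R := jr J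
  have hD := rel_rD R
  simp only [TCList.Rel, rD, List.forall_mem_cons, ev_cons, ev_nil, mul_one] at hD
  obtain ⟨h1, h2, -⟩ := hD
  change de φ c * (φ (mb false) * (de φ c * φ (mb false))) = 1 at h1
  change de φ c * (φ (zh false) * (de φ c * (φ (mb false) * φ (zh false)))) = 1 at h2
  have hdd : de φ c * de φ c = 1 := dd R
  have hbb : φ (mb false) * φ (mb false) = 1 := by
    rw [← map_mul, show mb false * mb false = 1 by decide +kernel, map_one]
  obtain ⟨f, h3, h4, h5, h6⟩ := amalg S (c := π ⟨c, hc⟩) (d := π ⟨de φ c, s_mem hc⟩)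
    (by rw [← map_mul, ← π.map_one]; exact congrArg π (Subtype.ext J.cc))
    (by rw [← map_mul, ← π.map_one]; exact congrArg π (Subtype.ext hdd))
    (by
      rw [MonoidHom.comp_apply, ← map_mul, ← map_mul]
      refine congrArg π (Subtype.ext ?_)
      change (δ1 (sr 1)).1 * de φ c = de φ c * (δ1 (sr 1)).1
      rw [hb, ← inv_eq_of_mul_eq_one_left (mul_assoc (de φ c) _ _ ▸ h1 :
        de φ c * φ (mb false) * (de φ c * φ (mb false)) = 1), mul_inv_rev,
        inv_eq_of_mul_eq_one_right hbb, inv_eq_of_mul_eq_one_right hdd])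
    (by
      rw [MonoidHom.comp_apply, ← map_mul, ← map_mul, ← map_mul]
      refine congrArg π (Subtype.ext ?_)
      change c * (δ1 (r 2)).1 * c = (δ1 (r 2)).1 * (δ1 (sr 0)).1
      rw [hz, ha, J.cz])
    (by
      rw [MonoidHom.comp_apply, ← map_mul, ← map_mul, ← map_mul]
      refine congrArg π (Subtype.ext ?_)
      change de φ c * (δ1 (r 2)).1 * de φ c = (δ1 (r 2)).1 * (δ1 (sr 1)).1
      rw [hz, hb, ← mul_left_inj (φ (mb false) * z), ← J.z_eq, mul_assoc, mul_assoc, h2, ← map_mul,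
        ← map_mul, ← map_mul, ← φ.map_one]
      exact congrArg φ (by decide +kernel))
    (fun w hw => by
      rw [MonoidHom.comp_apply, MonoidHom.comp_apply, ← d8_map, ← π.map_one]
      refine congrArg π (Subtype.ext ?_)
      rw [← coe_subtype, d8_map, coe_subtype, ha, hb]
      exact rel_d8 R w hw)
    (fun h => not_mem J (mem_of_cd R (kill' x3 J.cc hdd J.cx (by
      rw [← map_mul, ← map_pow, hπ] at h; exact h))))
    (fun h => not_mem J (mem_of_cdb R (kill' x3 J.cc (by rw [mul_assoc, h1]) J.cx (by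
      rw [MonoidHom.comp_apply, ← map_mul, ← map_mul, ← map_pow, hπ] at h
      rw [← hb]; exact h))))
  exact ⟨f.toMonoidHom.comp π, δ1 (sr 0), δ1 (sr 1), ⟨c, hc⟩, ⟨de φ c, s_mem hc⟩,
    f.surjective.comp (QuotientGroup.mk'_surjective N),
    fun g => (map_eq_one_iff f f.injective).trans (hπ g), ⟨ha, hb, rfl, rfl⟩, h3, h4, h5, h6⟩

theorem dvd_card [Finite G] (J : JS z φ c) : 27 ∣ Nat.card G := by
  obtain ⟨F, -, -, -, -, h1, h2, -⟩ := exists_F J
  have h3 := F.ker.card_mul_index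
  have h4 : φ (mx false) ≠ 1 := by rw [Ne, map_eq_one_iff φ J.inj]; decide +kernel
  have h5 := F.ker.orderOf_dvd_natCard (x := ⟨φ (mx false), mem_centralizer_singleton_iff.mpr rfl⟩)
    ((h2 _).mpr (mem_zpowers _))
  rw [← orderOf_coe, orderOf_eq_prime x3 h4] at h5
  rw [index_ker, MonoidHom.range_eq_top.mpr h1, card_top, D8Amalg.card_A6] at h3
  exact Dvd.dvd.trans (h3 ▸ Nat.mul_dvd_mul h5 (show 9 ∣ 360 by decide)) (card_subgroup_dvd_card _)

theorem isConj_ye (J : JS z φ c) (hu : IsConj z (φ (mu false))) :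
    IsConj (ye φ c) (φ (mx false)) := by
  obtain ⟨g, hg⟩ := isConj_iff.mp hu.symm
  obtain ⟨h, hh⟩ := (J.cent (g * ye φ c * g⁻¹)).mp (hg ▸ conj_comm (ye_u J))
  have h1 : IsConj (ye φ c) (φ h) := isConj_iff.mpr ⟨g, hh.symm⟩
  obtain ⟨k, hk⟩ := (show ∀ h : Hm false, h * h * h = 1 → h ≠ 1 → ∃ k, k * mx false = h * k by
    decide +kernel) h (J.inj (by
      rw [map_mul, map_mul, hh, ← pow_three', conj_pow, ye_cube J]; simp))
    (ne_of_conj (fun h => by
      have h2 := ye_z J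
      rw [h, ← J.z_eq] at h2
      exact absurd (J.inj (by simpa using h2) : zh false = ma false) (by decide +kernel)) h1)
  exact h1.trans (isConj_map hk).symm

theorem ev_reverse (l : List G) {w : List ℕ} (h : ∀ i ∈ w, gen l i * gen l i = 1) :
    ev l w.reverse = (ev l w)⁻¹ := by
  induction w with
  | nil => exact inv_one.symm
  | cons i w ih =>
    rw [List.reverse_cons, ev_append, ih fun j hj => h j (List.mem_cons_of_mem _ hj), ev_cons,
      ev_cons, ev_nil, mul_one, mul_inv_rev, inv_eq_of_mul_eq_one_right (h i List.mem_cons_self)]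

theorem not_inv [Finite G] (J : JS z φ c) (hu : IsConj z (φ (mu false))) {t : G}
    (h1 : t * φ (mx false) = φ (mx false) * t) (h2 : t * ye φ c * t⁻¹ = (ye φ c)⁻¹) : False := by
  obtain ⟨F, a', b', c', d', -, hk, ⟨ha, hb, hc, hd⟩, hA, hB, hC, hD⟩ := exists_F J
  obtain ⟨h, hh⟩ := isConj_iff.mp (isConj_ye J hu)
  have h3 := conj_comm (g := h) h1
  have h4 : h * t * h⁻¹ * φ (mx false) * (h * t * h⁻¹)⁻¹ = (φ (mx false))⁻¹ := by
    conv_lhs => rw [← hh]
    conv_rhs => rw [← hh, conj_inv, ← h2]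
    group
  have h5 : h * φ (mx false) * h⁻¹ ∈ centralizer ({φ (mx false)} : Set G) := by
    have := conj_comm (g := h) (ye_x J).eq.symm
    rwa [hh, ← mem_centralizer_singleton_iff] at this
  have h6 : (h * φ (mx false) * h⁻¹) ^ 3 = 1 := by rw [conj_pow, x3]; simp
  have h7 : h * φ (mx false) * h⁻¹ ≠ 1 := by
    rw [Ne, conj_eq_one_iff, map_eq_one_iff φ J.inj]; decide +kernel
  generalize h * φ (mx false) * h⁻¹ = w at h3 h5 h6 h7
  generalize h * t * h⁻¹ = g at h3 h4
  have si : (φ ms)⁻¹ = φ ms := inv_eq_of_mul_eq_one_right ss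
  let σ : centralizer ({φ (mx false)} : Set G) →* centralizer ({φ (mx false)} : Set G) :=
    MonoidHom.mk' (fun g => ⟨_, s_mem g.2⟩) fun g k => Subtype.ext (by
      change φ ms * (g.1 * k.1) * φ ms = φ ms * g.1 * φ ms * (φ ms * k.1 * φ ms)
      nth_rw 2 [← si]
      nth_rw 4 [← si]
      nth_rw 6 [← si]
      rw [conj_mul])
  have hσ : ∀ u v, F u = F v → F (σ u) = F (σ v) := fun u v e => by
    rw [← inv_mul_eq_one, ← map_inv, ← map_mul, hk] at e
    rw [← inv_mul_eq_one, ← map_inv, ← map_mul, ← map_inv, ← map_mul, hk]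
    obtain ⟨k, hk'⟩ := mem_zpowers_iff.mp e
    change φ ms * (u⁻¹ * v).1 * φ ms ∈ _
    rw [← hk']
    nth_rw 2 [← si]
    rw [← conj_zpow, si, sx]
    exact zpow_mem (inv_mem (mem_zpowers _)) k
  have h8 : IsConj (F (σ ⟨w, h5⟩)) (F ⟨w, h5⟩) := by
    refine F.map_isConj (isConj_iff.mpr ⟨⟨g * φ ms, mem_centralizer_singleton_iff.mpr ?_⟩,
      Subtype.ext ?_⟩)
    · calc _ = g * (φ ms * φ (mx false) * φ ms) * (φ ms)⁻¹ := by group
        _ = (g * φ (mx false) * g⁻¹)⁻¹ * (g * φ ms) := by rw [sx, si]; group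
        _ = _ := by rw [h4, inv_inv]
    · change g * φ ms * (φ ms * w * φ ms) * (g * φ ms)⁻¹ = w
      calc _ = g * (φ ms * φ ms) * w * g⁻¹ := by group
        _ = w := by rw [ss, mul_one, h3, mul_inv_cancel_right]
  have e1 : σ a' = b' := Subtype.ext (by
    change φ ms * a'.1 * φ ms = _
    rw [ha, hb, ← map_mul, ← map_mul]; exact congrArg φ (by decide +kernel))
  have e2 : σ b' = a' := Subtype.ext (by
    change φ ms * b'.1 * φ ms = _
    rw [ha, hb, ← map_mul, ← map_mul]; exact congrArg φ (by decide +kernel))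
  have e3 : σ c' = d' := Subtype.ext (by
    change φ ms * c'.1 * φ ms = _
    rw [hc, hd, de])
  have e4 : σ d' = c' := Subtype.ext (by
    change φ ms * d'.1 * φ ms = _
    rw [hc, hd, de, ← mul_assoc, ← mul_assoc, ss, one_mul, mul_assoc, ss, mul_one])
  have h9 : ∀ m u, F m * F ⟨w, h5⟩ = F u * F m → IsConj (F u) (F (σ u)) := fun m u e => by
    have e' := hσ (m * ⟨w, h5⟩) (u * m) (by rwa [map_mul, map_mul])
    rw [map_mul, map_mul, map_mul, map_mul] at e'
    exact ((isConj_iff.mpr ⟨_, mul_inv_eq_iff_eq_mul.mpr e⟩).symm.trans h8.symm).trans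
      (isConj_iff.mpr ⟨_, mul_inv_eq_iff_eq_mul.mpr e'⟩)
  rcases a6_three (F ⟨w, h5⟩).1 (by
    rw [← coe_pow, ← map_pow, show (⟨w, h5⟩ : centralizer _) ^ 3 = 1 from Subtype.ext h6, map_one]
    rfl) with e | ⟨m, -, e⟩
  · have h10 := (hk ⟨w, h5⟩).mp (Subtype.ext e)
    refine h7 (kill x3 h10 ?_)
    obtain ⟨k, rfl⟩ := mem_zpowers_iff.mp h10
    rw [← eq_inv_iff_mul_eq_one, ← inv_zpow, ← h4, conj_zpow, h3, mul_inv_cancel_right]
  · rw [← hA, ← hB, ← hC, ← hD, ← d8_map, ← map_mul, ← map_mul] at e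
    rcases e with e | e <;> have h10 := h9 _ _ (Subtype.ext e)
    · rw [map_mul σ, e2, e3, map_mul, map_mul, hA, hB, hC, hD] at h10
      exact not_conj h10
    · rw [map_mul σ, e1, e4, map_mul, map_mul, hA, hB, hC, hD] at h10
      exact not_conj h10.symm

theorem rel3 [Finite G] (J : JS z φ c) (hu : IsConj z (φ (mu false))) :
    TCList.Rel (lg φ c) r3 := by
  obtain ⟨F, a', b', c', d', -, hk, ⟨ha, hb, hc, hd⟩, hA, hB, hC, hD⟩ := exists_F J
  have R := jr J
  have h1 := rel_rD R [16,2,16,2] (by decide)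
  change de φ c * (φ (mb false) * (de φ c * (φ (mb false) * 1))) = 1 at h1
  have h2 : (c * de φ c) ^ 5 = 1 := kill' x3 J.cc (dd R) J.cx (by
    have := (hk ((c' * d') ^ 5)).mp (by rw [map_pow, map_mul, hC, hD]; decide +kernel)
    rwa [coe_pow, coe_mul, hc, hd] at this)
  have h3 : (c * (de φ c * φ (mb false))) ^ 5 = 1 :=
    kill' x3 J.cc (by rwa [mul_one, ← mul_assoc] at h1) J.cx (by
      have := (hk ((c' * (d' * b')) ^ 5)).mp (by
        rw [map_pow, map_mul, map_mul, hB, hC, hD]; decide +kernel)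
      rwa [coe_pow, coe_mul, coe_mul, hb, hc, hd] at this)
  have h4 := (hk ((a' * (b' * (c' * d'))) ^ 4)).mp (by
    rw [map_pow, map_mul, map_mul, map_mul, hA, hB, hC, hD]; decide +kernel)
  rw [coe_pow, coe_mul, coe_mul, coe_mul, ha, hb, hc, hd] at h4
  have h5 : ∀ t ∈ zpowers (φ (mx false)), t = 1 ∨ t = φ (mx false) ∨ t = (φ (mx false))⁻¹ := by
    intro t ht
    rw [← MonoidHom.map_zpowers] at ht
    obtain ⟨h, h6, rfl⟩ := ht
    have h7 : h ∈ ({ carrier := {h | h = 1 ∨ h = mx false ∨ h = (mx false)⁻¹}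
                     mul_mem' := by
                       rintro _ _ (rfl | rfl | rfl) (rfl | rfl | rfl) <;>
                         simp only [Set.mem_ofPred_eq] <;> decide +kernel
                     one_mem' := Or.inl rfl
                     inv_mem' := by rintro _ (rfl | rfl | rfl) <;> simp } : Subgroup (Hm false)) :=
      zpowers_le.mpr (Or.inr (Or.inl rfl)) h6
    rcases h7 with rfl | rfl | rfl <;> simp
  simp only [TCList.Rel, r3, List.forall_mem_cons, ev_w2, ev_w3, ev_w4]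
  refine ⟨h2, h3, (h5 _ h4).resolve_right fun h6 => ?_, by simp⟩
  obtain ⟨w, h7, h8⟩ := exists_inv R h2 h3 h6
  have h9 : ev (lg φ c) [2,15,9] = ye φ c := by
    rw [ev_cons, ev_cons, ev_cons, ev_nil, mul_one, ← mul_assoc]
    exact congrArg (_ * ·) (lg_inv R 8)
  rw [ev_append, ev_append, ev_append, h9, ev_reverse _ fun i hi => by
    rw [← eq_inv_iff_mul_eq_one, ← lg_inv R,
      (show ∀ i ∈ [1,2,15,16], inv tG i = i by decide) i (h7 i hi)]] at h8
  refine not_inv J hu (t := ev (lg φ c) w) (mem_centralizer_singleton_iff.mp (ev_mem fun i hi => ?_))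
    (eq_inv_of_mul_eq_one_left (by rw [← h8]; group))
  have := h7 i hi
  simp only [List.mem_cons, List.not_mem_nil, or_false] at this
  rcases this with rfl | rfl | rfl | rfl
  exacts [(ha ▸ a'.2 : φ (ma false) ∈ _), (hb ▸ b'.2 : φ (mb false) ∈ _), hc ▸ c'.2,
    (hd ▸ d'.2 : de φ c ∈ _)]

end Cfsg.Agent.Lib.HJ3Loc
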