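import Cfsg.Agent.Lib.HNDF0

set_option autoImplicit false
set_option maxRecDepth 100000

namespace Cfsg.Agent.Lib.HND
open Cfsg.Agent.Lib.PermNet Cfsg.Agent.Lib.DCE

noncomputable def FF : FT := (.node (nat_lit 64) (.node (nat_lit 32) f0 f32) (.node (nat_lit 96) f64 (.node (nat_lit 128) f96 f128)))

def TM : List Tm := [⟨false, [], [(false, []), (true, [])]⟩,
  ⟨true, [0, 0], [(false, [1, 1])]⟩,
  ⟨true, [1], [(false, [1]), (true, [0, 0])]⟩,
  ⟨true, [0], [(false, [1, 1]), (true, [0])]⟩,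
  ⟨true, [5], [(false, [5, 1, 1]), (true, [0, 0, 5])]⟩,
  ⟨true, [], [(false, [1, 1, 1]), (true, [0, 0, 0])]⟩,
  ⟨false, [5], [(false, [5, 1, 1]), (true, [0, 0, 5, 1, 1]), (true, [0, 0])]⟩,
  ⟨false, [], [(false, [1, 1, 1]), (true, [0]), (true, [0, 0])]⟩,
  ⟨true, [0], [(false, []), (false, [1])]⟩,
  ⟨true, [5], [(false, [5]), (false, [5])]⟩,
  ⟨true, [], [(false, [1]), (false, [0])]⟩,
  ⟨false, [5], [(false, [5]), (false, [5]), (false, [])]⟩,
  ⟨false, [1], [(false, [1]), (true, []), (true, [0, 0])]⟩]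

def XW : List (List (List Nat)) := [[],
  [[]],
  [[], [4, 0]],
  [[], [2, 10]],
  [[], [10, 10]],
  [[], [11, 8, 10]],
  [[], [2, 10], [2, 10]],
  [[], [2, 10], [2, 10], [8, 8, 1, 8]],
  [[], [10, 10], [6, 4, 10]]]

def BB : List Nat := [(nat_lit 0), (nat_lit 97), (nat_lit 15), (nat_lit 7)]



end Cfsg.Agent.Lib.HND
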