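import Cfsg.Agent.Lib.HNMR

set_option autoImplicit false
set_option maxRecDepth 100000

namespace Cfsg.Agent.Lib.HNM
open Cfsg.Agent.Lib.PermNet

theorem ch_0 : levelB nets [[0], [2]] [] 0 [0, 1, 0, 1, 0, 1, 0, 1, 0, 1, 0, 1, 1, 0, 1, 0, 1, 0, 1, 0, 1, 1] 0 756 756 = true := by decide +kernel

theorem ch_1 : levelB nets [[0, 0], [2, 1, 3, 0, 3, 0, 2], [1, 2, 1, 2, 0, 2, 0, 2]] [0] 1 [1, 2, 1, 1, 2, 1, 1, 2, 1, 2, 1, 1, 2, 1, 1, 2, 1] 1 754 250 = true := by decide +kernel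

theorem ch_2 : levelB nets [[0, 0], [3, 1, 3, 1, 3, 0, 3, 0, 2, 1, 3, 0, 3, 0, 2, 2, 1, 3, 0, 3, 0, 2, 2, 1, 3, 0, 3, 0, 2, 1, 2, 1, 2, 0, 2, 2, 1, 2, 0, 3]] [1, 0] 2 [1, 1, 1] 2 302 4 = true := by decide +kernel

theorem ch_3 : levelB nets [[0, 0]] [2, 1, 0] 756 [0] 756 3 2 = true := by decide +kernel

theorem rels0_0 : RelsOn nets 760 10 rels0 0 10 :=
  relsOn_of_B _ _ _ _ _ 10 _ (by decide +kernel) (by decide +kernel)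

theorem mv : Nat.beq (appW nets [0, 2, 0, 2, 0, 3, 0, 3, 0, 2, 0, 2, 0, 3, 0, 3, 0, 2, 0, 2, 0, 3, 0, 3, 0, 2, 0, 2, 0, 3, 0, 3] (pt 0)) (pt 0) = false := by decide +kernel

end Cfsg.Agent.Lib.HNM
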