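import Cfsg.Agent.Lib.HNMN0

set_option autoImplicit false
set_option maxRecDepth 100000

namespace Cfsg.Agent.Lib.HNM
open Cfsg.Agent.Lib.PermNet

noncomputable def nets : NL := (.cons net0 (.cons net1 .nil))

theorem hv : nets.Valid 760 := ⟨valid0, ⟨valid1, trivial⟩⟩

def rels0 : List (List Nat × List Nat) := [([2, 2, 2], [3, 3, 3]),
  ([0, 0, 2], [2, 1, 1]),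
  ([1, 3, 0, 2, 1, 3], [3, 1, 2, 0, 3, 1]),
  ([1, 2, 2, 0, 2, 2, 2, 1, 2, 2, 0], [3, 3, 3, 1, 3, 3, 0, 3, 3, 3]),
  ([0, 2, 0, 2, 0, 2, 0, 2], [3, 1, 3, 1, 3, 1, 3, 1]),
  ([0, 2, 0, 2, 2, 2, 0, 2, 0, 2, 2, 2], [3, 3, 3, 1, 3, 1, 3, 3, 3, 1, 3, 1]),
  ([0, 0, 2, 0, 2, 0, 3, 0, 3, 0, 2, 0, 2, 0, 3, 0, 3, 0, 2, 0, 2, 0, 3, 0, 3, 0, 2, 0, 2, 0, 3, 0, 3], [2, 1, 2, 1, 3, 1, 3, 1, 2, 1, 2, 1, 3, 1, 3, 1, 2, 1, 2, 1, 3, 1, 3, 1, 2, 1, 2, 1, 3, 1, 3, 1, 0]),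
  ([0, 2, 0, 2, 0, 3, 0, 3, 0, 2, 0, 2, 0, 3, 0, 3, 0, 2, 0, 2, 0, 3, 0, 3, 0, 2, 0, 2, 0, 3, 0, 3, 0, 2, 0, 2, 0, 3, 0, 3, 0, 2, 0, 2, 0, 3, 0, 3], [2, 1, 2, 1, 3, 1, 3, 1, 2, 1, 2, 1, 3, 1, 3, 1, 2, 1, 2, 1, 3, 1, 3, 1, 2, 1, 2, 1, 3, 1, 3, 1, 2, 1, 2, 1, 3, 1, 3, 1, 2, 1, 2, 1, 3, 1, 3, 1])]
def rels : List (List Nat × List Nat) := rels0

end Cfsg.Agent.Lib.HNM
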