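import Cfsg.Agent.Lib.DCE2
import Cfsg.Agent.Lib.PermModel
import Cfsg.Agent.Lib.TCHN1
import Cfsg.Agent.Lib.TCHN2
import Cfsg.Agent.Lib.TCHN3
import Cfsg.Agent.Lib.HNMC0

/-! Upper bound for the order of the subgroup generated by x, y, z of the Harada–Norton group. -/

set_option autoImplicit false
set_option maxRecDepth 100000

namespace Cfsg.Agent.Lib.HNTC

open Cfsg.Agent.Lib.PermNet Cfsg.Agent.Lib.Words Cfsg.Agent.Lib.PermGroup Cfsg.Agent.Lib.PermModel Cfsg.Agent.Lib.DCE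

def K1 : List (List ℕ) := [[2, 2, 2, 2, 2, 2], [0, 0, 2, 0, 0, 3], [1, 3, 0, 2, 1, 3, 0, 2, 1, 3, 0, 2], [1, 2, 2, 0, 2, 2, 2, 1, 2, 2, 0, 2, 2, 2, 1, 2, 2, 0, 2, 2, 2], [0, 2, 0, 2, 0, 2, 0, 2, 0, 2, 0, 2, 0, 2, 0, 2], [0, 2, 0, 2, 2, 2, 0, 2, 0, 2, 2, 2, 0, 2, 0, 2, 2, 2, 0, 2, 0, 2, 2, 2], [4, 4], [4, 0, 4, 0], [5, 2, 1, 3, 3, 1, 3, 1, 3, 4, 2, 0, 2, 0, 2, 2, 0, 3, 1, 1], [4, 3, 1, 3, 1, 3, 3, 3, 4, 2, 2, 2, 0, 2, 0, 2, 0, 3, 1, 3, 1, 3, 3, 3, 4, 2, 2, 2, 0, 2, 0, 2, 0, 3, 1, 3, 1, 3, 3, 3, 4, 2, 2, 2, 0, 2, 0, 2, 0]]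

def Kxy : List (List ℕ) := [[2, 2, 2, 2, 2, 2], [0, 0, 2, 0, 0, 3], [1, 3, 0, 2, 1, 3, 0, 2, 1, 3, 0, 2], [1, 2, 2, 0, 2, 2, 2, 1, 2, 2, 0, 2, 2, 2, 1, 2, 2, 0, 2, 2, 2], [0, 2, 0, 2, 0, 2, 0, 2, 0, 2, 0, 2, 0, 2, 0, 2], [0, 2, 0, 2, 2, 2, 0, 2, 0, 2, 2, 2, 0, 2, 0, 2, 2, 2, 0, 2, 0, 2, 2, 2]]

def K2 : List (List ℕ) := Kxy ++ [[0, 0, 0, 0]]

def K3 : List (List ℕ) := K1 ++ [[0, 0, 0, 0]]

/-- The word that generates the centre of order three. -/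
def cw : List ℕ := [0, 2, 0, 2, 0, 3, 0, 3, 0, 2, 0, 2, 0, 3, 0, 3, 0, 2, 0, 2, 0, 3, 0, 3, 0, 2, 0, 2, 0, 3, 0, 3]

theorem four {X : Type*} [Group X] (z : ℕ → X) (hz : ∀ w ∈ Kxy, wval z w = 1) :
    ∀ w ∈ [[0, 0, 0, 0]], wval z w = 1 :=
  deriveP [] hz _ [[([0, 2, 2, 0, 2, 2, 2], 7), ([1], 2), ([1, 2, 2, 0, 0, 3], 3), ([1, 2, 2, 0], 2), ([1, 2, 2, 0, 2, 2, 0, 0, 3], 3), ([1, 2, 2, 0, 2, 2], 2), ([1, 2, 2, 0, 2, 2, 2, 1, 2, 0, 0, 3], 3), ([1, 2, 2, 0, 2, 2, 2, 1, 2], 2), ([1, 2, 2, 0, 2, 2, 2, 1, 2, 2, 0, 2, 0, 0, 3], 3), ([1, 2, 2, 0, 2, 2, 2, 1, 2, 2, 0, 2], 2), ([1, 2, 2, 0, 2, 2, 2, 1, 2, 2, 0, 2, 2, 2, 0, 0, 3], 3), ([1, 2, 2, 0, 2, 2, 2, 1, 2, 2, 0, 2, 2, 2, 1], 2), ([1, 2, 2, 0, 2, 2, 2, 1, 2, 2, 0, 2, 2, 2, 1, 2, 2, 0, 0, 3], 3), ([1, 2, 2, 0, 2, 2, 2, 1, 2, 2, 0, 2, 2, 2, 1, 2, 2, 0], 2), ([1, 2, 2, 0, 2, 2, 2, 1, 2, 2, 0, 2, 2, 2, 1, 2, 2, 0, 2, 2, 0,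 0, 3], 3), ([1, 2, 2, 0, 2, 2, 2, 1, 2, 2, 0, 2, 2, 2, 1, 2, 2, 0, 2, 2], 2), ([], 6)]] (by decide +kernel)

theorem b1 {X : Type*} [Group X] (z : ℕ → X) (hz : ∀ w ∈ K3, wval z w = 1) :
    (gp z [[0], [2]]).relIndex (gp z [[0], [2], [4]]) ≠ 0 ∧
    (gp z [[0], [2]]).relIndex (gp z [[0], [2], [4]]) ≤ 352 :=
  tc_wrap [2] hz [[0], [1], [2], [3], [4]] TCHN1.bound _ _ (by decide +kernel)

theorem b2 {X : Type*} [Group X] (z : ℕ → X) (hz : ∀ w ∈ K2, wval z w = 1) :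
    (gp z [[2], [0, 0]]).relIndex (gp z [[0], [2]]) ≠ 0 ∧
    (gp z [[2], [0, 0]]).relIndex (gp z [[0], [2]]) ≤ 126000 :=
  tc_wrap [] hz [[0], [1], [2], [3], [0, 0], [1, 1]] TCHN2.bound _ _ (by decide +kernel)

theorem b3 {X : Type*} [Group X] (z : ℕ → X) (hz : ∀ w ∈ K2, wval z w = 1) :
    (gp z []).relIndex (gp z [[2], [0, 0]]) ≠ 0 ∧
    (gp z []).relIndex (gp z [[2], [0, 0]]) ≤ 12 :=
  tc_wrap [] hz [[2], [3], [0, 0], [1, 1]] TCHN3.bound _ _ (by decide +kernel)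

theorem card_xy {X : Type*} [Group X] (z : ℕ → X) (hz : ∀ w ∈ Kxy, wval z w = 1) :
    Nat.card (gp z [[0], [2]]) ≠ 0 ∧ Nat.card (gp z [[0], [2]]) ≤ 1512000 :=
  card_le_of_relIndex (gp_le.2 (mem_gp_of_lettersIn (by decide))) (b2 z (all_append hz (four z hz)))
    (card_le_of_relIndex (gp_mono (by decide)) (b3 z (all_append hz (four z hz))) (card_gp_nil z))

open HNM in
theorem hrels : ∀ w ∈ relW rels, wval nets.perm w = 1 :=
  relW_one (wval_eq_of_relsOn (K := 10) hv (by norm_num) rels0_0)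

theorem hM : ∀ w ∈ Kxy, wval HNM.nets.perm w = 1 := derive [] hrels _ (by decide +kernel)

open HNM in
theorem central {X : Type*} [Group X] (z : ℕ → X) (hz : ∀ w ∈ Kxy, wval z w = 1) :
    ∀ w ∈ [0 :: (cw ++ 1 :: cw), rep 3 cw], wval z w = 1 := by
  refine rels_of_model hz hM (ls := [[0], [2]]) (T := 1512000) (fun z => card_xy z) (fun _ => ?_)
    (by decide +kernel) (derive [] hrels _ (by decide +kernel))
  rw [← fixer_nil (gp nets.perm _)]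
  exact (le_card_fixer hv [[0], [2]] (mem_gp_of_lettersIn (by decide +kernel)) [] 0 [0, 1, 0, 1, 0, 1, 0, 1, 0, 1, 0, 1, 1, 0, 1, 0, 1, 0, 1, 0, 1, 1] 0 756 756 ch_0
    (le_card_fixer hv [[0, 0], [2, 1, 3, 0, 3, 0, 2], [1, 2, 1, 2, 0, 2, 0, 2]] (mem_gp_of_lettersIn (by decide +kernel)) [0] 1 [1, 2, 1, 1, 2, 1, 1, 2, 1, 2, 1, 1, 2, 1, 1, 2, 1] 1 754 250 ch_1
    (le_card_fixer hv [[0, 0], [3, 1, 3, 1, 3, 0, 3, 0, 2, 1, 3, 0, 3, 0, 2, 2, 1, 3, 0, 3, 0, 2, 2, 1, 3, 0, 3, 0, 2, 1, 2, 1, 2, 0, 2, 2, 1, 2, 0, 3]] (mem_gp_of_lettersIn (by decide +kernel)) [1, 0] 2 [1, 1, 1] 2 302 4 ch_2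
    (le_card_fixer hv [[0, 0]] (mem_gp_of_lettersIn (by decide +kernel)) [2, 1, 0] 756 [0] 756 3 2 ch_3
    (one_le_card_fixer _)))))

theorem hxy {X : Type*} [Group X] {z : ℕ → X} (hz : ∀ w ∈ K1, wval z w = 1) :
    ∀ w ∈ Kxy, wval z w = 1 := derive [] hz _ (by decide +kernel)

theorem card_xy' {X : Type*} [Group X] (z : ℕ → X) (hz : ∀ w ∈ Kxy, wval z w = 1)
    (hc : wval z cw = 1) : Nat.card (gp z [[0], [2]]) ≤ 504000 := by
  have h1 := card_xy _ (rels_pair hz hM)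
  set P := gp (fun i => (z i, HNM.nets.perm i)) [[0], [2]] with hP
  have : Finite P := Nat.finite_of_card_ne_zero h1.1
  let p : P →* X := (MonoidHom.fst _ _).comp P.subtype
  have hr : p.range = gp z [[0], [2]] := by
    rw [MonoidHom.range_comp, Subgroup.range_subtype, map_gp]; rfl
  have hm : wval (fun i => (z i, HNM.nets.perm i)) cw ∈ P :=
    mem_gp_of_lettersIn (us := [cw]) (by decide +kernel) _ List.mem_cons_self
  have hk : (⟨_, hm⟩ : P) ∈ p.ker :=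
    (map_wval (MonoidHom.fst X (Equiv.Perm ℕ)) (fun i => (z i, HNM.nets.perm i)) cw).trans hc
  have h3 : orderOf (⟨⟨_, hm⟩, hk⟩ : p.ker) = 3 := by
    have : Fact (Nat.Prime 3) := ⟨by norm_num⟩
    refine orderOf_eq_prime (Subtype.ext (Subtype.ext ?_)) fun e => ?_
    · have := central _ (rels_pair hz hM) (rep 3 cw) (by simp)
      rwa [wval_rep] at this
    · exact ne_one_of_move HNM.hv cw 0 HNM.mv ((map_wval (MonoidHom.snd X (Equiv.Perm ℕ))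
        (fun i => (z i, HNM.nets.perm i)) cw).symm.trans
        (congrArg (fun x : p.ker => x.1.1.2) e))
  have h4 := Nat.le_of_dvd Nat.card_pos (h3 ▸ orderOf_dvd_natCard _)
  have h5 := p.ker.index_mul_card
  rw [Subgroup.index_ker, hr] at h5
  have := Nat.mul_le_mul_left (Nat.card (gp z [[0], [2]])) h4
  omega

/-- A faithful enough model kills the centre of order three. -/
theorem card_le {X Y : Type*} [Group X] [Group Y] (z : ℕ → X) (hz : ∀ w ∈ K1, wval z w = 1)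
    (p : X →* Y) (hp : p (wval z cw) = 1)
    (hl : Finite (gp z (sing 3)) → 177408000 ≤ Nat.card ((gp z (sing 3)).map p)) :
    Nat.card (gp z (sing 3)) ≠ 0 ∧ Nat.card (gp z (sing 3)) ≤ 177408000 := by
  have hb := b1 z (all_append hz (four z (hxy hz)))
  have h1 := card_le_of_relIndex (gp_mono (by decide)) hb (card_xy z (hxy hz))
  suffices hc : wval z cw = 1 from card_le_of_relIndex (gp_mono (by decide)) hb
    ⟨(card_xy z (hxy hz)).1, card_xy' z (hxy hz) hc⟩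
  by_contra hc
  change Nat.card (gp z (sing 3)) ≠ 0 ∧ Nat.card (gp z (sing 3)) ≤ _ at h1
  set P := gp z (sing 3) with hP
  have : Finite P := Nat.finite_of_card_ne_zero h1.1
  let Z : ℕ → P := fun i => if h : i < 3 then ⟨z i, mem_sing z h⟩ else 1
  have hZ : ∀ w : List ℕ, w.all (fun l => decide (l < 2 * 3)) = true → ((wval Z w : P) : X) = wval z w :=
    fun w hw => (map_wval P.subtype Z w).trans
      (wval_congr (n := 3) (fun i hi => by simp [Z, hi]) (by simpa using hw))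
  set c := wval Z cw with hcd
  have hc' : (c : X) = wval z cw := hZ _ (by decide +kernel)
  let q : P →* Y := p.comp P.subtype
  have hk : Nat.card q.ker ≤ 3 := by
    have h5 := q.ker.index_mul_card
    rw [Subgroup.index_ker, MonoidHom.range_comp, Subgroup.range_subtype] at h5
    have := Nat.mul_le_mul_right (Nat.card q.ker) (hl this)
    omega
  have hcq : c ∈ q.ker := by
    change p c = 1
    rw [hc', hp]
  have c1 : c ≠ 1 := fun e => hc (by rw [← hc', e]; rfl)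
  have c3 : c ^ 3 = 1 := Subtype.ext (by
    have := central z (hxy hz) (rep 3 cw) (by simp)
    rwa [wval_rep, ← hc'] at this)
  have c2 : c⁻¹ ≠ c := fun e => c1 (by
    rw [pow_succ, pow_two] at c3
    nth_rw 1 [← e] at c3
    simpa using c3)
  have hx : Z 0 * c * (Z 0)⁻¹ = c⁻¹ := by
    have := central z (hxy hz) _ List.mem_cons_self
    rw [← hZ _ (by decide +kernel), OneMemClass.coe_eq_one, wval_cons, wval_append, wval_cons] at this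
    rw [eq_inv_iff_mul_eq_one, mul_assoc, mul_assoc]
    exact this
  have hall : ∀ g : P, g * c * g⁻¹ = c ∨ g * c * g⁻¹ = c⁻¹ := fun g => by
    classical
    by_contra hn
    rw [not_or] at hn
    have g1 : g * c * g⁻¹ ≠ 1 := by simpa using c1
    have : ({1, c, c⁻¹, g * c * g⁻¹} : Set P).ncard ≤ (q.ker : Set P).ncard :=
      Set.ncard_le_ncard (by
        rintro _ (rfl | rfl | rfl | rfl)
        exacts [one_mem _, hcq, inv_mem hcq, (inferInstance : q.ker.Normal).conj_mem _ hcq g])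
    rw [Set.ncard_insert_of_notMem (by simp [c1.symm, g1.symm, eq_comm (a := (1 : P)), c1]),
      Set.ncard_insert_of_notMem (by simp [c2.symm, Ne.symm hn.1]),
      Set.ncard_pair (Ne.symm hn.2), ← Nat.card_coe_set_eq] at this
    exact absurd (this.trans hk) (by norm_num)
  have hinv : ∀ g : P, g * c⁻¹ * g⁻¹ = (g * c * g⁻¹)⁻¹ := fun g => by group
  classical
  let s : P →* ℤˣ := MonoidHom.mk' (fun g => if g * c * g⁻¹ = c then 1 else -1) fun a b => by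
    have e : a * b * c * (a * b)⁻¹ = a * (b * c * b⁻¹) * a⁻¹ := by group
    rcases hall a with ha | ha <;> rcases hall b with hb | hb <;>
      simp only [e, hb, hinv, ha, c2, inv_inv, if_true, if_false] <;> rfl
  have h9 : wval (fun i => s (Z i)) [4, 3, 1, 3, 1, 3, 3, 3, 4, 2, 2, 2, 0, 2, 0, 2, 0, 3, 1, 3, 1, 3, 3, 3, 4, 2, 2, 2, 0, 2, 0, 2, 0, 3, 1, 3, 1, 3, 3, 3, 4, 2, 2, 2, 0, 2, 0, 2, 0] = 1 := by
    rw [← map_wval, show wval Z [4, 3, 1, 3, 1, 3, 3, 3, 4, 2, 2, 2, 0, 2, 0, 2, 0, 3, 1, 3, 1, 3, 3, 3, 4, 2, 2, 2, 0, 2, 0, 2, 0, 3, 1, 3, 1, 3, 3, 3, 4, 2, 2, 2, 0, 2, 0, 2, 0] = 1 from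
      Subtype.ext ((hZ _ (by decide +kernel)).trans (hz _ (by decide +kernel))), map_one]
  have s0 : s (Z 0) = -1 := if_neg (hx ▸ c2)
  simp only [wval, lval, List.map_cons, List.map_nil, List.prod_cons, List.prod_nil] at h9
  norm_num [s0] at h9
  rcases Int.units_eq_one_or (s (Z 1)) with e1 | e1 <;>
    rcases Int.units_eq_one_or (s (Z 2)) with e2 | e2 <;> simp [e1, e2] at h9

end Cfsg.Agent.Lib.HNTC
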