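import Mathlib
import Cfsg.Agent.Lib.FTBG5
import Cfsg.Agent.Lib.FTBG6

/-!
Coprime action on `p`-groups of rank at most two fixing a central element of order `p`.
-/

set_option autoImplicit false
set_option linter.unusedSectionVars false
set_option linter.style.haveILetI false

namespace Cfsg.Agent.Lib.IsoRk2

open Subgroup Cfsg.Agent.Lib.PCoreConj Cfsg.Agent.Lib.PCore Cfsg.Agent.Lib.PCoreResidual
  Cfsg.Agent.Lib.PCoreMod Cfsg.Agent.Lib.FTDefs
open scoped commutatorElement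

variable {G : Type} [Group G] [Finite G] {p n : ℕ}
  {A B C D E H K L M N P Q R S T U V W X Z : Subgroup G} {x y z u v a b g s : G}

theorem pow_choose_two (hp : p.Prime) (h2 : p ≠ 2) (h : x ^ p = 1) : x ^ p.choose 2 = 1 := by
  obtain ⟨k, hk⟩ := hp.dvd_choose_self two_ne_zero (hp.two_le.lt_of_ne' h2)
  rw [hk, pow_mul, h, one_pow]

theorem laffey (hp : p.Prime) (h2 : p ≠ 2) (hD : IsPGroup p D)
    (pc : ∀ a ∈ D, a ^ p = 1 → a ∈ C[D]) (R : Subgroup G) :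
    R ≤ D → ∀ a ∈ R, ∀ g ∈ R, a ^ p ∈ C[D] → ⁅a, g⁆ ^ p = 1 := by
  induction R using subgroup_induction with
  | ih R ih =>
  intro hR a ha g hg h
  rcases (zpowers_le.2 ha).eq_or_lt with e | e
  · rw [← e] at hg
    rw [commutatorElement_eq_one_iff_mul_comm.2 (comm_of_mem_zpowers hg rfl).symm, one_pow]
  obtain ⟨M, h1, h3, h4⟩ := exists_relIndex_eq_of_lt hp (hD.to_le hR) e
  have hM : M < R := h3.lt_of_ne fun e => hp.ne_one (by rw [← h4, e, relIndex_self])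
  have ha' := h1 (mem_zpowers a)
  have hb := M.inv_mem ((normalIn_of_relIndex_eq hp (hD.to_le hR) h3 h4).conj_mem hg ha')
  have h5 := ih M hM (h3.trans hR) a ha' _ hb h
  have h6 : ⁅(g * a * g⁻¹)⁻¹, a⁆ ^ p = 1 := by rw [← commutatorElement_inv, inv_pow, h5, inv_one]
  have h7 := pc _ (der_le D (commutator_mem_commutator (hR (h3 hb)) (hR ha))) h6
  have h8 : ⁅a, g⁆ = a * (g * a * g⁻¹)⁻¹ := by rw [commutatorElement_def]; group
  rw [h8, ThompsonJ.mul_pow_of_commutator_comm (h7 a (hR ha)) (h7 _ (hR (h3 hb))),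
    pow_choose_two hp h2 h6, inv_pow, conj_pow, h g (hR hg)]
  group

theorem mul_pow_pc (hp : p.Prime) (h2 : p ≠ 2) (hD : IsPGroup p D)
    (pc : ∀ a ∈ D, a ^ p = 1 → a ∈ C[D]) (ha : a ∈ D) (hb : b ∈ D) (h : a ^ p ∈ C[D]) :
    (a * b) ^ p = a ^ p * b ^ p := by
  have h6 : ⁅b, a⁆ ^ p = 1 := by
    rw [← commutatorElement_inv, inv_pow, laffey hp h2 hD pc D le_rfl a ha b hb h, inv_one]
  have h7 := pc _ (der_le D (commutator_mem_commutator hb ha)) h6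
  rw [ThompsonJ.mul_pow_of_commutator_comm (h7 a ha) (h7 b hb), pow_choose_two hp h2 h6, one_mul]

theorem pc_fix (hp : p.Prime) (h2 : p ≠ 2) (n : ℕ) : ∀ {G : Type} [Group G] [Finite G]
    {D B : Subgroup G}, Nat.card D = n → IsPGroup p D → B ≤ N[D] → (Nat.card B).Coprime p →
    ⁅D, B⁆ = D → (∀ a ∈ D, a ^ p = 1 → a ∈ C[D]) → Nat.card (omegaOne p D) ≤ p ^ 2 →
    ∀ x ∈ D, x ∈ C[B] → x ^ p = 1 → x = 1 := by
  induction n using Nat.strong_induction_on with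
  | _ n ih =>
  intro G _ _ D B hn hD hB hc e pc hr x hx hxB hxp
  have hcop := coprime_of_isPGroup_left hp hD hc
  by_cases hab : IsMulCommutative D
  · exact mem_bot.1 (cop_comm_inf_cent_of_comm hab hB hcop ▸ mem_inf.2 ⟨e.ge hx, hxB⟩)
  by_contra hx1
  set V := omegaOne p D with hVd
  have hV : ∀ a ∈ V, a ^ p = 1 := omega_pow_of_der hp h2 hD fun x hx e => pc x (der_le D hx) e
  have hVD : V ≤ D := omegaOne_le p D
  have hVc : V ≤ C[D] := fun a ha => pc a (hVD ha) (hV a ha)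
  have hN : NormalIn V D := (NormalIn.refl D).omegaOne p
  have hBV : B ≤ N[V] := le_normalizer_omegaOne hB
  have pc' : ∀ a ∈ D /ₙ V, a ^ p = 1 → a ∈ C[D /ₙ V] := by
    intro a' ha' h b' hb'
    obtain ⟨a, h1, ha, rfl⟩ := mem_pim.1 ha'
    obtain ⟨b, h3, hb, rfl⟩ := mem_pim.1 hb'
    rw [← map_pow] at h
    have h4 := laffey hp h2 hD pc D le_rfl a ha b hb (hVc ((qmap_eq_one_iff _).1 h))
    symm
    rw [← commutatorElement_eq_one_iff_mul_comm, ← map_commutatorElement]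
    exact (qmap_eq_one_iff _).2 (mem_omegaOne (der_le D (commutator_mem_commutator ha hb)) h4)
  have hD' := isPGroup_pim hD (qmap V)
  have hnc : ¬ IsCyclic (D /ₙ V) := fun h => by
    obtain ⟨y, hy, h⟩ := (cyclic_quo_iff hN.norm).1 h
    exact hab (comm_of_le_sup_zpowers hVc hVD hy (h.trans (sup_comm _ _).le))
  obtain ⟨F, hF⟩ := exists_ea_two_of_not_cyclic hp h2 hD' hnc
  set U := ppre (qmap V) (omegaOne p (D /ₙ V)) with hU
  have hUD : U ≤ D := ppre_qmap_le hN (omegaOne_le _ _)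
  have hUp : ∀ u ∈ U, u ^ p ∈ V := fun u hu => by
    obtain ⟨h1, h3⟩ := mem_ppre.1 hu
    have := omega_pow_of_der hp h2 hD' (fun x hx e => pc' x (der_le _ hx) e) _ h3
    rw [← map_pow] at this
    exact (qmap_eq_one_iff _).1 this
  obtain ⟨Y, hY, hd⟩ := exists_pow_image (p := p) (U := U) fun u hu v hv =>
    mul_pow_pc hp h2 hD pc (hUD hu) (hUD hv) (hVc (hUp u hu))
  have hYV : Y ≤ V := fun y hy => by
    obtain ⟨u, hu, rfl⟩ := (hY y).1 hy
    exact hUp u hu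
  rw [hU, card_ppre_qmap] at hd
  have h5 : Nat.card (omegaOne p (D /ₙ V)) ≤ Nat.card Y := by
    refine Nat.le_of_mul_le_mul_right ((Nat.le_of_dvd (Nat.mul_pos Nat.card_pos Nat.card_pos)
      hd).trans (Nat.mul_le_mul_left _ (FTDefs.card_le_of_le (omegaOne_mono hUD)))) Nat.card_pos
  have h6 : Y = V := eq_of_le_of_card_le hYV
    (hr.trans ((hF.card.ge.trans (FTDefs.card_le_of_le hF.le_omegaOne)).trans h5))
  obtain ⟨a, ha, rfl⟩ := (hY x).1 (h6.ge (mem_omegaOne hx hxp))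
  have h7 := ih _ (hn ▸ card_quo_lt hN (ne_bot_of_mem (hUp a ha) hx1)) rfl hD' (pim_norm hB)
    (coprime_pim_left hc _) (by rw [← pim_comm hN.norm hBV, e]) pc'
    (h5.trans ((FTDefs.card_le_of_le hYV).trans hr)) _ (apply_mem_pim (hN.norm (hUD ha)) (hUD ha)) ?_ ?_
  · exact hx1 (hV a ((qmap_eq_one_iff _).1 h7))
  · intro b' hb'
    obtain ⟨b, h3, hb, rfl⟩ := mem_pim.1 hb'
    rw [← commutatorElement_eq_one_iff_mul_comm, ← map_commutatorElement]
    have h8 : b * a * b⁻¹ ∈ D := CoprimeBasic.conj_mem_of_le_normalizer hB hb (hUD ha)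
    have h9 : (b * a * b⁻¹) ^ p = a ^ p := by rw [conj_pow, hxB b hb, mul_inv_cancel_right]
    refine (qmap_eq_one_iff _).2 (mem_omegaOne (D.mul_mem h8 (D.inv_mem (hUD ha))) ?_)
    exact (mul_pow_pc hp h2 hD pc h8 (D.inv_mem (hUD ha)) (h9 ▸ hVc (hUp a ha))).trans
      (by rw [h9, inv_pow, mul_inv_cancel])
  · rw [← map_pow]
    exact (qmap_eq_one_iff _).2 (hUp a ha)

/-- the elements of `N(Q)` acting trivially on `Q` modulo `L` -/
def St (Q L : Subgroup G) : Subgroup G where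
  carrier := {n | n ∈ N[Q] ∧ ∀ u ∈ Q, ⁅n, u⁆ ∈ L}
  one_mem' := ⟨one_mem _, fun u _ => by simp⟩
  mul_mem' := fun {n m} hn hm => ⟨mul_mem hn.1 hm.1, fun u hu => by
    have := L.mul_mem (hn.2 _ ((mem_normalizer_iff.1 hm.1 u).1 hu)) (hm.2 u hu)
    convert this using 1
    simp only [commutatorElement_def]; group⟩
  inv_mem' := fun {n} hn => ⟨inv_mem hn.1, fun u hu => by
    have := L.inv_mem (hn.2 _ ((mem_normalizer_iff.1 (inv_mem hn.1) u).1 hu))
    convert this using 1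
    simp only [commutatorElement_def]; group⟩

theorem mem_St : g ∈ St Q L ↔ g ∈ N[Q] ∧ ∀ u ∈ Q, ⁅g, u⁆ ∈ L := Iff.rfl

theorem le_St : A ≤ St Q L ↔ A ≤ N[Q] ∧ ⁅A, Q⁆ ≤ L :=
  ⟨fun h => ⟨fun _ ha => (h ha).1, commutator_le.2 fun _ ha => (h ha).2⟩,
    fun h _ ha => ⟨h.1 ha, fun _ hu => h.2 (commutator_mem_commutator ha hu)⟩⟩

theorem le_norm_St (h₁ : A ≤ N[Q]) (h₂ : A ≤ N[L]) : A ≤ N[St Q L] := by
  refine le_normalizer_iff_conj_le.2 fun g hg => conj_le_iff.2 fun n hn => ⟨?_, fun u hu => ?_⟩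
  · exact mul_mem (mul_mem (h₁ hg) hn.1) (inv_mem (h₁ hg))
  · have := CoprimeBasic.conj_mem_of_le_normalizer h₂ hg (hn.2 _ (CoprimeBasic.conj_inv_mem_of_le_normalizer h₁ hg hu))
    convert this using 1
    simp only [commutatorElement_def]; group

theorem le_norm_zpowers (h : A ≤ c[x]) : A ≤ N[zpowers x] :=
  le_normalizer_of_le_centralizer (by rwa [centralizer_zpowers_eq])

theorem comm_le_of_relIndex (hp : p.Prime) (hQ : IsPGroup p Q) (h₁ : X ≤ V) (h₂ : V ≤ N[X])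
    (h₃ : Q ≤ N[X]) (h₄ : Q ≤ N[V]) (hi : X.relIndex V = p) : ⁅Q, V⁆ ≤ X :=
  (quo_le_cent_iff h₃ h₂).1 (le_cent_of_card_eq_prime hp (isPGroup_pim hQ _)
    ((card_quo h₂).trans hi) (pim_norm h₄))

theorem exists_W (hp : p.Prime) (h2 : p ≠ 2) (hr : prank p Q ≤ 2) (hQ : IsPGroup p Q) (hx : x ∈ Q)
    (ho : orderOf x = p) (hc : Q ≤ c[x]) (hnc : ¬ IsCyclic Q) :
    ∃ W, x ∈ W ∧ W ≤ Q ∧ N[Q] ⊓ c[x] ≤ N[W] ∧ ⁅W, Q⁆ ≤ zpowers x ∧ (EA p 2 Q W ∨ P3 p W) := by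
  have hX := ea_zpowers hp hx ho
  have hXc : zpowers x ≤ C[Q] := le_cent_comm.1 (by rwa [centralizer_zpowers_eq])
  obtain ⟨F, hF⟩ := exists_ea_two_of_not_cyclic hp h2 hQ hnc
  obtain ⟨y, hy, h3⟩ := SetLike.not_le_iff_exists.1 (hF.not_le_of_lt hp hX one_lt_two)
  obtain ⟨B, hB, h4, h5⟩ := exists_normal_ea_succ hp h2 hQ (.refl Q) hX (le_norm_zpowers hc)
    ⟨y, ⟨hF.le hy, le_cent_comm.1 hXc (hF.le hy)⟩, hF.pow_eq_one hy, h3⟩
  have h6 : ⁅Q ⊓ St Q (zpowers x), Q⁆ ≤ zpowers x :=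
    (commutator_mono inf_le_right le_rfl).trans (le_St.1 le_rfl).2
  have h7 := omega_pow_of_class hp h2 (hQ.to_inf_left (K := St Q (zpowers x))) (.inl
    (((commutator_mono le_rfl inf_le_left).trans h6).trans (hXc.trans
      (centralizer_le (SetLike.coe_subset_coe.2 inf_le_left)))))
  have h8 : B ≤ omegaOne p (Q ⊓ St Q (zpowers x)) := (hB.of_le (le_inf hB.le (le_St.2
    ⟨hB.le.trans le_normalizer, commutator_comm Q B ▸ comm_le_of_relIndex hp hQ h5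
      (hB.le.trans (le_norm_zpowers hc)) (le_norm_zpowers hc) h4
      (by simpa using hB.relIndex hp hX h5)⟩))).le_omegaOne
  have h9 := (omegaOne_le p (Q ⊓ St Q (zpowers x))).trans inf_le_left
  refine ⟨_, h8 (h5 (mem_zpowers x)), h9, le_normalizer_omegaOne (le_normalizer_inf inf_le_left
    (le_norm_St inf_le_left (le_norm_zpowers inf_le_right))),
    (commutator_mono (omegaOne_le _ _) le_rfl).trans h6, ?_⟩
  rcases h8.eq_or_lt with e | e
  · exact .inl (e ▸ hB)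
  obtain ⟨k, hk, hk'⟩ := (Nat.dvd_prime_pow hp).1
    (rank2_exponent_p hp ((prank_mono hp h9).trans hr) h7)
  have h10 := card_lt_of_lt e
  rw [hB.card, hk', Nat.pow_lt_pow_iff_right hp.one_lt] at h10
  obtain rfl : k = 3 := by omega
  refine .inr ⟨hk', fun h => ?_, h7⟩
  exact (prank_le_iff' hp).1 hr _ ⟨h9, ⟨h, h7⟩, hk'⟩

theorem omega_cent (hp : p.Prime) (hr : prank p Q ≤ 2) (hV : EA p 2 Q V) :
    ∀ a ∈ Q, a ∈ C[V] → a ^ p = 1 → a ∈ V := fun _ h1 h2 h3 => (hV.eamax hp hr).mem h1 h2 h3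

theorem le_cent_of_ea (hp : p.Prime) (h2 : p ≠ 2) (hr : prank p Q ≤ 2) (hQ : IsPGroup p Q)
    (hV : EA p 2 Q V) (hB : B ≤ N[Q]) (hc : (Nat.card B).Coprime p) (h : B ≤ C[V]) :
    B ≤ C[Q] := by
  have h1 : V ≤ Q ⊓ C[V] := le_inf hV.le hV.le_cent
  refine cop_le_cent_of_self_cent hp hQ hc hB inf_le_left (cop_le_cent_of_omega hp h2 hQ.to_inf_left
    hc (le_normalizer_inf hB (le_normalizer_centralizer (le_normalizer_of_le_centralizer h))) ?_)
    (inf_le_inf_left _ (centralizer_le (SetLike.coe_subset_coe.2 h1)))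
  rwa [(hV.eamax hp hr).omegaOne_eq]

/-- the structure of `Q` when `W` is extraspecial -/
theorem p3_struct (hp : p.Prime) (h2 : p ≠ 2) (hr : prank p Q ≤ 2) (hQ : IsPGroup p Q)
    (ho : orderOf x = p) (hW : W ≤ Q) (h : ⁅W, Q⁆ ≤ zpowers x) (h3 : P3 p W) :
    ⁅W, W⁆ = zpowers x ∧ W ⊔ (Q ⊓ C[W]) = Q ∧ IsCyclic ↥(Q ⊓ C[W]) := by
  have h1 : ⁅W, W⁆ = zpowers x := eq_of_le_of_card_eq ((commutator_mono le_rfl hW).trans h)
    (by rw [(h3.ea_der hp).card_one, Nat.card_zpowers, ho])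
  refine ⟨h1, h3.sup_cent hp hQ hW (h1 ▸ h), ?_⟩
  by_contra hn
  obtain ⟨F, hF⟩ := exists_ea_two_of_not_cyclic hp h2 hQ.to_inf_left hn
  refine h3.2.1 (comm_iff_le_cent.2 fun a ha => ?_)
  have hF' := hF.mono inf_le_left
  have h4 : W ≤ F := fun a ha => omega_cent hp hr hF' a (hW ha)
    (le_cent_comm.1 (hF.le.trans inf_le_right) ha) (h3.2.2 a ha)
  exact le_cent_of_comm hF.comm h4 h4 ha

theorem pow_mem_center (hp : p.Prime) (hC : C ≤ P) (hi : C.relIndex P = p)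
    (hab : IsMulCommutative C) (hg : g ∈ P) (hg' : g ∉ C) (h : g ^ n ∈ C) : g ^ n ∈ C[P] := by
  rw [← eq_sup_zpowers_of_relIndex_prime (hi ▸ hp) hC hg hg', centralizer_sup]
  exact ⟨comm_iff_le_cent.1 hab h, by
    rw [centralizer_zpowers_eq]; exact mem_cent1.2 (pow_mul_comm' g n)⟩

/-- transfer into an abelian subgroup of index `p` -/
theorem pow_eq_one_of_not_mem (hp : p.Prime) (hP : IsPGroup p P) (hC : C ≤ P)
    (hi : C.relIndex P = p) (hab : IsMulCommutative C) (hB : B ≤ N[P]) (hBC : B ≤ N[C])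
    (e : ⁅P, B⁆ = P) (hZ : P ⊓ C[P] ≤ C[B]) : ∀ g ∈ P, g ∉ C → g ^ p = 1 := by
  have hN := normalIn_of_relIndex_eq hp hP hC hi
  obtain ⟨f, h1⟩ : ∃ f : P →* G, ∀ g (hg : g ∈ P), g ∉ C → f ⟨g, hg⟩ = g ^ p := by
    letI : CommGroup C := { (inferInstance : Group C) with mul_comm := hab.1.1 }
    refine ⟨C.subtype.comp (MonoidHom.transfer (subgroupOfEquivOfLe hC).toMonoidHom),
      fun g hg hg' => ?_⟩
    have := MonoidHom.transfer_eq_pow (subgroupOfEquivOfLe hC).toMonoidHom ⟨g, hg⟩ fun k g₀ h => by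
      have h3 : g ^ k ∈ C := by
        simpa [mul_assoc] using hN.conj_mem g₀.2 (mem_subgroupOf.1 h)
      have h4 := pow_mem_center hp hC hi hab hg hg' h3 g₀ g₀.2
      apply Subtype.ext
      simp only [coe_mul, coe_inv, coe_pow]
      rw [mul_assoc, ← h4, inv_mul_cancel_left]
    rw [← hi]
    exact congrArg Subtype.val this
  have h2 : ∀ g ∈ P, g ∉ C → g ^ p ∈ C := fun g hg _ => by
    haveI := hN.normal_subgroupOf
    rw [← hi]
    exact mem_subgroupOf.1 ((C.subgroupOf P).pow_index_mem ⟨g, hg⟩)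
  have h3 : ∀ b (hb : b ∈ B) g (hg : g ∈ P), g ∉ C →
      f ⟨_, CoprimeBasic.conj_mem_of_le_normalizer hB hb hg⟩ = f ⟨g, hg⟩ := fun b hb g hg hg' => by
    rw [h1 g hg hg', h1 _ _ fun h => hg' ((mem_normalizer_iff.1 (hBC hb) g).2 h), conj_pow,
      hZ ⟨P.pow_mem hg p, pow_mem_center hp hC hi hab hg hg' (h2 g hg hg')⟩ b hb,
      mul_inv_cancel_right]
  obtain ⟨s, hs, hs'⟩ := SetLike.not_le_iff_exists.1 fun h : P ≤ C =>
    hp.ne_one (hi.symm.trans (relIndex_eq_one.2 h))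
  have h4 : ∀ b (hb : b ∈ B) g (hg : g ∈ P),
      f ⟨_, CoprimeBasic.conj_mem_of_le_normalizer hB hb hg⟩ = f ⟨g, hg⟩ := fun b hb g hg => by
    by_cases hg' : g ∈ C
    · have a1 := h3 b hb _ (P.mul_mem hg hs) fun h => hs' ((C.mul_mem_cancel_left hg').1 h)
      have a2 : f ⟨_, P.mul_mem hg hs⟩ = f ⟨g, hg⟩ * f ⟨s, hs⟩ := map_mul f ⟨g, hg⟩ ⟨s, hs⟩
      rw [a2, ← h3 b hb s hs hs'] at a1
      refine mul_right_cancel (Eq.trans ?_ a1)
      rw [← map_mul]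
      exact congrArg f (Subtype.ext (by simp [mul_assoc]))
    · exact h3 b hb g hg hg'
  have h5 : ⁅B, P⁆ ≤ pker f := commutator_le.2 fun b hb g hg => by
    refine mem_pker.2 ⟨P.mul_mem (CoprimeBasic.conj_mem_of_le_normalizer hB hb hg) (P.inv_mem hg), ?_⟩
    refine (map_mul f ⟨_, CoprimeBasic.conj_mem_of_le_normalizer hB hb hg⟩ ⟨g, hg⟩⁻¹).trans ?_
    rw [h4 b hb g hg, map_inv, mul_inv_cancel]
  intro g hg hg'
  rw [commutator_comm, e] at h5
  exact (h1 g hg hg').symm.trans ((mem_pker_iff hg).1 (h5 hg))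

/-- the possible Sylow subgroups -/
def Concl (p : ℕ) (P : Subgroup G) : Prop :=
  P3 p P ∨ p = 3 ∧ ∃ k, 2 ≤ k ∧ Nat.card P = 3 ^ (2 * k + 1) ∧ P.lowerCentralSeries (2 * k) = ⊥ ∧
    P.lowerCentralSeries (2 * k - 1) ≠ ⊥

theorem max_class {w : G} (hP : IsPGroup 3 P) (hC : C ≤ P) (hi : C.relIndex P = 3)
    (hab : IsMulCommutative C) (hs : s ∈ P) (hs' : s ∉ C) (h3 : ∀ g ∈ P, g ∉ C → g ^ 3 = 1)
    (hX : C ⊓ c[s] = zpowers x) (ho : orderOf x = 3) (hw : w ∈ C) (hx : x ∉ zpowers w)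
    (hD : C ≤ zpowers w ⊔ ⁅P, P⁆) : Concl 3 P := by
  have hp := Nat.prime_three
  have hN := normalIn_of_relIndex_eq hp hP hC hi
  have hPs := eq_sup_zpowers_of_relIndex_prime (hi ▸ hp) hC hs hs'
  have hc : ∀ a ∈ C, ∀ b ∈ C, a * b = b * a := fun a ha b hb => comm_iff_le_cent.1 hab hb a ha
  let τ : C →* G := MonoidHom.mk' (fun c => ⁅s, (c : G)⁆) fun a b => by
    have := hc _ (hN.conj_mem hs b.2) _ (C.mul_mem (C.inv_mem b.2) (C.inv_mem a.2))
    have h' := hc _ (C.inv_mem a.2) _ (C.mul_mem (hN.conj_mem hs b.2) (C.inv_mem b.2))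
    simp only [commutatorElement_def, coe_mul]
    calc _ = s * a * s⁻¹ * ((s * b * s⁻¹ * (b : G)⁻¹) * (a : G)⁻¹) := by group
      _ = _ := by rw [← h']; group
  have hk : pker τ = zpowers x := by
    rw [← hX]
    ext a
    refine ⟨fun h => ⟨pker_le τ h, ?_⟩, fun h => (mem_pker_iff h.1).2 ?_⟩
    · exact mem_cent1.2 (commutatorElement_eq_one_iff_mul_comm.1
        ((mem_pker_iff (pker_le τ h)).1 h)).symm
    · exact commutatorElement_eq_one_iff_mul_comm.2 (mem_cent1.1 h.2).symm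
  let T : ℕ → Subgroup G := fun j => Nat.rec C (fun _ T => ⁅T, P⁆) j
  have t1 : ∀ j, NormalIn (T j) P ∧ T j ≤ C := fun j => by
    induction j with
    | zero => exact ⟨hN, le_rfl⟩
    | succ j ih => exact ⟨ih.1.comm (.refl P), (ih.1.comm_le le_rfl).trans ih.2⟩
  have t2 : ∀ j y, y ∈ T (j + 1) ↔ ∃ t ∈ T j, ⁅s, t⁆ = y := fun j y => by
    have h1 : ⁅T j, P⁆ = pim τ (T j) := by
      rw [commutator_comm]
      refine le_antisymm (le_St.1 (hPs.ge.trans (sup_le (le_St.2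
        ⟨hC.trans (t1 j).1.norm, ?_⟩) (zpowers_le.2 ⟨(t1 j).1.norm hs, fun t ht => ?_⟩)))).2 ?_
      · exact (commutator_eq_bot_iff_le_centralizer.2
          (le_cent_of_comm hab le_rfl (t1 j).2)).le.trans bot_le
      · exact apply_mem_pim (f := τ) ((t1 j).2 ht) ht
      · intro y hy
        obtain ⟨t, _, ht, rfl⟩ := mem_pim.1 hy
        exact commutator_mem_commutator hs ht
    refine (SetLike.ext_iff.1 h1 y).trans (mem_pim.trans ⟨fun ⟨t, _, h, e⟩ => ⟨t, h, e⟩,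
      fun ⟨t, h, e⟩ => ⟨t, (t1 j).2 h, h, e⟩⟩)
  have t2' : ∀ j, T (j + 1) = pim τ (T j) := fun j => by
    ext y
    exact (t2 j y).trans ⟨fun ⟨t, h, e⟩ => mem_pim.2 ⟨t, (t1 j).2 h, h, e⟩,
      fun h => let ⟨t, _, h, e⟩ := mem_pim.1 h; ⟨t, h, e⟩⟩
  have hX3 : Nat.card (zpowers x) = 3 := by rw [Nat.card_zpowers, ho]
  have t3 : ∀ j, T j ≠ ⊥ → zpowers x ≤ T j := fun j h => by
    have h1 := inf_cent_ne_bot_of_nil (nil_of_isPGroup hp hP) (t1 j).1 h
    have h2 : T j ⊓ C[P] ≤ zpowers x := hX ▸ inf_le_inf (t1 j).2 (cent_le_cent1 hs)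
    exact ((eq_bot_or_eq_of_card_prime (hX3 ▸ hp) h2).resolve_left h1).ge.trans inf_le_left
  have t4 : ∀ j, T (j + 1) = P.lowerCentralSeries (j + 1) := fun j => by
    induction j with
    | zero =>
      refine le_antisymm (commutator_mono hC le_rfl) ((comm_quo_iff (t1 1).1.norm).1
        (comm_of_le_sup_zpowers (A := C /ₙ T 1) (x := qmap _ ⟨s, (t1 1).1.norm hs⟩)
        ((quo_le_cent_iff (hC.trans (t1 1).1.norm) (t1 1).1.norm).2 le_rfl) (pim_mono _ hC)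
        (apply_mem_pim _ hs) ?_))
      rw [← pim_zpowers, ← pim_sup (hC.trans (t1 1).1.norm) (zpowers_le.2 ((t1 1).1.norm hs)), hPs]
    | succ j ih => rw [Subgroup.lowerCentralSeries_succ, ← ih]
  have t5 : ∃ m, T m = ⊥ := by
    haveI := nil_of_isPGroup hp hP
    exact ⟨_ + 1, (t4 _).trans
      (lowerCentralSeries_eq_bot_of_nilpotencyClass_le (Nat.le_succ _))⟩
  obtain ⟨m, hm, hm'⟩ : ∃ m, T m = ⊥ ∧ ∀ j < m, T j ≠ ⊥ := by
    classical exact ⟨Nat.find t5, Nat.find_spec t5, fun j => Nat.find_min t5⟩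
  have t6 : ∀ j ≤ m, Nat.card C = 3 ^ j * Nat.card ↥(T j) := fun j => by
    induction j with
    | zero => exact fun _ => (one_mul _).symm
    | succ j ih =>
      intro h
      have := card_pim_mul (f := τ) (t1 j).2
      rw [hk, inf_eq_right.2 (t3 j (hm' j h)), hX3, ← t2'] at this
      rw [ih (Nat.le_of_succ_le h), ← this]; ring
  have t7 : ∀ c ∈ C, ⁅s, ⁅s, c⁆⁆ = (s * c * s⁻¹)⁻¹ ^ 3 := fun c hc' => by
    have a1 := h3 _ (P.mul_mem (hC hc') hs) fun h => hs' ((C.mul_mem_cancel_left hc').1 h)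
    have a2 : s * (s * c * s⁻¹) * s⁻¹ = (s * c * s⁻¹)⁻¹ * c⁻¹ := by
      rw [← mul_inv_rev, eq_inv_iff_mul_eq_one, ← mul_inv_eq_one.2 (a1.trans (h3 s hs hs').symm),
        ← hc _ (C.mul_mem hc' (hN.conj_mem hs hc')) _ (hN.conj_mem hs (hN.conj_mem hs hc'))]
      simp only [pow_succ]; group
    have a3 := hc _ (C.inv_mem hc') _ (C.inv_mem (hN.conj_mem hs hc'))
    calc _ = s * (s * c * s⁻¹) * s⁻¹ * (s * c * s⁻¹)⁻¹ * c * (s * c * s⁻¹)⁻¹ := by
          simp only [commutatorElement_def]; group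
      _ = (s * c * s⁻¹)⁻¹ * (c⁻¹ * (s * c * s⁻¹)⁻¹) * c * (s * c * s⁻¹)⁻¹ := by rw [a2]; group
      _ = _ := by rw [a3]; simp only [pow_succ]; group
  have t8 : ∀ k j y, y ∈ T (j + 2 * k) ↔ ∃ t ∈ T j, t ^ 3 ^ k = y := fun k => by
    induction k with
    | zero => exact fun j y => by simp
    | succ k ih =>
      intro j y
      rw [show j + 2 * (k + 1) = j + 2 + 2 * k by ring, ih]
      constructor
      · rintro ⟨_, h, rfl⟩
        obtain ⟨_, h', rfl⟩ := (t2 (j + 1) _).1 h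
        obtain ⟨t, ht, rfl⟩ := (t2 j _).1 h'
        exact ⟨_, inv_mem ((t1 j).1.conj_mem hs ht),
          by rw [t7 t ((t1 j).2 ht), ← pow_mul, pow_succ']⟩
      · rintro ⟨t, h, rfl⟩
        have h1 := (t1 j).1.conj_mem (P.inv_mem hs) (inv_mem h)
        refine ⟨_, (t2 (j + 1) _).2 ⟨_, (t2 j _).2 ⟨_, h1, rfl⟩, rfl⟩, ?_⟩
        rw [t7 _ ((t1 j).2 h1), ← pow_mul, pow_succ']
        congr 1; group
  have hxC : x ∈ C := (hX.ge (mem_zpowers x)).1
  have hCm := t6 m le_rfl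
  rw [hm, card_bot, mul_one] at hCm
  have hPm : Nat.card P = 3 ^ (m + 1) := by rw [← card_mul_relIndex hC, hi, hCm, pow_succ]
  obtain ⟨k, rfl | rfl⟩ := Nat.even_or_odd' m
  · rcases Nat.lt_or_ge k 2 with h | h
    · interval_cases k
      · exact absurd (mem_bot.1 (hm.le hxC)) fun e => by simp [e] at ho
      refine .inl ⟨hPm, fun h => ?_, fun g hg => ?_⟩
      · rw [← inf_eq_left.2 ((le_cent_of_comm h hC le_rfl).trans (cent_le_cent1 hs)), hX, hX3] at hCm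
        norm_num at hCm
      · by_cases hg' : g ∈ C
        · exact mem_bot.1 (hm.le ((t8 1 0 _).2 ⟨g, hg', by norm_num⟩))
        · exact h3 g hg hg'
    · refine .inr ⟨rfl, k, h, hPm, ?_, ?_⟩
      · obtain ⟨j, hj⟩ : ∃ j, 2 * k = j + 1 := ⟨2 * k - 1, by omega⟩
        rw [hj] at hm ⊢
        exact (t4 j).symm.trans hm
      · obtain ⟨j, hj⟩ : ∃ j, 2 * k - 1 = j + 1 := ⟨2 * k - 2, by omega⟩
        rw [hj, ← t4]
        exact hm' (j + 1) (by omega)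
  · obtain ⟨c, h1, e⟩ := (t8 k 0 x).1 (by
      simpa using t3 _ (hm' (2 * k) (Nat.lt_succ_self _)) (mem_zpowers x))
    obtain ⟨a, ha, t, ht, rfl⟩ := ((NormalIn.der P).mem_sup' (zpowers_le.2 (hC hw))).1 (hD h1)
    have h4 : t ∈ T 1 := (t4 0).ge ht
    have h5 : t ^ 3 ^ k = 1 := mem_bot.1 (hm.le (add_comm 1 _ ▸ (t8 k 1 _).2 ⟨t, h4, rfl⟩))
    rw [Commute.mul_pow (hc _ (zpowers_le.2 hw ha) _ ((t1 1).2 h4)), h5, mul_one] at e
    exact absurd (e ▸ pow_mem ha _) hx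

theorem le_cent_of_cyc (hp : p.Prime) (hZ : IsPGroup p Z) (h : IsCyclic Z) (hx : x ∈ Z)
    (ho : orderOf x = p) (hB : B ≤ N[Z]) (hc : (Nat.card B).Coprime p) (hBx : B ≤ c[x]) :
    B ≤ C[Z] :=
  (cop_cyclic_pgroup hp hZ h hB hc).resolve_right fun e => hp.ne_one (by
    rw [← ho, mem_bot.1 (e.le ⟨hx, le_cent1_iff.1 hBx⟩), orderOf_one])

theorem pgroup (hp : p.Prime) (h2 : p ≠ 2) (hr : prank p P ≤ 2) (hP : IsPGroup p P) (hx : x ∈ P)
    (ho : orderOf x = p) (hc : P ≤ c[x]) (hB : B ≤ N[P]) (hcop : (Nat.card B).Coprime p)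
    (hBx : B ≤ c[x]) (e : ⁅P, B⁆ = P) : Concl p P := by
  have hx1 : x ≠ 1 := fun h => hp.ne_one (by rw [← ho, h, orderOf_one])
  have hxp : x ^ p = 1 := ho ▸ pow_orderOf_eq_one x
  have hBP : ¬ B ≤ C[P] := fun h => hx1 (mem_bot.1
    ((e.symm.trans (commutator_eq_bot_iff_le_centralizer.2 (le_cent_comm.1 h))).le hx))
  obtain ⟨V, hxV, hVP, hN, hcm, hV | hV⟩ := exists_W hp h2 hr hP hx ho hc fun h =>
    hBP (le_cent_of_cyc hp hP h hx ho hB hcop hBx)
  swap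
  · obtain ⟨-, h1, h3⟩ := p3_struct hp h2 hr hP ho hVP hcm hV
    have hBV := (le_inf hB hBx).trans hN
    have h4 := le_cent_of_cyc hp hP.to_inf_left h3 ⟨hx, le_cent1_iff.1 (hVP.trans hc)⟩ ho
      (le_normalizer_inf hB (le_normalizer_centralizer hBV)) hcop hBx
    have h5 : ⁅V ⊔ (P ⊓ C[V]), B⁆ ≤ V := by
      rw [commutator_comm]
      exact commutator_sup_le le_normalizer (inf_le_right.trans (centralizer_le_normalizer _))
        (commutator_le_right_of_le_normalizer hBV)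
        ((commutator_eq_bot_iff_le_centralizer.2 h4).le.trans bot_le)
    rw [h1, e] at h5
    exact .inl (le_antisymm hVP h5 ▸ hV)
  have hBV := (le_inf hB hBx).trans hN
  have hPV := (le_inf le_normalizer hc).trans hN
  obtain ⟨C, hC⟩ : ∃ C, C = P ⊓ C[V] := ⟨_, rfl⟩
  have hCP : C ≤ P := hC ▸ inf_le_left
  have hCV : C ≤ C[V] := hC ▸ inf_le_right
  have hCN : NormalIn C P := hC ▸ (NormalIn.refl P).inf_norm (le_normalizer_centralizer hPV)
  have hBC : B ≤ N[C] := hC ▸ le_normalizer_inf hB (le_normalizer_centralizer hBV)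
  have hVC : V ≤ C := hC ▸ le_inf hVP hV.le_cent
  have hCp := hP.to_le hCP
  have hcop' := coprime_of_isPGroup_left hp hCp hcop
  have om : ∀ a ∈ C, a ^ p = 1 → a ∈ V := fun a h => omega_cent hp hr hV a (hCP h) (hCV h)
  have cyc : ∀ A ≤ C, ¬ V ≤ A → IsCyclic A := fun A h1 h3 => by
    by_contra h
    obtain ⟨F, hF⟩ := exists_ea_two_of_not_cyclic hp h2 (hCp.to_le h1) h
    exact h3 ((hF.eq_of_le hV fun a ha => om a (h1 (hF.le ha)) (hF.pow_eq_one ha)).ge.trans hF.le)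
  have hDC : ⁅C, B⁆ ≤ C := commutator_le_left_of_le_normalizer hBC
  have hxD : x ∉ ⁅C, B⁆ := fun h => hx1 (pc_fix hp h2 _ rfl (hCp.to_le hDC)
    (le_normalizer_commutator hBC le_normalizer) hcop (cop_comm_comm hBC hcop')
    (fun a h1 h3 => le_cent_comm.1 (hDC.trans hCV) (om a (hDC h1) h3)) ((FTDefs.card_le_of_le
      (omegaOne_le_iff.2 fun a h1 => om a (hDC h1))).trans hV.card.le) x h (le_cent1_iff.1 hBx) hxp)
  have hD := cyc _ hDC fun h => hxD (h hxV)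
  have hPC : ¬ P ≤ C := fun h => hxD (by rw [le_antisymm hCP h, e]; exact hx)
  have hPV' : ¬ P ≤ C[V] := fun h => hPC (hC ▸ le_inf le_rfl h)
  have hi : C.relIndex P = p := by
    rw [hC, inf_relIndex_left]
    exact ((Nat.dvd_prime hp).1 (relIndex_cent_dvd_prime hp hV.elem hV.card.dvd hP hPV)).resolve_left
      fun h => hPV' (relIndex_eq_one.1 h)
  have hU := cyc (C ⊓ C[B]) inf_le_left fun h =>
    hBP (le_cent_of_ea hp h2 hr hP hV hB hcop (le_cent_comm.1 (h.trans inf_le_right)))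
  have hDU := cop_comm_sup_cent hBC hcop' (.inr (solv_of_isPGroup hp hCp))
  obtain ⟨s, hs, hs'⟩ := SetLike.not_le_iff_exists.1 hPC
  have hX := ea_zpowers hp hxV ho
  have h1 : ⁅C, B⁆ ⊓ ⁅C, B⁆ ^ᶜ s = ⊥ := by
    by_contra h
    obtain ⟨Y, hY⟩ := exists_ea_one_of_isPGroup hp (hCp.to_le (inf_le_left.trans hDC)) h
    have a1 := hY.le.trans inf_le_left
    have a2 : Y ^ᶜ s⁻¹ = Y := CyclicPGroup.eq_of_card_eq_of_le_cyclic
      (le_conj_iff_conj_inv_le.1 (hY.le.trans inf_le_right)) a1 (card_conj _ _)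
    have a3 := le_cent_of_card_eq_prime hp (hP.to_le (zpowers_le.2 (P.inv_mem hs))) hY.card_one
      (zpowers_le.2 (mem_normalizer_iff_conj_eq.2 a2))
    have a4 := hV.dp_of_ne hp hX (hY.of_le fun a ha => om a (hDC (a1 ha)) (hY.pow_eq_one ha))
      fun h => hxD (a1 (h.le (mem_zpowers x)))
    refine hs' (hC ▸ ⟨hs, ?_⟩)
    rw [← a4.sup, centralizer_sup, centralizer_zpowers_eq]
    exact ⟨hc hs, (C[Y]).inv_mem_iff.1 (a3 (mem_zpowers _))⟩
  have hab : IsMulCommutative C := by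
    obtain ⟨u, hu⟩ := cyclic_iff_zpowers.1 hU
    have a1 : ⁅C, C⁆ ≤ ⁅C, B⁆ := der_le_of_cyclic_quo (normalizer_commutator_ge_left C B)
      (hu.le (mem_zpowers u)).1 (by rw [hu, hDU])
    refine comm_iff_der_eq_bot.2 (le_bot_iff.1 (h1 ▸ le_inf a1 ?_))
    rw [← (hCN.comm hCN).conj_eq hs]
    exact conj_mono s a1
  have hZC : P ⊓ C[P] ≤ C := hC ▸ inf_le_inf_left _ (centralizer_le (SetLike.coe_subset_coe.2 hVP))
  have hZ := le_cent_of_cyc hp hP.to_inf_left (cyc _ hZC fun h => hPV' (le_cent_comm.1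
    (h.trans inf_le_right))) ⟨hx, le_cent1_iff.1 hc⟩ ho
    (hB.trans (normalizer_le_normalizer_center P)) hcop hBx
  have h3 := pow_eq_one_of_not_mem hp hP hCP hi hab hB hBC e (le_cent_comm.1 hZ)
  have h4 : ∀ g ∈ C, g * s ∉ C := fun g hg h => hs' ((C.mul_mem_cancel_left hg).1 h)
  rcases eq_or_lt_of_le (Nat.succ_le_of_lt (hp.two_le.lt_of_ne' h2)) with rfl | h
  · obtain ⟨w, hw⟩ := cyclic_iff_zpowers.1 hD
    refine max_class hP hCP hi hab hs hs' h3 (le_antisymm (fun z hz => ?_)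
      (zpowers_le.2 ⟨hVC hxV, mem_cent1_comm.1 (hc hs)⟩)) ho (hDC (hw.le (mem_zpowers w)))
      (hw ▸ hxD) (hDU.ge.trans (sup_le_sup hw.ge ((inf_le_inf_right _ hCP).trans
        (cop_inf_cent_le_der hB (coprime_of_isPGroup_left hp hP hcop) e))))
    have a1 := h3 _ (P.mul_mem (hCP hz.1) hs) (h4 z hz.1)
    rw [Commute.mul_pow (mem_cent1.1 hz.2), h3 s hs hs', mul_one] at a1
    by_contra a2
    refine hPV' (le_cent_comm.1 ?_)
    rw [← eq_sup_zpowers_of_relIndex_prime (A := zpowers x) (by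
      simpa [hV.relIndex hp hX hX.le] using hp) hX.le (om z hz.1 a1) a2]
    refine sup_le (zpowers_le.2 (le_cent1_iff.1 hc)) (zpowers_le.2 ?_)
    rw [← eq_sup_zpowers_of_relIndex_prime (hi ▸ hp) hCP hs hs', centralizer_sup,
      centralizer_zpowers_eq]
    exact ⟨comm_iff_le_cent.1 hab hz.1, hz.2⟩
  · have a1 : ∀ g ∈ P, g ^ p = 1 := fun g hg => by
      refine omega_pow_of_rank2 hp h hP hr g ?_
      by_cases hg' : g ∈ C
      · exact (mul_mem_cancel_right (mem_omegaOne hs (h3 s hs hs'))).1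
          (mem_omegaOne (P.mul_mem hg hs) (h3 _ (P.mul_mem hg hs) (h4 g hg')))
      · exact mem_omegaOne hg (h3 g hg hg')
    refine .inl ⟨Nat.dvd_antisymm (rank2_exponent_p hp hr a1) ?_,
      fun h => hPV' (le_cent_of_comm h le_rfl hVP), a1⟩
    rw [← card_mul_relIndex hCP, hi, pow_succ]
    exact Nat.mul_dvd_mul_right (hV.of_le hVC).pow_dvd p

end Cfsg.Agent.Lib.IsoRk2
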