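import Mathlib
import Cfsg.Agent.Lib.IsoRk2a
import Cfsg.Agent.Lib.LocIsolated

/-!
Isolated elements of odd prime order `p` in groups of `p`-rank at most two: fusion.
-/

set_option autoImplicit false
set_option linter.unusedSectionVars false
set_option linter.style.haveILetI false

namespace Cfsg.Agent.Lib.IsoRk2

open Subgroup Cfsg.Agent.Lib.PCoreConj Cfsg.Agent.Lib.PCore Cfsg.Agent.Lib.PCoreResidual
  Cfsg.Agent.Lib.PCoreMod Cfsg.Agent.Lib.FTDefs
open Cfsg.Agent.Lib.TransferAlperin (IsExtremal IsCentricRadical alperin_essential)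
open scoped commutatorElement

variable {G : Type} [Group G] [Finite G] {p n : ℕ}
  {A A' B C D E H K L M N P Q R S T U V W X Z : Subgroup G} {x y z u v a b g s t t' h r : G}

theorem exists_inverting (hp : p.Prime) (hE : EA p 2 L E) (hA : EA p 1 E A) (hA' : EA p 1 E A')
    (hne : A ≠ A') (h1 : t ∈ C[A]) (h1' : t' ∈ C[A']) (h2 : ∀ e ∈ E, ⁅t, e⁆ ∈ A)
    (h2' : ∀ e ∈ E, ⁅t', e⁆ ∈ A') (h3 : t ∉ C[E]) (h3' : t' ∉ C[E]) (ht : t ∈ M) (ht' : t' ∈ M) :
    ∃ h ∈ M, ∀ e ∈ E, h * e * h⁻¹ = e⁻¹ := by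
  have hd := hE.dp_of_ne hp hA hA' hne
  obtain ⟨b, hb, hb1⟩ := exists_mem_ne_one (hA'.ne_bot_one hp)
  have eb := zpowers_eq_of_card_prime (hA'.card_prime hp) hb hb1
  have ha := h2 b (hA'.le hb)
  have ha1 : ⁅t, b⁆ ≠ 1 := fun e => h3 (by
    rw [← hd.sup, centralizer_sup, ← eb, centralizer_zpowers_eq]
    exact ⟨h1, mem_cent1.2 (commutatorElement_eq_one_iff_mul_comm.1 e)⟩)
  have tb : t * b * t⁻¹ = ⁅t, b⁆ * b := by rw [commutatorElement_def]; group
  generalize ⁅t, b⁆ = a at ha ha1 tb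
  have ea := zpowers_eq_of_card_prime (hA.card_prime hp) ha ha1
  have hc := h2' a (hA.le ha)
  have hc1 : ⁅t', a⁆ ≠ 1 := fun e => h3' (by
    rw [← hd.sup, centralizer_sup, ← ea, centralizer_zpowers_eq]
    exact ⟨mem_cent1.2 (commutatorElement_eq_one_iff_mul_comm.1 e), h1'⟩)
  have ta : t' * a * t'⁻¹ = ⁅t', a⁆ * a := by rw [commutatorElement_def]; group
  generalize ⁅t', a⁆ = c at hc hc1 ta
  obtain ⟨n, hn⟩ := mem_powers_iff_mem_zpowers.2
    ((zpowers_eq_of_card_prime (hA'.card_prime hp) hc hc1).ge (A'.inv_mem hb))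
  have sa : ∀ k : ℕ, t' ^ k * a * (t' ^ k)⁻¹ = c ^ k * a := fun k => by
    induction k with
    | zero => simp
    | succ k ih =>
      calc _ = t' * (t' ^ k * a * (t' ^ k)⁻¹) * t'⁻¹ := by rw [pow_succ']; group
        _ = t' * c ^ k * t'⁻¹ * (t' * a * t'⁻¹) := by rw [ih]; group
        _ = _ := by rw [ta, ← h1' _ (A'.pow_mem hc k), pow_succ]; group
  have sa' := sa n
  simp only at hn
  rw [hn] at sa'
  have sb : t' ^ n * b * (t' ^ n)⁻¹ = b := by
    rw [← (C[A']).pow_mem h1' n b hb, mul_inv_cancel_right]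
  have hs := M.pow_mem ht' n
  generalize t' ^ n = s at sa' sb hs
  have ta' : t * a * t⁻¹ = a := by rw [← h1 a ha, mul_inv_cancel_right]
  have ab : a * b = b * a := hd.cent hb a ha
  have wa : t * s * t * a * (t * s * t)⁻¹ = b⁻¹ :=
    calc _ = t * (s * (t * a * t⁻¹) * s⁻¹) * t⁻¹ := by group
      _ = (t * b * t⁻¹)⁻¹ * (t * a * t⁻¹) := by nth_rewrite 1 [ta']; rw [sa']; group
      _ = _ := by rw [tb, ta']; group
  have wb : t * s * t * b * (t * s * t)⁻¹ = a :=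
    calc _ = t * (s * (t * b * t⁻¹) * s⁻¹) * t⁻¹ := by group
      _ = t * ((s * a * s⁻¹) * (s * b * s⁻¹)) * t⁻¹ := by rw [tb]; group
      _ = _ := by rw [sa', sb, mul_assoc b⁻¹, ab, inv_mul_cancel_left, ta']
  have hw := M.mul_mem (M.mul_mem ht hs) ht
  generalize t * s * t = w at wa wb hw
  refine ⟨w * w, M.mul_mem hw hw, fun e he => ?_⟩
  obtain ⟨u, hu, v, hv, rfl⟩ := (mem_sup_iff_of_le_normalizer'
    (le_normalizer_of_le_centralizer hd.cent)).1 (hd.sup.ge he)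
  obtain ⟨i, rfl⟩ := ea.ge hu
  obtain ⟨j, rfl⟩ := eb.ge hv
  have e1 : w * w * a * (w * w)⁻¹ = a⁻¹ :=
    calc _ = w * (w * a * w⁻¹) * w⁻¹ := by group
      _ = (w * b * w⁻¹)⁻¹ := by rw [wa]; group
      _ = _ := by rw [wb]
  have e2 : w * w * b * (w * w)⁻¹ = b⁻¹ :=
    calc _ = w * (w * b * w⁻¹) * w⁻¹ := by group
      _ = _ := by rw [wb, wa]
  calc _ = w * w * a ^ i * (w * w)⁻¹ * (w * w * b ^ j * (w * w)⁻¹) := by group
    _ = _ := by
      rw [← conj_zpow, ← conj_zpow, e1, e2, inv_zpow, inv_zpow, ← mul_inv_rev, hd.cent hv _ hu]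

theorem comm_mem_cent (hh : ∀ e ∈ E, h * e * h⁻¹ = e⁻¹) (hr : r ∈ N[E]) : ⁅h, r⁆ ∈ C[E] := by
  intro e he
  have h1 := hh _ (E.inv_mem ((mem_normalizer_iff.1 (inv_mem hr) e).1 he))
  have h2 := hh _ (E.inv_mem he)
  simp only [inv_inv] at h1 h2
  calc _ = h * e⁻¹ * h⁻¹ * ⁅h, r⁆ := by rw [h2]
    _ = h * r * h⁻¹ * (h * (r⁻¹ * e * r)⁻¹ * h⁻¹) * r⁻¹ := by rw [commutatorElement_def]; group
    _ = _ := by rw [h1, commutatorElement_def]; group

theorem alperin_ind [Fact p.Prime] (P : Sylow p G) (L : Subgroup G)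
    (hP : N[(P : Subgroup G)] ≤ St P L)
    (hloc : ∀ H : Subgroup G, H < P → IsExtremal p (P : Subgroup G) H →
      IsCentricRadical (P : Subgroup G) H → N[H] ⊓ N[P ⊓ N[H]] ≤ St H L → N[H] ≤ St H L)
    (hu : u ∈ (P : Subgroup G)) (hg : g * u * g⁻¹ ∈ (P : Subgroup G)) : ⁅g, u⁆ ∈ L := by
  refine alperin_essential P (fun A g => ∀ u ∈ A, ⁅g, u⁆ ∈ L) (fun A B g h _ _ h' u hu => h' u (h hu))
    (fun A g h _ _ _ h1 h2 u hu => ?_) (fun n hn => (hP hn).2) (fun A _ c hc u hu => ?_)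
    (fun H M hHP hH hM hCM hM1 n hn => ?_) (zpowers u) g (zpowers_le.2 hu) ?_ u (mem_zpowers u)
  · have := L.mul_mem (h2 _ (conj_mem_conj h hu)) (h1 u hu)
    convert this using 1
    simp only [commutatorElement_def]; group
  · rw [commutatorElement_eq_one_iff_mul_comm.2 (hc u hu).symm]; exact L.one_mem
  · by_cases hcr : IsCentricRadical (P : Subgroup G) H
    · exact (hM n).mpr (hloc H hHP hH hcr (fun m hm => (hM m).1 (hM1 _
        (TransferAlperin.lt_inf_normalizer P.2 hHP) inf_le_left m hm.1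
        ((conj_eq_of_mem_normalizer hm.2).le.trans inf_le_left))) hn)
    · unfold IsCentricRadical at hcr
      push Not at hcr
      obtain ⟨X, hHX, hXN, hX, hsc, hnle⟩ := hcr
      have hlt : H < (P : Subgroup G) ⊓ X :=
        lt_of_le_of_ne (le_inf hH.1 hHX) fun h => hnle h.ge
      obtain ⟨x, hx, m, hm, rfl⟩ := hH.normalizer_le_sup P.2 hM1 hXN hX hlt hn
      obtain ⟨s, hs, c, hc, rfl⟩ := hsc x hx
      exact M.mul_mem (M.mul_mem (hM1 P hHP le_rfl s hs.2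
        (TransferAlperin.conjSub_of_mem hs.1).le) (hCM hc)) hm
  · rw [TransferAlperin.conjSub, MonoidHom.map_zpowers]
    exact zpowers_le.2 hg

theorem rad_le [Fact p.Prime] (hP : IsPGroup p P) (hH : IsExtremal p P Q)
    (hcr : IsCentricRadical P Q) (hN : N[Q] ≤ N[V]) (hx : N[Q] ≤ c[x]) (h1 : ⁅Q, V⁆ ≤ zpowers x)
    (h : ∀ B ≤ N[Q], (Nat.card B).Coprime p → ⁅B, V⁆ ≤ zpowers x → B ≤ C[Q]) :
    P ⊓ (N[Q] ⊓ St V (zpowers x)) ≤ Q := by
  have h2 := le_normalizer_inf le_normalizer (le_norm_St hN (le_norm_zpowers hx))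
  refine hcr _ (le_inf le_normalizer (le_St.2 ⟨le_normalizer.trans hN, h1⟩)) inf_le_left h2
    fun n hn => ?_
  obtain ⟨s, hs, c, hc, e⟩ := TransferFrobenius.exists_mul_of_coprime_mem (C := C[Q])
    (TransferAlperin.not_dvd_relIndex_inf_of_normal inf_le_right hP.to_inf_left hH.2 inf_le_left h2)
    (fun b hb ho => h _ (zpowers_le.2 hb.1) (by rwa [Nat.card_zpowers])
      (le_St.1 (zpowers_le.2 hb.2)).2 (mem_zpowers b)) hn
  exact ⟨s, hs.1.1, c, hc.1, e⟩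

theorem not_rad_of_ea [hp : Fact p.Prime] (h2 : p ≠ 2) (hr : prank p Q ≤ 2) (hP : IsPGroup p P)
    (hlt : Q < P) (hH : IsExtremal p P Q) (hcr : IsCentricRadical P Q) (hV : EA p 2 Q V)
    (hxV : x ∈ V) (ho : orderOf x = p) (hx : N[Q] ≤ c[x]) : ¬ N[Q] ≤ N[V] := fun hN => by
  have hX := ea_zpowers hp.1 hxV ho
  have h1 : ⁅P ⊓ N[Q], V⁆ ≤ zpowers x := comm_le_of_relIndex hp.1 hP.to_inf_left hX.le
    (le_norm_zpowers (hV.le.trans (le_normalizer.trans hx)))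
    (le_norm_zpowers (inf_le_right.trans hx)) (inf_le_right.trans hN)
    (by simpa using hV.relIndex hp.1 hX hX.le)
  refine (TransferAlperin.lt_inf_normalizer hP hlt).not_ge (le_trans (le_inf inf_le_left
    (le_inf inf_le_right (le_St.2 ⟨inf_le_right.trans hN, h1⟩))) (rad_le hP hH hcr hN hx
    ((commutator_mono (le_inf hlt.le le_normalizer) le_rfl).trans h1) fun B h3 h4 h5 => ?_))
  refine le_cent_of_ea hp.1 h2 hr (hP.to_le hlt.le) hV h3 h4 (cop_le_cent_of_comm_le (h3.trans hN)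
    (coprime_of_isPGroup_left hp.1 hV.isPGroup h4) (commutator_comm B V ▸ h5) ?_)
  rw [centralizer_zpowers_eq]
  exact h3.trans hx

theorem rad_struct [hp : Fact p.Prime] (h2 : p ≠ 2) (hr : prank p Q ≤ 2) (hP : IsPGroup p P)
    (hlt : Q < P) (hH : IsExtremal p P Q) (hcr : IsCentricRadical P Q) (hxQ : x ∈ Q)
    (ho : orderOf x = p) (hx : N[Q] ≤ c[x]) :
    ∃ E ≤ Q, (∀ e ∈ E, e ^ p = 1) ∧ ⁅E, E⁆ = zpowers x ∧
      (∀ B ≤ N[Q], (Nat.card B).Coprime p → ⁅B, Q⁆ ≤ E) ∧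
      ∃ h ∈ N[Q] ⊓ N[P ⊓ N[Q]], ∀ e ∈ E, h * e * h⁻¹ * e ∈ zpowers x := by
  have hQ := hP.to_le hlt.le
  have hR := TransferAlperin.lt_inf_normalizer hP hlt
  have hX := le_norm_zpowers hx
  have hQx := le_normalizer.trans hx
  obtain ⟨E, hxE, hEQ, hN, hcm, hE | hE⟩ := exists_W hp.1 h2 hr hQ hxQ ho hQx fun hc => by
    refine hR.not_ge (le_trans (le_inf inf_le_left (le_inf inf_le_right (le_St.2
      ⟨inf_le_right.trans hX, commutator_le_right_of_le_normalizer (inf_le_right.trans hX)⟩)))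
      (rad_le hP hH hcr hX hx (commutator_le_right_of_le_normalizer (le_normalizer.trans hX))
        fun B h3 h4 _ => le_cent_of_cyc hp.1 hQ hc hxQ ho h3 h4 (h3.trans hx)))
  · exact absurd ((le_inf le_rfl hx).trans hN) (not_rad_of_ea h2 hr hP hlt hH hcr hE hxE ho hx)
  replace hN := (le_inf le_rfl hx).trans hN
  obtain ⟨e1, e2, e3⟩ := p3_struct hp.1 h2 hr hQ ho hEQ hcm hE
  have hZ : ∀ B ≤ N[Q], (Nat.card B).Coprime p → B ≤ C[Q ⊓ C[E]] := fun B h3 h4 =>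
    le_cent_of_cyc hp.1 hQ.to_inf_left e3 ⟨hxQ, le_cent1_iff.1 (hEQ.trans hQx)⟩ ho
      (le_normalizer_inf h3 (le_normalizer_centralizer (h3.trans hN))) h4 (h3.trans hx)
  refine ⟨E, hEQ, hE.2.2, e1, fun B h3 h4 => ?_, ?_⟩
  · rw [← e2]
    exact commutator_sup_le le_normalizer (inf_le_right.trans (centralizer_le_normalizer _))
      (commutator_le_right_of_le_normalizer (h3.trans hN))
      ((commutator_eq_bot_iff_le_centralizer.2 (hZ B h3 h4)).le.trans bot_le)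
  have hEp := hQ.to_le hEQ
  have h0 := rad_le hP hH hcr hN hx (commutator_comm E Q ▸ hcm) fun B h3 h4 h5 => by
    rw [← e2, centralizer_sup]
    refine le_inf (cop_le_cent_of_comm_le (h3.trans hN) (coprime_of_isPGroup_left hp.1 hEp h4)
      (commutator_comm B E ▸ h5) ?_) (hZ B h3 h4)
    rw [centralizer_zpowers_eq]
    exact h3.trans hx
  have hX1 := ea_zpowers hp.1 hxE ho
  have hER := hEQ.trans hR.le
  obtain ⟨y, hy, hy'⟩ := SetLike.not_le_iff_exists.1 fun h : E ≤ zpowers x =>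
    hE.2.1 (comm_of_cyclic (cyclic_of_le (cyclic_zpowers x) h))
  obtain ⟨V, hV, hRV, hXV⟩ := exists_normal_ea_succ hp.1 h2 hP.to_inf_left
    (S := E) ⟨hER, inf_le_right.trans hN⟩ hX1 (inf_le_right.trans hX)
    ⟨y, ⟨hy, by rw [centralizer_zpowers_eq]; exact hQx (hEQ hy)⟩, hE.2.2 y hy, hy'⟩
  obtain ⟨g, hg, hg'⟩ := SetLike.not_le_iff_exists.1
    (not_rad_of_ea h2 hr hP hlt hH hcr (hV.mono hEQ) (hXV (mem_zpowers x)) ho hx)
  obtain ⟨t, ht, ht'⟩ := SetLike.not_le_iff_exists.1 hR.not_ge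
  have hEX : NormalIn (zpowers x) E := ⟨hX1.le, hEQ.trans (le_normalizer.trans hX)⟩
  have hE2 : EA p 2 ⊤ (E /ₙ zpowers x) := ⟨le_top, (elem_quo_iff hEX.norm).2
    ⟨e1.le, fun e he => by rw [hE.2.2 e he]; exact one_mem _⟩,
    Nat.eq_of_mul_eq_mul_right Nat.card_pos ((card_quo_mul hEX).trans
      (by rw [hE.1, hX1.card_one, pow_succ]))⟩
  have key : ∀ g ∈ N[Q], ∃ ht : g * t * g⁻¹ ∈ N[zpowers x],
      EA p 1 (E /ₙ zpowers x) (V ^ᶜ g /ₙ zpowers x) ∧ qmap _ ⟨_, ht⟩ ∈ C[V ^ᶜ g /ₙ zpowers x] ∧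
      (∀ e ∈ E /ₙ zpowers x, ⁅qmap _ ⟨_, ht⟩, e⁆ ∈ V ^ᶜ g /ₙ zpowers x) ∧
      qmap _ ⟨_, ht⟩ ∉ C[E /ₙ zpowers x] ∧ qmap _ ⟨_, ht⟩ ∈ N[Q] /ₙ zpowers x ∧
      NormalIn (zpowers x) (V ^ᶜ g) := fun g hg => by
    have a0 : g * t * g⁻¹ ∈ N[Q] := mul_mem (mul_mem hg ht.2) (inv_mem hg)
    have a1 := hV.conj_of_mem_normalizer (hN hg)
    have a2 : NormalIn (zpowers x) (V ^ᶜ g) := hEX.of_le
      ((conj_eq_of_mem_normalizer (hX hg)).ge.trans (conj_mono g hXV)) a1.le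
    have a3 : IsPGroup p (zpowers (g * t * g⁻¹)) :=
      (isPGroup_conj hP g).to_le (zpowers_le.2 (conj_mem_conj g ht.1))
    have a4 : zpowers (g * t * g⁻¹) ≤ N[V ^ᶜ g] :=
      zpowers_le.2 (le_normalizer_conj hRV g (conj_mem_conj g ht))
    have a5 := zpowers_le.2 (hX a0)
    refine ⟨hX a0, ea_one hp.1 (pim_mono _ a1.le) ((card_quo a2.norm).trans
      (by simpa using a1.relIndex hp.1 hX1 a2.le)), ?_, fun e he => ?_, fun h => ?_,
      apply_mem_pim _ a0, a2⟩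
    · rw [← zpowers_le, ← pim_zpowers, quo_le_cent_iff a5 a2.norm]
      exact comm_le_of_relIndex hp.1 a3 a2.le a2.norm a5 a4
        (by simpa using a1.relIndex hp.1 hX1 a2.le)
    · refine pim_mono _ (comm_le_of_relIndex hp.1 a3 a1.le ?_ a4 (zpowers_le.2 (hN a0))
        (hE.relIndex a1)) ?_
      · exact (normalIn_of_relIndex_eq hp.1 hEp a1.le (hE.relIndex a1)).norm
      · rw [pim_comm a5 hEX.norm, pim_zpowers (hX a0)]
        exact commutator_mem_commutator (mem_zpowers _) he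
    · rw [← zpowers_le, ← pim_zpowers, quo_le_cent_iff a5 hEX.norm] at h
      have a6 : g * t * g⁻¹ ∈ St E (zpowers x) :=
        le_St.2 ⟨zpowers_le.2 (hN a0), h⟩ (mem_zpowers _)
      exact ht' (h0 ⟨ht.1, ht.2, (mem_normalizer_iff.1 (le_norm_St hN hX hg) t).2 a6⟩)
  obtain ⟨b1, b2, b3, b4, b5, b6, b7⟩ := key 1 (one_mem _)
  obtain ⟨c1, c2, c3, c4, c5, c6, c7⟩ := key g hg
  obtain ⟨_, hh, hi⟩ := exists_inverting hp.1 hE2 b2 c2 (fun e => hg' (mem_normalizer_iff_conj_eq.2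
    ((quo_inj b7 c7 e).symm.trans (conj_one V)))) b3 c3 b4 c4 b5 c5 b6 c6
  obtain ⟨h, hh1, hh2, rfl⟩ := mem_pim.1 hh
  have d1 : (P ⊓ N[Q]) ^ᶜ h ≤ (P ⊓ N[Q]) ⊔ (N[Q] ⊓ St E (zpowers x)) := conj_le_iff.2 fun r hr' => by
    have a1 : ⁅h, r⁆ ∈ N[Q] := der_le _ (commutator_mem_commutator hh2 hr'.2)
    have a2 := comm_mem_cent hi (apply_mem_norm_pim (hX hr'.2) (hN hr'.2))
    rw [← map_commutatorElement, ← zpowers_le] at a2
    have a3 := (quo_le_cent_iff (zpowers_le.2 (hX a1)) hEX.norm).1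
      ((pim_zpowers (hX a1)).le.trans a2)
    have := mul_mem (mem_sup_right (S := P ⊓ N[Q]) (mem_inf.2
      ⟨a1, le_St.2 ⟨zpowers_le.2 (hN a1), a3⟩ (mem_zpowers _)⟩)) (mem_sup_left hr')
    rwa [commutatorElement_def, inv_mul_cancel_right] at this
  obtain ⟨k, hk, d2⟩ := TransferAlperin.exists_conj_le_sylowIn le_sup_left hP.to_inf_left
    (TransferAlperin.not_dvd_relIndex_of_le_right le_sup_left (sup_le inf_le_right inf_le_left) hH.2)
    d1 (isPGroup_conj hP.to_inf_left h)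
  obtain ⟨r, hr', m, hm, rfl⟩ := (mem_sup_iff_of_le_normalizer (inf_le_right.trans
    (le_normalizer_inf le_normalizer (le_norm_St hN hX)))).1 hk
  refine ⟨m * h, ⟨mul_mem hm.1 hh2, ?_⟩, fun e he => ?_⟩
  · have := mem_normalizer_of_conj_le ((conj_conj _ _ _).ge.trans d2)
    rwa [mul_assoc, mul_mem_cancel_left (le_normalizer hr')] at this
  · have a1 := CoprimeBasic.conj_mem_of_le_normalizer hN hh2 he
    have a2 : h * e * h⁻¹ * e ∈ zpowers x := by
      refine (qmap_eq_one_iff (hEX.norm (E.mul_mem a1 he))).1 ?_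
      have := hi _ (apply_mem_pim (hEX.norm he) he)
      rw [← map_inv, ← map_mul, ← map_mul, eq_inv_iff_mul_eq_one, ← map_mul] at this
      exact this
    have := mul_mem (hm.2.2 _ a1) a2
    convert this using 1
    simp only [commutatorElement_def]; group

theorem core [hp : Fact p.Prime] (h2 : p ≠ 2) (P : Sylow p G) (hr : prank p (P : Subgroup G) ≤ 2)
    (hx : x ∈ (P : Subgroup G)) (ho : orderOf x = p) (hiso : IsIsolated x)
    (hG : pResidual p G = ⊤) : Concl p (P : Subgroup G) := by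
  have hN := LocIsolated.normalizer_le_centralizer hiso P.2 hx
  obtain ⟨B, hB⟩ := exists_sdp (NormalIn.normalizer (P : Subgroup G)) ⟨le_normalizer,
    coprime_of_isPGroup_left hp.1 P.2 ((Nat.Prime.coprime_iff_not_dvd hp.1).2
      (TransferAlperin.sylow_not_dvd_relIndex P le_normalizer)).symm⟩
  have hc : (Nat.card B).Coprime p := by
    rw [← hB.relIndex_left]
    exact ((Nat.Prime.coprime_iff_not_dvd hp.1).2
      (TransferAlperin.sylow_not_dvd_relIndex P le_normalizer)).symm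
  refine pgroup hp.1 h2 hr P.2 hx ho (le_normalizer.trans hN) hB.norm hc (hB.norm.trans hN)
    (le_antisymm (commutator_le_left_of_le_normalizer hB.norm)
      (FTBG6.le_of_le_sup_der_of_nil (nil_of_isPGroup hp.1 P.2)
        (commutator_le_left_of_le_normalizer hB.norm) ?_))
  by_contra hL
  refine TransferFrobenius.pResidual_ne_top_of_focal P hL (fun u hu g hg => alperin_ind P _ ?_
    (fun H h1 h3 h4 h5 => ?_) hu hg) hG
  · exact hB.sup.ge.trans (sup_le (le_St.2 ⟨le_normalizer, le_sup_right⟩)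
      (le_St.2 ⟨hB.norm, (commutator_comm _ _).le.trans le_sup_left⟩))
  have hxH : x ∈ H := h4.centric h1.le ⟨hx, le_cent1_iff.1 (h1.le.trans (le_normalizer.trans hN))⟩
  obtain ⟨E, hE, e1, e2, e3, h, hh, e4⟩ := rad_struct h2 ((prank_mono hp.1 h1.le).trans hr) P.2 h1
    h3 h4 hxH ho (LocIsolated.normalizer_le_centralizer hiso (P.2.to_le h1.le) hxH)
  have h6 : E ≤ ⁅(P : Subgroup G), B⁆ ⊔ ⁅(P : Subgroup G), (P : Subgroup G)⁆ := fun e he => by
    have a1 := mul_mem (inv_mem ((h5 hh).2 e (hE he))) (mem_sup_right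
      (der_mono (hE.trans h1.le) (e2.ge (e4 e he))))
    obtain ⟨k, hk⟩ := hp.1.odd_of_ne_two h2
    have a2 : (⁅h, e⁆⁻¹ * (h * e * h⁻¹ * e)) ^ (k + 1) = e :=
      calc _ = (e ^ 2) ^ (k + 1) := by congr 1; rw [commutatorElement_def, pow_two]; group
        _ = e ^ p * e := by rw [hk, ← pow_mul, ← pow_succ]; congr 1
        _ = e := by rw [e1 e he, one_mul]
    exact a2 ▸ pow_mem a1 _
  intro n hn
  obtain ⟨s, hs, c, hc, rfl⟩ := TransferFrobenius.exists_mul_of_coprime_mem (C := St H _) h3.2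
    (fun b hb ho => le_St.2 ⟨zpowers_le.2 hb, (e3 _ (zpowers_le.2 hb)
      (by rwa [Nat.card_zpowers])).trans h6⟩ (mem_zpowers b)) hn
  exact mul_mem (le_St.2 ⟨inf_le_right, (commutator_mono inf_le_left h1.le).trans le_sup_right⟩ hs.1)
    hc.1

end Cfsg.Agent.Lib.IsoRk2
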