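import Cfsg.Agent.Lib.ZJ
import Cfsg.Agent.Lib.CoprimeBasic

/-!
Thompson's replacement theorem with the equality case.
-/

set_option autoImplicit false

namespace Cfsg.Agent.Lib.JRepl

open Subgroup Cfsg Cfsg.Agent.Lib.PCoreConj Cfsg.Agent.Lib.PCore Cfsg.Agent.Lib.ThompsonJ
open scoped Pointwise commutatorElement

local notation "C(" X ")" => centralizer (SetLike.coe (X : Subgroup _))
local notation "N(" X ")" => normalizer (SetLike.coe (X : Subgroup _))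

variable {G : Type*} [Group G] {A B T Y Q : Subgroup G} {y : G}

/-- the subgroup generated by the commutators of `y` with elements of `A` -/
def cm (y : G) (A : Subgroup G) : Subgroup G := closure {z | ∃ x ∈ A, ⁅y, x⁆ = z}

theorem mem_cm {x : G} (hx : x ∈ A) : ⁅y, x⁆ ∈ cm y A := subset_closure ⟨x, hx, rfl⟩

theorem cm_le_iff : cm y A ≤ Y ↔ ∀ x ∈ A, ⁅y, x⁆ ∈ Y :=
  ⟨fun h _ hx => h (mem_cm hx), fun h => (closure_le _).mpr (by rintro _ ⟨x, hx, rfl⟩; exact h x hx)⟩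

theorem le_normalizer_cm (y : G) (A : Subgroup G) : A ≤ N(cm y A) :=
  le_normalizer_iff_conj_le.mpr fun g hg => conj_le_iff_le_conj_inv.mpr (cm_le_iff.mpr fun x hx =>
    mem_conj_iff.mpr (by
      convert mul_mem (inv_mem (mem_cm (y := y) hg)) (mem_cm (mul_mem hg hx)) using 1
      simp only [commutatorElement_def]
      group))

/-- the elements normalizing `Y` and centralizing `y` modulo `Y` -/
def St (Y : Subgroup G) (y : G) : Subgroup G where
  carrier := {g | g ∈ N(Y) ∧ ⁅g, y⁆ ∈ Y}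
  one_mem' := ⟨one_mem _, by simp⟩
  mul_mem' := fun {a b} ha hb => ⟨mul_mem ha.1 hb.1, by
    convert mul_mem ((mem_normalizer_iff.mp ha.1 _).mp hb.2) ha.2 using 1
    simp only [commutatorElement_def]
    group⟩
  inv_mem' := fun {a} ha => ⟨inv_mem ha.1, by
    convert (mem_normalizer_iff.mp (inv_mem ha.1) _).mp (inv_mem ha.2) using 1
    simp only [commutatorElement_def]
    group⟩

theorem repl [Finite G] (hA : MaxAb 0 T A) (h₁ : cm y A ≤ T) (h₂ : cm y A ≤ C(cm y A)) :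
    MaxAb 0 T (A ⊓ C(cm y A) ⊔ cm y A) ∧ ∀ z ∈ cm y A, ∃ x ∈ A, ∃ k ∈ A, z = ⁅y, x⁆ * k := by
  set P := cm y A
  have hab : AbExp 0 (A ⊓ C(P) ⊔ P) := (hA.abExp.mono inf_le_left).sup
    ⟨fun a ha b hb => h₂ hb a ha, fun a _ => pow_zero a⟩ inf_le_right
  have hle : A ⊓ C(P) ⊔ P ≤ T := sup_le (inf_le_left.trans hA.le) h₁
  let g : A → P ⧸ A.subgroupOf P := fun x => QuotientGroup.mk ⟨⁅y, (x : G)⁆, mem_cm x.2⟩
  have id₁ : ∀ x ∈ A, ∀ b ∈ A, x * ⁅y, b⁆ * x⁻¹ = ⁅y, x⁆⁻¹ * ⁅y, b⁆ * b * ⁅y, x⁆ * b⁻¹ := fun x hx b hb => by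
    have e : ⁅y, x * b⁆ = ⁅y, b * x⁆ := by rw [hA.abExp.comm hx hb]
    calc _ = ⁅y, x⁆⁻¹ * ⁅y, x * b⁆ := by simp only [commutatorElement_def]; group
      _ = _ := by rw [e]; simp only [commutatorElement_def]; group
  have key : ∀ x x' : A, g x = g x' → (x : A ⧸ (C(P)).subgroupOf A) = x' := fun x x' e => by
    have hk := QuotientGroup.eq.mp e
    rw [mem_subgroupOf, coe_mul, coe_inv] at hk
    have hk' : ⁅y, (x : G)⁆⁻¹ * ⁅y, (x' : G)⁆ ∈ P := mul_mem (inv_mem (mem_cm x.2)) (mem_cm x'.2)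
    obtain ⟨k, e⟩ : ∃ k, ⁅y, (x : G)⁆⁻¹ * ⁅y, (x' : G)⁆ = k := ⟨_, rfl⟩
    simp only [e] at hk hk'
    have : P ≤ centralizer {(x : G)⁻¹ * x'} := cm_le_iff.mpr fun b hb => mem_centralizer_singleton_iff.mpr (by
      have a₁ := h₂ hk' _ ((mem_normalizer_iff.mp (le_normalizer_cm y A x.2) _).mp (mem_cm hb))
      have a₂ : x' * ⁅y, b⁆ * (x' : G)⁻¹ = x * ⁅y, b⁆ * (x : G)⁻¹ := by
        rw [← inv_mul_eq_iff_eq_mul.mpr a₁, id₁ _ x.2 b hb, id₁ _ x'.2 b hb, inv_mul_eq_iff_eq_mul.mp e,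
          mul_assoc _ (⁅y, (x : G)⁆ * k), mul_assoc ⁅y, (x : G)⁆ k, hA.abExp.comm hk (inv_mem hb)]
        group
      calc _ = (x : G)⁻¹ * (x * ⁅y, b⁆ * (x : G)⁻¹) * x' := by group
        _ = _ := by rw [← a₂]; group)
    exact QuotientGroup.eq.mpr fun z hz => mem_centralizer_singleton_iff.mp (this hz)
  let r : Set.range g → A ⧸ (C(P)).subgroupOf A := fun z => z.2.choose
  have hr : Function.Surjective r := fun q => by
    obtain ⟨x, rfl⟩ := QuotientGroup.mk_surjective q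
    exact ⟨⟨g x, x, rfl⟩, key _ _ (Exists.choose_spec (⟨x, rfl⟩ : g x ∈ Set.range g))⟩
  have c₁ : (C(P)).relIndex A ≤ Nat.card (Set.range g) := Nat.card_le_card_of_surjective r hr
  have c₂ : Nat.card (Set.range g) ≤ A.relIndex P := Finite.card_subtype_le _
  have c₃ : Nat.card ↥(A ⊓ C(P) ⊔ P) = Nat.card ↥(C(P) ⊓ A) * A.relIndex P := by
    have := card_sup_mul_card_inf (H := A ⊓ C(P)) (N := P) (le_normalizer_of_le_centralizer inf_le_right)
    rw [← card_inf_mul_relIndex A P, inf_right_comm, inf_of_le_left (inf_le_right.trans h₂), inf_comm A C(P)] at this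
    rw [inf_comm A C(P)]
    exact Nat.eq_of_mul_eq_mul_right Nat.card_pos (this.trans (by ring))
  have c₄ := card_inf_mul_relIndex C(P) A
  refine ⟨hA.of_card_le hle hab (by rw [c₃, ← c₄]; exact Nat.mul_le_mul_left _ (c₁.trans c₂)), fun z hz => ?_⟩
  have c₅ := hA.card_le hle hab
  rw [c₃, ← c₄] at c₅
  obtain ⟨x, hx⟩ : (QuotientGroup.mk ⟨z, hz⟩ : P ⧸ A.subgroupOf P) ∈ Set.range g := by
    rw [Set.eq_top_of_card_le_of_finite ((Nat.le_of_mul_le_mul_left c₅ Nat.card_pos).trans c₁)]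
    trivial
  exact ⟨x, x.2, _, mem_subgroupOf.mp (QuotientGroup.eq.mp hx), (mul_inv_cancel_left _ _).symm⟩

/-- a largest abelian subgroup not contained in `Q` which acts quadratically on `Z(Q)` -/
theorem exists_quad {p : ℕ} [Fact p.Prime] [Finite G] (hT : IsPGroup p T) (h₁ : Q ≤ T) (h₂ : T ≤ N(Q))
    (h : ¬ J 0 T ≤ Q) : ∃ A, MaxAb 0 T A ∧ ¬ A ≤ Q ∧ ∀ w ∈ Q ⊓ C(Q), ∀ x ∈ A, ⁅w, x⁆ ∈ A := by
  obtain ⟨A₀, hA₀, hn₀⟩ : ∃ A, MaxAb 0 T A ∧ ¬ A ≤ Q := by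
    by_contra! hn
    exact h (J_le_iff.mpr hn)
  obtain ⟨A, hA, hn, hmax⟩ := ZJ.exists_maxAb_max (Q ⊓ C(Q)) (fun A => ¬ A ≤ Q) hA₀ hn₀
  refine ⟨A, hA, hn, fun w hw => cm_le_iff.mp ?_⟩
  have a₁ : cm w A ≤ Q ⊓ C(Q) := cm_le_iff.mpr fun x hx => commutator_le_left_of_le_normalizer
    (hA.le.trans (le_normalizer_inf h₂ (le_normalizer_centralizer h₂))) (commutator_mem_commutator hw hx)
  have a₂ : Q ⊓ C(Q) ≤ C(cm w A) := inf_le_right.trans (centralizer_anti (a₁.trans inf_le_left))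
  have hB := (repl hA (a₁.trans (inf_le_left.trans h₁)) (a₁.trans a₂)).1
  by_cases hQ : A ⊓ C(cm w A) ⊔ cm w A ≤ Q
  · obtain ⟨b, hb, z, hz, rfl⟩ := (mem_sup_iff_of_le_normalizer (le_normalizer_of_le_centralizer inf_le_right)).mp
      (hB.inf_centralizer_eq.le ⟨h₁ hw.1, centralizer_anti hQ hw.2⟩)
    rw [CoprimeBasic.eq_bot_of_le_commutator_of_isPGroup (hT.to_le (a₁.trans (inf_le_left.trans h₁)))
      (hT.to_le hA.le) (le_normalizer_cm _ A) (cm_le_iff.mpr fun x hx => ?_)]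
    · exact bot_le
    · have k := commutator_mem_commutator hz hx
      have k' := hb.2 _ (commutator_le_left_of_le_normalizer (le_normalizer_cm _ A) k)
      convert k using 1
      rw [← mul_inv_eq_iff_eq_mul.mpr k'.symm]
      simp only [commutatorElement_def, mul_inv_rev, mul_assoc]
      rw [hA.abExp.comm (inv_mem hb.1) (inv_mem hx)]
  · by_contra hc
    refine hmax _ hB (lt_of_le_of_ne (le_inf ((inf_le_inf_left _ a₂).trans le_sup_left) inf_le_right)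
      fun e => hc ?_) hQ
    exact (le_inf le_sup_right a₁).trans (e.ge.trans inf_le_left)

end Cfsg.Agent.Lib.JRepl
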