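import Cfsg.Agent.Lib.TrAvg

/-!
Elements of small degree on a self-centralizing normal subgroup lie in `O_p(G)` in a minimal counterexample to
control of transfer.
-/

set_option autoImplicit false

namespace Cfsg.Agent.Lib.TrDeg

open Subgroup Cfsg Cfsg.Agent.Lib.PCoreConj Cfsg.Agent.Lib.PCore Cfsg.Agent.Lib.PCoreResidual
open Cfsg.Agent.Lib.TrCtrl Cfsg.Agent.Lib.TrAvg Cfsg.Agent.Lib.PIrred
open scoped Pointwise commutatorElement

local notation "C(" X ")" => centralizer (SetLike.coe (X : Subgroup _))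
local notation "N(" X ")" => normalizer (SetLike.coe (X : Subgroup _))
local notation "it" => iterCommutator

universe u

section
variable {G : Type*} [Group G] {p : ℕ} {A B X Y L Q P P' T : Subgroup G}

theorem it_succ (X A : Subgroup G) (n : ℕ) : it X A (n + 1) = ⁅it X A n, A⁆ := rfl

theorem le_normalizer_it (h₁ : L ≤ N(X)) (h₂ : L ≤ N(A)) (n : ℕ) : L ≤ N(it X A n) := by
  induction n with
  | zero => exact h₁
  | succ n ih => exact le_normalizer_commutator ih h₂

theorem it_antitone (h : A ≤ N(X)) : Antitone (it X A) := antitone_nat_of_succ_le fun n =>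
  commutator_le_left_of_le_normalizer (le_normalizer_it h le_normalizer n)

theorem it_le (h : A ≤ N(X)) (n : ℕ) : it X A n ≤ X := it_antitone h n.zero_le

theorem it_mono (h₁ : X ≤ Y) (h₂ : A ≤ B) (n : ℕ) : it X A n ≤ it Y B n := by
  induction n with
  | zero => exact h₁
  | succ n ih => exact commutator_mono ih h₂

theorem it_add (X A : Subgroup G) (m n : ℕ) : it X A (m + n) = it (it X A m) A n := by
  induction n with
  | zero => rfl
  | succ n ih => rw [← add_assoc, it_succ, ih, it_succ]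

theorem conj_it (X A : Subgroup G) (g : G) (n : ℕ) : (it X A n) ^ᶜ g = it (X ^ᶜ g) (A ^ᶜ g) n := by
  induction n with
  | zero => rfl
  | succ n ih => rw [it_succ, conj_commutator, ih, it_succ]

theorem exists_it_eq_bot [Fact p.Prime] [Finite G] (hX : IsPGroup p X) (hA : IsPGroup p A) (h : A ≤ N(X)) :
    ∃ n, it X A n = ⊥ := by
  obtain ⟨k, hk⟩ := WellFoundedLT.antitone_chain_condition (it_antitone h)
  refine ⟨k, by_contra fun hn => (commutator_lt hA (hX.to_le (it_le h k))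
    (le_normalizer_it h le_normalizer k) hn).ne (hk _ k.le_succ).symm⟩

theorem iter_mem_it {g u : G} (hg : g ∈ A) (hu : u ∈ X) (n : ℕ) : (fun y => ⁅g, y⁆)^[n] u ∈ it X A n := by
  induction n with
  | zero => exact hu
  | succ n ih =>
    rw [Function.iterate_succ_apply', it_succ, commutator_comm]
    exact commutator_mem_commutator hg ih

/-- degrees add in a commutator pairing -/
theorem comm_it_le {e : ℕ} (hP : P ≤ Q) (hX : X ≤ Q) (hP' : P' ≤ Q) (h₁ : A ≤ N(P)) (h₂ : A ≤ N(X)) (h₃ : A ≤ N(P'))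
    (h₄ : A ≤ N(T)) (h₅ : ⁅P', Q⁆ ≤ T) (h₆ : T ≤ P') (h₇ : ⁅P, X⁆ ≤ P') (h₈ : ⁅it P A (e + 1), X⁆ ≤ T)
    (j r : ℕ) : ⁅it P A r, it X A j⁆ ≤ it P' A (r + j - e) ⊔ T := by
  have a₁ : ∀ s, A ≤ N(it P' A s ⊔ T) := fun s => le_normalizer_sup (le_normalizer_it h₃ le_normalizer s) h₄
  have a₂ : ∀ s, it P' A s ⊔ T ≤ P' := fun s => sup_le (it_le h₃ s) h₆
  have a₃ : ∀ s, Q ≤ N(it P' A s ⊔ T) := fun s => le_normalizer_of_commutator_le
    (((commutator_mono (a₂ s) le_rfl).trans h₅).trans le_sup_right)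
  have a₄ : ∀ s t, t ≤ s + 1 → ⁅it P' A s ⊔ T, A⁆ ≤ it P' A t ⊔ T := fun s t h => by
    rw [commutator_comm]
    refine commutator_sup_le (((it_le h₃ s).trans hP').trans (a₃ t)) (le_normalizer_of_le le_sup_right) ?_
      ((commutator_le_right_of_le_normalizer h₄).trans le_sup_right)
    rw [commutator_comm]
    exact (it_antitone h₃ h).trans le_sup_left
  induction j generalizing r with
  | zero =>
    rcases le_or_gt r e with h | h
    · rw [show r + 0 - e = 0 by omega]
      exact ((commutator_mono (it_le h₁ r) le_rfl).trans h₇).trans le_sup_left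
    · exact ((commutator_mono (it_antitone h₁ h) le_rfl).trans h₈).trans le_sup_right
  | succ j ih =>
    rw [commutator_comm, it_succ]
    refine three_subgroups (((it_le h₂ j).trans hX).trans (a₃ _)) (a₁ _) (((it_le h₁ r).trans hP).trans (a₃ _))
      ?_ ?_
    · rw [commutator_comm A, ← it_succ]
      exact (ih (r + 1)).trans (by rw [show r + 1 + j = r + (j + 1) by omega])
    · exact (commutator_mono (ih r) le_rfl).trans (a₄ _ _ (by omega))

theorem le_stabD_iff [P.Normal] : X ≤ stabD P T ↔ ⁅X, P⁆ ≤ T :=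
  ⟨fun h => commutator_le.mpr fun _ hx _ hy => h hx _ hy, fun h _ hx _ hy => h (commutator_mem_commutator hx hy)⟩

theorem stabD_normal [P.Normal] [T.Normal] : (stabD P T).Normal :=
  normal_of_conj_le fun g => le_stabD_iff.mpr (by
    have := conj_le_of_normal (le_stabD_iff.mp (le_refl (stabD P T))) g
    rwa [conj_commutator, conj_eq_of_normal P g] at this)

theorem it_normal [X.Normal] [A.Normal] (n : ℕ) : (it X A n).Normal :=
  normal_iff_top_le.mpr (le_normalizer_it (normal_iff_top_le.mp inferInstance) (normal_iff_top_le.mp inferInstance) n)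

/-- a self-centralizing normal subgroup of class two -/
theorem exists_crit [Fact p.Prime] [Finite G] [Q.Normal] (hQ : IsPGroup p Q) :
    ∃ Z E : Subgroup G, Z.Normal ∧ E.Normal ∧ Z ≤ E ∧ E ≤ Q ∧ ⁅E, Q⁆ ≤ Z ∧ Q ⊓ C(E) = Z := by
  obtain ⟨Z, ⟨h₁, h₂, h₃⟩, hmax⟩ := exists_maximal_of_wellFoundedGT
    (fun Z : Subgroup G => Z.Normal ∧ Z ≤ Q ∧ Z ≤ C(Z)) ⟨⊥, inferInstance, bot_le, bot_le⟩
  have := stabD_normal (P := Q) (T := Z)
  set E := Q ⊓ C(Z) ⊓ stabD Q Z with hE
  have hZE : Z ≤ E := le_inf (le_inf h₂ h₃) (le_stabD_iff.mpr (commutator_le_left _ _))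
  have hZC : Z ≤ Q ⊓ C(E) := le_inf h₂ (le_centralizer_iff.mp (inf_le_left.trans inf_le_right))
  have k : E ⊓ C(E) ≤ Z := hmax ⟨inferInstance, inf_le_left.trans (inf_le_left.trans inf_le_left),
    inf_le_right.trans (centralizer_anti inf_le_left)⟩ (le_inf hZE (hZC.trans inf_le_right))
  refine ⟨Z, E, h₁, inferInstance, hZE, inf_le_left.trans inf_le_left, le_stabD_iff.mp inf_le_right,
    le_antisymm ?_ hZC⟩
  have hn : Q ≤ N(Q ⊓ C(E)) := le_top.trans (normal_iff_top_le.mp inferInstance)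
  obtain ⟨n, h⟩ := exists_it_eq_bot (hQ.to_le inf_le_left) hQ hn
  have : ∀ m, it (Q ⊓ C(E)) Q m ≤ Z → Q ⊓ C(E) ≤ Z := fun m => by
    induction m with
    | zero => exact id
    | succ m ih =>
      refine fun a => ih (le_trans (le_inf (le_inf ?_ (le_stabD_iff.mpr a)) ((it_le hn m).trans inf_le_right)) k)
      exact (it_le hn m).trans (inf_le_inf_left _ (centralizer_anti hZE))
  exact this n (h.le.trans bot_le)

end

variable {G : Type u} [Group G] [Finite G] {p : ℕ} [hp : Fact p.Prime] {S M D E : Subgroup G}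

theorem cfg_step (c : Cfg p S M D) {Γ : Set G} (hΓ : ∀ g ∈ Γ, ∀ x, x * g * x⁻¹ ∈ Γ) {g : G} (h₁ : g ∈ Γ)
    (h₂ : g ∈ S) (h₃ : g ∉ pCore p G) {U₀ U : Subgroup G} [U.Normal] (h₄ : U₀ ≤ U) (h₅ : U ≤ pCore p G)
    (h₆ : ∀ g ∈ Γ, g ∈ S → it U (zpowers g) (p - 1) ≤ U₀) (h₇ : ⁅(⊤ : Subgroup G), U₀⁆ ≤ D) : ⁅(⊤ : Subgroup G), U⁆ ≤ D := by
  set R := closure (Γ ∩ S)
  have hRS : R ≤ S := (closure_le _).mpr Set.inter_subset_right
  have wc : ∀ x, R ^ᶜ x ≤ S → x ∈ N(R) := fun x hx => mem_normalizer_of_conj_le (conj_le_iff_le_conj_inv.mpr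
    ((closure_le _).mpr fun y hy => mem_conj_iff.mpr (by
      rw [inv_inv]
      exact subset_closure ⟨hΓ y hy.1 x, hx (conj_mem_conj x (subset_closure hy))⟩)))
  have hS : S ≤ N(R) := fun x hx => wc x (conj_le_of_mem hRS hx)
  have hN : N(R) ≤ M := c.min.max _ hS (lt_top_iff_ne_top.mpr fun e => h₃
    (le_pCore (normal_iff_top_le.mpr e.ge) (c.syl.isPGroup.to_le hRS) (subset_closure ⟨h₁, h₂⟩)))
  have hQS := c.syl.pCore_le
  refine commutator_le.mpr fun l hl u hu => avg_step (M := M) (R := R) (U₀ := U₀) Γ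
    (normal_iff_top_le.mp inferInstance) ((pCore_isPGroup p G).to_le h₅)
    ((le_inf ((commutator_le_left _ _).trans (h₅.trans hQS)) (commutator_mono (h₅.trans (hQS.trans c.min.le))
      (h₅.trans (hQS.trans c.min.le)))).trans c.foc) (fun m _ hm u hu => (c.mem m).mp hm u (h₅ hu)) h₄
    (fun l hl u hu => h₇ (commutator_mem_commutator hl hu)) le_top (hRS.trans c.min.le)
    (c.syl.isPGroup.to_le hRS) (fun R₁ hR => ?_) (fun x _ hx => ?_)
    (fun g a b u hu => h₆ g a (hRS b) (iter_mem_it (inv_mem (mem_zpowers g)) hu _)) l hl u hu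
  · by_contra! hn
    exact hR.not_ge ((closure_le _).mpr fun y hy => hn y hy.1 (subset_closure hy))
  · obtain ⟨m, hm, h⟩ := (c.syl.of_le c.min.le le_top).exists_conj_le (Q := R ^ᶜ x⁻¹)
      (conj_le_iff.mpr fun r hr => by simpa using hx r hr) (isPGroup_conj (c.syl.isPGroup.to_le hRS) _)
    rw [conj_conj] at h
    simpa using mul_mem (inv_mem (hN (wc _ h))) hm

/-- elements of small degree on a self-centralizing normal subgroup lie in `O_p(G)` -/
theorem mem_of_deg (c : Cfg p S M D) [E.Normal] (hE : E ≤ pCore p G) (hc : pCore p G ⊓ C(E) ≤ E) {e : ℕ}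
    (he : 2 * e + 2 ≤ p) {g : G} (h₁ : g ∈ S) (h₂ : it E (zpowers g) (e + 1) = ⊥) : g ∈ pCore p G := by
  by_contra h₃
  set Q := pCore p G
  have nn : ∀ (X Y : Subgroup G) [Y.Normal], X ≤ N(Y) := fun X Y _ =>
    le_top.trans (normal_iff_top_le.mp inferInstance)
  have step := @cfg_step G _ _ p _ S M D c {g | it E (zpowers g) (e + 1) = ⊥} (fun g hg x => by
    rw [Set.mem_setOf_eq, ← conj_zpowers, ← conj_eq_of_normal E x, ← conj_it, hg, conj_bot]) g h₂ h₁ h₃
  have hP : ∀ i, (it E Q i).Normal := it_normal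
  have hPE : ∀ i, it E Q i ≤ E := it_le (nn _ _)
  let X : ℕ → Subgroup G := fun k => Q ⊓ ⨅ i, stabD (it E Q i) (it E Q (i + k))
  have hX : ∀ k Y, Y ≤ X k ↔ Y ≤ Q ∧ ∀ i, ⁅Y, it E Q i⁆ ≤ it E Q (i + k) := fun k Y => by
    simp only [X, le_inf_iff, le_iInf_iff, le_stabD_iff]
  have hXn : ∀ k, (X k).Normal := fun k =>
    haveI : (⨅ i, stabD (it E Q i) (it E Q (i + k))).Normal := normal_iInf_normal fun _ => stabD_normal
    inferInstance
  obtain ⟨n, hn⟩ := exists_it_eq_bot ((pCore_isPGroup p G).to_le hE) (pCore_isPGroup p G) (nn Q E)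
  have down : ∀ k, ⁅(⊤ : Subgroup G), X k⁆ ≤ D → ⁅(⊤ : Subgroup G), X 0⁆ ≤ D := fun k => by
    induction k with
    | zero => exact id
    | succ k ih =>
      refine fun h => ih (step ((hX _ _).mpr ⟨inf_le_left, fun i => (((hX _ _).mp le_rfl).2 i).trans
        (it_antitone (nn _ _) (by omega))⟩) inf_le_left (fun g hg _ => ?_) h)
      refine (it_antitone (nn _ _) (show 2 * e + 1 ≤ p - 1 by omega)).trans ((hX _ _).mpr
        ⟨(it_le (nn _ _) _).trans inf_le_left, fun i => ?_⟩)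
      rw [commutator_comm]
      refine (comm_it_le (e := e) (Q := Q) (P' := it E Q (i + k)) (T := it E Q (i + k + 1)) ((hPE i).trans hE)
        inf_le_left ((hPE _).trans hE) (nn _ _) (nn _ _) (nn _ _) (nn _ _) le_rfl (it_antitone (nn _ _) (by omega))
        (by rw [commutator_comm]; exact ((hX _ _).mp le_rfl).2 i) ?_ _ 0).trans (sup_le ?_ le_rfl)
      · rw [le_bot_iff.mp ((it_mono (hPE i) le_rfl _).trans (Eq.le hg)), commutator_bot_left]
        exact bot_le
      · rw [show 0 + (2 * e + 1) - e = e + 1 by omega]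
        exact ((it_mono (hPE _) le_rfl _).trans (Eq.le hg)).trans bot_le
  have hD : ⁅(⊤ : Subgroup G), E⁆ ≤ D := step bot_le hE (fun g hg _ => (it_antitone (nn _ _) (by omega)).trans (Eq.le hg))
    (by simp)
  have h₄ : X n ≤ E := (le_inf inf_le_left (commutator_eq_bot_iff_le_centralizer.mp (le_bot_iff.mp
    ((((hX _ _).mp le_rfl).2 0).trans (by rw [zero_add, hn]))))).trans hc
  have h₅ := down n ((commutator_mono le_rfl h₄).trans hD)
  exact c.min.lt.not_ge fun x hx => (c.mem x).mpr fun q hq => h₅ (commutator_mem_commutator hx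
    ((hX 0 Q).mpr ⟨le_rfl, fun i => commutator_le_right _ _⟩ hq))

end Cfsg.Agent.Lib.TrDeg
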