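import Cfsg.Agent.Lib.JRepl
import Cfsg.Agent.Lib.TrDeg
import Cfsg.Agent.Lib.CoprimeSylow

/-!
For `p ≥ 5` the Thompson subgroup is normal in a group of characteristic `p` in which `O^p(G/O_p(G))` is an abelian
`p'`-group.
-/

set_option autoImplicit false

namespace Cfsg.Agent.Lib.JSolv

open Subgroup Cfsg Cfsg.Agent.Lib.PCoreConj Cfsg.Agent.Lib.PCore Cfsg.Agent.Lib.PCoreResidual
open Cfsg.Agent.Lib.PCoreMod Cfsg.Agent.Lib.TrCtrl Cfsg.Agent.Lib.ThompsonJ Cfsg.Agent.Lib.JRepl Cfsg.Agent.Lib.TrAvg Cfsg.Agent.Lib.TrDeg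
open scoped Pointwise commutatorElement

local notation "C(" X ")" => centralizer (SetLike.coe (X : Subgroup _))
local notation "N(" X ")" => normalizer (SetLike.coe (X : Subgroup _))

universe u

variable {G : Type u} [Group G] {p : ℕ} {A B T E E₀ : Subgroup G} {a : G}

theorem comm_aux (haE : a ∈ N(E)) (hz : E₀ ≤ C(E)) (h₀ : E₀ ≤ E) (hc : ⁅E, E⁆ ≤ E₀)
    (hq : ∀ w ∈ ⁅E, E⁆, ⁅a, ⁅a, w⁆⁆ = 1) {u : ℕ → G} (hu : ∀ i, u i ∈ E) (hs : ∀ i, u (i + 1) = ⁅a, u i⁆)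
    (h₅ : ∀ j, 5 ≤ j → u j ∈ E₀) : ∀ i j, 2 ≤ i → 2 ≤ j → u i * u j = u j * u i := by
  obtain ⟨M, _, φ, hadd, hk⟩ := exists_model (U := E₀) (D := ⊥)
    (commutator_eq_bot_iff_le_centralizer.mpr (hz.trans (centralizer_anti h₀))).le
  have m : ∀ {x y}, x ∈ E → y ∈ E → ⁅x, y⁆ ∈ E₀ := fun hx hy => hc (commutator_mem_commutator hx hy)
  have h1 : φ 1 = 0 := (hk 1 (one_mem _)).mpr (one_mem _)
  have l : ∀ x ∈ E, ∀ x' ∈ E, ∀ y ∈ E, φ ⁅x * x', y⁆ = φ ⁅x', y⁆ + φ ⁅x, y⁆ := fun x hx x' hx' y hy => by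
    rw [← hadd _ (m hx' hy) _ (m hx hy), ← mul_inv_eq_iff_eq_mul.mpr (hz (m hx' hy) x hx)]
    simp only [commutatorElement_def]
    congr 1
    group
  have anti : ∀ x ∈ E, ∀ y ∈ E, φ ⁅x, y⁆ = -φ ⁅y, x⁆ := fun x hx y hy => by
    rw [eq_neg_iff_add_eq_zero, ← hadd _ (m hx hy) _ (m hy hx), ← commutatorElement_inv, inv_mul_cancel, h1]
  have r : ∀ x ∈ E, ∀ y ∈ E, ∀ y' ∈ E, φ ⁅x, y * y'⁆ = φ ⁅x, y'⁆ + φ ⁅x, y⁆ := fun x hx y hy y' hy' => by
    rw [anti _ hx _ (mul_mem hy hy'), l _ hy _ hy' _ hx, anti _ hx _ hy, anti _ hx _ hy', neg_add]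
  have cj : ∀ {x}, x ∈ E → a * x * a⁻¹ ∈ E := fun hx => (mem_normalizer_iff.mp haE _).mp hx
  have s₁ : ∀ i, a * u i * a⁻¹ = u (i + 1) * u i := fun i => by
    rw [hs, commutatorElement_def, inv_mul_cancel_right]
  have s₂ : ∀ i, a * (a * u i * a⁻¹) * a⁻¹ = u (i + 2) * u (i + 1) * (u (i + 1) * u i) := fun i => by
    rw [← s₁ (i + 1), ← s₁ i, s₁ i]
    nth_rewrite 2 [← s₁ i]
    group
  have R : ∀ i j, φ ⁅u (i + 2), u (j + 2)⁆ + 2 • φ ⁅u (i + 2), u (j + 1)⁆ + 2 • φ ⁅u (i + 1), u (j + 2)⁆ +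
      φ ⁅u (i + 2), u j⁆ + 2 • φ ⁅u (i + 1), u (j + 1)⁆ + φ ⁅u i, u (j + 2)⁆ = 0 := fun i j => by
    have e := hq _ (commutator_mem_commutator (hu i) (hu j))
    have e' : ⁅a * (a * u i * a⁻¹) * a⁻¹, a * (a * u j * a⁻¹) * a⁻¹⁆ * ⁅u i, u j⁆ =
        ⁅a * u i * a⁻¹, a * u j * a⁻¹⁆ * ⁅a * u i * a⁻¹, a * u j * a⁻¹⁆ := by
      have c := hz (m (hu i) (hu j)) _ (cj (h₀ (m (hu i) (hu j))))
      rw [← conjugate_commutatorElement, ← conjugate_commutatorElement]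
      generalize ⁅u i, u j⁆ = w at e c
      calc _ = ⁅a, ⁅a, w⁆⁆ * (a * w * a⁻¹) * w⁻¹ * (a * w * a⁻¹ * w) := by simp only [commutatorElement_def]; group
        _ = _ := by rw [e, c]; group
    have e'' := congrArg φ e'
    rw [hadd _ (m (cj (cj (hu i))) (cj (cj (hu j)))) _ (m (hu i) (hu j)), hadd _ (m (cj (hu i)) (cj (hu j))) _
      (m (cj (hu i)) (cj (hu j))), s₂, s₂, s₁, s₁] at e''
    simp (disch := repeat' first | exact hu _ | apply mul_mem) only [l, r] at e''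
    linear_combination (norm := abel1) e''
  have z : ∀ i j, 5 ≤ j → φ ⁅u i, u j⁆ = 0 := fun i j h => by
    rw [commutatorElement_eq_one_iff_mul_comm.mpr (hz (h₅ j h) _ (hu i)), h1]
  have d : ∀ i, φ ⁅u i, u i⁆ = 0 := fun i => by rw [commutatorElement_self, h1]
  have c₂₄ : φ ⁅u 2, u 4⁆ = 0 := by simpa [z] using R 0 4
  have c₃₄ : φ ⁅u 3, u 4⁆ = 0 := by simpa [z] using R 1 4
  have c₂₃ : φ ⁅u 2, u 3⁆ = 0 := by
    have e₁ := R 0 3
    have e₂ := R 1 2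
    simp only [zero_add, Nat.reduceAdd, z _ 5 le_rfl, d, c₂₄, c₃₄, anti _ (hu 3) _ (hu 2)] at e₁ e₂
    linear_combination (norm := abel1) 2 • e₂ - e₁
  have k : ∀ i j, 2 ≤ i → i < j → u i * u j = u j * u i := fun i j h₁ h₂ => by
    refine commutatorElement_eq_one_iff_mul_comm.mp ((hk _ (m (hu i) (hu j))).mp ?_)
    rcases le_or_gt 5 j with h | h
    · exact z i j h
    · obtain ⟨rfl, rfl⟩ | ⟨rfl, rfl⟩ | ⟨rfl, rfl⟩ : i = 2 ∧ j = 3 ∨ i = 2 ∧ j = 4 ∨ i = 3 ∧ j = 4 := by omega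
      all_goals assumption
  intro i j h₁ h₂
  rcases lt_trichotomy i j with h | rfl | h
  · exact k i j h₁ h
  · rfl
  · exact (k j i h₂ h).symm

variable [Finite G] [hp : Fact p.Prime]

theorem deg_four (hp5 : 5 ≤ p) (hA : MaxAb 0 T A) (hT : IsPGroup p T) (hE : E ≤ T) (h₀ : E₀ ≤ E) (hAE : A ≤ N(E))
    (hA₀ : A ≤ N(E₀)) (hz : E₀ ≤ C(E)) (hc : ⁅E, E⁆ ≤ E₀) (hq : ∀ w ∈ ⁅E, E⁆, ⁅a, ⁅a, w⁆⁆ = 1) (ha : a ∈ A)
    (hB : B ≤ A) (hAB : A ≤ B ⊔ zpowers a) (hEB : ⁅B, E⁆ ≤ E₀) (hpow : ∀ x ∈ E, x ^ p ∈ E₀) :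
    ∀ u ∈ E, (fun y => ⁅a, y⁆)^[4] u ∈ E₀ := by
  have key : ∀ v ∈ E, (fun y => ⁅a, y⁆)^[5] v ∈ E₀ → (fun y => ⁅a, y⁆)^[4] v ∈ E₀ := fun v hv h => by
    obtain ⟨u, hu'⟩ : ∃ u : ℕ → G, u = fun i => (fun y => ⁅a, y⁆)^[i] v := ⟨_, rfl⟩
    have hu : ∀ i, u i ∈ E := fun i => hu' ▸ iter_mem (hAE ha) hv i
    have hs : ∀ i, u (i + 1) = ⁅a, u i⁆ := fun i => hu' ▸ Function.iterate_succ_apply' _ _ _
    have h₅ : ∀ j, 5 ≤ j → u j ∈ E₀ := fun j hj => hu' ▸ iter_mem_of_le (hA₀ ha) hj h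
    suffices u 4 ∈ E₀ from by rwa [hu'] at this
    clear hu' h hv
    have s₁ : ∀ i, a * u i * a⁻¹ = u (i + 1) * u i := fun i => by
      rw [hs, commutatorElement_def, inv_mul_cancel_right]
    set Y := E₀ ⊔ closure {z | ∃ j, 2 ≤ j ∧ u j = z}
    have hY : ∀ j, 2 ≤ j → u j ∈ Y := fun j h => mem_sup_right (subset_closure ⟨j, h, rfl⟩)
    have hY' : ∀ X, E₀ ≤ X → (∀ j, 2 ≤ j → u j ∈ X) → Y ≤ X := fun X h h' =>
      sup_le h ((closure_le _).mpr (by rintro _ ⟨j, hj, rfl⟩; exact h' j hj))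
    have hYE : Y ≤ E := hY' _ h₀ fun j _ => hu j
    have hYc : Y ≤ C(Y) := hY' _ (hz.trans (centralizer_anti hYE)) fun j hj x hx => (mem_centralizer_singleton_iff.mp
      (hY' (centralizer {u j}) (fun z h => mem_centralizer_singleton_iff.mpr (hz h _ (hu j)).symm) (fun i hi =>
        mem_centralizer_singleton_iff.mpr (comm_aux (hAE ha) hz h₀ hc hq hu hs h₅ i j hi hj)) hx))
    have hBS : ∀ X, E₀ ≤ X → X ≤ E → ∀ y ∈ E, B ≤ St X y := fun X h₁ h₂ y hy b hb =>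
      ⟨le_normalizer_of_commutator_le (by
        rw [commutator_comm]; exact ((commutator_mono le_rfl h₂).trans hEB).trans h₁) hb,
        h₁ (hEB (commutator_mem_commutator hb hy))⟩
    have hP : cm (u 1) A ≤ Y := cm_le_iff.mpr fun x hx => by
      rw [← commutatorElement_inv]
      refine inv_mem ((hAB.trans (sup_le (hBS Y le_sup_left hYE _ (hu 1)) (zpowers_le.mpr
        ⟨mem_normalizer_of_conj_le (conj_le_iff_le_conj_inv.mpr (hY' _ (conj_le_iff_le_conj_inv.mp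
          ((conj_eq_of_mem_normalizer (hA₀ ha)).le.trans le_sup_left)) fun j hj => mem_conj_iff.mpr ?_)),
          hs 1 ▸ hY 2 le_rfl⟩))) hx).2
      rw [inv_inv, s₁]
      exact mul_mem (hY _ (by omega)) (hY _ hj)
    have m₂ : u 2 ∈ cm (u 1) A := by
      rw [hs 1, ← commutatorElement_inv]
      exact inv_mem (mem_cm ha)
    obtain ⟨x, hx, k, hk, e⟩ := (repl hA (hP.trans (hYE.trans hE)) (hP.trans (hYc.trans (centralizer_anti hP)))).2
      (u 3) (hs 2 ▸ iter_mem (le_normalizer_cm _ A ha) m₂ 1)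
    obtain ⟨b, hb, _, ⟨n, rfl⟩, rfl⟩ := (mem_sup_iff_of_le_normalizer (le_normalizer_of_le_centralizer
      (hB.trans (hA.abExp.le_centralizer.trans (centralizer_anti (zpowers_le.mpr ha)))))).mp (hAB hx)
    obtain ⟨M, _, φ, hadd, hk₀⟩ := exists_model hc
    have cj : ∀ g ∈ A, ∀ x ∈ E, g * x * g⁻¹ ∈ E := fun g hg x hx => (mem_normalizer_iff.mp (hAE hg) _).mp hx
    have hst : ∀ g ∈ A, ∀ y ∈ E, ⁅g, y⁆ ∈ E₀ ↔ φ (g * y * g⁻¹) = φ y := fun g hg y hy => by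
      have h : ⁅g, y⁆ ∈ E := iter_mem (hAE hg) hy 1
      rw [← hk₀ _ h, show g * y * g⁻¹ = ⁅g, y⁆ * y by rw [commutatorElement_def, inv_mul_cancel_right], hadd _ h _ hy,
        add_eq_right]
    by_cases hn : (p : ℤ) ∣ n
    · obtain ⟨c, rfl⟩ := hn
      have h₁ : ⁅a ^ p, u 1⁆ ∈ E₀ := by
        let f : ℕ → ℕ → M := fun i j => φ (a ^ i * u j * (a ^ i)⁻¹)
        have hf : ∀ i j, f (i + 1) j = f i j + f i (j + 1) := fun i j => by
          rw [add_comm (f i j), ← hadd _ (cj _ (pow_mem ha i) _ (hu _)) _ (cj _ (pow_mem ha i) _ (hu _))]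
          refine congrArg φ ?_
          rw [hs, commutatorElement_def]
          group
        have h₂ : ∑ i ∈ Finset.range p, f i 2 = f p 1 - f 0 1 := by
          rw [← Finset.sum_range_sub (fun i => f i 1)]
          exact Finset.sum_congr rfl fun i _ => by rw [hf, add_sub_cancel_left]
        have hpw : ∀ y ∈ E, ∀ n : ℕ, φ (y ^ n) = n • φ y := fun y hy n => by
          induction n with
          | zero => simpa using (hk₀ 1 (one_mem _)).mpr (one_mem _)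
          | succ n ih => rw [pow_succ, hadd _ (pow_mem hy n) _ hy, ih, succ_nsmul]
        rw [sum_range_eq f hf, Finset.sum_eq_zero, eq_comm, sub_eq_zero] at h₂
        · simpa [f] using (hst _ (pow_mem ha p) _ (hu 1)).mpr (by simpa [f] using h₂)
        · intro i hi
          rcases eq_or_lt_of_le (Nat.succ_le_of_lt (Finset.mem_range.mp hi)) with e | e
          · simp [f, (hk₀ _ (hu _)).mpr (h₅ (2 + i) (by omega))]
          · obtain ⟨d, hd⟩ := hp.out.dvd_choose_self (Nat.succ_ne_zero i) e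
            rw [hd, mul_comm, mul_smul]
            simp [f, ← hpw _ (hu _), (hk₀ _ (pow_mem (hu _) _)).mpr (hpow _ (hu _))]
      have h₂ : b * a ^ ((p : ℤ) * c) ∈ St E₀ (u 1) := mul_mem (hBS _ le_rfl h₀ _ (hu 1) hb) (by
        rw [zpow_mul, zpow_natCast]
        exact zpow_mem (show a ^ p ∈ St E₀ (u 1) from ⟨hA₀ (pow_mem ha p), h₁⟩) c)
      have h₃ := inv_mem h₂.2
      rw [commutatorElement_inv] at h₃
      convert iter_mem (hA₀ ha) h₃ 1 using 1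
      rw [hs, e]
      simp only [Function.iterate_one, commutatorElement_def a, mul_inv_rev, mul_assoc]
      rw [← mul_assoc k, hA.abExp.comm hk (inv_mem ha), mul_assoc, mul_inv_cancel_left]
    · have h₁ : ⁅b * a ^ n, u 3⁆ ∈ E₀ := by
        generalize b * a ^ n = x at hx e
        have m : ∀ z ∈ E, ⁅a, z⁆ ∈ E := fun z hz => iter_mem (hAE ha) hz 1
        have e₀ : ∀ z, a * z * a⁻¹ = ⁅a, z⁆ * z := fun z => by rw [commutatorElement_def, inv_mul_cancel_right]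
        have ad : ∀ ψ : G → M, (∀ z ∈ E, ∀ z' ∈ E, ψ (z * z') = ψ z + ψ z') →
            ∀ z ∈ E, ∀ z' ∈ E, ψ ⁅a, z * z'⁆ = ψ ⁅a, z⁆ + ψ ⁅a, z'⁆ := fun ψ h z hz z' hz' => by
          have e₁ := h _ (cj a ha z hz) _ (cj a ha z' hz')
          rw [show a * z * a⁻¹ * (a * z' * a⁻¹) = a * (z * z') * a⁻¹ by group, e₀, e₀, e₀,
            h _ (m _ (mul_mem hz hz')) _ (mul_mem hz hz'), h _ (m _ hz) _ hz, h _ (m _ hz') _ hz', h _ hz _ hz'] at e₁
          linear_combination (norm := abel1) e₁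
        have ad₂ := ad (fun z => φ ⁅a, z⁆) (ad _ hadd)
        beta_reduce at ad₂
        have m₁ : ⁅u 1, x⁆ ∈ E := hYE (hP (mem_cm hx))
        have e₁ := ad₂ _ m₁ k ((mul_mem_cancel_left m₁).mp (e ▸ hu 3))
        have e₂ := ad₂ _ m₁ _ (cj x hx _ (hu 1))
        have e₃ : ∀ z, ⁅a, x * z * x⁻¹⁆ = x * ⁅a, z⁆ * x⁻¹ := fun z => by
          rw [conjugate_commutatorElement, hA.abExp.comm hx ha, mul_inv_cancel_right]
        rw [← e, ← hs, ← hs, commutatorElement_eq_one_iff_mul_comm.mpr (hA.abExp.comm ha hk),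
          commutatorElement_one_right, (hk₀ _ (hu _)).mpr (h₅ 5 le_rfl), (hk₀ 1 (one_mem _)).mpr (one_mem _),
          add_zero] at e₁
        rw [← e₁, zero_add, e₃, e₃, show ⁅u 1, x⁆ * (x * u 1 * x⁻¹) = u 1 by rw [commutatorElement_def]; group,
          ← hs, ← hs] at e₂
        exact (hst x hx _ (hu 3)).mpr e₂.symm
      have h₂ : a ^ n ∈ St E₀ (u 3) := by
        simpa using mul_mem (inv_mem (hBS _ le_rfl h₀ _ (hu 3) hb))
          (show b * a ^ n ∈ St E₀ (u 3) from ⟨hA₀ hx, h₁⟩)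
      obtain ⟨m, hm⟩ := (IsPGroup.iff_orderOf.mp hT) ⟨a, hA.le ha⟩
      have h₃ : a ∈ St E₀ (u 3) := mem_of_pow_mem_of_coprime (n := n.natAbs) (by
        rw [← orderOf_coe] at hm
        exact hm ▸ ((hp.out.coprime_iff_not_dvd.mpr (mt Int.natCast_dvd.mpr hn)).pow_left m)) (by
          rcases Int.natAbs_eq n with h | h
          · rwa [← zpow_natCast, ← h]
          · rwa [h, zpow_neg, inv_mem_iff, zpow_natCast] at h₂)
      exact hs 3 ▸ h₃.2
  intro u hu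
  obtain ⟨n, hn⟩ := exists_it_eq_bot (hT.to_le hE) (hT.to_le hA.le) hAE
  have : ∀ m, (fun y => ⁅a, y⁆)^[4 + m] u ∈ E₀ → (fun y => ⁅a, y⁆)^[4] u ∈ E₀ := fun m => by
    induction m with
    | zero => exact id
    | succ m ih =>
      refine fun h => ih ?_
      rw [Function.iterate_add_apply]
      refine key _ (iter_mem (hAE ha) hu m) ?_
      rwa [← Function.iterate_add_apply, show 5 + m = 4 + (m + 1) by omega]
  exact this n (iter_mem_of_le (hA₀ ha) (by omega) (hn.le.trans bot_le (iter_mem_it ha hu n)))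

theorem exists_frob {Q R : Subgroup G} [Q.Normal] [R.Normal] {q : ℕ} (hq : q.Prime) (hqp : q ≠ p) (h₁ : Q ≤ R)
    (h₂ : ⁅R, R⁆ ≤ Q) (h₃ : ∀ r ∈ R, r ^ q ∈ Q) (hA : A ≤ C(A)) (hAp : IsPGroup p A) (h : ¬ ⁅R, A⁆ ≤ Q) :
    ∃ R₁ B a, Q ≤ R₁ ∧ R₁ ≤ R ∧ A ≤ N(R₁) ∧ ¬ R₁ ≤ Q ∧ B ≤ A ∧ a ∈ A ∧ A ≤ B ⊔ zpowers a ∧ ⁅R₁, B⁆ ≤ Q ∧
      ∀ r ∈ R₁, ⁅a, r⁆ ∈ Q → r ∈ Q := by
  haveI := Fact.mk hq
  set f := QuotientGroup.mk' Q
  have hf := QuotientGroup.mk'_surjective Q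
  have kf : ∀ X : Subgroup G, X.map f = ⊥ ↔ X ≤ Q := fun X => by
    rw [Subgroup.map_eq_bot_iff, QuotientGroup.ker_mk']
  have kf' : ∀ x, f x = 1 ↔ x ∈ Q := fun x => QuotientGroup.eq_one_iff x
  have a₁ : A.map f ≤ C(A.map f) := (map_mono hA).trans (map_centralizer_le_centralizer_image _ f)
  have a₂ : A.map f ≤ N(R.map f) := le_normalizer_map f le_normalizer_of_normal
  have a₃ : (Nat.card (A.map f)).Coprime (Nat.card (R.map f)) := IsPGroup.coprime_card_of_ne p q hqp.symm _ _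
    (hAp.map f) (isPGroup_iff_forall_mem.mpr (by
      rintro _ ⟨r, hr, rfl⟩
      exact ⟨1, by rw [pow_one, ← map_pow, kf']; exact h₃ r hr⟩))
  obtain ⟨B, hB, ⟨_, ⟨a, ha, rfl⟩, hAB⟩, hn⟩ : ∃ B ≤ A.map f, (∃ a ∈ A.map f, A.map f ≤ B ⊔ zpowers a) ∧
      ¬ R.map f ⊓ C(B) ≤ C(A.map f) := by
    by_contra! hn
    exact h ((kf _).mp (by
      rw [map_commutator, commutator_eq_bot_iff_le_centralizer]
      exact CoprimeSylow.le_of_centralizer_cocyclic_le (le_centralizer_iff_isMulCommutative.mp a₁) a₂ a₃ hn))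
  set R₀ := R.map f ⊓ C(B)
  have a₄ : A.map f ≤ N(R₀) := le_normalizer_inf a₂ (le_normalizer_of_le (a₁.trans (centralizer_anti hB)))
  have a₅ : ⁅R₀, A.map f⁆ ≤ R₀ := commutator_le_left_of_le_normalizer a₄
  have a₆ : (R.map f).comap f = R := comap_map_eq_self ((QuotientGroup.ker_mk' Q).le.trans h₁)
  refine ⟨⁅R₀, A.map f⁆.comap f, A ⊓ B.comap f, a, (QuotientGroup.ker_mk' Q).ge.trans (ker_le_comap _ _),
    (comap_mono (a₅.trans inf_le_left)).trans a₆.le, (le_comap_map f A).trans (le_normalizer_comap f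
      (le_normalizer_commutator a₄ le_normalizer)), fun e => hn ?_, inf_le_left, ha, fun x hx => ?_,
      (kf _).mp ?_, fun r hr e => (kf' r).mp ?_⟩
  · rwa [← kf, map_comap_eq_self_of_surjective hf, commutator_eq_bot_iff_le_centralizer] at e
  · obtain ⟨b, hb, _, ⟨n, rfl⟩, e⟩ := (mem_sup_iff_of_le_normalizer (le_normalizer_of_le_centralizer
      (hB.trans (a₁.trans (centralizer_anti (zpowers_le.mpr (mem_map_of_mem f ha))))))).mp (hAB (mem_map_of_mem f hx))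
    rw [← inv_mul_cancel_right x (a ^ n), ← inv_inv (a ^ n), inv_inv (a ^ n)⁻¹, inv_inv]
    refine mul_mem (mem_sup_left (mem_inf.mpr ⟨mul_mem hx (inv_mem (zpow_mem ha n)), ?_⟩)) (mem_sup_right ⟨n, rfl⟩)
    change f (x * (a ^ n)⁻¹) ∈ B
    rwa [map_mul, map_inv, map_zpow, ← e, mul_inv_cancel_right]
  · rw [map_commutator, map_comap_eq_self_of_surjective hf, commutator_eq_bot_iff_le_centralizer]
    exact a₅.trans (inf_le_right.trans (centralizer_anti (map_le_iff_le_comap.mpr inf_le_right)))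
  · haveI : IsMulCommutative R₀ := le_centralizer_iff_isMulCommutative.mp (inf_le_left.trans
      ((commutator_eq_bot_iff_le_centralizer.mp (by rw [← map_commutator, kf]; exact h₂)).trans
        (centralizer_anti inf_le_left)))
    refine mem_bot.mp ((CoprimeBasic.centralizer_inf_commutator_eq_bot a₄
      (coprime_card_of_le inf_le_left a₃.symm).symm).le ⟨centralizer_anti hAB ?_, hr⟩)
    rw [centralizer_sup]
    refine ⟨(a₅ hr).2, le_centralizer_iff.mp (zpowers_le.mpr ?_) (mem_zpowers _)⟩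
    rintro _ ⟨n, rfl⟩
    rw [← kf', map_commutatorElement, commutatorElement_eq_one_iff_commute] at e
    exact (e.symm.zpow_left n).eq

theorem J_le (hp5 : 5 ≤ p) {P R : Subgroup G} [R.Normal] {q : ℕ} (hP : IsSylowIn p P ⊤)
    (hc : C(pCore p G) ≤ pCore p G) (h₁ : pCore p G ≤ R) (h₂ : R ⊔ P = ⊤) (h₃ : ⁅R, R⁆ ≤ pCore p G) (hq : q.Prime)
    (hqp : q ≠ p) (h₄ : ∀ r ∈ R, r ^ q ∈ pCore p G) : J 0 P ≤ pCore p G := by
  by_contra hJ
  set Q := pCore p G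
  have hQ : IsPGroup p Q := pCore_isPGroup p G
  have hQP : Q ≤ P := hP.pCore_le
  have nn : ∀ (X Y : Subgroup G) [Y.Normal], X ≤ N(Y) := fun X Y _ =>
    le_top.trans (normal_iff_top_le.mp inferInstance)
  obtain ⟨A, hA, hAQ, hquad⟩ := exists_quad hP.isPGroup hQP (nn _ _) hJ
  have hAp := hP.isPGroup.to_le hA.le
  obtain ⟨R₁, B, a, a₁, a₂, a₃, a₄, a₅, a₆, a₇, a₈, a₉⟩ := exists_frob hq hqp h₁ h₃ h₄ hA.abExp.le_centralizer hAp
    fun h => hAQ (by
      haveI := stabD_normal (P := R) (T := Q)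
      refine le_trans (le_inf hA.le (le_stabD_iff.mpr (by rwa [commutator_comm]))) (le_pCore (normal_iff_top_le.mpr
        (h₂.ge.trans (sup_le (le_normalizer_of_commutator_le ((le_stabD_iff.mp inf_le_right).trans (le_inf hQP
          (le_stabD_iff.mpr (commutator_le_left _ _))))) (le_normalizer_inf le_normalizer (nn _ _)))))
        (hP.isPGroup.to_le inf_le_left)))
  have cop : ∀ r ∈ R, ∀ k, r ^ p ^ k ∈ Q → r ∈ Q := fun r hr k h => by
    obtain ⟨c, d, e⟩ := Nat.isCoprime_iff_coprime.mpr (((Nat.coprime_primes hq hp.out).mpr hqp).pow_right k)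
    rw [← zpow_one r, ← e, zpow_add, mul_comm c, mul_comm d, zpow_mul, zpow_mul, zpow_natCast, zpow_natCast]
    exact mul_mem (zpow_mem (h₄ r hr) c) (zpow_mem h d)
  set H := R₁ ⊔ A
  set F := pResidualOf p H
  have hFH : F ≤ H := pResidualOf_le p H
  have hF : H ≤ N(F) := le_normalizer_pResidualOf p H
  obtain ⟨E, ⟨e₁, e₂, e₃⟩, hmin⟩ := exists_minimal_of_wellFoundedLT (fun E => E ≤ Q ∧ H ≤ N(E) ∧ ¬ F ≤ C(E))
    ⟨Q, le_rfl, nn _ _, fun e => a₄ fun r hr => by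
      obtain ⟨k, hk⟩ := exists_pow_mem_pResidualOf (p := p) (show r ∈ H from mem_sup_left hr)
      exact cop r (a₂ hr) k (hc (e hk))⟩
  have hE := hQ.to_le e₁
  have hEH : E ≤ H := e₁.trans (a₁.trans le_sup_left)
  have lt : ∀ X, X < E → H ≤ N(X) → X ≤ E ⊓ C(F) := fun X h h' => le_inf h.le (le_centralizer_iff.mp
    (by_contra fun hn => h.not_ge (hmin ⟨h.le.trans e₁, h', hn⟩ h.le)))
  have b₁ : E ≤ ⁅E, F⁆ := by
    by_contra hn
    have := pResidualOf_le_centralizer_of_iterCommutator hE (hFH.trans e₂) (n := 2)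
      (commutator_eq_bot_iff_le_centralizer.mpr ((lt _ (lt_of_le_not_ge (commutator_le_left_of_le_normalizer
        (hFH.trans e₂)) hn) (le_normalizer_commutator e₂ hF)).trans inf_le_right))
    exact e₃ (by rwa [pResidualOf_idem] at this)
  have b₂ : E ⊓ C(F) ≤ C(E) := inf_le_right.trans (centralizer_anti (b₁.trans
    (commutator_le_right_of_le_normalizer (hEH.trans hF))))
  have b₃ : H ≤ N(E ⊓ C(F)) := le_normalizer_inf e₂ (le_normalizer_centralizer hF)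
  have b₄ : E ⊓ C(F) < E := lt_of_le_not_ge inf_le_left fun e => e₃ (le_centralizer_iff.mp (e.trans inf_le_right))
  have hQA : Q ⊔ A ≤ H := sup_le (a₁.trans le_sup_left) le_sup_right
  have hQAp : IsPGroup p ↥(Q ⊔ A) := hP.isPGroup.to_le (sup_le hQP hA.le)
  have b₅ : ⁅E, Q ⊔ B⁆ ≤ E ⊓ C(F) := lt _ (commutator_lt (hQAp.to_le (sup_le_sup_left a₅ _)) hE
    ((sup_le_sup_left a₅ _).trans (hQA.trans e₂)) (bot_le.trans_lt b₄).ne') (le_normalizer_commutator e₂ (sup_le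
      (le_normalizer_of_commutator_le (by
        rw [commutator_comm]
        exact (commutator_sup_le (nn _ _) (nn _ _) (commutator_le_right _ _) a₈).trans le_sup_left))
      (le_normalizer_sup (nn _ _) (le_normalizer_of_le_centralizer (hA.abExp.le_centralizer.trans
        (centralizer_anti a₅))))))
  have b₆ : ⁅E, E⁆ ≤ E ⊓ C(F) := (commutator_mono le_rfl (e₁.trans le_sup_left)).trans b₅
  have b₇ : ⁅⁅E, Q⁆, E⁆ = ⊥ := commutator_eq_bot_iff_le_centralizer.mpr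
    ((commutator_mono le_rfl le_sup_left).trans (b₅.trans b₂))
  have b₈ : ⁅E, E⁆ ≤ Q ⊓ C(Q) := le_inf ((b₆.trans inf_le_left).trans e₁) (commutator_eq_bot_iff_le_centralizer.mp
    (commutator_commutator_eq_bot_of_rotate b₇ (by rwa [commutator_comm Q])))
  have b₉ : ∀ x ∈ E, x ^ p ∈ E ⊓ C(F) := by
    obtain ⟨E₁, -, c₂, -, c₄⟩ := exists_max hE b₄
    refine fun x hx => lt (closure {z | ∃ x ∈ E, x ^ p = z}) (lt_of_le_of_lt ((closure_le _).mpr ?_) c₂)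
      (le_normalizer_iff_conj_le.mpr fun g hg => conj_le_iff_le_conj_inv.mpr ((closure_le _).mpr ?_))
      (subset_closure ⟨x, hx, rfl⟩)
    · rintro _ ⟨x, hx, rfl⟩
      by_cases h : x ∈ E₁
      · exact pow_mem h p
      · obtain ⟨i, hi, s, hs, e⟩ := (c₄ x hx h).1 _ (pow_mem hx p)
        have := Nat.le_of_dvd (by omega) ((c₄ x hx h).2 (p - i) (by
          rwa [mul_left_cancel (a := x ^ i) (by rw [← pow_add, Nat.add_sub_cancel' hi.le, e] :
            x ^ i * x ^ (p - i) = x ^ i * s)]))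
        rw [e, show i = 0 by omega, pow_zero, one_mul]
        exact hs
    · rintro _ ⟨x, hx, rfl⟩
      exact mem_conj_iff.mpr (subset_closure ⟨_, (mem_normalizer_iff.mp (e₂ hg) x).mp hx, by
        rw [inv_inv, conj_pow]⟩)
  have hd := deg_four hp5 hA hP.isPGroup (e₁.trans hQP) inf_le_left (le_sup_right.trans e₂) (le_sup_right.trans b₃)
    b₂ b₆ (fun w hw => commutatorElement_eq_one_iff_mul_comm.mpr (hA.abExp.comm a₆ (by
      rw [← commutatorElement_inv]; exact inv_mem (hquad w (b₈ hw) a a₆)))) a₆ a₅ a₇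
    (by rw [commutator_comm]; exact (commutator_mono le_rfl le_sup_right).trans b₅) b₉
  have ai : a⁻¹ ∈ Q ⊔ A := mem_sup_right (inv_mem a₆)
  refine b₄.not_ge (le_of_le_sup_commutator hQAp hE (hQA.trans e₂) (hQA.trans b₃) (hEH.trans b₃) (b₁.trans ?_))
  rw [commutator_comm]
  refine commutator_le.mpr fun l hl u hu => avg_step (M := Q ⊔ A) (R := zpowers a⁻¹) (U₀ := E ⊓ C(F)) {a⁻¹} e₂ hE
    (b₆.trans le_sup_left) (fun m _ hm u hu => mem_sup_right (by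
      rw [commutator_comm]; exact commutator_mem_commutator hm hu)) inf_le_left
    (fun l hl u hu => mem_sup_left (iter_mem (b₃ hl) hu 1)) (zpowers_le.mpr (hQA ai)) (zpowers_le.mpr ai)
    (hQAp.to_le (zpowers_le.mpr ai)) (fun R₂ hR => ⟨_, rfl, mem_zpowers _, fun e => hR.not_ge (zpowers_le.mpr e)⟩)
    (fun x hx hf => ?_) ?_ l (hFH hl) u hu
  · obtain ⟨r, hr, t, ht, rfl⟩ := (mem_sup_iff_of_le_normalizer' a₃).mp hx
    have m₁ : ⁅a, r⁻¹⁆ ∈ R₁ := iter_mem (a₃ a₆) (inv_mem hr) 1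
    have m₂ : ⁅a, r⁻¹⁆ ∈ Q ⊔ A := by
      convert mul_mem (mul_mem (mul_mem (mem_sup_right (mul_mem a₆ ht)) (hf _ (mem_zpowers _)))
        (mem_sup_right (inv_mem ht))) (one_mem _) using 1
      rw [commutatorElement_def]
      group
    obtain ⟨k, hk⟩ := isPGroup_iff_forall_mem.mp hQAp _ m₂
    exact mul_mem (mem_sup_left ((inv_mem_iff).mp (a₉ _ (inv_mem hr) (cop _ (a₂ m₁) k (hk ▸ one_mem _)))))
      (mem_sup_right ht)
  · rintro _ rfl - u hu
    rw [inv_inv]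
    exact iter_mem_of_le (b₃ (mem_sup_right a₆)) (by omega) (hd u hu)

end Cfsg.Agent.Lib.JSolv
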