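import Cfsg.Agent.Lib.TrDeg
import Cfsg.Agent.Lib.JRepl

/-!
A replacement argument for a largest abelian subgroup acting on a group of class two.
-/

set_option autoImplicit false

namespace Cfsg.Agent.Lib.JTrR2

open Subgroup Cfsg Cfsg.Agent.Lib.PCoreConj Cfsg.Agent.Lib.PCore Cfsg.Agent.Lib.ThompsonJ Cfsg.Agent.Lib.JRepl
open scoped Pointwise commutatorElement

local notation "C(" X ")" => centralizer (SetLike.coe (X : Subgroup _))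
local notation "N(" X ")" => normalizer (SetLike.coe (X : Subgroup _))

variable {G : Type*} [Group G]

theorem count [Finite G] {H K H' K' : Subgroup G} (f : G → G) (hf : ∀ a ∈ H, f a ∈ H')
    (inj : ∀ a ∈ H, ∀ b ∈ H, (f a)⁻¹ * f b ∈ K' → a⁻¹ * b ∈ K) :
    K.relIndex H ≤ K'.relIndex H' ∧ (K'.relIndex H' ≤ K.relIndex H → ∀ z ∈ H', ∃ a ∈ H, (f a)⁻¹ * z ∈ K') := by
  let g : H → H' ⧸ K'.subgroupOf H' := fun x => QuotientGroup.mk ⟨f x, hf x x.2⟩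
  have key : ∀ x x' : H, g x = g x' → (x : H ⧸ K.subgroupOf H) = x' := fun x x' e =>
    QuotientGroup.eq.mpr (inj _ x.2 _ x'.2 (mem_subgroupOf.mp (QuotientGroup.eq.mp e)))
  let r : Set.range g → H ⧸ K.subgroupOf H := fun z => z.2.choose
  have hr : Function.Surjective r := fun q => by
    obtain ⟨x, rfl⟩ := QuotientGroup.mk_surjective q
    exact ⟨⟨g x, x, rfl⟩, key _ _ (Exists.choose_spec (⟨x, rfl⟩ : g x ∈ Set.range g))⟩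
  have c₁ : K.relIndex H ≤ Nat.card (Set.range g) := Nat.card_le_card_of_surjective r hr
  refine ⟨c₁.trans (Finite.card_subtype_le _), fun h z hz => ?_⟩
  obtain ⟨x, hx⟩ : (QuotientGroup.mk ⟨z, hz⟩ : H' ⧸ K'.subgroupOf H') ∈ Set.range g := by
    rw [Set.eq_top_of_card_le_of_finite (h.trans c₁)]
    trivial
  exact ⟨x, x.2, mem_subgroupOf.mp (QuotientGroup.eq.mp hx)⟩

/-- the image of a map which is multiplicative modulo `Y` -/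
def Im (f : G → G) (A Y : Subgroup G) (h₁ : f 1 = 1) (h₂ : ∀ a ∈ A, f a ∈ N(Y))
    (h₃ : ∀ a ∈ A, ∀ b ∈ A, (f (a * b))⁻¹ * (f a * f b) ∈ Y) : Subgroup G where
  carrier := {m | ∃ a ∈ A, (f a)⁻¹ * m ∈ Y}
  one_mem' := ⟨1, one_mem _, by simp [h₁]⟩
  mul_mem' := by
    rintro m m' ⟨a, ha, k⟩ ⟨b, hb, k'⟩
    refine ⟨a * b, mul_mem ha hb, ?_⟩
    have e : (f (a * b))⁻¹ * (m * m') = (f (a * b))⁻¹ * (f a * f b) * ((f b)⁻¹ * ((f a)⁻¹ * m) * (f b)⁻¹⁻¹) *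
        ((f b)⁻¹ * m') := by group
    rw [e]
    exact mul_mem (mul_mem (h₃ a ha b hb) ((mem_normalizer_iff.mp (inv_mem (h₂ b hb)) _).mp k)) k'
  inv_mem' := by
    rintro m ⟨a, ha, k⟩
    refine ⟨a⁻¹, inv_mem ha, ?_⟩
    have k' := h₃ a ha _ (inv_mem ha)
    rw [mul_inv_cancel, h₁, inv_one, one_mul] at k'
    have e : (f a⁻¹)⁻¹ * m⁻¹ = (f a * ((f a)⁻¹ * m) * (f a)⁻¹ * (f a * f a⁻¹))⁻¹ := by group
    rw [e]
    exact inv_mem (mul_mem ((mem_normalizer_iff.mp (h₂ a ha) _).mp k) k')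

theorem idI {a b u v : G} (h : a * b = b * a) (h' : u * a * (v * b) = v * b * (u * a))
    (h₁ : u * ⁅a, v⁆ = ⁅a, v⁆ * u) (h₂ : v * ⁅b, u⁆ = ⁅b, u⁆ * v) : ⁅b, u⁆ = ⁅a, v⁆ * ⁅u, v⁆ := by
  have e₁ : u * a * (v * b) = u * ⁅a, v⁆ * v * (a * b) := by simp only [commutatorElement_def]; group
  have e₂ : v * b * (u * a) = v * ⁅b, u⁆ * u * (b * a) := by simp only [commutatorElement_def]; group
  rw [e₁, e₂, h, h₁, h₂, mul_left_inj] at h'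
  rw [commutatorElement_def u v, ← mul_assoc, ← mul_assoc, ← mul_assoc, h']
  group

theorem radd {g m m' : G} (h : m * ⁅g, m'⁆ = ⁅g, m'⁆ * m) : ⁅g, m * m'⁆ = ⁅g, m⁆ * ⁅g, m'⁆ := by
  have e : ⁅g, m * m'⁆ = ⁅g, m⁆ * (m * ⁅g, m'⁆) * m⁻¹ := by simp only [commutatorElement_def]; group
  rw [e, h]
  group

theorem sq_id {x x' α β : G} (hc : Commute α β)
    (h : x * (α * β) * (α * β) = x' * α * α * (β * β * (β * β))) : x = x' * (β * β) := by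
  have e₁ : α * β * (α * β) = α * α * (β * β) := (hc.symm.mul_mul_mul_comm α β)
  have e₂ : α * α * (β * β) = β * β * (α * α) := ((hc.mul_right hc).mul_left (hc.mul_right hc)).eq
  have : x * (α * α * (β * β)) = x' * (β * β) * (α * α * (β * β)) := by
    calc _ = x * (α * β) * (α * β) := by rw [← e₁, ← mul_assoc]
      _ = x' * (α * α * (β * β)) * (β * β) := by rw [h]; group
      _ = _ := by nth_rewrite 1 [e₂]; group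
  exact mul_right_cancel this

theorem tw {u v b d c : G} (e₁ : (u * u)⁻¹ * b * v = c * v * ((u * u)⁻¹ * b)) (e₂ : ⁅d, u⁆ = c)
    (e₃ : u * c = c * u) (e₄ : v * c = c * v) (e₆ : b * d = d * b) :
    (u * u)⁻¹ * b * ((v * v)⁻¹ * d) = (v * v)⁻¹ * d * ((u * u)⁻¹ * b) := by
  have a₁ : SemiconjBy ((u * u)⁻¹ * b) v (c * v) := e₁
  have a₂ : SemiconjBy d u (c * u) := by
    rw [SemiconjBy, ← e₂, commutatorElement_def]; group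
  have a₃ := (a₂.mul_right a₂).inv_right.eq
  have a₄ := (a₁.mul_right a₁).inv_right.eq
  have a₅ : ∀ w : G, w * c = c * w → c * w * (c * w) = w * w * (c * c) := fun w h => by
    rw [← h, mul_assoc, ← mul_assoc c, ← h]; group
  rw [a₅ _ e₃] at a₃
  rw [a₅ _ e₄] at a₄
  have a₆ : Commute (c * c)⁻¹ (v * v)⁻¹ := by
    have : Commute c v := e₄.symm
    exact (((this.mul_left this).mul_right (this.mul_left this)).inv_inv)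
  calc _ = (c * c)⁻¹ * (v * v)⁻¹ * (u * u)⁻¹ * (b * d) := by rw [← mul_assoc, a₄]; group
    _ = (v * v)⁻¹ * ((u * u * (c * c))⁻¹ * d) * b := by rw [a₆.eq, e₆]; group
    _ = _ := by rw [← a₃]; group

theorem r2 [Finite G] {p : ℕ} [Fact p.Prime] (hp : p ≠ 2)
    {T A V : Subgroup G} {y : G} (hT : IsPGroup p T) (hA : MaxAb 0 T A) (hM : cm y A ≤ T) (hV : V ≤ T)
    (h₁ : ⁅V, A⁆ ≤ A ⊓ V) (h₂ : ∀ w ∈ V, ⁅y, w⁆ = 1) (h₃ : ∀ m ∈ cm y A, ⁅y, m⁆ ∈ V)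
    (h₄ : ⁅cm y A, A⁆ ⊔ V ⊔ A ⊓ (cm y A ⊔ V) ≤ C(cm y A ⊔ V))
    (h₅ : ∀ m ∈ ⁅cm y A, A⁆, ⁅y, m⁆ ∈ A) (h₆ : ∀ e ∈ A ⊓ (cm y A ⊔ V), ⁅y, e⁆ ∈ A)
    (h₇ : A ⊓ C(⁅cm y A, A⁆) ≤ C(V)) :
    ∀ z ∈ ⁅cm y A, A⁆, ∃ a ∈ A, ∃ e ∈ A, ∃ w ∈ V, z = ⁅y, a⁆ * e * w := by
  set M := cm y A with hMd
  set H := M ⊔ V with hH
  set Z := ⁅M, A⁆ ⊔ V with hZ
  have hAM : A ≤ N(M) := le_normalizer_cm y A
  have hAV : A ≤ N(V) := le_normalizer_of_commutator_le (h₁.trans inf_le_right)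
  have hAH : A ≤ N(H) := le_normalizer_sup hAM hAV
  have hZH : Z ≤ H := sup_le_sup_right (commutator_le_left_of_le_normalizer hAM) _
  have hZC : Z ≤ C(H) := le_sup_left.trans h₄
  have hEC : A ⊓ H ≤ C(H) := le_sup_right.trans h₄
  have hVZ : V ≤ Z := le_sup_right
  have hVH : V ≤ H := le_sup_right
  have hn : ∀ a ∈ A, ⁅y, a⁆ ∈ H := fun a ha => (le_sup_left : M ≤ H) (mem_cm ha)
  have hk : ∀ a ∈ A, ⁅y, ⁅y, a⁆⁆ ∈ V := fun a ha => h₃ _ (mem_cm ha)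
  have cz : ∀ {z m : G}, z ∈ Z → m ∈ H → m * z = z * m := fun hz hm => hZC hz _ hm
  have hHZ : H ≤ N(Z) := le_normalizer_of_le_centralizer (le_centralizer_iff.mp hZC)
  have hAZ' : ⁅A, H⁆ ≤ Z := commutator_sup_le (le_sup_left.trans hHZ) (hVH.trans hHZ)
    (by rw [commutator_comm]; exact le_sup_left) (by rw [commutator_comm]; exact (h₁.trans inf_le_right).trans hVZ)
  have hAZ : ∀ a ∈ A, ∀ m ∈ H, ⁅a, m⁆ ∈ Z := fun a ha m hm => hAZ' (commutator_mem_commutator ha hm)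
  have hAV' : ∀ a ∈ A, ∀ w ∈ V, ⁅a, w⁆ ∈ A ⊓ V := fun a ha w hw => by
    rw [← commutatorElement_inv]; exact inv_mem (h₁ (commutator_mem_commutator hw ha))
  have c1 : ∀ {a b : G}, a ∈ A → b ∈ A → ⁅a, b⁆ = 1 := fun ha hb =>
    commutatorElement_eq_one_iff_mul_comm.mpr (hA.abExp.comm ha hb)
  have c2 : ∀ {z m : G}, z ∈ C(H) → m ∈ H → ⁅m, z⁆ = 1 := fun hz hm =>
    commutatorElement_eq_one_iff_mul_comm.mpr (hz _ hm)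
  have nmul : ∀ a ∈ A, ∀ b ∈ A, ⁅y, a * b⁆ = ⁅y, a⁆ * ⁅y, b⁆ * ⁅a, ⁅y, b⁆⁆ := fun a ha b hb => by
    rw [mul_assoc, cz (hAZ a ha _ (hn b hb)) (hn b hb)]
    simp only [commutatorElement_def]
    group
  have dec : ∀ m ∈ H, ∃ a ∈ A, ∃ z ∈ Z, m = ⁅y, a⁆ * z := by
    have : H ≤ Im (fun a => ⁅y, a⁆) A Z (by simp) (fun a ha => hHZ (hn a ha)) (fun a ha b hb => by
        have e : (⁅y, a⁆ * ⁅y, b⁆ * ⁅a, ⁅y, b⁆⁆)⁻¹ * (⁅y, a⁆ * ⁅y, b⁆) = ⁅a, ⁅y, b⁆⁆⁻¹ := by group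
        simp only [nmul a ha b hb, e]
        exact inv_mem (hAZ a ha _ (hn b hb))) :=
      sup_le (cm_le_iff.mpr fun a ha => ⟨a, ha, (inv_mul_cancel ⁅y, a⁆).symm ▸ one_mem Z⟩) fun w hw => ⟨1, one_mem _, by simpa using hVZ hw⟩
    intro m hm
    obtain ⟨a, ha, k⟩ := this hm
    exact ⟨a, ha, _, k, (mul_inv_cancel_left _ _).symm⟩
  -- the action of `y`
  have hyH : ∀ m ∈ H, ⁅y, m⁆ ∈ V := fun m hm => by
    obtain ⟨u, hu, w, hw, rfl⟩ := (mem_sup_iff_of_le_normalizer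
      (le_normalizer_of_le_centralizer (le_sup_left.trans (le_centralizer_iff.mp (hVZ.trans hZC))))).mp hm
    rw [radd (by simp [h₂ w hw]), h₂ w hw, mul_one]
    exact h₃ u hu
  have yadd : ∀ m ∈ H, ∀ m' ∈ H, ⁅y, m * m'⁆ = ⁅y, m⁆ * ⁅y, m'⁆ := fun m hm m' hm' =>
    radd (cz (hVZ (hyH m' hm')) hm)
  have aadd : ∀ a ∈ A, ∀ m ∈ H, ∀ m' ∈ H, ⁅a, m * m'⁆ = ⁅a, m⁆ * ⁅a, m'⁆ := fun a ha m hm m' hm' =>
    radd (cz (hAZ a ha m' hm') hm)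
  have hHAV : H ≤ N(A ⊓ V) := le_normalizer_of_le_centralizer
    ((le_centralizer_iff.mp (hVZ.trans hZC)).trans (centralizer_anti inf_le_right))
  set N₀ := H ⊓ St (A ⊓ V) y with hN₀
  have mN : ∀ m, m ∈ N₀ ↔ m ∈ H ∧ ⁅y, m⁆ ∈ A := fun m =>
    ⟨fun h => ⟨h.1, by rw [← commutatorElement_inv]; exact inv_mem h.2.2.1⟩, fun h => ⟨h.1, hHAV h.1, by
      rw [← commutatorElement_inv]; exact inv_mem (mem_inf.mpr ⟨h.2, hyH m h.1⟩)⟩⟩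
  have hZN : Z ≤ N₀ := sup_le (fun m hm => (mN m).mpr ⟨hZH (mem_sup_left hm), h₅ m hm⟩)
    fun w hw => (mN w).mpr ⟨hVH hw, by simp [h₂ w hw]⟩
  have hEN : A ⊓ H ≤ N₀ := fun e he => (mN e).mpr ⟨he.2, h₆ e he⟩
  have hAN : A ≤ N(N₀) := le_normalizer_of_commutator_le (by
    rw [commutator_comm]; exact ((commutator_mono le_rfl inf_le_left).trans hAZ').trans hZN)
  -- the two identities
  have I₁ : ∀ a ∈ A, ∀ b ∈ A, ⁅b, ⁅y, a⁆⁆ = ⁅a, ⁅y, b⁆⁆ * ⁅⁅y, a⁆, ⁅y, b⁆⁆ := fun a ha b hb =>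
    idI (hA.abExp.comm ha hb) (by
      have e : ∀ a b : G, ⁅y, a⁆ * a * (⁅y, b⁆ * b) = y * (a * b) * y⁻¹ := fun a b => by
        simp only [commutatorElement_def]; group
      rw [e, e, hA.abExp.comm ha hb]) (cz (hAZ a ha _ (hn b hb)) (hn a ha)) (cz (hAZ b hb _ (hn a ha)) (hn b hb))
  have hβ : ∀ a ∈ A, ∀ b ∈ A, ⁅⁅y, a⁆, ⁅y, b⁆⁆ ∈ Z := fun a ha b hb => by
    rw [← inv_mul_eq_iff_eq_mul.mpr (I₁ a ha b hb)]
    exact mul_mem (inv_mem (hAZ a ha _ (hn b hb))) (hAZ b hb _ (hn a ha))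
  have I₂ : ∀ a ∈ A, ∀ b ∈ A, ⁅b, ⁅y, ⁅y, a⁆⁆⁆ = ⁅a, ⁅y, ⁅y, b⁆⁆⁆ * (⁅⁅y, a⁆, ⁅y, b⁆⁆ * ⁅⁅y, a⁆, ⁅y, b⁆⁆) := by
    intro a ha b hb
    have hu : ∀ a ∈ A, ⁅y, ⁅y, a⁆⁆ * ⁅y, a⁆ * ⁅y, a⁆ ∈ H := fun a ha =>
      mul_mem (mul_mem (hVH (hk a ha)) (hn a ha)) (hn a ha)
    have k := idI (hA.abExp.comm ha hb) (u := ⁅y, ⁅y, a⁆⁆ * ⁅y, a⁆ * ⁅y, a⁆) (v := ⁅y, ⁅y, b⁆⁆ * ⁅y, b⁆ * ⁅y, b⁆) (by
      have e : ∀ a b : G, ⁅y, ⁅y, a⁆⁆ * ⁅y, a⁆ * ⁅y, a⁆ * a * (⁅y, ⁅y, b⁆⁆ * ⁅y, b⁆ * ⁅y, b⁆ * b) =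
          y * y * (a * b) * (y * y)⁻¹ := fun a b => by
        simp only [commutatorElement_def]; group
      rw [e, e, hA.abExp.comm ha hb]) (cz (hAZ a ha _ (hu b hb)) (hu a ha)) (cz (hAZ b hb _ (hu a ha)) (hu b hb))
    have e₁ : ⁅⁅y, b⁆, ⁅y, ⁅y, a⁆⁆ * ⁅y, a⁆ * ⁅y, a⁆⁆ = ⁅⁅y, b⁆, ⁅y, a⁆⁆ * ⁅⁅y, b⁆, ⁅y, a⁆⁆ := by
      rw [radd (cz (hβ b hb a ha) (mul_mem (hVH (hk a ha)) (hn a ha))), radd (cz (hβ b hb a ha) (hVH (hk a ha))),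
        c2 (hZC (hVZ (hk a ha))) (hn b hb), one_mul]
    have e₂ : ⁅⁅y, ⁅y, a⁆⁆ * ⁅y, a⁆ * ⁅y, a⁆, ⁅y, b⁆⁆ = ⁅⁅y, a⁆, ⁅y, b⁆⁆ * ⁅⁅y, a⁆, ⁅y, b⁆⁆ := by
      rw [← commutatorElement_inv, e₁, mul_inv_rev, commutatorElement_inv]
    have e₃ := mul_mem (hβ a ha b hb) (hβ a ha b hb)
    rw [← e₂] at e₃
    rw [aadd b hb _ (mul_mem (hVH (hk a ha)) (hn a ha)) _ (hn a ha), aadd b hb _ (hVH (hk a ha)) _ (hn a ha),
      aadd a ha _ (mul_mem (hVH (hk b hb)) (hn b hb)) _ (hn b hb), aadd a ha _ (hVH (hk b hb)) _ (hn b hb),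
      radd (cz e₃ (mul_mem (hVH (hk b hb)) (hn b hb))), radd (cz e₃ (hVH (hk b hb))),
      c2 (hZC (hVZ (hk b hb))) (hu a ha), one_mul, e₂, I₁ a ha b hb] at k
    exact sq_id (cz (hβ a ha b hb) (hZH (hAZ a ha _ (hn b hb)))) k
  -- the subgroups `K`, `F`, `B`
  set K := A ⊓ St N₀ y with hK
  have mK : ∀ a, a ∈ K ↔ a ∈ A ∧ ⁅y, a⁆ ∈ N₀ := fun a =>
    ⟨fun h => ⟨h.1, by rw [← commutatorElement_inv]; exact inv_mem h.2.2⟩, fun h => ⟨h.1, hAN h.1, by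
      rw [← commutatorElement_inv]; exact inv_mem h.2⟩⟩
  have kmul : ∀ a ∈ A, ∀ b ∈ A, ⁅y, ⁅y, a * b⁆⁆ = ⁅y, ⁅y, a⁆⁆ * ⁅y, ⁅y, b⁆⁆ * ⁅y, ⁅a, ⁅y, b⁆⁆⁆ := fun a ha b hb => by
    rw [nmul a ha b hb, yadd _ (mul_mem (hn a ha) (hn b hb)) _ (hZH (hAZ a ha _ (hn b hb))),
      yadd _ (hn a ha) _ (hn b hb)]
  have hyZ : ∀ z ∈ Z, ⁅y, z⁆ ∈ A ⊓ H := fun z hz => ⟨((mN z).mp (hZN hz)).2, hVH (hyH z (hZH hz))⟩
  have hHE : H ≤ N(A ⊓ H) := le_normalizer_of_le_centralizer (le_centralizer_iff.mp hEC)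
  let F := Im (fun a => ⁅y, ⁅y, a⁆⁆) A (A ⊓ H) (by simp) (fun a ha => hHE (hVH (hk a ha))) (fun a ha b hb => by
    have e : ∀ u v : G, (u * v)⁻¹ * u = v⁻¹ := fun u v => by group
    simp only [kmul a ha b hb, e]
    exact inv_mem (hyZ _ (hAZ a ha _ (hn b hb))))
  have mF : ∀ m, m ∈ F ↔ ∃ a ∈ A, ⁅y, ⁅y, a⁆⁆⁻¹ * m ∈ A ⊓ H := fun m => Iff.rfl
  have hEF : A ⊓ H ≤ F := fun e he => (mF e).mpr ⟨1, one_mem _, by simpa using he⟩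
  have hFV : F ≤ V ⊔ A ⊓ H := fun m hm => by
    obtain ⟨a, ha, k⟩ := (mF m).mp hm
    rw [← mul_inv_cancel_left ⁅y, ⁅y, a⁆⁆ m]
    exact mul_mem_sup (hk a ha) k
  have hFN : F ≤ N₀ := hFV.trans (sup_le (hVZ.trans hZN) hEN)
  have hFC : F ≤ C(H) := hFV.trans (sup_le (hVZ.trans hZC) hEC)
  have hAF : A ≤ N(F) := le_normalizer_of_commutator_le (by
    rw [commutator_comm]
    refine ((commutator_mono le_rfl hFV).trans (commutator_sup_le (N := A ⊓ V) (hVH.trans hHAV)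
      (inf_le_right.trans hHAV) (by rw [commutator_comm]; exact h₁) ?_)).trans ((inf_le_inf_left _ hVH).trans hEF)
    exact commutator_le.mpr fun a ha e he => by rw [c1 ha he.1]; exact one_mem _)
  set B := A ⊓ St F y with hB
  have mB : ∀ a, a ∈ B ↔ a ∈ A ∧ ⁅y, a⁆ ∈ F := fun a =>
    ⟨fun h => ⟨h.1, by rw [← commutatorElement_inv]; exact inv_mem h.2.2⟩, fun h => ⟨h.1, hAF h.1, by
      rw [← commutatorElement_inv]; exact inv_mem h.2⟩⟩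
  have hBK : B ≤ K := fun a ha => (mK a).mpr ⟨ha.1, hFN ((mB a).mp ha).2⟩
  have hEB : A ⊓ H ≤ B := fun e he => (mB e).mpr ⟨he.1, hEF ⟨h₆ e he, hn e he.1⟩⟩
  -- `N₀` is abelian
  have decN : ∀ m ∈ N₀, ∃ a ∈ A, ⁅y, ⁅y, a⁆⁆ ∈ A ∧ ∃ z ∈ Z, m = ⁅y, a⁆ * z := fun m hm => by
    obtain ⟨a, ha, z, hz, rfl⟩ := dec m hm.1
    exact ⟨a, ha, ((mN _).mp ((mul_mem_cancel_right (hZN hz)).mp hm)).2, z, hz, rfl⟩
  have hHT : H ≤ T := sup_le hM hV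
  have abN : AbExp 0 N₀ := ⟨fun m hm m' hm' => by
    obtain ⟨a, ha, ka, z, hz, rfl⟩ := decN m hm
    obtain ⟨b, hb, kb, z', hz', rfl⟩ := decN m' hm'
    have k := I₂ a ha b hb
    rw [c1 hb ka, c1 ha kb, one_mul, ← sq] at k
    obtain ⟨n, e⟩ := IsPGroup.iff_orderOf.mp hT ⟨_, hHT (hZH (hβ a ha b hb))⟩
    rw [← orderOf_coe] at e
    have k' : ⁅⁅y, a⁆, ⁅y, b⁆⁆ ∈ (⊥ : Subgroup G) := mem_of_pow_mem_of_coprime (n := 2)
      (e ▸ Nat.Coprime.pow_left n ((Nat.coprime_primes Fact.out Nat.prime_two).mpr hp)) (k ▸ one_mem _)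
    have k₂ := commutatorElement_eq_one_iff_mul_comm.mp (mem_bot.mp k')
    calc _ = ⁅y, a⁆ * ⁅y, b⁆ * (z * z') := by rw [mul_assoc, ← mul_assoc z, ← cz hz (hn b hb)]; group
      _ = _ := by rw [k₂, ← cz hz (hZH hz'), mul_assoc, mul_assoc, ← mul_assoc _ z', cz hz' (hn a ha)]; group,
    fun _ _ => pow_zero _⟩
  -- the twisted elements
  have F₁ : ∀ b ∈ A, ∀ b' ∈ A, ⁅y, ⁅y, b'⁆⁆⁻¹ * ⁅y, b⁆ ∈ A ⊓ H → ∀ a ∈ A, ⁅b, ⁅y, a⁆⁆ = ⁅a, ⁅y, ⁅y, b'⁆⁆⁆ := by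
    intro b hb b' hb' k a ha
    rw [I₁ a ha b hb, c2 (hFC ((mF _).mpr ⟨b', hb', k⟩)) (hn a ha), mul_one,
      ← mul_inv_cancel_left ⁅y, ⁅y, b'⁆⁆ ⁅y, b⁆, aadd a ha _ (hVH (hk b' hb')) _ k.2, c1 ha k.1, mul_one]
  have F₂ : ∀ b ∈ A, ∀ b' ∈ A, ⁅y, ⁅y, b'⁆⁆⁻¹ * ⁅y, b⁆ ∈ A ⊓ H → ∀ a ∈ A,
      (⁅y, b'⁆ * ⁅y, b'⁆)⁻¹ * b * ⁅y, a⁆ = ⁅b', ⁅y, ⁅y, a⁆⁆⁆ * ⁅y, a⁆ * ((⁅y, b'⁆ * ⁅y, b'⁆)⁻¹ * b) := by
    intro b hb b' hb' k a ha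
    have e₁ : ⁅⁅y, b'⁆ * ⁅y, b'⁆, ⁅y, a⁆⁆ = ⁅⁅y, b'⁆, ⁅y, a⁆⁆ * ⁅⁅y, b'⁆, ⁅y, a⁆⁆ := by
      rw [← commutatorElement_inv, radd (cz (hβ a ha b' hb') (hn b' hb')), mul_inv_rev, commutatorElement_inv]
    have e₂ := F₁ b hb b' hb' k a ha
    rw [I₂ b' hb' a ha, ← e₁] at e₂
    have e₃ := cz (hAZ b' hb' _ (hVH (hk a ha))) (inv_mem (mul_mem (hn b' hb') (hn b' hb')))
    generalize ⁅y, b'⁆ * ⁅y, b'⁆ = s at *
    generalize ⁅b', ⁅y, ⁅y, a⁆⁆⁆ = c at *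
    generalize ⁅y, a⁆ = u at *
    calc _ = s⁻¹ * ⁅b, u⁆ * u * b := by simp only [commutatorElement_def]; group
      _ = s⁻¹ * c * ⁅s, u⁆ * u * b := by rw [e₂]; group
      _ = _ := by rw [e₃]; simp only [commutatorElement_def]; group
  have hBM : ⁅B, M⁆ ≤ A ⊓ V := commutator_le.mpr fun b hb m hm => by
    obtain ⟨b', hb', k⟩ := (mF _).mp ((mB b).mp hb).2
    have : M ≤ St (A ⊓ V) b := cm_le_iff.mpr fun a ha => ⟨hHAV (hn a ha), by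
      rw [← commutatorElement_inv, F₁ b hb.1 b' hb' k a ha]
      exact inv_mem (hAV' a ha _ (hk b' hb'))⟩
    rw [← commutatorElement_inv]
    exact inv_mem (this hm).2
  have nb : ∀ X : Subgroup G, X ≤ N((⊥ : Subgroup G)) := fun X => le_top.trans (normal_iff_top_le.mp inferInstance)
  have hBC : B ≤ C(⁅M, A⁆) := le_centralizer_iff.mp (commutator_eq_bot_iff_le_centralizer.mp (le_bot_iff.mp
    (three_subgroups (nb _) (nb _) (nb _)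
      (by rw [commutator_eq_bot_iff_le_centralizer.mpr (hA.abExp.le_centralizer.trans (centralizer_anti inf_le_left)),
        commutator_bot_left])
      ((commutator_mono (hBM.trans inf_le_left) le_rfl).trans
        (commutator_eq_bot_iff_le_centralizer.mpr hA.abExp.le_centralizer).le))))
  have hBZ : B ≤ C(Z) := by
    rw [hZ, centralizer_sup]
    exact le_inf hBC ((le_inf inf_le_left hBC).trans h₇)
  let S : Set G := {t | ∃ b ∈ A, ∃ b' ∈ A, ⁅y, ⁅y, b'⁆⁆⁻¹ * ⁅y, b⁆ ∈ A ⊓ H ∧ (⁅y, b'⁆ * ⁅y, b'⁆)⁻¹ * b = t}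
  have hSZ : ∀ t ∈ S, t ∈ C(Z) := by
    rintro _ ⟨b, hb, b', hb', k, rfl⟩
    exact mul_mem (inv_mem (le_centralizer_iff.mp hZC (mul_mem (hn b' hb') (hn b' hb'))))
      (hBZ ((mB b).mpr ⟨hb, (mF _).mpr ⟨b', hb', k⟩⟩))
  have hNS : N₀ ≤ C(closure S) := by
    rw [centralizer_closure]
    intro m hm t ht
    obtain ⟨a, ha, ka, z, hz, rfl⟩ := decN m hm
    have k₁ := hSZ t ht z hz
    obtain ⟨b, hb, b', hb', k, rfl⟩ := ht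
    rw [← mul_assoc, F₂ b hb b' hb' k a ha, c1 hb' ka, one_mul, mul_assoc, ← k₁, mul_assoc]
  have abS : closure S ≤ C(closure S) := by
    rw [centralizer_closure]
    refine (closure_le _).mpr fun t' ht' t ht => ?_
    obtain ⟨b, hb, b', hb', k, rfl⟩ := ht
    obtain ⟨d, hd, d', hd', k', rfl⟩ := ht'
    have e₁ := F₂ b hb b' hb' k d' hd'
    have e₂ := F₁ d hd d' hd' k' b' hb'
    have hc := hAV' b' hb' _ (hk d' hd')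
    have e₃ := cz (hVZ hc.2) (hn b' hb')
    have e₄ := cz (hVZ hc.2) (hn d' hd')
    have e₆ := hA.abExp.comm hb hd
    generalize ⁅b', ⁅y, ⁅y, d'⁆⁆⁆ = c at *
    generalize ⁅y, b'⁆ = u at *
    generalize ⁅y, d'⁆ = v at *
    exact tw e₁ e₂ e₃ e₄ e₆
  -- counting
  set P := N₀ ⊔ closure S with hP
  have hPH : P ≤ H ⊔ A := sup_le (inf_le_left.trans le_sup_left) ((closure_le _).mpr (by
    rintro _ ⟨b, hb, b', hb', -, rfl⟩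
    exact mul_mem_sup (inv_mem (mul_mem (hn b' hb') (hn b' hb'))) hb))
  have c₀ : Nat.card P ≤ Nat.card A := hA.card_le (hPH.trans (sup_le hHT hA.le))
    (abN.sup ⟨fun a ha b hb => abS hb a ha, fun a _ => pow_zero a⟩ hNS)
  have c₁ := card_sup_mul_card_inf (hPH.trans (sup_le le_normalizer hAH))
  have c₂ := card_sup_mul_card_inf ((inf_le_left : B ≤ A).trans hAH)
  have c₃ : Nat.card ↥(B ⊔ H) ≤ Nat.card ↥(P ⊔ H) := card_le_of_le (sup_le (fun b hb => by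
    obtain ⟨b', hb', k⟩ := (mF _).mp ((mB b).mp hb).2
    rw [← mul_inv_cancel_left (⁅y, b'⁆ * ⁅y, b'⁆) b]
    exact mul_mem (mem_sup_right (mul_mem (hn b' hb') (hn b' hb')))
      (mem_sup_left (mem_sup_right (subset_closure ⟨b, hb.1, b', hb', k, rfl⟩)))) le_sup_right)
  have c₄ : Nat.card N₀ ≤ Nat.card ↥(P ⊓ H) := card_le_of_le (le_inf le_sup_left inf_le_left)
  rw [show B ⊓ H = A ⊓ H from le_antisymm (inf_le_inf_right _ inf_le_left) (le_inf hEB inf_le_right)] at c₂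
  have c₅ := card_mul_relIndex hFN
  have c₆ := card_mul_relIndex hEF
  have c₇ := card_mul_relIndex hBK
  have c₈ := card_mul_relIndex (inf_le_left : K ≤ A)
  have ninv : ∀ a b : G, ⁅y, a⁻¹ * b⁆ = a⁻¹ * (⁅y, a⁆⁻¹ * ⁅y, b⁆) * a⁻¹⁻¹ := fun a b => by
    simp only [commutatorElement_def]; group
  have d₁ := (count (H := A) (K := K) (H' := F) (K' := A ⊓ H) (fun a => ⁅y, ⁅y, a⁆⁆)
    (fun a ha => (mF _).mpr ⟨a, ha, by rw [inv_mul_cancel]; exact one_mem _⟩) (fun a ha b hb k => by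
      refine (mK _).mpr ⟨mul_mem (inv_mem ha) hb, ?_⟩
      rw [ninv]
      refine (mem_normalizer_iff.mp (hAN (inv_mem ha)) _).mp ((mN _).mpr ⟨mul_mem (inv_mem (hn a ha)) (hn b hb), ?_⟩)
      have e := yadd _ (hn a ha) _ (mul_mem (inv_mem (hn a ha)) (hn b hb))
      rw [mul_inv_cancel_left] at e
      rw [← inv_mul_eq_iff_eq_mul.mpr e]
      exact k.1)).1
  obtain ⟨d₂, d₃⟩ := count (H := K) (K := B) (H' := N₀) (K' := F) (fun a => ⁅y, a⁆)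
    (fun a ha => ((mK a).mp ha).2) (fun a ha b hb k => by
      refine (mB _).mpr ⟨mul_mem (inv_mem ha.1) hb.1, ?_⟩
      rw [ninv]
      exact (mem_normalizer_iff.mp (hAF (inv_mem ha.1)) _).mp k)
  have d₄ : F.relIndex N₀ ≤ B.relIndex K := by
    have p₁ : 0 < Nat.card H := Nat.card_pos
    have p₂ : 0 < Nat.card B := Nat.card_pos
    have p₃ : 0 < Nat.card ↥(A ⊓ H) := Nat.card_pos
    have p₄ : 0 < (A ⊓ H).relIndex F := Nat.pos_of_ne_zero fun e => by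
      rw [e, mul_zero] at c₆; exact Nat.card_pos.ne c₆
    refine Nat.le_of_mul_le_mul_left (c := Nat.card H * Nat.card B * Nat.card ↥(A ⊓ H) * (A ⊓ H).relIndex F) ?_
      (by positivity)
    calc _ = Nat.card ↥(B ⊔ H) * Nat.card N₀ * Nat.card ↥(A ⊓ H) := by
          rw [← c₅, ← c₆, mul_comm (Nat.card H), ← c₂]; ring
      _ ≤ Nat.card ↥(P ⊔ H) * Nat.card ↥(P ⊓ H) * Nat.card ↥(A ⊓ H) := by gcongr
      _ ≤ Nat.card A * Nat.card H * Nat.card ↥(A ⊓ H) := by rw [c₁]; gcongr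
      _ ≤ Nat.card B * B.relIndex K * (A ⊓ H).relIndex F * Nat.card H * Nat.card ↥(A ⊓ H) := by
          rw [← c₈, ← c₇]; gcongr
      _ = _ := by ring
  intro z hz
  obtain ⟨a, ha, k⟩ := d₃ d₄ z (hZN (mem_sup_left hz))
  obtain ⟨b, hb, k'⟩ := (mF _).mp k
  refine ⟨a, ha.1, _, k'.1, _, hk b hb, ?_⟩
  rw [mul_assoc, cz (hVZ (hk b hb)) k'.2]
  group

end Cfsg.Agent.Lib.JTrR2
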