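import Cfsg.Agent.Lib.JTrPar
import Cfsg.Agent.Lib.JTrR2

/-!
A largest abelian subgroup outside `Q` of small degree on `U / [U, Q]`.
-/

set_option autoImplicit false

open Subgroup Cfsg Cfsg.Agent.Lib.PCoreConj Cfsg.Agent.Lib.PCore Cfsg.Agent.Lib.PCoreResidual
open Cfsg.Agent.Lib.TrCtrl Cfsg.Agent.Lib.TrAvg Cfsg.Agent.Lib.TrDeg Cfsg.Agent.Lib.ThompsonJ Cfsg.Agent.Lib.JRepl
open scoped Pointwise commutatorElement

local notation "C(" X ")" => centralizer (SetLike.coe (X : Subgroup _))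
local notation "N(" X ")" => normalizer (SetLike.coe (X : Subgroup _))
local notation "it" => iterCommutator

theorem Cfsg.Agent.Lib.JTrCore.fin {G : Type*} [Group G] [Finite G] {p : ℕ} [Fact p.Prime]
    {T A V Q Y : Subgroup G} {y : G} (hT : IsPGroup p T) (hA : A ≤ T) (hA' : A ≤ C(A)) (hM : cm y A ≤ T)
    (h₁ : ⁅V, A⁆ ≤ A ⊓ V) (h₄ : ⁅cm y A, A⁆ ⊔ V ⊔ A ⊓ (cm y A ⊔ V) ≤ C(cm y A ⊔ V))
    (star : ∀ y' ∈ cm y A, ¬ cm y' A ≤ A → A ⊓ C(cm y' A) ≤ Q)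
    (hY : A ≤ N(Y)) (hVY : V ≤ Y) (hQ : ∀ a ∈ A ⊓ Q, ⁅y, a⁆ ∈ Y)
    (hz : ∀ z ∈ ⁅cm y A, A⁆, ∃ a ∈ A, ∃ e ∈ A, ∃ w ∈ V, z = ⁅y, a⁆ * e * w) : it (cm y A) A 2 ≤ Y := by
  set M := cm y A with hMd
  have hAM : A ≤ N(M) := le_normalizer_cm y A
  have hAb : ⁅A, A⁆ = ⊥ := commutator_eq_bot_iff_le_centralizer.mpr hA'
  have cA : ∀ {a b : G}, a ∈ A → b ∈ A → a * b = b * a := fun ha hb => hA' hb _ ha
  have hMM : ⁅M, A⁆ ≤ M := commutator_le_left_of_le_normalizer hAM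
  have c₂ : ⁅M, A⁆ ≤ C(M ⊔ V) := (le_sup_left.trans le_sup_left).trans h₄
  have cV : V ≤ C(M ⊔ V) := (le_sup_right.trans le_sup_left).trans h₄
  have cE : A ⊓ (M ⊔ V) ≤ C(M ⊔ V) := le_sup_right.trans h₄
  have hAV : A ≤ N(V) := le_normalizer_of_commutator_le (h₁.trans inf_le_right)
  have hAN : A ≤ N(M ⊔ V) := le_normalizer_sup hAM hAV
  by_cases h0 : it M A 2 = ⊥
  · exact h0.le.trans bot_le
  refine commutator_le.mpr fun z hz₂ c hc => ?_
  obtain ⟨a, ha, e, he, w, hw, hze⟩ := hz z hz₂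
  have haQ : a ∈ Q := by
    have hn : ⁅y, a⁆ ∈ M := mem_cm ha
    have he' : e ∈ M ⊔ V := by
      rw [show e = ⁅y, a⁆⁻¹ * z * w⁻¹ by rw [hze]; group]
      exact mul_mem (mul_mem (mem_sup_left (inv_mem hn)) (mem_sup_left (hMM hz₂))) (mem_sup_right (inv_mem hw))
    have hna : ⁅y, a⁆ = z * w⁻¹ * e⁻¹ := by rw [hze]; group
    have hnC : ⁅y, a⁆ ∈ C(M ⊔ V) :=
      hna ▸ mul_mem (mul_mem (c₂ hz₂) (inv_mem (cV hw))) (inv_mem (cE ⟨he, he'⟩))
    set K := it M A 2 ⊔ A ⊓ V with hK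
    have hKC : K ≤ C(M ⊔ V) := sup_le ((it_antitone hAM (by omega : 1 ≤ 2)).trans c₂)
      ((inf_le_inf_left A le_sup_right).trans cE)
    have hMK : M ≤ N(K) := le_normalizer_of_le_centralizer (le_sup_left.trans (le_centralizer_iff.mp hKC))
    have hAK : A ≤ N(K) := le_normalizer_sup (le_normalizer_it hAM le_normalizer 2)
      (le_normalizer_inf le_normalizer hAV)
    have s₁ : M ≤ St K a := cm_le_iff.mpr fun b hb => ⟨hMK (mem_cm hb), by
      have hb' : ⁅y, b⁆ ∈ M := mem_cm hb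
      have q₀ : ⁅y, a * b⁆ = ⁅y, b * a⁆ := by rw [cA ha hb]
      have q₁ : a * ⁅y, b⁆ * a⁻¹ = ⁅y, a⁆⁻¹ * (⁅y, b⁆ * (b * ⁅y, a⁆ * b⁻¹)) := by
        calc _ = ⁅y, a⁆⁻¹ * ⁅y, a * b⁆ := by simp only [commutatorElement_def]; group
          _ = _ := by rw [q₀]; simp only [commutatorElement_def]; group
      have q₂ : ⁅y, b⁆ * (b * ⁅y, a⁆ * b⁻¹) = (b * ⁅y, a⁆ * b⁻¹) * ⁅y, b⁆ :=
        (mem_normalizer_iff.mp (le_normalizer_centralizer hAN hb) _).mp hnC _ (mem_sup_left hb')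
      have q₃ : ⁅z⁻¹, b⁆ ∈ K := mem_sup_left (commutator_mem_commutator (inv_mem hz₂) hb)
      have q₄ : w * ⁅z⁻¹, b⁆ = ⁅z⁻¹, b⁆ * w := hKC q₃ w (mem_sup_right hw)
      have q₅ : ⁅⁅y, b⁆, a⁆ = (e * (⁅z⁻¹, b⁆ * ⁅w, b⁆) * e⁻¹)⁻¹ := by
        have q₆ := hnC _ (mem_sup_left hb')
        calc _ = ⁅y, b⁆ * (a * ⁅y, b⁆ * a⁻¹)⁻¹ := by generalize ⁅y, b⁆ = n; simp only [commutatorElement_def]; group
          _ = ⁅y, b⁆ * (⁅y, b⁆ * (b * ⁅y, a⁆ * b⁻¹))⁻¹ * ⁅y, a⁆ := by rw [q₁]; group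
          _ = (⁅y, b⁆ * ((b * ⁅y, a⁆ * b⁻¹))⁻¹ * ⁅y, b⁆⁻¹) * ⁅y, a⁆ := by group
          _ = (b * ⁅y, a⁆ * b⁻¹)⁻¹ * ⁅y, a⁆ := by
            congr 1
            rw [mul_inv_eq_iff_eq_mul, mul_inv_eq_iff_eq_mul, mul_assoc, q₂, inv_mul_cancel_left]
          _ = (e * (w * ⁅z⁻¹, b⁆ * w⁻¹ * ⁅w, b⁆) * (b * e⁻¹ * b⁻¹))⁻¹ := by
            rw [hna]; simp only [commutatorElement_def]; group
          _ = _ := by rw [q₄, cA hb (inv_mem he)]; group
      rw [q₅]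
      exact inv_mem ((mem_normalizer_iff.mp (hAK he) _).mp
        (mul_mem q₃ (mem_sup_right (h₁ (commutator_mem_commutator hw hb)))))⟩
    have s₂ : ⁅zpowers a, M⁆ ≤ K := by
      rw [commutator_comm]
      refine commutator_le.mpr fun m hm x hx => ?_
      have : zpowers a ≤ St K m := zpowers_le_of_mem ⟨hAK ha, by
        rw [← commutatorElement_inv]; exact inv_mem (s₁ hm).2⟩
      rw [← commutatorElement_inv]
      exact inv_mem (this hx).2
    have hza : zpowers a ≤ A := zpowers_le_of_mem ha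
    have s₃ : ∀ i, ⁅it M A (i + 1), zpowers a⁆ ≤ it M A (i + 3) := fun i => by
      have nM : ∀ i j, it M A i ≤ N(it M A (j + 1)) := fun i j => le_normalizer_of_le_centralizer
        ((it_le hAM i).trans (le_sup_left.trans (le_centralizer_iff.mp
          ((it_antitone hAM (by omega : 1 ≤ j + 1)).trans c₂))))
      have nA : ∀ j, A ≤ N(it M A j) := le_normalizer_it hAM le_normalizer
      have tr : ∀ X : Subgroup G, ⁅⁅A, zpowers a⁆, X⁆ ≤ ⊥ := fun X =>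
        (commutator_mono ((commutator_mono le_rfl hza).trans hAb.le) le_rfl).trans (commutator_bot_left X).le
      induction i with
      | zero =>
        refine three_subgroups (nM 0 2) (nA 3) (hza.trans (nA 3)) ((tr _).trans bot_le)
          ((commutator_mono s₂ le_rfl).trans ?_)
        rw [commutator_comm]
        refine commutator_sup_le ((it_le hAM 2).trans (nM 0 2)) (inf_le_left.trans (nA 3))
          (commutator_comm A _).le (((commutator_mono le_rfl inf_le_left).trans hAb.le).trans bot_le)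
      | succ i ih =>
        refine three_subgroups (nM _ (i + 3)) (nA _) (hza.trans (nA _)) ((tr _).trans bot_le) ?_
        rw [commutator_comm (zpowers a)]
        exact commutator_mono ih le_rfl
    obtain ⟨n, hb⟩ := exists_it_eq_bot (hT.to_le hM) (hT.to_le hA) hAM
    classical
    have hex : ∃ n, it M A (n + 3) = ⊥ := ⟨n, le_bot_iff.mp ((it_antitone hAM (by omega)).trans hb.le)⟩
    have hl := Nat.find_spec hex
    have hl' : it M A (Nat.find hex + 2) ≠ ⊥ := by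
      rcases hk : Nat.find hex with _ | k
      · exact h0
      · exact Nat.find_min hex (m := k) (by omega)
    generalize Nat.find hex = l at hl hl'
    obtain ⟨y', hy₁, hy₂⟩ : ∃ y' ∈ it M A l, ¬ cm y' A ≤ A := by
      by_contra! hh
      exact hl' (le_bot_iff.mp ((commutator_mono (commutator_le.mpr fun m hm b hb => hh m hm (mem_cm hb))
        le_rfl).trans hAb.le))
    refine star y' (it_le hAM l hy₁) hy₂ ⟨ha, ?_⟩
    have : cm y' A ≤ it M A (l + 1) := cm_le_iff.mpr fun b hb => commutator_mem_commutator hy₁ hb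
    exact centralizer_anti this (commutator_eq_bot_iff_le_centralizer'.mp (le_bot_iff.mp ((s₃ l).trans hl.le))
      (mem_zpowers a))
  subst hze
  have k₁ := hQ a ⟨ha, haQ⟩
  have k₂ : ⁅w, c⁆ ∈ Y := hVY (h₁ (commutator_mem_commutator hw hc)).2
  have e₁ : ⁅⁅y, a⁆ * e * w, c⁆ = ⁅y, a⁆ * (e * ⁅w, c⁆ * e⁻¹) * (c * ⁅y, a⁆⁻¹ * c⁻¹) := by
    generalize ⁅y, a⁆ = n
    calc _ = n * (e * ⁅w, c⁆ * e⁻¹) * (e * c * e⁻¹ * n⁻¹ * c⁻¹) := by simp only [commutatorElement_def]; group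
      _ = _ := by rw [cA he hc]; group
  rw [e₁]
  exact mul_mem (mul_mem k₁ ((mem_normalizer_iff.mp (hY he) _).mp k₂)) ((mem_normalizer_iff.mp (hY hc) _).mp (inv_mem k₁))

namespace Cfsg.Agent.Lib.JTrCore

variable {G : Type*} [Group G] {A B Y H : Subgroup G}

/-- the ascending series of `B / Y` under `A` -/
def L (A B Y : Subgroup G) : ℕ → Subgroup G
  | 0 => Y
  | i + 1 => B ⊓ ⨅ a ∈ A, St (L A B Y i) a

theorem L_le (hY : Y ≤ B) : ∀ i, L A B Y i ≤ B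
  | 0 => hY
  | _ + 1 => inf_le_left

theorem mem_L_aux (hY : Y ≤ B) (hB : ⁅B, B⁆ ≤ Y) {i : ℕ} (h : Y ≤ L A B Y i) {y : G} :
    y ∈ L A B Y (i + 1) ↔ y ∈ B ∧ cm y A ≤ L A B Y i := by
  have hn : B ≤ N(L A B Y i) :=
    le_normalizer_of_commutator_le (((commutator_mono (L_le hY i) le_rfl).trans hB).trans h)
  rw [cm_le_iff]
  refine ⟨fun hy => ⟨hy.1, fun a ha => (mem_iInf.mp (mem_iInf.mp hy.2 a) ha).2⟩, fun hy => ⟨hy.1, ?_⟩⟩
  exact mem_iInf.mpr fun a => mem_iInf.mpr fun ha => ⟨hn hy.1, hy.2 a ha⟩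

theorem le_L (hY : Y ≤ B) (hB : ⁅B, B⁆ ≤ Y) (hA : A ≤ N(Y)) (i : ℕ) : Y ≤ L A B Y i := by
  induction i with
  | zero => exact le_rfl
  | succ i ih =>
    exact fun y hy => (mem_L_aux hY hB ih).mpr ⟨hY hy, cm_le_iff.mpr fun a ha =>
      ih (commutator_le_left_of_le_normalizer hA (commutator_mem_commutator hy ha))⟩

theorem mem_L (hY : Y ≤ B) (hB : ⁅B, B⁆ ≤ Y) (hA : A ≤ N(Y)) {i : ℕ} {y : G} :
    y ∈ L A B Y (i + 1) ↔ y ∈ B ∧ cm y A ≤ L A B Y i := mem_L_aux hY hB (le_L hY hB hA i)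

theorem L_le_succ (hY : Y ≤ B) (hB : ⁅B, B⁆ ≤ Y) (hA : A ≤ N(Y)) (i : ℕ) : L A B Y i ≤ L A B Y (i + 1) := by
  induction i with
  | zero => exact le_L hY hB hA 1
  | succ i ih =>
    exact fun y hy => (mem_L hY hB hA).mpr ⟨L_le hY _ hy, ((mem_L hY hB hA).mp hy).2.trans ih⟩

theorem le_L_iff (hY : Y ≤ B) (hB : ⁅B, B⁆ ≤ Y) (hA : A ≤ N(Y)) (hA' : A ≤ N(B)) (k : ℕ) (hH : H ≤ B) :
    H ≤ L A B Y k ↔ it H A k ≤ Y := by
  induction k generalizing H with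
  | zero => exact Iff.rfl
  | succ k ih =>
    rw [add_comm k 1, it_add, ← ih (H := it H A 1)
      ((commutator_mono hH le_rfl).trans (commutator_le_left_of_le_normalizer hA')), add_comm 1 k]
    refine ⟨fun h => commutator_le.mpr fun x hx a ha => ((mem_L hY hB hA).mp (h hx)).2 (mem_cm ha),
      fun h x hx => (mem_L hY hB hA).mpr ⟨hH hx, cm_le_iff.mpr fun a ha => h (commutator_mem_commutator hx ha)⟩⟩

theorem L_le_of_stable (hY : Y ≤ B) (hB : ⁅B, B⁆ ≤ Y) (hA : A ≤ N(Y)) {m : ℕ}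
    (h : L A B Y (m + 1) ≤ L A B Y m) (n : ℕ) : L A B Y n ≤ L A B Y m := by
  induction n with
  | zero => exact le_L hY hB hA m
  | succ n ih =>
    exact fun y hy => h ((mem_L hY hB hA).mpr ⟨L_le hY _ hy, ((mem_L hY hB hA).mp hy).2.trans ih⟩)

theorem cm_le_commutator {y : G} (hy : y ∈ H) : cm y A ≤ ⁅H, A⁆ :=
  cm_le_iff.mpr fun _ ha => commutator_mem_commutator hy ha

theorem core {G : Type*} [Group G] [Finite G] {p : ℕ} [Fact p.Prime] (hp : p ≠ 2)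
    {S Q U : Subgroup G} (hS : IsPGroup p S) (hQ : Q ≤ S) [Q.Normal] [U.Normal] (hU : U ≤ Q)
    (h : ⁅⁅U, Q⁆, U⁆ = ⊥) (hJ : ¬ J 0 S ≤ Q) :
    ∃ A, A ≤ S ∧ ¬ A ≤ Q ∧ it U A 4 ≤ ⁅U, Q⁆ ∧
      ∀ B : Subgroup G, B.Normal → B ≤ U ⊓ C(U) → it B A 3 ≤ ⁅B, Q⁆ := by
  have nm : ∀ (X : Subgroup G) [X.Normal] (Y : Subgroup G), Y ≤ N(X) :=
    fun X hX _ => le_top.trans (normal_iff_top_le.mp hX)
  obtain ⟨A₀, hA₀, hq₀⟩ := exists_quad hS hQ (nm Q S) hJ
  obtain ⟨A, hA, ⟨hn, hq⟩, hmax⟩ := ZJ.exists_maxAb_max U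
    (fun A => ¬ A ≤ Q ∧ ∀ w ∈ Q ⊓ C(Q), ∀ x ∈ A, ⁅w, x⁆ ∈ A) hA₀ hq₀
  have hAA : A ≤ C(A) := hA.abExp.le_centralizer
  have hAb : ⁅A, A⁆ = ⊥ := commutator_eq_bot_iff_le_centralizer.mpr hAA
  have star : ∀ y : G, cm y A ≤ U → cm y A ≤ C(cm y A) → A ⊓ U ≤ C(cm y A) → ¬ cm y A ≤ A →
      A ⊓ C(cm y A) ≤ Q := fun y h₁ h₂ h₃ h₄ => by
    by_contra hc
    refine hmax _ (repl hA (h₁.trans (hU.trans hQ)) h₂).1 (lt_of_le_of_ne
      (le_inf ((le_inf inf_le_left h₃).trans le_sup_left) inf_le_right)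
      fun e => h₄ ((le_inf le_sup_right h₁).trans (e.ge.trans inf_le_left)))
      ⟨fun e => hc (le_sup_left.trans e), fun w hw x hx => ?_⟩
    obtain ⟨b, hb, m, hm, rfl⟩ :=
      (mem_sup_iff_of_le_normalizer (le_normalizer_of_le_centralizer inf_le_right)).mp hx
    have e : ⁅w, b * m⁆ = ⁅w, b⁆ := by
      have := hw.2 m (hU (h₁ hm))
      calc _ = w * b * (m * w⁻¹ * m⁻¹) * b⁻¹ := by simp only [commutatorElement_def]; group
        _ = _ := by rw [show m * w⁻¹ * m⁻¹ = w⁻¹ by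
          rw [mul_inv_eq_iff_eq_mul, mul_inv_eq_iff_eq_mul, mul_assoc, eq_inv_mul_iff_mul_eq, this],
          commutatorElement_def]
    rw [e]
    exact mem_sup_left ⟨hq w hw b hb.1, centralizer_anti (h₁.trans hU)
      (commutator_le_left (Q ⊓ C(Q)) ⊤ (commutator_mem_commutator hw (mem_top b))).2⟩
  refine ⟨A, hA.le, hn, ?_, fun B hB hBU => ?_⟩
  · set V := ⁅U, U⁆ with hV
    set W := ⁅U, Q⁆ with hW
    have hVQ : ⁅V, Q⁆ ≤ ⊥ := three_subgroups (nm _ _) (nm _ _) (nm _ _) h.le (by rw [commutator_comm Q]; exact h.le)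
    have hVU : V ≤ U := commutator_le_left U U
    have hVC : V ≤ C(Q) := commutator_eq_bot_iff_le_centralizer.mp (le_bot_iff.mp hVQ)
    have hQC : Q ≤ C(V) := le_centralizer_iff.mp hVC
    have hVA : ⁅V, A⁆ ≤ A := commutator_le.mpr fun w hw a ha => hq w ⟨hU (hVU hw), hVC hw⟩ a ha
    have hWU : W ≤ U := commutator_le_left U Q
    have hVW : V ≤ W := commutator_mono le_rfl hU
    have hc : ∀ j, ⁅A ⊓ U, it U A j⁆ ≤ it V A j := fun j => by
      have := comm_it_le (A := A) (e := 0) (P := A ⊓ U) (X := U) (P' := V) (T := ⊥) (Q := Q)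
        (inf_le_right.trans hU) hU (hVU.trans hU) (le_normalizer_inf le_normalizer (nm _ _)) (nm _ _) (nm _ _)
        (nm _ _) hVQ bot_le (commutator_mono inf_le_right le_rfl)
        ((commutator_mono ((commutator_mono inf_le_left le_rfl).trans hAb.le) le_rfl).trans
          (commutator_bot_left U).le) j 0
      rwa [sup_bot_eq, zero_add, Nat.sub_zero] at this
    have hc₁ : ⁅A ⊓ U, it U A 1⁆ ≤ A := (hc 1).trans hVA
    have hc₂ : A ⊓ U ≤ C(it U A 2) := commutator_eq_bot_iff_le_centralizer.mp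
      (le_bot_iff.mp ((hc 2).trans ((commutator_mono hVA le_rfl).trans hAb.le)))
    have mL : ∀ {i : ℕ} {y : G}, y ∈ L A U W (i + 1) ↔ y ∈ U ∧ cm y A ≤ L A U W i := mem_L hWU hVW (nm _ _)
    have lL : ∀ (k : ℕ) {H : Subgroup G}, H ≤ U → (H ≤ L A U W k ↔ it H A k ≤ W) :=
      fun k _ hH => le_L_iff hWU hVW (nm _ _) (nm _ _) k hH
    rw [← lL 4 le_rfl]
    obtain ⟨n, hb⟩ := exists_it_eq_bot (hS.to_le (hU.trans hQ)) (hS.to_le hA.le) (nm U A)
    refine ((lL n le_rfl).mpr (hb.le.trans bot_le)).trans (L_le_of_stable hWU hVW (nm _ _) (fun x hx => ?_) n)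
    have hxU := (mL.mp hx).1
    refine mL.mpr ⟨hxU, cm_le_iff.mpr fun g hg => ?_⟩
    have hP : cm x A ⊔ zpowers x ≤ L A U W 5 :=
      sup_le ((mL.mp hx).2.trans (L_le_succ hWU hVW (nm _ _) 4)) (zpowers_le_of_mem hx)
    have hPU : cm x A ⊔ zpowers x ≤ U := hP.trans (L_le hWU 5)
    obtain ⟨p₁, p₂⟩ := JTrPar.par hp (hS.to_le (hU.trans hQ)) hAA (nm U A) (nm W A)
      (le_inf hWU (commutator_eq_bot_iff_le_centralizer.mp h)) hVW hVA hxU ((lL 5 hPU).mp hP)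
    set P := cm x A ⊔ zpowers x
    have hy : ⁅x, g⁆ ∈ it P A 1 := commutator_mem_commutator (mem_sup_right (mem_zpowers x)) hg
    generalize ⁅x, g⁆ = y at hy
    have hy' : y ∈ it U A 1 := it_mono hPU le_rfl 1 hy
    have hyU : y ∈ U := it_le (nm U A) 1 hy'
    have hM : cm y A ≤ it P A 2 := cm_le_commutator hy
    have hM' : cm y A ≤ it U A 2 := cm_le_commutator hy'
    have hMU : cm y A ≤ U := hM'.trans (it_le (nm U A) 2)
    have hM₂ : ⁅cm y A, A⁆ ≤ it P A 3 := commutator_mono hM le_rfl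
    have hMM : ⁅cm y A, A⁆ ≤ cm y A := commutator_le_left_of_le_normalizer (le_normalizer_cm y A)
    have hMC : ⁅cm y A, A⁆ ≤ C(cm y A) :=
      hM₂.trans ((commutator_eq_bot_iff_le_centralizer.mp p₂).trans (centralizer_anti hM))
    have hAC : A ⊓ U ≤ C(cm y A) := hc₂.trans (centralizer_anti hM')
    have hMV : cm y A ⊔ V ≤ U := sup_le hMU hVU
    have h₁ : ⁅V, A⁆ ≤ A ⊓ V := le_inf hVA (commutator_le_left V A)
    have h₄ : ⁅cm y A, A⁆ ⊔ V ⊔ A ⊓ (cm y A ⊔ V) ≤ C(cm y A ⊔ V) := le_centralizer_iff.mp (sup_le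
      (le_centralizer_iff.mp (sup_le (sup_le hMC (hVC.trans (centralizer_anti (hMU.trans hU))))
        ((inf_le_inf_left A hMV).trans hAC)))
      (hVC.trans (centralizer_anti ((sup_le (sup_le (hMM.trans hMU) hVU) (inf_le_right.trans hMV)).trans hU))))
    have st : ∀ y' ∈ cm y A, ¬ cm y' A ≤ A → A ⊓ C(cm y' A) ≤ Q := fun y' hy' =>
      have a := cm_le_commutator (A := A) hy'
      star y' (a.trans (hMM.trans hMU)) (a.trans (hMC.trans (centralizer_anti (a.trans hMM))))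
        (hAC.trans (centralizer_anti (a.trans hMM)))
    refine mL.mpr ⟨hyU, (lL 2 hMU).mpr ?_⟩
    by_cases hMA : ⁅cm y A, A⁆ ≤ A
    · exact ((commutator_mono hMA le_rfl).trans hAb.le).trans bot_le
    obtain ⟨y', hy₁, hy₂⟩ : ∃ y' ∈ cm y A, ¬ cm y' A ≤ A := by
      by_contra! hh
      exact hMA (commutator_le.mpr fun m hm a ha => hh m hm (mem_cm ha))
    refine JTrCore.fin hS hA.le hAA (hMU.trans (hU.trans hQ)) h₁ h₄ st (nm W A) hVW
      (fun a ha => commutator_mem_commutator hyU ha.2)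
      (JTrR2.r2 hp hS hA (hMU.trans (hU.trans hQ)) (hVU.trans (hU.trans hQ)) h₁
        (fun w hw => commutatorElement_eq_one_iff_mul_comm.mpr (hVC hw y (hU hyU)))
        (fun m hm => commutator_mem_commutator hyU (hMU hm)) h₄
        (fun m hm => p₁ (commutator_mem_commutator hy (hM₂ hm))) (fun e he => ?_)
        (((inf_le_inf_left A (centralizer_anti (cm_le_commutator hy₁))).trans (st y' hy₁ hy₂)).trans hQC))
    rw [← commutatorElement_inv]
    exact inv_mem (hc₁ (commutator_mem_commutator ⟨he.1, hMV he.2⟩ hy'))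
  · have hBU' : B ≤ U := hBU.trans inf_le_left
    have hBC : B ≤ C(U) := hBU.trans inf_le_right
    have hYB : ⁅B, Q⁆ ≤ B := commutator_le_left B Q
    have hBB : ⁅B, B⁆ ≤ ⁅B, Q⁆ := commutator_mono le_rfl (hBU'.trans hU)
    rw [← le_L_iff hYB hBB (nm _ _) (nm _ _) 3 le_rfl]
    intro y hy
    have hMB : cm y A ≤ B := (cm_le_commutator hy).trans (commutator_le_left B A)
    have hMV : cm y A ⊔ ⊥ ≤ B := sup_le hMB bot_le
    have hMM : ⁅cm y A, A⁆ ≤ cm y A := commutator_le_left_of_le_normalizer (le_normalizer_cm y A)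
    have h₁ : ⁅(⊥ : Subgroup G), A⁆ ≤ A ⊓ ⊥ := (commutator_bot_left A).le.trans bot_le
    have h₄ : ⁅cm y A, A⁆ ⊔ ⊥ ⊔ A ⊓ (cm y A ⊔ ⊥) ≤ C(cm y A ⊔ ⊥) :=
      (sup_le (sup_le (hMM.trans hMB) bot_le) (inf_le_right.trans hMV)).trans
        (hBC.trans (centralizer_anti (hMV.trans hBU')))
    have one : ∀ m ∈ B, ⁅y, m⁆ = 1 := fun m hm => commutatorElement_eq_one_iff_mul_comm.mpr (hBC hm y (hBU' hy))
    refine (mem_L hYB hBB (nm _ _)).mpr ⟨hy, (le_L_iff hYB hBB (nm _ _) (nm _ _) 2 hMB).mpr ?_⟩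
    refine JTrCore.fin hS hA.le hAA (hMB.trans (hBU'.trans (hU.trans hQ))) h₁ h₄ (fun y' hy' => ?_) (nm _ _) bot_le
      (fun a ha => commutator_mem_commutator hy ha.2)
      (JTrR2.r2 hp hS hA (hMB.trans (hBU'.trans (hU.trans hQ))) bot_le h₁ (fun w hw => one w (bot_le (a := B) hw))
        (fun m hm => mem_bot.mpr (one m (hMB hm))) h₄ (fun m hm => by rw [one m (hMB (hMM hm))]; exact one_mem _)
        (fun e he => by rw [one e (hMV he.2)]; exact one_mem _) (le_centralizer_iff.mp bot_le))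
    have a : cm y' A ≤ B := (cm_le_commutator hy').trans (hMM.trans hMB)
    exact star y' (a.trans hBU') (a.trans (hBC.trans (centralizer_anti (a.trans hBU'))))
      (inf_le_right.trans (le_centralizer_iff.mp (a.trans hBC)))

end Cfsg.Agent.Lib.JTrCore
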