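import Cfsg.Agent.Lib.TrDeg
import Cfsg.Agent.Lib.JRepl

/-! A parity argument for the commutator form on a class two group (part of S3068). -/

set_option autoImplicit false

open Subgroup Cfsg Cfsg.Agent.Lib.PCoreConj Cfsg.Agent.Lib.PCore Cfsg.Agent.Lib.PCoreResidual
open Cfsg.Agent.Lib.TrCtrl Cfsg.Agent.Lib.TrAvg Cfsg.Agent.Lib.TrDeg Cfsg.Agent.Lib.ThompsonJ Cfsg.Agent.Lib.JRepl
open Cfsg.Agent.Lib.PIrred Cfsg.Agent.Lib.FusionControl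
open scoped Pointwise commutatorElement

local notation "C(" X ")" => centralizer (SetLike.coe (X : Subgroup _))
local notation "N(" X ")" => normalizer (SetLike.coe (X : Subgroup _))
local notation "it" => iterCommutator

namespace Cfsg.Agent.Lib.JTrPar

variable {G : Type*} [Group G]

theorem cl {S : Set G} {L : Subgroup G} {a u : G} (hS : ∀ s ∈ S, s ∈ N(L) ∧ ⁅s, a⁆ ∈ L) (hu : u ∈ closure S) :
    u ∈ N(L) ∧ ⁅u, a⁆ ∈ L := by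
  induction hu using closure_induction with
  | mem s hs => exact hS s hs
  | one => exact ⟨one_mem _, by simp⟩
  | mul u v _ _ h1 h2 =>
    refine ⟨mul_mem h1.1 h2.1, ?_⟩
    have : ⁅u * v, a⁆ = u * ⁅v, a⁆ * u⁻¹ * ⁅u, a⁆ := by simp only [commutatorElement_def]; group
    rw [this]; exact mul_mem ((mem_normalizer_iff.1 h1.1 _).1 h2.2) h1.2
  | inv u _ h1 =>
    refine ⟨inv_mem h1.1, ?_⟩
    have : ⁅u⁻¹, a⁆ = u⁻¹ * ⁅u, a⁆⁻¹ * u⁻¹⁻¹ := by simp only [commutatorElement_def]; group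
    rw [this]; exact (mem_normalizer_iff.1 (inv_mem h1.1) _).1 (inv_mem h1.2)

theorem sw2 {w a c : G} (e : a * c = c * a) : ⁅⁅w, a⁆, c⁆ = ⁅⁅w, c⁆, a⁆ *
    ⁅a * w * a⁻¹ * (a * (c * w * c⁻¹) * a⁻¹)⁻¹, c * w * c⁻¹ * (a * w * a⁻¹)⁻¹⁆ := by
  have e1 : c * (a * w * a⁻¹) * c⁻¹ = a * (c * w * c⁻¹) * a⁻¹ := by
    calc _ = (c * a) * w * (c * a)⁻¹ := by group
      _ = _ := by rw [← e]; group
  calc _ = w * (a * w * a⁻¹)⁻¹ * (c * (a * w * a⁻¹) * c⁻¹) * (c * w * c⁻¹)⁻¹ := by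
        simp only [commutatorElement_def]; group
    _ = _ := by rw [e1]; simp only [commutatorElement_def]; group

set_option maxHeartbeats 800000 in
theorem par [Finite G] {p : ℕ} [Fact p.Prime] (hp : p ≠ 2)
    {A U W : Subgroup G} {x : G} (hU : IsPGroup p U) (hA : A ≤ C(A)) (h₁ : A ≤ N(U)) (h₂ : A ≤ N(W))
    (h₃ : W ≤ U ⊓ C(U)) (h₄ : ⁅U, U⁆ ≤ W) (h₅ : ⁅⁅U, U⁆, A⁆ ≤ A) (hx : x ∈ U)
    (h₆ : it (cm x A ⊔ zpowers x) A 5 ≤ W) :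
    ⁅it (cm x A ⊔ zpowers x) A 1, it (cm x A ⊔ zpowers x) A 3⁆ ≤ A ∧
      ⁅it (cm x A ⊔ zpowers x) A 3, it (cm x A ⊔ zpowers x) A 2⁆ = ⊥ := by
  set P := cm x A ⊔ zpowers x with hP
  have cj : ∀ a ∈ A, ∀ u ∈ U, a * u * a⁻¹ ∈ U := fun a ha u hu => (mem_normalizer_iff.1 (h₁ ha) u).1 hu
  have RU : ∀ a ∈ A, ∀ u ∈ U, ⁅u, a⁆ ∈ U := fun a ha u hu => by
    have : ⁅u, a⁆ = u * (a * u * a⁻¹)⁻¹ := by simp only [commutatorElement_def]; group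
    rw [this]; exact mul_mem hu (inv_mem (cj a ha u hu))
  have cU : cm x A ≤ U := cm_le_iff.2 fun a ha => RU a ha x hx
  have PU : P ≤ U := sup_le cU (zpowers_le_of_mem hx)
  have AP : A ≤ N(P) := by
    refine le_normalizer_iff_conj_le.2 fun a ha => ?_
    rw [hP, conj_sup, conj_zpowers]
    refine sup_le ((conj_eq_of_mem_normalizer (le_normalizer_cm x A ha)).le.trans le_sup_left)
      (zpowers_le_of_mem ?_)
    have : a * x * a⁻¹ = ⁅x, a⁆⁻¹ * x := by simp only [commutatorElement_def]; group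
    rw [this]; exact mul_mem_sup (inv_mem (mem_cm ha)) (mem_zpowers x)
  have Pi : ∀ i, it P A i ≤ U := fun i => (it_le AP i).trans PU
  have AV : A ≤ N(⁅U, U⁆) := le_normalizer_commutator h₁ h₁
  have WC : ∀ w ∈ W, ∀ u ∈ U, u * w = w * u := fun w hw u hu => mem_centralizer_iff.1 (h₃ hw).2 u hu
  have WU : ⁅W, U⁆ ≤ ⊥ := commutator_le.2 fun w hw u hu =>
    mem_bot.2 (commutatorElement_eq_one_iff_mul_comm.2 (WC w hw u hu).symm)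
  set T := A ⊓ ⁅U, U⁆ with hT
  have VA : ⁅⁅U, U⁆, A⁆ ≤ T := le_inf h₅ (commutator_le_left_of_le_normalizer AV)
  have TA : ⁅T, A⁆ ≤ ⊥ := commutator_le.2 fun t ht a ha =>
    mem_bot.2 (commutatorElement_eq_one_iff_mul_comm.2 (mem_centralizer_iff.1 (hA ha) t ht.1))
  have nrm : ∀ L : Subgroup G, L ≤ U → W ≤ L → U ≤ N(L) := fun L k1 k2 =>
    le_normalizer_of_commutator_le (((commutator_mono k1 le_rfl).trans h₄).trans k2)
  have UT : U ≤ N(T) := le_normalizer_of_commutator_le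
    (((commutator_mono (inf_le_right.trans h₄) le_rfl).trans WU).trans bot_le)
  have AT : A ≤ N(T) := le_normalizer_inf le_normalizer AV
  have c5 : ⁅it P A 2, it P A 3⁆ ≤ T := by
    have := comm_it_le (e := 4) (Q := U) (P' := ⁅U, U⁆) (T := ⊥) PU PU (h₄.trans (h₃.trans inf_le_left)) AP AP AV
      (le_normalizer_of_commutator_le (by simp)) ((commutator_mono h₄ le_rfl).trans WU) bot_le
      (commutator_mono PU PU) ((commutator_mono h₆ PU).trans WU) 3 2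
    rw [sup_bot_eq] at this
    exact this.trans VA
  have fW : ∀ u ∈ U, ∀ v ∈ U, ⁅u, v⁆ ∈ W := fun u hu v hv => h₄ (commutator_mem_commutator hu hv)
  have bl : ∀ u ∈ U, ∀ u' ∈ U, ∀ v ∈ U, ⁅u * u', v⁆ = ⁅u, v⁆ * ⁅u', v⁆ := fun u hu u' hu' v hv => by
    have : ⁅u * u', v⁆ = u * ⁅u', v⁆ * u⁻¹ * ⁅u, v⁆ := by simp only [commutatorElement_def]; group
    rw [this, WC _ (fW u' hu' v hv) u hu, mul_inv_cancel_right, WC _ (fW u' hu' v hv) _ (h₃ (fW u hu v hv)).1]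
  have br : ∀ u ∈ U, ∀ v ∈ U, ∀ v' ∈ U, ⁅u, v * v'⁆ = ⁅u, v⁆ * ⁅u, v'⁆ := fun u hu v hv v' hv' => by
    have : ⁅u, v * v'⁆ = ⁅u, v⁆ * (v * ⁅u, v'⁆ * v⁻¹) := by simp only [commutatorElement_def]; group
    rw [this, WC _ (fW u hu v' hv') v hv, mul_inv_cancel_right]
  have il : ∀ u ∈ U, ∀ v ∈ U, ⁅u⁻¹, v⁆ = ⁅u, v⁆⁻¹ := fun u hu v hv =>
    eq_inv_of_mul_eq_one_left (by rw [← bl _ (inv_mem hu) u hu v hv]; simp)
  have ir : ∀ u ∈ U, ∀ v ∈ U, ⁅u, v⁻¹⁆ = ⁅u, v⁆⁻¹ := fun u hu v hv =>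
    eq_inv_of_mul_eq_one_left (by rw [← br u hu _ (inv_mem hv) v hv]; simp)
  have kl : ∀ u ∈ U, ∀ w ∈ W, ∀ v ∈ U, ⁅u * w, v⁆ = ⁅u, v⁆ := fun u hu w hw v hv => by
    rw [bl u hu w (h₃ hw).1 v hv, commutatorElement_eq_one_iff_mul_comm.2 (WC w hw v hv).symm, mul_one]
  have kr : ∀ u ∈ U, ∀ v ∈ U, ∀ w ∈ W, ⁅u, v * w⁆ = ⁅u, v⁆ := fun u hu v hv w hw => by
    rw [br u hu v hv w (h₃ hw).1, commutatorElement_eq_one_iff_mul_comm.2 (WC w hw u hu), mul_one]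
  have cm2 : ∀ w ∈ U, ∀ a ∈ A, ∀ c ∈ A, ∃ ω ∈ W, ⁅⁅w, a⁆, c⁆ = ⁅⁅w, c⁆, a⁆ * ω := fun w hw a ha c hc =>
    ⟨_, fW _ (mul_mem (cj a ha w hw) (inv_mem (cj a ha _ (cj c hc w hw)))) _
      (mul_mem (cj c hc w hw) (inv_mem (cj a ha w hw))), sw2 (mem_centralizer_iff.1 (hA hc) a ha)⟩
  have key : ∀ u ∈ it P A 1, ∀ v ∈ it P A 2, ∀ a ∈ A, ⁅u, ⁅v, a⁆⁆ * ⁅⁅u, a⁆, v⁆ ∈ T := fun u hu v hv a ha => by
    have hu' := Pi 1 hu
    have hv' := Pi 2 hv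
    have r := RU a ha u hu'
    have s := RU a ha v hv'
    have e1 : a * ⁅u, v⁆ * a⁻¹ = ⁅⁅u, a⁆⁻¹ * u, ⁅v, a⁆⁻¹ * v⁆ := by simp only [commutatorElement_def]; group
    rw [bl _ (inv_mem r) u hu' _ (mul_mem (inv_mem s) hv'), br _ (inv_mem r) _ (inv_mem s) v hv',
      br u hu' _ (inv_mem s) v hv', il _ r _ (inv_mem s), ir _ r _ s, il _ r v hv', ir u hu' _ s, inv_inv] at e1
    have k1 : ⁅⁅u, v⁆, a⁆ ∈ T := VA (commutator_mem_commutator (commutator_mem_commutator hu' hv') ha)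
    have k2 : ⁅⁅u, a⁆, ⁅v, a⁆⁆ ∈ T := c5 (commutator_mem_commutator (commutator_mem_commutator hu ha)
      (commutator_mem_commutator hv ha))
    have e2 : ⁅u, ⁅v, a⁆⁆ * ⁅⁅u, a⁆, v⁆ = ⁅⁅u, v⁆, a⁆ * ⁅⁅u, a⁆, ⁅v, a⁆⁆ := by
      rw [commutatorElement_def ⁅u, v⁆ a, mul_assoc ⁅u, v⁆, mul_assoc ⁅u, v⁆,
        show a * ⁅u, v⁆⁻¹ * a⁻¹ = (a * ⁅u, v⁆ * a⁻¹)⁻¹ by group, e1]
      group
    rw [e2]; exact mul_mem k1 k2
  have x0 : x ∈ it P A 0 := mem_sup_right (mem_zpowers x)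
  have x1 : ∀ a ∈ A, ⁅x, a⁆ ∈ it P A 1 := fun a ha => commutator_mem_commutator x0 ha
  have x2 : ∀ a ∈ A, ∀ b ∈ A, ⁅⁅x, a⁆, b⁆ ∈ it P A 2 := fun a ha b hb => commutator_mem_commutator (x1 a ha) hb
  have sw : ∀ a ∈ A, ∀ b ∈ A, ∀ c ∈ A, ∀ d ∈ A,
      ⁅⁅⁅x, b⁆, a⁆, ⁅⁅x, d⁆, c⁆⁆⁻¹ * ⁅⁅⁅x, b⁆, c⁆, ⁅⁅x, d⁆, a⁆⁆ ∈ T := fun a ha b hb c hc d hd => by
    have k1 := key _ (x1 b hb) _ (x2 d hd c hc) a ha
    have k2 := key _ (x1 b hb) _ (x2 d hd a ha) c hc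
    obtain ⟨ω, hω, e⟩ := cm2 _ (Pi 1 (x1 d hd)) a ha c hc
    rw [e, kr _ (Pi 1 (x1 b hb)) _ (RU a ha _ (Pi 2 (x2 d hd c hc))) ω hω] at k2
    convert mul_mem (inv_mem k1) k2 using 1
    group
  have sy : ∀ a ∈ A, ∀ b ∈ A, ∀ c ∈ A, ∀ d ∈ A,
      ⁅⁅⁅x, b⁆, a⁆, ⁅⁅x, d⁆, c⁆⁆ = ⁅⁅⁅x, a⁆, b⁆, ⁅⁅x, c⁆, d⁆⁆ := fun a ha b hb c hc d hd => by
    obtain ⟨ω, hω, e⟩ := cm2 x hx b hb a ha
    obtain ⟨ω', hω', e'⟩ := cm2 x hx d hd c hc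
    rw [e, kl _ (Pi 2 (x2 a ha b hb)) ω hω _ (Pi 2 (x2 d hd c hc)), e',
      kr _ (Pi 2 (x2 a ha b hb)) _ (Pi 2 (x2 c hc d hd)) ω' hω']
  have F : ∀ a ∈ A, ∀ b ∈ A, ∀ c ∈ A, ∀ d ∈ A, ⁅⁅⁅x, b⁆, a⁆, ⁅⁅x, d⁆, c⁆⁆ ∈ T := fun a ha b hb c hc d hd => by
    have k1 := sw a ha b hb c hc d hd
    have k2 := sw b hb c hc d hd a ha
    rw [sy c hc b hb a ha d hd] at k1
    rw [sy d hd c hc b hb a ha, ← commutatorElement_inv ⁅⁅x, b⁆, a⁆ ⁅⁅x, d⁆, c⁆] at k2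
    have k3 := inv_mem (mul_mem k1 k2)
    set f := ⁅⁅⁅x, b⁆, a⁆, ⁅⁅x, d⁆, c⁆⁆
    have hf : f ∈ U := (h₃ (fW _ (Pi 2 (x2 b hb a ha)) _ (Pi 2 (x2 d hd c hc)))).1
    rw [show ∀ g : G, (f⁻¹ * g * (g⁻¹ * f⁻¹))⁻¹ = f ^ 2 from fun g => by group] at k3
    obtain ⟨k, hk⟩ := hU ⟨f, hf⟩
    obtain ⟨m, hm⟩ := ((Fact.out : p.Prime).odd_of_ne_two hp).pow (n := k)
    have e : f ^ (2 * m + 1) = 1 := by rw [← hm]; exact congrArg Subtype.val hk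
    have e2 : f = ((f ^ 2) ^ m)⁻¹ := eq_inv_of_mul_eq_one_right (by rw [← pow_mul, ← pow_succ, e])
    rw [e2]; exact inv_mem (pow_mem k3 m)
  let S : Set G := {g | ∃ a ∈ A, ∃ b ∈ A, g = ⁅⁅x, b⁆, a⁆} ∪ W
  have SU : ∀ s ∈ S, s ∈ U := by
    rintro _ (⟨a, ha, b, hb, rfl⟩ | hw)
    exacts [Pi 2 (x2 b hb a ha), (h₃ hw).1]
  have WA : ∀ w ∈ W, ∀ a ∈ A, ⁅w, a⁆ ∈ W := fun w hw a ha =>
    commutator_le_left_of_le_normalizer h₂ (commutator_mem_commutator hw ha)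
  have n1 := nrm (cm x A ⊔ W) (sup_le cU (h₃.trans inf_le_left)) le_sup_right
  have P1 : it P A 1 ≤ cm x A ⊔ W := commutator_le.2 fun u hu a ha => by
    rw [hP, sup_eq_closure] at hu
    refine (cl ?_ hu).2
    rintro s (hs | ⟨k, rfl⟩)
    · exact ⟨n1 (cU hs), mem_sup_left (commutator_le_left_of_le_normalizer (le_normalizer_cm x A)
        (commutator_mem_commutator hs ha))⟩
    · have hk : x ^ k ∈ closure ({x} : Set G) := zpow_mem (subset_closure (Set.mem_singleton x)) k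
      exact cl (fun s hs => by rw [Set.mem_singleton_iff.1 hs]; exact ⟨n1 hx, mem_sup_left (mem_cm ha)⟩) hk
  have WS : W ≤ closure S := fun w hw => subset_closure (Or.inr hw)
  have n2 := nrm (closure S) ((closure_le _).2 SU) WS
  have P2 : it P A 2 ≤ closure S := commutator_le.2 fun u hu a ha => by
    have hu := P1 hu
    rw [sup_eq_closure] at hu
    refine (cl ?_ hu).2
    rintro s (hs | hs)
    · refine cl ?_ hs
      rintro _ ⟨b, hb, rfl⟩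
      exact ⟨n2 (RU b hb x hx), subset_closure (Or.inl ⟨a, ha, b, hb, rfl⟩)⟩
    · exact ⟨n2 (h₃ hs).1, WS (WA s hs a ha)⟩
  have c22 : ⁅it P A 2, it P A 2⁆ ≤ T := commutator_le.2 fun u hu v hv => by
    refine (cl (fun s hs => ⟨UT (SU s hs), ?_⟩) (P2 hu)).2
    rw [← commutatorElement_inv]
    refine inv_mem (cl (fun t ht => ⟨UT (SU t ht), ?_⟩) (P2 hv)).2
    rcases ht with ⟨a, ha, b, hb, rfl⟩ | hw
    · rcases hs with ⟨c, hc, d, hd, rfl⟩ | hw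
      · exact F a ha b hb c hc d hd
      · rw [commutatorElement_eq_one_iff_mul_comm.2 (WC s hw _ (Pi 2 (x2 b hb a ha)))]; exact one_mem _
    · rw [commutatorElement_eq_one_iff_mul_comm.2 (WC t hw _ (SU s hs)).symm]; exact one_mem _
  have cv : ∀ i j, ⁅⁅it P A i, it P A j⁆, A⁆ ≤ T := fun i j =>
    (commutator_mono (commutator_mono (Pi i) (Pi j)) le_rfl).trans VA
  have nb : ∀ L : Subgroup G, L ≤ N((⊥ : Subgroup G)) := fun L => le_normalizer_of_commutator_le (by simp)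
  have c31 : ⁅it P A 3, it P A 1⁆ ≤ T := three_subgroups ((Pi 2).trans UT) AT ((Pi 1).trans UT)
    (by rw [commutator_comm A]; exact c22) (cv 1 2)
  have c40 : ⁅it P A 4, it P A 0⁆ ≤ T := three_subgroups ((Pi 3).trans UT) AT ((Pi 0).trans UT)
    (by rw [commutator_comm A, commutator_comm]; exact c31) (cv 0 3)
  have c14 : ⁅it P A 1, it P A 4⁆ ≤ ⊥ := three_subgroups (nb _) (nb _) (nb _)
    (by rw [commutator_comm A]; exact (commutator_mono h₆ (Pi 0)).trans WU)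
    ((commutator_mono c40 le_rfl).trans TA)
  have c23 : ⁅it P A 2, it P A 3⁆ ≤ ⊥ := three_subgroups (nb _) (nb _) (nb _)
    (by rw [commutator_comm A, commutator_comm]; exact c14) ((commutator_mono c31 le_rfl).trans TA)
  exact ⟨by rw [commutator_comm]; exact c31.trans inf_le_left, by rw [commutator_comm]; exact le_bot_iff.1 c23⟩

end Cfsg.Agent.Lib.JTrPar
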