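import Cfsg.Agent.Lib.TrDeg
import Cfsg.Agent.Lib.JRepl

/-! The reduction step for the control of transfer by the Thompson subgroup. -/

set_option autoImplicit false

open Subgroup Cfsg Cfsg.Agent.Lib.PCoreConj Cfsg.Agent.Lib.PCore Cfsg.Agent.Lib.PCoreResidual
open Cfsg.Agent.Lib.TrCtrl Cfsg.Agent.Lib.TrAvg Cfsg.Agent.Lib.TrDeg Cfsg.Agent.Lib.ThompsonJ Cfsg.Agent.Lib.JRepl
open Cfsg.Agent.Lib.PIrred Cfsg.Agent.Lib.FusionControl
open scoped Pointwise commutatorElement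

local notation "C(" X ")" => centralizer (SetLike.coe (X : Subgroup _))
local notation "N(" X ")" => normalizer (SetLike.coe (X : Subgroup _))
local notation "it" => iterCommutator

universe u

theorem Cfsg.Agent.Lib.JTrRed.not_cfg {G : Type u} [Group G] [Finite G] {p : ℕ} [Fact p.Prime] {S M D : Subgroup G}
    (hp7 : 7 ≤ p) (c : Cfg p S M D) (h : N(J 0 S) ≤ M)
    (core : ∀ U : Subgroup G, U.Normal → U ≤ pCore p G → ⁅⁅U, pCore p G⁆, U⁆ = ⊥ → ¬ J 0 S ≤ pCore p G →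
      ∃ A, A ≤ S ∧ ¬ A ≤ pCore p G ∧ it U A 4 ≤ ⁅U, pCore p G⁆ ∧
        ∀ B : Subgroup G, B.Normal → B ≤ U ⊓ C(U) → it B A 3 ≤ ⁅B, pCore p G⁆) : False := by
  have nn : ∀ (X Y : Subgroup G) [Y.Normal], X ≤ N(Y) := fun X Y _ =>
    le_top.trans (normal_iff_top_le.mp inferInstance)
  have hQS := c.syl.pCore_le
  have hQp := pCore_isPGroup p G
  have hJ : ¬ J 0 S ≤ pCore p G := fun e => by
    rw [← J_eq_of_J_le e hQS] at h
    exact c.min.lt.not_ge (((nn ⊤ (pCore p G)).trans (normalizer_le_normalizer_J 0 _)).trans h)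
  have hQD : ¬ ⁅(⊤ : Subgroup G), pCore p G⁆ ≤ D := fun e =>
    c.min.lt.not_ge fun x hx => (c.mem x).mpr fun q hq => e (commutator_mem_commutator hx hq)
  obtain ⟨X, ⟨hXn, hXQ, hXD⟩, hmin⟩ := exists_minimal_of_wellFoundedLT
    (fun X : Subgroup G => X.Normal ∧ X ≤ pCore p G ∧ ¬ ⁅(⊤ : Subgroup G), X⁆ ≤ D)
    ⟨pCore p G, inferInstance, le_rfl, hQD⟩
  have fin : ∀ Y A : Subgroup G, Y.Normal → Y < X → A ≤ S → ¬ A ≤ pCore p G → it X A 6 ≤ Y → False := by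
    intro Y A hY hYX hA hAQ h6
    obtain ⟨g, hg, hgQ⟩ := SetLike.not_le_iff_exists.mp hAQ
    refine hXD (cfg_step c (Γ := {g | it X (zpowers g) (p - 1) ≤ Y}) (fun g hg x => ?_) (g := g) ?_ (hA hg) hgQ
      hYX.le hXQ (fun g hg _ => hg) ?_)
    · rw [Set.mem_setOf_eq, ← conj_zpowers, ← conj_eq_of_normal X x, ← conj_it]
      exact conj_le_of_normal hg x
    · exact (it_antitone (nn _ _) (show 6 ≤ p - 1 by omega)).trans
        ((it_mono le_rfl (zpowers_le.mpr hg) 6).trans h6)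
    · by_contra e
      exact hYX.not_ge (hmin ⟨hY, hYX.le.trans hXQ, e⟩ hYX.le)
  have hX0 : X ≠ ⊥ := fun e => hXD (by rw [e, commutator_bot_right]; exact bot_le)
  by_cases hab : ⁅X, X⁆ = ⊥
  · obtain ⟨A, h₁, h₂, -, h₄⟩ := core X hXn hXQ
      (le_bot_iff.mp (hab ▸ commutator_mono (commutator_le_left _ _) le_rfl)) hJ
    exact fin ⁅X, pCore p G⁆ A inferInstance (commutator_lt hQp (hQp.to_le hXQ) (nn _ _) hX0) h₁ h₂
      ((it_antitone (nn _ _) (show 3 ≤ 6 by omega)).trans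
        (h₄ X hXn (le_inf le_rfl (commutator_eq_bot_iff_le_centralizer.mp hab))))
  obtain ⟨U, ⟨hUn, hUX, hU⟩, hminU⟩ := exists_minimal_of_wellFoundedLT
    (fun U : Subgroup G => U.Normal ∧ U ≤ X ∧ ⁅U, X⁆ ≠ ⊥) ⟨X, hXn, le_rfl, hab⟩
  have hU0 : U ≠ ⊥ := fun e => hU (by rw [e, commutator_bot_left])
  have hUQ := hUX.trans hXQ
  have h1 : ⁅U, pCore p G⁆ < U := commutator_lt hQp (hQp.to_le hUQ) (nn _ _) hU0
  have h2 : ⁅⁅U, pCore p G⁆, X⁆ = ⊥ := by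
    by_contra e
    exact h1.not_ge (hminU ⟨inferInstance, h1.le.trans hUX, e⟩ h1.le)
  have h3 : ⁅⁅U, pCore p G⁆, U⁆ = ⊥ := le_bot_iff.mp (h2 ▸ commutator_mono le_rfl hUX)
  obtain ⟨A, h₁, h₂, h₃, h₄⟩ := core U hUn hUQ h3 hJ
  have hWn : ∀ j, (it ⁅U, pCore p G⁆ (pCore p G) j).Normal := it_normal
  have hWl : ∀ j, it ⁅U, pCore p G⁆ (pCore p G) j ≤ ⁅U, pCore p G⁆ := it_le (nn _ _)
  obtain ⟨n, hn⟩ := exists_it_eq_bot (hQp.to_le (h1.le.trans hUQ)) hQp (nn _ _)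
  have hd : ∃ d, ⁅U, X⁆ ≤ it ⁅U, pCore p G⁆ (pCore p G) d ∧
      ¬ ⁅U, X⁆ ≤ it ⁅U, pCore p G⁆ (pCore p G) (d + 1) := by
    by_contra! e
    have : ∀ d, ⁅U, X⁆ ≤ it ⁅U, pCore p G⁆ (pCore p G) d := fun d => by
      induction d with
      | zero => exact commutator_mono le_rfl hXQ
      | succ d ih => exact e d ih
    exact hU (le_bot_iff.mp (hn ▸ this n))
  obtain ⟨d, hd₁, hd₂⟩ := hd
  haveI := hWn d
  haveI := hWn (d + 1)
  haveI := stabD_normal (P := U) (T := it ⁅U, pCore p G⁆ (pCore p G) (d + 1))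
  refine fin (X ⊓ stabD U (it ⁅U, pCore p G⁆ (pCore p G) (d + 1))) A inferInstance
    (lt_of_le_of_ne inf_le_left fun e => hd₂ ?_) h₁ h₂ (le_inf (it_le (nn _ _) _) (le_stabD_iff.mpr ?_))
  · rw [commutator_comm]
    exact le_stabD_iff.mp (e.ge.trans inf_le_right)
  · rw [commutator_comm]
    refine (comm_it_le (e := 3) (Q := pCore p G) (P' := it ⁅U, pCore p G⁆ (pCore p G) d)
      (T := it ⁅U, pCore p G⁆ (pCore p G) (d + 1)) hUQ hXQ ((hWl d).trans (h1.le.trans hUQ)) (nn _ _) (nn _ _)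
      (nn _ _) (nn _ _) le_rfl (it_antitone (nn _ _) (by omega)) hd₁
      (((commutator_mono h₃ le_rfl).trans h2.le).trans bot_le) 6 0).trans (sup_le ?_ le_rfl)
    exact h₄ _ (hWn d) ((hWl d).trans (le_inf h1.le (commutator_eq_bot_iff_le_centralizer.mp h3)))
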