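import Cfsg.Agent.Lib.AP3c

/-! Interfaces for S3091 (the `L₃(q)` amalgam in characteristic 2 type). Plan: `notes/L3_plan.md`. -/

set_option autoImplicit false
set_option linter.unusedSectionVars false

namespace Cfsg.Agent.Lib.L3

open Cfsg Subgroup Cfsg.Agent.Lib.PCoreConj Cfsg.Agent.Lib.PCore Cfsg.Agent.Lib.PCoreResidual
  Cfsg.Agent.Lib.FTDefs Cfsg.Agent.Lib.AP Cfsg.Agent.Lib.AP3

universe u v

section
variable {G : Type*} [Group G] {F : Type} [Field F]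

/-- The two sides `K / W ≅ SL₂(F) ≅ K' / U` with the common Sylow subgroup `W ⊔ U`. -/
structure Tw [Fintype F] (m : ℕ) (K K' W U : Subgroup G) (a b a' b' : G → F) : Prop where
  loc : Loc G
  hm : 2 ≤ m
  hF : Fintype.card F = 2 ^ m
  p : Pre K W U a b
  p' : Pre K' U W a' b'
  D : W ⊓ C[K] = ⊥
  D' : U ⊓ C[K'] = ⊥
  NK : N[W] ≤ N[K]
  NK' : N[U] ≤ N[K']
  mx : ∀ P : Subgroup G, IsPGroup 2 P → P ≤ N[W] → K ≤ N[P] → P ≤ W
  mx' : ∀ P : Subgroup G, IsPGroup 2 P → P ≤ N[U] → K' ≤ N[P] → P ≤ U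
  cw : C[W] ≤ W
  cw' : C[U] ≤ U

theorem Tw.symm [Fintype F] {m : ℕ} {K K' W U : Subgroup G} {a b a' b' : G → F} (h : Tw m K K' W U a b a' b') :
    Tw m K' K U W a' b' a b :=
  ⟨h.loc, h.hm, h.hF, h.p', h.p, h.D', h.D, h.NK', h.NK, h.mx', h.mx, h.cw', h.cw⟩

/-- The global facts in the generic case. -/
structure Gd (W U : Subgroup G) : Prop where
  syl : IsSylowIn 2 (W ⊔ U) ⊤
  nW : N[W ⊔ U] ≤ N[W]
  nU : N[W ⊔ U] ≤ N[U]
  nY : N[W ⊓ U] ≤ N[W ⊔ U]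
  cy : ∀ y ∈ W ⊓ U, y ≠ 1 → c[y] ≤ N[W ⊔ U]

theorem Gd.symm {W U : Subgroup G} (h : Gd W U) : Gd U W :=
  ⟨sup_comm W U ▸ h.syl, sup_comm W U ▸ h.nU, sup_comm W U ▸ h.nW, sup_comm W U ▸ inf_comm W U ▸ h.nY,
    sup_comm W U ▸ inf_comm W U ▸ h.cy⟩

/-- One half of the relations of `SL₃(F)` in characteristic two: `x = x₁₂`, `y = x₂₃`, `z = x₁₃`,
`h l = diag(l, l⁻¹, 1)`, `k l = diag(1, l, l⁻¹)`, `n` the permutation matrix of `(1 2)`. -/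
structure Hr (x y z h k : F → G) (n : G) : Prop where
  xx : ∀ s t, x s * x t = x (s + t)
  xz : ∀ s t, x s * z t = z t * x s
  xy : ∀ s t, x s * y t = y t * x s * z (s * t)
  hh : ∀ l, l ≠ 0 → ∀ r, r ≠ 0 → h l * h r = h (l * r)
  hk : ∀ l, l ≠ 0 → ∀ r, r ≠ 0 → h l * k r = k r * h l
  hx : ∀ l, l ≠ 0 → ∀ t, h l * x t = x (l ^ 2 * t) * h l
  hy : ∀ l, l ≠ 0 → ∀ t, h l * y t = y (l⁻¹ * t) * h l
  hz : ∀ l, l ≠ 0 → ∀ t, h l * z t = z (l * t) * h l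
  nn : n * n = 1
  nz : ∀ t, n * z t * n = y t
  nh : ∀ l, l ≠ 0 → n * h l * n = h l⁻¹
  nk : ∀ l, l ≠ 0 → n * k l * n = h l * k l
  nx : ∀ t, t ≠ 0 → n * x t * n = x t⁻¹ * h t⁻¹ * n * x t⁻¹

/-- The relations of `SL₃(F)` in characteristic two; `m` is the permutation matrix of `(2 3)`. -/
structure Rel (x y z h k : F → G) (n m : G) : Prop where
  two : (2 : F) = 0
  zz : ∀ s t, z s * z t = z (s + t)
  l : Hr x y z h k n
  r : Hr y x z k h m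
  br : n * m * n = m * n * m

/-- the subgroup generated by the frame -/
def gen (x y : F → G) (n m : G) : Subgroup G := closure (Set.range x ∪ Set.range y ∪ {n, m})

end

/-- extraction from the hypotheses of S3091 -/
class Q0 : Prop where
  out : ∀ {G : Type u} [Group G] [Finite G] (_ : Cfsg.IsCharacteristicTwoType G)
    {F : Type v} [Field F] [Fintype F] (e : ℕ) (_ : 2 ≤ e) (_ : Fintype.card F = 2 ^ e)
    (L₁ L₂ : Subgroup G) (_ : L₁ ≠ L₂)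
    (φ₁ : ↥L₁ ⧸ Cfsg.pCore 2 ↥L₁ ≃* Matrix.SpecialLinearGroup (Fin 2) F)
    (ψ₁ : Additive ↥(Cfsg.pCore 2 ↥L₁) ≃+ (Fin 2 → F))
    (_ : ∀ (g : ↥L₁) (v : ↥(Cfsg.pCore 2 ↥L₁)),
      ψ₁ (Additive.ofMul ⟨g * v * g⁻¹, Subgroup.Normal.conj_mem inferInstance (v : ↥L₁) v.2 g⟩)
        = Matrix.mulVec ((φ₁ (QuotientGroup.mk g) : Matrix.SpecialLinearGroup (Fin 2) F) : Matrix (Fin 2) (Fin 2) F) (ψ₁ (Additive.ofMul v)))
    (φ₂ : ↥L₂ ⧸ Cfsg.pCore 2 ↥L₂ ≃* Matrix.SpecialLinearGroup (Fin 2) F)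
    (ψ₂ : Additive ↥(Cfsg.pCore 2 ↥L₂) ≃+ (Fin 2 → F))
    (_ : ∀ (g : ↥L₂) (v : ↥(Cfsg.pCore 2 ↥L₂)),
      ψ₂ (Additive.ofMul ⟨g * v * g⁻¹, Subgroup.Normal.conj_mem inferInstance (v : ↥L₂) v.2 g⟩)
        = Matrix.mulVec ((φ₂ (QuotientGroup.mk g) : Matrix.SpecialLinearGroup (Fin 2) F) : Matrix (Fin 2) (Fin 2) F) (ψ₂ (Additive.ofMul v)))
    (_ : ∃ S : Sylow 2 ↥L₁, (S : Subgroup ↥L₁).map L₁.subtype = (Cfsg.pCore 2 ↥L₁).map L₁.subtype ⊔ (Cfsg.pCore 2 ↥L₂).map L₂.subtype)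
    (_ : ∃ S : Sylow 2 ↥L₂, (S : Subgroup ↥L₂).map L₂.subtype = (Cfsg.pCore 2 ↥L₁).map L₁.subtype ⊔ (Cfsg.pCore 2 ↥L₂).map L₂.subtype)
    (_ : Cfsg.IsMaximalTwoLocal (Subgroup.normalizer (L₁ : Set G))) (_ : Cfsg.IsMaximalTwoLocal (Subgroup.normalizer (L₂ : Set G)))
    (T : Sylow 2 ↥(Subgroup.normalizer (L₁ : Set G)))
    (_ : Cfsg.pCore 2 ↥(((T : Subgroup ↥(Subgroup.normalizer (L₁ : Set G))).map (Subgroup.normalizer (L₁ : Set G)).subtype) ⊔ L₁ ⊔ L₂) = ⊥),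
    ∃ (E : Type) (_ : Field E) (_ : Fintype E) (_ : F ≃+* E) (K K' W U : Subgroup G) (a b a' b' : G → E),
      Tw e K K' W U a b a' b'

/-- the local analysis -/
class Q1 : Prop where
  out : ∀ {G : Type u} [Group G] [Finite G] {F : Type} [Field F] [Fintype F] {m : ℕ} {K K' W U : Subgroup G}
    {a b a' b' : G → F}, Tw m K K' W U a b a' b' → SectionalPRankLE 2 4 G ∨ (4 < 2 ^ m ∧ Gd W U)

/-- the frame -/
class Q2 : Prop where
  out : ∀ {G : Type u} [Group G] [Finite G] {F : Type} [Field F] [Fintype F] {m : ℕ} {K K' W U : Subgroup G}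
    {a b a' b' : G → F}, Tw m K K' W U a b a' b' → 4 < 2 ^ m → Gd W U →
    ∃ (x y z h k : F → G) (n n' : G), Rel x y z h k n n' ∧ gen x y n n' = K ⊔ K'

/-- the presentation of `SL₃(F)` -/
class Q3 : Prop where
  out : ∀ {G : Type u} [Group G] {F : Type} [Field F] {x y z h k : F → G} {n n' : G},
    Rel x y z h k n n' → ∃ φ : Matrix.SpecialLinearGroup (Fin 3) F →* G, φ.range = gen x y n n'

/-- the end of the proof -/
class Q4 : Prop where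
  out : ∀ {G : Type u} [Group G] [Finite G] {F : Type} [Field F] [Fintype F] {m : ℕ} {K K' W U : Subgroup G}
    {a b a' b' : G → F}, Tw m K K' W U a b a' b' → Gd W U →
    ∀ φ : Matrix.SpecialLinearGroup (Fin 3) F →* G, φ.range = K ⊔ K' →
    Nonempty (↥(Cfsg.generalizedFittingSubgroup G) ≃* Matrix.ProjectiveSpecialLinearGroup (Fin 3) F)

end Cfsg.Agent.Lib.L3
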