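import Mathlib
import Cfsg.Prelude.Def_ClassicalGeometry

/-!
Transvections in `SL_n(F)`: rank-one matrices and conjugacy into the standard root group.
-/

set_option autoImplicit false

namespace Cfsg.Agent.Lib.Transvec

open Matrix
open scoped LinearAlgebra.Projectivization

variable {F : Type*} [Field F] {ι : Type*} [Fintype ι] [DecidableEq ι]

theorem exists_vecMulVec_of_rank_le_one (N : Matrix ι ι F) (h : N.rank ≤ 1) :
    ∃ u w : ι → F, N = vecMulVec u w := by
  obtain ⟨u, hu⟩ := finrank_le_one_iff.1 h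
  have : ∀ j, ∃ c : F, c • (u : ι → F) = N *ᵥ Pi.single j 1 := fun j => by
    obtain ⟨c, hc⟩ := hu ⟨N *ᵥ Pi.single j 1, Pi.single j 1, rfl⟩
    exact ⟨c, congrArg Subtype.val hc⟩
  choose w hw using this
  refine ⟨u, w, ?_⟩
  ext i j
  have := congrFun (hw j) i
  simp only [Pi.smul_apply, smul_eq_mul, mulVec_single_one, col_apply] at this
  rw [vecMulVec_apply, ← this, mul_comm]

theorem exists_SL_mulVec_smul {v w : ι → F} (hv : v ≠ 0) (hw : w ≠ 0) :
    ∃ (g : SpecialLinearGroup ι F) (c : F), c ≠ 0 ∧ g.1 *ᵥ v = c • w := by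
  obtain ⟨g, hg⟩ := MulAction.exists_smul_eq (SpecialLinearGroup ι F)
    (Projectivization.mk F v hv) (Projectivization.mk F w hw)
  rw [Projectivization.smul_mk, Projectivization.mk_eq_mk_iff] at hg
  obtain ⟨c, hc⟩ := hg
  exact ⟨g, c, c.ne_zero, hc.symm⟩

theorem conj_into_root {t : SpecialLinearGroup ι F} (i₀ : ι) (hr : (t.1 - 1).rank = 1)
    (hs : (t.1 - 1) * (t.1 - 1) = 0) :
    ∃ (g : SpecialLinearGroup ι F) (v : ι → F), v i₀ = 0 ∧ v ≠ 0 ∧
      (g⁻¹ * t * g).1 = 1 + vecMulVec v (Pi.single i₀ 1) := by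
  obtain ⟨u, w, huw⟩ := exists_vecMulVec_of_rank_le_one _ hr.le
  have hN : t.1 - 1 ≠ 0 := by
    intro h; rw [h, rank_zero] at hr; exact zero_ne_one hr
  have hw : w ≠ 0 := by rintro rfl; exact hN (by rw [huw]; simp)
  have hu : u ≠ 0 := by rintro rfl; exact hN (by rw [huw]; simp)
  obtain ⟨k, c, hc, hk⟩ := exists_SL_mulVec_smul hw
    (w := Pi.single i₀ (1 : F)) (by simp)
  have ht : t.1 = 1 + vecMulVec u w := by rw [← huw]; abel
  have hwu : w ⬝ᵥ u = 0 := by
    rw [huw, vecMulVec_mul_vecMulVec, vecMulVec_eq_zero] at hs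
    rcases hs with h | h
    · exact absurd h hu
    · exact (smul_eq_zero.1 h).resolve_right hw
  have hwk : w ᵥ* k.transpose.1 = c • Pi.single i₀ 1 := by
    rw [← hk]; exact vecMul_transpose _ _
  have hinv : k.transpose.1 * (k.transpose⁻¹).1 = 1 :=
    congrArg Subtype.val (mul_inv_cancel k.transpose)
  have hinv' : (k.transpose⁻¹).1 * k.transpose.1 = 1 :=
    congrArg Subtype.val (inv_mul_cancel k.transpose)
  refine ⟨k.transpose, c • ((k.transpose⁻¹).1 *ᵥ u), ?_, ?_, ?_⟩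
  · have : (w ᵥ* k.transpose.1) ⬝ᵥ ((k.transpose⁻¹).1 *ᵥ u) = 0 := by
      rw [← dotProduct_mulVec, mulVec_mulVec, hinv, one_mulVec, hwu]
    rw [hwk] at this
    simpa using this
  · intro h
    apply hu
    have h1 := (smul_eq_zero.1 h).resolve_left hc
    rw [← one_mulVec u, ← hinv, ← mulVec_mulVec, h1, mulVec_zero]
  · change (k.transpose⁻¹).1 * t.1 * k.transpose.1 = _
    rw [ht, mul_add, add_mul, mul_one, hinv', mul_vecMulVec, vecMulVec_mul, hwk, vecMulVec_smul,
      smul_vecMulVec]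

end Cfsg.Agent.Lib.Transvec
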