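import Mathlib
import Cfsg.Agent.Lib.AutSLBasic
import Cfsg.Agent.Lib.Transvec

/-! Normal subgroups of `SL₃(F)`. -/

set_option autoImplicit false

namespace Cfsg.Agent.Lib.L3E

open Matrix Matrix.SpecialLinearGroup Cfsg.Agent.Lib.AutSLBasic

variable {F : Type*} [Field F] {N : Subgroup (SpecialLinearGroup (Fin 3) F)} {u h : SpecialLinearGroup (Fin 3) F}
  {v w χ ψ : Fin 3 → F}

theorem top_of_T (h : ∀ u v φ, T u v φ → u ∈ N) : N = ⊤ := by
  have h1 : ∀ i j (hij : i ≠ j) (a : F), SpecialLinearGroup.transvection hij a ∈ N :=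
    fun i j hij a => h _ (Pi.single i a) (Pi.single j 1) ⟨by simp [hij.symm], by
      rw [transvection_coe]
      ext; simp [vecMulVec, Pi.single_apply, single_apply]; grind⟩
  refine eq_top_iff.2 fun g _ => diagonal_transvection_induction' (· ∈ N) g (fun i j hij c hc => ?_) h1
    fun _ _ => mul_mem
  convert mul_mem (mul_mem (mul_mem (mul_mem (h1 i j hij c) (h1 j i hij.symm (-c⁻¹)))
    (h1 i j hij (c - 1))) (h1 j i hij.symm 1)) (h1 i j hij (-1))
  ext a b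
  simp [transvection_coe, mul_add, add_mul, single_mul_single_of_ne, hij, hij.symm, diag2n_coe,
    single_apply, one_apply, diagonal_apply]
  split_ifs <;> grind

theorem ann (x y : Fin 3 → F) : ∃ χ : Fin 3 → F, χ ≠ 0 ∧ χ ⬝ᵥ x = 0 ∧ χ ⬝ᵥ y = 0 := by
  classical
  obtain ⟨χ, h0, h⟩ := (Matrix.exists_mulVec_eq_zero_iff (M := of ![x, y, 0])).2
    (det_eq_zero_of_row_eq_zero 2 fun j => rfl)
  exact ⟨χ, h0, (dotProduct_comm _ _).trans (congrFun h 0), (dotProduct_comm _ _).trans (congrFun h 1)⟩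

theorem fixT (h : T u v χ) (k : ψ ⬝ᵥ v = 0) : ψ ᵥ* u.1 = ψ := by
  rw [h.val, vecMul_add, vecMul_one, vecMul_vecMulVec, k, zero_smul, add_zero]

theorem stepA [N.Normal] (hh : h ∈ N) (k : χ ᵥ* (h⁻¹).1 = χ) (hv : χ ⬝ᵥ v = 0) :
    ∃ u ∈ N, T u (h.1 *ᵥ v + -v) χ := by
  obtain ⟨t, ht⟩ := exists_T hv
  have h1 := ht.conj h
  rw [k] at h1
  exact ⟨_, by simpa [mul_assoc] using mul_mem hh (‹N.Normal›.conj_mem _ (inv_mem hh) t),
    h1.mul_right (u' := t⁻¹) ⟨by simp [hv], by rw [ht.inv.val, neg_vecMulVec, vecMulVec_neg]⟩⟩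

theorem stepB [N.Normal] (hh : h ∈ N) (t : T h v χ) (s : T u v ψ) (k : ¬ ∃ c : F, χ = c • ψ) : u ∈ N := by
  obtain ⟨w, w1, w2⟩ := exists_dual k
  obtain ⟨u', hu, t'⟩ := stepA hh (fixT t.inv s.dot) ((dotProduct_comm _ _).trans w2)
  rw [t.mulVec, dotProduct_comm, w1, one_smul, add_neg_cancel_comm] at t'
  exact t'.unique s ▸ hu

theorem normal_le [N.Normal] : N ≤ Subgroup.center _ ∨ N = ⊤ := by
  refine or_iff_not_imp_left.2 fun hn => ?_
  obtain ⟨g, hg, gc⟩ := SetLike.not_le_iff_exists.1 hn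
  obtain ⟨x, hx⟩ := not_forall.1 (mt (mem_center_of_par g) gc)
  obtain ⟨φ, p1, p2⟩ := exists_dual hx
  obtain ⟨t, ht⟩ := exists_T p2
  have hs := ht.conj g
  obtain ⟨χ, c0, c1, c2⟩ := ann x (g.1 *ᵥ x)
  obtain ⟨h, hh, th⟩ := stepA (N := N) (h := g * t * g⁻¹ * t⁻¹)
    (by simpa [mul_assoc] using mul_mem hg (‹N.Normal›.conj_mem _ (inv_mem hg) t))
    (by rw [_root_.mul_inv_rev, inv_inv, coe_mul, ← vecMul_vecMul, fixT ht c1, fixT hs.inv c2]) c2
  generalize hv : (g * t * g⁻¹ * t⁻¹).1 *ᵥ g.1 *ᵥ x + -(g.1 *ᵥ x) = v at th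
  have v0 : v ≠ 0 := fun e => by
    rw [e, add_neg_eq_zero, coe_mul, ← mulVec_mulVec, hs.mulVec, ht.inv.mulVec, neg_dotProduct, p1] at hv
    generalize φ ᵥ* (g⁻¹).1 ⬝ᵥ (g.1 *ᵥ x + (-1 : F) • x) = c at hv
    have := congrArg (φ ⬝ᵥ ·) hv
    simp only [dotProduct_add, dotProduct_smul, p1, p2, smul_eq_mul, mul_zero, add_zero, mul_one, add_eq_left] at this
    simp only [this, zero_smul, add_zero, add_eq_left, neg_smul, one_smul, neg_eq_zero] at hv
    exact hx ⟨0, by simp [hv]⟩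
  have all : ∀ u ψ, T u v ψ → u ∈ N := fun u ψ s => by
    obtain ⟨w, w1, -⟩ := exists_dual (v := χ) (w := 0) (by simpa using c0)
    obtain ⟨ξ, x0, x1, x2⟩ := ann v w
    obtain ⟨u', t'⟩ := exists_T x1
    rw [dotProduct_comm] at x2
    by_cases k : ∃ c : F, χ = c • ψ
    · obtain ⟨c, rfl⟩ := k
      refine stepB (stepB hh th t' ?_) t' s ?_
      · rintro ⟨d, k⟩
        simp [k, x2] at w1
      · rintro ⟨d, rfl⟩
        rw [dotProduct_smul, smul_eq_mul] at w1 x2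
        rcases mul_eq_zero.1 x2 with k | k
        exacts [x0 (by simp [k]), by simp [k] at w1]
    · exact stepB hh th s k
  refine top_of_T fun u w ψ s => ?_
  by_cases w0 : w = 0
  · exact (s.eq_one_iff.2 (.inl w0)) ▸ one_mem _
  obtain ⟨k, c, c0, e⟩ := Transvec.exists_SL_mulVec_smul w0 v0
  have := s.conj k
  rw [e] at this
  simpa [mul_assoc] using ‹N.Normal›.conj_mem _ (all _ _ (this.smul_left c0)) k⁻¹

end Cfsg.Agent.Lib.L3E
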