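import Cfsg.Agent.Lib.L3Defs

/-! Matching the coordinates of the two sides. -/

set_option autoImplicit false
set_option linter.unusedSectionVars false

namespace Cfsg.Agent.Lib.L3

open Cfsg Subgroup Cfsg.Agent.Lib.PCoreConj Cfsg.Agent.Lib.PCore Cfsg.Agent.Lib.PCoreResidual
  Cfsg.Agent.Lib.FTDefs Cfsg.Agent.Lib.AP Cfsg.Agent.Lib.AP3

variable {G : Type*} [Group G] {F : Type} [Field F]
variable {K K' W U : Subgroup G} {a b a' b' : G → F} {g : G} {α β γ δ : F}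

theorem ac_inv (h1 : Ac W a b g α β 0 δ) (hg : g ∈ N[W]) (h0 : α ≠ 0) (h2 : δ ≠ 0) :
    Ac W a b g⁻¹ α⁻¹ (-β / (α * δ)) 0 δ⁻¹ := by
  intro w hw
  obtain ⟨x1, x2⟩ := h1 _ (cj' hg hw)
  have e : g * (g⁻¹ * w * g) * g⁻¹ = w := by group
  rw [e] at x1 x2
  rw [inv_inv, x1, x2]
  constructor <;> field_simp <;> ring

theorem ac_chg (σ : F ≃+* F) {r s : F} (κ : F) (hr : r ≠ 0) (hs : s ≠ 0) (h : Ac W a b g α β γ δ) :
    Ac W (fun w => σ (r * a w + κ * b w)) (fun w => σ (s * b w)) g (σ (α + κ * γ / r))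
      (σ ((r * β + κ * δ) / s - κ * (r * α + κ * γ) / (r * s))) (σ (s * γ / r)) (σ (δ - κ * γ / r)) := by
  intro w hw
  obtain ⟨x1, x2⟩ := h w hw
  simp only [x1, x2, ← map_mul, ← map_add]
  constructor <;> congr 1 <;> field_simp <;> ring

theorem co_chg (H : Co K W a b) (σ : F ≃+* F) {r s : F} (κ : F) (hr : r ≠ 0) (hs : s ≠ 0) :
    Co K W (fun w => σ (r * a w + κ * b w)) (fun w => σ (s * b w)) := by
  refine ⟨H.two, H.KN, H.WK, H.eW, fun u hu v hv => ?_, fun u hu v hv => ?_, fun u hu => ?_,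
    fun x y => ?_, fun g hg => ?_, fun α β γ δ d => ?_, fun g hg h => ?_⟩
  · rw [H.adda u hu v hv, H.addb u hu v hv, ← map_add]; congr 1; ring
  · rw [H.addb u hu v hv, ← map_add]; congr 1; ring
  · rw [H.ker u hu, EmbeddingLike.map_eq_zero_iff, EmbeddingLike.map_eq_zero_iff, mul_eq_zero, or_iff_right hs]
    refine and_congr_left fun e => ?_
    rw [e, mul_zero, add_zero, mul_eq_zero, or_iff_right hr]
  · obtain ⟨u, hu, u1, u2⟩ := H.sur ((σ.symm x - κ * σ.symm y / s) / r) (σ.symm y / s)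
    refine ⟨u, hu, ?_, ?_⟩
    · rw [u1, u2, ← σ.apply_symm_apply x, σ.symm_apply_apply]; congr 1; field_simp; ring
    · rw [u2, ← σ.apply_symm_apply y, σ.symm_apply_apply]; congr 1; field_simp
  · obtain ⟨α, β, γ, δ, d, h⟩ := H.act g hg
    refine ⟨_, _, _, _, ?_, ac_chg σ κ hr hs h⟩
    rw [← map_mul, ← map_mul, ← map_sub, ← map_one σ, ← d]; congr 1; field_simp; ring
  · have d' : σ.symm α * σ.symm δ - σ.symm β * σ.symm γ = 1 := by
      rw [← map_mul, ← map_mul, ← map_sub, d, map_one]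
    obtain ⟨k, hk, h⟩ := H.real (σ.symm α - κ * σ.symm γ / s)
      ((κ * σ.symm α + s * σ.symm β) / r - κ * (κ * σ.symm γ + s * σ.symm δ) / (r * s)) (r * σ.symm γ / s)
      (σ.symm δ + κ * σ.symm γ / s) (by rw [← d']; field_simp; ring)
    refine ⟨k, hk, (ac_chg σ κ hr hs h).congr ?_ ?_ ?_ ?_⟩ <;> rw [← σ.eq_symm_apply] <;> field_simp <;> ring
  · refine H.faith g hg fun w hw => ?_
    obtain ⟨x1, x2⟩ := h w hw
    simp only [one_mul, zero_mul, add_zero, zero_add, EmbeddingLike.apply_eq_iff_eq] at x1 x2 ⊢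
    have := mul_left_cancel₀ hs x2
    rw [this] at x1
    exact ⟨mul_left_cancel₀ hr (add_right_cancel x1), this⟩

/-- One side with matched coordinates. -/
structure Sd (K W U : Subgroup G) (a b a' b' : G → F) : Prop extends Co K W a b where
  inj : ∀ w ∈ W, a w = 0 → b w = 0 → w = 1
  UK : U ≤ K
  Y : ∀ w ∈ W, w ∈ U ↔ b w = 0
  aa : ∀ y ∈ W, y ∈ U → a y = a' y
  uu : ∀ u ∈ U, Ac W a b u 1 (b' u) 0 1
  cw : C[W] ≤ W
  NK : N[W] ≤ N[K]

theorem co_ext (H : Co K W a b) (inj : ∀ w ∈ W, a w = 0 → b w = 0 → w = 1) {u v : G} (hu : u ∈ W) (hv : v ∈ W)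
    (e1 : a u = a v) (e2 : b u = b v) : u = v := by
  have := inj _ (mul_mem hu hv) (by rw [H.adda u hu v hv, e1]; linear_combination a v * H.two)
    (by rw [H.addb u hu v hv, e2]; linear_combination b v * H.two)
  rw [eq_inv_of_mul_eq_one_left this, H.inv hv]

theorem Tw.match [Finite G] [Fintype F] {m : ℕ} (h : Tw m K K' W U a b a' b') :
    ∃ a' b' : G → F, Sd K W U a b a' b' ∧ Sd K' U W a' b' a b := by
  have i : ∀ w ∈ W, a w = 0 → b w = 0 → w = 1 := fun w hw h1 h2 =>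
    mem_bot.1 (h.D.le ⟨hw, (h.p.ker w hw).2 ⟨h1, h2⟩⟩)
  have i' : ∀ w ∈ U, a' w = 0 → b' w = 0 → w = 1 := fun w hw h1 h2 =>
    mem_bot.1 (h.D'.le ⟨hw, (h.p'.ker w hw).2 ⟨h1, h2⟩⟩)
  choose z zW za zb using fun t => h.p.sur t 0
  have zU : ∀ t, z t ∈ U := fun t => (h.p.Y _ (zW t)).2 (zb t)
  have zy : ∀ y ∈ W, y ∈ U → z (a y) = y := fun y h1 h2 =>
    co_ext h.p.toCo i (zW _) h1 (za _) ((zb _).trans ((h.p.Y y h1).1 h2).symm)
  have UN : U ≤ N[W] := h.p'.WU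
  have key : ∀ u ∈ U, ∀ c, Ac W a b u 1 c 0 1 → ∀ w ∈ W, ∀ c', Ac U a' b' w 1 c' 0 1 →
      a' (z (c * b w)) = c' * b' u := fun u hu c h1 w hw c' h2 => by
    have m1 := cj (UN hu) hw
    have m2 := cj (h.p.WU hw) hu
    have e : u * w * u⁻¹ * w = w * u * w⁻¹ * u := by
      rw [← h.p.inv (mul_mem m1 hw), h.p'.inv hu, h.p.inv hw, mul_inv_rev, mul_inv_rev, mul_inv_rev, h.p'.inv hu,
        h.p.inv hw]; group
    have e1 : a (u * w * u⁻¹ * w) = c * b w := by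
      rw [h.p.adda _ m1 _ hw, (h1 w hw).1]; linear_combination a w * h.p.two
    rw [← e1, zy _ (mul_mem m1 hw) (e ▸ mul_mem m2 hu), e, h.p'.adda _ m2 _ hu, (h2 u hu).1]
    linear_combination a' u * h.p.two
  choose uu uU uc using h.p.Us
  choose ww wW wa wb using fun t => h.p.sur 0 t
  choose c' hc' using fun w (hw : w ∈ W) => (h.p'.US hw).2
  have k2 : ∀ s t, a' (z (s * t)) = c' _ (wW t) * b' (uu s) := fun s t => by
    rw [← key _ (uU s) s (uc s) _ (wW t) _ (hc' _ _), wb]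
  have ad : ∀ s t, a' (z (s + t)) = a' (z s) + a' (z t) := fun s t => by
    rw [← h.p'.adda _ (zU s) _ (zU t)]
    congr 1
    exact co_ext h.p.toCo i (zW _) (mul_mem (zW s) (zW t)) (by rw [h.p.adda _ (zW s) _ (zW t), za, za, za])
      (by rw [h.p.addb _ (zW s) _ (zW t), zb, zb, zb, add_zero])
  have a1 : a' (z 1) ≠ 0 := fun e => by
    have := i' _ (zU 1) e ((h.p'.Y _ (zU 1)).1 (zW 1))
    exact one_ne_zero ((za 1).symm.trans (this ▸ h.p.a_one))
  have e1 := k2 1 1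
  rw [mul_one] at e1
  have b1 : c' _ (wW 1) ≠ 0 := left_ne_zero_of_mul (e1 ▸ a1)
  have g1 : b' (uu 1) ≠ 0 := right_ne_zero_of_mul (e1 ▸ a1)
  let f : F →+* F :=
    { toFun := fun t => a' (z t) / a' (z 1)
      map_one' := div_self a1
      map_zero' := by
        have := ad 0 0
        rw [add_zero] at this
        rw [show a' (z 0) = 0 by linear_combination -this, zero_div]
      map_add' := fun s t => by rw [ad, add_div]
      map_mul' := fun s t => by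
        have e2 := k2 s 1
        have e3 := k2 1 t
        rw [mul_one] at e2
        rw [one_mul] at e3
        rw [k2, e2, e3, e1]
        field_simp }
  let σ := (RingEquiv.ofBijective f (Finite.injective_iff_bijective.1 f.injective)).symm
  have hσ : ∀ x t, x = a' (z t) / a' (z 1) → σ x = t := fun x t e => σ.eq_symm_apply.1 e
  have C2 := co_chg h.p'.toCo σ 0 (inv_ne_zero a1) (inv_ne_zero g1)
  have aa : ∀ y ∈ W, y ∈ U → a y = σ ((a' (z 1))⁻¹ * a' y + 0 * b' y) := fun y h1 h2 =>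
    (hσ _ _ (by rw [zy y h1 h2]; field_simp; ring)).symm
  refine ⟨_, _, ⟨h.p.toCo, i, h.p.US.trans h.p.S0_K, h.p.Y, aa, fun u hu => ?_, h.cw, h.NK⟩,
    C2, fun w hw h1 h2 => ?_, h.p'.US.trans h.p'.S0_K, fun w hw => ?_, fun y h1 h2 => (aa y h2 h1).symm,
    fun w hw => ?_, h.cw', h.NK'⟩
  · obtain ⟨-, c, hc⟩ := h.p.US hu
    have := key u hu c hc _ (wW 1) _ (hc' _ (wW 1))
    rw [wb, mul_one] at this
    exact hc.congr rfl (hσ _ _ (by rw [this, e1]; field_simp)).symm rfl rfl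
  · exact mem_bot.1 (h.D'.le ⟨hw, (C2.ker w hw).2 ⟨h1, h2⟩⟩)
  · rw [h.p'.Y w hw, EmbeddingLike.map_eq_zero_iff, mul_eq_zero, or_iff_right (inv_ne_zero g1)]
  · have := key _ (uU 1) 1 (uc 1) w hw _ (hc' w hw)
    rw [one_mul] at this
    refine (ac_chg σ 0 (inv_ne_zero a1) (inv_ne_zero g1) (hc' w hw)).congr (by simp) (hσ _ _ ?_) (by simp) (by simp)
    rw [this]; field_simp; ring

theorem Sd.shear (H : Sd K W U a b a' b') (H' : Sd K' U W a' b' a b) (κ : F) :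
    Sd K W U (fun w => a w + κ * b w) b a' b' ∧ Sd K' U W a' b' (fun w => a w + κ * b w) b := by
  have C2 := co_chg H.toCo (RingEquiv.refl F) κ one_ne_zero one_ne_zero
  simp only [RingEquiv.refl_apply, one_mul] at C2
  have aa : ∀ y ∈ W, y ∈ U → a y + κ * b y = a' y := fun y h1 h2 => by
    rw [(H.Y y h1).1 h2, H.aa y h1 h2, mul_zero, add_zero]
  refine ⟨⟨C2, fun w hw h1 h2 => H.inj w hw (by rwa [h2, mul_zero, add_zero] at h1) h2, H.UK, H.Y, aa,
    fun u hu w hw => ?_, H.cw, H.NK⟩, H'.toCo, H'.inj, H'.UK, H'.Y, fun y h1 h2 => (aa y h2 h1).symm, H'.uu, H'.cw, H'.NK⟩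
  obtain ⟨x1, x2⟩ := H.uu u hu w hw
  simp only [x1, x2]
  constructor <;> ring

theorem ac_shear (h : Ac W a b g α β 0 δ) (κ : F) :
    Ac W (fun w => a w + κ * b w) b g α (β + κ * (δ - α)) 0 δ := fun w hw => by
  obtain ⟨x1, x2⟩ := h w hw
  simp only [x1, x2]
  constructor <;> ring

end Cfsg.Agent.Lib.L3
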