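import Cfsg.Agent.Lib.L3Fa

/-! The commuting scalar elements and the Levi complements. -/

set_option autoImplicit false
set_option linter.unusedSectionVars false

namespace Cfsg.Agent.Lib.L3

open Cfsg Subgroup Cfsg.Agent.Lib.PCoreConj Cfsg.Agent.Lib.PCore Cfsg.Agent.Lib.PCoreResidual
  Cfsg.Agent.Lib.FTDefs Cfsg.Agent.Lib.AP Cfsg.Agent.Lib.AP3

variable {G : Type*} [Group G] [Finite G] {F : Type} [Field F]
variable {K K' W U : Subgroup G} {a b a' b' : G → F} {g d d' k k' : G} {α β γ δ μ l : F}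

/-- `d` is scalar on `W`. -/
structure Hd (W U : Subgroup G) (a b a' b' : G → F) (l : F) (d : G) : Prop where
  dW : d ∈ N[W]
  dU : d ∈ N[U]
  aW : Ac W a b d l 0 0 l
  aU : Ac U a' b' d l 0 0 1

namespace Sd
variable (H : Sd K W U a b a' b')
include H

theorem ext {u v : G} (hu : u ∈ W) (hv : v ∈ W) (e1 : a u = a v) (e2 : b u = b v) : u = v :=
  co_ext H.toCo H.inj hu hv e1 e2

theorem cent (hg : g ∈ N[W]) (h : Ac W a b g 1 0 0 1) : g ∈ W :=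
  H.cw (mem_centralizer_iff.2 fun w hw => by
    have := H.ext (cj hg hw) hw (by rw [(h w hw).1]; ring) (by rw [(h w hw).2]; ring)
    rw [← mul_inv_eq_iff_eq_mul.1 this])

theorem UN : U ≤ N[W] := H.UK.trans H.KN

theorem nY (hg : g ∈ N[W]) (h : Ac W a b g α β 0 δ) : g ∈ N[W ⊓ U] :=
  mem_normalizer_fintype fun y hy => ⟨cj hg hy.1, (H.Y _ (cj hg hy.1)).2 (by
    rw [(h y hy.1).2, (H.Y y hy.1).1 hy.2]; ring)⟩

theorem nU (gd : Gd W U) (hg : g ∈ N[W]) (h : Ac W a b g α β 0 δ) : g ∈ N[U] := gd.nU (gd.nY (H.nY hg h))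

theorem lin (H' : Sd K' U W a' b' a b) (gW : g ∈ N[W]) (gU : g ∈ N[U]) (h : Ac U a' b' g μ β 0 δ) (μ0 : μ ≠ 0)
    (δ0 : δ ≠ 0) : ∃ β', Ac W a b g μ β' 0 (μ / δ) := by
  obtain ⟨σ, α, β', γ, δ', s1, s0, -, hs⟩ := H.semi (H.NK gW) gW
  have key : ∀ t, α * σ t = μ * t ∧ γ * σ t = 0 := fun t => by
    obtain ⟨y, hy, y1, y2⟩ := H.sur t 0
    have yU := (H.Y y hy).2 y2
    obtain ⟨e1, e2⟩ := hs y hy
    rw [H.aa _ (cj gW hy) (cj gU yU), (h y yU).1, ← H.aa y hy yU, (H'.Y y yU).1 hy, y1, y2, s0] at e1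
    rw [(H.Y _ (cj gW hy)).1 (cj gU yU), y1, y2, s0] at e2
    exact ⟨by linear_combination -e1, by linear_combination -e2⟩
  obtain ⟨k1, k2⟩ := key 1
  rw [s1, mul_one] at k1 k2
  rw [mul_one] at k1
  have sid : ∀ t, σ t = t := fun t => mul_left_cancel₀ μ0 (k1 ▸ (key t).1)
  obtain ⟨w, hw, w1, w2⟩ := H.sur 0 1
  have e := (H'.uniq (H'.uu _ (cj gW hw)) ((h.mul (H'.uu w hw) (H'.UN hw)).mul (ac_inv h gU μ0 δ0)
    (inv_mem gU))).2.1
  rw [(hs w hw).2, w1, w2, s0, s1] at e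
  refine ⟨β', fun v hv => ?_⟩
  obtain ⟨e1, e2⟩ := hs v hv
  rw [e1, e2, sid, sid, k1, k2, show δ' = μ / δ by rw [show δ' = γ * 0 + δ' * 1 by ring, e]; field_simp; ring]
  exact ⟨rfl, rfl⟩

theorem exd (H' : Sd K' U W a' b' a b) (gd : Gd W U) (μ0 : μ ≠ 0) :
    ∃ d ∈ N[W], d ∈ N[U] ∧ Ac W a b d (μ ^ 3) 0 0 (μ ^ 3) ∧ ∃ β, Ac U a' b' d (μ ^ 3) β 0 1 := by
  obtain ⟨c, hc, c1⟩ := H'.real (μ ^ 2) 0 0 (μ ^ 2)⁻¹ (by field_simp; ring)
  have cW := H'.nU gd.symm (H'.KN hc) c1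
  obtain ⟨β, c2⟩ := H.lin H' cW (H'.KN hc) c1 (pow_ne_zero _ μ0) (inv_ne_zero (pow_ne_zero _ μ0))
  obtain ⟨k, hk, k1⟩ := H.real μ (-β / μ ^ 3) 0 μ⁻¹ (by field_simp; ring)
  have dW := mul_mem cW (H.KN hk)
  have dU := mul_mem (H'.KN hc) (H.nU gd (H.KN hk) k1)
  have d1 : Ac W a b (c * k) (μ ^ 3) 0 0 (μ ^ 3) := (c2.mul k1 (H.KN hk)).congr (by ring) (by field_simp; ring)
    (by ring) (by field_simp; ring)
  obtain ⟨β', d2⟩ := H'.lin H dU dW d1 (pow_ne_zero _ μ0) (pow_ne_zero _ μ0)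
  exact ⟨_, dW, dU, d1, β', d2.congr rfl rfl rfl (div_self (pow_ne_zero _ μ0))⟩

theorem frame (H' : Sd K' U W a' b' a b) (gd : Gd W U) (μ0 : μ ≠ 0) (μ1 : μ ^ 3 ≠ 1) :
    ∃ (a a' : G → F) (d d' : G), Sd K W U a b a' b' ∧ Sd K' U W a' b' a b ∧ Hd W U a b a' b' (μ ^ 3) d ∧
      Hd U W a' b' a b (μ ^ 3) d' ∧ d * d' = d' * d := by
  obtain ⟨d, dW, dU, d1, β, d2⟩ := H.exd H' gd μ0
  obtain ⟨e, eU, eW, e1, β', e2⟩ := H'.exd H gd.symm μ0
  have l0 := pow_ne_zero 3 μ0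
  have l1 := sub_ne_zero.2 μ1
  generalize μ ^ 3 = l at *
  have cW := H.cent (mul_mem (mul_mem (mul_mem dW eW) (inv_mem dW)) (inv_mem eW))
    ((((d1.mul e2 eW).mul (ac_inv d1 dW l0 l0) (inv_mem dW)).mul (ac_inv e2 eW l0 one_ne_zero) (inv_mem eW)).congr
      (by field_simp; ring) (by field_simp; ring) (by ring) (by field_simp; ring))
  have cU := H'.cent (mul_mem (mul_mem (mul_mem dU eU) (inv_mem dU)) (inv_mem eU))
    ((((d2.mul e1 eU).mul (ac_inv d2 dU l0 one_ne_zero) (inv_mem dU)).mul (ac_inv e1 eU l0 l0) (inv_mem eU)).congr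
      (by field_simp; ring) (by field_simp; ring) (by ring) (by field_simp; ring))
  obtain ⟨y, hy, y1, y2⟩ := H.sur (-a (d * e * d⁻¹ * e⁻¹) / (l - 1)) 0
  have yU := (H.Y y hy).2 y2
  have c : d * y * d⁻¹ * (d * e * d⁻¹ * e⁻¹) = y := H.ext (mul_mem (cj dW hy) cW) hy
    (by rw [H.adda _ (cj dW hy) _ cW, (d1 y hy).1, y1]; field_simp; ring)
    (by rw [H.addb _ (cj dW hy) _ cW, (d1 y hy).2, y2, (H.Y _ cW).1 cU]; ring)
  have f1 : Ac U a' b' (y * e) l 0 0 l := ((H'.acW yU).mul e1 eU).congr (by ring) (by ring) (by ring) (by ring)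
  have f2 : Ac W a b (y * e) l β' 0 1 := ((H.acW hy).mul e2 eW).congr (by ring) (by ring) (by ring) (by ring)
  obtain ⟨S1, S2⟩ := H.shear H' (β' / (l - 1))
  obtain ⟨S2, S1⟩ := S2.shear S1 (β / (l - 1))
  refine ⟨_, _, d, y * e, S1, S2, ⟨dW, dU, (ac_shear d1 _).congr rfl (by ring) rfl rfl,
    (ac_shear d2 _).congr rfl (by field_simp; ring) rfl rfl⟩, ⟨mul_mem (le_normalizer yU) eU,
    mul_mem (le_normalizer hy) eW, (ac_shear f1 _).congr rfl (by ring) rfl rfl,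
    (ac_shear f2 _).congr rfl (by field_simp; ring) rfl rfl⟩, ?_⟩
  calc d * (y * e) = d * y * d⁻¹ * (d * e * d⁻¹ * e⁻¹) * e * d := by group
    _ = _ := by rw [c]

variable (D : Hd W U a b a' b' l d) (l0 : l ≠ 0) (l1 : l ≠ 1)
include D l0 l1

theorem fixW {w : G} (hw : w ∈ W) (c : d * w = w * d) : w = 1 := by
  obtain ⟨x1, x2⟩ := D.aW w hw
  rw [c, mul_inv_cancel_right] at x1 x2
  exact H.inj w hw (mul_left_cancel₀ (sub_ne_zero.2 l1) (by linear_combination -x1))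
    (mul_left_cancel₀ (sub_ne_zero.2 l1) (by linear_combination -x2))

theorem uq (hk : k ∈ K) (ck : d * k = k * d) (hk' : k' ∈ K) (ck' : d * k' = k' * d) (h1 : Ac W a b k α β γ δ)
    {α' β' γ' δ' : F} (h2 : Ac W a b k' α' β' γ' δ') (e : α' * δ' - β' * γ' = 1) (e1 : α = α') (e2 : β = β')
    (e3 : γ = γ') (e4 : δ = δ') : k = k' :=
  mul_inv_eq_one.1 (H.fixW D l0 l1 (H.eq_mod hk hk' (h1.congr e1 e2 e3 e4) h2 e)
    ((show Commute d k from ck).mul_right (show Commute d k' from ck').inv_right))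

theorem lift (e : α * δ - β * γ = 1) : ∃ k ∈ K, d * k = k * d ∧ Ac W a b k α β γ δ := by
  obtain ⟨k, hk, k1⟩ := H.real α β γ δ e
  have cW := H.eq_mod (cj (H.NK D.dW) hk) hk (((D.aW.mul k1 (H.KN hk)).mul (ac_inv D.aW D.dW l0 l0)
    (inv_mem D.dW)).congr (by field_simp; ring) (by field_simp; ring) (by field_simp; ring) (by field_simp; ring)) k1 e
  have l2 := sub_ne_zero.2 l1
  obtain ⟨y, hy, y1, y2⟩ := H.sur (-a (d * k * d⁻¹ * k⁻¹) / (l - 1)) (-b (d * k * d⁻¹ * k⁻¹) / (l - 1))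
  have c : d * y * d⁻¹ * (d * k * d⁻¹ * k⁻¹) = y := H.ext (mul_mem (cj D.dW hy) cW) hy
    (by rw [H.adda _ (cj D.dW hy) _ cW, (D.aW y hy).1, y1]; field_simp; ring)
    (by rw [H.addb _ (cj D.dW hy) _ cW, (D.aW y hy).2, y2]; field_simp; ring)
  refine ⟨y * k, mul_mem (H.WK hy) hk, ?_,
    ((H.acW hy).mul k1 (H.KN hk)).congr (by ring) (by ring) (by ring) (by ring)⟩
  calc d * (y * k) = d * y * d⁻¹ * (d * k * d⁻¹ * k⁻¹) * k * d := by group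
    _ = _ := by rw [c]

theorem nYd (H' : Sd K' U W a' b' a b) (gU : g ∈ N[U]) (c : d * g = g * d) : g ∈ N[U ⊓ W] :=
  mem_normalizer_fintype fun y hy => by
    have l2 := sub_ne_zero.2 l1
    obtain ⟨v, hv, v1, v2⟩ := H'.sur (a' y / (l - 1)) 0
    have e : d * v * d⁻¹ * v = y := H'.ext (mul_mem (cj D.dU hv) hv) hy.1
      (by rw [H'.adda _ (cj D.dU hv) _ hv, (D.aU v hv).1, v1, v2]; field_simp; linear_combination a' y * H.two)
      (by rw [H'.addb _ (cj D.dU hv) _ hv, (D.aU v hv).2, v2, (H'.Y y hy.1).1 hy.2]; ring)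
    have e2 : g * y * g⁻¹ = d * (g * v * g⁻¹) * d⁻¹ * (g * v * g⁻¹) := by
      rw [← e]
      calc _ = g * d * v * (g * d)⁻¹ * (g * v * g⁻¹) := by group
        _ = _ := by rw [← c]; group
    have m := cj gU hv
    refine ⟨cj gU hy.1, (H'.Y _ (cj gU hy.1)).2 ?_⟩
    rw [e2, H'.addb _ (cj D.dU m) _ m, (D.aU _ m).2]
    linear_combination b' (g * v * g⁻¹) * H.two

end Sd

end Cfsg.Agent.Lib.L3
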