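import Cfsg.Agent.Lib.L3Fb

/-! The relations of the frame, except the braid relation. -/

set_option autoImplicit false
set_option linter.unusedSectionVars false

namespace Cfsg.Agent.Lib.L3

open Cfsg Subgroup Cfsg.Agent.Lib.PCoreConj Cfsg.Agent.Lib.PCore Cfsg.Agent.Lib.PCoreResidual
  Cfsg.Agent.Lib.FTDefs Cfsg.Agent.Lib.AP Cfsg.Agent.Lib.AP3

variable {G : Type*} [Group G] [Finite G] {F : Type} [Field F]
variable {K K' W U : Subgroup G} {a b a' b' : G → F} {g d d' n n' : G} {x y z h k : F → G} {l r s t : F}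

/-- One side of the frame. -/
structure Fr (K W U : Subgroup G) (a b a' b' : G → F) (l : F) (d : G) (x z h : F → G) (n : G) : Prop where
  S : Sd K W U a b a' b'
  D : Hd W U a b a' b' l d
  l0 : l ≠ 0
  l1 : l ≠ 1
  xK : ∀ t, x t ∈ K
  xd : ∀ t, d * x t = x t * d
  xA : ∀ t, Ac W a b (x t) 1 t 0 1
  hK : ∀ r, r ≠ 0 → h r ∈ K
  hd : ∀ r, r ≠ 0 → d * h r = h r * d
  hA : ∀ r, r ≠ 0 → Ac W a b (h r) r 0 0 r⁻¹
  nK : n ∈ K
  nd : d * n = n * d
  nA : Ac W a b n 0 1 1 0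
  zW : ∀ t, z t ∈ W
  za : ∀ t, a (z t) = t
  zb : ∀ t, b (z t) = 0

theorem Sd.fr (H : Sd K W U a b a' b') (D : Hd W U a b a' b' l d) (l0 : l ≠ 0) (l1 : l ≠ 1) (zW : ∀ t, z t ∈ W)
    (za : ∀ t, a (z t) = t) (zb : ∀ t, b (z t) = 0) : ∃ x h n, Fr K W U a b a' b' l d x z h n := by
  choose x x1 x2 x3 using fun t : F => H.lift D l0 l1 (α := 1) (β := t) (γ := 0) (δ := 1) (by ring)
  have : ∀ r : F, ∃ k, r ≠ 0 → k ∈ K ∧ d * k = k * d ∧ Ac W a b k r 0 0 r⁻¹ := fun r => by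
    by_cases h : r = 0
    · exact ⟨1, fun e => (e h).elim⟩
    · obtain ⟨k, h1, h2⟩ := H.lift D l0 l1 (α := r) (β := 0) (γ := 0) (δ := r⁻¹) (by field_simp; ring)
      exact ⟨k, fun _ => ⟨h1, h2⟩⟩
  choose h hh using this
  obtain ⟨n, n1, n2, n3⟩ := H.lift D l0 l1 (α := 0) (β := 1) (γ := 1) (δ := 0) (by linear_combination -H.two)
  exact ⟨x, h, n, H, D, l0, l1, x1, x2, x3, fun r e => (hh r e).1, fun r e => (hh r e).2.1, fun r e => (hh r e).2.2,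
    n1, n2, n3, zW, za, zb⟩

theorem cmul {p u v : G} (h1 : p * u = u * p) (h2 : p * v = v * p) : p * (u * v) = u * v * p :=
  (show Commute p u from h1).mul_right h2
theorem cinv {p u : G} (h1 : p * u = u * p) : p * u⁻¹ = u⁻¹ * p := (show Commute p u from h1).inv_right

namespace Fr
variable (A : Fr K W U a b a' b' l d x z h n)
include A

theorem two : (2 : F) = 0 := A.S.two
theorem xN (t : F) : x t ∈ N[W] := A.S.KN (A.xK t)
theorem hN (e : r ≠ 0) : h r ∈ N[W] := A.S.KN (A.hK r e)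
theorem nN : n ∈ N[W] := A.S.KN A.nK
theorem zU (t : F) : z t ∈ U := (A.S.Y _ (A.zW t)).2 (A.zb t)

theorem eqx (hk : g ∈ K) (ck : d * g = g * d) (h1 : Ac W a b g 1 t 0 1) : g = x t :=
  A.S.uq A.D A.l0 A.l1 hk ck (A.xK t) (A.xd t) h1 (A.xA t) (by ring) rfl rfl rfl rfl

theorem eqh (e : r ≠ 0) (hk : g ∈ K) (ck : d * g = g * d) (h1 : Ac W a b g r 0 0 r⁻¹) : g = h r :=
  A.S.uq A.D A.l0 A.l1 hk ck (A.hK r e) (A.hd r e) h1 (A.hA r e) (by field_simp; ring) rfl rfl rfl rfl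

theorem eq1 (hk : g ∈ K) (ck : d * g = g * d) (h1 : Ac W a b g 1 0 0 1) : g = 1 :=
  A.S.fixW A.D A.l0 A.l1 (A.S.faith g hk h1) ck

theorem xx (s t : F) : x s * x t = x (s + t) := A.eqx (mul_mem (A.xK s) (A.xK t)) (cmul (A.xd s) (A.xd t))
  (((A.xA s).mul (A.xA t) (A.xN t)).congr (by ring) (by ring) (by ring) (by ring))

theorem x0 : x 0 = 1 := A.eq1 (A.xK 0) (A.xd 0) (A.xA 0)
theorem h1 : h 1 = 1 := A.eq1 (A.hK 1 one_ne_zero) (A.hd 1 one_ne_zero) ((A.hA 1 one_ne_zero).congr rfl rfl rfl inv_one)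

theorem zz (s t : F) : z s * z t = z (s + t) := A.S.ext (mul_mem (A.zW s) (A.zW t)) (A.zW _)
  (by rw [A.S.adda _ (A.zW s) _ (A.zW t), A.za, A.za, A.za]) (by rw [A.S.addb _ (A.zW s) _ (A.zW t), A.zb, A.zb, A.zb, add_zero])

theorem eqz {w : G} (hw : w ∈ W) (hu : w ∈ U) : w = z (a w) :=
  A.S.ext hw (A.zW _) (A.za _).symm (((A.S.Y w hw).1 hu).trans (A.zb _).symm)

theorem hh (e : r ≠ 0) (e' : s ≠ 0) : h r * h s = h (r * s) := A.eqh (mul_ne_zero e e') (mul_mem (A.hK r e) (A.hK s e'))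
  (cmul (A.hd r e) (A.hd s e')) (((A.hA r e).mul (A.hA s e') (A.hN e')).congr (by ring) (by ring) (by ring) (by ring))

theorem hx (e : r ≠ 0) (t : F) : h r * x t * (h r)⁻¹ = x (r ^ 2 * t) :=
  A.eqx (mul_mem (mul_mem (A.hK r e) (A.xK t)) (inv_mem (A.hK r e)))
    (cmul (cmul (A.hd r e) (A.xd t)) (cinv (A.hd r e))) ((A.hA r e).tor e (A.hN e) (A.xA t) (A.xN t))

theorem nn : n * n = 1 := A.eq1 (mul_mem A.nK A.nK) (cmul A.nd A.nd)
  ((A.nA.mul A.nA A.nN).congr (by ring) (by ring) (by ring) (by ring))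

theorem ni : n⁻¹ = n := inv_of_sq A.nn

variable (B : Fr K' U W a' b' a b l d' y z k n')
include B

theorem xU (t : F) : x t ∈ U ∧ a' (x t) = 0 ∧ b' (x t) = t := by
  obtain ⟨u, hu, u1, u2⟩ := B.S.sur 0 t
  have c : d * u * d⁻¹ = u := B.S.ext (cj A.D.dU hu) hu (by rw [(A.D.aU u hu).1, u1]; ring)
    (by rw [(A.D.aU u hu).2]; ring)
  rw [← A.eqx (A.S.UK hu) (mul_inv_eq_iff_eq_mul.1 c) (u2 ▸ A.S.uu u hu)]
  exact ⟨hu, u1, u2⟩

variable (gd : Gd W U) (dd : d * d' = d' * d)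
include gd dd

theorem hU (e : r ≠ 0) : h r ∈ N[U] ∧ d' * h r = h r * d' ∧ Ac U a' b' (h r) r 0 0 (r ^ 2) := by
  have m := A.S.nU gd (A.hN e) (A.hA r e)
  refine ⟨m, mul_inv_eq_iff_eq_mul.1 (A.eqh e (cj (A.S.NK B.D.dU) (A.hK r e)) (cmul (cmul dd (A.hd r e)) (cinv dd))
    (((B.D.aU.mul (A.hA r e) (A.hN e)).mul (ac_inv B.D.aU B.D.dU B.l0 one_ne_zero) (inv_mem B.D.dU)).congr
      (by have := B.l0; field_simp; ring) (by ring) (by ring) (by ring))), ?_⟩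
  obtain ⟨β, h1⟩ := B.S.lin A.S m (A.hN e) (A.hA r e) e (inv_ne_zero e)
  have := (h1 _ (A.xU B 1).1).1
  rw [A.hx e, (A.xU B _).2.1, (A.xU B _).2.1, (A.xU B _).2.2] at this
  exact h1.congr rfl (by linear_combination -this) rfl (by field_simp)

theorem hr : Hr x y z h k n := by
  have yW := fun t => (B.xU A t).1
  have ya := fun t => (B.xU A t).2.1
  have yb := fun t => (B.xU A t).2.2
  have xz : ∀ s t, x s * z t = z t * x s := fun s t => comm_of_sq B.S.eW (A.xU B s).1 (A.zU t)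
  have d0 : (0 : F) * 0 - 1 * 1 = 1 := by linear_combination -A.two
  refine ⟨A.xx, xz, fun s t => ?_, fun r e s e' => A.hh e e', fun r e s e' => ?_,
    fun r e t => mul_inv_eq_iff_eq_mul.1 (A.hx e t), fun r e t => mul_inv_eq_iff_eq_mul.1 ?_,
    fun r e t => mul_inv_eq_iff_eq_mul.1 ?_, A.nn, fun t => ?_, fun r e => ?_, fun r e => ?_, fun t e => ?_⟩
  · rw [mul_assoc, xz, ← mul_assoc, ← mul_inv_eq_iff_eq_mul]
    refine A.S.ext (cj (A.xN s) (yW t)) (mul_mem (yW t) (A.zW _)) ?_ ?_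
    · rw [(A.xA s _ (yW t)).1, A.S.adda _ (yW t) _ (A.zW _), ya, yb, A.za]; ring
    · rw [(A.xA s _ (yW t)).2, A.S.addb _ (yW t) _ (A.zW _), ya, yb, A.zb]; ring
  · obtain ⟨h1, h2, h3⟩ := A.hU B gd dd e
    exact mul_inv_eq_iff_eq_mul.1 (B.eqh e' (cj (B.S.NK h1) (B.hK s e')) (cmul (cmul h2 (B.hd s e')) (cinv h2))
      (((h3.mul (B.hA s e') (B.hN e')).mul (ac_inv h3 h1 e (pow_ne_zero 2 e)) (inv_mem h1)).congr
        (by field_simp; ring) (by ring) (by ring) (by field_simp; ring)))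
  · refine A.S.ext (cj (A.hN e) (yW t)) (yW _) ?_ ?_
    · rw [(A.hA r e _ (yW t)).1, ya, ya]; ring
    · rw [(A.hA r e _ (yW t)).2, ya, yb, yb]; ring
  · refine A.S.ext (cj (A.hN e) (A.zW t)) (A.zW _) ?_ ?_
    · rw [(A.hA r e _ (A.zW t)).1, A.za, A.za]; ring
    · rw [(A.hA r e _ (A.zW t)).2, A.zb, A.zb]; ring
  · rw [show n * z t * n = n * z t * n⁻¹ by rw [A.ni]]
    refine A.S.ext (cj A.nN (A.zW t)) (yW _) ?_ ?_
    · rw [(A.nA _ (A.zW t)).1, A.zb, ya]; ring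
    · rw [(A.nA _ (A.zW t)).2, A.za, yb]; ring
  · exact A.eqh (inv_ne_zero e) (mul_mem (mul_mem A.nK (A.hK r e)) A.nK) (cmul (cmul A.nd (A.hd r e)) A.nd)
      (((A.nA.mul (A.hA r e) (A.hN e)).mul A.nA A.nN).congr (by ring) (by ring) (by ring) (by rw [inv_inv]; ring))
  · obtain ⟨h1, h2, h3⟩ := B.hU A gd.symm dd.symm e
    rw [← mul_inv_eq_iff_eq_mul]
    refine A.eqh e ?_ (cmul (cmul (cmul A.nd h2) A.nd) (cinv h2))
      ((((A.nA.mul h3 h1).mul A.nA A.nN).mul (ac_inv h3 h1 e (pow_ne_zero 2 e)) (inv_mem h1)).congr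
        (by field_simp; ring) (by ring) (by ring) (by field_simp; ring))
    rw [show n * k r * n * (k r)⁻¹ = n * (k r * n * (k r)⁻¹) by group]
    exact mul_mem A.nK (cj (A.S.NK h1) A.nK)
  · have e' := inv_ne_zero e
    refine A.S.uq A.D A.l0 A.l1 (mul_mem (mul_mem A.nK (A.xK t)) A.nK) (cmul (cmul A.nd (A.xd t)) A.nd)
      (mul_mem (mul_mem (mul_mem (A.xK _) (A.hK _ e')) A.nK) (A.xK _))
      (cmul (cmul (cmul (A.xd _) (A.hd _ e')) A.nd) (A.xd _)) ((A.nA.mul (A.xA t) (A.xN t)).mul A.nA A.nN)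
      ((((A.xA _).mul (A.hA _ e') (A.hN e')).mul A.nA A.nN).mul (A.xA _) (A.xN _)) ?_ ?_ ?_ ?_ ?_ <;>
      rw [inv_inv] <;> field_simp
    all_goals first | ring1 | linear_combination -A.two | linear_combination A.two |
      linear_combination (-t) * A.two | linear_combination (-t ^ 3) * A.two | linear_combination t * A.two |
      linear_combination (t ^ 3) * A.two

omit gd dd in
theorem le_gen {L : Subgroup G} (hx : ∀ t, x t ∈ L) (hy : ∀ t, y t ∈ L) (hz : ∀ t, z t ∈ L) (hn : n ∈ L) : K ≤ L := by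
  have WL : W ≤ L := fun w hw => by
    obtain ⟨h1, h2, h3⟩ := B.xU A (b w)
    rw [A.S.ext hw (mul_mem (A.zW (a w)) h1) (by rw [A.S.adda _ (A.zW _) _ h1, A.za, h2, add_zero])
      (by rw [A.S.addb _ (A.zW _) _ h1, A.zb, h3, zero_add])]
    exact mul_mem (hz _) (hy _)
  have SL : A.S.toCo.S0 ≤ L := fun g ⟨hg, c, h1⟩ => by
    simpa using mul_mem (WL (A.S.eq_mod hg (A.xK c) h1 (A.xA c) (by ring))) (hx c)
  exact A.S.gen A.nK A.nA SL (conj_le_of_mem_normalizer SL (le_normalizer hn))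

end Fr

end Cfsg.Agent.Lib.L3
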