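import Cfsg.Agent.Lib.L3Defs
import Cfsg.Agent.Lib.AP3d

/-! S3091, piece Q0: extraction of the two-sided configuration `Tw`. -/

set_option autoImplicit false
set_option linter.unusedSectionVars false

namespace Cfsg.Agent.Lib.L3O

open Cfsg Subgroup Cfsg.Agent.Lib.PCoreConj Cfsg.Agent.Lib.PCore Cfsg.Agent.Lib.PCoreResidual
  Cfsg.Agent.Lib.FTDefs Cfsg.Agent.Lib.AP Cfsg.Agent.Lib.AP3 Cfsg.Agent.Lib.L3

universe u v

theorem co_of {G : Type*} [Group G] {F : Type*} [Field F] {E : Type} [Field E] (ι : F ≃+* E)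
    (two : (2 : E) = 0) (L : Subgroup G)
    (φ : ↥L ⧸ Cfsg.pCore 2 ↥L ≃* Matrix.SpecialLinearGroup (Fin 2) F)
    (ψ : Additive ↥(Cfsg.pCore 2 ↥L) ≃+ (Fin 2 → F))
    (h : ∀ (g : ↥L) (v : ↥(Cfsg.pCore 2 ↥L)),
      ψ (Additive.ofMul ⟨g * v * g⁻¹, Subgroup.Normal.conj_mem inferInstance (v : ↥L) v.2 g⟩)
        = Matrix.mulVec ((φ (QuotientGroup.mk g) : Matrix.SpecialLinearGroup (Fin 2) F) :
          Matrix (Fin 2) (Fin 2) F) (ψ (Additive.ofMul v))) :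
    ∃ a b : G → E, Co L (pCoreOf 2 L) a b ∧ pCoreOf 2 L ⊓ C[L] = ⊥ := by
  classical
  let c : Fin 2 → G → E := fun i w =>
    if h : ∃ v : pCore 2 L, ((v : L) : G) = w then ι (ψ (Additive.ofMul h.choose) i) else 0
  have c1 : ∀ i (v : pCore 2 L), c i ((v : L) : G) = ι (ψ (Additive.ofMul v) i) := fun i v => by
    have hv : ∃ v' : pCore 2 L, ((v' : L) : G) = ((v : L) : G) := ⟨v, rfl⟩
    have : hv.choose = v := Subtype.ext (Subtype.ext hv.choose_spec)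
    simp only [c, dif_pos hv, this]
  have mem : ∀ w ∈ pCoreOf 2 L, ∃ v : pCore 2 L, ((v : L) : G) = w := by
    rintro _ ⟨x, hx, rfl⟩; exact ⟨⟨x, hx⟩, rfl⟩
  have mem' : ∀ v : pCore 2 L, ((v : L) : G) ∈ pCoreOf 2 L := fun v => ⟨v, v.2, rfl⟩
  have add : ∀ i, ∀ u ∈ pCoreOf 2 L, ∀ v ∈ pCoreOf 2 L, c i (u * v) = c i u + c i v := by
    intro i u hu v hv
    obtain ⟨u, rfl⟩ := mem u hu
    obtain ⟨v, rfl⟩ := mem v hv
    have : ((u : L) : G) * ((v : L) : G) = (((u * v : pCore 2 L) : L) : G) := rfl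
    rw [this, c1, c1, c1, ofMul_mul, map_add, Pi.add_apply, map_add]
  have inj : ∀ u ∈ pCoreOf 2 L, c 0 u = 0 → c 1 u = 0 → u = 1 := by
    intro u hu h0 h1
    obtain ⟨u, rfl⟩ := mem u hu
    rw [c1, map_eq_zero] at h0 h1
    have : ψ (Additive.ofMul u) = 0 := by
      funext i; fin_cases i
      exacts [h0, h1]
    rw [map_eq_zero_iff _ ψ.injective] at this
    have : u = 1 := this
    rw [this]; rfl
  have sur : ∀ s t, ∃ u ∈ pCoreOf 2 L, c 0 u = s ∧ c 1 u = t := fun s t => by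
    obtain ⟨u, hu⟩ := ψ.surjective ![ι.symm s, ι.symm t]
    refine ⟨_, mem' (Additive.toMul u), ?_, ?_⟩ <;> rw [c1, ofMul_toMul, hu] <;> simp
  have ac : ∀ k : L, Ac (pCoreOf 2 L) (c 0) (c 1) k (ι ((φ (QuotientGroup.mk k)).1 0 0))
      (ι ((φ (QuotientGroup.mk k)).1 0 1)) (ι ((φ (QuotientGroup.mk k)).1 1 0))
      (ι ((φ (QuotientGroup.mk k)).1 1 1)) := by
    intro k w hw
    obtain ⟨v, rfl⟩ := mem w hw
    have e : (k : G) * ((v : L) : G) * (k : G)⁻¹ = (((⟨k * v * k⁻¹,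
      Subgroup.Normal.conj_mem inferInstance (v : ↥L) v.2 k⟩ : pCore 2 L) : L) : G) := rfl
    rw [e, c1, c1, c1, c1, h]
    constructor <;> simp [Matrix.mulVec, dotProduct, Fin.sum_univ_two]
  have real : ∀ α β γ δ : E, α * δ - β * γ = 1 → ∃ k ∈ L, Ac (pCoreOf 2 L) (c 0) (c 1) k α β γ δ := by
    intro α β γ δ d
    obtain ⟨x, hx⟩ := φ.surjective ⟨!![ι.symm α, ι.symm β; ι.symm γ, ι.symm δ], by
      rw [Matrix.det_fin_two_of, ← map_mul, ← map_mul, ← map_sub, d, map_one]⟩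
    obtain ⟨k, rfl⟩ := QuotientGroup.mk_surjective x
    have := ac k
    rw [hx] at this
    exact ⟨k, k.2, this.congr (by simp) (by simp) (by simp) (by simp)⟩
  have ker : ∀ u ∈ pCoreOf 2 L, u ∈ C[L] → c 0 u = 0 ∧ c 1 u = 0 := by
    intro u hu hc
    obtain ⟨k, hk, k1⟩ := real 1 1 0 1 (by ring)
    obtain ⟨l, hl, l1⟩ := real 1 0 1 1 (by ring)
    have e1 := (k1 u hu).1
    have e2 := (l1 u hu).2
    rw [mem_centralizer_iff.1 hc k hk, mul_inv_cancel_right] at e1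
    rw [mem_centralizer_iff.1 hc l hl, mul_inv_cancel_right] at e2
    exact ⟨by linear_combination -e2, by linear_combination -e1⟩
  refine ⟨c 0, c 1, ⟨two, le_normalizer_pCoreOf 2 L, pCoreOf_le 2 L, fun w hw => ?_, add 0, add 1,
    fun u hu => ⟨ker u hu, fun e => by rw [inj u hu e.1 e.2]; exact one_mem _⟩, sur, fun k hk => ?_,
    real, fun k hk e => ?_⟩, eq_bot_iff.2 fun u hu => inj u hu.1 (ker u hu.1 hu.2).1 (ker u hu.1 hu.2).2⟩
  · refine inj _ (mul_mem hw hw) ?_ ?_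
    · rw [add 0 w hw w hw]; linear_combination c 0 w * two
    · rw [add 1 w hw w hw]; linear_combination c 1 w * two
  · refine ⟨_, _, _, _, ?_, ac ⟨k, hk⟩⟩
    rw [← map_mul, ← map_mul, ← map_sub, ← Matrix.det_fin_two, (φ _).2, map_one]
  · obtain ⟨u, hu, u1, u2⟩ := sur 1 0
    obtain ⟨v, hv, v1, v2⟩ := sur 0 1
    have x := e u hu
    have x' := ac ⟨k, hk⟩ u hu
    have y := e v hv
    have y' := ac ⟨k, hk⟩ v hv
    rw [u1, u2] at x x'
    rw [v1, v2] at y y'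
    have : φ (QuotientGroup.mk (⟨k, hk⟩ : L)) = 1 := by
      ext i j
      apply ι.injective
      fin_cases i <;> fin_cases j
      · simpa using x'.1.symm.trans x.1
      · simpa using y'.1.symm.trans y.1
      · simpa using x'.2.symm.trans x.2
      · simpa using y'.2.symm.trans y.2
    rw [map_eq_one_iff _ φ.injective, QuotientGroup.eq_one_iff] at this
    exact ⟨_, this, rfl⟩

variable {G : Type*} [Group G] {F : Type} [Field F]
variable {K K' W U T J : Subgroup G} {a b a' b' : G → F}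

theorem to_e1 {s t : F} (w0 : ¬ (s = 0 ∧ t = 0)) : ∃ α β γ δ : F, α * δ - β * γ = 1 ∧
    α * s + β * t = 1 ∧ γ * s + δ * t = 0 := by
  by_cases h0 : s = 0
  · have h1 : t ≠ 0 := fun e => w0 ⟨h0, e⟩
    exact ⟨0, t⁻¹, -t, 0, by simp [h1], by simp [h1], by simp [h0]⟩
  · exact ⟨s⁻¹, 0, -t, s, by simp [h0], by simp [h0], by ring⟩

theorem eq_of (H : Co K W a b) (D : W ⊓ C[K] = ⊥) {u v : G} (hu : u ∈ W) (hv : v ∈ W) (e1 : a u = a v)
    (e2 : b u = b v) : u = v :=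
  mul_inv_eq_one.1 (mem_bot.1 (D ▸ mem_inf.2 ⟨mul_mem hu (inv_mem hv), (H.eq_iff hu hv).2 ⟨e1, e2⟩⟩))

theorem cen_of (H : Co K W a b) (D : W ⊓ C[K] = ⊥) {g : G} (hg : g ∈ N[W]) (h : Ac W a b g 1 0 0 1) :
    g ∈ C[W] := mem_centralizer_iff.2 fun w hw => by
  have := eq_of H D (cj hg hw) hw (by rw [(h w hw).1]; ring) (by rw [(h w hw).2]; ring)
  exact (mul_inv_eq_iff_eq_mul.1 this).symm

theorem adapt [Finite F] (H : Co K W a b) (hJ : IsSylowIn 2 J K) :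
    ∃ (a b : G → F) (H' : Co K W a b), H'.S0 = J := by
  obtain ⟨w, hw, w0, hf⟩ := H.fixv hJ.isPGroup (hJ.le.trans le_normalizer) (hJ.le.trans H.KN)
  obtain ⟨α, β, γ, δ, d, e1, e2⟩ := to_e1 w0
  obtain ⟨k, hk, k1⟩ := H.real α β γ δ d
  refine ⟨_, _, H.conj hk, hJ.eq_of_le (H.conj hk).S0_K (H.conj hk).pS0 fun t ht => ?_⟩
  have x := k1 w hw
  have y := k1 _ (cj (H.KN (hJ.le ht)) hw)
  rw [(hf t ht).1, (hf t ht).2] at y
  refine (H.conj hk).mem_S0 (hJ.le ht) hw ?_ (x.2.trans e2) (y.1.trans x.1.symm) (y.2.trans x.2.symm)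
  show a (k * w * k⁻¹) ≠ 0
  rw [x.1, e1]; exact one_ne_zero

theorem pre_of (H : Co K W a b) (H' : Co K' U a' b') (D : W ⊓ C[K] = ⊥) (e : H.S0 = W ⊔ U)
    (WK : W ≤ K') : Pre K W U a b := by
  have US : U ≤ H.S0 := e ▸ le_sup_right
  have Us : ∀ c, ∃ u ∈ U, Ac W a b u 1 c 0 1 := fun c => by
    obtain ⟨r, hr, r1⟩ := H.real 1 c 0 1 (by ring)
    have : r ∈ W ⊔ U := e ▸ (⟨hr, c, r1⟩ : r ∈ H.S0)
    obtain ⟨w, hw, u, hu, rfl⟩ := (mem_sup_iff_of_le_normalizer' ((US.trans H.S0_K).trans H.KN)).1 this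
    refine ⟨u, hu, ?_⟩
    have := (H.acW (inv_mem hw)).mul r1 (H.KN hr)
    rw [inv_mul_cancel_left] at this
    exact this.congr (by ring) (by ring) (by ring) (by ring)
  refine ⟨H, US, H'.eW, Us, fun w hw => ⟨fun h => ?_, fun h => ?_⟩⟩
  · obtain ⟨u, hu, u1⟩ := Us 1
    have := (u1 w hw).1
    rw [comm_of_sq H'.eW hu h, mul_inv_cancel_right] at this
    linear_combination -this
  · refine H'.faith w (WK hw) (Ac.of_cent (mem_centralizer_iff.2 fun u hu => ?_))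
    obtain ⟨uK, c, u1⟩ := US hu
    have := eq_of H D (cj (H.KN uK) hw) hw (by rw [(u1 w hw).1, h]; ring) (by rw [(u1 w hw).2, h]; ring)
    exact mul_inv_eq_iff_eq_mul.1 this

/-- one side -/
structure Sd (K W U T : Subgroup G) (a b : G → F) : Prop where
  p : Pre K W U a b
  D : W ⊓ C[K] = ⊥
  NK : N[W] ≤ N[K]
  KW : N[K] ≤ N[W]
  syl : IsSylowIn 2 T N[K]
  JT : W ⊔ U ≤ T

theorem Sd.dec (h : Sd K W U T a b) {e : G} (hT : e ∈ T) (hW : e ∈ C[W]) (hU : e ∈ C[U]) :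
    ∃ y ∈ W ⊓ U, e * y⁻¹ ∈ T ⊓ C[K] := by
  have H := h.p
  obtain ⟨n, hn, n1⟩ := H.real 0 1 1 0 (by linear_combination -H.two)
  have eK := h.syl.le hT
  have d1 := H.triv eK (h.KW eK) (Ac.of_cent hW) hn
  have n2 : n * n ∈ W := H.faith _ (mul_mem hn hn) ((n1.mul n1 (H.KN hn)).congr (by ring) (by ring)
    (by ring) (by ring))
  have e1 := mem_centralizer_iff.1 hW _ n2
  generalize hd : e * n * e⁻¹ * n⁻¹ = δ at d1
  have e2 : δ * (n * δ * n⁻¹) = 1 := by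
    rw [← hd]
    calc _ = e * (n * n) * e⁻¹ * (n * n)⁻¹ := by group
      _ = 1 := by rw [← e1]; group
  have e3 : a δ = b δ := by
    have := H.adda _ d1 _ (cj (H.KN hn) d1)
    rw [e2, H.a_one, (n1 δ d1).1] at this
    linear_combination -this - b δ * H.two
  obtain ⟨y, hy, y1, y2⟩ := H.sur (a δ) 0
  have yU := (H.Y y hy).2 y2
  have z := cj (H.KN hn) hy
  have e4 : y * (n * y * n⁻¹) = δ := eq_of H.toCo h.D (mul_mem hy z) d1
    (by rw [H.adda _ hy _ z, (n1 y hy).1, y1, y2]; ring)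
    (by rw [H.addb _ hy _ z, (n1 y hy).2, y1, y2, e3]; ring)
  have e5 : n * (e * y⁻¹) = e * y⁻¹ * n := by
    have a1 := mem_centralizer_iff.1 hW _ hy
    have a2 := mem_centralizer_iff.1 hW _ z
    have a3 : e * n = y * (n * y * n⁻¹) * n * e := by rw [e4, ← hd]; group
    have a4 := H.inv hy
    calc n * (e * y⁻¹) = y⁻¹ * (y * (n * y * n⁻¹) * n * e) * (e⁻¹ * (y⁻¹ * e)) * y⁻¹ := by group
      _ = y⁻¹ * (e * n) * (e⁻¹ * (e * y)) * y⁻¹ := by rw [← a3, a4, a1]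
      _ = (y⁻¹ * e) * n := by group
      _ = _ := by rw [a4, a1]
  have cs : ∀ g, g ∈ C[W] → g ∈ C[U] → g ∈ C[W ⊔ U] := fun g h1 h2 =>
    zpowers_le.1 (le_centralizer_iff.1 (sup_le (le_centralizer_iff.1 (zpowers_le.2 h1))
      (le_centralizer_iff.1 (zpowers_le.2 h2))))
  have cS : H.S0 ≤ C[zpowers (e * y⁻¹)] := by
    rw [H.S0_eq]
    exact le_centralizer_iff.1 (zpowers_le.2 (mul_mem (cs _ hW hU)
      (inv_mem (cs _ (le_cent_of_sq H.eW hy) (le_cent_of_sq H.eU yU)))))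
  have nC : n ∈ C[zpowers (e * y⁻¹)] := by
    rw [← zpowers_le, le_centralizer_iff, zpowers_le, mem_centralizer_iff]
    rintro _ ⟨k, rfl⟩
    exact (Commute.zpow_left e5 k)
  refine ⟨y, ⟨hy, yU⟩, T.mul_mem hT (T.inv_mem (h.JT (mem_sup_left hy))), ?_⟩
  have := H.gen hn n1 cS (conj_le_of_mem cS nC)
  rwa [le_centralizer_iff, zpowers_le] at this

theorem D2 [Finite G] [Fintype F] {m : ℕ} (hm : 2 ≤ m) (hF : Fintype.card F = 2 ^ m)
    (h : Sd K W U T a b) (h' : Sd K' U W T a' b') (hO : T ⊓ C[K] ⊓ C[K'] = ⊥) : T ⊓ C[K'] = ⊥ := by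
  have H := h.p
  refine eq_bot_iff.2 fun d hd => ?_
  obtain ⟨-, -, -, -, -, l, l0, l1, -⟩ := H.torus hm hF
  obtain ⟨c, hc, c1⟩ := H.real l 0 0 l⁻¹ (by simp [l0])
  have cU : c ∈ N[U] := H.tri h.NK (H.KN hc)
    ((c1.inv (H.KN hc) (by simp [l0])).congr rfl rfl neg_zero rfl)
  obtain ⟨y, hy, e⟩ := h.dec hd.1 (centralizer_anti (h'.p.US.trans h'.p.S0_K) hd.2)
    (centralizer_anti h'.p.WK hd.2)
  have a1 := mem_centralizer_iff.1 e.2 c hc
  have z : c * y * c⁻¹ * y⁻¹ ∈ U := mul_mem (cj cU hy.2) (inv_mem hy.2)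
  have zW : c * y * c⁻¹ * y⁻¹ ∈ W := mul_mem (cj (H.KN hc) hy.1) (inv_mem hy.1)
  have a2 := mem_centralizer_iff.1 e.2 _ (H.WK zW)
  have a3 : c * d * c⁻¹ * d⁻¹ = c * y * c⁻¹ * y⁻¹ := by
    generalize hg : d * y⁻¹ = g at a1 a2
    have : d = g * y := by rw [← hg]; group
    rw [this]
    calc _ = (c * g) * y * c⁻¹ * y⁻¹ * g⁻¹ := by group
      _ = g * (c * y * c⁻¹ * y⁻¹) * g⁻¹ := by rw [a1]; group
      _ = _ := by rw [← a2]; group
  have a4 : c * y * c⁻¹ * y⁻¹ ∈ C[K'] := a3 ▸ mul_mem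
    (cj (normalizer_le_normalizer_centralizer K' (h'.NK cU)) hd.2) (inv_mem hd.2)
  have a5 : c * y * c⁻¹ = y := mul_inv_eq_one.1 (mem_bot.1 (h'.D ▸ mem_inf.2 ⟨z, a4⟩))
  have b0 := (H.Y y hy.1).1 hy.2
  have a6 := (c1 y hy.1).1
  rw [a5, b0] at a6
  have a0 : a y = 0 := by
    by_contra a0
    exact l1 (mul_right_cancel₀ a0 (by linear_combination -a6))
  have y1 : y = 1 := eq_of H.toCo h.D hy.1 (one_mem _) (by rw [a0, H.a_one]) (by rw [b0, H.b_one])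
  rw [y1, inv_one, mul_one] at e
  exact hO ▸ mem_inf.2 ⟨e, hd.2⟩

theorem P1 [Finite G] [Fintype F] {m : ℕ} (hm : 2 ≤ m) (hF : Fintype.card F = 2 ^ m)
    (h : Sd K W U T a b) (h' : Sd K' U W T a' b') (hO : T ⊓ C[K] ⊓ C[K'] = ⊥) : T ⊓ C[W] ≤ W := by
  intro g hg
  have H' := h'.p
  have gK := h'.syl.le hg.1
  have gU := h'.KW gK
  obtain ⟨k, hk⟩ := isPGroup_iff_forall_mem.1 h.syl.isPGroup g hg.1
  obtain ⟨c, c1⟩ := H'.uni1 gK gU hk fun u hu u0 => by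
    rw [← mem_centralizer_iff.1 hg.2 u ((H'.Y u hu).2 u0), mul_inv_cancel_right]
    exact ⟨rfl, u0⟩
  obtain ⟨w, hw, w1⟩ := H'.Us c
  have wN := H'.KN (H'.US hw).1
  have e1 : w⁻¹ * g ∈ C[U] := cen_of H'.toCo h'.D (mul_mem (inv_mem wN) gU)
    (((w1.inv wN (by ring)).mul c1 gU).congr (by ring) (by ring) (by ring) (by ring))
  obtain ⟨y, hy, e⟩ := h'.dec (mul_mem (inv_mem (h.JT (mem_sup_left hw))) hg.1) e1
    (mul_mem (inv_mem (le_cent_of_sq h.p.eW hw)) hg.2)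
  rw [D2 hm hF h h' hO, mem_bot, mul_inv_eq_one, inv_mul_eq_iff_eq_mul] at e
  rw [e]
  exact mul_mem hw hy.2

theorem mx [Finite G] [Finite F] (h : Sd K W U T a b) (hP : T ⊓ C[W] ≤ W) (P : Subgroup G)
    (p : IsPGroup 2 P) (PW : P ≤ N[W]) (KP : K ≤ N[P]) : P ≤ W := by
  haveI : Fact (Nat.Prime 2) := ⟨Nat.prime_two⟩
  have H := h.p
  obtain ⟨w, hw, w0, hf⟩ := H.fixv p (PW.trans h.NK) PW
  have wC : w ∈ C[P] := mem_centralizer_iff.2 fun q hq =>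
    mul_inv_eq_iff_eq_mul.1 (eq_of H.toCo h.D (cj (PW hq) hw) hw (hf q hq).1 (hf q hq).2)
  have WC : W ≤ C[P] := fun v hv => by
    by_cases v0 : a v = 0 ∧ b v = 0
    · rw [eq_of H.toCo h.D hv (one_mem _) (by rw [v0.1, H.a_one]) (by rw [v0.2, H.b_one])]
      exact one_mem _
    obtain ⟨α, β, γ, δ, d, e1, e2⟩ := to_e1 w0
    obtain ⟨α', β', γ', δ', d', e1', e2'⟩ := to_e1 v0
    obtain ⟨k, hk, k1⟩ := H.real α β γ δ d
    obtain ⟨l, hl, l1⟩ := H.real α' β' γ' δ' d'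
    have := eq_of H.toCo h.D (cj (H.KN hk) hw) (cj (H.KN hl) hv)
      (by rw [(k1 w hw).1, (l1 v hv).1, e1, e1']) (by rw [(k1 w hw).2, (l1 v hv).2, e2, e2'])
    have kN := le_normalizer_centralizer KP
    exact (mem_normalizer_iff.1 (kN hl) v).2 (this ▸ cj (kN hk) wC)
  obtain ⟨g, hg, e⟩ := h.syl.exists_conj_le (PW.trans h.NK) p
  have gW := h.KW hg
  have : P ^ᶜ g ≤ W := le_trans (le_inf e (conj_le_of_mem_normalizer (le_centralizer_iff.1 WC)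
    (normalizer_le_normalizer_centralizer W gW))) hP
  rwa [← conj_eq_of_mem_normalizer gW, conj_le_conj_iff] at this

theorem ne_bot (H : Co K W a b) : W ≠ ⊥ := by
  intro e
  obtain ⟨u, hu, u1, -⟩ := H.sur 1 0
  rw [e, mem_bot] at hu
  rw [hu, H.a_one] at u1
  exact zero_ne_one u1

theorem cw (loc : Loc G) (H : Co K W a b)
    (mx : ∀ P : Subgroup G, IsPGroup 2 P → P ≤ N[W] → K ≤ N[P] → P ≤ W) : C[W] ≤ W := by
  have o := mx _ (pCoreOf_isPGroup 2 N[W]) (pCoreOf_le _ _) (H.KN.trans (le_normalizer_pCoreOf _ _))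
  exact fun g hg => o (loc W (H.pS0.to_le H.W_S0) (ne_bot H)
    ⟨centralizer_anti o hg, centralizer_le_normalizer _ hg⟩)

theorem nk (H : Co K W a b) (KW : N[K] ≤ N[W]) (hM : IsMaximalTwoLocal N[K]) : N[W] ≤ N[K] :=
  (hM.2 _ ⟨W, H.pS0.to_le H.W_S0, ne_bot H, rfl⟩ KW).le

theorem normU [Finite G] (H : Pre K W U a b) (KW : N[K] ≤ N[W]) (hJ : IsSylowIn 2 (W ⊔ U) K)
    (p : IsPGroup 2 T) (TK : T ≤ N[K]) (JT : W ⊔ U ≤ T) : T ≤ N[U] := fun t ht => by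
  have e : T ⊓ K = W ⊔ U := hJ.eq_of_le inf_le_right p.to_inf_left (le_inf JT hJ.le)
  refine H.normU (KW (TK ht)) ?_
  rw [H.S0_eq, ← e]
  exact le_normalizer_inf le_normalizer TK ht

instance instQ0 : Q0.{u, v} := ⟨fun {G} _ _ hG {F} _ _ e he hF K K' _ φ₁ ψ₁ h₁ φ₂ ψ₂ h₂ hJ₁ hJ₂ hM₁ hM₂ T hO => by
  haveI : Fact (Nat.Prime 2) := ⟨Nat.prime_two⟩
  haveI := Fintype.ofFinite (GaloisField 2 e)
  have c : Fintype.card (GaloisField 2 e) = 2 ^ e := by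
    rw [← Nat.card_eq_fintype_card, GaloisField.card 2 e (by omega)]
  have ι : F ≃+* GaloisField 2 e := FiniteField.ringEquivOfCardEq (hF.trans c.symm)
  have two : (2 : GaloisField 2 e) = 0 := CharP.cast_eq_zero _ 2
  have loc : Loc G := fun X pX nX g hg =>
    ⟨⟨g, hg.2⟩, hG.2 X pX nX (mem_centralizer_iff.2 fun x hx =>
      Subtype.ext (mem_centralizer_iff.1 hg.1 x ⟨x, hx, rfl⟩)), rfl⟩
  obtain ⟨a, b, H, D⟩ := co_of ι two K φ₁ ψ₁ h₁
  obtain ⟨a', b', H', D'⟩ := co_of ι two K' φ₂ ψ₂ h₂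
  have J1 : IsSylowIn 2 (pCoreOf 2 K ⊔ pCoreOf 2 K') K := by
    obtain ⟨S, hS⟩ := hJ₁
    exact (show _ = pCoreOf 2 K ⊔ pCoreOf 2 K' from hS) ▸ isSylowIn_map_subtype S
  have J2 : IsSylowIn 2 (pCoreOf 2 K' ⊔ pCoreOf 2 K) K' := by
    obtain ⟨S, hS⟩ := hJ₂
    rw [sup_comm]
    exact (show _ = pCoreOf 2 K ⊔ pCoreOf 2 K' from hS) ▸ isSylowIn_map_subtype S
  have KW := normalizer_le_normalizer_pCoreOf 2 K
  have KW' := normalizer_le_normalizer_pCoreOf 2 K'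
  have hO' := pCoreOf_eq_bot_iff.2 hO
  have T1 := isSylowIn_map_subtype T
  generalize pCoreOf 2 K = W at *
  generalize pCoreOf 2 K' = U at *
  generalize (T : Subgroup N[K]).map N[K].subtype = T1' at T1 hO'
  clear hO hJ₁ hJ₂ h₁ h₂
  obtain ⟨a, b, H, eS⟩ := adapt H J1
  obtain ⟨a', b', H', eS'⟩ := adapt H' J2
  have p := pre_of H H' D eS (le_sup_right.trans J2.le)
  have p' := pre_of H' H D' eS' (le_sup_right.trans J1.le)
  have NK := nk H KW hM₁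
  have NK' := nk H' KW' hM₂
  obtain ⟨g, hg, eg⟩ := (T1.inf_normal le_normalizer le_rfl).exists_conj_eq J1
  have T2 := T1.conj_of_mem (le_normalizer hg)
  have JT : W ⊔ U ≤ T1' ^ᶜ g := eg ▸ conj_mono g inf_le_left
  have l1 : T1' ^ᶜ g ≤ T1' ⊔ K := conj_le_of_mem le_sup_left (mem_sup_right hg)
  have l2 : T1' ≤ (T1' ^ᶜ g) ⊔ K := by
    have := conj_le_of_mem (le_sup_left : T1' ^ᶜ g ≤ (T1' ^ᶜ g) ⊔ K) (mem_sup_right (inv_mem hg))
    rwa [conj_conj_inv] at this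
  generalize T1' ^ᶜ g = T2' at T2 JT l1 l2
  have TK' : T2' ≤ N[K'] := (normU p KW J1 T2.isPGroup T2.le JT).trans NK'
  have T3 : IsSylowIn 2 T2' N[K'] := ⟨TK', T2.isPGroup, fun Q q1 q2 q3 => T2.eq_of_le
    ((normU p' KW' J2 q2 q1 ((sup_comm W U ▸ JT).trans q3)).trans NK) q2 q3⟩
  have s : Sd K W U T2' a b := ⟨p, D, NK, KW, T2, JT⟩
  have s' : Sd K' U W T2' a' b' := ⟨p', D', NK', KW', T3, sup_comm W U ▸ JT⟩
  have hO : T2' ⊓ C[K] ⊓ C[K'] = ⊥ := by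
    refine eq_bot_iff.2 (hO' ▸ le_pCoreOf ((inf_le_left.trans inf_le_left).trans (l1.trans le_sup_left))
      ?_ T2.isPGroup.to_inf_left.to_inf_left)
    have k1 : K ≤ N[T2' ⊓ C[K] ⊓ C[K']] := le_normalizer_of_le_centralizer
      (le_centralizer_iff.1 (inf_le_left.trans inf_le_right))
    have k2 : T2' ≤ N[T2' ⊓ C[K] ⊓ C[K']] := le_normalizer_inf (le_normalizer_inf le_normalizer
      (le_normalizer_centralizer T2.le)) (le_normalizer_centralizer TK')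
    exact sup_le (sup_le (l2.trans (sup_le k2 k1)) k1)
      (le_normalizer_of_le_centralizer (le_centralizer_iff.1 inf_le_right))
  have hO2 : T2' ⊓ C[K'] ⊓ C[K] = ⊥ := by rw [inf_right_comm, hO]
  have m1 := mx s (P1 he c s s' hO)
  have m2 := mx s' (P1 he c s' s hO2)
  exact ⟨_, inferInstance, inferInstance, ι, K, K', W, U, a, b, a', b', loc, he, c, p, p', D, D', NK, NK',
    m1, m2, cw loc H m1, cw loc H' m2⟩⟩

end Cfsg.Agent.Lib.L3O
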