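import Cfsg.Agent.Lib.L3Defs

/-! The presentation of `SL₃(F)` in characteristic two (part Q3 of S3091). -/

set_option autoImplicit false
set_option linter.unusedSectionVars false
set_option linter.unusedSimpArgs false
set_option linter.unusedTactic false
set_option linter.unreachableTactic false

namespace Cfsg.Agent.Lib.L3P

open Subgroup Matrix Cfsg.Agent.Lib.L3

universe u

section
variable {G : Type*} [Group G] {F : Type} [Field F] {x y z h k : F → G} {n m w g : G}

theorem rsymm (R : Rel x y z h k n m) : Rel y x z k h m n := ⟨R.two, R.zz, R.r, R.l, R.br.symm⟩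

def BB (x y z h k : F → G) : Subgroup G :=
  closure {g | (∃ t, g = x t) ∨ (∃ t, g = y t) ∨ (∃ t, g = z t) ∨ (∃ l, l ≠ 0 ∧ g = h l) ∨ (∃ l, l ≠ 0 ∧ g = k l)}

theorem BB_symm : BB y x z k h = BB x y z h k := by
  unfold BB; congr 1; ext g
  constructor <;> rintro (e | e | e | e | e) <;> simp only [Set.mem_ofPred_eq, e, true_or, or_true]

theorem xB (t : F) : x t ∈ BB x y z h k := subset_closure (by left; exact ⟨t, rfl⟩)
theorem yB (t : F) : y t ∈ BB x y z h k := subset_closure (by right; left; exact ⟨t, rfl⟩)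
theorem zB (t : F) : z t ∈ BB x y z h k := subset_closure (by right; right; left; exact ⟨t, rfl⟩)
theorem hB {l : F} (e : l ≠ 0) : h l ∈ BB x y z h k := subset_closure (by right; right; right; left; exact ⟨l, e, rfl⟩)
theorem kB {l : F} (e : l ≠ 0) : k l ∈ BB x y z h k := subset_closure (by right; right; right; right; exact ⟨l, e, rfl⟩)

theorem add0 (e : ∀ s t, x s * x t = x (s + t)) : x 0 = 1 := by
  have := e 0 0; rw [add_zero] at this; exact mul_eq_left.1 this
theorem addi (e : ∀ s t, x s * x t = x (s + t)) (t : F) : (x t)⁻¹ = x (-t) :=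
  inv_eq_of_mul_eq_one_right (by rw [e, add_neg_cancel, add0 e])
theorem mul1 (e : ∀ l, l ≠ 0 → ∀ r, r ≠ 0 → h l * h r = h (l * r)) : h 1 = 1 := by
  have := e 1 one_ne_zero 1 one_ne_zero; rw [mul_one] at this; exact mul_eq_left.1 this
theorem muli (e : ∀ l, l ≠ 0 → ∀ r, r ≠ 0 → h l * h r = h (l * r)) {l : F} (hl : l ≠ 0) : (h l)⁻¹ = h l⁻¹ :=
  inv_eq_of_mul_eq_one_right (by rw [e l hl _ (inv_ne_zero hl), mul_inv_cancel₀ hl, mul1 e])

def NF (x y z h k : F → G) (g : G) : Prop :=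
  ∃ c b a l r, l ≠ 0 ∧ r ≠ 0 ∧ g = z c * (y b * (x a * (h l * k r)))

theorem push {a b c d r : G} (e : a * b = c * d) : a * (b * r) = c * (d * r) := by
  rw [← mul_assoc, e, mul_assoc]
theorem push1 {a b c r : G} (e : a * b = c) : a * (b * r) = c * r := by rw [← mul_assoc, e]

theorem nf (R : Rel x y z h k n m) (hg : g ∈ BB x y z h k) : NF x y z h k g := by
  have key : ∀ s : G, ((∃ t, s = x t) ∨ (∃ t, s = y t) ∨ (∃ t, s = z t) ∨ (∃ l, l ≠ 0 ∧ s = h l) ∨
      (∃ l, l ≠ 0 ∧ s = k l)) → ∀ g, NF x y z h k g → NF x y z h k (s * g) := by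
    rintro s (⟨t, rfl⟩ | ⟨t, rfl⟩ | ⟨t, rfl⟩ | ⟨t, ht, rfl⟩ | ⟨t, ht, rfl⟩) _ ⟨c, b, a, l, r, hl, hr, rfl⟩
    · refine ⟨c + t * b, b, t + a, l, r, hl, hr, ?_⟩
      have e : x t * y b = z (t * b) * (y b * x t) := by
        rw [R.l.xy, mul_assoc, R.l.xz, push (R.r.xz _ _)]
      rw [push (R.l.xz _ _), push1 e, mul_assoc, mul_assoc, push1 (R.zz _ _), push1 (R.l.xx _ _)]
    · exact ⟨c, t + b, a, l, r, hl, hr, by rw [push (R.r.xz _ _), push1 (R.r.xx _ _)]⟩
    · exact ⟨t + c, b, a, l, r, hl, hr, by rw [push1 (R.zz _ _)]⟩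
    · exact ⟨_, _, _, t * l, r, mul_ne_zero ht hl, hr, by
        rw [push (R.l.hz t ht _), push (R.l.hy t ht _), push (R.l.hx t ht _), push1 (R.l.hh t ht l hl)]⟩
    · exact ⟨_, _, _, l, t * r, hl, mul_ne_zero ht hr, by
        rw [push (R.r.hz t ht _), push (R.r.hx t ht _), push (R.r.hy t ht _), push (R.r.hk t ht l hl),
          R.r.hh t ht r hr]⟩
  induction hg using closure_induction_left with
  | one => exact ⟨0, 0, 0, 1, 1, one_ne_zero, one_ne_zero, by
      simp [add0 R.zz, add0 R.l.xx, add0 R.r.xx, mul1 R.l.hh, mul1 R.r.hh]⟩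
  | mul_left s hs g _ ih => exact key s hs g ih
  | inv_mul_cancel s hs g _ ih =>
    refine key _ ?_ g ih
    rcases hs with ⟨t, rfl⟩ | ⟨t, rfl⟩ | ⟨t, rfl⟩ | ⟨t, ht, rfl⟩ | ⟨t, ht, rfl⟩
    · exact Or.inl ⟨_, addi R.l.xx t⟩
    · exact Or.inr (Or.inl ⟨_, addi R.r.xx t⟩)
    · exact Or.inr (Or.inr (Or.inl ⟨_, addi R.zz t⟩))
    · exact Or.inr (Or.inr (Or.inr (Or.inl ⟨_, inv_ne_zero ht, muli R.l.hh ht⟩)))
    · exact Or.inr (Or.inr (Or.inr (Or.inr ⟨_, inv_ne_zero ht, muli R.r.hh ht⟩)))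

theorem cjn (e : n * n = 1) (a b : G) : n * (a * b) * n = (n * a * n) * (n * b * n) := by
  calc n * (a * b) * n = n * a * (n * n) * b * n := by rw [e]; group
    _ = _ := by group

theorem back (e : n * n = 1) {a b : G} (e' : n * a * n = b) : n * b * n = a := by
  calc n * b * n = (n * n) * a * (n * n) := by rw [← e']; group
    _ = a := by rw [e, one_mul, mul_one]

theorem split (R : Rel x y z h k n m) (hg : g ∈ BB x y z h k) :
    ∃ b t, n * b * n ∈ BB x y z h k ∧ g = b * x t := by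
  obtain ⟨c, b, a, l, r, hl, hr, rfl⟩ := nf R hg
  refine ⟨z c * (y b * (h l * k r)), r * ((l ^ 2)⁻¹ * a), ?_, ?_⟩
  · rw [cjn R.l.nn, cjn R.l.nn, cjn R.l.nn, R.l.nz, back R.l.nn (R.l.nz b), R.l.nh l hl, R.l.nk r hr]
    exact mul_mem (yB _) (mul_mem (zB _) (mul_mem (hB (inv_ne_zero hl)) (mul_mem (hB hr) (kB hr))))
  · simp only [mul_assoc]
    rw [R.r.hy r hr, push (R.l.hx l hl _), inv_mul_cancel_left₀ hr, mul_inv_cancel_left₀ (pow_ne_zero 2 hl)]

def D (B : Subgroup G) (w g : G) : Prop := ∃ b ∈ B, ∃ b' ∈ B, g = b * w * b'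

theorem D.left {B : Subgroup G} {s : G} (hs : s ∈ B) (hg : D B w g) : D B w (s * g) := by
  obtain ⟨b, hb, b', hb', rfl⟩ := hg
  exact ⟨s * b, mul_mem hs hb, b', hb', by group⟩

theorem step1 (R : Rel x y z h k n m) (hw : ∀ t, w⁻¹ * x t * w ∈ BB x y z h k) (hg : D (BB x y z h k) w g) :
    D (BB x y z h k) (n * w) (n * g) := by
  obtain ⟨b, hb, b', hb', rfl⟩ := hg
  obtain ⟨b0, t, h0, rfl⟩ := split R hb
  refine ⟨_, h0, _, mul_mem (hw t) hb', ?_⟩
  calc n * (b0 * x t * w * b') = n * b0 * (n * n) * x t * w * b' := by rw [R.l.nn]; group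
    _ = _ := by group

theorem step2 (R : Rel x y z h k n m) (hw : ∀ t, w⁻¹ * x t * w ∈ BB x y z h k) (hg : D (BB x y z h k) (n * w) g) :
    D (BB x y z h k) w (n * g) ∨ D (BB x y z h k) (n * w) (n * g) := by
  obtain ⟨b, hb, b', hb', rfl⟩ := hg
  obtain ⟨b0, t, h0, rfl⟩ := split R hb
  have e : n * (b0 * x t * (n * w) * b') = (n * b0 * n) * (n * x t * n) * w * b' := by
    calc n * (b0 * x t * (n * w) * b') = n * b0 * (n * n) * x t * (n * w) * b' := by rw [R.l.nn]; group
      _ = _ := by group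
  rw [e]
  by_cases ht : t = 0
  · left
    exact ⟨_, h0, b', hb', by rw [ht, add0 R.l.xx, mul_one, R.l.nn, mul_one]⟩
  · right
    refine ⟨_, mul_mem h0 (mul_mem (xB t⁻¹) (hB (inv_ne_zero ht))), _, mul_mem (hw t⁻¹) hb', ?_⟩
    rw [R.l.nx t ht]; group

def S (B : Subgroup G) (n m g : G) : Prop :=
  D B 1 g ∨ D B m g ∨ D B (m * n) g ∨ D B n g ∨ D B (n * m) g ∨ D B (n * (m * n)) g

theorem S.stn (R : Rel x y z h k n m) (hg : S (BB x y z h k) n m g) : S (BB x y z h k) n m (n * g) := by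
  have ni : n⁻¹ = n := inv_eq_of_mul_eq_one_right R.l.nn
  have mi : m⁻¹ = m := inv_eq_of_mul_eq_one_right R.r.nn
  have w1 : ∀ t, (1 : G)⁻¹ * x t * 1 ∈ BB x y z h k := fun t => by simpa using xB t
  have w2 : ∀ t, m⁻¹ * x t * m ∈ BB x y z h k := fun t => by rw [mi, back R.r.nn (R.r.nz t)]; exact zB t
  have w3 : ∀ t, (m * n)⁻¹ * x t * (m * n) ∈ BB x y z h k := fun t => by
    have : (m * n)⁻¹ * x t * (m * n) = n * (m * x t * m) * n := by rw [_root_.mul_inv_rev, ni, mi]; group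
    rw [this, back R.r.nn (R.r.nz t), R.l.nz]; exact yB t
  unfold S
  rcases hg with e | e | e | e | e | e
  · have := step1 R w1 e; rw [mul_one] at this; tauto
  · have := step1 R w2 e; tauto
  · have := step1 R w3 e; tauto
  · have := step2 R w1 (by rwa [mul_one]); rw [mul_one] at this; tauto
  · have := step2 R w2 e; tauto
  · have := step2 R w3 e; tauto

theorem S.symm {B : Subgroup G} (br : n * m * n = m * n * m) (hg : S B n m g) : S B m n g := by
  unfold S at *
  rw [← mul_assoc, br, mul_assoc] at hg; tauto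

theorem S.left {B : Subgroup G} {s : G} (hs : s ∈ B) (hg : S B n m g) : S B n m (s * g) :=
  hg.imp (D.left hs) (Or.imp (D.left hs) (Or.imp (D.left hs) (Or.imp (D.left hs) (Or.imp (D.left hs) (D.left hs)))))

theorem cover (R : Rel x y z h k n m) (hg : g ∈ gen x y n m) : S (BB x y z h k) n m g := by
  have ni : n⁻¹ = n := inv_eq_of_mul_eq_one_right R.l.nn
  have mi : m⁻¹ = m := inv_eq_of_mul_eq_one_right R.r.nn
  have km : ∀ g, S (BB x y z h k) n m g → S (BB x y z h k) n m (m * g) := fun g e => by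
    have e1 : S (BB y x z k h) m n g := by rw [BB_symm]; exact e.symm R.br
    have := S.stn (rsymm R) e1
    rw [BB_symm] at this
    exact this.symm R.br.symm
  induction hg using closure_induction_left with
  | one => exact Or.inl ⟨1, one_mem _, 1, one_mem _, by simp⟩
  | mul_left s hs g _ ih =>
    rcases hs with (⟨t, rfl⟩ | ⟨t, rfl⟩) | rfl | rfl
    exacts [ih.left (xB t), ih.left (yB t), S.stn R ih, km g ih]
  | inv_mul_cancel s hs g _ ih =>
    rcases hs with (⟨t, rfl⟩ | ⟨t, rfl⟩) | rfl | rfl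
    · exact ih.left (inv_mem (xB t))
    · exact ih.left (inv_mem (yB t))
    · rw [ni]; exact S.stn R ih
    · rw [mi]; exact km g ih

theorem gen_map {G' : Type*} [Group G'] (f : G →* G') :
    (gen x y n m).map f = gen (fun t => f (x t)) (fun t => f (y t)) (f n) (f m) := by
  unfold gen
  rw [MonoidHom.map_closure, Set.image_union, Set.image_union, Set.image_pair, ← Set.range_comp, ← Set.range_comp]
  rfl

variable {G' : Type*} [Group G'] {x' y' z' h' k' : F → G'} {n' m' : G'}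

theorem hprod (a : Hr x y z h k n) (b : Hr x' y' z' h' k' n') :
    Hr (fun t => (x t, x' t)) (fun t => (y t, y' t)) (fun t => (z t, z' t)) (fun t => (h t, h' t))
      (fun t => (k t, k' t)) (n, n') where
  xx s t := Prod.ext (a.xx s t) (b.xx s t)
  xz s t := Prod.ext (a.xz s t) (b.xz s t)
  xy s t := Prod.ext (a.xy s t) (b.xy s t)
  hh l e r e' := Prod.ext (a.hh l e r e') (b.hh l e r e')
  hk l e r e' := Prod.ext (a.hk l e r e') (b.hk l e r e')
  hx l e t := Prod.ext (a.hx l e t) (b.hx l e t)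
  hy l e t := Prod.ext (a.hy l e t) (b.hy l e t)
  hz l e t := Prod.ext (a.hz l e t) (b.hz l e t)
  nn := Prod.ext a.nn b.nn
  nz t := Prod.ext (a.nz t) (b.nz t)
  nh l e := Prod.ext (a.nh l e) (b.nh l e)
  nk l e := Prod.ext (a.nk l e) (b.nk l e)
  nx l e := Prod.ext (a.nx l e) (b.nx l e)

theorem rprod (a : Rel x y z h k n m) (b : Rel x' y' z' h' k' n' m') :
    Rel (fun t => (x t, x' t)) (fun t => (y t, y' t)) (fun t => (z t, z' t)) (fun t => (h t, h' t))
      (fun t => (k t, k' t)) (n, n') (m, m') :=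
  ⟨a.two, fun s t => Prod.ext (a.zz s t) (b.zz s t), hprod a.l b.l, hprod a.r b.r, Prod.ext a.br b.br⟩

end

section
variable {F : Type} [Field F] [CharP F 2]

abbrev SL3 (F : Type) [Field F] := SpecialLinearGroup (Fin 3) F

def X (t : F) : SL3 F := ⟨!![1, t, 0; 0, 1, 0; 0, 0, 1], by simp [det_fin_three]⟩
def Y (t : F) : SL3 F := ⟨!![1, 0, 0; 0, 1, t; 0, 0, 1], by simp [det_fin_three]⟩
def Z (t : F) : SL3 F := ⟨!![1, 0, t; 0, 1, 0; 0, 0, 1], by simp [det_fin_three]⟩
open Classical in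
noncomputable def H (l : F) : SL3 F :=
  ⟨if l = 0 then 1 else !![l, 0, 0; 0, l⁻¹, 0; 0, 0, 1], by split_ifs with e <;> simp [det_fin_three, e]⟩
open Classical in
noncomputable def K (l : F) : SL3 F :=
  ⟨if l = 0 then 1 else !![1, 0, 0; 0, l, 0; 0, 0, l⁻¹], by split_ifs with e <;> simp [det_fin_three, e]⟩
def N : SL3 F := ⟨!![0, 1, 0; 1, 0, 0; 0, 0, 1], by simp [det_fin_three, CharTwo.neg_eq]⟩
def M : SL3 F := ⟨!![1, 0, 0; 0, 0, 1; 0, 1, 0], by simp [det_fin_three, CharTwo.neg_eq]⟩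

theorem Xv (t : F) : (X t : Matrix (Fin 3) (Fin 3) F) = !![1, t, 0; 0, 1, 0; 0, 0, 1] := rfl
theorem Yv (t : F) : (Y t : Matrix (Fin 3) (Fin 3) F) = !![1, 0, 0; 0, 1, t; 0, 0, 1] := rfl
theorem Zv (t : F) : (Z t : Matrix (Fin 3) (Fin 3) F) = !![1, 0, t; 0, 1, 0; 0, 0, 1] := rfl
theorem Hv {l : F} (e : l ≠ 0) : (H l : Matrix (Fin 3) (Fin 3) F) = !![l, 0, 0; 0, l⁻¹, 0; 0, 0, 1] := if_neg e
theorem Kv {l : F} (e : l ≠ 0) : (K l : Matrix (Fin 3) (Fin 3) F) = !![1, 0, 0; 0, l, 0; 0, 0, l⁻¹] := if_neg e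
theorem Nv : ((N : SL3 F) : Matrix (Fin 3) (Fin 3) F) = !![0, 1, 0; 1, 0, 0; 0, 0, 1] := rfl
theorem Mv : ((M : SL3 F) : Matrix (Fin 3) (Fin 3) F) = !![1, 0, 0; 0, 0, 1; 0, 1, 0] := rfl

theorem ext3 {A B : SL3 F} (e : (A : Matrix (Fin 3) (Fin 3) F) = (B : Matrix (Fin 3) (Fin 3) F)) : A = B :=
  Subtype.ext e

theorem m3 {a b c d e f g h i a' b' c' d' e' f' g' h' i' : F} (h1 : a = a') (h2 : b = b') (h3 : c = c') (h4 : d = d')
    (h5 : e = e') (h6 : f = f') (h7 : g = g') (h8 : h = h') (h9 : i = i') :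
    !![a, b, c; d, e, f; g, h, i] = !![a', b', c'; d', e', f'; g', h', i'] := by
  subst_vars; rfl

theorem relL : Hr (X (F := F)) Y Z H K N := by
  constructor
  all_goals
    intros
    apply ext3
    simp only [Matrix.SpecialLinearGroup.coe_mul, Matrix.SpecialLinearGroup.coe_one, Xv, Yv, Zv, Nv, Mv, one_fin_three,
      mul_fin_three, Hv, Kv, ne_eq, not_false_eq_true, inv_eq_zero, mul_eq_zero, or_self, *]
    apply m3 <;> simp only [mul_zero, zero_mul, mul_one, one_mul, add_zero, zero_add] <;>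
      first | grind | (field_simp; done) | (field_simp; grind)

theorem relR : Hr (Y (F := F)) X Z K H M := by
  constructor
  all_goals
    intros
    apply ext3
    simp only [Matrix.SpecialLinearGroup.coe_mul, Matrix.SpecialLinearGroup.coe_one, Xv, Yv, Zv, Nv, Mv, one_fin_three,
      mul_fin_three, Hv, Kv, ne_eq, not_false_eq_true, inv_eq_zero, mul_eq_zero, or_self, *]
    apply m3 <;> simp only [mul_zero, zero_mul, mul_one, one_mul, add_zero, zero_add] <;>
      first | grind | (field_simp; done) | (field_simp; grind)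

theorem relS : Rel (X (F := F)) Y Z H K N M := by
  refine ⟨CharTwo.two_eq_zero, ?_, relL, relR, ?_⟩
  all_goals
    intros
    apply ext3
    simp only [Matrix.SpecialLinearGroup.coe_mul, Matrix.SpecialLinearGroup.coe_one, Xv, Yv, Zv, Nv, Mv, one_fin_three,
      mul_fin_three, Hv, Kv, ne_eq, not_false_eq_true, inv_eq_zero, mul_eq_zero, or_self, *]
    apply m3 <;> simp only [mul_zero, zero_mul, mul_one, one_mul, add_zero, zero_add] <;>
      first | grind | (field_simp; done) | (field_simp; grind)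

theorem tv {P : Subgroup (SL3 F)} (h1 : ∀ i j (hij : i ≠ j) (a : F), Matrix.SpecialLinearGroup.transvection hij a ∈ P) :
    P = ⊤ := by
  refine eq_top_iff.2 fun g _ => Matrix.SpecialLinearGroup.diagonal_transvection_induction' (· ∈ P) g
    (fun i j hij c hc => ?_) h1 fun _ _ => mul_mem
  convert mul_mem (mul_mem (mul_mem (mul_mem (h1 i j hij c) (h1 j i hij.symm (-c⁻¹)))
    (h1 i j hij (c - 1))) (h1 j i hij.symm 1)) (h1 i j hij (-1))
  ext a b
  simp [Matrix.SpecialLinearGroup.transvection_coe, mul_add, add_mul, single_mul_single_of_ne, hij, hij.symm,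
    Matrix.SpecialLinearGroup.diag2n_coe, single_apply, one_apply, diagonal_apply]
  split_ifs <;> grind

theorem gen_top : gen (X (F := F)) Y N M = ⊤ := by
  have x : ∀ t : F, X t ∈ gen (X (F := F)) Y N M := fun t => subset_closure (Or.inl (Or.inl ⟨t, rfl⟩))
  have y : ∀ t : F, Y t ∈ gen (X (F := F)) Y N M := fun t => subset_closure (Or.inl (Or.inr ⟨t, rfl⟩))
  have n : N ∈ gen (X (F := F)) Y N M := subset_closure (Or.inr (Or.inl rfl))
  have m : M ∈ gen (X (F := F)) Y N M := subset_closure (Or.inr (Or.inr rfl))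
  refine tv fun i j hij a => ?_
  fin_cases i <;> fin_cases j <;> first | exact absurd rfl hij | skip
  on_goal 1 => convert x a
  on_goal 2 => convert mul_mem (mul_mem n (y a)) n
  on_goal 3 => convert mul_mem (mul_mem n (x a)) n
  on_goal 4 => convert y a
  on_goal 5 => convert mul_mem (mul_mem n (mul_mem (mul_mem m (y a)) m)) n
  on_goal 6 => convert mul_mem (mul_mem m (y a)) m
  all_goals
    apply Matrix.SpecialLinearGroup.ext
    simp only [Matrix.SpecialLinearGroup.coe_mul, Xv, Yv, Nv, Mv, mul_fin_three,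
      Matrix.SpecialLinearGroup.transvection_coe]
    intro i j
    fin_cases i <;> fin_cases j <;> simp [single_apply]

theorem nfv {c b a l r : F} (hl : l ≠ 0) (hr : r ≠ 0) :
    ((Z c * (Y b * (X a * (H l * K r))) : SL3 F) : Matrix (Fin 3) (Fin 3) F) =
      !![l, a * (l⁻¹ * r), c * r⁻¹; 0, l⁻¹ * r, b * r⁻¹; 0, 0, r⁻¹] := by
  simp only [Matrix.SpecialLinearGroup.coe_mul, Xv, Yv, Zv, Hv hl, Kv hr, mul_fin_three]
  simp

theorem inj {G : Type*} [Group G] {x y z h k : F → G} {n m : G} (R : Rel x y z h k n m) {g : G × SL3 F}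
    (hg : g ∈ gen (fun t => (x t, X t)) (fun t => (y t, Y t)) (n, N) (m, M)) (e : g.2 = 1) : g = 1 := by
  have R' := rprod R (relS (F := F))
  have key : ∀ w : G × SL3 F, D (BB (fun t => (x t, X t)) (fun t => (y t, Y t)) (fun t => (z t, Z t))
      (fun t => (h t, H t)) (fun t => (k t, K t))) w g →
      (w.2 : Matrix (Fin 3) (Fin 3) F) 1 0 = 0 ∧ (w.2 : Matrix (Fin 3) (Fin 3) F) 2 0 = 0 ∧
        (w.2 : Matrix (Fin 3) (Fin 3) F) 2 1 = 0 := by
    rintro w ⟨b, hb, b', hb', rfl⟩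
    obtain ⟨c, b1, a, l, r, hl, hr, e1⟩ := nf R' (mul_mem (inv_mem hb) (inv_mem hb'))
    have e2 : w.2 = (b⁻¹ * b'⁻¹).2 := by
      calc w.2 = b.2⁻¹ * (b * w * b').2 * b'.2⁻¹ := by simp only [Prod.snd_mul]; group
        _ = _ := by rw [e]; simp
    rw [e2, e1]
    simp only [Prod.snd_mul, nfv hl hr]
    simp
  rcases cover R' hg with k | k | k | k | k | k
  · obtain ⟨b, hb, b', hb', rfl⟩ := k
    obtain ⟨c, b1, a, l, r, hl, hr, e1⟩ := nf R' (mul_mem hb hb')
    rw [mul_one, e1] at e ⊢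
    have e2 := congrArg Subtype.val e
    simp only [Prod.snd_mul] at e2
    replace e2 := (nfv (c := c) (b := b1) (a := a) hl hr).symm.trans e2
    have k1 : l = 1 := by simpa using congrFun (congrFun e2 0) 0
    have k2 : r = 1 := by simpa using congrFun (congrFun e2 2) 2
    subst k1 k2
    have k3 : a = 0 := by simpa using congrFun (congrFun e2 0) 1
    have k4 : c = 0 := by simpa using congrFun (congrFun e2 0) 2
    have k5 : b1 = 0 := by simpa using congrFun (congrFun e2 1) 2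
    subst k3 k4 k5
    simp only [add0 R'.zz, add0 R'.l.xx, add0 R'.r.xx, mul1 R'.l.hh, mul1 R'.r.hh, mul_one]
  all_goals
    have := key _ k
    simp only [Prod.snd_mul, Matrix.SpecialLinearGroup.coe_mul, Nv, Mv, mul_fin_three] at this
    simp at this

end

instance instQ3 : Q3.{u} where
  out {G} _ {F} _ {x y z h k n m} R := by
    have : CharP F 2 := CharTwo.of_one_ne_zero_of_two_eq_zero one_ne_zero R.two
    let P := gen (fun t => (x t, X t)) (fun t => (y t, Y t)) (n, N) (m, M)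
    let π : P →* SL3 F := (MonoidHom.snd G (SL3 F)).comp P.subtype
    have hi : Function.Injective π := (injective_iff_map_eq_one π).2 fun g e => Subtype.ext (inj R g.2 e)
    have hs : Function.Surjective π := by
      rw [← MonoidHom.range_eq_top, MonoidHom.range_comp, range_subtype, gen_map]
      exact gen_top
    let ε := MulEquiv.ofBijective π ⟨hi, hs⟩
    refine ⟨((MonoidHom.fst G (SL3 F)).comp P.subtype).comp ε.symm.toMonoidHom, ?_⟩
    rw [MonoidHom.range_comp, MonoidHom.range_eq_top.2 ε.symm.surjective, ← MonoidHom.range_eq_map,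
      MonoidHom.range_comp, range_subtype, gen_map]
    rfl

end Cfsg.Agent.Lib.L3P
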