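import Cfsg.Agent.Lib.Rk3Aut

/-! An upper bound for the number of integer vectors of norm 16 whose residue lies in a code over `ℤ/4`. -/

set_option autoImplicit false

namespace Cfsg.Agent.Lib.Z4Min

open Cfsg.Agent.Lib.PermNet Cfsg.Agent.Lib.Rk3Aut

def nrm : List ℤ → ℤ
  | [] => 0
  | x :: l => x * x + nrm l

/-- The mask of the odd entries. -/
def par : List ℤ → ℕ
  | [] => 0
  | x :: l => Nat.bit (decide (x % 2 = 1)) (par l)

/-- The `i`-th entry of the vector over `ℤ/4` with the binary digits `s`. -/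
def D (s : ℕ × ℕ) (i : ℕ) : ZMod 4 := (s.1.testBit i).toNat + 2 * (s.2.testBit i).toNat

def syn : List (ℕ × ℕ) → List ℤ → ℕ → ZMod 4
  | s :: cols, x :: l, i => x * D s i + syn cols l i
  | _, _, _ => 0

/-- The binary sum of the masks at the entries that are `2` or `3` modulo `4`. -/
def sx : List ℕ → List ℤ → ℕ
  | s :: cols, x :: l => (if x / 2 % 2 = 1 then s else 0) ^^^ sx cols l
  | _, _ => 0

/-- The binary span. -/
def Sp : List ℕ → ℕ → Prop
  | [], c => c = 0
  | g :: gs, c => Sp gs c ∨ Sp gs (c ^^^ g)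

theorem sp_zero : ∀ gs, Sp gs 0
  | [] => rfl
  | _ :: gs => Or.inl (sp_zero gs)

theorem Sp.xor {gs : List ℕ} {a b : ℕ} (ha : Sp gs a) (hb : Sp gs b) : Sp gs (a ^^^ b) := by
  induction gs generalizing a b with
  | nil => rw [show a = 0 from ha, show b = 0 from hb]; rfl
  | cons g gs ih =>
    rcases ha with ha | ha <;> rcases hb with hb | hb
    · exact Or.inl (ih ha hb)
    · exact Or.inr (Nat.xor_assoc .. ▸ ih ha hb)
    · exact Or.inr (Nat.xor_right_comm .. ▸ ih ha hb)
    · exact Or.inl (by simpa [Nat.xor_assoc, Nat.xor_left_comm g b g] using ih ha hb)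

noncomputable def red (g y : ℕ) : ℕ := Nat.xor y (Nat.mul g (Nat.land (Nat.shiftRight y (Nat.log2 g)) (nat_lit 1)))

theorem red_eq (g y : ℕ) : red g y = y ^^^ if y.testBit g.log2 then g else 0 := by
  simp only [red, Nat.xor_eq, Nat.mul_eq, Nat.land_eq, Nat.shiftRight_eq, Nat.testBit, Nat.and_comm 1]
  rcases Nat.mod_two_eq_zero_or_one (y >>> g.log2) with h | h <;> simp [h]

theorem red_xor (g y z : ℕ) : red g (y ^^^ z) = red g y ^^^ red g z := by
  simp only [red_eq, Nat.testBit_xor]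
  cases y.testBit g.log2 <;> cases z.testBit g.log2 <;>
    simp [Nat.xor_assoc, Nat.xor_left_comm g z g, Nat.xor_comm g z]

theorem red_zero (g : ℕ) : red g 0 = 0 := by simp [red_eq]

theorem red_self (g : ℕ) : red g g = 0 := by
  by_cases h : g = 0
  · subst h; exact red_zero _
  · simp [red_eq, Nat.testBit_log2 h]

noncomputable def spB (gs : List ℕ) : ℕ → Bool :=
  List.rec (motive := fun _ => ℕ → Bool) (fun c => Nat.beq c 0) (fun g _ ih c => forceB (red g c) ih) gs

theorem sp_of_spB {gs : List ℕ} {c : ℕ} (h : spB gs c = true) : Sp gs c := by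
  induction gs generalizing c with
  | nil => exact Nat.eq_of_beq_eq_true h
  | cons g gs ih =>
    have := ih (c := red g c) h
    rw [red_eq] at this
    split_ifs at this
    exacts [Or.inr this, Or.inl (by simpa using this)]

theorem sx_map (g : ℕ) (od : List ℕ) (o : List ℤ) : sx (od.map (red g)) o = red g (sx od o) := by
  induction od generalizing o with
  | nil => exact (red_zero g).symm
  | cons s od ih =>
    cases o with
    | nil => exact (red_zero g).symm
    | cons x o => simp only [List.map_cons, sx, red_xor, ih]; split_ifs <;> simp [red_zero]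

theorem nrm_nonneg : ∀ l, 0 ≤ nrm l
  | [] => le_rfl
  | x :: l => add_nonneg (mul_self_nonneg x) (nrm_nonneg l)

theorem le_nrm {o : List ℤ} (h : ∀ x ∈ o, x % 2 = 1) : (o.length : ℤ) ≤ nrm o := by
  induction o with
  | nil => exact le_rfl
  | cons x o ih =>
    obtain ⟨h₁, h₂⟩ := List.forall_mem_cons.1 h
    have := ih h₂
    have : x ≤ -1 ∨ 1 ≤ x := by omega
    simp only [nrm, List.length_cons, Nat.cast_succ]
    rcases this with e | e <;> nlinarith

/-- Odd vectors. -/
def On (od : List ℕ) (k t : ℕ) : Set (List ℤ) :=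
  {o | o.length = od.length ∧ (∀ x ∈ o, x % 2 = 1) ∧ nrm o = k + od.length ∧ sx od o = t}

noncomputable def reduce (B : List ℕ) (s : ℕ) : ℕ :=
  List.rec (motive := fun _ => ℕ) s (fun g _ ih => force ih (red g)) B

/-- Gaussian elimination. -/
noncomputable def el (od : List ℕ) : List ℕ → ℕ → ℕ → ℕ :=
  List.rec (motive := fun _ => List ℕ → ℕ → ℕ → ℕ)
    (fun _ k t => @Bool.rec (fun _ => ℕ) (nat_lit 0) (nat_lit 1) (Nat.beq (Nat.add k t) (nat_lit 0)))
    (fun s _ ih B k t => force (reduce B s) fun g => force (red g t) fun t' =>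
      Nat.mul (@Bool.rec (fun _ => ℕ) (nat_lit 1) (nat_lit 2) (Nat.beq g (nat_lit 0))) (Nat.add (ih (g :: B) k t')
        (@Bool.rec (fun _ => ℕ) (nat_lit 0) (ih (g :: B) (Nat.sub k (nat_lit 8)) t') (Nat.ble (nat_lit 8) k)))) od

theorem on_cons (g : ℕ) (od : List ℕ) (k t : ℕ) (r : ℤ) (hr : r % 2 = 1) (k' : ℕ) (hk : r * r + k' = k + 1) :
    {o ∈ On (g :: od) k t | o.head? = some r ∨ o.head? = some (-r)}.encard ≤
      (if g = 0 then 2 else 1) * (On (od.map (red g)) k' (red g t)).encard := by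
  have key : ∀ x o, x * x = r * r → x :: o ∈ On (g :: od) k t → o ∈ On (od.map (red g)) k' (red g t) :=
    fun x o e ⟨h₁, h₂, h₃, h₄⟩ => ⟨by simpa using h₁, fun y hy => h₂ y (List.mem_cons_of_mem _ hy), by
      simp only [nrm, List.length_cons, Nat.cast_succ, List.length_map] at h₃ ⊢; omega, by
      rw [sx_map, ← h₄, sx, red_xor]; split_ifs <;> simp [red_self, red_zero]⟩
  split_ifs with h
  · rw [two_mul]
    refine le_trans (Set.encard_le_encard (t := List.cons r '' _ ∪ List.cons (-r) '' _) ?_) ((Set.encard_union_le _ _).trans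
      (add_le_add (Set.encard_image_le _ _) (Set.encard_image_le _ _)))
    rintro (_ | ⟨x, o⟩) ⟨h₁, h₂ | h₂⟩ <;> cases h₂
    exacts [Or.inl ⟨o, key _ _ rfl h₁, rfl⟩, Or.inr ⟨o, key _ _ (by ring) h₁, rfl⟩]
  · rw [one_mul]
    refine Set.encard_le_encard_of_injOn (f := List.tail) ?_ ?_
    · rintro (_ | ⟨x, o⟩) ⟨h₁, h₂ | h₂⟩ <;> cases h₂
      exacts [key _ _ rfl h₁, key _ _ (by ring) h₁]
    · have : ∀ o, r :: o ∈ On (g :: od) k t → -r :: o ∉ On (g :: od) k t := fun o h₁ h₂ => by
        have := h₁.2.2.2.trans h₂.2.2.2.symm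
        simp only [sx, Nat.xor_left_inj] at this
        split_ifs at this <;> omega
      rintro (_ | ⟨x, o⟩) ⟨h₁, h₂ | h₂⟩ (_ | ⟨x', o'⟩) ⟨h₃, h₄ | h₄⟩ e <;> cases h₂ <;> cases h₄ <;> cases e
      exacts [rfl, absurd h₃ (this _ h₁), absurd h₁ (this _ h₃), rfl]

theorem on_le (od B : List ℕ) {k : ℕ} (hk : k ≤ 16) (t : ℕ) : (On (od.map (reduce B)) k t).encard ≤ el od B k t := by
  induction od generalizing B k t with
  | nil =>
    cases e : Nat.beq (Nat.add k t) 0
    · refine (Set.encard_eq_zero.2 (Set.eq_empty_of_forall_notMem ?_)).trans_le zero_le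
      rintro (_ | _) ⟨h₁, -, h₃, h₄⟩
      · simp only [nrm, sx, List.map_nil, List.length_nil] at h₃ h₄
        simp [show k = 0 by omega, ← h₄] at e
      · cases h₁
    · simp only [el, e]
      exact Set.encard_le_one_iff.2 fun a b ha hb => (List.length_eq_zero_iff.1 ha.1).trans (List.length_eq_zero_iff.1 hb.1).symm
  | cons s od ih =>
    have e : ∀ k t, On ((od.map (reduce B)).map (red (reduce B s))) k t = On (od.map (reduce (reduce B s :: B))) k t :=
      fun _ _ => by rw [List.map_map]; rfl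
    simp only [List.map_cons, el, force_eq, Nat.mul_eq, Nat.add_eq, Nat.sub_eq] at ih ⊢
    generalize reduce B s = g at e ⊢
    have h₁ := (on_cons g (od.map (reduce B)) k t 1 rfl k (by ring)).trans (mul_le_mul_right (e .. ▸ ih (g :: B) hk _) _)
    have hc : ((@Bool.rec (fun _ => ℕ) 1 2 (Nat.beq g 0) : ℕ) : ℕ∞) = if g = 0 then 2 else 1 := by
      cases g <;> rfl
    have hx : ∀ x o, x :: o ∈ On (g :: od.map (reduce B)) k t → x = 1 ∨ x = -1 ∨ 8 ≤ k ∧ (x = 3 ∨ x = -3) :=
      fun x o ⟨h₁, h₂, h₃, _⟩ => by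
      obtain ⟨h₅, h₆⟩ := List.forall_mem_cons.1 h₂
      have := le_nrm h₆
      simp only [nrm, List.length_cons, Nat.cast_succ, Nat.add_right_cancel_iff] at h₁ h₃
      have h₇ : x * x ≤ k + 1 := by omega
      have : x < 5 := by nlinarith
      have : -5 < x := by nlinarith
      interval_cases x <;> omega
    rw [Nat.cast_mul, hc, Nat.cast_add, mul_add]
    cases h8 : Nat.ble 8 k
    · refine le_trans (Set.encard_le_encard ?_) (h₁.trans le_self_add)
      rintro (_ | ⟨x, o⟩) h
      · cases h.1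
      · have := hx x o h
        have : ¬ 8 ≤ k := fun e => by simp [Nat.ble_eq_true_of_le e] at h8
        exact ⟨h, by simp only [List.head?_cons, Option.some.injEq]; omega⟩
    · have h8 := Nat.le_of_ble_eq_true h8
      refine le_trans (Set.encard_le_encard ?_) ((Set.encard_union_le _ _).trans (add_le_add h₁
        ((on_cons g (od.map (reduce B)) k t 3 rfl (k - 8) (by omega)).trans
          (mul_le_mul_right (e .. ▸ ih (g :: B) (by omega) _) _))))
      rintro (_ | ⟨x, o⟩) h
      · cases h.1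
      · have := hx x o h
        simp only [Set.mem_union, Set.mem_setOf_eq, h, List.head?_cons, Option.some.injEq, true_and]
        omega

/-- An even and an odd vector. -/
def Ev (ev od : List ℕ) (k t : ℕ) : Set (List ℤ × List ℤ) :=
  {p | p.1.length = ev.length ∧ (∀ x ∈ p.1, x % 2 = 0) ∧ p.2.length = od.length ∧ (∀ x ∈ p.2, x % 2 = 1) ∧
    nrm p.1 + nrm p.2 = k + od.length ∧ sx ev p.1 ^^^ sx od p.2 = t}

noncomputable def bnd (b : ℕ) (l : List ℕ) : ℕ := List.rec (motive := fun _ => ℕ) b (fun s _ ih => Nat.lor s ih) l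

theorem bnd_bit {b i : ℕ} {l : List ℕ} {e : List ℤ} (h : (sx l e).testBit i = true ∨ b.testBit i = true) :
    (bnd b l).testBit i = true := by
  induction l generalizing e with
  | nil => simpa [sx, bnd] using h
  | cons s l ih =>
    change (s ||| bnd b l).testBit i = true
    rw [Nat.testBit_or, Bool.or_eq_true, or_iff_not_imp_left]
    cases e with
    | nil => exact fun _ => ih (e := []) (Or.inr (by simpa [sx] using h))
    | cons x e => exact fun hs => ih (e := e) (h.imp_left fun h => by simp only [sx] at h; split_ifs at h <;> simp_all)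

theorem le_bnd {ev od : List ℕ} {k t : ℕ} (h : (Ev ev od k t).Nonempty) : t ≤ bnd (bnd 0 od) ev := by
  obtain ⟨p, -, -, -, -, -, rfl⟩ := h
  refine Nat.le_of_testBit fun i hi => bnd_bit (e := p.1) (or_iff_not_imp_left.2 fun h => bnd_bit (e := p.2) (Or.inl ?_))
  simp_all

noncomputable def evn (f : ℕ → ℕ → ℕ) (b : ℕ) (ev : List ℕ) : ℕ → ℕ → ℕ :=
  List.rec (motive := fun _ => ℕ → ℕ → ℕ) f
    (fun s ev ih k t => @Bool.rec (fun _ => ℕ) (f k t) (@Bool.rec (fun _ => ℕ) (nat_lit 0)
      (Nat.add (ih k t) (Nat.mul (nat_lit 2) (Nat.add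
        (force (Nat.sub k (nat_lit 4)) fun k' => force (Nat.xor t s) (ih k'))
        (@Bool.rec (fun _ => ℕ) (nat_lit 0) (ih (nat_lit 0) t) (Nat.beq k (nat_lit 16))))))
      (Nat.ble t (Nat.lor s (bnd b ev)))) (Nat.ble (nat_lit 4) k)) ev

theorem ev_cons {s : ℕ} {ev od : List ℕ} {k t : ℕ} (hk : k ≤ 16) : (Ev (s :: ev) od k t).encard ≤ (Ev ev od k t).encard +
    2 * ((if 4 ≤ k then (Ev ev od (k - 4) (t ^^^ s)).encard else 0) + if k = 16 then (Ev ev od 0 t).encard else 0) := by
  let c : ℤ → List ℤ × List ℤ → List ℤ × List ℤ := fun x p => (x :: p.1, p.2)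
  let A := {p ∈ Ev ev od (k - 4) (t ^^^ s) | 4 ≤ k}
  let B := {p ∈ Ev ev od 0 t | k = 16}
  have eA : A.encard = if 4 ≤ k then (Ev ev od (k - 4) (t ^^^ s)).encard else 0 := by split_ifs with h <;> simp [A, h]
  have eB : B.encard = if k = 16 then (Ev ev od 0 t).encard else 0 := by split_ifs with h <;> simp [B, h]
  rw [← eA, ← eB, two_mul]
  refine le_trans (Set.encard_le_encard (t := c 0 '' _ ∪ ((c 2 '' A ∪ c 4 '' B) ∪ (c (-2) '' A ∪ c (-4) '' B))) ?_)
    ((Set.encard_union_le _ _).trans (add_le_add (Set.encard_image_le _ _) ((Set.encard_union_le _ _).trans (add_le_add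
      ((Set.encard_union_le _ _).trans (add_le_add (Set.encard_image_le _ _) (Set.encard_image_le _ _)))
      ((Set.encard_union_le _ _).trans (add_le_add (Set.encard_image_le _ _) (Set.encard_image_le _ _)))))))
  rintro ⟨_ | ⟨x, e⟩, o⟩ ⟨h₁, h₂, h₃, h₄, h₅, h₆⟩
  · cases h₁
  obtain ⟨h₇, h₉⟩ := List.forall_mem_cons.1 h₂
  simp only [nrm, List.length_cons, Nat.add_right_cancel_iff, sx] at h₁ h₃ h₄ h₅ h₆
  have := le_nrm h₄
  have := nrm_nonneg e
  have h₈ : x * x ≤ k := by omega
  have : x < 5 := by nlinarith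
  have : -5 < x := by nlinarith
  have a : x / 2 % 2 = 1 → x * x = 4 → (e, o) ∈ A := fun p q => ⟨⟨h₁, h₉, h₃, h₄, by simp only; omega, by
    simp [← h₆, p, Nat.xor_comm s, Nat.xor_assoc, Nat.xor_left_comm s]⟩, by omega⟩
  have b : x / 2 % 2 ≠ 1 → x * x = 16 → (e, o) ∈ B := fun p q => ⟨⟨h₁, h₉, h₃, h₄, by simp only; omega, by
    simp [← h₆, p]⟩, by omega⟩
  obtain rfl | rfl | rfl | rfl | rfl : x = 0 ∨ x = 2 ∨ x = 4 ∨ x = -2 ∨ x = -4 := by omega
  exacts [Or.inl ⟨(e, o), ⟨h₁, h₉, h₃, h₄, by simp only; omega, by simp [← h₆]⟩, rfl⟩,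
    Or.inr (Or.inl (Or.inl ⟨_, a rfl rfl, rfl⟩)), Or.inr (Or.inl (Or.inr ⟨_, b (by decide) rfl, rfl⟩)),
    Or.inr (Or.inr (Or.inl ⟨_, a rfl rfl, rfl⟩)), Or.inr (Or.inr (Or.inr ⟨_, b (by decide) rfl, rfl⟩))]

theorem ev_nil (od : List ℕ) (k t : ℕ) : (Ev [] od k t).encard ≤ (On od k t).encard := by
  refine Set.encard_le_encard_of_injOn (f := Prod.snd) ?_ fun p hp q hq e =>
    Prod.ext ((List.length_eq_zero_iff.1 hp.1).trans (List.length_eq_zero_iff.1 hq.1).symm) e
  rintro ⟨_ | _, o⟩ ⟨h₁, -, h₃, h₄, h₅, h₆⟩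
  · exact ⟨h₃, h₄, by simpa [nrm] using h₅, by simpa [sx] using h₆⟩
  · cases h₁

theorem ev_le {od : List ℕ} {f : ℕ → ℕ → ℕ} (hf : ∀ k ≤ 16, ∀ t, (On od k t).encard ≤ f k t) (ev : List ℕ) {k : ℕ}
    (hk : k ≤ 16) (t : ℕ) : (Ev ev od k t).encard ≤ evn f (bnd 0 od) ev k t := by
  induction ev generalizing k t with
  | nil => exact (ev_nil ..).trans (hf k hk t)
  | cons s ev ih =>
    cases h4 : Nat.ble 4 k
    · have h4' : ¬ 4 ≤ k := fun e => by simp [Nat.ble_eq_true_of_le e] at h4
      simp only [evn, h4]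
      generalize s :: ev = ev
      induction ev with
      | nil => exact (ev_nil ..).trans (hf k hk t)
      | cons s ev ih => simpa [h4', show k ≠ 16 by omega] using (ev_cons hk).trans (add_le_add_left ih _)
    · cases hb : Nat.ble t (Nat.lor s (bnd (bnd 0 od) ev))
      · refine (Set.encard_eq_zero.2 (Set.not_nonempty_iff_eq_empty.1 fun n => ?_)).trans_le zero_le
        exact Bool.false_ne_true (hb.symm.trans (Nat.ble_eq_true_of_le (le_bnd n)))
      simp only [evn, h4, hb, force_eq, Nat.add_eq, Nat.mul_eq, Nat.sub_eq, Nat.xor_eq, Nat.cast_add, Nat.cast_mul] at ih ⊢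
      refine (ev_cons hk).trans (add_le_add (ih hk t) (mul_le_mul_right (add_le_add ?_ ?_) _))
      · exact (if_pos (Nat.le_of_ble_eq_true h4)).trans_le (ih (by omega) _)
      · split_ifs with h
        · subst h; exact ih (by omega) t
        · exact zero_le

/-- Vectors of which some entries have been sorted by parity. -/
def Tr (cols : List (ℕ × ℕ)) (c : ℕ) (ev od : List ℕ) (a b k : ℕ) : Set (List ℤ × List ℤ × List ℤ) :=
  {p | p.1.length = cols.length ∧ par p.1 = c ∧ p.2.1.length = ev.length ∧ (∀ x ∈ p.2.1, x % 2 = 0) ∧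
    p.2.2.length = od.length ∧ (∀ x ∈ p.2.2, x % 2 = 1) ∧ nrm p.1 + nrm p.2.1 + nrm p.2.2 = k + od.length ∧
    ∀ i, syn cols p.1 i + D (a, b) i + D (0, sx ev p.2.1 ^^^ sx od p.2.2) i = 0}

noncomputable def spl (cols : List (ℕ × ℕ)) : ℕ → List ℕ → List ℕ → ℕ → ℕ → ℕ → ℕ :=
  List.rec (motive := fun _ => ℕ → List ℕ → List ℕ → ℕ → ℕ → ℕ → ℕ)
    (fun _ ev od _ b k => evn (el od []) (bnd 0 od) ev k b)
    (fun s _ ih c ev od a b k => force (Nat.shiftRight c (nat_lit 1)) fun c' => @Bool.rec (fun _ => ℕ)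
      (Nat.rec (motive := fun _ => ℕ) (nat_lit 0) (fun k' _ => force (Nat.xor a s.1) fun a' =>
        force (Nat.xor (Nat.xor b s.2) (Nat.land a s.1)) fun b' => ih c' ev (s.1 :: od) a' b' k') k)
      (ih c' (s.1 :: ev) od a b k) (Nat.beq (Nat.land c (nat_lit 1)) (nat_lit 0))) cols

theorem D_add (a b : ℕ) (s : ℕ × ℕ) (i : ℕ) : D (a ^^^ s.1, b ^^^ s.2 ^^^ (a &&& s.1)) i = D (a, b) i + D s i := by
  simp only [D, Nat.testBit_xor, Nat.testBit_and]
  cases a.testBit i <;> cases b.testBit i <;> cases s.1.testBit i <;> cases s.2.testBit i <;> decide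

theorem D_xor (a b i : ℕ) : D (0, a ^^^ b) i = D (0, a) i + D (0, b) i := by simpa using D_add 0 a (0, b) i

theorem D_mul (x : ℤ) (s : ℕ × ℕ) (i : ℕ) :
    x * D s i = (x % 2 : ℤ) * D s i + D (0, if x / 2 % 2 = 1 then s.1 else 0) i := by
  have : (x : ZMod 4) = (x % 4 : ℤ) := (ZMod.intCast_mod x 4).symm
  rw [this, show x % 2 = x % 4 % 2 by omega, show x / 2 % 2 = x % 4 / 2 by omega]
  obtain e | e | e | e : x % 4 = 0 ∨ x % 4 = 1 ∨ x % 4 = 2 ∨ x % 4 = 3 := by omega
  all_goals
    simp only [e, D, Int.reduceDiv, Int.reduceMod, Int.reduceEq, if_true, if_false, Nat.zero_testBit, zero_ne_one]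
    cases s.1.testBit i <;> cases s.2.testBit i <;> decide

theorem tr_le (cols : List (ℕ × ℕ)) (c : ℕ) (ev od : List ℕ) (a b : ℕ) {k : ℕ} (hk : k ≤ 16) :
    (Tr cols c ev od a b k).encard ≤ spl cols c ev od a b k := by
  induction cols generalizing c ev od a b k with
  | nil =>
    refine le_trans (Set.encard_le_encard_of_injOn (f := Prod.snd) ?_ fun p hp q hq e =>
      Prod.ext ((List.length_eq_zero_iff.1 hp.1).trans (List.length_eq_zero_iff.1 hq.1).symm) e)
      (ev_le (fun k hk t => by simpa [show reduce [] = id from rfl] using on_le od [] hk t) ev hk b)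
    rintro ⟨_ | _, e, o⟩ ⟨h₁, -, h₃, h₄, h₅, h₆, h₇, h₈⟩
    · refine ⟨h₃, h₄, h₅, h₆, by simpa [nrm] using h₇, Nat.eq_of_testBit_eq fun i => ?_⟩
      have := h₈ i
      simp only [syn, D, Nat.zero_testBit] at this ⊢
      revert this
      cases a.testBit i <;> cases b.testBit i <;> cases Nat.testBit _ i <;> decide
    · cases h₁
  | cons s cols ih =>
    have key : ∀ x l, par (x :: l) = c → par l = c >>> 1 ∧ x % 2 = (c &&& 1 : ℕ) := by
      rintro x l rfl
      rcases Int.emod_two_eq_zero_or_one x with h | h <;> simp [par, h, Nat.bit] <;> omega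
    simp only [spl, force_eq, Nat.xor_eq, Nat.land_eq, Nat.shiftRight_eq] at ih ⊢
    cases h0 : Nat.beq (c &&& 1) 0
    · have h0 : c &&& 1 = 1 := by have := Nat.ne_of_beq_eq_false h0; simp at this ⊢; omega
      cases k with
      | zero =>
        refine (Set.encard_eq_zero.2 (Set.eq_empty_of_forall_notMem ?_)).trans_le zero_le
        rintro ⟨_ | ⟨x, l⟩, e, o⟩ ⟨h₁, h₂, -, -, h₅, h₆, h₇, -⟩
        · cases h₁
        · have := le_nrm (List.forall_mem_cons.2 ⟨(key x l h₂).2.trans (by simp [h0]), h₆⟩)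
          have := nrm_nonneg l
          have := nrm_nonneg e
          simp only [nrm, List.length_cons] at *
          omega
      | succ k =>
        refine le_trans (Set.encard_le_encard_of_injOn (f := fun p => (p.1.tail, p.2.1, p.1.headI :: p.2.2)) ?_ ?_)
          (ih _ ev (s.1 :: od) _ _ (by omega))
        · rintro ⟨_ | ⟨x, l⟩, e, o⟩ ⟨h₁, h₂, h₃, h₄, h₅, h₆, h₇, h₈⟩
          · cases h₁
          have hx : x % 2 = 1 := (key x l h₂).2.trans (by simp [h0])
          refine ⟨Nat.succ.inj h₁, (key x l h₂).1, h₃, h₄, congrArg Nat.succ h₅, List.forall_mem_cons.2 ⟨hx, h₆⟩, ?_,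
            fun i => Eq.trans ?_ (h₈ i)⟩
          · simp only [nrm, List.length_cons, List.tail_cons, List.headI_cons] at h₇ ⊢
            omega
          · change _ + _ + D (0, _ ^^^ sx (s.1 :: od) (x :: o)) i = _
            simp only [syn, sx, List.tail_cons, D_add, D_xor, D_mul x, hx]
            ring
        · rintro ⟨_ | _, _⟩ h₁ ⟨_ | _, _⟩ h₂ e
          exacts [(by cases h₁.1), (by cases h₁.1), (by cases h₂.1), by simp_all [Prod.ext_iff]]
    · have h0 := Nat.eq_of_beq_eq_true h0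
      refine le_trans (Set.encard_le_encard_of_injOn (f := fun p => (p.1.tail, p.1.headI :: p.2.1, p.2.2)) ?_ ?_)
        (ih _ (s.1 :: ev) od _ _ hk)
      · rintro ⟨_ | ⟨x, l⟩, e, o⟩ ⟨h₁, h₂, h₃, h₄, h₅, h₆, h₇, h₈⟩
        · cases h₁
        have hx : x % 2 = 0 := (key x l h₂).2.trans (by simp [h0])
        refine ⟨Nat.succ.inj h₁, (key x l h₂).1, congrArg Nat.succ h₃, List.forall_mem_cons.2 ⟨hx, h₄⟩, h₅, h₆, ?_,
          fun i => Eq.trans ?_ (h₈ i)⟩
        · simp only [nrm, List.tail_cons, List.headI_cons] at h₇ ⊢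
          omega
        · change _ + _ + D (0, sx (s.1 :: ev) (x :: e) ^^^ _) i = _
          simp only [syn, sx, List.tail_cons, D_xor, D_mul x, hx]
          ring
      · rintro ⟨_ | _, _⟩ h₁ ⟨_ | _, _⟩ h₂ e
        exacts [(by cases h₁.1), (by cases h₁.1), (by cases h₂.1), by simp_all [Prod.ext_iff]]

/-- The vectors of norm 16 with residue in the code and parity in the coset of `c`. -/
def S (cols : List (ℕ × ℕ)) (gs : List ℕ) (c : ℕ) : Set (List ℤ) :=
  {l | l.length = cols.length ∧ Sp gs (par l ^^^ c) ∧ nrm l = 16 ∧ ∀ i, syn cols l i = 0}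

theorem S_cons {cols : List (ℕ × ℕ)} {g : ℕ} {gs : List ℕ} {c m n : ℕ} (h : (S cols gs c).encard ≤ m)
    (h' : (S cols gs (c ^^^ g)).encard ≤ n) : (S cols (g :: gs) c).encard ≤ (m + n : ℕ) :=
  le_trans (Set.encard_le_encard (t := S cols gs c ∪ S cols gs (c ^^^ g)) fun _ k => k.2.1.elim
    (fun e => Or.inl ⟨k.1, e, k.2.2⟩) fun e => Or.inr ⟨k.1, Nat.xor_assoc .. ▸ e, k.2.2⟩)
    ((Set.encard_union_le _ _).trans (add_le_add h h'))

theorem S_nil (cols : List (ℕ × ℕ)) (c : ℕ) : (S cols [] c).encard ≤ spl cols c [] [] 0 0 16 :=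
  le_trans (Set.encard_le_encard_of_injOn (f := fun l => (l, [], [])) (t := Tr cols c [] [] 0 0 16)
    (fun _ ⟨h₁, h₂, h₃, h₄⟩ => ⟨h₁, Nat.xor_eq_zero_iff.1 h₂, rfl, by simp, rfl, by simp, by simp [nrm, h₃],
      fun i => by simp [h₄, D, sx]⟩) fun _ _ _ _ e => congrArg Prod.fst e) (tr_le cols c [] [] 0 0 le_rfl)

/-- The number of words in the span. -/
noncomputable def sz (gs : List ℕ) : ℕ := Nat.shiftLeft (nat_lit 1) gs.length

theorem sz_cons (g : ℕ) (gs : List ℕ) : sz (g :: gs) = sz gs + sz gs := by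
  simp [sz, Nat.shiftLeft_eq, pow_succ, mul_two]

/-- The word number `a` of the coset of `c`. -/
noncomputable def enc : List ℕ → ℕ → ℕ → ℕ
  | [], c, _ => c
  | g :: gs, c, a => if a < sz gs then enc gs c a else enc gs (c ^^^ g) (a - sz gs)

theorem enc_xor (gs : List ℕ) (c g a : ℕ) : enc gs (c ^^^ g) a = enc gs c a ^^^ g := by
  induction gs generalizing c a with
  | nil => rfl
  | cons g' gs ih => simp only [enc, Nat.xor_right_comm c g, ih]; split_ifs <;> rfl

/-- The `j`-th bits of all words of the coset. -/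
noncomputable def plane (c j : ℕ) (gs : List ℕ) : ℕ :=
  List.rec (motive := fun _ => ℕ) (Nat.land (Nat.shiftRight c j) (nat_lit 1))
    (fun g gs ih => force ih fun p => Nat.lor p (Nat.shiftLeft
      (@Bool.rec (fun _ => ℕ) p (Nat.xor p (ones (sz gs))) (g.testBit j)) (sz gs))) gs

theorem testBit_plane (c j : ℕ) (gs : List ℕ) (a : ℕ) :
    (plane c j gs).testBit a = (decide (a < sz gs) && (enc gs c a).testBit j) := by
  induction gs generalizing a with
  | nil =>
    cases a <;> simp [plane, sz, enc, Nat.land_eq, Nat.shiftRight_eq, Nat.testBit_succ, Nat.testBit_eq_decide_div_mod_eq,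
      Nat.shiftRight_eq_div_pow]
  | cons g gs ih =>
    change (plane c j gs ||| (@Bool.rec (fun _ => ℕ) (plane c j gs) (plane c j gs ^^^ ones (sz gs)) (g.testBit j)) <<<
      sz gs).testBit a = _
    rw [sz_cons, enc, enc_xor]
    by_cases h : a < sz gs
    · simp [ih, h, h.not_ge, h.trans_le (Nat.le_add_right _ _)]
    · cases e : g.testBit j <;> by_cases h' : a < sz gs + sz gs <;>
        simp [ih, h, h', e, testBit_ones, Nat.sub_lt_iff_lt_add, not_lt.1 h]

/-- Count, for every word of the coset, the bits below `n`. -/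
noncomputable def wts (c : ℕ) (gs : List ℕ) (k : List ℕ → Bool) (n : ℕ) : List ℕ → Bool :=
  Nat.rec (motive := fun _ => List ℕ → Bool) k (fun j ih l => forceB (plane c j gs) fun p => addP l p ih) n

theorem wts_sound {c : ℕ} {gs : List ℕ} {k : List ℕ → Bool} {n : ℕ} {l : List ℕ} (h : wts c gs k n l = true) :
    ∃ l', k l' = true ∧ ∀ a < sz gs, val l' a = val l a + ∑ j ∈ Finset.range n, ((enc gs c a).testBit j).toNat := by
  induction n generalizing l with
  | zero => exact ⟨l, h, by simp⟩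
  | succ n ih =>
    obtain ⟨l₁, h₁, h₂⟩ := addP_sound (k := wts c gs k n) h
    obtain ⟨l₂, h₃, h₄⟩ := ih h₁
    exact ⟨l₂, h₃, fun a ha => by simp [h₄ a ha, h₂, Finset.sum_range_succ, testBit_plane, ha]; omega⟩

theorem wt_le (l : List ℤ) : (∑ j ∈ Finset.range l.length, ((par l).testBit j).toNat : ℕ) ≤ nrm l := by
  induction l with
  | nil => exact le_rfl
  | cons x l ih =>
    simp only [List.length_cons, Finset.sum_range_succ', par, Nat.testBit_bit_succ, Nat.testBit_bit_zero, nrm, Nat.cast_add]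
    rcases Int.emod_two_eq_zero_or_one x with h | h <;> simp only [h] <;> simp at ih ⊢
    · nlinarith
    · have : x ≤ -1 ∨ 1 ≤ x := by omega
      rcases this with e | e <;> nlinarith

theorem drop_of_val {l : List ℕ} {a m : ℕ} (h : val l a < 2 ^ m) : ((l.drop m).foldr Nat.lor 0).testBit a = false := by
  induction l generalizing m with
  | nil => simp
  | cons p l ih =>
    cases m with
    | zero =>
      simp only [val] at h
      have := ih (m := 0) (by omega)
      cases e : p.testBit a <;> simp_all [Nat.lor_eq]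
    | succ m => exact ih (by simp only [val] at h; omega)

/-- The sum of `f` over the words of the coset whose numbers are not in `x`. -/
noncomputable def sumF (f : ℕ → ℕ) (gs : List ℕ) : ℕ → ℕ → ℕ :=
  List.rec (motive := fun _ => ℕ → ℕ → ℕ)
    (fun c x => @Bool.rec (fun _ => ℕ) (f c) (nat_lit 0) (Nat.beq x (nat_lit 0)))
    (fun g gs ih c x => @Bool.rec (fun _ => ℕ) (Nat.add (force (Nat.land x (ones (sz gs))) (ih c))
      (force (Nat.xor c g) fun c' => force (Nat.shiftRight x (sz gs)) (ih c'))) (nat_lit 0) (Nat.beq x (nat_lit 0))) gs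

theorem sumF_sound {cols : List (ℕ × ℕ)} {f : ℕ → ℕ} (hf : ∀ c, (S cols [] c).encard ≤ f c) (gs : List ℕ) {c x : ℕ}
    (h : ∀ a < sz gs, (S cols [] (enc gs c a)).Nonempty → x.testBit a = true) : (S cols gs c).encard ≤ sumF f gs c x := by
  induction gs generalizing c x with
  | nil =>
    cases e : Nat.beq x 0
    · simpa only [sumF, e] using hf c
    · refine (Set.encard_eq_zero.2 (Set.not_nonempty_iff_eq_empty.1 fun n => ?_)).trans_le zero_le
      simpa [Nat.eq_of_beq_eq_true e] using h 0 (by decide) n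
  | cons g gs ih =>
    have h₁ := ih (c := c) (x := x &&& ones (sz gs)) fun a ha n => by
      simp [testBit_ones, ha, h a (by rw [sz_cons]; omega) (by rwa [enc, if_pos ha])]
    have h₂ := ih (c := c ^^^ g) (x := x >>> sz gs) fun a ha n => by
      simp [h (sz gs + a) (by rw [sz_cons]; omega) (by rwa [enc, if_neg (by omega), Nat.add_sub_cancel_left])]
    cases e : Nat.beq x 0
    · simp only [sumF, e]
      exact S_cons h₁ h₂
    · obtain rfl := Nat.eq_of_beq_eq_true e
      have : ∀ c, sumF f gs c 0 = 0 := by cases gs <;> exact fun _ => rfl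
      rw [Nat.zero_and, this] at h₁
      rw [Nat.zero_shiftRight, this] at h₂
      exact S_cons h₁ h₂

/-- The whole check for a coset. -/
noncomputable def cntB (cols : List (ℕ × ℕ)) (gs : List ℕ) (c m : ℕ) : Bool :=
  forceB (ones (sz gs)) fun o => wts c gs (fun l => Nat.ble (force (Nat.xor o (Nat.land o ((l.drop 5).foldr Nat.lor 0)))
    (sumF (fun c => spl cols c [] [] 0 0 16) gs c)) m) cols.length [o, o, o, o]

theorem S_le {cols : List (ℕ × ℕ)} {gs : List ℕ} {c m : ℕ} (h : cntB cols gs c m = true) : (S cols gs c).encard ≤ m := by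
  obtain ⟨l, h₁, h₂⟩ := wts_sound h
  refine (sumF_sound (S_nil cols) gs fun a ha ⟨v, e₁, e₂, e₃, _⟩ => ?_).trans (Nat.cast_le.2 (Nat.le_of_ble_eq_true h₁))
  have := wt_le v
  rw [Nat.xor_eq_zero_iff.1 e₂, e₁, e₃] at this
  simp [Nat.xor_eq, Nat.land_eq, testBit_ones, ha, drop_of_val (l := l) (a := a) (m := 5) (by
    simp only [h₂ a ha, val, testBit_ones, ha, decide_true, Bool.toNat_true]; omega)]

theorem par_add {α : Type*} (f g : α → ℤ) (ps : List α) :
    par (ps.map fun p => f p + g p) = par (ps.map f) ^^^ par (ps.map g) := by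
  induction ps with
  | nil => simp [par]
  | cons p ps ih =>
    simp only [List.map_cons, par, ih, Nat.xor_bit]
    congr 1
    rcases Int.emod_two_eq_zero_or_one (f p) with h | h <;> rcases Int.emod_two_eq_zero_or_one (g p) with h' | h' <;>
      simp [Int.add_emod, h, h']

theorem syn_add {α : Type*} (f g : α → ℤ) (ps : List α) (cols : List (ℕ × ℕ)) (i : ℕ) :
    syn cols (ps.map fun p => f p + g p) i = syn cols (ps.map f) i + syn cols (ps.map g) i := by
  induction ps generalizing cols with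
  | nil => cases cols <;> simp [syn]
  | cons p ps ih => cases cols <;> simp [syn, ih]; ring

/-- The syndrome, computed on the binary digits. -/
noncomputable def synB : List (ℕ × ℕ) → List ℤ → ℕ → ℕ → Bool
  | s :: cols, x :: l, a, b => forceB (if x % 2 = 1 then a ^^^ s.1 else a) fun a' =>
    forceB ((if x % 2 = 1 then b ^^^ s.2 ^^^ (a &&& s.1) else b) ^^^ if x / 2 % 2 = 1 then s.1 else 0) (synB cols l a')
  | _, _, a, b => Nat.beq a 0 && Nat.beq b 0

theorem syn_of_synB {cols : List (ℕ × ℕ)} {l : List ℤ} {a b : ℕ} (h : synB cols l a b = true) (i : ℕ) :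
    syn cols l i + D (a, b) i = 0 := by
  induction cols generalizing l a b with
  | nil => simp only [synB, Bool.and_eq_true, Nat.beq_eq] at h; simp [syn, D, h]
  | cons s cols ih =>
    cases l with
    | nil => simp only [synB, Bool.and_eq_true, Nat.beq_eq] at h; simp [syn, D, h]
    | cons x l =>
      refine Eq.trans ?_ (ih (l := l) h)
      have e : ∀ a b c, D (a, b ^^^ c) i = D (a, b) i + D (0, c) i := fun a b c => by simpa using D_add a b (0, c) i
      rw [e]
      rcases Int.emod_two_eq_zero_or_one x with h | h <;> simp only [syn, D_mul x, h, D_add, if_true, zero_ne_one, if_false]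
        <;> ring

end Cfsg.Agent.Lib.Z4Min
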