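import Cfsg.Prelude.Def_Spor_Conway
import Cfsg.Agent.Lib.Golay
import Cfsg.Agent.Lib.Z4Min

/-! The Leech lattice: a membership test, generators, automorphisms, and short vectors near `(-5, -1²³)`. -/

set_option autoImplicit false

namespace Cfsg.Agent.Lib.Leech

open Cfsg.Agent.Lib.Golay Cfsg.Agent.Lib.PermNet Cfsg.Spor Matrix Equiv

abbrev V := GolayPt → ℤ

def W (y : V) : GolayPt → ZMod 2 := fun p => if (y p - y none) % 4 = 0 then 0 else 1

/-- The membership test. -/
def Chk (y : V) : Prop :=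
  (∀ p, (y p - y none) % 2 = 0) ∧ (∑ p, y p - 4 * y none) % 8 = 0 ∧ ∀ j, ∑ p, W y p * bits (syn (idx p)) j = 0

instance : DecidablePred Chk := fun _ => inferInstanceAs (Decidable (_ ∧ _))

theorem one_mem_code : 1 ∈ golayCode := Submodule.subset_span (Or.inr rfl)

theorem mem_iff {y : V} : y ∈ leechLattice ↔ Chk y := by
  have hS : ∀ y, (∀ j, ∑ p, W y p * bits (syn (idx p)) j = 0) ↔ W y ∈ golayCode := fun y =>
    (mem_golay_iff.trans funext_iff).symm
  simp only [Chk, hS]
  refine ⟨fun h => ?_, fun ⟨h₁, h₂, h₃⟩ => AddSubgroup.subset_closure ⟨y none, fun p => Int.ModEq.symm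
    (Int.modEq_iff_dvd.2 (Int.dvd_of_emod_eq_zero (h₁ p))), Int.ModEq.symm
    (Int.modEq_iff_dvd.2 (Int.dvd_of_emod_eq_zero h₂)), fun k => ?_⟩⟩
  · induction h using AddSubgroup.closure_induction with
    | mem y h =>
      obtain ⟨m, h₁, h₂, h₃⟩ := h
      obtain ⟨w, hw, e⟩ := h₃ (y none + 2)
      simp only [Int.ModEq] at h₁ h₂ e
      have := h₁ none
      refine ⟨fun p => by have := h₁ p; omega, by omega,
        (support_injective (e.trans (Finset.ext fun p => ?_)) : w = W y) ▸ hw⟩
      have := h₁ p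
      simp only [support₂, W, Finset.mem_filter, Finset.mem_univ, true_and, ne_eq, ite_eq_left_iff, one_ne_zero,
        imp_false, not_not]
      exact (Finset.mem_filter.trans (and_iff_right (Finset.mem_univ _))).trans (by omega)
    | zero => exact ⟨fun _ => rfl, by simp, zero_mem _⟩
    | add x y _ _ h k =>
      refine ⟨fun p => by have := h.1 p; have := k.1 p; simp only [Pi.add_apply]; omega, ?_, ?_⟩
      · have := h.2.1; have := k.2.1; simp only [Pi.add_apply, Finset.sum_add_distrib]; omega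
      · convert add_mem h.2.2 k.2.2 using 1
        funext p
        have := h.1 p; have := k.1 p
        simp only [W, Pi.add_apply]
        split_ifs <;> first | rfl | omega
    | neg x _ h =>
      refine ⟨fun p => by have := h.1 p; simp only [Pi.neg_apply]; omega, ?_, ?_⟩
      · have := h.2.1; simp only [Pi.neg_apply, Finset.sum_neg_distrib]; omega
      · convert h.2.2 using 1
        funext p
        simp only [W, Pi.neg_apply]
        split_ifs <;> first | rfl | omega
  · have : ∀ w ∈ golayCode, (∀ p, y p % 4 = k % 4 ↔ w p ≠ 0) → _ ∈ supports _ := fun w hw h =>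
      ⟨w, hw, (Finset.filter_congr fun p _ => h p).symm⟩
    by_cases e : (k - y none) % 2 = 0
    · by_cases e' : (k - y none) % 4 = 0
      · refine this _ (add_mem h₃ one_mem_code) fun p => ?_
        simp only [W, Pi.add_apply, Pi.one_apply]
        split_ifs <;> simp only [show (1 + 1 : ZMod 2) = 0 from rfl, zero_add, ne_eq, one_ne_zero, not_true_eq_false,
          not_false_eq_true, iff_true, iff_false] <;> omega
      · refine this _ h₃ fun p => ?_
        have := h₁ p
        simp only [W, ne_eq, ite_eq_left_iff, one_ne_zero, imp_false, not_not]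
        omega
    · exact this _ (zero_mem _) fun p => iff_of_false (by have := h₁ p; omega) (by simp)

/-- Generators of the lattice. -/
def gen (i : Fin 12 ⊕ Option GolayPt) : V := fun p => match i with
  | .inl i => 2 * (wd (bm i) p).val
  | .inr none => if p = none then -3 else 1
  | .inr (some q) => (if p = q then 4 else 0) + if p = none then 4 else 0

theorem induct (A : AddSubgroup V) (h : ∀ i, gen i ∈ A) : leechLattice ≤ A := fun y hy => by
  obtain ⟨h₁, h₂, h₃⟩ := mem_iff.1 hy
  let z := y - y none • gen (.inr none) - ∑ i : Fin 12, ((W y (pt i)).val : ℤ) • gen (.inl i)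
  have e₁ : ∀ p, 4 ∣ z p := fun p => by
    have : ((∑ i : Fin 12, ((W y (pt i)).val * (wd (bm i) p).val : ℤ) - (W y p).val : ℤ) : ZMod 2) = 0 := by
      simpa [sub_eq_zero] using (congrFun (eq_sum_of_S (funext h₃)) p).symm
    have := (ZMod.intCast_zmod_eq_zero_iff_dvd _ 2).1 this
    have := h₁ p
    simp only [z, Pi.sub_apply, Finset.sum_apply, Pi.smul_apply, gen, smul_eq_mul, mul_left_comm _ (2 : ℤ),
      ← Finset.mul_sum]
    generalize ∑ i : Fin 12, ((W y (pt i)).val * (wd (bm i) p).val : ℤ) = s at *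
    simp only [W] at *
    split_ifs at * <;> simp only [ZMod.val_zero, ZMod.val_one] at * <;> omega
  choose x hx using e₁
  have e₂ : 8 ∣ ∑ p, z p := by
    simp only [z, Pi.sub_apply, Finset.sum_apply, Pi.smul_apply, smul_eq_mul, Finset.sum_sub_distrib, ← Finset.mul_sum]
    rw [Finset.sum_comm, show ∑ p, gen (.inr none) p = 20 by decide +kernel]
    refine dvd_sub (by omega) (Finset.dvd_sum fun i _ => ?_)
    rw [← Finset.mul_sum]
    exact Dvd.dvd.mul_left (by revert i; decide +kernel) _
  simp only [hx, ← Finset.mul_sum] at e₂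
  obtain ⟨k, hk⟩ : 2 ∣ ∑ p, x p := by omega
  have e₃ : z = ∑ q, x q • gen (.inr (some q)) - k • gen (.inr (some none)) := funext fun p => by
    simp only [hx, Pi.sub_apply, Finset.sum_apply, Pi.smul_apply, gen, smul_eq_mul, mul_add, Finset.sum_add_distrib,
      ← Finset.sum_mul, hk, mul_ite, mul_zero, Finset.sum_ite_eq, Finset.mem_univ, if_true]
    split_ifs <;> simp only [← Finset.sum_mul, hk, Finset.sum_const_zero] <;> ring
  rw [show y = z + ∑ i : Fin 12, ((W y (pt i)).val : ℤ) • gen (.inl i) + y none • gen (.inr none) by simp [z], e₃]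
  exact add_mem (add_mem (sub_mem (sum_mem fun q _ => zsmul_mem (h _) _) (zsmul_mem (h _) _))
    (sum_mem fun q _ => zsmul_mem (h _) _)) (zsmul_mem (h _) _)

theorem comp_mem {g : Perm GolayPt} (hg : g ∈ M24) {y : V} (hy : y ∈ leechLattice) : y ∘ g.symm ∈ leechLattice := by
  induction hy using AddSubgroup.closure_induction with
  | mem y h =>
    obtain ⟨m, h₁, h₂, h₃⟩ := h
    refine AddSubgroup.subset_closure ⟨m, fun i => h₁ _, (Equiv.sum_comp g.symm y).symm ▸ h₂, fun k => ?_⟩
    obtain ⟨w, hw, e⟩ := h₃ k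
    exact ⟨_, mem_M24_iff.1 hg w hw, Finset.ext fun p => by simpa [support₂] using Finset.ext_iff.1 e (g.symm p)⟩
  | zero => exact zero_mem _
  | add _ _ _ _ h k => exact add_mem h k
  | neg _ _ h => exact neg_mem h

@[reducible] def act : MulAction M24 leechLattice where
  smul g y := ⟨_, comp_mem g.2 y.2⟩
  one_smul _ := rfl
  mul_smul _ _ _ := rfl

/-- The permutations of the coordinates. -/
def mono : M24 →* Co0 := (@MulAction.toPermHom _ _ _ act).codRestrict _ fun g =>
  ⟨fun _ _ => rfl, fun y => Equiv.sum_comp g.1.symm fun p => y.1 p ^ 2⟩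

theorem mono_apply (g : M24) (y : leechLattice) : ((mono g).1 y).1 = y.1 ∘ g.1.symm := rfl

theorem exists_mat (A : Matrix GolayPt GolayPt ℤ) (h₁ : A * A = (64 : ℤ) • 1) (h₂ : Aᵀ = A)
    (h₃ : ∀ i, (∀ p, (A *ᵥ gen i) p % 8 = 0) ∧ Chk fun p => (A *ᵥ gen i) p / 8) :
    ∃ s ∈ Co0, ∀ y, (8 : ℤ) • (s y).1 = A *ᵥ y.1 := by
  have : ∀ y : leechLattice, ∃ z : leechLattice, (8 : ℤ) • z.1 = A *ᵥ y.1 := fun y => by
    obtain ⟨z, hz, e⟩ := induct ((leechLattice.map (zsmulAddGroupHom 8)).comap A.mulVecLin.toAddMonoidHom)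
      (fun i => ⟨_, mem_iff.2 (h₃ i).2, funext fun p => Int.mul_ediv_cancel' (Int.dvd_of_emod_eq_zero ((h₃ i).1 p))⟩) y.2
    exact ⟨⟨z, hz⟩, e⟩
  choose r hr using this
  have inj := smul_right_injective V (show (8 : ℤ) ≠ 0 by decide)
  refine ⟨Function.Involutive.toPerm r fun y => Subtype.ext (inj (inj ?_)), ⟨fun v w => Subtype.ext (inj ?_),
    fun v => mul_left_cancel₀ (show (64 : ℤ) ≠ 0 by decide) ?_⟩, hr⟩
  · simp only [hr, ← mulVec_smul, mulVec_mulVec, h₁, smul_mulVec, one_mulVec, smul_smul]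
    rfl
  · change (8 : ℤ) • (r _).1 = (8 : ℤ) • (r _ + r _).1
    simp only [AddSubgroup.coe_add, smul_add, hr, mulVec_add]
  · have : ∀ x : V, sqNorm x = x ⬝ᵥ x := fun x => Finset.sum_congr rfl fun p _ => sq _
    change 64 * sqNorm (r v).1 = _
    rw [this, this, ← smul_eq_mul, show (64 : ℤ) = 8 * 8 from rfl, mul_smul,
      ← dotProduct_smul, ← smul_dotProduct, hr, dotProduct_mulVec, ← vecMul_transpose, vecMul_vecMul, h₂, h₁,
      vecMul_smul, vecMul_one, smul_dotProduct]
    rfl

theorem dot_eq {s : Perm leechLattice} (hs : s ∈ Co0) (x y : leechLattice) : dotInt (s x).1 (s y).1 = dotInt x.1 y.1 := by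
  have : ∀ x y : V, sqNorm (x + y) = sqNorm x + sqNorm y + 2 * dotInt x y := fun x y => by
    simp only [sqNorm, dotInt, Finset.mul_sum, ← Finset.sum_add_distrib, Pi.add_apply]
    exact Finset.sum_congr rfl fun p _ => by ring
  have h := hs.2 (x + y)
  rw [hs.1, AddSubgroup.coe_add, AddSubgroup.coe_add, this, this, hs.2, hs.2] at h
  omega

theorem span {l : Fin 24 → leechLattice} {C : GolayPt → Fin 24 → ℤ} {d : ℤ}
    (h : ∀ p r, ∑ k, C p k * (l k).1 r = if p = r then d else 0) {s : Perm leechLattice} (hs : s ∈ Co0)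
    (y : leechLattice) : d • s y = ∑ k, (∑ p, y.1 p * C p k) • s (l k) := by
  have : d • y = ∑ k, (∑ p, y.1 p * C p k) • l k := Subtype.ext (funext fun r => by
    simp only [AddSubgroup.val_finsetSum, AddSubgroup.coe_zsmul, Finset.sum_apply, Pi.smul_apply, smul_eq_mul,
      Finset.sum_mul, mul_assoc]
    rw [Finset.sum_comm]
    simp [← Finset.mul_sum, h, mul_comm])
  simpa only [map_zsmul, map_sum, AddMonoidHom.mk'_apply] using congrArg (AddMonoidHom.mk' s hs.1) this

def vec (l : List ℤ) : V := fun p => l.getD (idx p) 0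

/-- The digits in base 16, less 8. -/
noncomputable def dec (k : ℕ) : ℕ → List ℤ :=
  Nat.rec (motive := fun _ => ℕ → List ℤ) (fun _ => []) (fun _ ih n => Int.subNatNat (Nat.mod n 16) 8 :: ih (Nat.div n 16)) k

theorem sum_pt (f : V) : ∑ p, f p = ∑ i ∈ Finset.range 24, f (Golay.pt i) :=
  Finset.sum_nbij' idx Golay.pt (fun p _ => Finset.mem_range.2 (idx_lt p)) (fun _ _ => Finset.mem_univ _)
    (fun p _ => pt_idx p) (fun i hi => idx_pt i (Finset.mem_range.1 hi)) fun p _ => by rw [pt_idx]

def ldot : List ℤ → List ℤ → ℤ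
  | a :: l, b :: m => a * b + ldot l m
  | _, _ => 0

theorem dot_vec {l : List ℤ} (h : l.length ≤ 24) (m : List ℤ) : dotInt (vec l) (vec m) = ldot l m := by
  rw [dotInt, sum_pt, Finset.sum_congr rfl fun i hi => by rw [vec, vec, idx_pt i (Finset.mem_range.1 hi)]]
  generalize 24 = n at h
  induction n generalizing l m with
  | zero => simp [List.length_eq_zero_iff.1 (Nat.le_zero.1 h), ldot]
  | succ n ih =>
    cases l <;> cases m
    any_goals simp [ldot]
    rw [Finset.sum_range_succ', add_comm, ← ih _ (Nat.le_of_succ_le_succ h)]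
    simp

theorem vec_map (y : V) : vec ((List.range 24).map fun i => y (Golay.pt i)) = y := funext fun p => by
  simp [vec, idx_lt, pt_idx]

def cost (x : ℤ) : ℤ := x * (x - 1) - if x % 4 < 2 then 0 else 2

def srch (k : List ℤ → Bool) : List ℤ → ℤ → List ℤ → Bool
  | [], _, acc => k acc
  | r :: l, b, acc => [r - 8, r - 4, r, r + 4].all fun x => decide (b < cost x) || srch k l (b - cost x) (x :: acc)

theorem cost_nonneg (l : List ℤ) : 0 ≤ (l.map cost).sum := List.sum_nonneg fun _ h => by
  obtain ⟨x, -, rfl⟩ := List.mem_map.1 h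
  rw [cost]
  split_ifs
  · nlinarith [sq_nonneg (2 * x - 1), Int.emod_two_eq_zero_or_one x, mul_self_nonneg x, Int.le_self_sq x]
  · rcases (by omega : x ≤ -1 ∨ 2 ≤ x) with h | h <;> nlinarith

theorem mem_cand {x : ℤ} (h : x * x ≤ 32) : x ∈ [x % 4 - 8, x % 4 - 4, x % 4, x % 4 + 4] := by
  have : -6 < x ∧ x < 6 := ⟨by nlinarith, by nlinarith⟩
  simp only [List.mem_cons, List.not_mem_nil]
  omega

theorem srch_sound {k : List ℤ → Bool} {xs : List ℤ} (hx : ∀ x ∈ xs, x * x ≤ 32) {b : ℤ} (hb : (xs.map cost).sum ≤ b)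
    {acc : List ℤ} (h : srch k (xs.map (· % 4)) b acc = true) : k (xs.reverse ++ acc) = true := by
  induction xs generalizing b acc with
  | nil => exact h
  | cons x xs ih =>
    obtain ⟨h₁, h₂⟩ := List.forall_mem_cons.1 hx
    have := cost_nonneg xs
    rw [List.map_cons, List.sum_cons] at hb
    rw [List.reverse_cons, List.append_assoc]
    exact ih h₂ (by omega) ((Bool.or_eq_true_iff.1 (List.all_eq_true.1 h x (mem_cand h₁))).resolve_left
      fun e => by have := of_decide_eq_true e; omega)

noncomputable def top (k : List ℤ → Bool) (c : ℕ) : Bool :=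
  forceB (popc 23 c 0) fun w => Nat.ble 8 w || [0, 1].all fun m : ℤ =>
    let r := fun i => m + 2 * (c.testBit i).toNat
    [r 23 - 8, r 23 - 4, r 23, r 23 + 4].all fun a => decide (8 - a * (a - 5) - 2 * w < 0) ||
      srch k ((List.range 23).reverse.map r) (8 - a * (a - 5) - 2 * w) [a]

noncomputable def allSp (k : ℕ → Bool) : List ℕ → ℕ → Bool
  | [], c => k c
  | g :: gs, c => allSp k gs c && forceB (c ^^^ g) (allSp k gs)

theorem allSp_sound {k : ℕ → Bool} {gs : List ℕ} {c m : ℕ} (h : allSp k gs c = true) (hm : Z4Min.Sp gs (m ^^^ c)) :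
    k m = true := by
  induction gs generalizing c with
  | nil => exact Nat.xor_eq_zero_iff.1 hm ▸ h
  | cons g gs ih =>
    obtain ⟨h₁, h₂⟩ := Bool.and_eq_true_iff.1 h
    exact hm.elim (ih h₁) fun e => ih h₂ (Nat.xor_assoc .. ▸ e)

theorem exists_mask {w : GolayPt → ZMod 2} (hw : w ∈ golayCode) :
    ∃ c, Z4Min.Sp ((List.finRange 12).map bm) c ∧ w = wd c := by
  have h₀ : ∀ (gs : List ℕ), ∀ g ∈ gs, Z4Min.Sp gs g := fun gs => by
    induction gs with
    | nil => simp
    | cons g gs ih =>
      exact List.forall_mem_cons.2 ⟨.inr (Nat.xor_self g ▸ Z4Min.sp_zero _), fun x hx => .inl (ih x hx)⟩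
  have z : (0 : GolayPt → ZMod 2) = wd 0 := funext fun p => by simp [wd]
  rw [eq_sum_of_S (S_eq_zero hw)]
  refine Finset.sum_induction _ (fun w => ∃ c, Z4Min.Sp _ c ∧ w = wd c) ?_ ⟨0, Z4Min.sp_zero _, z⟩ fun i _ => ?_
  · rintro _ _ ⟨a, ha, rfl⟩ ⟨b, hb, rfl⟩
    refine ⟨_, ha.xor hb, funext fun p => ?_⟩
    simp only [wd, Nat.testBit_xor, Pi.add_apply]
    cases a.testBit _ <;> cases b.testBit _ <;> rfl
  · rcases (by decide : ∀ t : ZMod 2, t = 0 ∨ t = 1) (w (Golay.pt i)) with e | e <;> rw [e]
    exacts [⟨0, Z4Min.sp_zero _, (zero_smul _ _).trans z⟩,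
      ⟨_, h₀ _ _ (List.mem_map_of_mem (List.mem_finRange i)), one_smul _ _⟩]

theorem near {k : List ℤ → Bool} (h : allSp (top k) ((List.finRange 12).map bm) 0 = true) {y : V}
    (hy : y ∈ leechLattice) (h₁ : sqNorm y = 32) (h₂ : dotInt y vecV = -24) :
    k ((List.range 24).map fun i => y (Golay.pt i)) = true := by
  obtain ⟨p₁, -, p₃⟩ := mem_iff.1 hy
  obtain ⟨c, hc, e⟩ := exists_mask (w := W y + if y none % 4 < 2 then 0 else 1)
    (add_mem (mem_golay_iff.2 (funext p₃)) (by split_ifs; exacts [zero_mem _, one_mem_code]))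
  have hr : ∀ i < 24, y (Golay.pt i) % 4 = y none % 2 + 2 * (c.testBit i).toNat := fun i hi => by
    have := congrFun e (Golay.pt i)
    have := p₁ (Golay.pt i)
    simp only [W, wd, idx_pt i hi, Pi.add_apply, ite_apply, Pi.zero_apply, Pi.one_apply] at *
    cases hb : c.testBit i <;> simp only [hb] at * <;> split_ifs at * <;> first | contradiction | (simp; omega)
  have hx : ∀ p, y p * y p ≤ 32 := fun p => (sq (y p)).ge.trans
    (h₁ ▸ Finset.single_le_sum (fun q _ => sq_nonneg (y q)) (Finset.mem_univ p))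
  have hb : (((List.range 23).reverse.map fun i => y (Golay.pt i)).map cost).sum =
      8 - y none * (y none - 5) - 2 * (popc 23 c 0 : ℕ) := by
    rw [sqNorm, sum_pt, Finset.sum_range_succ] at h₁
    rw [dotInt, sum_pt, Finset.sum_range_succ, Finset.sum_congr rfl (g := fun i => -y (Golay.pt i)) fun i hi => by
      rw [show vecV (Golay.pt i) = -1 by revert i; decide, mul_neg_one], Finset.sum_neg_distrib] at h₂
    rw [List.map_map, List.map_reverse, List.sum_reverse, show ∀ f : ℕ → ℤ, ((List.range 23).map f).sum =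
      ∑ i ∈ Finset.range 23, f i from fun _ => rfl, popc_eq, Finset.card_filter,
      Finset.sum_congr rfl (g := fun i => y (Golay.pt i) ^ 2 - y (Golay.pt i) - 2 * if c.testBit i then 1 else 0)]
    · simp only [Finset.sum_sub_distrib, ← Finset.mul_sum, show Golay.pt 23 = none from rfl,
        show vecV none = -5 from rfl] at h₁ h₂ ⊢
      push_cast
      linear_combination h₁ + h₂
    · intro i hi
      have := hr i (by have := Finset.mem_range.1 hi; omega)
      rw [Function.comp_apply, cost]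
      cases hb : c.testBit i <;> simp only [hb, Bool.toNat_false, Bool.toNat_true] at this
      · rw [if_pos (by omega), if_neg (by decide)]; ring
      · rw [if_neg (by omega), if_pos rfl]; ring
  have h₃ := cost_nonneg ((List.range 23).reverse.map fun i => y (Golay.pt i))
  have h₄ := (Bool.or_eq_true_iff.1 (allSp_sound h (Nat.xor_zero c ▸ hc))).resolve_left fun e => by
    have : (8 : ℤ) ≤ (popc 23 c 0 : ℕ) := by exact_mod_cast Nat.le_of_ble_eq_true e
    rcases (by omega : y none ≤ 2 ∨ 3 ≤ y none) with h | h <;> nlinarith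
  have h₅ := List.all_eq_true.1 (List.all_eq_true.1 h₄ (y none % 2) (by simp; omega)) (y none)
    (by have := mem_cand (hx none); rwa [show y none % 4 = _ from hr 23 (by decide)] at this)
  have := srch_sound (k := k) (acc := [y none]) (fun x h => by obtain ⟨i, -, rfl⟩ := List.mem_map.1 h; exact hx _) hb.le (by
    rw [List.map_map]
    refine (congrArg (srch k · _ _) (List.map_congr_left fun i hi => hr i (by simp at hi; omega))).trans ?_
    exact (Bool.or_eq_true_iff.1 h₅).resolve_left fun e => by have := of_decide_eq_true e; omega)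
  rwa [← List.map_reverse, List.reverse_reverse] at this

end Cfsg.Agent.Lib.Leech
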