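import Cfsg.Agent.Lib.Rk3Iso

/-! The steps of the recognition of a rank 3 group, put together. -/

set_option autoImplicit false

namespace Cfsg.Agent.Lib.Rk3Main

open Cfsg.Agent.Lib.PermNet Cfsg.Agent.Lib.Words Cfsg.Agent.Lib.Rk3Aut Cfsg.Agent.Lib.Rk3Emb Cfsg.Agent.Lib.Rk3PH
  Cfsg.Agent.Lib.Rk3Iso Cfsg.Agent.Lib.PermGroup Equiv MulAction

section
variable {S Ω X X' : Type*} [Group S] [MulAction S Ω] [Group X] [Group X'] {H : Subgroup X} {H' : Subgroup X'}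

/-- The image of a point stabiliser. -/
def st (e : S →* H) (b : Ω) : Subgroup X := (stabilizer S b).map (H.subtype.comp e)

theorem st_le (e : S →* H) (b : Ω) : st e b ≤ H := by rintro _ ⟨g, -, rfl⟩; exact (e g).2

theorem range_eq {e : S →* H} (he : Function.Surjective e) : (H.subtype.comp e).range = H := by
  rw [MonoidHom.range_comp, MonoidHom.range_eq_top_of_surjective _ he, ← MonoidHom.range_eq_map,
    Subgroup.range_subtype]

theorem card_st (e : S ≃* H) {b : Ω} {k m : ℕ} (hb : (orbit S b).ncard = k) (h : Nat.card H = k * m) (hk : k ≠ 0) :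
    Nat.card (st e.toMonoidHom b) = m := by
  have := card_map_stabilizer (e := H.subtype.comp e.toMonoidHom) (H.subtype_injective.comp e.injective) b
  rw [range_eq e.surjective, hb, h] at this
  exact (Nat.eq_of_mul_eq_mul_left (Nat.pos_of_ne_zero hk) this).symm

theorem card_st_dvd (e : S →* H) (θ : H →* H') (he : Function.Injective e) (b : Ω) :
    Nat.card (st (θ.comp e) b) ∣ Nat.card (st e b) := by
  rw [st, st, Subgroup.card_map_of_injective (f := H.subtype.comp e) (H.subtype_injective.comp he)]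
  exact Subgroup.card_dvd_of_surjective _ (MonoidHom.subgroupMap_surjective _ _)

theorem cj_trans (e : S →* H) (θ : H →* H') {b : Ω} {y : ℕ → X} {y' : ℕ → X'} {L : List (List ℕ)}
    (hθ : ∀ w ∈ L, ∃ h, (θ ⟨wval y w, h⟩ : X') = wval y' w) (h : Cj H (st e b) (gp y L)) :
    Cj H' (st (θ.comp e) b) (gp y' L) := by
  obtain ⟨u, hu, h⟩ := h
  refine ⟨θ ⟨u, hu⟩, (θ _).2, fun g hg =>
    (gp_le (K := (st (θ.comp e) b).comap (MulAut.conj _).toMonoidHom)).2 (fun w hw => ?_) hg⟩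
  obtain ⟨hw', e'⟩ := hθ w hw
  obtain ⟨s, hs, es⟩ := h _ (mem_gp hw)
  refine ⟨s, hs, ?_⟩
  have : e s = ⟨u, hu⟩ * ⟨_, hw'⟩ * ⟨u, hu⟩⁻¹ := Subtype.ext es
  change (θ (e s) : X') = _
  rw [this, map_mul, map_mul, map_inv, Subgroup.coe_mul, Subgroup.coe_mul, e']
  rfl

end

theorem exists_ext' {Ω : Type*} [Fintype Ω] {k l : ℕ} (hΩ : Fintype.card Ω = 1 + k + l) (G : Subgroup (Perm Ω))
    [IsPretransitive G Ω] {a b c : Ω} (hb : (orbit (stabilizer G a) b).ncard = k)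
    (hc : (orbit (stabilizer G a) c).ncard = l) {H : Subgroup (Perm ℕ)} {e : stabilizer G a →* H}
    (he : Function.Surjective e) (M : Model k l H)
    (fb : ∃ x ∈ ms (ivl 1 k), ∀ g ∈ st e b, g x = x) (fc : ∃ x ∈ ms (ivl (1 + k) l), ∀ g ∈ st e c, g x = x) :
    ∃ G' : Subgroup (Perm ℕ), Nonempty (G ≃* G') ∧ Ext (1 + k + l) H G' := by
  simpa only [range_eq he] using exists_ext hΩ G hb hc (H.subtype.comp e) ((range_eq he).symm ▸ M)
    (fb.imp fun x h => ⟨h.1, fun g hg => h.2 _ ⟨g, hg, rfl⟩⟩) (fc.imp fun x h => ⟨h.1, fun g hg => h.2 _ ⟨g, hg, rfl⟩⟩)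

/-- A homomorphism onto a second model of the same relators. -/
theorem exists_theta {G X : Type*} [Group G] [Group X] {y : ℕ → G} {f : ℕ → X} {ls : List (List ℕ)} {T n : ℕ}
    (hb : Nat.card (gp (fun i => (y i, f i)) ls) ≠ 0 ∧ Nat.card (gp (fun i => (y i, f i)) ls) ≤ T)
    (h1 : T ≤ Nat.card (gp y ls)) (hn : (List.range n).all (fun i => ls.contains [2 * i]) = true) :
    ∃ θ : gp y ls →* gp f ls, Function.Surjective θ ∧ ∀ L : List (List ℕ), L.all (lt n) = true →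
      ∀ w ∈ L, ∃ h, (θ ⟨wval y w, h⟩ : X) = wval f w := by
  obtain ⟨-, π, e, h⟩ := exists_hom hb fun _ => h1
  exact ⟨π.codRestrict _ fun g => e ▸ ⟨g, rfl⟩, fun x => (e.ge x.2).imp fun _ h => Subtype.ext h, fun L hL w hw =>
    ⟨mem_of_all_lt (mem_gp_range hn) hL w hw, h w _ (mem_of_all_lt (mem_gp_range hn) hL w hw)⟩⟩

theorem exists_le {k l N n n' : ℕ} {nets : NL} (hv : nets.Valid N) (hN : N = 1 + k + l) {H T G : Subgroup (Perm ℕ)}
    (M : Model k l H) (ET : Ext N H T) (EG : Ext N H G) (hH : ∀ i < n, nets.perm i ∈ H) (hT : ∀ i < n', nets.perm i ∈ T)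
    {al : List (List ℕ × List ℕ × List ℕ)}
    (ha : ∀ t ∈ al, ∀ g ∈ H, wval nets.perm t.1 * g * (wval nets.perm t.1)⁻¹ ∈ T)
    {b c : ℕ} {bs cs : List (List ℕ)} {lb lc : List (ℕ × List ℕ)} {ln : List (List ℕ × ℕ × ℕ)}
    (h : rowsB nets n N k b c bs cs lb lc ln (finB nets n' k b c al) = true) {m : ℕ}
    (hA : (∀ i < n', nets.perm i ∈ autG (Orb T k) N) → ms (ivl 1 k) = {y | Orb T k 0 y} → Bd (Orb T k) N [ones N] m) :
    ∃ G' A : Subgroup (Perm ℕ), G' ≤ A ∧ T ≤ A ∧ Finite A ∧ Nat.card A ≤ m ∧ Nat.card G' = Nat.card T ∧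
      Nonempty (G ≃* G') := by
  subst hN
  have h₁ := fun i hi => le_autG ET (hT i hi)
  obtain ⟨G', h₂, ⟨e⟩⟩ := exists_le_autG M EG hv rfl hH h₁ (orb_zero M ET) (fun _ _ h => (orb_lt ET h).1)
    (fun t ht g hg => le_autG ET (ha t ht g hg)) h
  exact ⟨G', _, h₂, le_autG ET, inferInstance, card_le_of_bd (hA h₁ (orb_zero M ET)),
    by rw [← Nat.card_congr e.toEquiv, card_ext M EG, card_ext M ET], ⟨e⟩⟩

theorem not_ext {k l N n : ℕ} {nets : NL} (hv : nets.Valid N) (hN : N = 1 + k + l) {H G : Subgroup (Perm ℕ)}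
    (M : Model k l H) (EG : Ext N H G) (hH : ∀ i < n, nets.perm i ∈ H) {n' b c : ℕ} {bs cs : List (List ℕ)}
    {lb lc : List (ℕ × List ℕ)} {ln : List (List ℕ × ℕ × ℕ)}
    (h : rowsB nets n N k b c bs cs lb lc ln (finB nets n' k b c []) = true) : False := by
  subst hN
  obtain ⟨-, -, _, _, -, -, h⟩ := rows M EG hv rfl hH h
  exact Bool.false_ne_true h

theorem range_le_of_simple {S X : Type*} [Group S] [Group X] [Finite S] [IsSimpleGroup S] (φ : S →* X)
    {A G : Subgroup X} [Finite A] (hT : φ.range ≤ A) (h : G ≤ A) (hc : Nat.card A ≤ 2 * Nat.card G)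
    (h3 : 3 ∣ Nat.card S) : φ.range ≤ G := by
  have hs : ∀ g, g * g ∈ G.comap φ := fun g => Subgroup.mem_comap.2 (map_mul φ g g ▸ mul_self_mem h hc (hT ⟨g, rfl⟩))
  have hn : (G.comap φ).Normal := ⟨fun x hx g => by
    have := mul_mem (mul_mem (hs g) (hs (g⁻¹ * x))) (inv_mem hx)
    simpa [mul_assoc] using this⟩
  rcases hn.eq_bot_or_eq_top with e | e
  · obtain ⟨g, hg⟩ := exists_prime_orderOf_dvd_card' (hp := Nat.fact_prime_three) 3 h3
    have := orderOf_dvd_of_pow_eq_one ((sq g).trans (Subgroup.mem_bot.1 (e ▸ hs g)))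
    simp [hg] at this
  · rintro _ ⟨g, rfl⟩
    exact (e ▸ Subgroup.mem_top g : g ∈ G.comap φ)

end Cfsg.Agent.Lib.Rk3Main
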