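import Cfsg.Agent.Lib.Leech
import Cfsg.Agent.Lib.Rk3Main

/-! The stabiliser in `Co₃` of a lattice vector acts on a graph of short vectors. -/

set_option autoImplicit false

namespace Cfsg.Agent.Lib.LeechRep

open Cfsg.Agent.Lib.Words Cfsg.Agent.Lib.Golay Cfsg.Agent.Lib.Leech Cfsg.Agent.Lib.PermNet Cfsg.Agent.Lib.Rk3Aut Cfsg.Agent.Lib.Rk3Emb
  Cfsg.Agent.Lib.Rk3Iso Cfsg.Spor Equiv

theorem mem_autG {N n D : ℕ} {nets : NL} (hv : nets.Valid N) {adj : ℕ → ℕ → Prop}
    (hT : ∀ i < n, nets.perm i ∈ autG adj N) (hD : ms D = {z | adj 0 z}) (hlt : ∀ x y, adj x y → x < N) {s : List ℕ}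
    {ws : List (List ℕ × List ℕ)} (h : ∀ x < N, ∀ w ∈ ws[x]?.getD ([], []) :: [], lt n w.1 = true ∧ lt n w.2 = true ∧
      appW nets w.1 (PermNet.pt 0) = PermNet.pt x ∧ appW nets s (appW nets w.2 (PermNet.pt 0)) = PermNet.pt x ∧
      appW nets s (appW nets w.2 D) = appW nets w.1 D) : wval nets.perm s ∈ autG adj N := by
  refine ⟨fun i => wval_of_ge hv s, fun x y => ?_⟩
  by_cases hx : x < N
  · obtain ⟨h₁, h₂, h₃, h₄, h₅⟩ := h x hx _ List.mem_cons_self
    obtain ⟨a, a₁, a₂⟩ := row_step hv hT h₁ (ms_pt 0) hD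
    obtain ⟨b, b₁, b₂⟩ := row_step hv hT h₂ (ms_pt 0) hD
    obtain rfl : x = a := by simpa [h₃, ms_pt] using a₁
    have e₁ := congrArg ms h₄
    have e₂ := congrArg ms h₅
    rw [ms_appW hv s, b₁, ms_pt] at e₁
    rw [ms_appW hv s, a₂, b₂] at e₂
    obtain rfl : wval nets.perm s x = b := e₁.ge rfl
    exact Set.ext_iff.1 e₂ y
  · exact iff_of_false (fun e => hx (wval_of_ge hv s (not_lt.1 hx) ▸ hlt _ _ e)) fun e => hx (hlt _ _ e)

/-- A group that contains a conjugate of a given group leaves a set invariant, which bounds its order. -/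
theorem le_of_cj {N k l : ℕ} {nets : NL} (hv : nets.Valid N) {H K : Subgroup (Perm ℕ)} (M : Model k l H) (hK : K ≤ H)
    {O x m m' q₀ : ℕ} (hO : Rk3Aut.Inv H O) {ws : List (List ℕ)} (hc : Cj H K (gp nets.perm ws)) (hm : Nat.card K = m)
    {ol : List (ℕ × List ℕ)} (h : (O.testBit x && unionB nets ws N ol O fun q s =>
      !q.testBit x || Nat.beq q q₀ || !Nat.beq (m % s) 0) = true) {adj : ℕ → ℕ → Prop} (hA : H ≤ autG adj N)
    (hb : Bd adj N [q₀, PermNet.pt 0, ones N] m') : m ≤ m' := by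
  simp only [Bool.and_eq_true] at h
  obtain ⟨u, hu, hc⟩ := hc
  let K' := K.comap (MulAut.conj u).toMonoidHom
  have e : Nat.card K' = m := (card_comap_conj K u).trans hm
  have hH : K' ≤ H := fun g hg => by simpa [mul_assoc] using H.mul_mem (H.mul_mem (H.inv_mem hu) (hK hg)) hu
  obtain ⟨q, hq, h⟩ := exists_of_unionB hv (L := gp nets.perm ws) (fun _ => mem_gp) (X := MulAction.orbit K' x)
    (by rintro g hg _ ⟨g', rfl⟩; exact ⟨⟨g, hc g hg⟩ * g', rfl⟩)
    (by rintro _ ⟨g, rfl⟩; exact (hO _ (hH g.2) x).2 h.1) h.2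
  have h₁ : q.testBit x = true := by rw [← mem_ms, hq]; exact MulAction.mem_orbit_self x
  have h₂ : Nat.beq (m % (MulAction.orbit K' x).ncard) 0 = true := Nat.beq_eq ▸ Nat.mod_eq_zero_of_dvd
    (e ▸ MulAction.index_stabilizer K' x ▸ Subgroup.index_dvd_card _)
  simp only [h₁, h₂, Bool.not_true, Bool.false_or, Bool.or_false, Nat.beq_eq] at h
  refine e ▸ hb K' (hH.trans hA) fun r hr g hg i => ?_
  simp only [List.mem_cons, List.not_mem_nil, or_false] at hr
  rcases hr with rfl | rfl | rfl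
  · rw [← h, hq]
    exact ⟨fun e => by simpa [Subgroup.smul_def] using MulAction.mem_orbit_of_mem_orbit (⟨g, hg⟩⁻¹ : K') e,
      MulAction.mem_orbit_of_mem_orbit (⟨g, hg⟩ : K')⟩
  · simpa [ms_pt] using g.injective.eq_iff' (M.fix0 g (hH hg))
  · rw [ms_ones]
    exact ⟨fun e => by simpa using lt_of_fix (hA (H.inv_mem (hH hg))).1 e, lt_of_fix (hA (hH hg)).1⟩

theorem equiv_of_card {S X : Type*} [Group S] [Group X] [Finite S] (ψ : S →* X) {H : Subgroup X} (h : H ≤ ψ.range)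
    (hc : Nat.card S ≤ Nat.card H) : Nat.card H = Nat.card S ∧ Nonempty (S ≃* H) := by
  have := Finite.of_surjective _ ψ.rangeRestrict_surjective
  have e := Nat.card_le_card_of_surjective _ ψ.rangeRestrict_surjective
  obtain rfl := Subgroup.eq_of_le_of_card_ge h (e.trans hc)
  exact ⟨e.antisymm hc, ⟨.ofBijective _ (ψ.rangeRestrict_surjective.bijective_of_nat_card_le hc)⟩⟩

theorem final {S X : Type*} [Group S] [Group X] {φ : S →* X} {A T G : Subgroup X} [Finite A]
    (h₁ : φ.range ≤ A) (h₂ : T ≤ φ.range) (h₃ : G ≤ A) (h₄ : Nat.card A ≤ 2 * Nat.card G) (h₅ : T ≤ G)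
    (h₆ : Nat.card G ≤ Nat.card T) {σ : X} (h₇ : σ ∈ A) (h₈ : σ ∉ φ.range) :
    G = φ.range ∧ 2 * Nat.card G ≤ Nat.card A := by
  have : Finite G := Finite.of_injective _ (Subgroup.inclusion_injective h₃)
  have : Finite φ.range := Finite.of_injective _ (Subgroup.inclusion_injective h₁)
  have e := (φ.range.subgroupOf A).index_mul_card
  rw [Nat.card_congr (Subgroup.subgroupOfEquivOfLe h₁).toEquiv] at e
  have i₀ := (φ.range.subgroupOf A).index_ne_zero_of_finite
  have i₁ : (φ.range.subgroupOf A).index ≠ 1 := fun e =>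
    h₈ ((Subgroup.index_eq_one.1 e).ge (Subgroup.mem_top (⟨σ, h₇⟩ : A)))
  have := Nat.mul_le_mul_right (Nat.card φ.range) (show 2 ≤ (φ.range.subgroupOf A).index by omega)
  obtain rfl := (Subgroup.eq_of_le_of_card_ge h₅ h₆).symm.trans (Subgroup.eq_of_le_of_card_ge h₂ (by omega))
  exact ⟨rfl, by omega⟩

def vl : List ℤ := List.replicate 23 (-1) ++ [-5]

theorem vec_vl : vecV = vec vl := by decide +kernel

/-- The stabiliser. -/
abbrev S (q : leechLattice) : Subgroup (Perm leechLattice) := Co3 ⊓ MulAction.stabilizer _ q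

theorem mono_mem {q : leechLattice} (hq : q = leechU ∨ q = leechU') {g : Perm GolayPt} (hg : g ∈ M22) :
    (mono ⟨g, hg.1.1⟩).1 ∈ S q := by
  have h₁ : g none = none := hg.1.2
  have h₂ : g (some 0) = some 0 := hg.2
  refine ⟨⟨(mono _).2, Subtype.ext (funext fun p => ?_)⟩, Subtype.ext (funext fun p => ?_)⟩
  · change vecV (g.symm p) = vecV p
    simp [vecV, symm_apply_eq, h₁]
  · change q.1 (g.symm p) = q.1 p
    rcases hq with rfl | rfl <;> simp [leechU, leechU', vecU, vecU', symm_apply_eq, h₁, h₂]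

/-- The permutations of the coordinates that fix two of them. -/
def incl {q : leechLattice} (hq : q = leechU ∨ q = leechU') : M22 →* S q :=
  ((Co0.subtype.comp mono).comp (Subgroup.inclusion (show M22 ≤ M24 from fun _ h => h.1.1))).codRestrict _ fun g => mono_mem hq g.2

def adj (L : List (List ℤ)) (d : ℤ) (x y : ℕ) : Prop :=
  x < L.length ∧ y < L.length ∧ ldot (L.getD x []) (L.getD y []) = d

instance (L : List (List ℤ)) (d : ℤ) : DecidableRel (adj L d) := fun _ _ => inferInstanceAs (Decidable (_ ∧ _))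

structure Rep (L : List (List ℤ)) {q : leechLattice} (lab : ℕ → leechLattice) (φ : S q →* Perm ℕ) : Prop where
  len : ∀ x < L.length, (L.getD x []).length = 24
  val : ∀ x < L.length, (lab x).1 = vec (L.getD x [])
  inj : Set.InjOn lab (Set.Iio L.length)
  fix : ∀ s i, L.length ≤ i → φ s i = i
  map : ∀ s, ∀ x < L.length, lab (φ s x) = s.1 (lab x)

theorem exists_rep {L : List (List ℤ)} {q : leechLattice} {ql : List ℤ} (hq : q.1 = vec ql) {c : ℤ}
    (h₁ : ∀ l ∈ L, l.length = 24 ∧ Chk (vec l) ∧ ldot l l = 32 ∧ ldot l vl = -24 ∧ ldot l ql = c) (h₂ : L.Nodup)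
    {k : List ℤ → Bool} (h₃ : allSp (top k) ((List.finRange 12).map bm) 0 = true)
    (h₄ : ∀ l, k l = true → ldot l l = 32 → ldot l ql = c → l ∈ L) : ∃ lab, ∃ φ : S q →* Perm ℕ, Rep L lab φ := by
  have hm : ∀ x < L.length, L.getD x [] ∈ L := fun x hx => List.getD_eq_getElem L [] hx ▸ List.getElem_mem hx
  let lab : ℕ → leechLattice := fun x => if h : x < L.length then ⟨_, mem_iff.2 (h₁ _ (hm x h)).2.1⟩ else 0
  have val : ∀ x < L.length, (lab x).1 = vec (L.getD x []) := fun x hx => by simp only [lab, dif_pos hx]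
  have inj : Set.InjOn lab (Set.Iio L.length) := fun x hx y hy e => by
    refine (List.Nodup.getElem_inj_iff h₂).1 ((List.getD_eq_getElem L [] hx).symm.trans (.trans ?_
      (List.getD_eq_getElem L [] hy)))
    refine List.ext_getElem ((h₁ _ (hm x hx)).1.trans (h₁ _ (hm y hy)).1.symm) fun i hi hi' => ?_
    have := congrFun ((val x hx).symm.trans ((congrArg Subtype.val e).trans (val y hy))) (Golay.pt i)
    rwa [vec, vec, idx_pt i ((h₁ _ (hm x hx)).1 ▸ hi), List.getD_eq_getElem _ _ hi, List.getD_eq_getElem _ _ hi'] at this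
  obtain ⟨φ, p₁, p₂⟩ := exists_phi (S := S q) lab inj fun s x hx => by
    obtain ⟨a₁, -, a₂, a₃, a₄⟩ := h₁ _ (hm x hx)
    have e : ∀ z : leechLattice, s.1 z = z → dotInt (s.1 (lab x)).1 z.1 = dotInt (vec (L.getD x [])) z.1 := fun z hz => by
      rw [← val x hx, ← dot_eq s.2.1.1 (lab x), hz]
    have hs : ∀ x : V, sqNorm x = dotInt x x := fun x => Finset.sum_congr rfl fun p _ => sq _
    have e₁ : sqNorm (s.1 (lab x)).1 = 32 := by rw [s.2.1.1.2, val x hx, hs, dot_vec a₁.le, a₂]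
    have e₂ := e leechV s.2.1.2
    have e₃ := e q s.2.2
    rw [hq, dot_vec a₁.le, a₄, ← vec_map (s.1 _).1, dot_vec (by simp)] at e₃
    obtain ⟨y, hy, e₄⟩ := List.getElem_of_mem (h₄ _ (near h₃ (s.1 (lab x)).2 e₁
      (e₂.trans (by rw [← a₃, ← dot_vec a₁.le, ← vec_vl]; rfl))) (by rw [← dot_vec (by simp), vec_map, ← hs, e₁]) e₃)
    exact ⟨y, hy, Subtype.ext (by rw [val y hy, List.getD_eq_getElem _ _ hy, e₄, vec_map]; rfl)⟩
  exact ⟨lab, φ, fun x hx => (h₁ _ (hm x hx)).1, val, inj, p₁, p₂⟩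

namespace Rep

variable {L : List (List ℤ)} {q : leechLattice} {lab : ℕ → leechLattice} {φ : S q →* Perm ℕ} (R : Rep L lab φ)
include R

theorem le (d : ℤ) : φ.range ≤ autG (adj L d) L.length := by
  rintro _ ⟨s, rfl⟩
  have h : ∀ x, φ s x < L.length ↔ x < L.length := fun x =>
    ⟨fun h => by simpa using lt_of_fix (R.fix s⁻¹) h, lt_of_fix (R.fix s)⟩
  refine ⟨R.fix s, fun x y => and_congr (h x) (h y) |>.elim (fun _ _ => ?_)⟩
  refine ⟨fun ⟨a, b, e⟩ => ⟨(h x).1 a, (h y).1 b, ?_⟩, fun ⟨a, b, e⟩ => ⟨(h x).2 a, (h y).2 b, ?_⟩⟩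
  · rw [← dot_vec (R.len _ a).le, ← R.val _ a, ← R.val _ b, R.map s x ((h x).1 a), R.map s y ((h y).1 b),
      dot_eq s.2.1.1, R.val _ ((h x).1 a), R.val _ ((h y).1 b), dot_vec (R.len _ ((h x).1 a)).le] at e
    exact e
  · rw [← dot_vec (R.len _ ((h x).2 a)).le, ← R.val _ ((h x).2 a), ← R.val _ ((h y).2 b), R.map s x a, R.map s y b,
      dot_eq s.2.1.1, R.val _ a, R.val _ b, dot_vec (R.len _ a).le, e]

theorem eq {nets : NL} (hv : nets.Valid L.length) {s : S q} {w im : List ℕ}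
    (h₁ : ∀ x < L.length, (appW nets w (PermNet.pt (im.getD x 0))).testBit x = true)
    (h₂ : ∀ x < L.length, (s.1 (lab x)).1 = vec (L.getD (im.getD x 0) [])) : φ s = wval nets.perm w := by
  ext x
  by_cases hx : x < L.length
  · have := h₁ x hx
    rw [testBit_appW hv, testBit_pt, decide_eq_true_eq] at this
    exact R.inj (lt_of_fix (R.fix s) hx) (wval_lt hv w hx)
      (Subtype.ext (by rw [R.map s x hx, h₂ x hx, R.val _ (wval_lt hv w hx), this]))
  · rw [R.fix s x (not_lt.1 hx), wval_of_ge hv w (not_lt.1 hx)]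

theorem eq_incl {nets : NL} (hv : nets.Valid L.length) (hq : q = leechU ∨ q = leechU') {g : M22} {w : List ℕ} (im : List ℕ)
    (h : ∀ x < L.length, (appW nets w (PermNet.pt (im.getD x 0))).testBit x = true ∧
      vec (L.getD x []) ∘ g.1.symm = vec (L.getD (im.getD x 0) [])) : φ (incl hq g) = wval nets.perm w :=
  R.eq hv (fun x hx => (h x hx).1) fun x hx => (congrArg (· ∘ g.1.symm) (R.val x hx)).trans (h x hx).2

theorem mem_mat {nets : NL} (hv : nets.Valid L.length) {ql : List ℤ} (hq : q.1 = vec ql) {A : List (List ℤ)}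
    (h₀ : ∀ p, (A.getD (idx p) []).length = 24 ∧ ∀ l ∈ [vl, ql], ldot (A.getD (idx p) []) l = 8 * vec l p)
    (h₁ : ∀ p r, vec (A.getD (idx p) []) r = vec (A.getD (idx r) []) p ∧
      ldot (A.getD (idx p) []) (A.getD (idx r) []) = if p = r then 64 else 0)
    (h₂ : ∀ i, (∀ p, dotInt (vec (A.getD (idx p) [])) (gen i) % 8 = 0) ∧
      Chk fun p => dotInt (vec (A.getD (idx p) [])) (gen i) / 8)
    {w im : List ℕ} (h₃ : ∀ x < L.length, (appW nets w (PermNet.pt (im.getD x 0))).testBit x = true ∧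
      A.map (ldot · (L.getD x [])) = (L.getD (im.getD x 0) []).map (8 * ·)) : wval nets.perm w ∈ φ.range := by
  obtain ⟨s, hs, e⟩ := exists_mat (Matrix.of fun p => vec (A.getD (idx p) [])) (Matrix.ext fun p r =>
    (Finset.sum_congr rfl fun k _ => congrArg (_ * ·) (h₁ k r).1).trans (((dot_vec (h₀ p).1.le _).trans
      (h₁ p r).2).trans (by simp [Matrix.one_apply]))) (Matrix.ext fun p r => (h₁ r p).1) h₂
  have inj := smul_right_injective V (show (8 : ℤ) ≠ 0 by decide)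
  have : ∀ y : leechLattice, ∀ l ∈ [vl, ql], y.1 = vec l → s y = y := fun y l hl h => Subtype.ext (inj ((e y).trans
    (funext fun p => h ▸ (dot_vec (h₀ p).1.le l).trans ((h₀ p).2 l hl))))
  refine ⟨⟨s, ⟨hs, this _ _ (by simp) vec_vl⟩, this _ _ (by simp) hq⟩, R.eq hv (fun x hx => (h₃ x hx).1) fun x hx =>
    inj ((e _).trans (funext fun p => ?_))⟩
  have := congrArg (·.getD (idx p) 0) (h₃ x hx).2
  simp only [show (0 : ℤ) = ldot [] (L.getD x []) from rfl, List.getD_map A [] (ldot · (L.getD x []))] at this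
  rw [R.val x hx]
  exact ((dot_vec (h₀ p).1.le _).trans this).trans (List.getD_map _ (0 : ℤ) (8 * ·))

/-- The chosen vectors, then the two fixed ones. -/
def bas (L : List (List ℤ)) (ql : List ℤ) (bs : List ℕ) (k : Fin 24) : V :=
  vec ((bs.map (L.getD · []) ++ [vl, ql]).getD k [])

theorem span' {ql : List ℤ} (hq : q.1 = vec ql) {bs : List ℕ} (hb : bs.length = 22 ∧ ∀ x ∈ bs, x < L.length)
    {C : GolayPt → Fin 24 → ℤ} {d : ℤ} (h : ∀ p r, ∑ k, C p k * bas L ql bs k r = if p = r then d else 0) (s : S q)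
    (y : leechLattice) : d • (s.1 y).1 = ∑ k, (∑ p, y.1 p * C p k) • bas L ql (bs.map (φ s)) k := by
  have key : ∀ s : S q, ∀ k : Fin 24,
      (s.1 ((bs.map lab ++ [leechV, q]).getD k 0)).1 = bas L ql (bs.map (φ s)) k := fun s k => by
    rcases Nat.lt_or_ge k 22 with h | h
    · have := hb.2 _ (List.getElem_mem (hb.1 ▸ h))
      rw [bas, List.getD_append _ _ _ _ (by simpa [hb.1]), List.getD_append _ _ _ _ (by simpa [hb.1]),
        List.getD_eq_getElem _ _ (by simpa [hb.1]), List.getD_eq_getElem _ _ (by simpa [hb.1]), List.getElem_map,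
        List.getElem_map, List.getElem_map, ← R.map s _ this, R.val _ (lt_of_fix (R.fix s) this)]
    · rw [bas, List.getD_append_right _ _ _ _ (by simpa [hb.1]), List.getD_append_right _ _ _ _ (by simpa [hb.1])]
      simp only [List.length_map, hb.1]
      rcases (by omega : k.1 - 22 = 0 ∨ k.1 - 22 = 1) with e | e <;> rw [e]
      exacts [(congrArg Subtype.val s.2.1.2).trans vec_vl, (congrArg Subtype.val s.2.2).trans hq]
  have := congrArg Subtype.val (span (l := fun k => (bs.map lab ++ [leechV, q]).getD k 0) (C := C) (d := d)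
    (fun p r => (Finset.sum_congr rfl fun k _ => congrArg (C p k * · r) ((key 1 k).trans (by simp))).trans (h p r))
    s.2.1.1 y)
  simpa only [AddSubgroup.coe_zsmul, AddSubgroup.val_finsetSum, key] using this

theorem injective {ql : List ℤ} (hq : q.1 = vec ql) {bs : List ℕ} (hb : bs.length = 22 ∧ ∀ x ∈ bs, x < L.length)
    {C : GolayPt → Fin 24 → ℤ} {d : ℤ} (h : ∀ p r, ∑ k, C p k * bas L ql bs k r = if p = r then d else 0) (hd : d ≠ 0) :
    Function.Injective φ := (injective_iff_map_eq_one φ).2 fun s hs => Subtype.ext (Equiv.ext fun y => Subtype.ext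
  (smul_right_injective V hd ((R.span' hq hb h s y).trans (by rw [hs, ← map_one φ]; exact (R.span' hq hb h 1 y).symm))))

theorem not_mem {ql : List ℤ} (hq : q.1 = vec ql) {bs : List ℕ} (hb : bs.length = 22 ∧ ∀ x ∈ bs, x < L.length)
    {C : GolayPt → Fin 24 → ℤ} {d : ℤ} (h : ∀ p r, ∑ k, C p k * bas L ql bs k r = if p = r then d else 0) (hd : d ≠ 0)
    {nets : NL} (hv : nets.Valid L.length) {w bs' : List ℕ} {y : V}
    (h₁ : List.Forall₂ (fun x x' => (appW nets w (PermNet.pt x')).testBit x = true) bs bs') (h₂ : Chk y)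
    (h₃ : ¬ Chk fun r => (∑ k, (∑ p, y p * C p k) * bas L ql bs' k r) / d) : wval nets.perm w ∉ φ.range := by
  rintro ⟨s, hs⟩
  obtain rfl : bs.map (φ s) = bs' := List.forall₂_eq_eq_eq ▸ List.forall₂_map_left_iff.2 (h₁.imp fun x x' h => by
    rwa [testBit_appW hv, testBit_pt, decide_eq_true_eq, ← hs] at h)
  refine h₃ (Eq.subst (funext fun r => ?_) (mem_iff.1 (s.1 ⟨y, mem_iff.2 h₂⟩).2))
  have := congrFun (R.span' hq hb h s ⟨y, mem_iff.2 h₂⟩) r
  simp only [Finset.sum_apply, Pi.smul_apply, smul_eq_mul] at this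
  rw [← this, Int.mul_ediv_cancel_left _ hd]

theorem main (inj : Function.Injective φ) {N k l n n' : ℕ} (hL : L.length = N) (hN : N = 1 + k + l) {nets : NL}
    (hv : nets.Valid N) {H G : Subgroup (Perm ℕ)} (M : Model k l H) (E : Ext (1 + k + l) H G)
    (hH : ∀ i < n, nets.perm i ∈ H) (hH' : H ≤ φ.range) (hT : ∀ i < n', nets.perm i ∈ φ.range) {d : ℤ}
    (h₀ : ms (ivl 1 k) = {y | adj L d 0 y}) {b c : ℕ} {bs cs : List (List ℕ)} {lb lc : List (ℕ × List ℕ)}
    {ln : List (List ℕ × ℕ × ℕ)} {t : List ℕ × List ℕ}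
    (h₁ : rowsB nets n N k b c bs cs lb lc ln (finB nets n' k b c [([], t)]) = true) {P : List Ins}
    (h₂ : exec nets N n' (ivl 1 k) (fun l => sepB l N) P [ones N] = true) (h₃ : fac P ≤ 2 * (N * Nat.card H))
    {ls : List (List ℕ)} (h₄ : ∀ w ∈ ls, lt n' w = true ∧ ∃ m, wval nets.perm w ^ (2 * m + 1) = 1)
    (h₅ : Finite (gp nets.perm ls) → N * Nat.card H ≤ Nat.card (gp nets.perm ls)) {σ : Perm ℕ}
    (h₆ : σ ∈ autG (adj L d) N) (h₇ : σ ∉ φ.range) : Nonempty (G ≃* S q) := by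
  have hA := hL ▸ R.le d
  obtain ⟨G', e₁, ⟨e⟩⟩ := exists_le_autG M E hv hN hH (fun i hi => hA (hT i hi)) h₀ (fun _ _ h => hL ▸ h.1)
    (fun t ht g hg => by simpa [List.mem_singleton.1 ht] using hA (hH' hg)) h₁
  have e₂ : Nat.card G' = N * Nat.card H := by rw [← Nat.card_congr e.toEquiv, card_ext M E, hN]
  have e₃ := (card_le_of_bd (bd_of_exec_sep hv (fun i hi => hA (hT i hi)) h₀ h₂)).trans (e₂ ▸ h₃)
  exact ⟨(e.trans (.subgroupCongr (final hA (gp_le.2 fun w hw => mem_of_lt hT (h₄ w hw).1) e₁ e₃ (gp_le.2 fun w hw =>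
    (h₄ w hw).2.elim fun _ => mem_of_odd e₁ e₃ (hA (mem_of_lt hT (h₄ w hw).1)))
      (e₂ ▸ h₅ (finite_of_fix (fix_gp hv _))) h₆ h₇).1)).trans (MonoidHom.ofInjective inj).symm⟩

end Rep

theorem ms_eq {L : List (List ℤ)} {d : ℤ} {k : ℕ} (h : 1 + k ≤ L.length ∧ ∀ y < L.length, 1 ≤ y ∧ y < 1 + k ↔ adj L d 0 y) :
    ms (ivl 1 k) = {y | adj L d 0 y} := ms_ivl 1 k ▸ Set.ext fun y =>
  ⟨fun e => (h.2 y (e.2.trans_le h.1)).1 e, fun e => (h.2 y e.2.1).2 e⟩

end Cfsg.Agent.Lib.LeechRep
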