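/-
Control of Sylow intersections by a family of subgroups.
-/
import Cfsg.Prelude.Def_SylowChains
import Cfsg.Agent.Lib.PCore
import Cfsg.Agent.Lib.CoprimeSylow

set_option autoImplicit false

namespace Cfsg.Agent.Lib.LocSylCtrl

open Subgroup Cfsg.Agent.Lib.PCoreConj Cfsg.Agent.Lib.PCore Relation

theorem exists_fin_iff {α : Type*} {r : α → α → Prop} {a b : α} :
    (∃ (n : ℕ) (c : Fin (n + 1) → α), c 0 = a ∧ c (Fin.last n) = b ∧
      ∀ i : Fin n, r (c i.castSucc) (c i.succ)) ↔ ReflTransGen r a b := by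
  constructor
  · rintro ⟨n, c, rfl, rfl, h⟩
    have : ∀ i, ReflTransGen r (c 0) (c i) := fun i => by
      induction i using Fin.induction with
      | zero => exact .refl
      | succ i ih => exact ih.tail (h i)
    exact this _
  · intro h
    induction h using ReflTransGen.head_induction_on with
    | refl => exact ⟨0, fun _ => b, rfl, rfl, fun i => i.elim0⟩
    | @head a a' h1 _ ih =>
      obtain ⟨n, c, rfl, rfl, h2⟩ := ih
      refine ⟨n + 1, Fin.cons a c, rfl, rfl, fun i => ?_⟩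
      induction i using Fin.cases with
      | zero => exact h1
      | succ i => exact h2 i

theorem chain_lift {α β : Type*} {r : α → α → Prop} {q : β → β → Prop} {a b : α} (f : α → β)
    (h : ∀ a b, r a b → q (f a) (f b)) (hab : ReflTransGen r a b) : ReflTransGen q (f a) (f b) := by
  induction hab with
  | refl => exact .refl
  | tail _ h1 ih => exact ih.tail (h _ _ h1)

variable {G : Type*} [Group G] {p : ℕ} {𝓕 : Set (Subgroup G)} {A B D D' M S T X : Subgroup G}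
  {f : Subgroup G → Set (Subgroup G)}

/-- One step of a chain of Sylow subgroups. -/
def Step (p : ℕ) (𝓕 : Set (Subgroup G)) (D A B : Subgroup G) : Prop :=
  IsSylowIn p A ⊤ ∧ IsSylowIn p B ⊤ ∧ ∃ X ∈ 𝓕, IsSylowIn p (A ⊓ X) X ∧ IsSylowIn p (B ⊓ X) X ∧
    (∃ x ∈ X, A ^ᶜ x = B) ∧ D ≤ B ⊓ X

theorem chain_mono (h : ReflTransGen (Step p 𝓕 D) A B) (hD : D' ≤ D) :
    ReflTransGen (Step p 𝓕 D') A B :=
  chain_lift id (fun _ _ ⟨h1, h2, X, h3, h4, h5, h6, h7⟩ =>
    ⟨h1, h2, X, h3, h4, h5, h6, hD.trans h7⟩) h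

theorem mem_sylowMembers : X ∈ sylowMembers p 𝓕 S ↔ X ∈ 𝓕 ∧ IsSylowIn p (S ⊓ X) X := by
  rw [isSylowIn_iff_exists_map]
  rfl

theorem conjRight_eq_iff {x : G} : subgroupConjRight x B = A ↔ A ^ᶜ x = B := by
  rw [subgroupConjRight, conj_eq_iff_eq_conj_inv, eq_comm, inv_inv]

theorem controls_iff : ControlsSylowIntersections p 𝓕 ↔ ∀ S T : Subgroup G, IsSylowIn p S ⊤ →
    IsSylowIn p T ⊤ → S ⊓ T ≠ ⊥ → ReflTransGen (Step p 𝓕 (S ⊓ T)) S T := by
  constructor
  · intro h S T hS hT hne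
    obtain ⟨S, rfl⟩ := isSylowIn_top_iff.1 hS
    obtain ⟨T, rfl⟩ := isSylowIn_top_iff.1 hT
    by_cases e : S = T
    · rw [e]
    obtain ⟨n, c, X, x, h1, h2, h3⟩ := h S T e hne
    refine exists_fin_iff.1 ⟨n, fun i => c i, congrArg _ h1, congrArg _ h2, fun i => ?_⟩
    obtain ⟨h4, h5, h6, h7, h8⟩ := h3 i
    exact ⟨isSylowIn_top _, isSylowIn_top _, X i, h4.1, (mem_sylowMembers.1 h4).2,
      (mem_sylowMembers.1 h5).2, ⟨x i, h6, conjRight_eq_iff.1 h7⟩, h8⟩
  · intro h S T _ hne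
    have h1 : ∀ B, ReflTransGen (Step p 𝓕 (S ⊓ T)) S B → ∀ B' : Sylow p G, B = B' →
        ReflTransGen (fun A B : Sylow p G => Step p 𝓕 (S ⊓ T) A B) S B' := fun B hB => by
      induction hB with
      | refl => exact fun B' e => by rw [Sylow.ext e]
      | tail _ h2 ih => exact fun B' e => (ih h2.1.toSylowTop rfl).tail (e ▸ h2)
    obtain ⟨n, c, h2, h3, h4⟩ := exists_fin_iff.2
      (h1 _ (h S T (isSylowIn_top S) (isSylowIn_top T) hne) T rfl)
    choose X h5 h6 h7 h8 h9 using fun i => (h4 i).2.2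
    choose x h10 h11 using h8
    exact ⟨n, c, X, x, h2, h3, fun i => ⟨mem_sylowMembers.2 ⟨h5 i, h6 i⟩,
      mem_sylowMembers.2 ⟨h5 i, h7 i⟩, h10 i, conjRight_eq_iff.2 (h11 i), h9 i⟩⟩

theorem conj_mem (h : IsNormalSet 𝓕) (hX : X ∈ 𝓕) (g : G) : X ^ᶜ g ∈ 𝓕 := by
  simpa [subgroupConjRight] using h X hX g⁻¹

/-- One step of a chain for a normalizer functor. -/
def FStep (p : ℕ) (f : Subgroup G → Set (Subgroup G)) (M D A B : Subgroup G) : Prop :=
  IsSylowIn p A M ∧ IsSylowIn p B M ∧ D ≤ B ∧ ∃ P, IsSylowIn p P M ∧ ∃ F ∈ f P,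
    A ≤ normalizer (F : Set G) ∧ B ≤ normalizer (F : Set G)

theorem mem_functorFamily : X ∈ functorFamily p f M ↔
    ∃ P, IsSylowIn p P M ∧ ∃ F ∈ f P, X = M ⊓ normalizer (F : Set G) :=
  ⟨fun ⟨P, h⟩ => ⟨_, isSylowIn_map_subtype P, h⟩, fun ⟨_, h1, h2⟩ =>
    ⟨h1.toSylow, by rwa [h1.map_toSylow]⟩⟩

theorem map_top (M : Subgroup G) : (⊤ : Subgroup M).map M.subtype = M := by
  rw [← MonoidHom.range_eq_map, range_subtype]

variable [Finite G] [Fact p.Prime]

theorem le_of_sylow (hA : IsSylowIn p A M) (hB : IsSylowIn p B M) (hX : B ≤ X)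
    (h : IsSylowIn p (A ⊓ X) X) : A ≤ X :=
  (eq_of_le_of_card_le inf_le_left ((hA.card_eq_card hB).le.trans
    (h.card_le hX hB.isPGroup))).ge.trans inf_le_right

theorem step_of_le (hA : IsSylowIn p A ⊤) (hB : IsSylowIn p B ⊤) (hX : X ∈ 𝓕) (h1 : A ≤ X)
    (h2 : B ≤ X) (h3 : D ≤ B) : Step p 𝓕 D A B :=
  ⟨hA, hB, X, hX, (inf_eq_left.2 h1).symm ▸ hA.of_le h1 le_top,
    (inf_eq_left.2 h2).symm ▸ hB.of_le h2 le_top,
    (hA.of_le h1 le_top).exists_conj_eq (hB.of_le h2 le_top), le_inf h3 (h3.trans h2)⟩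

theorem regular_iff (hf : IsNormalizerFunctor p f) : IsFunctorRegular p f M ↔
    ∀ S T : Subgroup G, IsSylowIn p S M → IsSylowIn p T M → S ⊓ T ≠ ⊥ →
      ReflTransGen (FStep p f M (S ⊓ T)) S T := by
  rw [IsFunctorRegular, controls_iff]
  have hs : ∀ A : Subgroup G, IsSylowIn p A M → IsSylowIn p (A.subgroupOf M) ⊤ := fun A hA => by
    simpa using hA.subgroupOf le_rfl
  have hm : ∀ A : Subgroup M, IsSylowIn p A ⊤ → IsSylowIn p (A.map M.subtype) M := fun A hA => by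
    simpa [map_top] using hA.map_subtype
  have hN : ∀ P, IsSylowIn p P M → ∀ F ∈ f P, P ≤ normalizer (F : Set G) := fun P hP F hF =>
    le_normalizer.trans ((hf P hP.isPGroup).1 F hF).2
  constructor
  · intro h S T hS hT hne
    have h0 : S.subgroupOf M ⊓ T.subgroupOf M ≠ ⊥ := fun e => hne (by
      rw [← map_subgroupOf_eq_of_le (inf_le_left.trans hS.le : S ⊓ T ≤ M), subgroupOf,
        comap_inf]
      exact e ▸ Subgroup.map_bot _)
    have h1 := chain_lift (q := FStep p f M (S ⊓ T)) (Subgroup.map M.subtype) ?_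
      (h _ _ (hs S hS) (hs T hT) h0)
    · rwa [map_subgroupOf_eq_of_le hS.le, map_subgroupOf_eq_of_le hT.le] at h1
    · rintro A B ⟨h1, h2, _, ⟨_, h3, rfl⟩, h4, h5, -, h6⟩
      obtain ⟨P, h7, F, h8, rfl⟩ := mem_functorFamily.1 h3
      have h9 : P.subgroupOf M ≤ (M ⊓ normalizer (F : Set G)).subgroupOf M :=
        comap_mono (le_inf h7.le (hN P h7 F h8))
      exact ⟨hm A h1, hm B h2, fun x hx => ⟨⟨x, hS.le hx.1⟩, (h6 ⟨hx.1, hx.2⟩).1, rfl⟩, P, h7, F, h8,
        map_le_iff_le_comap.2 fun x hx => (le_of_sylow h1 (hs P h7) h9 h4 hx).2,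
        map_le_iff_le_comap.2 fun x hx => (le_of_sylow h2 (hs P h7) h9 h5 hx).2⟩
  · intro h S T hS hT hne
    have h0 : S.map M.subtype ⊓ T.map M.subtype ≠ ⊥ := fun e => hne (by
      rw [← Subgroup.map_inf _ _ _ M.subtype_injective] at e
      exact (map_eq_bot_iff_of_injective _ M.subtype_injective).1 e)
    have h1 := chain_lift
      (q := Step p ((fun X : Subgroup G => X.subgroupOf M) '' functorFamily p f M) (S ⊓ T))
      (comap M.subtype) ?_ (h _ _ (hm S hS) (hm T hT) h0)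
    · rwa [comap_map_eq_self_of_injective M.subtype_injective,
        comap_map_eq_self_of_injective M.subtype_injective] at h1
    · rintro A B ⟨h1, h2, h3, P, h4, F, h5, h6, h7⟩
      have h8 : A.subgroupOf M ≤ (M ⊓ normalizer (F : Set G)).subgroupOf M :=
        comap_mono (le_inf h1.le h6)
      have h9 : B.subgroupOf M ≤ (M ⊓ normalizer (F : Set G)).subgroupOf M :=
        comap_mono (le_inf h2.le h7)
      exact step_of_le (hs A h1) (hs B h2) ⟨_, mem_functorFamily.2 ⟨P, h4, F, h5, rfl⟩, rfl⟩ h8 h9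
        fun x hx => h3 ⟨mem_map_of_mem _ hx.1, mem_map_of_mem _ hx.2⟩

omit [Finite G] [Fact p.Prime] in
theorem fchain_mono (h : ReflTransGen (FStep p f M D) A B) (hD : D' ≤ D) :
    ReflTransGen (FStep p f M D') A B :=
  chain_lift id (fun _ _ ⟨h1, h2, h3, h4⟩ => ⟨h1, h2, hD.trans h3, h4⟩) h

omit [Finite G] [Fact p.Prime] in
theorem fchain_conj (hf : IsNormalizerFunctor p f) (h : ReflTransGen (FStep p f ⊤ D) A B) (g : G) :
    ReflTransGen (FStep p f ⊤ (D ^ᶜ g)) (A ^ᶜ g) (B ^ᶜ g) := by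
  refine chain_lift (fun A => A ^ᶜ g) ?_ h
  rintro A B ⟨h1, h2, h3, P, h4, F, h5, h6, h7⟩
  refine ⟨h1.conj_top g, h2.conj_top g, conj_mono g h3, _, h4.conj_top g, F ^ᶜ g, ?_, ?_, ?_⟩
  · rw [(hf P h4.isPGroup).2 g]
    exact ⟨F, h5, rfl⟩
  · rw [← conj_normalizer]
    exact conj_mono g h6
  · rw [← conj_normalizer]
    exact conj_mono g h7

theorem fchain_top (hS : IsSylowIn p S ⊤) (hM : S ≤ M) (h : ReflTransGen (FStep p f M D) A B) :
    ReflTransGen (FStep p f ⊤ D) A B :=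
  chain_lift id (fun _ _ ⟨h1, h2, h3, P, h4, h5⟩ => ⟨h1.trans_of_le le_top hS hM,
    h2.trans_of_le le_top hS hM, h3, P, h4.trans_of_le le_top hS hM, h5⟩) h

end Cfsg.Agent.Lib.LocSylCtrl
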