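import Cfsg.Agent.Lib.LyBDF0

set_option autoImplicit false
set_option maxRecDepth 100000

namespace Cfsg.Agent.Lib.LyBD
open Cfsg.Agent.Lib.PermNet Cfsg.Agent.Lib.DCE

noncomputable def FF : FT := (.node (nat_lit 64) (.node (nat_lit 32) f0 f32) (.node (nat_lit 96) f64 f96))

def TM : List Tm := [⟨false, [], [(false, []), (true, [])]⟩,
  ⟨true, [], [(false, [9, 2, 5, 2, 0, 12, 14])]⟩,
  ⟨true, [1, 3, 7, 0, 5, 9, 10, 9], [(false, [9, 10, 0, 0, 2, 0, 2, 12, 14, 1, 3, 7, 0, 5, 9, 10, 9]), (true, [15, 13, 1, 3, 4, 3, 8, 1, 3, 7, 0, 5, 9, 10, 9])]⟩,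
  ⟨false, [1, 3, 7, 0, 5, 9, 10, 9], [(false, [9, 10, 0, 0, 2, 0, 2, 12, 14, 1, 3, 7, 0, 5, 9, 10, 9]), (true, [15, 13, 1, 3, 4, 3, 8, 1, 3, 7, 0, 5, 9, 10, 9]), (true, [15, 13, 1, 3, 4, 3, 8])]⟩,
  ⟨true, [1, 3, 7, 0, 5, 9, 10, 9], [(false, [1, 3, 7, 0, 5, 9, 10, 9]), (false, [9, 10, 0, 0, 2, 0, 2, 12, 14, 1, 3, 7, 0, 5, 9, 10, 9])]⟩,
  ⟨false, [9, 10, 0, 0, 2, 0, 2, 12, 14, 1, 3, 7, 0, 5, 9, 10, 9], [(false, [1, 3, 7, 0, 5, 9, 10, 9]), (false, [1, 3, 7, 0, 5, 9, 10, 9]), (false, [])]⟩,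
  ⟨true, [1, 3, 7, 0, 5, 9, 10, 9], [(false, [1, 3, 7, 0, 5, 9, 10, 9]), (true, [15, 13, 1, 3, 4, 3, 10, 0, 0, 2, 0, 2, 12, 14, 1, 3, 7, 0, 5, 9, 10, 9])]⟩]

def XW : List (List (List Nat)) := [[],
  [[]],
  [[], [2]],
  [[], [4, 2]],
  [[], [16, 4]]]

def BB : List Nat := [(nat_lit 66825), (nat_lit 66826), (nat_lit 66828), (nat_lit 66829), (nat_lit 66827), (nat_lit 0)]



end Cfsg.Agent.Lib.LyBD
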