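import Cfsg.Agent.Lib.DCETab
import Cfsg.Agent.Lib.LyBDR
import Cfsg.Agent.Lib.LyBDT
import Cfsg.Agent.Lib.LyBDF
import Cfsg.Agent.Lib.LyBDM

set_option autoImplicit false
set_option maxRecDepth 100000

namespace Cfsg.Agent.Lib.LyBD
open Cfsg.Agent.Lib.PermNet Cfsg.Agent.Lib.DCE

theorem tab0 : allR (tabB nets (nat_lit 82500) (nat_lit 17) (nat_lit 67100) (nat_lit 17) (nat_lit 17) (nat_lit 131071) tH) (nat_lit 0) (nat_lit 2) = true :=
  tab_of_tabD (by decide +kernel) (by decide +kernel)

theorem tab2 : allR (tabB nets (nat_lit 82500) (nat_lit 17) (nat_lit 67100) (nat_lit 17) (nat_lit 17) (nat_lit 131071) tH) (nat_lit 2) (nat_lit 2) = true :=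
  tab_of_tabD (by decide +kernel) (by decide +kernel)

theorem tab4 : allR (tabB nets (nat_lit 82500) (nat_lit 17) (nat_lit 67100) (nat_lit 17) (nat_lit 17) (nat_lit 131071) tH) (nat_lit 4) (nat_lit 2) = true :=
  tab_of_tabD (by decide +kernel) (by decide +kernel)

theorem tab6 : allR (tabB nets (nat_lit 82500) (nat_lit 17) (nat_lit 67100) (nat_lit 17) (nat_lit 17) (nat_lit 131071) tH) (nat_lit 6) (nat_lit 2) = true :=
  tab_of_tabD (by decide +kernel) (by decide +kernel)

theorem tab8 : allR (tabB nets (nat_lit 82500) (nat_lit 17) (nat_lit 67100) (nat_lit 17) (nat_lit 17) (nat_lit 131071) tH) (nat_lit 8) (nat_lit 2) = true :=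
  tab_of_tabD (by decide +kernel) (by decide +kernel)

theorem tab10 : allR (tabB nets (nat_lit 82500) (nat_lit 17) (nat_lit 67100) (nat_lit 17) (nat_lit 17) (nat_lit 131071) tH) (nat_lit 10) (nat_lit 2) = true :=
  tab_of_tabD (by decide +kernel) (by decide +kernel)

theorem tab12 : allR (tabB nets (nat_lit 82500) (nat_lit 17) (nat_lit 67100) (nat_lit 17) (nat_lit 17) (nat_lit 131071) tH) (nat_lit 12) (nat_lit 2) = true :=
  tab_of_tabD (by decide +kernel) (by decide +kernel)

theorem tab14 : allR (tabB nets (nat_lit 82500) (nat_lit 17) (nat_lit 67100) (nat_lit 17) (nat_lit 17) (nat_lit 131071) tH) (nat_lit 14) (nat_lit 2) = true :=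
  tab_of_tabD (by decide +kernel) (by decide +kernel)

theorem tab16 : allR (tabB nets (nat_lit 82500) (nat_lit 17) (nat_lit 67100) (nat_lit 17) (nat_lit 17) (nat_lit 131071) tH) (nat_lit 16) (nat_lit 2) = true :=
  tab_of_tabD (by decide +kernel) (by decide +kernel)

theorem tab18 : allR (tabB nets (nat_lit 82500) (nat_lit 17) (nat_lit 67100) (nat_lit 17) (nat_lit 17) (nat_lit 131071) tH) (nat_lit 18) (nat_lit 2) = true :=
  tab_of_tabD (by decide +kernel) (by decide +kernel)

end Cfsg.Agent.Lib.LyBD
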