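import Cfsg.Agent.Lib.DCETab
import Cfsg.Agent.Lib.LyBDR
import Cfsg.Agent.Lib.LyBDT
import Cfsg.Agent.Lib.LyBDF
import Cfsg.Agent.Lib.LyBDM

set_option autoImplicit false
set_option maxRecDepth 100000

namespace Cfsg.Agent.Lib.LyBD
open Cfsg.Agent.Lib.PermNet Cfsg.Agent.Lib.DCE

theorem tab20 : allR (tabB nets (nat_lit 82500) (nat_lit 17) (nat_lit 67100) (nat_lit 17) (nat_lit 17) (nat_lit 131071) tH) (nat_lit 20) (nat_lit 2) = true :=
  tab_of_tabD (by decide +kernel) (by decide +kernel)

theorem tab22 : allR (tabB nets (nat_lit 82500) (nat_lit 17) (nat_lit 67100) (nat_lit 17) (nat_lit 17) (nat_lit 131071) tH) (nat_lit 22) (nat_lit 2) = true :=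
  tab_of_tabD (by decide +kernel) (by decide +kernel)

theorem tab24 : allR (tabB nets (nat_lit 82500) (nat_lit 17) (nat_lit 67100) (nat_lit 17) (nat_lit 17) (nat_lit 131071) tH) (nat_lit 24) (nat_lit 2) = true :=
  tab_of_tabD (by decide +kernel) (by decide +kernel)

theorem tab26 : allR (tabB nets (nat_lit 82500) (nat_lit 17) (nat_lit 67100) (nat_lit 17) (nat_lit 17) (nat_lit 131071) tH) (nat_lit 26) (nat_lit 2) = true :=
  tab_of_tabD (by decide +kernel) (by decide +kernel)

theorem tab28 : allR (tabB nets (nat_lit 82500) (nat_lit 17) (nat_lit 67100) (nat_lit 17) (nat_lit 17) (nat_lit 131071) tH) (nat_lit 28) (nat_lit 2) = true :=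
  tab_of_tabD (by decide +kernel) (by decide +kernel)

theorem tab30 : allR (tabB nets (nat_lit 82500) (nat_lit 17) (nat_lit 67100) (nat_lit 17) (nat_lit 17) (nat_lit 131071) tH) (nat_lit 30) (nat_lit 2) = true :=
  tab_of_tabD (by decide +kernel) (by decide +kernel)

theorem tab32 : allR (tabB nets (nat_lit 82500) (nat_lit 17) (nat_lit 67100) (nat_lit 17) (nat_lit 17) (nat_lit 131071) tH) (nat_lit 32) (nat_lit 2) = true :=
  tab_of_tabD (by decide +kernel) (by decide +kernel)

theorem tab34 : allR (tabB nets (nat_lit 82500) (nat_lit 17) (nat_lit 67100) (nat_lit 17) (nat_lit 17) (nat_lit 131071) tH) (nat_lit 34) (nat_lit 2) = true :=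
  tab_of_tabD (by decide +kernel) (by decide +kernel)

theorem tab36 : allR (tabB nets (nat_lit 82500) (nat_lit 17) (nat_lit 67100) (nat_lit 17) (nat_lit 17) (nat_lit 131071) tH) (nat_lit 36) (nat_lit 2) = true :=
  tab_of_tabD (by decide +kernel) (by decide +kernel)

theorem tab38 : allR (tabB nets (nat_lit 82500) (nat_lit 17) (nat_lit 67100) (nat_lit 17) (nat_lit 17) (nat_lit 131071) tH) (nat_lit 38) (nat_lit 2) = true :=
  tab_of_tabD (by decide +kernel) (by decide +kernel)

end Cfsg.Agent.Lib.LyBD
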