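import Cfsg.Agent.Lib.DCETab
import Cfsg.Agent.Lib.LyBDR
import Cfsg.Agent.Lib.LyBDT
import Cfsg.Agent.Lib.LyBDF
import Cfsg.Agent.Lib.LyBDM

set_option autoImplicit false
set_option maxRecDepth 100000

namespace Cfsg.Agent.Lib.LyBD
open Cfsg.Agent.Lib.PermNet Cfsg.Agent.Lib.DCE

theorem tab40 : allR (tabB nets (nat_lit 82500) (nat_lit 17) (nat_lit 67100) (nat_lit 17) (nat_lit 17) (nat_lit 131071) tH) (nat_lit 40) (nat_lit 2) = true :=
  tab_of_tabD (by decide +kernel) (by decide +kernel)

theorem tab42 : allR (tabB nets (nat_lit 82500) (nat_lit 17) (nat_lit 67100) (nat_lit 17) (nat_lit 17) (nat_lit 131071) tH) (nat_lit 42) (nat_lit 2) = true :=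
  tab_of_tabD (by decide +kernel) (by decide +kernel)

theorem tab44 : allR (tabB nets (nat_lit 82500) (nat_lit 17) (nat_lit 67100) (nat_lit 17) (nat_lit 17) (nat_lit 131071) tH) (nat_lit 44) (nat_lit 2) = true :=
  tab_of_tabD (by decide +kernel) (by decide +kernel)

theorem tab46 : allR (tabB nets (nat_lit 82500) (nat_lit 17) (nat_lit 67100) (nat_lit 17) (nat_lit 17) (nat_lit 131071) tH) (nat_lit 46) (nat_lit 2) = true :=
  tab_of_tabD (by decide +kernel) (by decide +kernel)

theorem tab48 : allR (tabB nets (nat_lit 82500) (nat_lit 17) (nat_lit 67100) (nat_lit 17) (nat_lit 17) (nat_lit 131071) tH) (nat_lit 48) (nat_lit 2) = true :=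
  tab_of_tabD (by decide +kernel) (by decide +kernel)

theorem tab50 : allR (tabB nets (nat_lit 82500) (nat_lit 17) (nat_lit 67100) (nat_lit 17) (nat_lit 17) (nat_lit 131071) tH) (nat_lit 50) (nat_lit 2) = true :=
  tab_of_tabD (by decide +kernel) (by decide +kernel)

theorem tab52 : allR (tabB nets (nat_lit 82500) (nat_lit 17) (nat_lit 67100) (nat_lit 17) (nat_lit 17) (nat_lit 131071) tH) (nat_lit 52) (nat_lit 2) = true :=
  tab_of_tabD (by decide +kernel) (by decide +kernel)

theorem tab54 : allR (tabB nets (nat_lit 82500) (nat_lit 17) (nat_lit 67100) (nat_lit 17) (nat_lit 17) (nat_lit 131071) tH) (nat_lit 54) (nat_lit 2) = true :=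
  tab_of_tabD (by decide +kernel) (by decide +kernel)

theorem tab56 : allR (tabB nets (nat_lit 82500) (nat_lit 17) (nat_lit 67100) (nat_lit 17) (nat_lit 17) (nat_lit 131071) tH) (nat_lit 56) (nat_lit 2) = true :=
  tab_of_tabD (by decide +kernel) (by decide +kernel)

theorem tab58 : allR (tabB nets (nat_lit 82500) (nat_lit 17) (nat_lit 67100) (nat_lit 17) (nat_lit 17) (nat_lit 131071) tH) (nat_lit 58) (nat_lit 2) = true :=
  tab_of_tabD (by decide +kernel) (by decide +kernel)

end Cfsg.Agent.Lib.LyBD
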