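import Cfsg.Agent.Lib.LyDR
import Cfsg.Agent.Lib.LyDT
import Cfsg.Agent.Lib.LyDF
import Cfsg.Agent.Lib.LyDM

set_option autoImplicit false
set_option maxRecDepth 100000

namespace Cfsg.Agent.Lib.LyD
open Cfsg.Agent.Lib.PermNet Cfsg.Agent.Lib.DCE

theorem tab32 : allR (tabB nets (nat_lit 23436) (nat_lit 15) (nat_lit 3906) (nat_lit 12) (nat_lit 12) (nat_lit 4095) tH) (nat_lit 32) (nat_lit 16) = true := by decide +kernel

end Cfsg.Agent.Lib.LyD
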