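import Cfsg.Agent.Lib.LyKM
import Cfsg.Agent.Lib.BT7

/-! Generators of an involution centraliser `2.A₁₁`. -/

set_option autoImplicit false

namespace Cfsg.Agent.Lib.LyDefs

open Subgroup Cfsg.Agent.Lib.PermNet Cfsg.Agent.Lib.Words Cfsg.Agent.Lib.PermGroup Cfsg.Agent.Lib.DCE

/-- An involution over `(0 6) (1 4) (2 3) (5 7)`. -/
def yw : List ℕ := [0, 3, 0, 9, 6, 11, 6, 4]

/-- Generators of the centraliser: lifts of order three of `(0 1 i+2)` for `i < 6`, of `(8 9 10)`
and of `(0 1 8)`. -/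
structure SB {G : Type*} [Group G] (z : G) (f : ℕ → G) : Prop where
  top : gp f (sing 8) = centralizer {z}
  rel : ∀ w ∈ LyK.K1, wval f w = 1
  zw : wval f [0, 2, 0, 2] = z
  card : Nat.card (centralizer ({z} : Set G)) = 39916800
  cls : ∀ v ∈ centralizer ({z} : Set G), v * v = 1 →
    v = 1 ∨ v = z ∨ ∃ k ∈ centralizer ({z} : Set G), v = k * wval f yw * k⁻¹
  cx : ∀ g ∈ centralizer ({z} : Set G), g * f 6 = f 6 * g → g ∈ gp f (sing 7)
  cls2 : ∀ v ∈ centralizer ({z} : Set G), v * v = 1 → v * f 6 = f 6 * v →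
    v = 1 ∨ v = z ∨ ∃ k ∈ gp f (sing 6), v = k * wval f yw * k⁻¹

/-- The ten letters of the 3-local presentation. -/
def EL {G : Type*} [Group G] (f : ℕ → G) (t : G) (i : ℕ) : G :=
  if i < 7 then f i else if i = 7 then wval f LyKM.sw else if i = 8 then t else wval f LyKM.hw

end Cfsg.Agent.Lib.LyDefs
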