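import Cfsg.Agent.Lib.LyGR

set_option autoImplicit false
set_option maxRecDepth 100000

namespace Cfsg.Agent.Lib.LyG
open Cfsg.Agent.Lib.PermNet

theorem tr_0 : subB (ones 3906) (grow nets allg [3, 8, 4, 0, 3, 2, 8, 6, 0, 5, 3, 4, 2, 8, 1, 7, 0] (pt 0)) = true := by decide +kernel

theorem fix0 : fixB nets hs (pt 0) = true := by decide +kernel

theorem o0_0 : subB (ivl 1 30) (grow nets hs [0, 1, 2, 0, 1, 0, 2, 0, 4] (pt 1)) = true := by decide +kernel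

theorem o1_0 : subB (ivl 31 750) (grow nets hs [0, 1, 2, 3, 6, 0, 1, 4, 0, 1, 2, 0, 1, 0] (pt 31)) = true := by decide +kernel

theorem o2_0 : subB (ivl 781 3125) (grow nets hs [2, 3, 4, 5, 6, 0, 2, 5, 0, 1, 4, 3, 0, 5, 1, 0] (pt 781)) = true := by decide +kernel

theorem ch_0 : levelB nets [[0], [2], [4], [6], [8], [10], [12], [14], [16]] [] 0 [3, 8, 4, 0, 3, 2, 8, 6, 0, 5, 3, 4, 2, 8, 1, 7, 0] 0 3906 3906 = true := by decide +kernel

theorem ch_1 : levelB nets [[0], [2], [4], [8], [10], [12], [14]] [0] 781 [2, 3, 4, 5, 6, 0, 2, 5, 0, 1, 4, 3, 0, 5, 1, 0] 781 3125 3125 = true := by decide +kernel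

theorem ch_2 : levelB nets [[0], [2]] [781, 0] 34 [0, 1, 0, 1, 0, 1, 0, 1, 0, 1, 0, 1, 0, 1, 0, 1, 1] 34 747 480 = true := by decide +kernel

theorem rels0_0 : RelsOn nets 3906 12 rels0 0 9 :=
  relsOn_of_B _ _ _ _ _ 9 _ (by decide +kernel) (by decide +kernel)

theorem rels0_9 : RelsOn nets 3906 12 rels0 9 12 :=
  relsOn_of_B _ _ _ _ _ 3 _ (by decide +kernel) (by decide +kernel)

end Cfsg.Agent.Lib.LyG
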