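import Cfsg.Agent.Lib.DCE4
import Cfsg.Agent.Lib.LyTC
import Cfsg.Agent.Lib.LyGC0

/-! A simple permutation group on 3906 points that satisfies the first relators of the Lyons group. -/

set_option autoImplicit false
set_option maxRecDepth 100000

namespace Cfsg.Agent.Lib.LyG

open Cfsg.Agent.Lib.PermNet Cfsg.Agent.Lib.Words Cfsg.Agent.Lib.PermGroup Cfsg.Agent.Lib.DCE

theorem hrels : ∀ w ∈ relW rels, wval nets.perm w = 1 :=
  relW_one (wval_eq_of_relsOn (K := 12) hv (by norm_num) (rels0_0.trans rels0_9))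

theorem hK : ∀ w ∈ LyTC.K1, wval nets.perm w = 1 := derive [] hrels _ (by decide +kernel)

theorem hdefs : ∀ w ∈ defRels 9 defs, wval nets.perm w = 1 := derive [] hrels _ (by decide +kernel)

theorem orb0 : InOrb (gp nets.perm hs) 1 (ivl 1 30) := (InOrb.step hv (fun _ h => mem_gp h) [0, 1, 2, 0, 1, 0, 2, 0, 4] (inOrb_pt _ 1) o0_0)

theorem orb1 : InOrb (gp nets.perm hs) 31 (ivl 31 750) := (InOrb.step hv (fun _ h => mem_gp h) [0, 1, 2, 3, 6, 0, 1, 4, 0, 1, 2, 0, 1, 0] (inOrb_pt _ 31) o1_0)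

theorem orb2 : InOrb (gp nets.perm hs) 781 (ivl 781 3125) := (InOrb.step hv (fun _ h => mem_gp h) [2, 3, 4, 5, 6, 0, 2, 5, 0, 1, 4, 3, 0, 5, 1, 0] (inOrb_pt _ 781) o2_0)

section
variable {G : Type*} [Group G] (f : ℕ → G)

theorem hphi : ∀ i, pi' f nets 9 (ZZ f nets 9 defs i) = nets.perm i :=
  pi_ZZ f nets 9 defs hdefs (by decide +kernel)

theorem card_range [Finite (WW f nets 9)] : 5859000000 ≤ Nat.card (pi' f nets 9).range := by
  have : Finite (pi' f nets 9).range := Finite.of_surjective _ (pi' f nets 9).rangeRestrict_surjective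
  rw [← fixer_nil (pi' f nets 9).range]
  exact (le_card_fixer hv [[0], [2], [4], [6], [8], [10], [12], [14], [16]] (wval_mem_range (hphi f) _) [] 0 [3, 8, 4, 0, 3, 2, 8, 6, 0, 5, 3, 4, 2, 8, 1, 7, 0] 0 3906 3906 ch_0
    (le_card_fixer hv [[0], [2], [4], [8], [10], [12], [14]] (wval_mem_range (hphi f) _) [0] 781 [2, 3, 4, 5, 6, 0, 2, 5, 0, 1, 4, 3, 0, 5, 1, 0] 781 3125 3125 ch_1
    (le_card_fixer hv [[0], [2]] (wval_mem_range (hphi f) _) [781, 0] 34 [0, 1, 0, 1, 0, 1, 0, 1, 0, 1, 0, 1, 0, 1, 0, 1, 1] 34 747 480 ch_2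
    (one_le_card_fixer _))))

theorem htr : InOrb (pi' f nets 9).range 0 (ones 3906) := (InOrb.step hv (wval_mem_range (hphi f) _) [3, 8, 4, 0, 3, 2, 8, 6, 0, 5, 3, 4, 2, 8, 1, 7, 0] (inOrb_pt _ 0) tr_0)

theorem main (hf : ∀ w ∈ LyTC.K1, wval f w = 1) : IsSimpleGroup (WW f nets 9) ∧
    (∀ g, pi' f nets 9 g = 1 → g = 1) ∧ Nat.card (WW f nets 9) = 5859000000 := by
  have hub := LyTC.card_le _ (rels_pair hf hK)
  have : Finite (WW f nets 9) := Nat.finite_of_card_ne_zero hub.1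
  have hKY := rels_ZZ f nets 9 defs hf hK (by decide +kernel)
  have topY := top_ZZ f nets 9 defs
  have hfa := faithful_of_card (pi' f nets 9) (L := ⊤) (T := 5859000000)
    (by rw [Subgroup.card_top]; exact hub) (by rw [← MonoidHom.range_eq_map]; exact card_range f)
  rw [Subgroup.card_top] at hfa
  have hone : ∀ g, pi' f nets 9 g = 1 → g = 1 := fun g => hfa.2 g trivial
  have hi := index_gp_eq hv (hphi f) (hs := hs) (by
    have := LyTC.b1 _ hKY
    rwa [show gp (ZZ f nets 9 defs) [[0], [2], [4], [6], [8], [10], [12], [14], [16]] = ⊤ from topY,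
      Subgroup.relIndex_top_right] at this) fix0 (htr f)
  have top2 : gp (ZZ f nets 9 defs) ([6] :: hs) = ⊤ := by
    rw [eq_top_iff, ← topY]
    refine gp_le.2 fun w hw => ?_
    by_cases h : w = [16]
    · rw [h]; exact mem_gp_of_point hv (hphi f) hi.2 [6] [0, 10, 2, 0, 10, 0] [16] 1 (by decide +kernel)
    refine mem_gp ?_
    revert w; decide
  have coatom := isCoatom_of_cover hv (hphi f) hi.2 [6] top2 781 (by norm_num) (by decide +kernel)
    [(30, [16], [0, 5, 8, 3, 0, 2, 0]), (750, [16, 6], [8, 0, 0, 0, 0]), (3125, [6], [0])]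
    (by decide +kernel) ⟨orb0, orb1, orb2, trivial⟩
  have hc : Nat.card (gp (ZZ f nets 9 defs) hs) = 1500000 := by
    have := (gp (ZZ f nets 9 defs) hs).index_mul_card
    rw [hi.1, hfa.1] at this
    omega
  refine ⟨isSimpleGroup_of coatom (fun M hM h => ?_) (p := 7) (by norm_num)
    (by rw [hc]; norm_num) (fun M hM h => ?_), hone, hfa.1⟩
  · exact eq_bot_iff.2 fun g hg => hone g (core_of_faithful hv (hphi f) topY hi.2 (htr f) hM h hg)
  · rw [eq_top_iff, ← topY]
    exact le_of_steps LyTC.I1 (all_append hKY (rels_of_faithful (L := ⊤) (hphi f) (fun g _ => hone g)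
      (fun _ _ => trivial) hrels)) 7 [[5, 11, 3, 6]] _
      [([5, 11, 3, 6], [16], 3, 2), ([16], [6], 21, 4), ([16], [0], 31, 8), ([0], [2], 4, 5), ([0], [4], 8, 5), ([0], [8], 8, 5), ([0], [10], 8, 5), ([0], [12], 8, 5), ([0], [14], 8, 5)]
      (by decide +kernel) M hM h

theorem equiv (hf : ∀ w ∈ LyTC.K1, wval f w = 1) {i : ℕ} (hi : i < 9) (hne : f i ≠ 1) :
    Nonempty (gp f (sing 9) ≃* gp nets.perm (sing 9)) :=
  equiv_of_simple f nets 9 (main f hf).1 (main f hf).2.1 hi hne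

end

end Cfsg.Agent.Lib.LyG
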