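import Cfsg.Agent.Lib.LyA
import Cfsg.Agent.Lib.LyG
import Cfsg.Agent.Lib.G25

/-! The subgroup generated by a, b, c, d of the presented Lyons group is `G₂(5)`. -/

set_option autoImplicit false
set_option maxRecDepth 100000

namespace Cfsg.Agent.Lib.LyG2

open Cfsg.Agent.Lib.PermNet Cfsg.Agent.Lib.Words Cfsg.Agent.Lib.PermGroup Cfsg.Agent.Lib.DCE

open LyA (hw ws)

noncomputable def g (i : ℕ) := wval G25.f (hw.getD i [])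

theorem hD : ∀ w ∈ defRels 0 (ws.map (subst hw)), wval G25.f w = 1 :=
  deriveP [] G25.rels _ [[],
  [],
  [],
  [],
  [],
  [],
  [([1], 89)],
  [([2, 1, 3], 91)],
  [([2, 2, 1, 3, 3], 93)],
  [([3, 3, 1, 2, 2], 95)],
  [([5], 11)],
  [],
  [],
  [],
  [],
  [([1, 1], 97)],
  [([7], 99)],
  [([6], 101)],
  [([3, 5, 0, 3, 3, 4, 7, 4, 0, 5, 1, 4, 3, 3, 0, 2, 0, 3, 3], 103)],
  [([5, 3, 5, 7, 2, 2, 5, 7, 2, 5, 3, 5, 1, 4, 3, 3, 0, 3, 3, 0, 3, 1], 105)],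
  [([6, 4, 3, 0, 4, 0, 6, 4], 107)],
  [([7, 3], 109)],
  [([2, 6], 111)],
  [([1, 3, 4, 1, 2, 4, 3, 0, 2, 0], 113)],
  [([3, 5, 3, 0, 5, 1, 2, 2], 115)],
  [([1, 3, 1, 5, 0, 2, 0], 117)],
  [([3, 1, 2, 5, 3, 0, 2], 119)],
  [([4, 2, 2, 5, 1, 3, 5, 2, 0, 3, 3], 121)],
  [([0, 0, 0], 123)],
  [([0, 0, 2, 0, 3], 125)],
  [([0, 2, 2, 1, 3, 3, 1], 127)],
  [([2, 1, 3, 1, 2, 1, 4, 0, 2, 4, 3, 6, 4, 3, 0, 4, 2, 7, 0], 129)],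
  [([6, 2, 5, 0, 5, 1, 5, 7, 4, 4, 0, 3, 4, 3, 5, 0, 2, 2, 1], 131)],
  [([5, 3, 5, 7, 2, 2, 5, 7, 3, 5, 3, 3, 5, 2, 0, 2, 2, 0, 2, 1, 3], 133)],
  [([2, 0, 3, 1, 3, 3, 1, 3, 4, 2, 2, 4, 2, 6, 4, 3, 3, 6, 4, 2, 4], 135)],
  [([2, 2, 0, 2, 4, 2, 2, 5, 1, 4, 0, 6, 4, 1, 2, 4, 1, 6, 4, 0], 137)],
  [([2, 1, 2, 2, 1, 2, 4, 2, 0, 3, 6, 4, 2, 0, 3, 6, 4, 0], 139)],
  [([0, 3, 0, 2, 2, 0, 5, 0, 2, 1, 6, 4, 0, 5, 3, 5, 1, 6], 141)],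
  [([3, 0, 2, 0, 2, 5, 1, 5, 0, 5, 6, 4, 3, 5, 0, 4], 143)]] (by decide +kernel)

theorem hK2 : ∀ w ∈ (G25.K ++ defRels 0 (ws.map (subst hw))).map (subst (ws.map (subst hw))),
    wval G25.f w = 1 := rels_subst [] _ (all_append G25.rels hD) (by decide +kernel)

theorem hK1 : ∀ w ∈ LyTC.K1, wval g w = 1 :=
  rels_of_subst hw _ (deriveP [] hK2 _ [[([], 0)],
  [([], 2)],
  [([], 4)],
  [([], 6)],
  [([], 8)],
  [([], 12)],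
  [([], 14)],
  [([], 16)],
  [([], 18)],
  [([], 20)],
  [([], 22)],
  [([], 24)],
  [([], 26)],
  [([], 28)],
  [([], 30)],
  [([], 32)],
  [([], 34)],
  [([], 36)],
  [([], 38)],
  [([], 40)],
  [([], 42)],
  [([], 44)],
  [([], 46)],
  [([], 48)],
  [([], 50)],
  [([], 52)],
  [([], 54)],
  [([], 56)],
  [([], 58)],
  [([], 60)],
  [([], 62)],
  [([], 64)],
  [([], 66)],
  [([], 68)],
  [([], 70)],
  [([], 72)],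
  [([], 74)],
  [([], 76)],
  [([], 78)],
  [([], 80)],
  [([], 82)],
  [([], 84)],
  [([], 86)]] (by decide +kernel))

theorem gp_eq : gp g (sing 9) = gp G25.f [[0], [2], [4], [6]] := by
  rw [show g = fun i => wval G25.f (hw.getD i []) from rfl, gp_subst]
  exact le_antisymm (gp_le.2 (mem_of_slp (deriveP [] hK2 [[23, 1, 4, 0], [25, 3, 4, 2], [27, 2, 4, 3], [29, 5, 23, 4, 22], [11, 3, 3, 1, 5, 0, 4, 1, 4, 0, 6, 4, 2, 0, 3, 6, 4, 6]]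
    [[([1, 5, 0], 13)],
  [([3, 5, 2], 15)],
  [([2, 5, 3], 17)],
  [([23, 5, 22, 4], 19)],
  [([7, 5, 7, 2, 1, 3, 5, 7, 1, 5, 0, 5, 1, 4, 0, 2, 2], 57)]] (by decide +kernel)) _
    [(11, [1, 4, 0]), (12, [3, 4, 2]), (13, [2, 4, 3]), (14, [5, 9, 4, 8]), (5, [3, 3, 1, 5, 0, 4, 1, 4, 0, 6, 4, 2, 0, 3, 6, 4, 6])] _ le_rfl (by decide +kernel)))
    (gp_mono (by decide +kernel))

theorem g_ne : g 1 ≠ 1 := fun h => G25.f_one_ne ((wval_single G25.f 1).symm.trans h)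

theorem f_ne : ∃ i < 9, LyA.f i ≠ 1 := by
  by_contra h
  push Not at h
  have : gp LyA.f (sing 9) = ⊥ := eq_bot_iff.2 (gp_le.2 fun w hw => by
    obtain ⟨i, hi, rfl⟩ := List.mem_map.1 hw
    rw [wval_single, h i (List.mem_range.1 hi)]; exact one_mem _)
  have h2 := LyA.main.2.1
  rw [this, Subgroup.card_bot] at h2
  omega

theorem equiv : Nonempty (gp LyBase.y [[0], [2], [4], [6]] ≃* Cfsg.Lie.chevG2.group (ZMod 5)) := by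
  obtain ⟨i, hi, h⟩ := f_ne
  obtain ⟨a⟩ := LyG.equiv _ LyA.hK1 hi h
  obtain ⟨b⟩ := LyG.equiv _ hK1 (by norm_num) g_ne
  rw [← LyA.gp_eq, ← G25.gp_eq, ← gp_eq]
  exact ⟨a.trans b.symm⟩

end Cfsg.Agent.Lib.LyG2
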