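import Cfsg.Agent.Lib.LyDefs
import Cfsg.Agent.Lib.AnCov
import Cfsg.Agent.Lib.ThreeCyc
import Cfsg.Agent.Lib.ZStar

/-! Generators of an involution centraliser `2.A₁₁`. -/

set_option autoImplicit false
set_option maxRecDepth 100000

namespace Cfsg.Agent.Lib.LyH

open Subgroup Equiv Equiv.Perm Cfsg.Agent.Lib.PermNet Cfsg.Agent.Lib.Words Cfsg.Agent.Lib.PermGroup
  Cfsg.Agent.Lib.DCE Cfsg.Agent.Lib.AltPres Cfsg.Agent.Lib.ThreeCyc Cfsg.Agent.Lib.AnCov Cfsg.Agent.Lib.LyDefs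

section Perm

variable {α : Type*} [Fintype α] [DecidableEq α] {s r : Perm α}

theorem cyc2 (hs : s * s = 1) :
    s.cycleType = Multiset.replicate s.cycleType.card 2 ∧ s.support.card = 2 * s.cycleType.card := by
  have h := cycleType_of_pow_prime_eq_one (p := 2) (σ := s) (by rw [sq, hs])
  refine ⟨h, ?_⟩
  rw [← sum_cycleType]
  conv_lhs => rw [h]
  simp [mul_comm]

theorem conj1 (hs : s * s = 1) (hr : r * r = 1) (h : s.support.card = r.support.card) (h0 : s ≠ 1) :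
    ∃ t ∈ alternatingGroup α, t * s * t⁻¹ = r := by
  obtain ⟨t, ht⟩ := isConj_iff.1 (isConj_iff_cycleType_eq.2 (show s.cycleType = r.cycleType by
    rw [(cyc2 hs).1, (cyc2 hr).1, show s.cycleType.card = r.cycleType.card by
      have := (cyc2 hs).2; have := (cyc2 hr).2; omega]))
  rcases Int.units_eq_one_or (sign t) with h1 | h1
  · exact ⟨t, mem_alternatingGroup.2 h1, ht⟩
  obtain ⟨p, hp⟩ := not_forall.1 fun h => h0 (Equiv.ext h)
  refine ⟨t * swap p (s p), mem_alternatingGroup.2 (by rw [map_mul, h1, sign_swap (show p ≠ s p from fun e => hp e.symm)]; rfl), ?_⟩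
  rw [← ht, mul_assoc t, ← swap_comm_self hs]
  group

theorem conjOn {Ω : Finset α} (h1 : s.support ⊆ Ω) (h2 : r.support ⊆ Ω) (hs : s * s = 1) (hr : r * r = 1)
    (h : s.support.card = r.support.card) (h0 : s ≠ 1) : ∃ t ∈ altOn Ω, t * s * t⁻¹ = r := by
  obtain ⟨s, rfl⟩ := (Perm.mem_range_ofSubtype_iff (p := (· ∈ Ω))).2 (show (s.support : Set α) ⊆ _ from h1)
  obtain ⟨r, rfl⟩ := (Perm.mem_range_ofSubtype_iff (p := (· ∈ Ω))).2 (show (r.support : Set α) ⊆ _ from h2)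
  obtain ⟨t, ht, e⟩ := conj1 (s := s) (r := r) (ofSubtype_injective (by rw [map_mul, hs, map_one]))
    (ofSubtype_injective (by rw [map_mul, hr, map_one])) (by
      rw [support_ofSubtype, support_ofSubtype, Finset.card_map, Finset.card_map] at h; convert h)
    fun e => h0 (by rw [e, map_one])
  exact ⟨_, ⟨t, ht, rfl⟩, by rw [← e, map_mul, map_mul, map_inv]⟩

end Perm

def P (i : ℕ) : Perm (Fin 11) :=
  ([cyc 0 1 2, cyc 0 1 3, cyc 0 1 4, cyc 0 1 5, cyc 0 1 6, cyc 0 1 7, cyc 8 9 10, cyc 0 1 8].getD i 1)⁻¹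

def Ω : Finset (Fin 11) := {0, 1, 2, 3, 4, 5, 6, 7}

theorem alt_le {Ω : Finset (Fin 11)} {n : ℕ} (ws : List (List ℕ)) (h : 0 ∈ Ω ∧ 1 ∈ Ω ∧ ∀ c ∈ Ω, c ≠ 0 → c ≠ 1 →
    ∃ w ∈ ws, (∀ l ∈ w, l / 2 < n) ∧ cyc 0 1 c = wval P w) : altOn Ω ≤ gp P (sing n) :=
  altOn_le h.1 h.2.1 (by decide) fun c h1 h2 h3 => by
    obtain ⟨w, -, h4, e⟩ := h.2.2 c h1 h2 h3
    exact e ▸ wval_mem fun l hl => mem_sing P (h4 l hl)

theorem alt6 : altOn Ω ≤ gp P (sing 6) := alt_le [[1], [3], [5], [7], [9], [11]] (by decide +kernel)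

theorem alt8 : altOn Finset.univ ≤ gp P (sing 8) :=
  alt_le [[1], [3], [5], [7], [9], [11], [15], [12, 15, 13], [13, 15, 12]] (by decide +kernel)

theorem supp {ρ : Perm (Fin 11)} (h : ρ * P 6 = P 6 * ρ) (h8 : ρ 8 = 8) : ρ.support ⊆ Ω := fun p hp => by
  have e : ∀ q, ρ (P 6 q) = P 6 (ρ q) := fun q => congrArg (fun x : Perm (Fin 11) => x q) h
  have h9 : ρ 9 = 9 := (e 8).trans (congrArg _ h8)
  have h10 : ρ 10 = 10 := (e 9).trans (congrArg _ h9)
  rcases (by decide : ∀ p : Fin 11, p ∈ Ω ∨ p = 8 ∨ p = 9 ∨ p = 10) p with h | rfl | rfl | rfl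
  exacts [h, absurd h8 (mem_support.1 hp), absurd h9 (mem_support.1 hp), absurd h10 (mem_support.1 hp)]

theorem at8 {ρ : Perm (Fin 11)} (h : ρ * P 6 = P 6 * ρ) : ρ 8 = 8 ∨ ρ 8 = 9 ∨ ρ 8 = 10 :=
  (by decide : ∀ p : Fin 11, P 6 p ≠ p → p = 8 ∨ p = 9 ∨ p = 10) _ fun e => absurd (ρ.injective
    ((congrArg (fun x : Perm (Fin 11) => x 8) h).trans e)) (by decide)

def RB : List (List ℕ × ℕ × ℕ) := [([0, 3], 0, 3), ([0, 5], 0, 5), ([0, 3, 0], 4, 5), ([0, 7], 0, 7), ([4, 7], 4, 7),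
  ([0, 3, 0], 6, 7), ([0, 9], 0, 9), ([4, 9], 4, 9), ([6, 9], 6, 9), ([0, 3, 0], 8, 9), ([0, 11], 0, 11),
  ([4, 11], 4, 11), ([6, 11], 6, 11), ([8, 11], 8, 11), ([0, 3, 0], 10, 11), ([0], 12, 12), ([2], 12, 12),
  ([4], 12, 12), ([6], 12, 12), ([8], 12, 12), ([10], 12, 12), ([0, 15], 0, 15), ([4, 15], 4, 15), ([6, 15], 6, 15),
  ([8, 15], 8, 15), ([10, 15], 10, 15), ([0, 3, 0], 14, 15), ([13, 14, 12, 15, 13], 14, 15),
  ([14, 12, 14, 12], 14, 12)]

variable {G : Type*} [Group G] {z : G} {f : ℕ → G}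

theorem exists_gens [Finite G] (hz : orderOf z = 2)
    (hC : IsNonsplitDoubleCover (centralizer {z}) (alternatingGroup (Fin 11))) : ∃ f, SB z f := by
  obtain ⟨L, C⟩ := of_cover hz (by simp) hC
  have h1 : ∀ i, ∃ g, L g (P i) ∧ g ^ 3 = 1 := fun i => by
    by_cases hi : i < 8
    · have := (by decide +kernel : ∀ i < 8, sign (P i) = 1 ∧ P i ^ 3 = 1) i hi
      exact C.toPre.exists_odd (by decide) this.1 this.2
    · rw [P, List.getD_eq_default _ _ (by simpa using hi), inv_one]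
      exact ⟨1, C.toPre.one, one_pow _⟩
  choose f hf f3 using h1
  have hl : ∀ l, L (lval f l) (lval P l) := fun l => by
    unfold lval
    split_ifs
    exacts [hf _, C.toPre.linv (hf _)]
  have hw : ∀ w, L (wval f w) (wval P w) := fun w => by
    induction w with
    | nil => exact C.toPre.one
    | cons l w ih => exact C.mul (hl l) ih
  have l3 : ∀ l, wval f [l] ^ 3 = 1 := fun l => by
    rw [wval_cons, wval_nil, mul_one, lval]
    split_ifs
    · exact f3 _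
    · rw [inv_pow, f3, inv_one]
  have zw : wval f [0, 2, 0, 2] = z := (wval_append f [0, 2] [0, 2]).trans
    (C.sq (a := 0) (b := 2) (c := 1) (d := 3) (by decide)
      ((by decide +kernel : wval P [0, 2] = swap 0 2 * swap 1 3) ▸ hw _))
  have up : ∀ n, 2 ≤ n → ∀ {g σ}, L g σ → σ ∈ gp P (sing n) → g ∈ gp f (sing n) := fun n hn g σ hg hσ => by
    let S : Subgroup (Perm (Fin 11)) :=
      { carrier := {σ | ∃ h ∈ gp f (sing n), L h σ}
        one_mem' := ⟨1, one_mem _, C.toPre.one⟩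
        mul_mem' := fun ⟨_, a, a'⟩ ⟨_, b, b'⟩ => ⟨_, mul_mem a b, C.mul a' b'⟩
        inv_mem' := fun ⟨_, a, a'⟩ => ⟨_, inv_mem a, C.toPre.linv a'⟩ }
    obtain ⟨h, h1, h2⟩ : ∃ h ∈ gp f (sing n), L h σ := (gp_le (K := S)).2 (fun w h =>
      show ∃ h ∈ gp f (sing n), L h (wval P w) from ⟨_, gp_le.1 le_rfl w h, hw w⟩) hσ
    rcases C.toPre.eq_or hg h2 with rfl | rfl
    · exact h1
    · exact mul_mem (zw ▸ wval_mem fun l hl => mem_sing f (by
        have := (by decide : ∀ l ∈ [0, 2, 0, 2], l / 2 < 2) l hl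
        omega)) h1
  have top : gp f (sing 8) = centralizer {z} := le_antisymm
    (gp_le.2 fun w _ => mem_centralizer_singleton_iff.2 (C.mem (hw w))) fun g hg => by
      obtain ⟨σ, h⟩ := C.tot (mem_centralizer_singleton_iff.1 hg)
      exact up 8 (by decide) h (alt8 (mem_altOn.2 ⟨Finset.subset_univ _, C.even h⟩))
  have cls : ∀ (Θ : Finset (Fin 11)) (n : ℕ), 6 ≤ n → Ω ⊆ Θ → altOn Θ ≤ gp P (sing n) → ∀ {v σ}, L v σ → v * v = 1 →
      σ.support ⊆ Θ → v = 1 ∨ v = z ∨ ∃ k ∈ gp f (sing n), v = k * wval f yw * k⁻¹ := fun Θ n hn h1 h2 v σ hv vv hs => by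
    by_cases h0 : σ = 1
    · exact (C.ker (h0 ▸ hv)).imp_right Or.inl
    have s2 := C.sq_one hv vv
    obtain ⟨a, b, c, d, hn⟩ := C.four hv vv h0
    have c1 := Finset.card_le_card (show [a, σ a, b, σ b, c, σ c, d, σ d].toFinset ⊆ σ.support from fun x hx =>
      mem_support.2 (moved s2 hn x (List.mem_toFinset.1 hx)))
    rw [List.toFinset_card_of_nodup hn] at c1
    have c2 := C.even hv
    rw [sign_of_cycleType, sum_cycleType, (cyc2 s2).2, neg_one_pow_eq_one_iff_even (by decide), Nat.even_iff] at c2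
    have c3 : σ.support.card ≤ 11 := by simpa using Finset.card_le_univ σ.support
    have c4 := (cyc2 s2).2
    have y1 : (wval P yw).support = Ω ∧ wval P yw * wval P yw = 1 ∧ wval P yw ≠ 1 := by decide +kernel
    obtain ⟨t, ht, e⟩ := conjOn (y1.1 ▸ h1) hs y1.2.1 s2 (by
      rw [y1.1, show Ω.card = 8 from rfl]; simp only [List.length_cons, List.length_nil] at c1; omega) y1.2.2
    obtain ⟨k, hk⟩ := C.surj (mem_altOn.1 ht).2
    have k1 := up n (by omega) hk (h2 ht)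
    rcases C.toPre.eq_or hv (e ▸ C.toPre.conj hk (hw yw)) with e | e
    · exact .inr (.inr ⟨k, k1, e⟩)
    have s1 : swap (0 : Fin 11) 1 * swap (wval P yw 0) (wval P yw 1) ∈ altOn Ω := mem_altOn.2 (by decide +kernel)
    obtain ⟨b, hb⟩ := C.surj (mem_altOn.1 s1).2
    have b1 := up n (by omega) hb (h2 (mem_altOn.2 ⟨(mem_altOn.1 s1).1.trans h1, (mem_altOn.1 s1).2⟩))
    have b2 := (C.swapV (hw yw) y1.2.1 (by decide +kernel)).2 b hb
    refine .inr (.inr ⟨k * b, mul_mem k1 b1, e.trans ?_⟩)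
    calc _ = k * (z * wval f yw) * k⁻¹ := by rw [← mul_assoc k, C.mem hk]; group
      _ = _ := by rw [← b2]; group
  refine ⟨f, top, fun w h => ?_, zw, ?_, fun v hv vv => ?_, fun g hg e => ?_, fun v hv vv e => ?_⟩
  · rcases (by decide +kernel : ∀ w ∈ LyK.K1, (∃ i < 8, w = [2 * i, 2 * i, 2 * i]) ∨ ∃ r ∈ RB,
      w = (r.1 ++ [r.2.1] ++ invW r.1) ++ invW [r.2.2] ∧
        wval P r.1 * wval P [r.2.1] * (wval P r.1)⁻¹ = wval P [r.2.2]) w h with ⟨i, -, rfl⟩ | ⟨r, -, rfl, e⟩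
    · simpa [wval, lval, pow_succ, mul_assoc] using f3 i
    · rw [wval_append, wval_append, wval_append, wval_invW, wval_invW, mul_inv_eq_one]
      exact C.toPre.conj_odd (by decide) (hw _) (hw _) (hw _) (l3 _) (l3 _) e
  · obtain ⟨h2, ⟨e⟩, -⟩ := hC
    rw [card_eq_card_quotient_mul_card_subgroup (center _), Nat.card_congr e.toEquiv, h2, nat_card_alternatingGroup,
      Nat.card_eq_fintype_card, Fintype.card_fin]
    rfl
  · obtain ⟨σ, h⟩ := C.tot (mem_centralizer_singleton_iff.1 hv)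
    exact top ▸ cls _ 8 (by decide) (Finset.subset_univ _) alt8 h vv (Finset.subset_univ _)
  · obtain ⟨σ, h⟩ := C.tot (mem_centralizer_singleton_iff.1 hg)
    have c := C.toPre.comm_of h (hf 6) e
    have m6 : P 6 ∈ gp P (sing 7) := mem_sing P (by decide)
    have key : ∀ ρ : Perm (Fin 11), ρ ∈ gp P (sing 7) → ρ * P 6 = P 6 * ρ → sign ρ = 1 → ρ (σ 8) = 8 →
        σ ∈ gp P (sing 7) := fun ρ h1 h2 h3 h4 => (mul_mem_cancel_left h1).1 (gp_mono (by decide) (alt6 (mem_altOn.2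
          ⟨supp (by rw [mul_assoc, c, ← mul_assoc, h2, mul_assoc]) h4, by rw [map_mul, h3, C.even h, one_mul]⟩)))
    refine up 7 (by decide) h ?_
    rcases at8 c with h8 | h8 | h8
    · exact key 1 (one_mem _) (by simp) (map_one _) h8
    · exact key _ (inv_mem m6) (by simp) (by decide +kernel) (by rw [h8]; decide +kernel)
    · exact key _ m6 rfl (by decide +kernel) (by rw [h8]; decide +kernel)
  · obtain ⟨σ, h⟩ := C.tot (mem_centralizer_singleton_iff.1 hv)
    have c := C.toPre.comm_of h (hf 6) e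
    have e' : ∀ q, σ (P 6 q) = P 6 (σ q) := fun q => congrArg (fun x : Perm (Fin 11) => x q) c
    have s2 := app2 (C.sq_one h vv) 8
    refine cls Ω 6 le_rfl subset_rfl alt6 h vv (supp c ?_)
    rcases at8 c with h8 | h8 | h8
    · exact h8
    · have : σ 9 = P 6 (σ 8) := e' 8
      rw [h8] at s2 this
      exact absurd (s2.symm.trans this) (by decide +kernel)
    · have : σ 8 = P 6 (σ 10) := e' 10
      rw [h8] at s2
      rw [h8, s2] at this
      exact absurd this (by decide +kernel)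

theorem swap [Finite G] [IsSimpleGroup G] (hz : orderOf z = 2) (B : SB z f) :
    ∃ n, n * z = wval f yw * n ∧ n * wval f yw = z * n := by
  have zz : z ^ 2 = 1 := hz ▸ pow_orderOf_eq_one z
  have z1 : z ≠ 1 := fun e => by simp [e] at hz
  have h1 : ¬ Cfsg.IsIsolated z := fun hi => by
    have h2 := ZStar.zstar G _ zz hi
    rcases IsSimpleGroup.eq_bot_or_eq_top_of_normal (Cfsg.pPrimeCore 2 G) inferInstance with k | k
    · rcases IsSimpleGroup.eq_bot_or_eq_top_of_normal (center G) inferInstance with k2 | k2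
      · exact z1 (mem_bot.1 (k2 ▸ mem_center_iff.2 fun g =>
          mul_inv_eq_iff_eq_mul.1 (mul_inv_eq_one.1 (mem_bot.1 (k ▸ h2 g)))))
      · have c : Commute (f 0) (f 1) := mem_center_iff.1 (k2.ge (mem_top (f 1))) (f 0)
        have a : f 0 ^ 3 = 1 := by simpa [wval, lval, pow_succ, mul_assoc] using B.rel [0, 0, 0] (by decide)
        have b : f 1 ^ 3 = 1 := by simpa [wval, lval, pow_succ, mul_assoc] using B.rel [2, 2, 2] (by decide)
        have e : z = (f 0 * f 1) ^ 2 := by rw [← B.zw]; simp [wval, lval, pow_succ, mul_assoc]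
        have : z ^ 3 = 1 := by rw [e, ← pow_mul, mul_comm, pow_mul, c.mul_pow, a, b]; simp
        rw [pow_succ, zz, one_mul] at this
        exact z1 this
    · have h4 := PCoreResidual.coprime_card_pPrimeCore 2 G
      have h5 := orderOf_dvd_natCard z
      rw [hz] at h5
      rw [k, card_top] at h4
      exact absurd (Nat.eq_one_of_dvd_coprimes h4 h5 dvd_rfl) (by decide)
  simp only [Cfsg.IsIsolated, not_forall] at h1
  obtain ⟨g, h1, h2⟩ := h1
  have key : ∀ g : G, Commute z (g * z * g⁻¹) → g * z * g⁻¹ ≠ z →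
      ∃ k ∈ centralizer ({z} : Set G), g * z * g⁻¹ = k * wval f yw * k⁻¹ := fun g h1 h2 =>
    ((B.cls _ (mem_centralizer_singleton_iff.2 h1.symm) (by rw [conj_mul, ← sq, zz]; group)).resolve_left
      fun e => z1 (conj_eq_one_iff.1 e)).resolve_left h2
  obtain ⟨k, hk, e⟩ := key g h1 h2
  have hk := mem_centralizer_singleton_iff.1 hk
  have c : g⁻¹ * z * g⁻¹⁻¹ * z = z * (g⁻¹ * z * g⁻¹⁻¹) := by
    calc _ = g⁻¹ * (z * (g * z * g⁻¹)) * g := by group
      _ = _ := by rw [h1.eq]; group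
  obtain ⟨k', hk', e'⟩ := key g⁻¹ c.symm fun e => h2 (by
    conv_lhs => rw [← e]
    group)
  have hk' := mem_centralizer_singleton_iff.1 hk'
  refine ⟨k⁻¹ * g * k', ?_, ?_⟩
  · calc _ = k⁻¹ * (g * z * g⁻¹) * g * k' := by rw [mul_assoc _ k', hk']; group
      _ = _ := by rw [e]; group
  · calc _ = k⁻¹ * g * (k' * wval f yw * k'⁻¹) * k' := by group
      _ = k⁻¹ * (z * k) * k⁻¹ * g * k' := by rw [← e']; group
      _ = _ := by rw [← hk]; group

end Cfsg.Agent.Lib.LyH
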