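import Cfsg.Agent.Lib.LyK
import Cfsg.Agent.Lib.TCLyH6

/-! The order of the normaliser of a 3-cycle in the double cover of `A₁₁`. -/

set_option autoImplicit false
set_option maxRecDepth 100000

namespace Cfsg.Agent.Lib.LyK2

open Cfsg.Agent.Lib.PermNet Cfsg.Agent.Lib.Words Cfsg.Agent.Lib.PermGroup Cfsg.Agent.Lib.DCE

theorem b6 {X : Type*} [Group X] (z : ℕ → X) (hz : ∀ w ∈ LyK.K8 ++ LyK.KD, wval z w = 1) :
    (gp z [[0], [2], [4], [6], [8], [10]]).relIndex (gp z [[0], [2], [4], [6], [8], [10], [12], [14]]) ≠ 0 ∧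
    (gp z [[0], [2], [4], [6], [8], [10]]).relIndex (gp z [[0], [2], [4], [6], [8], [10], [12], [14]]) ≤ 6 :=
  tc_wrap [7] hz [[0], [1], [2], [3], [4], [5], [6], [7], [8], [9], [10], [11], [12], [13], [14]] TCLyH6.bound _ _ (by decide +kernel)

theorem card_leD {X : Type*} [Group X] (z : ℕ → X) (hz : ∀ w ∈ LyK.K8 ++ LyK.KD, wval z w = 1) :
    Nat.card (gp z (sing 8)) ≠ 0 ∧ Nat.card (gp z (sing 8)) ≤ 241920 :=
  (card_le_of_relIndex (gp_mono (by decide)) (b6 z hz)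
    (LyK.card_le8 z fun w h => hz w (List.mem_append_left _ h)))

end Cfsg.Agent.Lib.LyK2
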