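import Cfsg.Agent.Lib.LyK

/-! Relators of the 3-local presentation of the Lyons group. Letters `0..5`: lifts of the
3-cycles `(0 1 i+2)`, `6`: lift of `(8 9 10)`, `7`: `s`, `8`: `t`, `9`: `h`. -/

set_option autoImplicit false

namespace Cfsg.Agent.Lib.LyKM

/-- Relators that involve the letter `8`. -/
def RS : List (List ℕ) := [[14, 16, 15, 17], [2, 0, 11, 7, 4, 9, 4, 0, 2, 16, 3, 1, 5, 8, 5, 6, 10, 1, 3, 17], [9, 1, 4, 2, 16, 13, 13, 9, 1, 4, 2, 17], [12, 16, 13, 17], [16, 16], [16, 1, 9, 6, 11, 6, 2, 5, 2, 16, 1, 9, 6, 11, 6, 2, 5, 2, 16, 1, 9, 6, 11, 6, 2, 5, 2], [16, 3, 0, 11, 6, 9, 6, 4, 0, 16, 3, 0, 11, 6, 9, 6, 4, 0, 16, 3, 0, 11, 6, 9, 6, 4, 0]]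

/-- Relators of `3.McL:2`. -/
def KM : List (List ℕ) := LyK.K8 ++ LyK.KD ++ RS

/-- Relators that involve the letter `9`. -/
def RB : List (List ℕ) := [[6, 11, 16, 3, 16, 0, 2, 0, 2, 17, 2, 17, 10, 7, 18, 11, 16, 11, 0, 16, 3, 1, 3, 1, 17, 1, 10, 17, 10, 19], [2, 5, 2, 18, 15, 13, 1, 9, 19], [1, 8, 11, 2, 7, 14, 18, 15, 6, 3, 10, 9, 19], [12, 18, 1, 19], [18, 15, 13, 1, 3, 4, 3, 8, 18], [18, 8, 11, 8, 4, 1, 6, 2, 0, 18, 8, 11, 8, 4, 1, 6, 2, 0, 18, 8, 11, 8, 4, 1, 6, 2, 0, 15, 13, 3, 1, 3, 1, 1, 11, 8]]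

/-- The letter `7` as a word in the letters of `2.A₁₁`. -/
def sw : List ℕ := [2, 5, 2, 0, 14, 12, 15, 13, 14, 12, 9]

/-- The letter `9` as a word in the letters of `2.A₁₁`. -/
def hw : List ℕ := [14, 12, 1, 14, 12, 14, 1]

end Cfsg.Agent.Lib.LyKM
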