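import Cfsg.Agent.Lib.LyMDT
import Cfsg.Agent.Lib.LyK

/-! A faithful model. -/

set_option autoImplicit false
set_option maxRecDepth 100000

namespace Cfsg.Agent.Lib.LyMD

open Cfsg.Agent.Lib.PermNet Cfsg.Agent.Lib.Words Cfsg.Agent.Lib.PermGroup Cfsg.Agent.Lib.DCE Cfsg.Agent.Lib.PermModel Cfsg.Agent.Lib.BT

theorem dok_id : idB (nat_lit 243) (nat_lit 8) (nat_lit 255) did = true := by decide +kernel

theorem dok_0 : allR (fun i => okT (nat_lit 243) (nat_lit 8) (nat_lit 255) (dtt.get (2 * i)) (dtt.get (2 * i + 1))) (nat_lit 0) (nat_lit 23) = true := by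
  decide +kernel

def hdL0 : List (List ℕ) := [[17, 0, 2, 0, 2], [19, 0, 3, 0, 9, 6, 11, 6, 4], [21, 9, 1, 4, 2], [23, 1, 9, 6, 11, 6, 2, 5, 2], [25, 10, 9, 6, 2, 5, 0], [27, 0, 5, 10, 6, 3, 8, 4, 2, 0, 2, 0, 2], [29, 9, 1, 4, 2, 0, 5, 10, 6, 3, 8, 4, 2, 0, 2, 0, 2, 3, 5, 0, 8], [31, 3, 0, 11, 6, 9, 6, 4, 0], [33, 12, 24], [35, 2, 8, 11, 1], [37, 4, 6, 11, 1], [39, 6, 10, 5, 3], [41, 9, 4, 10, 0, 4, 1], [43, 36, 40, 35], [45, 36, 38, 34, 38, 37]]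

theorem hd0 : allL (fixA (nat_lit 8) (nat_lit 255) dtt (nat_lit 243)) hdL0 = true := by decide +kernel

theorem hc : chB (nat_lit 8) (nat_lit 255) dtt (nat_lit 243) (fun _ => true) dch [] = true := by decide +kernel

def hkL0 : List (List ℕ) := [[0, 0, 0], [2, 2, 2], [4, 4, 4], [6, 6, 6], [8, 8, 8], [10, 10, 10], [0, 3, 0, 2, 1, 2], [0, 5, 0, 4, 1, 4], [0, 3, 0, 4, 1, 2, 1, 4], [0, 7, 0, 6, 1, 6], [4, 7, 4, 6, 5, 6], [0, 3, 0, 6, 1, 2, 1, 6], [0, 9, 0, 8, 1, 8], [4, 9, 4, 8, 5, 8], [6, 9, 6, 8, 7, 8], [0, 3, 0, 8, 1, 2, 1, 8], [0, 11, 0, 10, 1, 10], [4, 11, 4, 10, 5, 10], [6, 11, 6, 10, 7, 10], [8, 11, 8, 10, 9, 10], [0, 3, 0, 10, 1, 2, 1, 10], [12, 12, 12], [12, 0, 13, 1], [12, 2, 13, 3], [12, 4, 13, 5], [12, 6, 13, 7], [12, 8, 13, 9], [12, 10, 13, 11], [14, 14], [14, 12, 14, 12], [14, 0, 14, 8, 1, 9], [14, 2, 14, 9, 5, 1,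 4, 8], [14, 4, 14, 9, 3, 1, 2, 8], [14, 6, 14, 9, 7, 1, 6, 8], [14, 8, 14, 9, 0, 8], [14, 10, 14, 10, 8, 1, 9, 11]]

theorem hk0 : allL (fixA (nat_lit 8) (nat_lit 255) dtt (nat_lit 243)) hkL0 = true := by decide +kernel

theorem dok : TabsOK (nat_lit 243) (nat_lit 8) (nat_lit 255) (nat_lit 23) dth did := ⟨dok_id, (allR_of 0 23 23 (by decide) dok_0)⟩

theorem hTM : TM 8 (nat_lit 243) (nat_lit 8) (nat_lit 255) (nat_lit 23) did 241920 dth ddefs dch :=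
  ⟨dok, (dok.relsA _ hd0), hc, by decide +kernel⟩

theorem hK : ∀ w ∈ LyK.K8 ++ LyK.KD, wval (tp (nat_lit 243) (nat_lit 8) (nat_lit 255) dtt) w = 1 :=
  (dok.relsA _ hk0)



end Cfsg.Agent.Lib.LyMD
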