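import Cfsg.Agent.Lib.LyMHT

/-! Certificates. -/

set_option autoImplicit false
set_option maxRecDepth 100000

namespace Cfsg.Agent.Lib.LyMH

open Cfsg.Agent.Lib.PermNet Cfsg.Agent.Lib.Words Cfsg.Agent.Lib.PermGroup Cfsg.Agent.Lib.DCE Cfsg.Agent.Lib.PermModel Cfsg.Agent.Lib.BT

theorem hcD : chB (nat_lit 13) (nat_lit 8191) htt (nat_lit 5051) (okL [0, 1, 2, 3, 4, 5, 6, 8]) hchD [] = true := by decide +kernel

def hkL0 : List (List ℕ) := [[0, 0, 0], [2, 2, 2], [4, 4, 4], [6, 6, 6], [8, 8, 8], [10, 10, 10], [0, 3, 0, 2, 1, 2]]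

theorem hk0 : allL (fixA (nat_lit 13) (nat_lit 8191) htt (nat_lit 5051)) hkL0 = true := by decide +kernel

def hkL1 : List (List ℕ) := [[0, 5, 0, 4, 1, 4], [0, 3, 0, 4, 1, 2, 1, 4], [0, 7, 0, 6, 1, 6], [4, 7, 4, 6, 5, 6]]

theorem hk1 : allL (fixA (nat_lit 13) (nat_lit 8191) htt (nat_lit 5051)) hkL1 = true := by decide +kernel

def hkL2 : List (List ℕ) := [[0, 3, 0, 6, 1, 2, 1, 6], [0, 9, 0, 8, 1, 8], [4, 9, 4, 8, 5, 8], [6, 9, 6, 8, 7, 8]]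

theorem hk2 : allL (fixA (nat_lit 13) (nat_lit 8191) htt (nat_lit 5051)) hkL2 = true := by decide +kernel

end Cfsg.Agent.Lib.LyMH
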