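import Cfsg.Agent.Lib.LyMHT

/-! Certificates. -/

set_option autoImplicit false
set_option maxRecDepth 100000

namespace Cfsg.Agent.Lib.LyMH

open Cfsg.Agent.Lib.PermNet Cfsg.Agent.Lib.Words Cfsg.Agent.Lib.PermGroup Cfsg.Agent.Lib.DCE Cfsg.Agent.Lib.PermModel Cfsg.Agent.Lib.BT

def hkL3 : List (List ℕ) := [[0, 3, 0, 8, 1, 2, 1, 8], [0, 11, 0, 10, 1, 10], [4, 11, 4, 10, 5, 10], [6, 11, 6, 10, 7, 10]]

theorem hk3 : allL (fixA (nat_lit 13) (nat_lit 8191) htt (nat_lit 5051)) hkL3 = true := by decide +kernel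

def hkL4 : List (List ℕ) := [[8, 11, 8, 10, 9, 10], [0, 3, 0, 10, 1, 2, 1, 10], [12, 12, 12], [14, 14, 14], [0, 12, 1, 13], [2, 12, 3, 13]]

theorem hk4 : allL (fixA (nat_lit 13) (nat_lit 8191) htt (nat_lit 5051)) hkL4 = true := by decide +kernel

def hkL5 : List (List ℕ) := [[4, 12, 5, 13], [6, 12, 7, 13], [8, 12, 9, 13], [10, 12, 11, 13], [0, 15, 0, 14, 1, 14], [4, 15, 4, 14, 5, 14]]

theorem hk5 : allL (fixA (nat_lit 13) (nat_lit 8191) htt (nat_lit 5051)) hkL5 = true := by decide +kernel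

end Cfsg.Agent.Lib.LyMH
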