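import Cfsg.Agent.Lib.LyMHC0
import Cfsg.Agent.Lib.LyMHC1
import Cfsg.Agent.Lib.LyMHC2
import Cfsg.Agent.Lib.LyMHC3
import Cfsg.Agent.Lib.LyK

/-! A faithful model of the double cover of `A₁₁`. -/

set_option autoImplicit false
set_option maxRecDepth 100000

namespace Cfsg.Agent.Lib.LyMH

open Cfsg.Agent.Lib.PermNet Cfsg.Agent.Lib.Words Cfsg.Agent.Lib.PermGroup Cfsg.Agent.Lib.DCE Cfsg.Agent.Lib.PermModel Cfsg.Agent.Lib.BT

theorem hok : TabsOK (nat_lit 5051) (nat_lit 13) (nat_lit 8191) (nat_lit 14) hth hid := ⟨hok_id, ((allR_of 0 9 9 (by decide) hok_0).trans (allR_of 9 5 14 (by decide) hok_9))⟩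

theorem hTM : TM 8 (nat_lit 5051) (nat_lit 13) (nat_lit 8191) (nat_lit 14) hid 39916800 hth hdefs hch :=
  ⟨hok, (all_append (hok.relsA _ hd0) (hok.relsA _ hd1)), hc, by decide +kernel⟩

theorem hK : ∀ w ∈ LyK.K1, wval (tp (nat_lit 5051) (nat_lit 13) (nat_lit 8191) htt) w = 1 := fun w hw =>
  (all_append (hok.relsA hkL0 hk0) (all_append (hok.relsA hkL1 hk1) (all_append (hok.relsA hkL2 hk2) (all_append (hok.relsA hkL3 hk3) (all_append (hok.relsA hkL4 hk4) (all_append (hok.relsA hkL5 hk5) (all_append (hok.relsA hkL6 hk6) (hok.relsA hkL7 hk7)))))))) w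
    ((by decide +kernel : LyK.K1 = hkL0 ++ (hkL1 ++ (hkL2 ++ (hkL3 ++ (hkL4 ++ (hkL5 ++ (hkL6 ++ (hkL7)))))))) ▸ hw)

end Cfsg.Agent.Lib.LyMH
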