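import Cfsg.Agent.Lib.LyMHT

/-! Certificates. -/

set_option autoImplicit false
set_option maxRecDepth 100000

namespace Cfsg.Agent.Lib.LyMH

open Cfsg.Agent.Lib.PermNet Cfsg.Agent.Lib.Words Cfsg.Agent.Lib.PermGroup Cfsg.Agent.Lib.DCE Cfsg.Agent.Lib.PermModel Cfsg.Agent.Lib.BT

theorem hok_id : idB (nat_lit 5051) (nat_lit 13) (nat_lit 8191) hid = true := by decide +kernel

theorem hok_0 : allR (fun i => okT (nat_lit 5051) (nat_lit 13) (nat_lit 8191) (htt.get (2 * i)) (htt.get (2 * i + 1))) (nat_lit 0) (nat_lit 9) = true := by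
  decide +kernel

theorem hok_9 : allR (fun i => okT (nat_lit 5051) (nat_lit 13) (nat_lit 8191) (htt.get (2 * i)) (htt.get (2 * i + 1))) (nat_lit 9) (nat_lit 5) = true := by
  decide +kernel

def hdL0 : List (List ℕ) := [[17, 2, 5, 2, 0, 14, 12, 15, 13, 14, 12, 9], [19, 14, 12, 1, 14, 12, 14, 1], [21, 9, 1, 4, 2]]

theorem hd0 : allL (fixA (nat_lit 13) (nat_lit 8191) htt (nat_lit 5051)) hdL0 = true := by decide +kernel

def hdL1 : List (List ℕ) := [[23, 0, 5, 10, 6, 3, 8, 4, 2, 0, 2, 0, 2], [25, 10, 9, 6, 2, 5, 0], [27, 0, 3, 0, 9, 6, 11, 6, 4]]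

theorem hd1 : allL (fixA (nat_lit 13) (nat_lit 8191) htt (nat_lit 5051)) hdL1 = true := by decide +kernel

theorem hc : chB (nat_lit 13) (nat_lit 8191) htt (nat_lit 5051) (fun _ => true) hch [] = true := by decide +kernel

end Cfsg.Agent.Lib.LyMH
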