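import Cfsg.Agent.Lib.LyPhiD

set_option autoImplicit false
set_option maxRecDepth 100000
set_option Elab.async false

namespace Cfsg.Agent.Lib.LyPhi
open Cfsg.Agent.Lib.PermNet Cfsg.Agent.Lib.MatRep

def r1 : List (List Nat) := [[25, 9, 7, 13, 14, 12, 6, 8], [27, 8, 7, 13, 14, 12, 6, 9], [29, 12, 1, 2, 7, 13, 15, 12, 6, 3, 0, 13], [31, 1, 2, 14, 3, 0], [33, 18, 21, 18, 16, 30, 28, 31, 29, 30, 28, 25], [35, 30, 28, 17, 30, 28, 30, 17]]

theorem h1 : RelOn RepLy.c ms r1 0 111 := relOn ok _ 0 111 111 (by decide +kernel)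

def r3 : List (List Nat) := [[16, 19, 16, 22, 17, 18, 17, 22], [16, 25, 16, 24, 17, 24], [20, 25, 20, 24, 21, 24], [22, 25, 22, 24, 23, 24], [16, 19, 16, 24, 17, 18, 17, 24], [16, 27, 16, 26, 17, 26], [20, 27, 20, 26, 21, 26], [22, 27, 22, 26, 23, 26], [24, 27, 24, 26, 25, 26], [16, 19, 16, 26, 17, 18, 17, 26], [28, 28, 28], [28, 16, 29, 17], [28, 18, 29, 19]]

theorem h3 : RelOn RepLy.c ms r3 0 111 := relOn ok _ 0 111 111 (by decide +kernel)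

def r5 : List (List Nat) := [[18, 16, 27, 23, 20, 25, 20, 16, 18, 36, 19, 17, 21, 24, 21, 22, 26, 17, 19, 37], [25, 17, 20, 18, 36, 29, 29, 25, 17, 20, 18, 37], [28, 36, 29, 37], [36, 36], [36, 17, 25, 22, 27, 22, 18, 21, 18, 36, 17, 25, 22, 27, 22, 18, 21, 18, 36, 17, 25, 22, 27, 22, 18, 21, 18]]

theorem h5 : RelOn RepLy.c ms r5 0 111 := relOn ok _ 0 111 111 (by decide +kernel)

def r7 : List (List Nat) := [[17, 24, 27, 18, 23, 32, 34, 33, 22, 19, 26, 25, 35], [28, 34, 17, 35], [34, 33, 29, 17, 19, 20, 19, 24, 34], [34, 24, 27, 24, 20, 17, 22, 18, 16, 34, 24, 27, 24, 20, 17, 22, 18, 16, 34, 24, 27, 24, 20, 17, 22, 18, 16, 33, 29, 19, 17, 19, 17, 17, 27, 24]]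

theorem h7 : RelOn RepLy.c ms r7 0 111 := relOn ok _ 0 111 111 (by decide +kernel)


end Cfsg.Agent.Lib.LyPhi
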