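import Cfsg.Agent.Lib.LyPhiC0
import Cfsg.Agent.Lib.LyPhiC1
import Cfsg.Agent.Lib.LyA
import Cfsg.Agent.Lib.LyKM

/-! Elements of the presented Lyons group that satisfy the relators of the 3-local presentation. -/

set_option autoImplicit false
set_option maxRecDepth 100000

namespace Cfsg.Agent.Lib.LyPhi

open Cfsg.Agent.Lib.Words Cfsg.Agent.Lib.PermNet Cfsg.Agent.Lib.MatRep Cfsg.Agent.Lib.PermGroup Cfsg.Agent.Lib.DCE

theorem hall : RelOn RepLy.c ms (r0 ++ (r1 ++ (r2 ++ (r3 ++ (r4 ++ (r5 ++ (r6 ++ (r7)))))))) 0 111 := h0.append (h1.append (h2.append (h3.append (h4.append (h5.append (h6.append (h7)))))))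

theorem hinv : RelOn RepLy.c ms (invs 19) 0 111 := hall.mono (by decide +kernel)

def defs : List (List ℕ) := [[5, 1, 5, 0, 4, 1, 4, 0],
  [6, 8, 6, 8, 6, 8, 6, 8],
  [14],
  [3, 14, 2],
  [2, 14, 3],
  [3, 3, 14, 2, 2],
  [9, 7, 13, 14, 12, 6, 8],
  [8, 7, 13, 14, 12, 6, 9],
  [12, 1, 2, 7, 13, 15, 12, 6, 3, 0, 13],
  [1, 2, 14, 3, 0],
  [18, 21, 18, 16, 30, 28, 31, 29, 30, 28, 25],
  [30, 28, 17, 30, 28, 30, 17],
  [26, 31, 24, 28, 31, 28, 31, 16, 19, 20, 23, 10, 4, 22, 24, 30, 21, 16, 19, 29, 31, 24, 29, 31, 22, 27]]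

def hw : List (List ℕ) := [[16], [18], [20], [22], [24], [26], [28], [32], [36], [34]]

theorem gen_congr {c : Cfg} {ms ms' : List (List ℕ)} {i : ℕ} (h0 : getW ms (2 * i) = getW ms' (2 * i))
    (h1 : getW ms (2 * i + 1) = getW ms' (2 * i + 1)) : gen c ms i = gen c ms' i := by
  simp only [gen, mval, List.map_cons, List.map_nil, h0, h1]

theorem phi_ext : ∀ i < 19, LyA.phi (ext LyBase.y 6 defs i) = gen RepLy.c ms i :=
  eq_of_defRels (f := fun i => LyA.phi (ext LyBase.y 6 defs i)) 6 defs (by decide +kernel)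
    (fun w hw => by rw [← map_wval, ext_rels _ 6 defs (by decide +kernel) w hw, map_one])
    (rels_of hinv (hall.mono (by decide +kernel)) (by decide +kernel)) fun i hi => by
      have e : RepLy.f = gen RepLy.c RepLy.ms := rfl
      have h := (by decide +kernel : ∀ l < 12, getW RepLy.ms l = getW ms l)
      rw [ext_of_lt _ _ hi]
      exact (LyA.exists_phi.choose_spec i (by omega)).trans
        ((congrFun e i).trans (gen_congr (h _ (by omega)) (h _ (by omega))))

theorem phi_wval (w : List ℕ) (hw : w.all (fun l => decide (l < 2 * 19)) = true) :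
    LyA.phi (wval (ext LyBase.y 6 defs) w) = wval (gen RepLy.c ms) w := by
  rw [map_wval]; exact wval_congr phi_ext (by simpa using hw)

theorem exists_phi : ∃ φ : ℕ → Spor.Ly, (∀ w ∈ LyKM.KM ++ LyKM.RB, wval φ w = 1) ∧ wval φ [0, 2, 1, 3] ≠ 1 := by
  refine ⟨fun i => wval (ext LyBase.y 6 defs) (hw.getD i []), rels_of_subst hw _ fun w h => ?_, fun h => ?_⟩
  · have hl : ((LyKM.KM ++ LyKM.RB).map (subst hw)).all (fun w => w.all fun l => decide (l < 2 * 19)) = true := by
      decide +kernel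
    refine LyA.main.2.2.2.1 ?_
    rw [phi_wval w (List.all_eq_true.1 hl w h), map_one]
    exact rels_of hinv (hall.mono (by decide +kernel)) hl w h
  · rw [← wval_subst] at h
    refine ne_one ok hinv (subst hw [0, 2, 1, 3]) 0 4 (by decide +kernel) ?_
    rw [← phi_wval _ (by decide +kernel), h, map_one]

end Cfsg.Agent.Lib.LyPhi
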