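import Cfsg.Agent.Lib.LyPhiD

set_option autoImplicit false
set_option maxRecDepth 100000
set_option Elab.async false

namespace Cfsg.Agent.Lib.LyPhi
open Cfsg.Agent.Lib.PermNet Cfsg.Agent.Lib.MatRep

def r0 : List (List Nat) := [[0, 1], [2, 3], [4, 5], [6, 7], [8, 9], [10, 11], [12, 13], [14, 15], [16, 17], [18, 19], [20, 21], [22, 23], [24, 25], [26, 27], [28, 29], [30, 31], [32, 33], [34, 35], [36, 37], [13, 5, 1, 5, 0, 4, 1, 4, 0], [15, 6, 8, 6, 8, 6, 8, 6, 8], [17, 14], [19, 3, 14, 2], [21, 2, 14, 3], [23, 3, 3, 14, 2, 2]]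

theorem h0 : RelOn RepLy.c ms r0 0 111 := relOn ok _ 0 111 111 (by decide +kernel)

def r2 : List (List Nat) := [[37, 26, 31, 24, 28, 31, 28, 31, 16, 19, 20, 23, 10, 4, 22, 24, 30, 21, 16, 19, 29, 31, 24, 29, 31, 22, 27], [16, 16, 16], [18, 18, 18], [20, 20, 20], [22, 22, 22], [24, 24, 24], [26, 26, 26], [16, 19, 16, 18, 17, 18], [16, 21, 16, 20, 17, 20], [16, 19, 16, 20, 17, 18, 17, 20], [16, 23, 16, 22, 17, 22], [20, 23, 20, 22, 21, 22]]

theorem h2 : RelOn RepLy.c ms r2 0 111 := relOn ok _ 0 111 111 (by decide +kernel)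

def r4 : List (List Nat) := [[28, 20, 29, 21], [28, 22, 29, 23], [28, 24, 29, 25], [28, 26, 29, 27], [32, 32], [32, 28, 32, 28], [32, 16, 32, 24, 17, 25], [32, 18, 32, 25, 21, 17, 20, 24], [32, 20, 32, 25, 19, 17, 18, 24], [32, 22, 32, 25, 23, 17, 22, 24], [32, 24, 32, 25, 16, 24], [32, 26, 32, 26, 24, 17, 25, 27], [32, 36, 33, 37]]

theorem h4 : RelOn RepLy.c ms r4 0 111 := relOn ok _ 0 111 111 (by decide +kernel)

def r6 : List (List Nat) := [[36, 19, 16, 27, 22, 25, 22, 20, 16, 36, 19, 16, 27, 22, 25, 22, 20, 16, 36, 19, 16, 27, 22, 25, 22, 20, 16], [22, 27, 36, 19, 36, 16, 18, 16, 18, 37, 18, 37, 26, 23, 34, 27, 36, 27, 16, 36, 19, 17, 19, 17, 37, 17, 26, 37, 26, 35], [18, 21, 18, 34, 33, 29, 17, 25, 35]]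

theorem h6 : RelOn RepLy.c ms r6 0 111 := relOn ok _ 0 111 111 (by decide +kernel)


end Cfsg.Agent.Lib.LyPhi
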