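import Cfsg.Agent.Lib.LySC
import Cfsg.Agent.Lib.LyKM
import Cfsg.Agent.Lib.BT8

/-! The quotient of the group on nine letters by the letter `6`. -/

set_option autoImplicit false
set_option maxRecDepth 100000

namespace Cfsg.Agent.Lib.LyQ

open Subgroup Cfsg.Agent.Lib.PermNet Cfsg.Agent.Lib.Words Cfsg.Agent.Lib.PermGroup Cfsg.Agent.Lib.DCE
  Cfsg.Agent.Lib.BT

universe u

variable {G : Type u} [Group G] {E : ℕ → G}

theorem index {X : Type*} [Group X] (x : ℕ → X) (h : ∀ w ∈ LyK.KB ++ LySD.RR, wval x w = 1)
    (ht : x 8 ∉ gp x (sing 8)) : (gp x (sing 8)).relIndex (gp x (sing 9)) = 22275 := by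
  let y : ℕ → gp x (sing 9) := fun i => if h : i < 9 then ⟨x i, mem_sing x h⟩ else 1
  have hy : ∀ i < 9, (y i).1 = x i := fun i hi => by simp [y, hi]
  have hr : ∀ w ∈ LyK.KB ++ LySD.RR, wval y w = 1 := fun w hw => Subtype.ext
    ((map_wval (Subgroup.subtype _) y w).trans ((wval_congr hy (by
      simpa using List.all_eq_true.1 (by decide +kernel : (LyK.KB ++ LySD.RR).all (lt2 9) = true)
        w hw)).trans (h w hw)))
  have ty : gp y (sing 9) = ⊤ := by
    apply map_injective (gp x (sing 9)).subtype_injective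
    rw [map_gp, ← MonoidHom.range_eq_map, range_subtype]
    exact gp_congr hy (by decide)
  have e : (gp y (sing 8)).map (gp x (sing 9)).subtype = gp x (sing 8) := by
    rw [map_gp]
    exact gp_congr (n := 8) (fun i hi => hy i (by omega)) (by decide)
  rw [relIndex, ← e, subgroupOf, comap_map_eq_self_of_injective (gp x (sing 9)).subtype_injective]
  exact LySD.ok.main y (fun w hw => hr w (List.mem_append_right _ hw)) ty
    (LySC.hub y fun w hw => hr w (List.mem_append_left _ hw))
    fun _ h => ht (e ▸ hy 8 (by decide) ▸ mem_map_of_mem _ h)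

theorem hubB {X : Type*} [Group X] (x : ℕ → X) (h : ∀ w ∈ LyK.KB ++ LySD.RR, wval x w = 1) :
    Nat.card (gp x (sing 9)) ≠ 0 ∧ Nat.card (gp x (sing 9)) ≤ 1796256000 := by
  have h1 := LyK.card_leB x fun w hw => h w (List.mem_append_left _ hw)
  by_cases ht : x 8 ∈ gp x (sing 8)
  · have : gp x (sing 9) = gp x (sing 8) := le_antisymm (gp_le.2 fun w hw => by
      obtain ⟨i, hi, rfl⟩ := List.mem_map.1 hw
      rw [wval_single]
      rcases Nat.lt_succ_iff_lt_or_eq.1 (List.mem_range.1 hi) with h | rfl
      exacts [mem_sing x h, ht]) (gp_mono (by decide))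
    rw [this]
    omega
  · exact card_le_of_relIndex (n := 22275) (gp_mono (by decide)) (by rw [index x h ht]; decide) h1

/-- The letters as elements of the group they generate. -/
def yy (E : ℕ → G) (i : ℕ) : gp E (sing 9) := if h : i < 9 then ⟨E i, mem_sing E h⟩ else 1

theorem yy_val (i : ℕ) (hi : i < 9) : (yy E i : G) = E i := by simp [yy, hi]

theorem yy_wval {w : List ℕ} (hw : lt2 9 w = true) : ((wval (yy E) w : gp E (sing 9)) : G) = wval E w :=
  (map_wval (Subgroup.subtype _) _ w).trans (wval_congr yy_val (by simpa using hw))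

theorem yy_top : gp (yy E) (sing 9) = ⊤ := by
  apply map_injective (gp E (sing 9)).subtype_injective
  rw [map_gp, ← MonoidHom.range_eq_map, range_subtype]
  exact gp_congr yy_val (by decide)

/-- The relators that make the letter `6` normal. -/
def KN : List (List ℕ) := [[12, 0, 13, 1], [12, 2, 13, 3], [12, 4, 13, 5], [12, 6, 13, 7],
  [12, 8, 13, 9], [12, 10, 13, 11], [14, 14], [14, 12, 14, 12], [12, 16, 13, 17]]

theorem norm (h : ∀ w ∈ KN, wval E w = 1) : gp E (sing 9) ≤ normalizer (zpowers (E 6)) := by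
  refine gp_le.2 fun w hw => ?_
  have key : ∀ w, wval E (w ++ [12] ++ invW w) = wval E [12] ∨
      wval E (w ++ [12] ++ invW w) = wval E (invW [12]) → wval E w ∈ normalizer (zpowers (E 6)) :=
    fun w h => by
      rw [wval_append, wval_append, wval_invW, wval_invW, wval_single E 6] at h
      rw [mem_normalizer_iff_map_conj_eq, MonoidHom.map_zpowers]
      rcases h with h | h
      · exact congrArg zpowers h
      · exact (congrArg zpowers h).trans zpowers_inv
  by_cases h7 : w = [14]
  · exact key w (.inr (h7 ▸ derive_eq [7] h _ _ (by decide +kernel)))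
  · refine key w (.inl (derive_eq [7] h _ _ ?_))
    revert w
    decide +kernel

/-- A quotient with kernel generated by the letter `6`. -/
structure QM {X : Type u} [Group X] (E : ℕ → G) (q : gp E (sing 9) →* X) : Prop where
  sur : Function.Surjective q
  ker : ∀ g, q g = 1 ↔ (g : G) ∈ zpowers (E 6)

theorem exists_q (h : ∀ w ∈ KN, wval E w = 1) :
    ∃ (X : Type u) (_ : Group X) (q : gp E (sing 9) →* X), QM E q := by
  have := normal_subgroupOf_of_le_normalizer (norm h)
  exact ⟨_, _, QuotientGroup.mk' ((zpowers (E 6)).subgroupOf (gp E (sing 9))),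
    QuotientGroup.mk'_surjective _, fun g => QuotientGroup.eq_one_iff g⟩

variable {X : Type u} [Group X] {q : gp E (sing 9) →* X} (Q : QM E q)
include Q

theorem QM.top : gp (fun i => q (yy E i)) (sing 9) = ⊤ := by
  rw [← map_gp, yy_top, ← MonoidHom.range_eq_map, MonoidHom.range_eq_top.2 Q.sur]

/-- The letter `6` is dropped. -/
def W0 : List (List ℕ) := [[0], [2], [4], [6], [8], [10], [], [14], [16]]

theorem QM.rels {K R : List (List ℕ)} (h : ∀ w ∈ K, wval E w = 1)
    (hb : (K.all (lt2 9) && R.all (lt2 9) &&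
      (R.map (subst W0)).all ([] :: K.map (subst W0)).contains) = true) :
    ∀ w ∈ R, wval (fun i => q (yy E i)) w = 1 := fun w hw => by
  simp only [Bool.and_eq_true, List.all_eq_true (p := lt2 9), List.all_eq_true (l := R.map _),
    List.contains_iff_mem] at hb
  have e : ∀ w, lt2 9 w = true → wval (fun i => q (yy E i)) (subst W0 w) =
      wval (fun i => q (yy E i)) w := fun w hw => by
    rw [wval_subst]
    refine wval_congr (n := 9) (fun i hi => ?_) (by simpa using hw)
    interval_cases i
    exacts [wval_single _ 0, wval_single _ 1, wval_single _ 2, wval_single _ 3, wval_single _ 4,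
      wval_single _ 5, ((Q.ker _).2 (yy_val (E := E) 6 (by decide) ▸ mem_zpowers _)).symm,
      wval_single _ 7, wval_single _ 8]
  rw [← e w (hb.1.2 w hw)]
  rcases List.mem_cons.1 (hb.2 _ (List.mem_map_of_mem hw)) with h1 | h1
  · rw [h1]; rfl
  · obtain ⟨v, hv, h1⟩ := List.mem_map.1 h1
    rw [← h1, e v (hb.1.1 v hv), ← map_wval, Q.ker, yy_wval (hb.1.1 v hv), h v hv]
    exact one_mem _

theorem QM.back (h : q (yy E 8) ∈ gp (fun i => q (yy E i)) (sing 8)) : E 8 ∈ gp E (sing 8) := by
  rw [← map_gp] at h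
  obtain ⟨d, hd, e⟩ := h
  have h1 : (d : G) ∈ gp E (sing 8) := by
    have := mem_map_of_mem (gp E (sing 9)).subtype hd
    rw [map_gp] at this
    exact (gp_congr (n := 8) (z := E) (fun i hi => yy_val i (by omega)) (by decide)).le this
  have h2 := (Q.ker (d⁻¹ * yy E 8)).1 (by rw [map_mul, map_inv, e, inv_mul_cancel])
  have h3 := (zpowers_le.2 (mem_sing E (by decide : 6 < 8))) h2
  rw [coe_mul, coe_inv, yy_val 8 (by decide)] at h3
  exact ((gp E (sing 8)).mul_mem_cancel_left (inv_mem h1)).1 h3

theorem QM.card_ge [Finite G] (h3 : E 6 ^ 3 = 1) (hD : 241920 ≤ Nat.card (gp E (sing 8)))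
    (ht : E 8 ∉ gp E (sing 8)) (h : ∀ w ∈ LyK.KB ++ LySD.RR, wval (fun i => q (yy E i)) w = 1) :
    1796256000 ≤ Nat.card (⊤ : Subgroup X) := by
  have := Finite.of_surjective _ Q.sur
  have h1 := index _ h fun e => ht (Q.back e)
  rw [Q.top, relIndex_top_right] at h1
  have h2 := (gp (fun i => q (yy E i)) (sing 8)).index_mul_card
  let π := q.comp (inclusion (gp_mono (by decide) : gp E (sing 8) ≤ gp E (sing 9)))
  have h4 := π.ker.index_mul_card
  have h5 : Nat.card π.ker ≤ 3 := by
    refine (Nat.card_le_card_of_injective (fun g : π.ker => (⟨g.1.1, (Q.ker _).1 g.2⟩ : zpowers (E 6)))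
      fun a b e => Subtype.ext (Subtype.ext (congrArg (fun x : zpowers (E 6) => (x : G)) e))).trans ?_
    rw [Nat.card_zpowers]
    exact Nat.le_of_dvd (by decide) (orderOf_dvd_of_pow_eq_one h3)
  have h6 : π.range ≤ gp (fun i => q (yy E i)) (sing 8) := by
    rintro _ ⟨g, rfl⟩
    obtain ⟨w, hw, e⟩ := PermModel.exists_word (n := 8) (ws := sing 8) (by decide) g.2
    have : π g = wval (fun i => q (yy E i)) w := by
      rw [← map_wval]
      refine congrArg q (Subtype.ext ?_)
      rw [yy_wval (List.all_eq_true.2 fun l hl => by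
        have := List.all_eq_true.1 hw l hl
        simp only [decide_eq_true_eq] at this ⊢
        omega), e]
      rfl
    rw [this]
    exact wval_mem fun l hl => mem_sing _ (by
      have := List.all_eq_true.1 hw l hl
      simp only [decide_eq_true_eq] at this
      omega)
  have h7 := card_le_of_le h6
  rw [index_ker] at h4
  rw [card_top, ← h2, h1]
  have := Nat.mul_le_mul_left (Nat.card π.range) h5
  omega

end Cfsg.Agent.Lib.LyQ
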