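import Cfsg.Agent.Lib.LyDefs
import Cfsg.Agent.Lib.LyMHC
import Cfsg.Agent.Lib.LyMDC
import Cfsg.Agent.Lib.LyMDS
import Cfsg.Agent.Lib.LyMDK
import Cfsg.Agent.Lib.LyK2

/-! Models of an involution centraliser `2.A₁₁` and of the normaliser of a 3-cycle in it. -/

set_option autoImplicit false
set_option maxRecDepth 100000

namespace Cfsg.Agent.Lib.LyS

open Subgroup Cfsg.Agent.Lib.PermNet Cfsg.Agent.Lib.Words Cfsg.Agent.Lib.PermGroup Cfsg.Agent.Lib.DCE
  Cfsg.Agent.Lib.BT Cfsg.Agent.Lib.LyDefs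

variable {G : Type*} [Group G] {z : G} {f : ℕ → G}

abbrev FH (f : ℕ → G) : ℕ → G := ext f 8 LyMH.hdefs

abbrev MH (z : G) (f : ℕ → G) := Model (FH f) (centralizer {z}) ⊥ (nat_lit 5051) (nat_lit 13)
  (nat_lit 8191) LyMH.htt LyMH.B2 39916800

theorem modelH (B : SB z f) : ∃ M : MH z f, M.Ch (centralizer {z}) LyMH.hch := by
  obtain ⟨M⟩ := LyMH.hTM.fmodel B.top B.rel LyMH.hK (fun z => LyK.card_le z) B.card.ge
  let M' := M.rebase LyMH.B2 (by decide +kernel)
  exact ⟨M', M'.ch_top _ (by rw [LyMH.hc]; decide +kernel)⟩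

def WE : List (List ℕ) := [[0], [2], [4], [6], [8], [10], [12], [16], [], [18]]

theorem FH8 : FH f 8 = EL f 1 7 :=
  (letter_eq f 8 LyMH.hdefs 8 LyKM.sw (by decide)).trans (wval_ext f 8 _ _ (by decide))

theorem FH9 : FH f 9 = EL f 1 9 :=
  (letter_eq f 8 LyMH.hdefs 9 LyKM.hw (by decide)).trans (wval_ext f 8 _ _ (by decide))

theorem FH_lt (i : ℕ) (hi : i < 7) : FH f i = EL f 1 i :=
  (ext_of_lt f _ (by omega)).trans (if_pos hi).symm

theorem EL_eq (i : ℕ) (hi : i < 10) : EL f 1 i = wval (FH f) (WE.getD i []) := by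
  have e := fun i hi => ((wval_single (FH f) i).trans (FH_lt i hi)).symm
  interval_cases i
  exacts [e 0 (by decide), e 1 (by decide), e 2 (by decide), e 3 (by decide), e 4 (by decide),
    e 5 (by decide), e 6 (by decide), ((wval_single (FH f) 8).trans FH8).symm, rfl,
    ((wval_single (FH f) 9).trans FH9).symm]

theorem wE {w : List ℕ} (hw : lt2 10 w = true) : wval (EL f 1) w = wval (FH f) (subst WE w) := by
  rw [wval_subst]
  exact wval_congr EL_eq (by simpa using hw)

theorem wf {w : List ℕ} (t : G) (hw : lt2 7 w = true) : wval (EL f t) w = wval f w :=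
  wval_congr (n := 7) (fun _ hi => if_pos hi) (by simpa using hw)

theorem EL_upd (t : G) : EL f t = Function.update (EL f 1) 8 t := funext fun i => by
  by_cases h : i = 8
  · subst h; rfl
  · rw [Function.update_of_ne h]; simp [EL, h]

/-- The word has no letter `8`. -/
abbrev no8 (w : List ℕ) : Bool := w.all fun l => decide (l / 2 ≠ 8)

theorem wt {w : List ℕ} (t : G) (hw : no8 w = true) : wval (EL f t) w = wval (EL f 1) w := by
  induction w with
  | nil => rfl
  | cons l w ih =>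
    rw [no8, List.all_cons, Bool.and_eq_true, decide_eq_true_eq] at hw
    rw [wval_cons, wval_cons, ih hw.2, lval, lval, EL_upd t, Function.update_of_ne hw.1]

noncomputable def okH (w : List ℕ) : Bool :=
  band (lt2 10 w) (fixW (nat_lit 13) (nat_lit 8191) LyMH.htt LyMH.B2 (subst WE w))

noncomputable def noH (w : List ℕ) : Bool :=
  band (lt2 10 w) (bnot (fixW (nat_lit 13) (nat_lit 8191) LyMH.htt LyMH.B2 (subst WE w)))

theorem hone (B : SB z f) (w : List ℕ) (h : okH w = true) : wval (EL f 1) w = 1 := by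
  obtain ⟨M, -⟩ := modelH B
  rw [wE (band_eq h).1, M.one _ (band_eq h).2]

theorem hne1 (B : SB z f) (w : List ℕ) (h : noH w = true) : wval (EL f 1) w ≠ 1 := by
  obtain ⟨M, -⟩ := modelH B
  rw [wE (band_eq h).1]
  exact M.ne_one _ (band_eq h).2

theorem heq (B : SB z f) (u v : List ℕ) (h : okH (u ++ invW v) = true) :
    wval (EL f 1) u = wval (EL f 1) v := by
  have := hone B _ h
  rwa [wval_append, wval_invW, mul_inv_eq_one] at this

theorem hne (B : SB z f) (u v : List ℕ) (h : noH (u ++ invW v) = true) :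
    wval (EL f 1) u ≠ wval (EL f 1) v := fun e =>
  hne1 B _ h (by rw [wval_append, wval_invW, e, mul_inv_cancel])

theorem hrels (B : SB z f) (R : List (List ℕ)) (h : allL okH R = true) :
    ∀ w ∈ R, wval (EL f 1) w = 1 := fun w hw => hone B w (allL_all h w hw)

theorem hz (B : SB z f) (t : G) : wval (EL f t) [0, 2, 0, 2] = z := (wf t (by decide)).trans B.zw

theorem zz (B : SB z f) : z * z = 1 := by
  rw [← hz B 1, ← wval_append]
  exact hone B _ (by decide +kernel)

theorem memH (B : SB z f) {w : List ℕ} (hw : lt2 10 w = true) :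
    wval (EL f 1) w ∈ centralizer ({z} : Set G) := by
  obtain ⟨M, -⟩ := modelH B
  exact wE (f := f) hw ▸ M.mem _

/-- The normaliser of the letter `6` in the centraliser. -/
abbrev DD (f : ℕ → G) : Subgroup G := gp (EL f 1) (sing 8)

theorem DD_le (B : SB z f) : DD f ≤ centralizer {z} :=
  gp_le.2 fun w hw => memH B (by revert w; decide)

theorem DD_eq (t : G) : gp (EL f t) (sing 8) = DD f :=
  gp_congr (n := 8) (fun i hi => by rw [EL_upd t, Function.update_of_ne (by omega)]) (by decide)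

theorem FH_mem : ∀ i ∈ [0, 1, 2, 3, 4, 5, 6, 8], FH f i ∈ DD f := fun i hi => by
  by_cases h : i < 7
  · exact FH_lt (f := f) i h ▸ mem_sing _ (by omega)
  · rw [show i = 8 by revert i; decide, FH8]
    exact mem_sing _ (by decide)

theorem cardD [Finite G] (B : SB z f) : 241920 ≤ Nat.card (DD f) := by
  obtain ⟨M, -⟩ := modelH B
  have := M.le_card _ _ LyMH.hcD
  refine le_trans (by decide +kernel) ((this.1.trans this.2).trans (card_le_of_le (gp_le.2 fun w hw => ?_)))
  obtain ⟨i, hi, rfl⟩ := List.mem_map.1 hw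
  exact wval_single (FH f) i ▸ FH_mem i hi

theorem memD (B : SB z f) {g : G} (h1 : g * z = z * g) (h2 : g * wval f yw = wval f yw * g) :
    g ∈ DD f := by
  obtain ⟨M, ch⟩ := modelH B
  have hc := mem_centralizer_singleton_iff.2 h1
  obtain ⟨k, hk, u, hu, x, hx, e⟩ := M.solve' ch (fun l _ => M.lmem _) LyMH.s_y hc hc (by simp)
    (comm_pairs _ (List.forall_mem_singleton.2 (by
      rwa [wval_single _ 13, FH, letter_eq f 8 LyMH.hdefs 13 yw (by decide), wval_ext f 8 _ _ (by decide)])))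
    (by simp) (by simp)
  rw [e, mem_bot.1 hx, mul_one, id, ← eqL_eq hu, wval_nil, mul_one]
  refine (gp_le.2 fun w hw => ?_ : _ ≤ DD f) hk
  obtain ⟨i, hi, rfl⟩ := List.mem_map.1 hw
  exact wval_single (FH f) i ▸ mem_of_defB (ext_rels f 8 LyMH.hdefs (by decide))
    [(10, [9, 1, 4, 2]), (11, [0, 5, 10, 6, 3, 8, 4, 2, 0, 2, 0, 2]), (12, [10, 9, 6, 2, 5, 0]), (13, yw)]
    _ _ FH_mem (by decide +kernel) i hi

abbrev FD (f : ℕ → G) : ℕ → G := ext (EL f 1) 8 LyMD.ddefs

abbrev MD (f : ℕ → G) := Model (FD f) (DD f) ⊥ (nat_lit 243) (nat_lit 8)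
  (nat_lit 255) LyMD.dtt LyMD.B2 241920

theorem Dz (B : SB z f) : wval (FD f) [16] = z := by
  rw [wval_single _ 8, FD, letter_eq _ 8 LyMD.ddefs 8 [0, 2, 0, 2] (by decide),
    wval_ext _ 8 _ _ (by decide), hz B]

theorem Dy : wval (FD f) [18] = wval f yw := by
  rw [wval_single _ 9, FD, letter_eq _ 8 LyMD.ddefs 9 yw (by decide),
    wval_ext _ 8 _ _ (by decide), wf 1 (by decide)]

theorem relD (B : SB z f) : ∀ w ∈ LyK.K8 ++ LyK.KD, wval (EL f 1) w = 1 :=
  hrels B _ (by decide +kernel)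

theorem modelD [Finite G] (B : SB z f) : ∃ M : MD f, M.SD LyMD.dch [16] [18] := by
  obtain ⟨M⟩ := LyMD.hTM.fmodel rfl (relD B) LyMD.hK (fun z => LyK2.card_leD z) (cardD B)
  let M' := M.rebase LyMD.B2 (by decide +kernel)
  exact ⟨M', M'.ch_top _ (by rw [LyMD.hc]; decide +kernel),
    fun g h1 h2 => memD B (Dz B ▸ h1) (Dy (f := f) ▸ h2)⟩

open LyMD in
theorem exists_A [Finite G] (B : SB z f) {n : G} (h1 : n * z = wval f yw * n)
    (h2 : n * wval f yw = z * n) : ∃ t, t * t = 1 ∧ ∃ k < 3, Cj t (FD f) usF (vsF k) ∨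
      Cj t (FD f) (usF.map (subst Wt)) ((vsF k).map (subst Wt)) := by
  obtain ⟨M, S⟩ := modelD B
  have C : Cj n (FD f) [[16], [18]] [[18], [16]] :=
    .cons (by rwa [Dz B, Dy]) (.cons (by rwa [Dz B, Dy]) .nil)
  have nrm : ∀ {t : G} {vs : List (List ℕ)}, Cj t (FD f) us4 vs → vs.getD 4 [] = [18] →
      (∃ u ∈ ([[], [18, 16]] : List (List ℕ)), (t * wval (FD f) []) ^ 2 = wval (FD f) u) →
      ∃ t, t * t = 1 ∧ Cj t (FD f) us4 vs := fun {t vs} C e ⟨u, hu, e2⟩ => by
    simp only [List.mem_cons, List.not_mem_nil, or_false] at hu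
    rcases hu with rfl | rfl
    · exact ⟨t, by simpa [sq] using e2, C⟩
    · refine ⟨t * z, ?_, C.right fun v =>
        (mem_centralizer_singleton_iff.1 (DD_le B (M.mem v))).symm⟩
      have h1 : t * z = wval (FD f) [18] * t := e ▸ Dz B ▸ C 4
      have h2 : t * t = wval (FD f) [18, 16] := by simpa [sq] using e2
      nth_rw 1 [h1]
      rw [mul_assoc, ← mul_assoc t, h2, ← Dz B, ← wval_append, ← wval_append]
      exact M.one _ (by decide +kernel)
  obtain ⟨v, hv, n, C⟩ := S.step' C s_1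
  obtain rfl := List.mem_singleton.1 hv
  obtain ⟨v, hv, n, C⟩ := S.step' C s_2
  simp only [List.mem_cons, List.not_mem_nil, or_false] at hv
  rcases hv with rfl | rfl | rfl | rfl | rfl | rfl
  · obtain ⟨v, hv, n, C⟩ := S.step' C s_30
    obtain rfl := List.mem_singleton.1 hv
    obtain ⟨v, hv, n, C⟩ := S.step' C s_40
    simp only [List.mem_cons, List.not_mem_nil, or_false] at hv
    rcases hv with rfl | rfl | rfl | rfl
    · obtain ⟨t, tt, C⟩ := nrm C rfl (p200 S C)
      exact ⟨t, tt, 0, by decide, .inl (der00 M C)⟩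
    · obtain ⟨t, tt, C⟩ := nrm C rfl (p201 S C)
      exact ⟨t, tt, 0, by decide, .inr (der01 M C)⟩
    exacts [(ks02 S C).elim, (ks03 S C).elim]
  · obtain ⟨v, hv, n, C⟩ := S.step' C s_31
    obtain rfl := List.mem_singleton.1 hv
    obtain ⟨v, hv, n, C⟩ := S.step' C s_41
    simp only [List.mem_cons, List.not_mem_nil, or_false] at hv
    rcases hv with rfl | rfl | rfl | rfl
    · obtain ⟨t, tt, C⟩ := nrm C rfl (p210 S C)
      exact ⟨t, tt, 1, by decide, .inl (der10 M C)⟩
    · obtain ⟨t, tt, C⟩ := nrm C rfl (p211 S C)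
      exact ⟨t, tt, 2, by decide, .inr (der11 M C)⟩
    exacts [(ks12 S C).elim, (ks13 S C).elim]
  · obtain ⟨v, hv, n, C⟩ := S.step' C s_32
    obtain rfl := List.mem_singleton.1 hv
    obtain ⟨v, hv, n, C⟩ := S.step' C s_42
    simp only [List.mem_cons, List.not_mem_nil, or_false] at hv
    rcases hv with rfl | rfl | rfl | rfl
    · obtain ⟨t, tt, C⟩ := nrm C rfl (p220 S C)
      exact ⟨t, tt, 2, by decide, .inl (der20 M C)⟩
    · obtain ⟨t, tt, C⟩ := nrm C rfl (p221 S C)
      exact ⟨t, tt, 1, by decide, .inr (der21 M C)⟩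
    exacts [(ks22 S C).elim, (ks23 S C).elim]
  exacts [(kr0 S C).elim, (kr1 S C).elim, (kr2 S C).elim]

/-- The generators with the letter `6` inverted. -/
def tw (f : ℕ → G) : ℕ → G := Function.update f 6 (f 6)⁻¹

def W1 : List (List ℕ) := [[0], [2], [4], [6], [8], [10], [13], [14]]

theorem tw_lt {w : List ℕ} (hw : lt2 6 w = true) : wval (tw f) w = wval f w := wval_upd _ hw

theorem tw_wval {w : List ℕ} (hw : lt2 8 w = true) : wval (tw f) w = wval (FH f) (subst W1 w) := by
  rw [wval_subst]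
  refine wval_congr (n := 8) (fun i hi => ?_) (by simpa using hw)
  have e := fun i (hi : i < 8) => ((wval_single (FH f) i).trans (ext_of_lt f _ hi)).symm
  interval_cases i
  exacts [e 0 hi, e 1 hi, e 2 hi, e 3 hi, e 4 hi, e 5 hi,
    (congrArg (·⁻¹) (e 6 hi)).trans (wval_invW _ [12]).symm, e 7 hi]

theorem tw_gp (n : ℕ) : gp (tw f) (sing n) = gp f (sing n) := by
  have key : ∀ {f g : ℕ → G}, (∀ i, g i = f i ∨ g i = (f i)⁻¹) → gp g (sing n) ≤ gp f (sing n) :=
    fun h => gp_le.2 fun w hw => by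
      obtain ⟨i, hi, rfl⟩ := List.mem_map.1 hw
      rw [wval_single]
      rcases h i with e | e <;> rw [e]
      exacts [mem_sing _ (List.mem_range.1 hi), inv_mem (mem_sing _ (List.mem_range.1 hi))]
  refine le_antisymm (key fun i => ?_) (key fun i => ?_) <;> by_cases h : i = 6 <;> simp [tw, h]

theorem twist (B : SB z f) : SB z (tw f) := by
  obtain ⟨M, -⟩ := modelH B
  have e6 : tw f 6 = (f 6)⁻¹ := Function.update_self _ _ _
  have c : ∀ {g : G}, g * tw f 6 = tw f 6 * g → g * f 6 = f 6 * g := fun {g} h => by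
    rw [e6] at h
    exact (Commute.inv_right_iff.1 h).eq
  refine ⟨(tw_gp 8).trans B.top, fun w hw => ?_, (tw_lt (by decide)).trans B.zw, B.card, ?_, ?_, ?_⟩
  · rw [tw_wval (List.all_eq_true.1 (by decide +kernel : LyK.K1.all (lt2 8) = true) w hw)]
    exact M.rels (LyK.K1.map (subst W1)) (by decide +kernel) _ (List.mem_map_of_mem hw)
  · rw [tw_lt (w := yw) (by decide)]; exact B.cls
  · rw [tw_gp]; exact fun g hg h => B.cx g hg (c h)
  · rw [tw_lt (w := yw) (by decide), tw_gp]; exact fun g hg h1 h => B.cls2 g hg h1 (c h)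

theorem EL_tw (B : SB z f) (i : ℕ) (hi : i < 8) : EL (tw f) 1 i = wval (EL f 1) (LyMD.Wt.getD i []) := by
  have e := fun i => (wval_single (EL f 1) i).symm
  interval_cases i
  · exact e 0
  · exact e 1
  · exact e 2
  · exact e 3
  · exact e 4
  · exact e 5
  · exact (congrArg (·⁻¹) (e 6)).trans (wval_invW _ [12]).symm
  · obtain ⟨M, -⟩ := modelH B
    exact (tw_wval (w := LyKM.sw) (by decide)).trans ((M.eq _ _ (by decide +kernel)).trans
      (wE (by decide)).symm)

theorem cj_of {F F' : ℕ → G} {t : G} {us vs : List (List ℕ)} (g : List ℕ → List ℕ) (g0 : g [] = [])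
    (h : ∀ w, lt2 8 w = true → wval F' w = wval F (g w)) (hb : (us ++ vs).all (lt2 8) = true)
    (C : Cj t F (us.map g) (vs.map g)) : Cj t F' us vs := fun i => by
  have e : ∀ ws : List (List ℕ), ws.all (lt2 8) = true →
      wval F' (ws.getD i []) = wval F ((ws.map g).getD i []) := fun ws hw => by
    rw [← g0, List.getD_map, g0, ← getW_eq]
    refine h _ ?_
    rcases getW_mem_or ws i with h | h
    · exact List.all_eq_true.1 hw _ h
    · rw [h]; rfl
  rw [List.all_append, Bool.and_eq_true] at hb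
  rw [e _ hb.1, e _ hb.2]
  exact C i

/-- The involution `t`. -/
theorem exists_t [Finite G] (B : SB z f) {n : G} (h1 : n * z = wval f yw * n)
    (h2 : n * wval f yw = z * n) : ∃ f', SB z f' ∧ ∃ t, t * t = 1 ∧ ∃ k < 3,
      Cj t (FD f') LyMD.usF (LyMD.vsF k) := by
  obtain ⟨t, tt, k, hk, C | C⟩ := exists_A B h1 h2
  · exact ⟨f, B, t, tt, k, hk, C⟩
  · refine ⟨tw f, twist B, t, tt, k, hk, cj_of (subst LyMD.Wt) rfl (fun w hw => ?_)
      ((by decide : ∀ k < 3, (LyMD.usF ++ LyMD.vsF k).all (lt2 8) = true) k hk) C⟩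
    rw [wval_ext _ 8 _ _ hw, wval_subst]
    refine wval_congr (n := 8) (fun i hi => (EL_tw B i hi).trans (wval_ext _ 8 _ _ ?_).symm)
      (by simpa using hw)
    revert i; decide

end Cfsg.Agent.Lib.LyS
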