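import Cfsg.Agent.Lib.LyS1
import Cfsg.Agent.Lib.LyQ

/-! The relators of the normaliser of the letter `6`. -/

set_option autoImplicit false
set_option maxRecDepth 100000

namespace Cfsg.Agent.Lib.LyS

open Subgroup Cfsg.Agent.Lib.PermNet Cfsg.Agent.Lib.Words Cfsg.Agent.Lib.PermGroup Cfsg.Agent.Lib.DCE
  Cfsg.Agent.Lib.BT Cfsg.Agent.Lib.LyDefs

variable {G : Type*} [Group G] {z t : G} {f : ℕ → G} {k : ℕ}

def bw : List ℕ := [1, 9, 6, 11, 6, 2, 5, 2]

def ctw : List ℕ := [3, 0, 11, 6, 9, 6, 4, 0]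

def vw : List ℕ := [7, 4, 11, 3, 8, 4, 2, 1]

def usR (k : ℕ) : List (List ℕ) :=
  [[14], [2, 0, 11, 7, 4, 9, 4, 0, 2], invW [9, 1, 4, 2] ++ List.replicate k 12, [12]]

def vsR : List (List ℕ) := [[14], [2, 0, 11, 7, 4, 9, 4, 0, 2], [9, 1, 4, 2], [12]]

/-- The relators for the parameter `k`. -/
def KK (k : ℕ) (u : List ℕ) : List (List ℕ) :=
  (LyK.K8 ++ LyK.KD) ++ amRels 8 (usR k) vsR [[bw, bw, bw], [ctw, ctw, ctw ++ invW u]]

theorem relE [Finite G] (B : SB z f) (tt : t * t = 1) (hk : k < 3)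
    (C : Cj t (FD f) LyMD.usF (LyMD.vsF k)) {u : List ℕ} (hu : u ∈ [[], vw])
    (h : (t * wval (FD f) [30]) ^ 3 = wval (FD f) u) : ∀ w ∈ KK k u, wval (EL f t) w = 1 := by
  obtain ⟨M, S⟩ := modelD B
  refine all_append (fun w hw => (wt t (List.all_eq_true.1
    (by decide +kernel : (LyK.K8 ++ LyK.KD).all no8 = true) w hw)).trans (relD B w hw)) ?_
  rw [EL_upd]
  obtain ⟨x, hx, e⟩ := LyMD.p3 S (LyMD.derA M C)
  rw [List.mem_singleton.1 hx, M.eq [22] bw (by decide +kernel)] at e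
  rw [M.eq [30] ctw (by decide +kernel)] at h
  refine amRels_one (F := FD f) (us := usR k) (vs := vsR) (fun i hi => (ext_of_lt _ _ hi).symm)
    (.cons (C 1) (.cons (C 7) (.cons ?_ (.cons (C 6) .nil)))) tt
    (List.forall_mem_cons.2 ⟨?_, List.forall_mem_singleton.2 ?_⟩) ?_
  · have h0 : t * wval (FD f) [9, 1, 4, 2] =
      wval (FD f) (invW [9, 1, 4, 2] ++ List.replicate k 12) * t := C 0
    rw [← mul_one (t * _), ← tt, ← mul_assoc, mul_assoc t, ← h0, ← mul_assoc, tt, one_mul]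
  · simpa [tv, pow_succ, mul_assoc] using e
  · simp only [tv, List.map_cons, List.map_nil, List.prod_cons, List.prod_nil, wval_append,
      wval_invW, ← h]
    group
  · exact (by decide : ∀ k < 3, ∀ u ∈ [[], vw], ((usR k).all (lt2 8) && vsR.all (lt2 8) &&
      [[bw, bw, bw], [ctw, ctw, ctw ++ invW u]].all (·.all (lt2 8))) = true) k hk u hu

theorem yz (B : SB z f) : wval f yw ≠ z := by
  rw [← hz B 1, ← wf 1 (by decide)]
  exact hne B _ _ (by decide +kernel)

theorem tz (B : SB z f) (C : Cj t (FD f) LyMD.usF (LyMD.vsF k)) : t * z * t⁻¹ = wval f yw := by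
  have h : t * wval (FD f) [0, 2, 0, 2] = wval (FD f) yw * t := C 4
  rw [wval_ext _ 8 _ _ (by decide), wval_ext _ 8 _ _ (by decide), hz B, wf 1 (by decide)] at h
  exact mul_inv_eq_iff_eq_mul.2 h

theorem not_memD (B : SB z f) (h : t * z * t⁻¹ = wval f yw) : EL f t 8 ∉ gp (EL f t) (sing 8) :=
  fun e => yz B (by
    rw [← h, mul_inv_eq_iff_eq_mul]
    exact mem_centralizer_singleton_iff.1 (DD_le B (DD_eq (f := f) t ▸ e)))

theorem relK [Finite G] (B : SB z f) (tt : t * t = 1) (hk : k < 3)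
    (C : Cj t (FD f) LyMD.usF (LyMD.vsF k)) : ∀ w ∈ KK k [], wval (EL f t) w = 1 := by
  obtain ⟨M, S⟩ := modelD B
  obtain ⟨u, hu, e⟩ := LyMD.pc S (LyMD.derA M C)
  have cc : wval (FD f) [30] * wval (FD f) [30] = 1 :=
    (wval_append _ _ _).symm.trans (M.one _ (by decide +kernel))
  have hu := LyMD.ifil M (LyMD.derA M C) hu (by
    rw [← e, ← inv_pow, mul_inv_rev, inv_eq_of_mul_eq_one_right tt, inv_eq_of_mul_eq_one_right cc]
    simp only [pow_succ, pow_zero, one_mul, mul_assoc, tt, mul_one]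
    rw [← mul_assoc, tt, one_mul])
  simp only [List.mem_cons, List.not_mem_nil, or_false] at hu
  rcases hu with rfl | rfl
  · exact relE B tt hk C (by decide) e
  · have h := relE B tt hk C (u := vw) (by decide) (e.trans (M.eq _ _ (by decide +kernel)))
    obtain ⟨X, _, q, Q⟩ := LyQ.exists_q (E := EL f t) fun w hw => h w
      (List.mem_of_elem_eq_true (List.all_eq_true.1 ((by decide +kernel :
        ∀ k < 3, LyQ.KN.all (KK k vw).contains = true) k hk) w hw))
    exact absurd (Q.back (LySC.col _ (Q.rels h (by clear h C; revert k; decide +kernel))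
      (Q.rels h (by clear h C; revert k; decide +kernel)))) (not_memD B (tz B C))

end Cfsg.Agent.Lib.LyS
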