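import Cfsg.Agent.Lib.LySDF0

set_option autoImplicit false
set_option maxRecDepth 100000

namespace Cfsg.Agent.Lib.LySD
open Cfsg.Agent.Lib.PermNet Cfsg.Agent.Lib.DCE

noncomputable def FF : FT := (.node (nat_lit 64) (.node (nat_lit 32) f0 f32) (.node (nat_lit 96) f64 f96))

def TM : List Tm := [⟨false, [], [(false, []), (true, [])]⟩,
  ⟨true, [], [(false, [])]⟩,
  ⟨true, [3, 4, 3, 7, 10, 7, 8, 0], [(false, [3, 4, 3, 7, 10, 7, 8, 0]), (true, [3, 4, 3, 7, 10, 7, 8, 0])]⟩,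
  ⟨true, [1, 5, 7, 8, 7, 10, 1, 2], [(false, [1, 5, 7, 8, 7, 10, 1, 2]), (true, [1, 5, 7, 8, 7, 10, 1, 2])]⟩,
  ⟨true, [1, 5, 7, 8, 7, 10, 1, 2], [(false, [1, 5, 7, 8, 7, 10, 1, 2]), (false, [1, 5, 7, 8, 7, 10, 1, 2])]⟩]

def XW : List (List (List Nat)) := [[],
  [[]],
  [[], [4]],
  [[], [0]],
  [[], [2, 0]],
  [[], [4], [0]]]

def BB : List Nat := [(nat_lit 0), (nat_lit 1), (nat_lit 2)]



end Cfsg.Agent.Lib.LySD
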