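import Cfsg.Agent.Lib.Golay
import Cfsg.Agent.Lib.PermModel

/-! The order of `M24`, standard generators, and normal subgroups. -/

set_option autoImplicit false
set_option maxRecDepth 100000

namespace Cfsg.Agent.Lib.M24Ord
open Cfsg.Agent.Lib.PermNet Cfsg.Agent.Lib.Words Cfsg.Agent.Lib.PermGroup Cfsg.Agent.Lib.Golay

noncomputable def m0_0 : Nat := (nat_lit 0x15145)
noncomputable def m0_1 : Nat := (nat_lit 0x111020)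
noncomputable def m0_2 : Nat := (nat_lit 0xc050b)
noncomputable def m0_3 : Nat := (nat_lit 0x45)
noncomputable def m0_4 : Nat := (nat_lit 0xed)
noncomputable def m0_5 : Nat := (nat_lit 0xa8)
noncomputable def m0_6 : Nat := (nat_lit 0x30100)
noncomputable def m0_7 : Nat := (nat_lit 0x222010)
noncomputable def m0_8 : Nat := (nat_lit 0x540410)
noncomputable def net0 : Net := (.cons (nat_lit 1) m0_0 (.cons (nat_lit 2) m0_1 (.cons (nat_lit 4) m0_2 (.cons (nat_lit 8) m0_3 (.cons (nat_lit 16) m0_4 (.cons (nat_lit 8) m0_5 (.cons (nat_lit 4) m0_6 (.cons (nat_lit 2) m0_7 (.cons (nat_lit 1) m0_8 .nil)))))))))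
theorem valid0 : net0.Valid 24 := valid_of_validB _ (by decide +kernel)
noncomputable def m1_0 : Nat := (nat_lit 0x514514)
noncomputable def m1_1 : Nat := (nat_lit 0x202020)
noncomputable def m1_2 : Nat := (nat_lit 0x40c01)
noncomputable def m1_3 : Nat := (nat_lit 0x2a)
noncomputable def m1_4 : Nat := (nat_lit 0xa6)
noncomputable def m1_5 : Nat := (nat_lit 0x26)
noncomputable def m1_6 : Nat := (nat_lit 0x40000)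
noncomputable def m1_7 : Nat := (nat_lit 0x200010)
noncomputable def m1_8 : Nat := (nat_lit 0x110440)
noncomputable def net1 : Net := (.cons (nat_lit 1) m1_0 (.cons (nat_lit 2) m1_1 (.cons (nat_lit 4) m1_2 (.cons (nat_lit 8) m1_3 (.cons (nat_lit 16) m1_4 (.cons (nat_lit 8) m1_5 (.cons (nat_lit 4) m1_6 (.cons (nat_lit 2) m1_7 (.cons (nat_lit 1) m1_8 .nil)))))))))
theorem valid1 : net1.Valid 24 := valid_of_validB _ (by decide +kernel)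

noncomputable def nets : NL := (.cons net0 (.cons net1 .nil))

theorem hv : nets.Valid 24 := ⟨valid0, ⟨valid1, trivial⟩⟩

theorem ch_0 : levelB nets [[0], [2]] [] 0 [0, 1, 0, 1, 0, 1, 0, 1, 0, 1, 0, 1, 0] 0 24 24 = true := by decide +kernel

theorem ch_1 : levelB nets [[0, 2, 0], [3, 0, 2, 0, 2], [2, 0, 3, 0, 3, 0, 2, 0, 2, 0, 2, 0, 3]] [0] 1 [0, 0, 1, 0, 0, 2, 0, 1, 0, 0, 1, 2] 1 23 23 = true := by decide +kernel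

theorem ch_2 : levelB nets [[2, 0, 3, 0, 3, 0, 2, 0, 2, 0, 2, 0, 3], [3, 0, 2, 0, 2, 0, 3, 0]] [1, 0] 2 [1, 1, 0, 1, 0, 1, 1, 0, 1, 1] 2 22 22 = true := by decide +kernel

theorem ch_3 : levelB nets [[2, 0, 3, 0, 3, 0, 2, 0, 2, 0, 2, 0, 3], [3, 0, 2, 0, 2, 0, 3, 0, 3, 0, 2, 0, 2, 0, 3, 0, 2, 0, 3, 0, 3, 0, 2, 0, 2, 0, 2, 0, 3, 3, 0, 2, 0, 2, 0, 3, 0]] [2, 1, 0] 3 [0, 0, 1, 0, 0, 1, 0] 3 21 21 = true := by decide +kernel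

theorem ch_4 : levelB nets [[0, 2, 0, 3, 0, 3, 0, 2, 2, 0, 3, 0, 3, 0, 3, 0, 2, 0, 2, 0, 3, 0, 2, 0, 3, 0, 3, 0, 2, 0, 2, 0, 3, 0, 3, 0, 2, 2, 0, 3, 0, 3, 0, 2, 0, 2, 0, 2, 0, 3, 3, 0, 2, 0, 2, 0, 3, 0, 3, 0, 2, 0, 2, 0, 3, 0, 2, 0, 3, 0, 3, 0, 2, 0, 2, 0, 2, 0, 3, 3, 0, 2, 0, 2, 0, 3, 0], [3, 0, 2, 0, 2, 0, 3, 0, 3, 0, 2, 0, 2, 0, 3, 0, 2, 0, 3, 0, 3, 0, 2, 0, 2, 0, 2, 0, 3, 3, 0, 2, 0, 2, 0, 3, 0, 2, 0, 3, 0, 3, 0, 2, 0, 2, 0, 2, 0, 3, 3, 0, 2, 0, 2, 0, 3, 0, 3, 0, 2, 0, 2, 0, 3, 0, 2, 0, 3, 0, 3, 0, 2, 0, 2, 0, 2, 0, 3, 3, 0, 2, 0, 2, 0, 3, 0, 3, 0, 2, 0, 2, 0, 3, 0, 3, 0, 2, 0, 2, 0, 3, 0, 2, 0, 3, 0, 3, 0, 2, 0, 2, 0, 2, 0, 3, 3, 0, 2, 0, 2, 0, 3, 0]] [3, 2, 1, 0] 4 [0, 1, 0, 1, 0, 1] 4 20 20 = true := by decide +kernel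

theorem ch_5 : levelB nets [[0, 2, 0, 3, 0, 3, 0, 2, 2, 0, 3, 0, 3, 0, 3, 0, 2, 0, 2, 0, 3, 0, 2, 0, 3, 0, 3, 0, 2, 0, 2, 0, 3, 0, 3, 0, 2, 2, 0, 3, 0, 3, 0, 3, 0, 2, 0, 2, 0, 3, 3, 0, 2, 0, 2, 0, 3, 0, 3, 0, 2, 0, 2, 0, 3, 0, 2, 0, 3, 0, 3, 0, 2, 0, 2, 0, 2, 0, 3, 3, 0, 2, 0, 2, 0, 3, 0, 3, 0, 2, 0, 2, 0, 3, 0, 3, 0, 2, 0, 2, 0, 3, 0, 2, 0, 3, 0, 3, 0, 2, 0, 2, 0, 2, 0, 3, 3, 0, 2, 0, 2, 0, 3, 0, 2, 0, 3, 0, 3, 0, 2, 0, 2, 0, 2, 0, 3, 3, 0, 2, 0, 2, 0, 3, 0, 3, 0, 2, 0, 2, 0, 3, 0, 2, 0, 3, 0, 3, 0, 2, 0, 2, 0, 2, 0, 3, 3, 0, 2, 0, 2, 0, 3, 0, 3, 0, 2, 0, 2, 0, 3, 0, 3, 0, 2, 0, 2, 0, 3, 0, 2, 0, 3, 0, 3, 0, 2, 0, 2, 0, 2, 0, 3, 3, 0, 2, 0, 2, 0, 3, 0, 3, 0, 2, 0, 2, 0, 3, 0, 3, 0, 2, 0, 2, 0, 3, 0, 2, 0, 3, 0, 3, 0, 2, 0, 2, 0, 2, 0, 3, 3, 0, 2,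 0, 2, 0, 3, 0, 2, 0, 3, 0, 3, 0, 2, 0, 2, 0, 2, 0, 3, 3, 0, 2, 0, 2, 0, 3, 0, 3, 0, 2, 0, 2, 0, 3, 0, 2, 0, 3, 0, 3, 0, 2, 0, 2, 0, 2, 0, 3, 3, 0, 2, 0, 2, 0, 3, 0, 2, 0, 3, 0, 3, 0, 3, 0, 2, 0, 2, 0, 3, 3, 0, 2, 0, 2, 0, 3, 0, 3, 0, 2, 0, 2, 0, 3, 0, 2, 0, 3, 0, 3, 0, 2, 0, 2, 0, 2, 0, 3, 3, 0, 2, 0, 2, 0, 3, 0], [0, 2, 0, 3, 0, 3, 0, 2, 2, 0, 3, 0, 3, 0, 3, 0, 2, 0, 2, 0, 3, 0, 2, 0, 3, 0, 3, 0, 2, 0, 2, 0, 3, 0, 3, 0, 2, 2, 0, 3, 0, 3, 0, 3, 0, 2, 0, 2, 0, 3, 0, 2, 0, 3, 0, 3, 0, 2, 2, 0, 3, 0, 3, 0, 3, 0, 2, 0, 2, 0, 3, 0, 2, 0, 3, 0, 3, 0, 2, 0, 2, 0, 3, 0, 3, 0, 2, 2, 0, 3, 0, 3, 0, 3, 0, 2, 0, 2, 0, 3, 0, 2, 0, 3, 0, 3, 0, 2, 2, 0, 3, 0, 3, 0, 3, 0, 2, 0, 2, 0, 3, 0, 2, 0, 3, 0, 3, 0, 2, 0, 2, 0, 3, 0, 3, 0, 2, 0, 2, 0, 3, 0, 3, 0, 2, 2, 0,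 3, 0, 3, 0, 3, 0, 2, 0, 2, 0, 3, 0, 2, 0, 3, 0, 3, 0, 2, 0, 2, 0, 3, 0, 3, 0, 2, 2, 0, 3, 0, 3, 0, 2, 0, 2, 0, 2, 0, 3, 3, 0, 2, 0, 2, 0, 3, 0, 3, 0, 2, 0, 2, 0, 3, 0, 2, 0, 3, 0, 3, 0, 2, 0, 2, 0, 2, 0, 3, 3, 0, 2, 0, 2, 0, 3, 0, 3, 0, 2, 0, 2, 0, 3, 0, 3, 0, 2, 0, 2, 0, 3, 0, 2, 0, 3, 0, 3, 0, 2, 0, 2, 0, 2, 0, 3, 3, 0, 2, 0, 2, 0, 3, 0, 2, 0, 3, 0, 3, 0, 2, 0, 2, 0, 2, 0, 3, 3, 0, 2, 0, 2, 0, 3, 0, 3, 0, 2, 0, 2, 0, 3, 0, 2, 0, 3, 0, 3, 0, 2, 0, 2, 0, 2, 0, 3, 3, 0, 2, 0, 2, 0, 3, 0, 2, 0, 3, 0, 3, 0, 3, 0, 2, 0, 2, 0, 3, 3, 0, 2, 0, 2, 0, 3, 0, 3, 0, 2, 0, 2, 0, 3, 0, 2, 0, 3, 0, 3, 0, 2, 0, 2, 0, 2, 0, 3, 3, 0, 2, 0, 2, 0, 3, 0, 3, 0, 2, 0, 2, 0, 3, 0, 3, 0, 2, 0, 2, 0, 3, 0, 2, 0, 3, 0, 3, 0, 2, 0, 2, 0, 2, 0, 3, 3, 0, 2, 0, 2, 0, 3, 0, 2, 0,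 3, 0, 3, 0, 2, 0, 2, 0, 2, 0, 3, 3, 0, 2, 0, 2, 0, 3, 0, 3, 0, 2, 0, 2, 0, 3, 0, 2, 0, 3, 0, 3, 0, 2, 0, 2, 0, 2, 0, 3, 3, 0, 2, 0, 2, 0, 3, 0, 3, 0, 2, 0, 2, 0, 3, 0, 3, 0, 2, 0, 2, 0, 3, 0, 2, 0, 3, 0, 3, 0, 2, 0, 2, 0, 2, 0, 3, 3, 0, 2, 0, 2, 0, 3, 0], [0, 2, 0, 3, 0, 3, 0, 2, 2, 0, 3, 0, 3, 0, 3, 0, 2, 0, 2, 0, 3, 0, 2, 0, 3, 0, 3, 0, 2, 0, 2, 0, 3, 0, 3, 0, 2, 0, 2, 0, 3, 0, 3, 0, 2, 2, 0, 3, 0, 3, 0, 3, 0, 2, 0, 2, 0, 3, 0, 2, 0, 3, 0, 3, 0, 2, 0, 2, 0, 3, 0, 3, 0, 2, 2, 0, 3, 0, 3, 0, 3, 0, 2, 0, 2, 0, 3, 0, 2, 0, 3, 0, 3, 0, 2, 2, 0, 3, 0, 3, 0, 3, 0, 2, 0, 2, 0, 3, 0, 2, 0, 3, 0, 3, 0, 2, 0, 2, 0, 3, 0, 3, 0, 2, 0, 2, 0, 3, 0, 3, 0, 2, 2, 0, 3, 0, 3, 0, 3, 0, 2, 0, 2, 0, 3, 0, 2, 0, 3, 0, 3, 0, 2, 0, 2, 0, 3, 0, 3, 0, 2, 2, 0, 3, 0, 3, 0,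 3, 0, 2, 0, 2, 0, 3, 3, 0, 2, 0, 2, 0, 3, 0, 3, 0, 2, 0, 2, 0, 3, 0, 2, 0, 3, 0, 3, 0, 2, 0, 2, 0, 2, 0, 3, 3, 0, 2, 0, 2, 0, 3, 0, 3, 0, 2, 0, 2, 0, 3, 0, 3, 0, 2, 0, 2, 0, 3, 0, 2, 0, 3, 0, 3, 0, 2, 0, 2, 0, 2, 0, 3, 3, 0, 2, 0, 2, 0, 3, 0, 2, 0, 3, 0, 3, 0, 2, 0, 2, 0, 2, 0, 3, 3, 0, 2, 0, 2, 0, 3, 0, 3, 0, 2, 0, 2, 0, 3, 0, 2, 0, 3, 0, 3, 0, 2, 0, 2, 0, 2, 0, 3, 3, 0, 2, 0, 2, 0, 3, 0, 3, 0, 2, 0, 2, 0, 3, 0, 3, 0, 2, 0, 2, 0, 3, 0, 2, 0, 3, 0, 3, 0, 2, 0, 2, 0, 2, 0, 3, 3, 0, 2, 0, 2, 0, 3, 0, 3, 0, 2, 0, 2, 0, 3, 0, 3, 0, 2, 0, 2, 0, 3, 0, 2, 0, 3, 0, 3, 0, 2, 0, 2, 0, 2, 0, 3, 3, 0, 2, 0, 2, 0, 3, 0, 2, 0, 3, 0, 3, 0, 2, 0, 2, 0, 2, 0, 3, 3, 0, 2, 0, 2, 0, 3, 0, 3, 0, 2, 0, 2, 0, 3, 0, 2, 0, 3, 0, 3, 0, 2, 0, 2, 0, 2, 0, 3, 3, 0, 2, 0, 2, 0,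 3, 0, 2, 0, 3, 0, 3, 0, 2, 0, 2, 0, 2, 0, 3, 0, 2, 0, 3, 0, 3, 0, 2, 2, 0, 3, 0, 3, 0, 3, 0, 2, 0, 2, 0, 3, 0, 2, 0, 3, 0, 3, 0, 2, 0, 2, 0, 3, 0, 3, 0, 2, 2, 0, 3, 0, 3, 0, 3, 0, 2, 0, 2, 0, 3, 0, 2, 0, 3, 0, 3, 0, 2, 2, 0, 3, 0, 3, 0, 3, 0, 2, 0, 2, 0, 3, 0, 2, 0, 3, 0, 3, 0, 2, 0, 2, 0, 3, 0, 3, 0, 2]] [4, 3, 2, 1, 0] 5 [0, 1, 0, 0, 2, 0] 5 19 16 = true := by decide +kernel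

theorem ch_6 : levelB nets [[0, 2, 0, 3, 0, 3, 0, 2, 2, 0, 3, 0, 3, 0, 3, 0, 2, 0, 2, 0, 3, 0, 2, 0, 3, 0, 3, 0, 2, 0, 2, 0, 3, 0, 3, 0, 2, 2, 0, 3, 0, 3, 0, 2, 0, 2, 0, 2, 0, 3, 0, 2, 0, 3, 0, 3, 0, 2, 2, 0, 3, 0, 3, 0, 3, 0, 2, 0, 2, 0, 3, 0, 2, 0, 3, 0, 3, 0, 2, 0, 2, 0, 3, 0, 3, 0, 2, 2, 0, 3, 0, 3, 0, 3, 0, 2, 0, 2, 0, 3, 0, 2, 0, 3, 0, 3, 0, 2, 2, 0, 3, 0, 3, 0, 3, 0, 2, 0, 2, 0, 3, 0, 2, 0, 3, 0, 3, 0, 2, 0, 2, 0, 3, 0, 3, 0, 2, 0, 2, 0, 3, 0, 3, 0, 2, 2, 0, 3, 0, 3, 0, 3, 0, 2, 0, 2, 0, 3, 0, 2, 0, 3, 0, 3, 0, 2, 0, 2, 0, 3, 0, 3, 0, 2, 0, 2, 0, 3, 0, 3, 0, 2, 2, 0, 3, 0, 3, 0, 3, 0, 2, 0, 2, 0, 3, 0, 2, 0, 3, 0, 3, 0, 2, 0, 2, 0, 3, 0, 3, 0, 2, 2, 0, 3, 0, 3, 0, 3, 0, 2, 0, 2, 0, 3, 0, 2, 0, 3, 0, 3, 0, 2, 2, 0, 3, 0, 3, 0, 3, 0, 2, 0, 2,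 0, 3, 0, 2, 0, 3, 0, 3, 0, 2, 0, 2, 0, 3, 0, 3, 0, 2, 0, 2, 0, 3, 0, 3, 0, 2, 2, 0, 3, 0, 3, 0, 3, 0, 2, 0, 2, 0, 3, 0, 2, 0, 3, 0, 3, 0, 2, 0, 2, 0, 3, 0, 3, 0, 2, 2, 0, 3, 0, 3, 0, 2, 0, 2, 0, 2, 0, 3, 0, 2, 0, 3, 0, 3, 0, 2, 2, 0, 3, 0, 3, 0, 3, 0, 2, 0, 2, 0, 3, 0, 2, 0, 3, 0, 3, 0, 2, 0, 2, 0, 3, 0, 3, 0, 2, 2, 0, 3, 0, 3, 0, 3, 0, 2, 0, 2, 0, 3, 0, 2, 0, 3, 0, 3, 0, 2, 2, 0, 3, 0, 3, 0, 3, 0, 2, 0, 2, 0, 3, 0, 2, 0, 3, 0, 3, 0, 2, 0, 2, 0, 3, 0, 3, 0, 2, 0, 2, 0, 3, 0, 3, 0, 2, 2, 0, 3, 0, 3, 0, 3, 0, 2, 0, 2, 0, 3, 0, 2, 0, 3, 0, 3, 0, 2, 0, 2, 0, 3, 0, 3, 0, 2, 2, 0, 3, 0, 3, 0, 3, 0, 2, 0, 2, 0, 3, 3, 0, 2, 0, 2, 0, 3, 0, 3, 0, 2, 0, 2, 0, 3, 0, 2, 0, 3, 0, 3, 0, 2, 0, 2, 0, 2, 0, 3, 3, 0, 2, 0, 2, 0, 3, 0, 3, 0, 2, 0, 2, 0, 3, 0, 3, 0, 2,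 0, 2, 0, 3, 0, 2, 0, 3, 0, 3, 0, 2, 0, 2, 0, 2, 0, 3, 3, 0, 2, 0, 2, 0, 3, 0, 2, 0, 3, 0, 3, 0, 2, 0, 2, 0, 2, 0, 3, 3, 0, 2, 0, 2, 0, 3, 0, 3, 0, 2, 0, 2, 0, 3, 0, 2, 0, 3, 0, 3, 0, 2, 0, 2, 0, 2, 0, 3, 3, 0, 2, 0, 2, 0, 3, 0, 3, 0, 2, 0, 2, 0, 3, 0, 3, 0, 2, 0, 2, 0, 3, 0, 2, 0, 3, 0, 3, 0, 2, 0, 2, 0, 2, 0, 3, 3, 0, 2, 0, 2, 0, 3, 0, 3, 0, 2, 0, 2, 0, 3, 0, 3, 0, 2, 0, 2, 0, 3, 0, 2, 0, 3, 0, 3, 0, 2, 0, 2, 0, 2, 0, 3, 3, 0, 2, 0, 2, 0, 3, 0, 2, 0, 3, 0, 3, 0, 2, 0, 2, 0, 2, 0, 3, 3, 0, 2, 0, 2, 0, 3, 0, 3, 0, 2, 0, 2, 0, 3, 0, 2, 0, 3, 0, 3, 0, 2, 0, 2, 0, 2, 0, 3, 3, 0, 2, 0, 2, 0, 3, 0, 2, 0, 3, 0, 3, 0, 2, 0, 2, 0, 2, 0, 3, 0, 2, 0, 3, 0, 3, 0, 2, 2, 0, 3, 0, 3, 0, 3, 0, 2, 0, 2, 0, 3, 0, 2, 0, 3, 0, 3, 0, 2, 0, 2, 0, 3, 0, 3, 0, 2, 2, 0, 3,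 0, 3, 0, 3, 0, 2, 0, 2, 0, 3, 0, 2, 0, 3, 0, 3, 0, 2, 2, 0, 3, 0, 3, 0, 3, 0, 2, 0, 2, 0, 3, 0, 2, 0, 3, 0, 3, 0, 2, 0, 2, 0, 3, 0, 3, 0, 2]] [5, 4, 3, 2, 1, 0] 6 [0, 0] 6 16 3 = true := by decide +kernel

/-- Standard generators `x = f 0`, `y = f 1` of `M24`. -/
def f : ℕ → Equiv.Perm GolayPt
  | 0 => ofList [18, 6, 20, 11, 12, 17, 1, 14, 9, 8, 23, 3, 4, 19, 7, 21, 22, 5, 0, 13, 2, 15, 16, 10] [18, 6, 20, 11, 12, 17, 1, 14, 9, 8, 23, 3, 4, 19, 7, 21, 22, 5, 0, 13, 2, 15, 16, 10] (by decide +kernel)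
  | 1 => ofList [5, 1, 15, 13, 6, 7, 20, 0, 9, 16, 2, 23, 12, 22, 11, 10, 8, 17, 18, 19, 4, 21, 3, 14] [7, 1, 10, 22, 20, 0, 4, 5, 16, 8, 15, 14, 12, 3, 23, 2, 9, 17, 18, 19, 6, 21, 13, 11] (by decide +kernel)
  | _ => 1

/-- The relators of `Spor.J4` in `x` and `y`. -/
def K : List (List ℕ) := [[0, 0], [2, 2, 2], [0, 2, 0, 2, 0, 2, 0, 2, 0, 2, 0, 2, 0, 2, 0, 2, 0, 2, 0, 2, 0, 2, 0, 2, 0, 2, 0, 2, 0, 2, 0, 2, 0, 2, 0, 2, 0, 2, 0, 2, 0, 2, 0, 2, 0, 2], [1, 3, 0, 2, 1, 3, 0, 2, 1, 3, 0, 2, 1, 3, 0, 2, 1, 3, 0, 2, 1, 3, 0, 2, 1, 3, 0, 2, 1, 3, 0, 2, 1, 3, 0, 2, 1, 3, 0, 2, 1, 3, 0, 2, 1, 3, 0, 2], [1, 3, 1, 3, 0, 2, 0, 2, 1, 3, 1, 3, 0, 2, 0, 2, 1, 3, 1, 3, 0, 2, 0, 2, 1, 3, 1, 3, 0, 2, 0, 2, 1, 3, 1, 3, 0, 2, 0, 2], [0, 2, 0, 2, 0, 3, 0, 2, 0, 3, 0,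 2, 0, 3, 0, 2, 0, 2, 0, 3, 0, 2, 0, 3, 0, 2, 0, 3, 0, 2, 0, 2, 0, 3, 0, 2, 0, 3, 0, 2, 0, 3, 0, 2, 0, 2, 0, 3, 0, 2, 0, 3, 0, 2, 0, 3], [0, 2, 0, 2, 0, 3, 0, 2, 0, 2, 0, 3, 0, 2, 0, 2, 0, 3, 0, 2, 0, 3, 0, 3, 0, 2, 0, 3, 0, 3, 0, 2, 0, 3, 0, 3]]

theorem f_mem : ∀ i, f i ∈ M24
  | 0 => mem_M24_of (by decide +kernel)
  | 1 => mem_M24_of (by decide +kernel)
  | _ + 2 => one_mem _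

/-- Permutations of the 24 points as permutations of the natural numbers. -/
noncomputable def phi : Equiv.Perm GolayPt →* Equiv.Perm ℕ := Equiv.Perm.viaEmbeddingHom ⟨idx, idx_injective⟩

theorem phi_injective : Function.Injective phi := Equiv.Perm.viaEmbeddingHom_injective _

theorem phi_idx (g : Equiv.Perm GolayPt) (p : GolayPt) : phi g (idx p) = idx (g p) :=
  Equiv.Perm.viaEmbedding_apply g ⟨idx, idx_injective⟩ p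

theorem hphi (i : ℕ) : phi (f i) = nets.perm i := by
  have key : ∀ i < 2, ∀ p, (app (nets.get i) (PermNet.pt (idx (f i p)))).testBit (idx p) = true := by decide +kernel
  by_cases hi : i < 2
  · ext n
    by_cases hn : n < 24
    · have := key i hi (Golay.pt n)
      rw [testBit_app _ (NL.valid_get nets hv i), testBit_pt, decide_eq_true_eq, idx_pt n hn] at this
      rw [← idx_pt n hn, phi_idx, ← this, idx_pt n hn]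
      rfl
    · rw [perm_fix hv (not_lt.mp hn)]
      exact Equiv.Perm.viaEmbedding_apply_of_notMem _ _ _ fun ⟨p, hp⟩ => hn (hp ▸ idx_lt p)
  · obtain ⟨i, rfl⟩ := Nat.exists_eq_add_of_le' (not_lt.mp hi)
    rw [perm_of_len_le nets (Nat.le_add_left 2 i)]
    exact phi.map_one

theorem rels : ∀ w ∈ K, wval f w = 1 := fun w hw => phi_injective (by
  rw [map_wval' hphi, map_one]
  exact derive [] (relW_one (wval_eq_of_relsOn (K := 5) (rels := K.map fun w => (w, [])) hv (by norm_num)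
    (relsOn_of_B _ _ _ _ 0 5 _ (by decide +kernel) (by decide +kernel)))) K (by decide +kernel) w hw)

theorem le_card_gp : 244823040 ≤ Nat.card (gp f [[0], [2]]) := by
  rw [Nat.card_congr ((gp f [[0], [2]]).equivMapOfInjective phi phi_injective).toEquiv]
  have := finite_map phi (L := gp f [[0], [2]]) Nat.card_pos.ne'
  rw [map_gp' hphi] at this ⊢
  rw [← fixer_nil (gp nets.perm _)]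
  exact (le_card_fixer hv [[0], [2]] (mem_gp_of_lettersIn (by decide +kernel)) [] 0 [0, 1, 0, 1, 0, 1, 0, 1, 0, 1, 0, 1, 0] 0 24 24 ch_0
    (le_card_fixer hv [[0, 2, 0], [3, 0, 2, 0, 2], [2, 0, 3, 0, 3, 0, 2, 0, 2, 0, 2, 0, 3]] (mem_gp_of_lettersIn (by decide +kernel)) [0] 1 [0, 0, 1, 0, 0, 2, 0, 1, 0, 0, 1, 2] 1 23 23 ch_1
    (le_card_fixer hv [[2, 0, 3, 0, 3, 0, 2, 0, 2, 0, 2, 0, 3], [3, 0, 2, 0, 2, 0, 3, 0]] (mem_gp_of_lettersIn (by decide +kernel)) [1, 0] 2 [1, 1, 0, 1, 0, 1, 1, 0, 1, 1] 2 22 22 ch_2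
    (le_card_fixer hv [[2, 0, 3, 0, 3, 0, 2, 0, 2, 0, 2, 0, 3], [3, 0, 2, 0, 2, 0, 3, 0, 3, 0, 2, 0, 2, 0, 3, 0, 2, 0, 3, 0, 3, 0, 2, 0, 2, 0, 2, 0, 3, 3, 0, 2, 0, 2, 0, 3, 0]] (mem_gp_of_lettersIn (by decide +kernel)) [2, 1, 0] 3 [0, 0, 1, 0, 0, 1, 0] 3 21 21 ch_3
    (le_card_fixer hv [[0, 2, 0, 3, 0, 3, 0, 2, 2, 0, 3, 0, 3, 0, 3, 0, 2, 0, 2, 0, 3, 0, 2, 0, 3, 0, 3, 0, 2, 0, 2, 0, 3, 0, 3, 0, 2, 2, 0, 3, 0, 3, 0, 2, 0, 2, 0, 2, 0, 3, 3, 0, 2, 0, 2, 0, 3, 0, 3, 0, 2, 0, 2, 0, 3, 0, 2, 0, 3, 0, 3, 0, 2, 0, 2, 0, 2, 0, 3, 3, 0, 2, 0, 2, 0, 3, 0], [3, 0, 2, 0, 2, 0, 3, 0, 3, 0, 2, 0, 2, 0, 3, 0, 2, 0, 3, 0, 3, 0, 2, 0, 2, 0, 2, 0, 3, 3, 0, 2, 0, 2, 0, 3, 0, 2, 0, 3, 0, 3, 0, 2, 0, 2, 0, 2, 0, 3, 3, 0, 2, 0, 2, 0, 3, 0, 3, 0, 2, 0, 2, 0, 3, 0, 2, 0, 3,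 0, 3, 0, 2, 0, 2, 0, 2, 0, 3, 3, 0, 2, 0, 2, 0, 3, 0, 3, 0, 2, 0, 2, 0, 3, 0, 3, 0, 2, 0, 2, 0, 3, 0, 2, 0, 3, 0, 3, 0, 2, 0, 2, 0, 2, 0, 3, 3, 0, 2, 0, 2, 0, 3, 0]] (mem_gp_of_lettersIn (by decide +kernel)) [3, 2, 1, 0] 4 [0, 1, 0, 1, 0, 1] 4 20 20 ch_4
    (le_card_fixer hv [[0, 2, 0, 3, 0, 3, 0, 2, 2, 0, 3, 0, 3, 0, 3, 0, 2, 0, 2, 0, 3, 0, 2, 0, 3, 0, 3, 0, 2, 0, 2, 0, 3, 0, 3, 0, 2, 2, 0, 3, 0, 3, 0, 3, 0, 2, 0, 2, 0, 3, 3, 0, 2, 0, 2, 0, 3, 0, 3, 0, 2, 0, 2, 0, 3, 0, 2, 0, 3, 0, 3, 0, 2, 0, 2, 0, 2, 0, 3, 3, 0, 2, 0, 2, 0, 3, 0, 3, 0, 2, 0, 2, 0, 3, 0, 3, 0, 2, 0, 2, 0, 3, 0, 2, 0, 3, 0, 3, 0, 2, 0, 2, 0, 2, 0, 3, 3, 0, 2, 0, 2, 0, 3, 0, 2, 0, 3, 0, 3, 0, 2, 0, 2, 0, 2, 0, 3, 3, 0, 2, 0, 2, 0, 3, 0, 3, 0, 2, 0, 2, 0, 3, 0, 2, 0, 3, 0, 3, 0, 2,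 0, 2, 0, 2, 0, 3, 3, 0, 2, 0, 2, 0, 3, 0, 3, 0, 2, 0, 2, 0, 3, 0, 3, 0, 2, 0, 2, 0, 3, 0, 2, 0, 3, 0, 3, 0, 2, 0, 2, 0, 2, 0, 3, 3, 0, 2, 0, 2, 0, 3, 0, 3, 0, 2, 0, 2, 0, 3, 0, 3, 0, 2, 0, 2, 0, 3, 0, 2, 0, 3, 0, 3, 0, 2, 0, 2, 0, 2, 0, 3, 3, 0, 2, 0, 2, 0, 3, 0, 2, 0, 3, 0, 3, 0, 2, 0, 2, 0, 2, 0, 3, 3, 0, 2, 0, 2, 0, 3, 0, 3, 0, 2, 0, 2, 0, 3, 0, 2, 0, 3, 0, 3, 0, 2, 0, 2, 0, 2, 0, 3, 3, 0, 2, 0, 2, 0, 3, 0, 2, 0, 3, 0, 3, 0, 3, 0, 2, 0, 2, 0, 3, 3, 0, 2, 0, 2, 0, 3, 0, 3, 0, 2, 0, 2, 0, 3, 0, 2, 0, 3, 0, 3, 0, 2, 0, 2, 0, 2, 0, 3, 3, 0, 2, 0, 2, 0, 3, 0], [0, 2, 0, 3, 0, 3, 0, 2, 2, 0, 3, 0, 3, 0, 3, 0, 2, 0, 2, 0, 3, 0, 2, 0, 3, 0, 3, 0, 2, 0, 2, 0, 3, 0, 3, 0, 2, 2, 0, 3, 0, 3, 0, 3, 0, 2, 0, 2, 0, 3, 0, 2, 0, 3, 0, 3, 0, 2, 2, 0, 3, 0, 3, 0,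 3, 0, 2, 0, 2, 0, 3, 0, 2, 0, 3, 0, 3, 0, 2, 0, 2, 0, 3, 0, 3, 0, 2, 2, 0, 3, 0, 3, 0, 3, 0, 2, 0, 2, 0, 3, 0, 2, 0, 3, 0, 3, 0, 2, 2, 0, 3, 0, 3, 0, 3, 0, 2, 0, 2, 0, 3, 0, 2, 0, 3, 0, 3, 0, 2, 0, 2, 0, 3, 0, 3, 0, 2, 0, 2, 0, 3, 0, 3, 0, 2, 2, 0, 3, 0, 3, 0, 3, 0, 2, 0, 2, 0, 3, 0, 2, 0, 3, 0, 3, 0, 2, 0, 2, 0, 3, 0, 3, 0, 2, 2, 0, 3, 0, 3, 0, 2, 0, 2, 0, 2, 0, 3, 3, 0, 2, 0, 2, 0, 3, 0, 3, 0, 2, 0, 2, 0, 3, 0, 2, 0, 3, 0, 3, 0, 2, 0, 2, 0, 2, 0, 3, 3, 0, 2, 0, 2, 0, 3, 0, 3, 0, 2, 0, 2, 0, 3, 0, 3, 0, 2, 0, 2, 0, 3, 0, 2, 0, 3, 0, 3, 0, 2, 0, 2, 0, 2, 0, 3, 3, 0, 2, 0, 2, 0, 3, 0, 2, 0, 3, 0, 3, 0, 2, 0, 2, 0, 2, 0, 3, 3, 0, 2, 0, 2, 0, 3, 0, 3, 0, 2, 0, 2, 0, 3, 0, 2, 0, 3, 0, 3, 0, 2, 0, 2, 0, 2, 0, 3, 3, 0, 2, 0, 2, 0, 3, 0, 2, 0, 3, 0, 3, 0,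 3, 0, 2, 0, 2, 0, 3, 3, 0, 2, 0, 2, 0, 3, 0, 3, 0, 2, 0, 2, 0, 3, 0, 2, 0, 3, 0, 3, 0, 2, 0, 2, 0, 2, 0, 3, 3, 0, 2, 0, 2, 0, 3, 0, 3, 0, 2, 0, 2, 0, 3, 0, 3, 0, 2, 0, 2, 0, 3, 0, 2, 0, 3, 0, 3, 0, 2, 0, 2, 0, 2, 0, 3, 3, 0, 2, 0, 2, 0, 3, 0, 2, 0, 3, 0, 3, 0, 2, 0, 2, 0, 2, 0, 3, 3, 0, 2, 0, 2, 0, 3, 0, 3, 0, 2, 0, 2, 0, 3, 0, 2, 0, 3, 0, 3, 0, 2, 0, 2, 0, 2, 0, 3, 3, 0, 2, 0, 2, 0, 3, 0, 3, 0, 2, 0, 2, 0, 3, 0, 3, 0, 2, 0, 2, 0, 3, 0, 2, 0, 3, 0, 3, 0, 2, 0, 2, 0, 2, 0, 3, 3, 0, 2, 0, 2, 0, 3, 0], [0, 2, 0, 3, 0, 3, 0, 2, 2, 0, 3, 0, 3, 0, 3, 0, 2, 0, 2, 0, 3, 0, 2, 0, 3, 0, 3, 0, 2, 0, 2, 0, 3, 0, 3, 0, 2, 0, 2, 0, 3, 0, 3, 0, 2, 2, 0, 3, 0, 3, 0, 3, 0, 2, 0, 2, 0, 3, 0, 2, 0, 3, 0, 3, 0, 2, 0, 2, 0, 3, 0, 3, 0, 2, 2, 0, 3, 0, 3, 0, 3, 0, 2, 0,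 2, 0, 3, 0, 2, 0, 3, 0, 3, 0, 2, 2, 0, 3, 0, 3, 0, 3, 0, 2, 0, 2, 0, 3, 0, 2, 0, 3, 0, 3, 0, 2, 0, 2, 0, 3, 0, 3, 0, 2, 0, 2, 0, 3, 0, 3, 0, 2, 2, 0, 3, 0, 3, 0, 3, 0, 2, 0, 2, 0, 3, 0, 2, 0, 3, 0, 3, 0, 2, 0, 2, 0, 3, 0, 3, 0, 2, 2, 0, 3, 0, 3, 0, 3, 0, 2, 0, 2, 0, 3, 3, 0, 2, 0, 2, 0, 3, 0, 3, 0, 2, 0, 2, 0, 3, 0, 2, 0, 3, 0, 3, 0, 2, 0, 2, 0, 2, 0, 3, 3, 0, 2, 0, 2, 0, 3, 0, 3, 0, 2, 0, 2, 0, 3, 0, 3, 0, 2, 0, 2, 0, 3, 0, 2, 0, 3, 0, 3, 0, 2, 0, 2, 0, 2, 0, 3, 3, 0, 2, 0, 2, 0, 3, 0, 2, 0, 3, 0, 3, 0, 2, 0, 2, 0, 2, 0, 3, 3, 0, 2, 0, 2, 0, 3, 0, 3, 0, 2, 0, 2, 0, 3, 0, 2, 0, 3, 0, 3, 0, 2, 0, 2, 0, 2, 0, 3, 3, 0, 2, 0, 2, 0, 3, 0, 3, 0, 2, 0, 2, 0, 3, 0, 3, 0, 2, 0, 2, 0, 3, 0, 2, 0, 3, 0, 3, 0, 2, 0, 2, 0, 2, 0, 3, 3, 0, 2, 0, 2, 0, 3, 0, 3, 0,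 2, 0, 2, 0, 3, 0, 3, 0, 2, 0, 2, 0, 3, 0, 2, 0, 3, 0, 3, 0, 2, 0, 2, 0, 2, 0, 3, 3, 0, 2, 0, 2, 0, 3, 0, 2, 0, 3, 0, 3, 0, 2, 0, 2, 0, 2, 0, 3, 3, 0, 2, 0, 2, 0, 3, 0, 3, 0, 2, 0, 2, 0, 3, 0, 2, 0, 3, 0, 3, 0, 2, 0, 2, 0, 2, 0, 3, 3, 0, 2, 0, 2, 0, 3, 0, 2, 0, 3, 0, 3, 0, 2, 0, 2, 0, 2, 0, 3, 0, 2, 0, 3, 0, 3, 0, 2, 2, 0, 3, 0, 3, 0, 3, 0, 2, 0, 2, 0, 3, 0, 2, 0, 3, 0, 3, 0, 2, 0, 2, 0, 3, 0, 3, 0, 2, 2, 0, 3, 0, 3, 0, 3, 0, 2, 0, 2, 0, 3, 0, 2, 0, 3, 0, 3, 0, 2, 2, 0, 3, 0, 3, 0, 3, 0, 2, 0, 2, 0, 3, 0, 2, 0, 3, 0, 3, 0, 2, 0, 2, 0, 3, 0, 3, 0, 2]] (mem_gp_of_lettersIn (by decide +kernel)) [4, 3, 2, 1, 0] 5 [0, 1, 0, 0, 2, 0] 5 19 16 ch_5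
    (le_card_fixer hv [[0, 2, 0, 3, 0, 3, 0, 2, 2, 0, 3, 0, 3, 0, 3, 0, 2, 0, 2, 0, 3, 0, 2, 0, 3, 0, 3, 0, 2, 0, 2, 0, 3, 0, 3, 0, 2, 2, 0, 3, 0, 3, 0, 2, 0, 2, 0, 2, 0, 3, 0, 2, 0, 3, 0, 3, 0, 2, 2, 0, 3, 0, 3, 0, 3, 0, 2, 0, 2, 0, 3, 0, 2, 0, 3, 0, 3, 0, 2, 0, 2, 0, 3, 0, 3, 0, 2, 2, 0, 3, 0, 3, 0, 3, 0, 2, 0, 2, 0, 3, 0, 2, 0, 3, 0, 3, 0, 2, 2, 0, 3, 0, 3, 0, 3, 0, 2, 0, 2, 0, 3, 0, 2, 0, 3, 0, 3, 0, 2, 0, 2, 0, 3, 0, 3, 0, 2, 0, 2, 0, 3, 0, 3, 0, 2, 2, 0, 3, 0, 3, 0, 3, 0, 2, 0, 2, 0, 3, 0, 2, 0, 3, 0, 3, 0, 2, 0, 2, 0, 3, 0, 3, 0, 2, 0, 2, 0, 3, 0, 3, 0, 2, 2, 0, 3, 0, 3, 0, 3, 0, 2, 0, 2, 0, 3, 0, 2, 0, 3, 0, 3, 0, 2, 0, 2, 0, 3, 0, 3, 0, 2, 2, 0, 3, 0, 3, 0, 3, 0, 2, 0, 2, 0, 3, 0, 2, 0, 3, 0, 3, 0, 2, 2, 0, 3, 0, 3, 0, 3, 0, 2, 0, 2, 0, 3,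 0, 2, 0, 3, 0, 3, 0, 2, 0, 2, 0, 3, 0, 3, 0, 2, 0, 2, 0, 3, 0, 3, 0, 2, 2, 0, 3, 0, 3, 0, 3, 0, 2, 0, 2, 0, 3, 0, 2, 0, 3, 0, 3, 0, 2, 0, 2, 0, 3, 0, 3, 0, 2, 2, 0, 3, 0, 3, 0, 2, 0, 2, 0, 2, 0, 3, 0, 2, 0, 3, 0, 3, 0, 2, 2, 0, 3, 0, 3, 0, 3, 0, 2, 0, 2, 0, 3, 0, 2, 0, 3, 0, 3, 0, 2, 0, 2, 0, 3, 0, 3, 0, 2, 2, 0, 3, 0, 3, 0, 3, 0, 2, 0, 2, 0, 3, 0, 2, 0, 3, 0, 3, 0, 2, 2, 0, 3, 0, 3, 0, 3, 0, 2, 0, 2, 0, 3, 0, 2, 0, 3, 0, 3, 0, 2, 0, 2, 0, 3, 0, 3, 0, 2, 0, 2, 0, 3, 0, 3, 0, 2, 2, 0, 3, 0, 3, 0, 3, 0, 2, 0, 2, 0, 3, 0, 2, 0, 3, 0, 3, 0, 2, 0, 2, 0, 3, 0, 3, 0, 2, 2, 0, 3, 0, 3, 0, 3, 0, 2, 0, 2, 0, 3, 3, 0, 2, 0, 2, 0, 3, 0, 3, 0, 2, 0, 2, 0, 3, 0, 2, 0, 3, 0, 3, 0, 2, 0, 2, 0, 2, 0, 3, 3, 0, 2, 0, 2, 0, 3, 0, 3, 0, 2, 0, 2, 0, 3, 0, 3, 0, 2, 0, 2,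 0, 3, 0, 2, 0, 3, 0, 3, 0, 2, 0, 2, 0, 2, 0, 3, 3, 0, 2, 0, 2, 0, 3, 0, 2, 0, 3, 0, 3, 0, 2, 0, 2, 0, 2, 0, 3, 3, 0, 2, 0, 2, 0, 3, 0, 3, 0, 2, 0, 2, 0, 3, 0, 2, 0, 3, 0, 3, 0, 2, 0, 2, 0, 2, 0, 3, 3, 0, 2, 0, 2, 0, 3, 0, 3, 0, 2, 0, 2, 0, 3, 0, 3, 0, 2, 0, 2, 0, 3, 0, 2, 0, 3, 0, 3, 0, 2, 0, 2, 0, 2, 0, 3, 3, 0, 2, 0, 2, 0, 3, 0, 3, 0, 2, 0, 2, 0, 3, 0, 3, 0, 2, 0, 2, 0, 3, 0, 2, 0, 3, 0, 3, 0, 2, 0, 2, 0, 2, 0, 3, 3, 0, 2, 0, 2, 0, 3, 0, 2, 0, 3, 0, 3, 0, 2, 0, 2, 0, 2, 0, 3, 3, 0, 2, 0, 2, 0, 3, 0, 3, 0, 2, 0, 2, 0, 3, 0, 2, 0, 3, 0, 3, 0, 2, 0, 2, 0, 2, 0, 3, 3, 0, 2, 0, 2, 0, 3, 0, 2, 0, 3, 0, 3, 0, 2, 0, 2, 0, 2, 0, 3, 0, 2, 0, 3, 0, 3, 0, 2, 2, 0, 3, 0, 3, 0, 3, 0, 2, 0, 2, 0, 3, 0, 2, 0, 3, 0, 3, 0, 2, 0, 2, 0, 3, 0, 3, 0, 2, 2, 0, 3, 0, 3,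 0, 3, 0, 2, 0, 2, 0, 3, 0, 2, 0, 3, 0, 3, 0, 2, 2, 0, 3, 0, 3, 0, 3, 0, 2, 0, 2, 0, 3, 0, 2, 0, 3, 0, 3, 0, 2, 0, 2, 0, 3, 0, 3, 0, 2]] (mem_gp_of_lettersIn (by decide +kernel)) [5, 4, 3, 2, 1, 0] 6 [0, 0] 6 16 3 ch_6
    (one_le_card_fixer _))))))))

theorem card_le_mul {Ω : Type*} [Finite Ω] (A : Subgroup (Equiv.Perm Ω)) (b : Ω) (S : Finset Ω) (h : ∀ g ∈ A, g b ∈ S)
    {m : ℕ} (hm : Nat.card (A ⊓ MulAction.stabilizer (Equiv.Perm Ω) b :) ≤ m) : Nat.card A ≤ S.card * m := by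
  rw [← (MulAction.stabilizer A b).index_mul_card, MulAction.index_stabilizer]
  refine Nat.mul_le_mul ?_ (le_trans (le_of_eq ?_) hm)
  · rw [← Set.ncard_coe_finset]
    exact Set.ncard_le_ncard (by rintro _ ⟨g, rfl⟩; exact h g g.2) S.finite_toSet
  · rw [← Nat.card_congr (Subgroup.subgroupOfEquivOfLe (inf_le_left (a := A))).toEquiv, Subgroup.inf_subgroupOf_left]
    rfl

/-- The pointwise stabiliser of a list of points in `M24`. -/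
def fx : List GolayPt → Subgroup (Equiv.Perm GolayPt)
  | [] => M24
  | b :: l => fx l ⊓ MulAction.stabilizer _ b

theorem mem_fx {g : Equiv.Perm GolayPt} : ∀ {l : List GolayPt}, g ∈ fx l ↔ g ∈ M24 ∧ ∀ b ∈ l, g b = b
  | [] => by simp [fx]
  | b :: l => by
    rw [fx, Subgroup.mem_inf, mem_fx, List.forall_mem_cons, and_assoc, and_comm (a := g b = b)]
    rfl

theorem card_fx_le (l : List GolayPt) (b : GolayPt) (hb : b ∉ l) {m : ℕ} (hm : Nat.card (fx (b :: l)) ≤ m) :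
    Nat.card (fx l) ≤ (l.toFinsetᶜ).card * m :=
  card_le_mul _ b _ (fun g hg => by
    rw [Finset.mem_compl, List.mem_toFinset]
    exact fun h => hb (g.injective ((mem_fx.mp hg).2 _ h) ▸ h)) hm

theorem octad {g : Equiv.Perm GolayPt} (hg : g ∈ fx [some 4, some 3, some 2, some 1, some 0]) :
    act g 7 ∈ [7, 10, 12] ∧ act g 5 ∉ [0, 1, 2, 3, 4, 7, 10, 12] := by
  obtain ⟨h₁, h₂⟩ := mem_fx.mp hg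
  have hf : ∀ i < 5, act g i ∈ [i] := fun i hi => by
    rw [act, h₂ _ (by revert i; decide +kernel), idx_pt i (by omega)]; exact List.mem_singleton_self _
  have := srch_sound h₁ (fun _ l => decide (l.getD 3 0 ∈ [7, 10, 12] ∧ l.getD 0 0 ∉ [0, 1, 2, 3, 4, 7, 10, 12]))
    [(0, [0], []), (1, [1], []), (2, [2], []), (3, [3], []), (4, [4], []), (7, List.range 24, []),
      (10, List.range 24, []), (12, List.range 24, [255]), (5, List.range 24, [])] [] (by simp) (by decide +kernel)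
    (by simp only [List.forall_mem_cons, List.mem_range, act, idx_lt, true_and]
        exact ⟨hf 0 (by decide), hf 1 (by decide), hf 2 (by decide), hf 3 (by decide), hf 4 (by decide), by simp⟩)
    (by rw [List.map_nil]; decide +kernel)
  exact of_decide_eq_true this

theorem fx_eq_bot : fx [some 7, some 5, some 4, some 3, some 2, some 1, some 0] = ⊥ :=
  eq_bot_iff.mpr fun g hg => by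
    obtain ⟨h₁, h₂⟩ := mem_fx.mp hg
    have hf : ∀ i ∈ [0, 1, 2, 3, 4, 5, 7], act g i ∈ [i] := fun i hi => by
      rw [act, h₂ _ (by revert i; decide +kernel), idx_pt i (by revert i; decide)]; exact List.mem_singleton_self _
    refine eq_one_of_srch h₁ [(0, [0], []), (1, [1], []), (2, [2], []), (3, [3], []), (4, [4], []), (7, [7], []), (5, [5], []), (10, List.range 24, []), (12, List.range 24, [507]), (6, List.range 24, []), (8, List.range 24, []), (18, List.range 24, [2919]), (9, List.range 24, []), (14, List.range 24, [12755]), (19, List.range 24, [13139]), (20, List.range 24, [53929]), (11, List.range 24, []), (13, List.range 24, [138883]), (15, List.range 24, [464387]), (16, List.range 24, [616515]), (17, List.range 24, [75427]), (21, List.range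 24, [1184963]), (22, List.range 24, [2343057]), (23, List.range 24, [578945])]
      (by decide +kernel) (by decide +kernel) (by decide +kernel) ?_
    simp only [List.forall_mem_cons, List.mem_range, act, idx_lt, true_and]
    exact ⟨hf 0 (by decide), hf 1 (by decide), hf 2 (by decide), hf 3 (by decide), hf 4 (by decide), hf 7 (by decide),
      hf 5 (by decide), by simp⟩

theorem card_five_le : Nat.card (fx [some 4, some 3, some 2, some 1, some 0]) ≤ 48 := by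
  refine card_le_mul _ (some 5) (Finset.univ.filter fun p => idx p ∉ [0, 1, 2, 3, 4, 7, 10, 12])
    (fun g hg => Finset.mem_filter.mpr ⟨Finset.mem_univ _, (octad hg).2⟩)
    (card_le_mul _ (some 7) (Finset.univ.filter fun p => idx p ∈ [7, 10, 12])
    (fun g hg => Finset.mem_filter.mpr ⟨Finset.mem_univ _, (octad (Subgroup.mem_inf.mp hg).1).1⟩) (m := 1) ?_) |>.trans (by decide +kernel)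
  exact (congrArg (fun H : Subgroup _ => Nat.card H) fx_eq_bot).trans_le Subgroup.card_bot.le

theorem card_M24_le : Nat.card M24 ≤ 244823040 :=
  (card_fx_le [] (some 0) (by decide) (card_fx_le _ (some 1) (by decide) (card_fx_le _ (some 2) (by decide)
    (card_fx_le _ (some 3) (by decide) (card_fx_le _ (some 4) (by decide) card_five_le))))).trans (by decide +kernel)

theorem gp_eq : gp f [[0], [2]] = M24 :=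
  Subgroup.eq_of_le_of_card_ge (gp_le.mpr fun w _ => wval_mem fun l _ => f_mem _) (card_M24_le.trans le_card_gp)

theorem card_M24 : Nat.card M24 = 244823040 := card_M24_le.antisymm (gp_eq ▸ le_card_gp)

/-- A model that is simple and as large as possible is isomorphic to every non-trivial solution of the relators. -/
theorem nonempty_equiv_of_simple {G X : Type*} [Group G] [Group X] {y : ℕ → G} {f : ℕ → X} {K ls : List (List ℕ)}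
    (hy : ∀ w ∈ K, wval y w = 1) (hf : ∀ w ∈ K, wval f w = 1) {T : ℕ}
    (hub : ∀ z : ℕ → G × X, (∀ w ∈ K, wval z w = 1) → Nat.card (gp z ls) ≠ 0 ∧ Nat.card (gp z ls) ≤ T)
    (hT : T ≤ Nat.card (gp f ls)) (hs : IsSimpleGroup (gp f ls)) {g : G} (hg : g ∈ gp y ls) (hne : g ≠ 1) :
    Nonempty (gp y ls ≃* gp f ls) := by
  let z : ℕ → G × X := fun i => (y i, f i)
  have h₁ := hub z fun w hw => Prod.ext ((map_wval (MonoidHom.fst G X) z w).trans (hy w hw))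
    ((map_wval (MonoidHom.snd G X) z w).trans (hf w hw))
  have e₁ : (gp z ls).map (MonoidHom.fst G X) = gp y ls := map_gp _ ls
  have e₂ : (gp z ls).map (MonoidHom.snd G X) = gp f ls := map_gp _ ls
  have h₂ := (faithful_of_card (MonoidHom.snd G X) h₁ (e₂ ▸ hT)).2
  let a : gp z ls ≃* gp f ls := (MulEquiv.ofBijective ((MonoidHom.snd G X).subgroupMap (gp z ls))
    ⟨(injective_iff_map_eq_one _).mpr fun x hx => Subtype.ext (h₂ x x.2 (congrArg Subtype.val hx)),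
      MonoidHom.subgroupMap_surjective _ _⟩).trans (MulEquiv.subgroupCongr e₂)
  haveI := a.isSimpleGroup
  let b := (MonoidHom.fst G X).subgroupMap (gp z ls)
  have hb : Function.Injective b := b.ker_eq_bot_iff.mp ((IsSimpleGroup.eq_bot_or_eq_top_of_normal b.ker inferInstance).resolve_right
    fun e => by
      obtain ⟨x, hx⟩ := MonoidHom.subgroupMap_surjective (MonoidHom.fst G X) (gp z ls) ⟨g, e₁ ▸ hg⟩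
      exact hne (congrArg Subtype.val (hx.symm.trans (show x ∈ b.ker from e ▸ Subgroup.mem_top x))))
  exact ⟨((MulEquiv.ofBijective b ⟨hb, MonoidHom.subgroupMap_surjective _ _⟩).trans
    (MulEquiv.subgroupCongr e₁)).symm.trans a⟩

theorem mem_of_dvd_card {G : Type*} [Group G] [Finite G] {N : Subgroup G} [N.Normal] {p : ℕ} (hp : p.Prime)
    (h₁ : p ∣ Nat.card N) (h₂ : ¬ p * p ∣ Nat.card G) {s : G} (hs : s ^ p = 1) : s ∈ N := by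
  have hc : p.Coprime N.index := hp.coprime_iff_not_dvd.mpr fun h => h₂ (N.index_mul_card ▸ Nat.mul_dvd_mul h h₁)
  have := pow_gcd_eq_one.2 ⟨show (s : G ⧸ N) ^ p = 1 by rw [← QuotientGroup.mk_pow, hs, QuotientGroup.mk_one],
    show (s : G ⧸ N) ^ N.index = 1 from pow_card_eq_one'⟩
  rwa [hc, pow_one, QuotientGroup.eq_one_iff] at this

open MulAction in
/-- A transitive group of degree `p + 1` containing a `p`-cycle. -/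
theorem dvd_card_normal {G Ω : Type*} [Group G] [Finite G] [Finite Ω] [MulAction G Ω] [FaithfulSMul G Ω]
    [IsPretransitive G Ω] {p : ℕ} (hp : p.Prime) (hΩ : Nat.card Ω = p + 1) (h6 : 6 ∣ p + 1) (a : Ω)
    (ht : ∀ b ≠ a, ∀ c ≠ a, ∃ t : G, t • a = a ∧ t • b = c) (N : Subgroup G) [hN : N.Normal] (h : N ≠ ⊥) :
    p ∣ Nat.card N := by
  have mv : ∀ g : G, g ≠ 1 → ∃ c : Ω, g • c ≠ c := fun g hg =>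
    not_forall.mp fun e => hg (eq_of_smul_eq_smul fun c : Ω => by rw [e, one_smul])
  haveI : IsPretransitive (stabilizer G a) (SubMulAction.ofStabilizer G a) := ⟨fun b c => by
    obtain ⟨t, h₁, h₂⟩ := ht b b.2 c c.2
    exact ⟨⟨t, h₁⟩, Subtype.ext h₂⟩⟩
  have hc : Nat.card (SubMulAction.ofStabilizer G a) = p :=
    Nat.succ_injective ((SubMulAction.nat_card_ofStabilizer_add_one_eq G a).trans hΩ)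
  haveI : IsPreprimitive (stabilizer G a) (SubMulAction.ofStabilizer G a) := .of_prime_card (hc ▸ hp)
  by_cases h₁ : ∃ m ∈ N, m • a = a ∧ m ≠ 1
  · obtain ⟨m, hm, hma, hm1⟩ := h₁
    obtain ⟨c, hc'⟩ := mv m hm1
    have hca : c ≠ a := fun e => hc' (e ▸ hma)
    haveI := IsQuasiPreprimitive.isPretransitive_of_normal (X := SubMulAction.ofStabilizer G a)
      (N := N.subgroupOf (stabilizer G a)) fun e =>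
        hc' (congrArg Subtype.val (mem_fixedPoints.mp (Set.eq_univ_iff_forall.mp e ⟨c, hca⟩) ⟨⟨m, hma⟩, hm⟩))
    have := (stabilizer (N.subgroupOf (stabilizer G a)) (⟨c, hca⟩ : SubMulAction.ofStabilizer G a)).index_dvd_card
    rw [index_stabilizer_of_transitive, hc] at this
    exact this.trans (Subgroup.card_comap_dvd_of_injective N _ Subtype.val_injective)
  · push Not at h₁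
    obtain ⟨n, hn, hn1⟩ := (Subgroup.bot_or_exists_ne_one N).resolve_left h
    haveI : IsPretransitive N Ω := .of_orbit (x₀ := a) fun c => by
      by_cases e : c = a
      · exact ⟨1, e ▸ one_smul _ _⟩
      · obtain ⟨t, h₂, h₃⟩ := ht (n • a) (fun e => hn1 (h₁ n hn e)) c e
        exact ⟨⟨t * n * t⁻¹, hN.conj_mem n hn t⟩, by
          rw [Subgroup.mk_smul, mul_smul, inv_smul_eq_iff.mpr h₂.symm, mul_smul, h₃]⟩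
    have h24 := (stabilizer N a).index_dvd_card
    rw [index_stabilizer_of_transitive, hΩ] at h24
    haveI := Fintype.ofFinite N
    rw [Nat.card_eq_fintype_card] at h24
    obtain ⟨u, hu⟩ := exists_prime_orderOf_dvd_card 2 ((by norm_num : 2 ∣ 6).trans (h6.trans h24))
    haveI := Nat.fact_prime_three
    obtain ⟨v, hv⟩ := exists_prime_orderOf_dvd_card 3 ((by norm_num : 3 ∣ 6).trans (h6.trans h24))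
    rw [← Subgroup.orderOf_coe] at hu hv
    obtain ⟨t, h₂, h₃⟩ := ht (u.1 • a) (fun e => by simp [h₁ u u.2 e] at hu) (v.1 • a) fun e => by
      simp [h₁ v v.2 e] at hv
    have := h₁ (v.1⁻¹ * (t * u * t⁻¹)) (mul_mem (inv_mem v.2) (hN.conj_mem u u.2 t)) (by
      rw [mul_smul, mul_smul, inv_smul_eq_iff.mpr h₂.symm, mul_smul, h₃, inv_smul_smul])
    rw [inv_mul_eq_one.mp this, ← MulAut.conj_apply, MulEquiv.orderOf_eq, hu] at hv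
    omega

theorem exists_smul (c : GolayPt) : ∃ g ∈ M24, g (some 8) = c := by
  by_cases h : c = some 8
  · exact ⟨1, one_mem _, h.symm⟩
  · have : ∀ c ≠ some 8, ∃ k ∈ List.range 23, ((f 0 * f 1) ^ k) (f 0 (some 8)) = c := by decide +kernel
    obtain ⟨k, -, hk⟩ := this c h
    exact ⟨_ * f 0, mul_mem (pow_mem (mul_mem (f_mem 0) (f_mem 1)) k) (f_mem 0), hk⟩

instance pretransitive : MulAction.IsPretransitive M24 GolayPt := .of_orbit (x₀ := some 8) fun c =>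
  let ⟨g, h₁, h₂⟩ := exists_smul c
  ⟨⟨g, h₁⟩, h₂⟩

theorem simple : IsSimpleGroup M24 := by
  let x : M24 := ⟨f 0, f_mem 0⟩
  let y : M24 := ⟨f 1, f_mem 1⟩
  haveI : Nontrivial M24 := Finite.one_lt_card_iff_nontrivial.mp (by rw [card_M24]; norm_num)
  refine ⟨fun N hN => or_iff_not_imp_left.mpr fun h => ?_⟩
  have h₀ : ∀ c ≠ some 8, ∃ k ∈ List.range 23, ((f 0 * f 1) ^ k) (some 8) = some 8 ∧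
      ((f 0 * f 1) ^ k) (some 0) = c := by decide +kernel
  have h₁ : x * y ∈ N := mem_of_dvd_card (p := 23) (by norm_num) (dvd_card_normal (Ω := GolayPt) (by norm_num)
    (by simp) (by norm_num) (some 8) (fun b hb c hc => by
      obtain ⟨i, -, e₁, e₂⟩ := h₀ b hb
      obtain ⟨j, -, e₃, e₄⟩ := h₀ c hc
      refine ⟨(x * y) ^ j * ((x * y) ^ i)⁻¹, ?_, ?_⟩
      · rw [mul_smul, inv_smul_eq_iff.mpr (show some 8 = (x * y) ^ i • (some 8 : GolayPt) from e₁.symm)]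
        exact e₃
      · rw [mul_smul, inv_smul_eq_iff.mpr (show b = (x * y) ^ i • (some 0 : GolayPt) from e₂.symm)]
        exact e₄) N h) (by rw [card_M24]; norm_num) (Subtype.ext (by
      have := rels (rep 23 [0, 2]) (by decide)
      rwa [wval_rep] at this))
  have hx : x ^ 2 = 1 := Subtype.ext (by decide +kernel)
  have hy : y ^ 3 = 1 := Subtype.ext (by decide +kernel)
  have h₂ : y⁻¹ ∈ N := mem_of_pow (n := 2) (m := 3) h₁ (by rwa [mul_inv_cancel_right]) (by rw [inv_pow, hy, inv_one]) rfl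
  have h₃ : gp f [[0], [2]] ≤ N.map M24.subtype := gp_le.mpr (by
    simp only [List.forall_mem_cons, List.not_mem_nil, false_imp_iff, implies_true, and_true]
    exact ⟨⟨x, by simpa using mul_mem h₁ h₂, (wval_single f 0).symm⟩, y, inv_mem_iff.mp h₂, (wval_single f 1).symm⟩)
  refine eq_top_iff.mpr fun g _ => ?_
  obtain ⟨g', h₄, h₅⟩ := h₃ (gp_eq.ge g.2)
  exact (Subtype.ext h₅ : g' = g) ▸ h₄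

/-- A group generated by two elements that satisfy the relators, not both trivial, is isomorphic to `M24`, provided the
relators define a group of order at most `|M24|`. -/
theorem nonempty_equiv {G : Type*} [Group G] {y : ℕ → G} (hy : ∀ w ∈ K, wval y w = 1)
    (hub : ∀ z : ℕ → G × Equiv.Perm GolayPt, (∀ w ∈ K, wval z w = 1) →
      Nat.card (gp z [[0], [2]]) ≠ 0 ∧ Nat.card (gp z [[0], [2]]) ≤ 244823040) (hne : y 0 ≠ 1) :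
    Nonempty (gp y [[0], [2]] ≃* M24) :=
  gp_eq ▸ nonempty_equiv_of_simple hy rels hub le_card_gp (gp_eq ▸ simple) (mem_gp List.mem_cons_self)
    ((wval_single y 0).trans_ne hne)

end Cfsg.Agent.Lib.M24Ord
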