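import Cfsg.Agent.Lib.PushMaster
import Cfsg.Agent.Lib.FusionControl

/-!
A characteristic functor `K` such that in every rank one pushing up configuration over the Baumann subgroup `K` is
normal, unless there are at most two noncentral chief factors.
-/

set_option autoImplicit false

namespace Cfsg.Agent.Lib.PairK

open Subgroup Cfsg Cfsg.Agent.Lib.PCoreConj Cfsg.Agent.Lib.PCore Cfsg.Agent.Lib.PCoreResidual
open Cfsg.Agent.Lib.PCoreMod Cfsg.Agent.Lib.FusionControl Cfsg.Agent.Lib.ThompsonJ Cfsg.Agent.Lib.PushBase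
open scoped Pointwise commutatorElement

universe u

variable {p : ℕ}

theorem exists_equiv {G G' : Type*} [Group G] [Group G'] {f : G →* G'} {D : Subgroup G} (h : D ⊓ f.ker = ⊥) :
    ∃ e : D ≃* D.map f, (D.map f).subtype.comp e.toMonoidHom = f.comp D.subtype :=
  ⟨MulEquiv.ofBijective (f.subgroupMap D) ⟨(injective_iff_map_eq_one _).mpr fun x hx => Subtype.ext
    (mem_bot.mp (h.le ⟨x.2, congrArg Subtype.val hx⟩)), f.subgroupMap_surjective D⟩, rfl⟩

/-- a characteristic functor from an isomorphism invariant subgroup of every group -/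
def ofType (F : ∀ (P : Type u) [Group P], Subgroup P)
    (h₁ : ∀ (P P' : Type u) [Group P] [Group P'] (e : P ≃* P'), (F P).map e.toMonoidHom = F P')
    (h₂ : ∀ (P : Type u) [Group P] [Finite P] [Nontrivial P], IsPGroup p P → F P ≠ ⊥) : CharFunctor.{u} p where
  toFun D := (F D).map D.subtype
  le D := map_subtype_le _
  ne_bot {G} _ _ D hD h0 e := by
    haveI := (nontrivial_iff_ne_bot D).mpr h0
    exact h₂ D hD ((map_eq_bot_iff_of_injective _ D.subtype_injective).mp e)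
  map {G G'} _ _ _ f D h := by
    obtain ⟨e, he⟩ := exists_equiv h
    rw [← h₁ _ _ e, map_map, map_map, he]

/-- composition of characteristic functors -/
def comp (W₁ W₂ : CharFunctor.{u} p) : CharFunctor.{u} p where
  toFun D := W₁.toFun (W₂.toFun D)
  le D := (W₁.le _).trans (W₂.le D)
  ne_bot hD h0 := W₁.ne_bot (hD.to_le (W₂.le _)) (W₂.ne_bot hD h0)
  map h := by rw [W₁.map (inf_ker_of_le h (W₂.le _)), W₂.map h]

theorem map_inf_cent {G G' : Type*} [Group G] [Group G'] {f : G →* G'} {D A : Subgroup G} (h : D ⊓ f.ker = ⊥)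
    (hA : A ≤ D) : (D ⊓ C(A)).map f = D.map f ⊓ C(A.map f) := by
  refine le_antisymm (le_inf (map_mono inf_le_left) ((map_mono inf_le_right).trans
    (map_centralizer_le_centralizer_image _ f))) ?_
  rintro _ ⟨⟨x, hx, rfl⟩, hc⟩
  refine mem_map_of_mem f ⟨hx, fun a ha => ?_⟩
  have : ⁅a, x⁆ ∈ D ⊓ f.ker := mem_inf.mpr ⟨commutator_le_left_of_le_normalizer le_normalizer
    (commutator_mem_commutator (hA ha) hx), by
      rw [MonoidHom.mem_ker, map_commutatorElement, commutatorElement_eq_one_iff_mul_comm]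
      exact hc _ (mem_map_of_mem f ha)⟩
  rwa [h, mem_bot, commutatorElement_eq_one_iff_mul_comm] at this

/-- the Baumann subgroup `C_D(Z J(D))` -/
def bau (p : ℕ) [Fact p.Prime] : CharFunctor.{u} p where
  toFun D := D ⊓ C(ZJ 0 D)
  le _ := inf_le_left
  ne_bot hD h0 e := center_ne_bot hD h0 (le_bot_iff.mp (e ▸ inf_le_inf_left _ (centralizer_anti (ZJ_le _ _))))
  map h := by rw [map_inf_cent h (ZJ_le _ _), map_ZJ h]

variable {P : Type u} [Group P] {V : Subgroup P}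

/-- natural modules of pushing up configurations with more than two noncentral chief factors -/
def Bad (p : ℕ) (P : Type u) [Group P] (V : Subgroup P) : Prop :=
  ∃ (G : Type u) (_ : Group G) (τ : P →* G) (L T M : Subgroup G), Function.Injective τ ∧
    PK p L (⊤[P].map τ) T M (V.map τ) ∧ ¬ One p L (⊤[P].map τ) T M (V.map τ) ∧
    ∀ X, ¬ Tw p L (⊤[P].map τ) T M (V.map τ) X

theorem Bad.map {P' : Type u} [Group P'] (h : Bad p P V) (φ : P ≃* P') : Bad p P' (V.map φ.toMonoidHom) := by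
  obtain ⟨G, _, τ, L, T, M, hτ, k⟩ := h
  have e : (τ.comp φ.symm.toMonoidHom).comp φ.toMonoidHom = τ := by ext; simp
  refine ⟨G, _, τ.comp φ.symm.toMonoidHom, L, T, M, hτ.comp φ.symm.injective, ?_⟩
  rwa [map_map, e, ← map_map, map_top_of_surjective _ φ.symm.surjective]

open Classical in
/-- the subgroup `K` -/
noncomputable def K₀ (p : ℕ) (P : Type u) [Group P] : Subgroup P :=
  if ∃ Q : Subgroup P, MCL ⊤ Q ∧ ¬ Q ≤ C(Q) then ⨆ Q : {Q : Subgroup P // MCL ⊤ Q}, ⁅Q.1, Q.1⁆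
  else C(⨆ V : {V // Bad p P V}, V.1)

theorem mcl_map {P' : Type u} [Group P'] {Q : Subgroup P} (h : MCL ⊤ Q) (φ : P ≃* P') :
    MCL ⊤ (Q.map φ.toMonoidHom) := by
  have := (mcl_map_iff (f := φ.toMonoidHom) φ.injective).2 h
  rwa [map_top_of_surjective _ φ.surjective] at this

theorem map_K₀_le {P' : Type u} [Group P'] (φ : P ≃* P') : (K₀ p P).map φ.toMonoidHom ≤ K₀ p P' := by
  have key : ∀ {P P' : Type u} [Group P] [Group P'] (φ : P ≃* P'), (∃ Q : Subgroup P, MCL ⊤ Q ∧ ¬ Q ≤ C(Q)) →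
      ∃ Q : Subgroup P', MCL ⊤ Q ∧ ¬ Q ≤ C(Q) := fun φ ⟨Q, h₁, h₂⟩ =>
    ⟨_, mcl_map h₁ φ, fun e => h₂ ((map_le_cent_iff φ.injective).1 e)⟩
  unfold K₀
  by_cases h : ∃ Q : Subgroup P, MCL ⊤ Q ∧ ¬ Q ≤ C(Q)
  · rw [if_pos h, if_pos (key φ h), Subgroup.map_iSup]
    exact iSup_le fun Q => le_iSup_of_le ⟨_, mcl_map Q.2 φ⟩ (map_commutator _ _ _).le
  · rw [if_neg h, if_neg fun h' => h (key φ.symm h'), map_equiv_centralizer]
    refine centralizer_anti (iSup_le fun V => ?_)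
    rw [← map_comap_eq_self_of_surjective (f := φ.toMonoidHom) φ.surjective V.1]
    refine map_mono (le_iSup_of_le ⟨_, V.2.map φ.symm⟩ ?_)
    exact (comap_equiv_eq_map_symm' φ V.1).le

theorem map_K₀ {P' : Type u} [Group P'] (φ : P ≃* P') : (K₀ p P).map φ.toMonoidHom = K₀ p P' :=
  le_antisymm (map_K₀_le φ) fun x hx => ⟨φ.symm x, map_K₀_le φ.symm (mem_map_of_mem _ hx), by simp⟩

variable [hp : Fact p.Prime]

theorem K₀_ne_bot [Finite P] [Nontrivial P] (hP : IsPGroup p P) : K₀ p P ≠ ⊥ := by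
  unfold K₀
  split_ifs with h
  · obtain ⟨Q, h₁, h₂⟩ := h
    exact fun e => h₂ (commutator_eq_bot_iff_le_centralizer'.1 (le_bot_iff.1
      ((le_iSup (fun Q : {Q : Subgroup P // MCL ⊤ Q} => ⁅Q.1, Q.1⁆) ⟨Q, h₁⟩).trans e.le)))
  · exact fun e => center_ne_bot (hP.to_subgroup ⊤) top_ne_bot
      (le_bot_iff.1 ((inf_le_right.trans (centralizer_anti le_top)).trans e.le))

theorem norm_K₀ [Finite P] (hJ : ⊤[P] ≤ C(ZJ 0 ⊤[P])) {G : Type u} [Group G] {τ : P →* G}
    (hτ : Function.Injective τ) {L T M V : Subgroup G} (k : PK p L (⊤[P].map τ) T M V) :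
    L ≤ N((K₀ p P).map τ) ∨ One p L (⊤[P].map τ) T M V ∨ ∃ X, Tw p L (⊤[P].map τ) T M V X := by
  haveI := k.finS
  unfold K₀
  split_ifs with h
  · refine .inl ?_
    rw [Subgroup.map_iSup]
    refine le_normalizer_iSup fun Q => ?_
    rw [map_commutator]
    exact k.norm_comm_mcl (cd_of_le_cent_ZJ (map_cent_ZJ hτ hJ)) ((mcl_map_iff hτ).2 Q.2)
  obtain ⟨Q, hQ⟩ := exists_mcl ⊤[P]
  have rp := rp_of_mcl hJ hQ (by_contra fun e => h ⟨Q, hQ, e⟩)
  refine or_iff_not_imp_right.2 fun n => ?_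
  rw [not_or, not_exists] at n
  obtain ⟨V, -, rfl⟩ := exists_map_eq k.V_le_S
  set W : Subgroup P := ⨆ V : {V // Bad p P V}, V.1
  have hVW : V ≤ W := le_iSup_of_le ⟨V, G, _, τ, L, T, M, hτ, k, n⟩ le_rfl
  have h₁ : W = ⨆ V' : {V // Bad p P V}, V ⊔ V'.1 :=
    le_antisymm (iSup_mono fun _ => le_sup_right) (iSup_le fun V' => sup_le hVW (le_iSup_of_le V' le_rfl))
  have h₂ : L ≤ N(W.map τ) := by
    rw [h₁, Subgroup.map_iSup]
    refine le_normalizer_iSup fun V' => ?_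
    obtain ⟨G', _, τ', L', T', M', hτ', k', n₁, n₂⟩ := V'.2
    rcases two_emb hτ hτ' k k' rp (rp.le_J hJ) with c | c | c | c
    exacts [absurd c n.1, absurd c n₁, absurd c (n.2 _), c.2]
  have h₃ : (C(W)).map τ = T ⊓ C(W.map τ) := by
    rw [map_top_cent hτ]
    exact le_antisymm (le_inf ((inf_le_inf_left _ (centralizer_anti (map_mono hVW))).trans k.cent_eq.le)
      inf_le_right) (inf_le_inf_right _ k.T_le)
  rw [h₃]
  exact le_normalizer_inf k.T_norm (le_normalizer_centralizer h₂)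

/-- the functor `K` -/
noncomputable def K (p : ℕ) [Fact p.Prime] : CharFunctor.{u} p :=
  comp (ofType (K₀ p) (fun _ _ _ _ => map_K₀) fun _ _ _ _ => K₀_ne_bot) (bau p)

theorem bau_le_cent {G : Type*} [Group G] (S : Subgroup G) [Finite S] :
    S ⊓ C(ZJ 0 S) ≤ C(ZJ 0 (S ⊓ C(ZJ 0 S))) := by
  rw [ZJ_eq_of_J_le (le_inf (J_le 0 S) (J_le_centralizer_ZJ 0 S)) inf_le_left]
  exact inf_le_right

theorem norm_K {G : Type u} [Group G] [Finite G] {S L T M V : Subgroup G} (k : PK p L (S ⊓ C(ZJ 0 S)) T M V) :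
    L ≤ N((K p).toFun S) ∨ One p L (S ⊓ C(ZJ 0 S)) T M V ∨ ∃ X, Tw p L (S ⊓ C(ZJ 0 S)) T M V X := by
  set B := S ⊓ C(ZJ 0 S) with hB
  have := norm_K₀ (P := B) (τ := B.subtype) (L := L) (T := T) (M := M) (V := V) (p := p) (by
    rw [← map_le_cent_iff B.subtype_injective, map_ZJ (inf_ker_of_injective B.subtype_injective _),
      map_top_subtype]
    exact bau_le_cent S) B.subtype_injective (by rwa [map_top_subtype])
  rwa [map_top_subtype] at this

theorem normalizer_bau_le {G : Type u} [Group G] [Finite G] (S : Subgroup G) :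
    (N(S ⊓ C(ZJ 0 S)) : Subgroup G) ≤ normalizer (((K p).toFun S : Subgroup G) : Set G) :=
  (ofType (K₀ p) (fun _ _ _ _ => map_K₀) fun _ _ _ _ => K₀_ne_bot).normalizer_le _

end Cfsg.Agent.Lib.PairK
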