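import Cfsg.Agent.Lib.ThompsonNPC
import Cfsg.Agent.Lib.PairK
import Cfsg.Agent.Lib.TrDeg

/-!
Normal `p`-complement criteria in terms of the automizer of a self-centralizing characteristic subgroup.
-/

set_option autoImplicit false

namespace Cfsg.Agent.Lib.NpcAut

open Subgroup Cfsg Cfsg.Agent.Lib.PCoreConj Cfsg.Agent.Lib.PCore Cfsg.Agent.Lib.PCoreResidual
open Cfsg.Agent.Lib.PCoreMod Cfsg.Agent.Lib.FusionControl Cfsg.Agent.Lib.ThompsonJ Cfsg.Agent.Lib.ThompsonNPC
open Cfsg.Agent.Lib.Sections Cfsg.Agent.Lib.PairK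
open scoped Pointwise commutatorElement MatrixGroups

local notation "C(" X ")" => centralizer (SetLike.coe (X : Subgroup _))
local notation "N(" X ")" => normalizer (SetLike.coe (X : Subgroup _))

universe u

variable {p : ℕ} [hp : Fact p.Prime]

theorem res_le_of_npc {G : Type*} [Group G] [Finite G] {X : Subgroup G} (hX : IsPGroup p X)
    (h : HasNormalPComplement p N(X)) : pResidualOf p N(X) ≤ C(X) :=
  pResidualOf_le_iff.mpr fun g hg ho x hx => congrArg Subtype.val
    (TransferFrobenius.mem_centralizer_of_coprime h (isPGroup_subgroupOf hX _) (x := ⟨g, hg⟩)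
      (le_normalizer_subgroupOf le_rfl _ hg) (by rwa [← orderOf_coe]) ⟨x, le_normalizer hx⟩ hx)

theorem npc_iff (W : CharFunctor.{u} p)
    (hW : ∀ (G : Type u) [Group G] [Finite G] (P R : Subgroup G) [R.Normal] (q : ℕ), IsSylowIn p P ⊤ →
      C(pCore p G) ≤ pCore p G → pCore p G ≤ R → R ⊔ P = ⊤ → ⁅R, R⁆ ≤ pCore p G → q.Prime → q ≠ p →
      (∀ r ∈ R, r ^ q ∈ pCore p G) → (W.toFun P).Normal ∧ P ⊓ C(W.toFun P) ≤ W.toFun P)
    {G : Type u} [Group G] [Finite G] {P : Subgroup G} (hP : IsSylowIn p P ⊤) :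
    HasNormalPComplement p G ↔ ∀ g ∈ N(W.toFun P), (orderOf g).Coprime p → g ∈ C(W.toFun P) := by
  refine ⟨fun h => pResidualOf_le_iff.mp (res_le_of_npc (hP.isPGroup.to_le (W.le P))
    (TransferFrobenius.subgroup h _)), fun h => npc_reduction (fun _ _ => True)
    (fun G _ T => pResidualOf p N(W.toFun T) ≤ C(W.toFun T)) (fun _ _ _ _ _ => trivial)
    (fun _ _ _ _ _ _ => trivial) ?_ ?_ ?_ ?_ G trivial P hP (pResidualOf_le_iff.mpr h)⟩
  · intro G _ _ T K hTK h
    have := (W.le T).trans hTK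
    rw [W.subgroupOf hTK, ← subgroupOf_normalizer_eq this, centralizer_subgroupOf this]
    refine map_le_iff_le_comap.mp ?_
    rw [map_pResidualOf_subtype]
    exact (pResidualOf_mono (map_comap_le _ _)).trans h
  · intro G _ _ P N _ hP hN h
    have hk : (Nat.card (QuotientGroup.mk' N).ker).Coprime p := by rwa [QuotientGroup.ker_mk']
    rw [← W.map (inf_ker_eq_bot hk hP.isPGroup), ← map_normalizer_of_coprime (QuotientGroup.mk'_surjective N) hk
      (hP.isPGroup.to_le (W.le P)), ← map_pResidualOf]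
    exact (map_mono h).trans (map_centralizer_le_centralizer_image _ _)
  · exact fun G _ _ T hT h0 h => res_le_of_npc (hT.to_le (W.le T))
      (h _ (W.le T) (W.ne_bot hT h0) (W.normalizer_le T))
  · intro G _ _ P R _ q _ hP h _ hc a₁ a₂ a₃ a₄ a₅ a₆
    obtain ⟨hn, hs⟩ := hW G P R q hP hc a₁ a₂ a₃ a₄ a₅ a₆
    rw [normalizer_eq_top_iff.mpr hn] at h
    have hQ : W.toFun P ≤ pCore p G := le_pCore hn (hP.isPGroup.to_le (W.le P))
    have hE : (pResidualOf p (⊤ : Subgroup G)).Normal := pResidualOf_normal p ⊤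
    have k : ⁅pCore p G, pResidualOf p ⊤⁆ ≤ W.toFun P := le_trans (le_inf ((commutator_le_left _ _).trans
      hP.pCore_le) ((commutator_le_right _ _).trans h)) hs
    have := pResidualOf_le_centralizer_of_iterCommutator (L := pResidualOf p ⊤) (pCore_isPGroup p G)
      (le_top.trans (normal_iff_top_le.mp inferInstance)) (n := 2) (le_bot_iff.mp ((commutator_mono k le_rfl).trans
        (commutator_eq_bot_iff_le_centralizer'.mpr h).le))
    rw [pResidualOf_idem] at this
    exact TransferFrobenius.of_isPGroup (isPGroup_top_iff.mp (isPGroup_of_pResidualOf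
      ((pCore_isPGroup p G).to_le (this.trans hc))))

/-- subgroups normal in every `SL(2, p)`-free group of characteristic `p` over `P` -/
def Univ (p : ℕ) (P : Type u) [Group P] (K : Subgroup P) : Prop :=
  ∀ (G : Type u) [Group G] [Finite G] (τ : P →* G), Function.Injective τ → IsSylowIn p ((⊤ : Subgroup P).map τ) ⊤ →
    C(pCore p G) ≤ pCore p G → ¬ Involves SL(2, ZMod p) G → (K.map τ).Normal

/-- the largest such subgroup -/
def K₀ (p : ℕ) (P : Type u) [Group P] : Subgroup P := sSup {K | Univ p P K}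

variable {P P' : Type u} [Group P] [Group P']

omit hp in
theorem univ_K₀ : Univ p P (K₀ p P) := fun G _ _ τ a b c d => by
  rw [K₀, sSup_eq_iSup', Subgroup.map_iSup]
  exact normal_iff_top_le.mpr (le_normalizer_iSup fun K => normal_iff_top_le.mp (K.2 G τ a b c d))

omit hp in
theorem map_K₀_le (e : P ≃* P') : (K₀ p P).map e.toMonoidHom ≤ K₀ p P' :=
  le_sSup fun G _ _ τ a b c d => by
    rw [map_map]
    refine univ_K₀ G _ (a.comp e.injective) ?_ c d
    rwa [← map_map, map_top_of_surjective _ e.surjective]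

omit hp in
theorem map_K₀ (e : P ≃* P') : (K₀ p P).map e.toMonoidHom = K₀ p P' :=
  le_antisymm (map_K₀_le e) fun x hx => ⟨e.symm x, map_K₀_le e.symm (mem_map_of_mem _ hx), e.apply_symm_apply x⟩

theorem ZJ_normal_quot (hp2 : p ≠ 2) {G : Type u} [Group G] [Finite G] {T K : Subgroup G} [K.Normal]
    (hT : IsSylowIn p T ⊤) (hc : C(pCore p G) ≤ pCore p G) (hs : ¬ Involves SL(2, ZMod p) G) :
    (ZJ 0 ((T ⊓ C(K)).map (QuotientGroup.mk' K))).Normal := by
  set f := QuotientGroup.mk' K
  set H := (C(K)).map f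
  have hH : H.Normal := Normal.map inferInstance f (QuotientGroup.mk'_surjective K)
  have nn : ∀ (X Y : Subgroup G) [Y.Normal], X ≤ N(Y) := fun X Y _ =>
    le_top.trans (normal_iff_top_le.mp inferInstance)
  have h₁ : IsSylowIn p ((T ⊓ C(K)).map f) H := (hT.inf_normal le_top (nn _ _)).map f
  have h₂ : H ⊓ C(pCoreOf p H) ≤ pCoreOf p H := by
    have : (pCoreOf p H).Normal := normal_iff_top_le.mpr (le_normalizer_pCoreOf_of (normal_iff_top_le.mp hH))
    set X := C(K) ⊓ (C(pCoreOf p H)).comap f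
    have a₁ : (pCore p G ⊓ C(K)).map f ≤ pCoreOf p H := le_pCoreOf (map_mono inf_le_right)
      (le_normalizer_map f (nn _ _)) (((pCore_isPGroup p G).to_le inf_le_left).map f)
    have a₂ : ⁅pCore p G ⊓ C(K), X⁆ ≤ K := by
      refine le_trans ?_ (QuotientGroup.ker_mk' K).le
      rw [← Subgroup.map_eq_bot_iff, map_commutator, commutator_eq_bot_iff_le_centralizer']
      exact (map_le_iff_le_comap.mpr inf_le_right).trans (centralizer_anti a₁)
    have a₃ := pResidualOf_le_centralizer_of_iterCommutator (L := X) (pCore_isPGroup p G) (nn _ _) (n := 3)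
      (le_bot_iff.mp ((commutator_mono ((commutator_mono (le_inf (commutator_le_left _ _)
        ((commutator_le_right _ _).trans inf_le_left)) le_rfl).trans a₂) le_rfl).trans
        (commutator_eq_bot_iff_le_centralizer'.mpr inf_le_left).le))
    have a₄ : IsPGroup p X := isPGroup_of_pResidualOf ((pCore_isPGroup p G).to_le (a₃.trans hc))
    refine le_pCoreOf inf_le_left (le_top.trans (normal_iff_top_le.mp inferInstance)) ((a₄.map f).to_le ?_)
    rintro _ ⟨⟨x, hx, rfl⟩, h⟩
    exact mem_map_of_mem f ⟨hx, h⟩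
  have h₃ := ZJ.ZJ_normal hp2 (QuadPair.nstable_of_not_involves_SL2 hp2 fun h => hs (involves_of_subgroup
    (involves_of_map h))).stable (charP_iff.mpr h₂) (by simpa using h₁.subgroupOf le_rfl)
    (isStronglyClosed_self _) 0
  rw [ZJ_subgroupOf h₁.le, normal_subgroupOf_iff_le_normalizer ((ZJ_le _ _).trans h₁.le)] at h₃
  exact normal_iff_top_le.mpr (h₁.frattini_top.ge.trans (sup_le h₃ (normalizer_le_normalizer_ZJ _ _)))

theorem cent_K₀_le (hp2 : p ≠ 2) [Finite P] (hP : IsPGroup p P) : C(K₀ p P) ≤ K₀ p P := by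
  have : (K₀ p P).Normal := normal_of_conj_eq fun g => map_K₀ (MulAut.conj g)
  set f := QuotientGroup.mk' (K₀ p P)
  have h : Univ p P ((ZJ 0 ((C(K₀ p P)).map f)).comap f) := fun G _ _ τ a b c d => by
    have := univ_K₀ G τ a b c d
    have k := ZJ_normal_quot (K := (K₀ p P).map τ) hp2 b c d
    set f' := QuotientGroup.mk' ((K₀ p P).map τ)
    let σ := QuotientGroup.map (K₀ p P) ((K₀ p P).map τ) τ (le_comap_map τ _)
    have e : σ.comp f = f'.comp τ := rfl
    have hσ : Function.Injective σ := by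
      rw [← MonoidHom.ker_eq_bot_iff, QuotientGroup.ker_map, comap_map_eq_self_of_injective a,
        Subgroup.map_eq_bot_iff, QuotientGroup.ker_mk']
    rw [← map_inf_cent (inf_ker_of_injective a ⊤) le_top, top_inf_eq, map_map, ← e, ← map_map,
      ← map_ZJ (inf_ker_of_injective hσ _)] at k
    convert k.comap f' using 1
    conv_rhs => rw [← map_comap_eq_self_of_surjective (QuotientGroup.mk'_surjective (K₀ p P)) (ZJ 0 _),
      map_map, e, ← map_map]
    rw [comap_map_eq_self]
    rw [QuotientGroup.ker_mk']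
    exact map_mono ((QuotientGroup.ker_mk' _).ge.trans (ker_le_comap _ _))
  by_contra hn
  refine ZJ_ne_bot (D := (C(K₀ p P)).map f) ((hP.to_subgroup _).map f) (fun e => hn ?_) (dvd_zero p) ?_
  · rwa [Subgroup.map_eq_bot_iff, QuotientGroup.ker_mk'] at e
  · rw [← map_comap_eq_self_of_surjective (QuotientGroup.mk'_surjective (K₀ p P)) (ZJ 0 _),
      Subgroup.map_eq_bot_iff, QuotientGroup.ker_mk']
    exact le_sSup h

/-- the functor -/
def W (hp2 : p ≠ 2) : CharFunctor.{u} p :=
  ofType (K₀ p) (fun _ _ _ _ => map_K₀) fun P _ _ _ hP e => by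
    have := cent_K₀_le hp2 hP
    rw [e, centralizer_bot'] at this
    exact top_ne_bot (le_bot_iff.mp this)

theorem npc_iff_K₀ (hp2 : p ≠ 2) {G : Type u} [Group G] [Finite G] {P : Subgroup G} (hP : IsSylowIn p P ⊤) :
    HasNormalPComplement p G ↔ ∀ g ∈ N((K₀ p P).map P.subtype), (orderOf g).Coprime p →
      g ∈ C((K₀ p P).map P.subtype) :=
  npc_iff (W hp2) (fun G _ _ P R _ q h₁ h₂ _ h₃ h₄ _ _ _ => ⟨univ_K₀ G _ P.subtype_injective
    (by rwa [← MonoidHom.range_eq_map, range_subtype]) h₂ (QdFacts.not_involves_SL2 hp2 R (fun g => by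
      have := pResidualOf_sup_le (N := R) h₁.isPGroup le_normalizer_of_normal
      rw [h₃, pResidualOf_top] at this
      exact (exists_pow_mem_pResidual (p := p) g).imp fun k hk => this hk) fun r hr s hs =>
        isPGroup_iff_forall_mem.mp (pCore_isPGroup p G) _ (h₄ (commutator_mem_commutator hr hs))),
    (map_centralizer_subtype _).ge.trans (map_mono (cent_K₀_le hp2 h₁.isPGroup))⟩) hP

end Cfsg.Agent.Lib.NpcAut
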