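import Cfsg.Agent.Lib.PCubed

/-!
Bounds on `p` for groups with a Sylow `p`-subgroup extraspecial of order `p ^ 3` and exponent `p`.
-/

set_option autoImplicit false

namespace Cfsg.Agent.Lib.PCubedBound

open Subgroup Cfsg.Agent.Lib.PCubed Cfsg.Agent.Lib.PCore Cfsg.Agent.Lib.PCoreConj
open Cfsg.Agent.Lib.PGL2Action

theorem alt4_pow : ∀ g : Equiv.Perm (Fin 4), Equiv.Perm.sign g = 1 → g ^ 2 = 1 ∨ g ^ 3 = 1 := by
  decide +kernel

theorem sym4_pow : ∀ g : Equiv.Perm (Fin 4), g ^ 3 = 1 ∨ g ^ 4 = 1 := by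
  decide +kernel

theorem alt5_pow : ∀ g : Equiv.Perm (Fin 5), Equiv.Perm.sign g = 1 →
    g ^ 2 = 1 ∨ g ^ 3 = 1 ∨ g ^ 5 = 1 := by
  decide +kernel

theorem sym4_count :
    (Finset.univ.filter fun g : Equiv.Perm (Fin 4) => g ^ 2 ≠ 1 ∧ g ^ 3 ≠ 1).card = 6 := by
  decide +kernel

theorem exists_generator (p : ℕ) [Fact p.Prime] :
    ∃ l : ZMod p, l ≠ 0 ∧ ∀ k, l ^ k = 1 → p - 1 ∣ k := by
  obtain ⟨u, hu⟩ := IsCyclic.exists_ofOrder_eq_natCard (α := (ZMod p)ˣ)
  rw [Nat.card_eq_fintype_card, ZMod.card_units] at hu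
  refine ⟨u, u.ne_zero, fun k hk => ?_⟩
  rw [← hu, orderOf_dvd_iff_pow_eq_one]
  exact Units.ext (by simpa using hk)

theorem alt_cases {H : Type*} [Group H] (h : Nonempty (H ≃* alternatingGroup (Fin 4)) ∨
    Nonempty (H ≃* alternatingGroup (Fin 5))) (g : H) : g ^ 2 = 1 ∨ g ^ 3 = 1 ∨ g ^ 5 = 1 := by
  rcases h with ⟨⟨e⟩⟩ | ⟨⟨e⟩⟩
  · rcases alt4_pow (e g) (e g).2 with h | h
    · exact Or.inl (e.injective (by rw [map_pow, map_one]; exact Subtype.ext h))
    · exact Or.inr (Or.inl (e.injective (by rw [map_pow, map_one]; exact Subtype.ext h)))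
  · rcases alt5_pow (e g) (e g).2 with h | h | h
    · exact Or.inl (e.injective (by rw [map_pow, map_one]; exact Subtype.ext h))
    · exact Or.inr (Or.inl (e.injective (by rw [map_pow, map_one]; exact Subtype.ext h)))
    · exact Or.inr (Or.inr (e.injective (by rw [map_pow, map_one]; exact Subtype.ext h)))

theorem three_points {p : ℕ} [Fact p.Prime] (hp : p = 11 ∨ 13 < p) (H : Subgroup (PGL2 (ZMod p)))
    (hH : ∀ g ∈ H, g ^ p = 1 → g = 1) (x : Fin 3 → OnePoint (ZMod p)) (hx : Function.Injective x)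
    (ht : ∀ i, ∃ t ∈ H, t • x i = x i ∧ ∀ k : ℕ, t ^ k = 1 → p - 1 ∣ 3 * k) : False := by
  choose t ht hfix hk using ht
  have key : ∀ i k, 0 < k → k ≤ 5 → t i ^ k ≠ 1 := by
    intro i k h0 h5 e
    have h1 := hk i k e
    rcases hp with rfl | hp
    · omega
    · have h2 := Nat.le_of_dvd (by omega) h1
      have h3 : p = 14 ∨ p = 15 ∨ p = 16 := by omega
      have := (Fact.out : p.Prime)
      rcases h3 with rfl | rfl | rfl <;> norm_num at this
  rcases pgl_three (by omega) H hH t x hx ht hfix (fun i => key i 2 (by omega) (by omega)) with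
    h | ⟨⟨e⟩⟩ | h
  · rcases alt_cases (Or.inl h) ⟨t 0, ht 0⟩ with h | h | h <;>
      exact key 0 _ (by omega) (by omega) (congrArg Subtype.val h)
  · rcases sym4_pow (e ⟨t 0, ht 0⟩) with h | h <;>
    · rw [← map_pow, map_eq_one_iff _ e.injective] at h
      exact key 0 _ (by omega) (by omega) (congrArg Subtype.val h)
  · rcases alt_cases (Or.inr h) ⟨t 0, ht 0⟩ with h | h | h <;>
      exact key 0 _ (by omega) (by omega) (congrArg Subtype.val h)

theorem all_points {p : ℕ} [Fact p.Prime] (hp : p = 13) (H : Subgroup (PGL2 (ZMod p)))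
    (hH : ∀ g ∈ H, g ^ p = 1 → g = 1)
    (ht : ∀ x : OnePoint (ZMod p), ∃ t ∈ H, t • x = x ∧ ∀ k : ℕ, t ^ k = 1 → p - 1 ∣ 3 * k) :
    False := by
  classical
  choose t ht hfix hk using ht
  have key : ∀ i k, k = 2 ∨ k = 3 ∨ k = 5 → t i ^ k ≠ 1 := by
    intro i k h0 e
    have h1 := hk i k e
    rw [hp] at h1
    omega
  have h01 : (0 : ZMod p) ≠ 1 := zero_ne_one
  let x : Fin 3 → OnePoint (ZMod p) := ![OnePoint.infty, ((0 : ZMod p) : OnePoint (ZMod p)),
    ((1 : ZMod p) : OnePoint (ZMod p))]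
  have hx : Function.Injective x := by
    intro i j
    fin_cases i <;> fin_cases j <;> simp [x]
  rcases pgl_three (by omega) H hH (fun i => t (x i)) x hx (fun i => ht _) (fun i => hfix _)
    (fun i => key _ 2 (by omega)) with h | ⟨⟨e⟩⟩ | h
  · rcases alt_cases (Or.inl h) ⟨t (x 0), ht _⟩ with h | h | h <;>
      exact key _ _ (by omega) (congrArg Subtype.val h)
  · have : Fintype (OnePoint (ZMod p)) := inferInstanceAs (Fintype (Option (ZMod p)))
    have hc : Fintype.card (OnePoint (ZMod p)) = 14 := by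
      rw [← Nat.card_eq_fintype_card]
      change Nat.card (Option (ZMod p)) = 14
      rw [Finite.card_option, Nat.card_zmod, hp]
    have := Finset.card_le_mul_card_image_of_maps_to (s := (Finset.univ : Finset (OnePoint (ZMod p))))
      (f := fun q => e ⟨t q, ht q⟩)
      (t := Finset.univ.filter fun g : Equiv.Perm (Fin 4) => g ^ 2 ≠ 1 ∧ g ^ 3 ≠ 1)
      (fun q _ => by
        simp only [Finset.mem_filter, Finset.mem_univ, true_and, ← map_pow, ne_eq,
          map_eq_one_iff _ e.injective]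
        exact ⟨fun h => key q 2 (by omega) (congrArg Subtype.val h),
          fun h => key q 3 (by omega) (congrArg Subtype.val h)⟩) 2
      (fun b _ => by
        by_contra hlt
        obtain ⟨a₁, a₂, a₃, h₁, h₂, h₃, h12, h13, h23⟩ := Finset.two_lt_card_iff.mp (not_le.mp hlt)
        simp only [Finset.mem_filter, Finset.mem_univ, true_and] at h₁ h₂ h₃
        have e2 : t a₂ = t a₁ := congrArg Subtype.val (e.injective (h₂.trans h₁.symm))
        have e3 : t a₃ = t a₁ := congrArg Subtype.val (e.injective (h₃.trans h₁.symm))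
        have := eq_one_of_three h12 h13 h23 (hfix a₁) (e2 ▸ hfix a₂) (e3 ▸ hfix a₃)
        exact key a₁ 2 (by omega) (by rw [this, one_pow]))
    rw [sym4_count, Finset.card_univ, hc] at this
    omega
  · rcases alt_cases (Or.inr h) ⟨t (x 0), ht _⟩ with h | h | h <;>
      exact key _ _ (by omega) (congrArg Subtype.val h)

end Cfsg.Agent.Lib.PCubedBound
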