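import Cfsg.Agent.Lib.TIOff
import Cfsg.Agent.Lib.FStarComp
import Cfsg.Agent.Lib.BurnsidePQ
import Cfsg.Agent.Lib.PCoreResidual
import Mathlib.Combinatorics.Enumerative.DoubleCounting

/-! The `P(G,V)`-theorem: best offenders normalize components. -/

set_option autoImplicit false

namespace Cfsg.Agent.Lib.PGV

open Cfsg Cfsg.Agent.Lib.PCoreConj Cfsg.Agent.Lib.PCore Cfsg.Agent.Lib.FFRep Cfsg.Agent.Lib.TIOff
  Cfsg.Agent.Lib.FStarComp Subgroup
open scoped commutatorElement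

section Grp

variable {G : Type*} [Group G] {K N : Subgroup G} {t x y b g : G} {p : ℕ}

theorem le_of_mem (hK : IsComponent K) (hN : K ≤ normalizer (N : Set G)) (hx : x ∈ N)
    (hx' : x ∉ centralizer (K : Set G)) : K ≤ N :=
  (IsComponent.le_or_commutator_eq_bot_of_normalizer hK hN).resolve_right fun e =>
    hx' (commutator_eq_bot_iff_le_centralizer.mp e hx)

theorem cm_of_ne (hK : IsComponent K) {g h : G} (hne : K ^ᶜ g ≠ K ^ᶜ h) : Cm (K ^ᶜ g) (K ^ᶜ h) :=
  cm_iff_commutator.mpr ((IsComponent.eq_or_commutator_eq_bot (IsComponent.conj hK g)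
    (IsComponent.conj hK h)).resolve_left hne)

theorem cm_conj (hK : IsComponent K) (hg : g ∉ normalizer (K : Set G)) : Cm K (K ^ᶜ g) := by
  simpa only [conj_one] using cm_of_ne hK (g := 1) (h := g) fun e =>
    hg (mem_normalizer_iff_conj_eq.mpr (e.symm.trans (conj_one K)))

theorem exists_comm (hK : IsComponent K) (hb : b ∈ normalizer (K : Set G)) (hb' : b ∉ centralizer (K : Set G)) :
    ∃ x ∈ K, x⁻¹ * (b * x * b⁻¹) ∉ centralizer (K : Set G) := by
  by_contra! h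
  refine hb' (commutator_eq_bot_iff_le_centralizer.mp (commutator_eq_bot_of_perfect (N := zpowers b)
    (IsComponent.perfect hK) (commutator_eq_bot_iff_le_centralizer.mpr ?_)) (mem_zpowers b))
  rw [commutator_comm]
  refine commutator_closure_le (A := K) (s := {b}) (fun y hy => hy ▸ normalizer_le_normalizer_centralizer K hb)
    (fun a ha y hy => ?_) |>.trans' (by rw [zpowers_eq_closure])
  obtain rfl : y = b := hy
  simpa only [commutatorElement_def, inv_inv, mul_assoc] using h _ (inv_mem ha)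

theorem exists_elt [Finite G] (hK : IsComponent K) {p q : ℕ} (hp : p.Prime) (hq : q.Prime) :
    ∃ x ∈ K, x ∉ centralizer (K : Set G) ∧ (orderOf x).Coprime p ∧ (orderOf x).Coprime q := by
  obtain ⟨r, hr, h₁, h₂⟩ : ∃ r : ℕ, r.Prime ∧ r ∣ Nat.card (K ⧸ center K) ∧ ¬ (r = p ∨ r = q) := by
    by_contra! h
    exact IsQuasisimple.not_isSolvable hK.2 (BurnsidePQ.isSolvable_of_normal (center K)
      (Group.isSolvable_of_comm fun a b => Subtype.ext (mem_center_iff.mp b.2 a))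
      (BurnsidePQ.isSolvable_of_forall_prime hp hq h))
  haveI := Fact.mk hr
  obtain ⟨y, hy⟩ := exists_prime_orderOf_dvd_card' r h₁
  obtain ⟨y, rfl⟩ := QuotientGroup.mk'_surjective _ y
  obtain ⟨a, -, ⟨k, hk⟩, e⟩ := PCoreResidual.exists_preimage_pElement (p := r) (QuotientGroup.mk' (center K))
    (isOfFinOrder_of_finite y) (j := 1) (by rw [pow_one, ← hy, pow_orderOf_eq_one])
  rw [not_or] at h₂
  refine ⟨a, a.2, fun h => hr.one_lt.ne' ?_, ?_, ?_⟩
  · rw [← hy, ← e, orderOf_eq_one_iff]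
    exact (QuotientGroup.eq_one_iff a).mpr (mem_center_iff.mpr fun g => Subtype.ext (h g g.2))
  · rw [orderOf_coe, hk]; exact ((Nat.coprime_primes hr hp).mpr h₂.1).pow_left k
  · rw [orderOf_coe, hk]; exact ((Nat.coprime_primes hr hq).mpr h₂.2).pow_left k

/-- the product of the first `n` conjugates of `x` under the powers of `t` -/
def pr (t x : G) (n : ℕ) : G := (x * t) ^ n * (t ^ n)⁻¹

theorem pr_succ (t x : G) (n : ℕ) : pr t x (n + 1) = pr t x n * (t ^ n * x * (t ^ n)⁻¹) := by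
  simp only [pr, pow_succ (x * t), pow_succ t]; group

theorem pr_succ' (t x : G) (n : ℕ) : pr t x (n + 1) = x * (t * pr t x n * t⁻¹) := by
  simp only [pr, pow_succ' (x * t), pow_succ' t]; group

theorem pr_mem {n : ℕ} (h : ∀ i < n, t ^ i * x * (t ^ i)⁻¹ ∈ N) : pr t x n ∈ N := by
  induction n with
  | zero => simp [pr]
  | succ n ih => exact pr_succ t x n ▸ mul_mem (ih fun i hi => h i (by omega)) (h n (by omega))

variable [hp : Fact p.Prime]

theorem pow_not_mem (ht : t ^ p = 1) (hn : t ∉ N) {i : ℕ} (h₀ : 0 < i) (h₁ : i < p) : t ^ i ∉ N := fun h =>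
  hn (mem_of_pow_mem_of_coprime (((Nat.coprime_of_lt_prime h₀.ne' h₁ hp.out)).coprime_dvd_left
    (orderOf_dvd_of_pow_eq_one ht)) h)

theorem cm_pow (hK : IsComponent K) (ht : t ^ p = 1) (hn : t ∉ normalizer (K : Set G)) {i j : ℕ} (h₀ : i < j)
    (h₁ : j < p) : Cm (K ^ᶜ (t ^ i)) (K ^ᶜ (t ^ j)) := by
  have := (cm_conj hK (pow_not_mem ht hn (i := j - i) (by omega) (by omega))).conj (t ^ i)
  rwa [conj_conj, ← pow_add, Nat.add_sub_cancel' h₀.le] at this

theorem pr_mul (hK : IsComponent K) (ht : t ^ p = 1) (hn : t ∉ normalizer (K : Set G)) (hx : x ∈ K) (hy : y ∈ K)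
    {n : ℕ} (h : n ≤ p) : pr t (x * y) n = pr t x n * pr t y n := by
  induction n with
  | zero => simp [pr]
  | succ n ih =>
    have := pr_mem (t := t) (x := y) (n := n) fun i hi =>
      (cm_pow hK ht hn hi h).le_centralizer (conj_mem_conj _ hy)
    rw [pr_succ, pr_succ, pr_succ, ih (by omega), mul_assoc (pr t x n), mul_assoc (pr t x n),
      ← mul_assoc (t ^ n * x * _), this _ (conj_mem_conj _ hx)]
    group

theorem pow_mul_hom (hK : IsComponent K) (ht : t ^ p = 1) (hn : t ∉ normalizer (K : Set G)) (hx : x ∈ K)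
    (hy : y ∈ K) : (x * y * t) ^ p = (x * t) ^ p * (y * t) ^ p := by
  simpa only [pr, ht, inv_one, mul_one] using pr_mul hK ht hn hx hy le_rfl

theorem pow_inv_hom (hK : IsComponent K) (ht : t ^ p = 1) (hn : t ∉ normalizer (K : Set G)) (hx : x ∈ K) :
    (x⁻¹ * t) ^ p = ((x * t) ^ p)⁻¹ := by
  rw [eq_inv_iff_mul_eq_one, ← pow_mul_hom hK ht hn (inv_mem hx) hx, inv_mul_cancel, one_mul, ht]

theorem inv_mul_pow_mem (ht : t ^ p = 1) (hx : x ∈ K) (h : ∀ i, 0 < i → i < p → K ^ᶜ (t ^ i) ≤ N) :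
    x⁻¹ * (x * t) ^ p ∈ N := by
  have e := pr_succ' t x (p - 1)
  rw [Nat.sub_add_cancel hp.out.one_le, pr, ht, inv_one, mul_one] at e
  rw [e, inv_mul_cancel_left, ← conj_mem_conj_iff (g := t⁻¹), inv_inv, ← mul_assoc, inv_mul_cancel_left,
    inv_mul_cancel_right]
  refine pr_mem fun i hi => ?_
  rw [mem_conj_iff, inv_inv]
  refine h (i + 1) (by omega) (by omega) ?_
  convert conj_mem_conj (t ^ (i + 1)) hx using 1
  rw [pow_succ']; group

theorem pow_comm (hK : IsComponent K) (ht : t ^ p = 1) (hn : t ∉ normalizer (K : Set G)) (hx : x ∈ K) :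
    x * (x * t) ^ p = (x * t) ^ p * x ∧ t * (x * t) ^ p = (x * t) ^ p * t := by
  have h₁ := inv_mul_pow_mem ht hx fun i h₀ h₁ => (cm_conj hK (pow_not_mem ht hn h₀ h₁)).symm.le_centralizer
  have h₂ : x * (x * t) ^ p = (x * t) ^ p * x := by
    rw [← mul_right_inj x⁻¹, ← mul_assoc, ← mul_assoc x⁻¹, ← h₁ x hx]; group
  refine ⟨h₂, ?_⟩
  rw [← mul_right_inj x, ← mul_assoc, ← pow_succ', ← mul_assoc, h₂, mul_assoc, ← pow_succ]

end Grp

theorem ring_quad {R H : Type*} [Ring R] [Group H] {p : ℕ} [hp : Fact p.Prime] [CharP R p] (h2 : p ≠ 2)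
    (σ : H →* R) {t x : H} (ht : (σ t - 1) * (σ t - 1) = 0) (hx : IsOfFinOrder x) (hc : (orderOf x).Coprime p)
    (h₁ : Commute x (t * x * t⁻¹)) (h₂ : Commute x (t⁻¹ * x * t)) (h₃ : Commute (t * x * t⁻¹) (t⁻¹ * x * t)) :
    σ (t * x * t⁻¹) = σ x := by
  obtain ⟨n, hn⟩ : ∃ n, σ t = 1 + n := ⟨σ t - 1, by abel⟩
  rw [hn, add_sub_cancel_left] at ht
  have hi : σ t⁻¹ = 1 - n := by
    have : σ t⁻¹ * (σ t * (1 - n)) = σ t⁻¹ := by
      rw [hn, show (1 + n) * (1 - n) = 1 - n * n by noncomm_ring, ht, sub_zero, mul_one]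
    rw [← this, ← mul_assoc, ← map_mul, inv_mul_cancel, map_one, one_mul]
  have hN := Nat.totient_pos.mpr hx.orderOf_pos
  generalize hN' : (orderOf x).totient = N at hN
  have hx' : x ^ p ^ N = x := by
    conv_rhs => rw [← pow_one x]
    exact pow_eq_pow_iff_modEq.mpr (hN' ▸ Nat.ModEq.pow_totient hc.symm)
  have nil : ∀ z : R, z * z = 0 → z ^ p ^ N = z → z = 0 := fun z h e => by
    obtain ⟨m, hm⟩ := Nat.exists_eq_add_of_le (Nat.one_lt_pow hN.ne' hp.out.one_lt : 2 ≤ p ^ N)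
    rw [← e, hm, pow_add, sq, h, zero_mul]
  have cp : ∀ (y : H) m, (t⁻¹ * y * t) ^ m = t⁻¹ * y ^ m * t := fun y m => by
    simpa only [inv_inv] using conj_pow (a := t⁻¹) (b := y) (i := m)
  have key : ∀ y, y ^ p ^ N = y → Commute y (t * y * t⁻¹) → Commute y (t⁻¹ * y * t) →
      Commute (t * y * t⁻¹) (t⁻¹ * y * t) → n * σ y * n = 0 := fun y hy a₁ a₂ a₃ => by
    have e : σ (t * y * t⁻¹) - σ y + (σ (t⁻¹ * y * t) - σ y) = -(2 * (n * σ y * n)) := by
      simp only [map_mul, hn, hi]; noncomm_ring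
    have := nil (σ (t * y * t⁻¹) - σ y + (σ (t⁻¹ * y * t) - σ y)) (by
      rw [e, show -(2 * (n * σ y * n)) * -(2 * (n * σ y * n)) = 4 * (n * σ y * (n * n) * σ y * n) by noncomm_ring,
        ht]
      simp) (by
      rw [add_pow_char_pow_of_commute _ _ (((a₃.map σ).sub_right (a₁.map σ).symm).sub_left
        ((a₂.map σ).sub_right (Commute.refl _))), sub_pow_char_pow_of_commute _ _ (a₁.map σ).symm,
        sub_pow_char_pow_of_commute _ _ (a₂.map σ).symm, ← map_pow, ← map_pow, ← map_pow, conj_pow, cp, hy])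
    rw [e, neg_eq_zero] at this
    obtain ⟨k, hk⟩ := hp.out.odd_of_ne_two h2
    have h0 : ((2 * k + 1 : ℕ) : R) = 0 := hk ▸ CharP.cast_eq_zero R p
    calc n * σ y * n = ((2 * k + 1 : ℕ) : R) * (n * σ y * n) - k * (2 * (n * σ y * n)) := by
          push_cast
          rw [← (Nat.cast_commute k (2 : R)).eq, ← mul_assoc (k : R), add_mul, one_mul, add_sub_cancel_left]
      _ = 0 := by rw [h0, this, zero_mul, mul_zero, sub_zero]
  have k₁ := key x hx' h₁ h₂ h₃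
  have k₂ := key (x ^ 2) (by rw [← pow_mul, mul_comm, pow_mul, hx'])
    (by rw [← conj_pow]; exact h₁.pow_pow 2 2) (by rw [← cp]; exact h₂.pow_pow 2 2)
    (by rw [← conj_pow, ← cp]; exact h₃.pow_pow 2 2)
  refine sub_eq_zero.mp (nil _ ?_ (by
    rw [sub_pow_char_pow_of_commute _ _ (h₁.map σ).symm, ← map_pow, ← map_pow, conj_pow, hx']))
  have e : σ (t * x * t⁻¹) - σ x = n * σ x - σ x * n := by
    rw [map_mul, map_mul, hn, hi, ← sub_eq_zero, ← neg_zero, ← k₁]; noncomm_ring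
  rw [sq, map_mul] at k₂
  rw [e, show (n * σ x - σ x * n) * (n * σ x - σ x * n) = n * σ x * n * σ x - n * (σ x * σ x) * n -
    σ x * (n * n) * σ x + σ x * (n * σ x * n) by noncomm_ring, k₁, k₂, ht]
  simp

section Mod

variable {G : Type*} [Group G] {p : ℕ} [hp : Fact p.Prime] {V : Type*} [AddCommGroup V] [Module (ZMod p) V]
variable {ρ : Representation (ZMod p) G V} {K B : Subgroup G} {X W U : Submodule (ZMod p) V} {t t' b g d x : G}

/-- the elements `g` stabilizing `X` with `[X, g] ≤ U` -/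
def rl (ρ : Representation (ZMod p) G V) (X U : Submodule (ZMod p) V) : Subgroup G where
  carrier := {g | g ∈ stab ρ X ∧ ∀ v ∈ X, ρ g v - v ∈ U}
  one_mem' := ⟨one_mem _, fun v _ => by rw [act_one, sub_self]; exact U.zero_mem⟩
  mul_mem' := fun {a b} ha hb => ⟨mul_mem ha.1 hb.1, fun v hv => by
    rw [act_mul, ← sub_add_sub_cancel _ (ρ b v)]
    exact U.add_mem (ha.2 _ (act_mem hb.1 hv)) (hb.2 v hv)⟩
  inv_mem' := fun {a} ha => ⟨inv_mem ha.1, fun v hv => by
    simpa only [act_act_inv, neg_sub] using U.neg_mem (ha.2 _ (act_mem (inv_mem ha.1) hv))⟩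

theorem mem_cent_com (hg : g ∈ stab ρ X) (h : ∀ v ∈ X, ρ d (ρ g v - v) = ρ g v - v) :
    d ∈ cent ρ (com ρ X (zpowers g)) :=
  zpowers_le.mp (le_fix_iff.mp (com_le_iff.mpr fun v hv _ ha => ((zpowers_le (H := rl ρ X (fix ρ (zpowers d)))).mpr
    ⟨hg, fun v hv => mem_fix_zpowers.mpr (h v hv)⟩ ha).2 v hv))

theorem mem_stab_com (hd : d ∈ stab ρ X) (h : d * g = g * d) : d ∈ stab ρ (com ρ X (zpowers g)) :=
  zpowers_le.mp (le_stab_com_of (zpowers_le.mpr hd) (zpowers_le.mpr (mem_normalizer_iff_conj_eq.mpr (by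
    rw [conj_zpowers, h, mul_inv_cancel_right]))))

theorem le_cent_of_mem (hK : IsComponent K) (hW : K ≤ stab ρ W) (hg : g ∈ cent ρ W)
    (hg' : g ∉ centralizer (K : Set G)) : K ≤ cent ρ W :=
  le_of_mem hK (hW.trans (stab_le_normalizer_cent W)) hg hg'

theorem le_cent_of_quad (hK : IsComponent K) (hW : K ≤ stab ρ W) (h : com ρ W K ≤ fix ρ K) : K ≤ cent ρ W :=
  (IsComponent.perfect hK).ge.trans (commutator_le_cent hW hW h h)

/-- an element of order `p` moving the component `K` -/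
structure Ct (ρ : Representation (ZMod p) G V) (K : Subgroup G) (X : Submodule (ZMod p) V) (t : G) : Prop where
  comp : IsComponent K
  sK : K ≤ stab ρ X
  nc : ¬ K ≤ cent ρ X
  st : t ∈ stab ρ X
  pow : t ^ p = 1
  nn : t ∉ normalizer (K : Set G)

/-- the diagonal subgroup centralizes `[X, t]` -/
def Hy (ρ : Representation (ZMod p) G V) (K : Subgroup G) (X : Submodule (ZMod p) V) (t : G) : Prop :=
  ∀ x ∈ K, (x * t) ^ p ∈ cent ρ (com ρ X (zpowers t))

namespace Ct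

variable (c : Ct ρ K X t)
include c

theorem pow_stab (hx : x ∈ K) : (x * t) ^ p ∈ stab ρ X := pow_mem (mul_mem (c.sK hx) c.st) p

theorem conj_stab (i : ℕ) : K ^ᶜ (t ^ i) ≤ stab ρ X := conj_le_of_mem c.sK (pow_mem c.st i)

theorem pow_norm (hx : x ∈ K) : (x * t) ^ p ∈ normalizer (cent ρ (com ρ X (zpowers t)) : Set G) :=
  stab_le_normalizer_cent _ (mem_stab_com (c.pow_stab hx) (pow_comm c.comp c.pow c.nn hx).2.symm)

theorem hy_of_mem (hx : x ∈ K) (hx' : x ∉ centralizer (K : Set G))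
    (h : (x * t) ^ p ∈ cent ρ (com ρ X (zpowers t))) : Hy ρ K X t := by
  let J : Subgroup G :=
    { carrier := {x | x ∈ K ∧ (x * t) ^ p ∈ cent ρ (com ρ X (zpowers t))}
      one_mem' := ⟨one_mem _, by rw [one_mul, c.pow]; exact one_mem _⟩
      mul_mem' := fun ha hb => ⟨mul_mem ha.1 hb.1, pow_mul_hom c.comp c.pow c.nn ha.1 hb.1 ▸ mul_mem ha.2 hb.2⟩
      inv_mem' := fun ha => ⟨inv_mem ha.1, pow_inv_hom c.comp c.pow c.nn ha.1 ▸ inv_mem ha.2⟩ }
  refine fun y hy => (le_of_mem c.comp (N := J) (le_normalizer_iff_conj_le.mpr fun k hk => conj_le_iff.mpr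
    fun a ha => ⟨mul_mem (mul_mem hk ha.1) (inv_mem hk), ?_⟩) ⟨hx, h⟩ hx' hy).2
  rw [pow_mul_hom c.comp c.pow c.nn (mul_mem hk ha.1) (inv_mem hk), pow_mul_hom c.comp c.pow c.nn hk ha.1,
    pow_inv_hom c.comp c.pow c.nn hk]
  exact (mem_normalizer_iff.mp (c.pow_norm hk) _).mp ha.2

theorem comm_mem (hb : b ∈ cent ρ (com ρ X (zpowers t))) (hc : b * t = t * b) (hx : x ∈ K) :
    ((x * t) ^ p)⁻¹ * (b * x * b⁻¹ * t) ^ p ∈ cent ρ (com ρ X (zpowers t)) := by
  have e : b * x * b⁻¹ * t = b * (x * t) * b⁻¹ := by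
    rw [mul_assoc (b * x), ← (Commute.inv_left hc).eq.symm]; group
  rw [e, conj_pow, ← mul_assoc, ← mul_assoc]
  exact mul_mem (by simpa only [inv_inv] using (mem_normalizer_iff.mp (inv_mem (c.pow_norm hx)) _).mp hb) (inv_mem hb)

theorem hy_of_norm (hb : b ∈ cent ρ (com ρ X (zpowers t))) (hc : b * t = t * b)
    (h₁ : b ∈ normalizer (K : Set G)) (h₂ : b ∉ centralizer (K : Set G)) : Hy ρ K X t := by
  obtain ⟨x, hx, h⟩ := exists_comm c.comp h₁ h₂
  have h₃ := (mem_normalizer_iff.mp h₁ _).mp hx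
  refine c.hy_of_mem (mul_mem (inv_mem hx) h₃) h ?_
  rw [pow_mul_hom c.comp c.pow c.nn (inv_mem hx) h₃, pow_inv_hom c.comp c.pow c.nn hx]
  exact c.comm_mem hb hc hx

theorem hy_of_cm (hb : b ∈ cent ρ (com ρ X (zpowers t))) (hc : b * t = t * b)
    (h : ∀ x ∈ K, ∀ y ∈ K, (y * t) ^ p * (b * x * b⁻¹ * t) ^ p = (b * x * b⁻¹ * t) ^ p * (y * t) ^ p) :
    Hy ρ K X t := by
  obtain ⟨y, hy, x, hx, h₁⟩ : ∃ y ∈ K, ∃ x ∈ K, ⁅y, x⁻¹⁆ ∉ centralizer (K : Set G) := by
    by_contra! h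
    exact IsQuasisimple.not_le_centralizer c.comp.2 ((IsComponent.perfect c.comp).ge.trans
      (commutator_le.mpr fun y hy x hx => by simpa only [inv_inv] using h y hy _ (inv_mem hx)))
  rw [commutatorElement_def, inv_inv] at h₁
  have h₂ := mul_mem hy (inv_mem hx)
  refine c.hy_of_mem (mul_mem (mul_mem h₂ (inv_mem hy)) hx) h₁ ?_
  have h₃ := c.comm_mem hb hc hx
  have h₄ := mul_mem ((mem_normalizer_iff.mp (c.pow_norm hy) _).mp h₃) (inv_mem h₃)
  rw [pow_mul_hom c.comp c.pow c.nn (mul_mem h₂ (inv_mem hy)) hx, pow_mul_hom c.comp c.pow c.nn h₂ (inv_mem hy),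
    pow_mul_hom c.comp c.pow c.nn hy (inv_mem hx), pow_inv_hom c.comp c.pow c.nn hx,
    pow_inv_hom c.comp c.pow c.nn hy]
  convert h₄ using 1
  rw [mul_assoc _ (_⁻¹ * _), mul_assoc _⁻¹, ← (Commute.inv_left (h x hx y hy)).eq]
  group

theorem conj_not_mem (hx : x ∈ K) (hx' : x ∉ centralizer (K : Set G)) :
    x * (t * x * t⁻¹)⁻¹ ∉ centralizer (K : Set G) := fun h =>
  hx' (by simpa only [inv_mul_cancel_right] using mul_mem h ((cm_conj c.comp c.nn).symm.le_centralizer (conj_mem_conj t hx)))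

theorem not_hy [Finite G] (h2 : p ≠ 2) : ¬ Hy ρ K X t := fun h => by
  have h3 : 2 < p := lt_of_le_of_ne hp.out.two_le h2.symm
  obtain ⟨x, hx, hx', hc, -⟩ := exists_elt c.comp hp.out hp.out
  obtain ⟨c₁, c₂⟩ := pow_comm c.comp c.pow c.nn hx
  have hcm : ∀ i, 0 < i → i < p → Cm K (K ^ᶜ (t ^ i)) := fun i h₀ h₁ => cm_conj c.comp (pow_not_mem c.pow c.nn h₀ h₁)
  have hg : x * (t * x * t⁻¹)⁻¹ ∈ K ⊔ K ^ᶜ (t ^ 1) :=
    mul_mem_sup hx (inv_mem (by rw [pow_one]; exact conj_mem_conj t hx))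
  set g := x * (t * x * t⁻¹)⁻¹ with hg'
  have sg := sup_le c.sK (c.conj_stab 1) hg
  have h₁ : ∀ v ∈ X, ρ ((x * t) ^ p) (ρ g v - v) = ρ g v - v := fun v hv => by
    have a₁ := h x hx _ (sub_mem_com (act_mem (inv_mem c.st) hv) (mem_zpowers t))
    have a₂ := h x hx _ (sub_mem_com (act_mem (inv_mem (c.sK hx)) (act_mem (inv_mem c.st) hv)) (mem_zpowers t))
    have e : ρ g v - v = ρ x (ρ t (ρ x⁻¹ (ρ t⁻¹ v)) - ρ x⁻¹ (ρ t⁻¹ v)) - (ρ t (ρ t⁻¹ v) - ρ t⁻¹ v) := by
      simp only [hg', _root_.mul_inv_rev, inv_inv, act_mul, map_sub, act_act_inv]; abel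
    rw [e, map_sub, a₁, ← act_mul, ← c₁, act_mul, a₂]
  have h₂ : ∀ i, 1 < i → i < p → g ∈ cent ρ (com ρ X (K ^ᶜ (t ^ i))) := fun i h₀ h₁' => by
    have a₁ : Cm (zpowers g) (K ^ᶜ (t ^ i)) :=
      ((hcm i (by omega) h₁').sup_left (cm_pow c.comp c.pow c.nn h₀ h₁')).mono (zpowers_le.mpr hg) le_rfl
    refine zpowers_le.mp (le_fix_iff.mp (com_le_fix_of_comm a₁ (le_fix_iff.mpr (le_cent_of_mem
      (IsComponent.conj c.comp _) (fun k hk => mem_stab_com (c.conj_stab i hk) (a₁ g (mem_zpowers g) k hk).symm)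
      (mem_cent_com sg h₁) fun e => hx' ?_))))
    rw [← conj_centralizer, mem_conj_iff, mul_assoc, ← (Commute.pow_left c₂ i).eq, inv_mul_cancel_left] at e
    simpa using mul_mem e (inv_mem (inv_mul_pow_mem c.pow hx fun i h₀ h₁ => (hcm i h₀ h₁).symm.le_centralizer))
  have h₃ : ∀ i, 0 < i → i < p → K ^ᶜ (t ^ i) ≤ cent ρ (com ρ X K) := fun i h₀ h₁' => by
    refine le_fix_iff.mp (com_le_fix_of_comm (hcm i h₀ h₁').symm (le_fix_iff.mpr ?_))
    rcases (Nat.succ_le_of_lt h₀).eq_or_lt with rfl | h₀'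
    · have := le_cent_of_mem (IsComponent.conj c.comp (t ^ 1)) (le_stab_com_of (c.conj_stab 1)
        (cm_pow c.comp c.pow c.nn one_lt_two h3).le_normalizer) (h₂ 2 one_lt_two h3) fun e => hx' (by
          have := mul_mem (inv_mem e) ((hcm 1 h₀ h₁').le_centralizer hx)
          rw [← conj_centralizer, pow_one, mem_conj_iff] at this
          simpa [hg', mul_assoc] using this)
      rwa [← conj_le_conj_iff (g := t ^ 1), conj_cent, tr_com, tr_eq_of_mem_stab (pow_mem c.st 1), conj_conj,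
        ← pow_add]
    · exact le_cent_of_mem c.comp (le_stab_com_of c.sK (hcm i h₀ h₁').le_normalizer) (h₂ i h₀' h₁')
        (c.conj_not_mem hx hx')
  refine c.nc (le_cent_of_quad c.comp c.sK (le_fix_iff.mpr (le_cent_of_mem c.comp (le_stab_com X K) (g := x ^ p)
    (fun v hv => act_pow_eq ?_) fun e => hx' (mem_of_pow_mem_of_coprime hc e))))
  have a₁ := h₁ v (com_le_self c.sK hv)
  rw [hg', act_mul, inv_mem (h₃ 1 one_pos hp.out.one_lt (by rw [pow_one]; exact conj_mem_conj t hx)) v hv,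
    ← mul_inv_cancel_left x ((x * t) ^ p), act_mul,
    inv_mul_pow_mem c.pow hx h₃ _ (sub_mem (act_mem (le_stab_com X K hx) hv) hv)] at a₁
  exact a₁

theorem not_quad [Finite G] (h2 : p ≠ 2) (h : ∀ v ∈ X, ρ t (ρ t v - v) = ρ t v - v) : False := by
  have h3 : 2 < p := lt_of_le_of_ne hp.out.two_le h2.symm
  obtain ⟨x, hx, hx', hc, -⟩ := exists_elt c.comp hp.out hp.out
  let σ := Representation.subrepresentation (ρ.comp (stab ρ X).subtype) X fun g _ hv => act_mem g.2 hv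
  haveI : Nontrivial X := Submodule.nontrivial_iff_ne_bot.mpr fun e => c.nc (by rw [e, cent_bot]; exact le_top)
  haveI : CharP (Module.End (ZMod p) X) p := charP_of_injective_algebraMap (algebraMap (ZMod p) _).injective p
  have h₁ := cm_conj c.comp c.nn
  have h₂ := cm_conj c.comp (g := t⁻¹) fun e => c.nn (inv_mem_iff.mp e)
  have h₃ := (cm_conj c.comp (pow_not_mem c.pow c.nn two_pos h3)).conj t⁻¹
  rw [conj_conj, sq, inv_mul_cancel_left] at h₃
  have m : t⁻¹ * x * t ∈ K ^ᶜ t⁻¹ := by simpa only [inv_inv] using conj_mem_conj t⁻¹ hx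
  have := ring_quad h2 σ (t := ⟨t, c.st⟩) (x := ⟨x, c.sK hx⟩)
    (LinearMap.ext fun v => Subtype.ext (sub_eq_zero.mpr (h v v.2))) (isOfFinOrder_of_finite _)
    (by rwa [← orderOf_coe]) (Subtype.ext (h₁ x hx _ (conj_mem_conj t hx))) (Subtype.ext (h₂ x hx _ m))
    (Subtype.ext (h₃ _ m _ (conj_mem_conj t hx)).symm)
  refine c.nc (le_cent_of_mem c.comp c.sK (inv_mem_iff.mp fun v hv => ?_) (c.conj_not_mem hx hx'))
  have e : ρ (t * x * t⁻¹) (ρ x⁻¹ v) = ρ x (ρ x⁻¹ v) :=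
    congrArg Subtype.val (LinearMap.congr_fun this ⟨_, act_mem (inv_mem (c.sK hx)) hv⟩)
  rw [_root_.mul_inv_rev, inv_inv, act_mul, e, act_act_inv]

end Ct

end Mod

section Two

variable {G : Type*} [Group G] {V : Type*} [AddCommGroup V] [Module (ZMod 2) V]
variable {ρ : Representation (ZMod 2) G V} {K B : Subgroup G} {X W U : Submodule (ZMod 2) V} {t t' b g d x : G}

theorem sq_eq (ht : t ^ 2 = 1) (x : G) : (x * t) ^ 2 = x * (t * x * t⁻¹) := by
  rw [inv_eq_of_mul_eq_one_right ((sq t).symm.trans ht), sq]; group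

theorem Ct.hy_of_ne (c : Ct ρ K X t) (hb : b ∈ cent ρ (com ρ X (zpowers t))) (hc : b * t = t * b)
    (h₁ : b ∉ normalizer (K : Set G)) (h₂ : K ^ᶜ t ≠ K ^ᶜ b) : Hy ρ K X t := by
  have a₁ := cm_conj c.comp h₁
  have a₂ := cm_of_ne c.comp h₂
  have a₃ := a₂.conj t
  rw [conj_conj, ← sq, c.pow, conj_one] at a₃
  refine c.hy_of_cm hb hc fun x hx y hy => ?_
  rw [sq_eq c.pow, sq_eq c.pow]
  exact ((a₁.sup_right a₃).sup_left (a₂.sup_right (a₁.conj t))) _ (mul_mem_sup hy (conj_mem_conj t hy)) _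
    (mul_mem_sup (conj_mem_conj b hx) (conj_mem_conj t (conj_mem_conj b hx)))

theorem Ct.mem_rl (c : Ct ρ K X t) (h : Hy ρ K X t) (hx : x ∈ K) :
    x * (t * x * t⁻¹) ∈ rl ρ X (X ⊓ fix ρ (zpowers t)) := by
  rw [← sq_eq c.pow]
  refine ⟨c.pow_stab hx, fun v hv => ⟨sub_mem (act_mem (c.pow_stab hx) hv) hv, mem_fix_zpowers.mpr ?_⟩⟩
  rw [← sub_eq_zero, sub_sub_comm' (pow_comm c.comp c.pow c.nn hx).2.symm,
    h x hx _ (sub_mem_com hv (mem_zpowers t)), sub_self]

theorem Ct.le_rl (c : Ct ρ K X t) (c' : Ct ρ K X t') (h : Hy ρ K X t) (h' : Hy ρ K X t')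
    (hn : t⁻¹ * t' ∉ centralizer (K : Set G)) :
    K ≤ rl ρ X (X ⊓ fix ρ (zpowers t) ⊔ X ⊓ fix ρ (zpowers t')) := by
  set L := rl ρ X (X ⊓ fix ρ (zpowers t) ⊔ X ⊓ fix ρ (zpowers t'))
  have h₁ : ∀ x ∈ K, x * (t * x * t⁻¹) ∈ L := fun x hx =>
    ⟨(c.mem_rl h hx).1, fun v hv => Submodule.mem_sup_left ((c.mem_rl h hx).2 v hv)⟩
  have h₂ : ∀ x ∈ K, x * (t' * x * t'⁻¹) ∈ L := fun x hx =>
    ⟨(c'.mem_rl h' hx).1, fun v hv => Submodule.mem_sup_right ((c'.mem_rl h' hx).2 v hv)⟩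
  have a₁ := cm_conj c.comp c.nn
  have a₂ := cm_conj c.comp c'.nn
  by_cases e : K ^ᶜ t = K ^ᶜ t'
  · obtain ⟨x, hx, h₃⟩ := exists_comm c.comp (mem_normalizer_iff_conj_eq.mpr (by
      rw [← conj_conj, ← e, conj_conj_inv])) hn
    have h₄ := le_of_mem (IsComponent.conj c.comp t) (N := L ⊓ K ^ᶜ t) (le_normalizer_iff_conj_le.mpr (by
      rintro _ ⟨y, hy, rfl⟩
      refine conj_le_iff.mpr fun n hn => ?_
      have h₄ := mul_mem (mul_mem (conj_mem_conj t hy) hn.2) (inv_mem (conj_mem_conj t hy))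
      refine ⟨?_, h₄⟩
      convert mul_mem (mul_mem (h₁ y hy) hn.1) (inv_mem (h₁ y hy)) using 1
      rw [_root_.mul_inv_rev y, ← mul_assoc, mul_assoc y, mul_assoc y, a₁ y hy _ h₄, mul_inv_cancel_right]
      rfl)) (x := (t * x * t⁻¹)⁻¹ * (t' * x * t'⁻¹))
      (mem_inf.mpr ⟨by
        simpa only [_root_.mul_inv_rev x, mul_assoc, inv_mul_cancel_left] using mul_mem (inv_mem (h₁ x hx)) (h₂ x hx),
        mul_mem (inv_mem (conj_mem_conj t hx)) (e ▸ conj_mem_conj t' hx)⟩) fun e => h₃ (by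
          rw [← conj_centralizer, mem_conj_iff] at e
          simpa [mul_assoc] using e)
    exact fun y hy => by
      simpa only [mul_inv_cancel_right] using mul_mem (h₁ y hy) (inv_mem (h₄ (conj_mem_conj t hy)).1)
  · refine (IsComponent.perfect c.comp).ge.trans (commutator_le.mpr fun x hx y hy => ?_)
    have b₁ : Commute (t * x * t⁻¹) (y * (t' * y * t'⁻¹)) :=
      (a₁.symm.sup_right (cm_of_ne c.comp e)) _ (conj_mem_conj t hx) _ (mul_mem_sup hy (conj_mem_conj t' hy))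
    have b₂ : Commute x⁻¹ (t' * y * t'⁻¹) := a₂ _ (inv_mem hx) _ (conj_mem_conj t' hy)
    convert mul_mem (mul_mem (mul_mem (h₁ x hx) (h₂ y hy)) (inv_mem (h₁ x hx))) (inv_mem (h₂ y hy)) using 1
    rw [mul_assoc x, b₁.eq, _root_.mul_inv_rev x, ← mul_assoc x, mul_assoc _ (t * x * t⁻¹), mul_inv_cancel_left,
      mul_assoc x, mul_assoc y, ← b₂.eq, commutatorElement_def]
    group

theorem Ct.two_mul_lt [Finite G] [Finite V] (c : Ct ρ K X t) :
    2 * Nat.card ↥(X ⊓ fix ρ (zpowers t)) < Nat.card X := by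
  by_contra! h
  obtain ⟨x, hx, hx', h2, h3⟩ := exists_elt c.comp Nat.prime_two Nat.prime_three
  set U := X.map (ρ t - 1)
  have hU : Nat.card U ≤ 2 := by
    choose f h₁ h₂ using fun u : U => u.2
    refine Nat.le_of_mul_le_mul_right ((card_mul_le_of_map inf_le_left f h₁ fun u w e => Subtype.ext ?_).trans h)
      (card_pos' _)
    rw [← h₂, ← h₂, ← sub_eq_zero, ← map_sub]
    exact sub_eq_zero.mpr (mem_fix_zpowers.mp e.2)
  have hU' : Nat.card ↥(U ⊔ tr ρ x U) ≤ 4 := by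
    have := card_sup_mul_card_inf' U (tr ρ x U)
    have := card_pos' (U ⊓ tr ρ x U)
    rw [card_tr] at *
    nlinarith
  have hc : Commute x (t * x * t⁻¹) := cm_conj c.comp c.nn x hx _ (conj_mem_conj t hx)
  have ht : t ∈ rl ρ X (U ⊔ tr ρ x U) := ⟨c.st, fun v hv => Submodule.mem_sup_left ⟨v, hv, rfl⟩⟩
  have hy : x * (t * x * t⁻¹)⁻¹ ∈ rl ρ X (U ⊔ tr ρ x U) := by
    rw [show x * (t * x * t⁻¹)⁻¹ = x * t * x⁻¹ * t⁻¹ by group]
    refine mul_mem ⟨mul_mem (mul_mem (c.sK hx) c.st) (inv_mem (c.sK hx)), fun v hv =>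
      Submodule.mem_sup_right ⟨_, ⟨_, act_mem (inv_mem (c.sK hx)) hv, rfl⟩, ?_⟩⟩ (inv_mem ht)
    simp [act_mul]
  have ho : (orderOf (x * (t * x * t⁻¹)⁻¹)).Coprime 2 := h2.coprime_dvd_left (orderOf_dvd_of_pow_eq_one (by
    rw [hc.inv_right.mul_pow, inv_pow, conj_pow, pow_orderOf_eq_one]; simp))
  refine c.nc (le_cent_of_mem c.comp c.sK (fun v hv => ?_) (c.conj_not_mem (pow_mem hx 3)
    fun e => hx' (mem_of_pow_mem_of_coprime h3 e)))
  rw [← conj_pow, ← inv_pow, ← hc.inv_right.mul_pow]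
  generalize x * (t * x * t⁻¹)⁻¹ = y at *
  have h₁ := card_mul_le_of_map' (inf_le_left : zpowers y ⊓ cent ρ ((ZMod 2) ∙ v) ≤ zpowers y)
    (bot_le : ⊥ ≤ U ⊔ tr ρ x U) (fun a => ρ a v - v) (fun a ha => (zpowers_le.mpr hy ha).2 v hv)
    fun a ha b hb e => mem_inf.mpr ⟨mul_mem (inv_mem ha) hb, mem_cent_span.mpr (by
      rw [Submodule.mem_bot, sub_sub_sub_cancel_right, sub_eq_zero] at e
      rw [act_mul, ← e, act_inv_act])⟩
  have h₂ := pow_index_mem (H := (cent ρ ((ZMod 2) ∙ v)).subgroupOf (zpowers y)) ⟨y, mem_zpowers y⟩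
  have h₃ := ho.coprime_dvd_left (Nat.card_zpowers y ▸ relIndex_dvd_card (cent ρ ((ZMod 2) ∙ v)) (zpowers y))
  rw [← card_inf_mul_relIndex (cent ρ ((ZMod 2) ∙ v)), inf_comm,
    Nat.card_unique (α := (⊥ : Submodule (ZMod 2) V)), mul_one] at h₁
  have h₄ := (Nat.le_of_mul_le_mul_left h₁ Nat.card_pos).trans hU'
  obtain ⟨k, hk⟩ : (cent ρ ((ZMod 2) ∙ v)).relIndex (zpowers y) ∣ 3 := by
    generalize (cent ρ ((ZMod 2) ∙ v)).relIndex (zpowers y) = m at *
    revert h₃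
    interval_cases m <;> decide
  rw [hk, pow_mul]
  exact mem_cent_span.mp (pow_mem h₂ k)

theorem count {G V : Type*} [Group G] [Finite G] {k : Type*} [Field k] [AddCommGroup V] [Module k V] [Finite V]
    {B B₀ C : Subgroup G} (h₀ : ¬ B ≤ B₀) (H : G → Submodule k V) {Z : Submodule k V}
    (h₁ : ∀ t ∈ B, Z ≤ H t) (h₂ : ∀ t ∈ B, t ∉ B₀ → 2 * Nat.card (H t) < Nat.card V)
    (h₃ : ∀ t ∈ B, t ∉ B₀ → ∀ t' ∈ B, t' ∉ B₀ → t⁻¹ * t' ∉ C → H t ⊔ H t' = ⊤) :
    Nat.card B * Nat.card Z < Nat.card C * Nat.card V := by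
  classical
  haveI : Module.Finite k V := Module.Finite.of_finite
  have hq : ∀ W : Submodule k V, Nat.card V = Nat.card W * Nat.card W.dualAnnihilator := fun W => by
    rw [← Nat.card_congr (Subspace.quotEquivAnnihilator W).toEquiv, ← Submodule.card_eq_card_quotient_mul_card]
  have hfin : ∀ W : Submodule k V, (W.dualAnnihilator : Set (Module.Dual k V)).Finite := fun W =>
    Nat.finite_of_card_ne_zero fun e => Nat.card_pos.ne' ((hq W).trans (mul_eq_zero_of_right _ e))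
  have hc : ∀ W : Submodule k V, ((hfin W).toFinset.erase 0).card + 1 = Nat.card W.dualAnnihilator := fun W => by
    rw [Finset.card_erase_add_one ((hfin W).mem_toFinset.mpr (zero_mem _)), ← Set.ncard_eq_toFinset_card _ (hfin W)]; rfl
  haveI := Fintype.ofFinite G
  let s : Finset G := Finset.univ.filter fun t => t ∈ B ∧ t ∉ B₀
  have hs : ∀ t, t ∈ s ↔ t ∈ B ∧ t ∉ B₀ := fun t => by simp [s]
  have e₁ := Finset.card_mul_le_card_mul (s := s) (t := (hfin Z).toFinset.erase 0)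
    (fun t f => f ∈ (H t).dualAnnihilator) (m := 2) (n := Nat.card C) (fun t ht => by
      rw [hs] at ht
      have a₁ := h₂ t ht.1 ht.2
      rw [hq (H t), ← hc, mul_comm] at a₁
      refine (Nat.le_of_lt_succ (lt_of_mul_lt_mul_left a₁ (Nat.zero_le _))).trans (Finset.card_le_card fun f hf => ?_)
      simp only [Finset.mem_erase, Set.Finite.mem_toFinset, Finset.mem_bipartiteAbove, SetLike.mem_coe] at hf ⊢
      exact ⟨⟨hf.1, Submodule.dualAnnihilator_anti (h₁ t ht.1) hf.2⟩, hf.2⟩) fun f hf => by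
      rcases (s.bipartiteBelow (fun t f => f ∈ (H t).dualAnnihilator) f).eq_empty_or_nonempty with e | ⟨t, ht⟩
      · rw [e]; exact Nat.zero_le _
      rw [← Nat.card_eq_finsetCard]
      refine Nat.card_le_card_of_injective (fun t' => (⟨t⁻¹ * t', by_contra fun e => ?_⟩ : C))
        fun a b e => Subtype.ext (mul_left_cancel (congrArg Subtype.val e))
      have ht' := t'.2
      rw [Finset.mem_bipartiteBelow, hs] at ht ht'
      refine Finset.ne_of_mem_erase hf (Submodule.mem_bot k |>.mp ?_)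
      rw [← Submodule.dualAnnihilator_top, ← h₃ t ht.1.1 ht.1.2 _ ht'.1.1 ht'.1.2 e, Submodule.dualAnnihilator_sup_eq]
      exact ⟨ht.2, ht'.2⟩
  have e₂ : Nat.card B ≤ s.card * 2 := by
    obtain ⟨t, ht, ht'⟩ := SetLike.not_le_iff_exists.mp h₀
    rw [← Nat.card_eq_finsetCard, ← Nat.card_zmod 2, ← Nat.card_prod]
    refine Nat.card_le_card_of_injective (fun b => if h : (b : G) ∈ B₀ then
      (⟨t * b, (hs _).mpr ⟨mul_mem ht b.2, fun e => ht' ((mul_mem_cancel_right h).mp e)⟩⟩, 0)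
      else (⟨b, (hs _).mpr ⟨b.2, h⟩⟩, 1)) fun a b e => ?_
    by_cases ha : (a : G) ∈ B₀ <;> by_cases hb : (b : G) ∈ B₀ <;> simp_all
  rw [hq Z, ← hc]
  have := Nat.card_pos (α := C)
  have := card_pos' Z
  nlinarith [Nat.mul_le_mul_right (Nat.card Z) (e₂.trans e₁)]

end Two

section Main

variable {G : Type*} [Group G] [Finite G] {p : ℕ} [hp : Fact p.Prime] {V : Type*} [AddCommGroup V]
  [Module (ZMod p) V] [Finite V] {ρ : Representation (ZMod p) G V} {K A : Subgroup G} {X : Submodule (ZMod p) V}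

/-- **the `P(G,V)`-theorem**, relative to a submodule -/
theorem le_normalizer_of_best (hK : IsComponent K) (hA : IsElementaryAbelian p A) (sK : K ≤ stab ρ X)
    (sA : A ≤ stab ρ X) (nc : ¬ K ≤ cent ρ X) (best : Best ρ X A) : A ≤ normalizer (K : Set G) := by
  induction A using WellFoundedLT.induction generalizing X with | ind B ihB => ?_
  induction X using WellFoundedLT.induction with | ind X ihX => ?_
  by_contra nn
  have hc := comm_of_elem hA
  have ct : ∀ t ∈ B, t ∉ normalizer (K : Set G) → Ct ρ K X t := fun t ht h => ⟨hK, sK, nc, sA ht, hA.2 t ht, h⟩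
  have M₁ : ∀ W ≤ X, B ≤ stab ρ W → com ρ X K ≤ W → W = X := fun W h₁ h₂ h₃ => by_contra fun h =>
    nn (ihX W (lt_of_le_of_ne h₁ h) (le_stab_of_com_le ((com_mono h₁ le_rfl).trans h₃)) h₂
      (fun e => nc (le_cent_of_quad hK sK (h₃.trans (le_fix_iff.mpr e)))) (best.mono h₁))
  have sF : ∀ b ∈ B, B ≤ stab ρ (X ⊓ fix ρ (zpowers b)) := fun b hb =>
    le_stab_inf sA (le_stab_fix (Cm.mono hc le_rfl (zpowers_le.mpr hb)).le_normalizer)
  have M₂ : ∀ b ∈ B, b ∈ cent ρ (com ρ X (zpowers b)) → b ∉ cent ρ X → b ∉ centralizer (K : Set G) :=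
    fun b hb h₁ h₂ h₃ => by
      have a₁ : Cm K (zpowers b) := cm_iff_le.mpr (zpowers_le.mpr h₃)
      have a₂ : X ⊓ fix ρ (zpowers b) ≠ X := fun e => h₂ (zpowers_le.mp (le_fix_iff.mp (e.ge.trans inf_le_right)))
      refine a₂ (M₁ _ inf_le_left (sF b hb) (le_inf (com_le_self sK) (com_le_fix_of_comm a₁.symm
        ((le_inf (com_le_self (zpowers_le.mpr (sA hb))) (le_fix_iff.mpr (zpowers_le.mpr h₁))).trans
          (le_fix_iff.mpr (by_contra fun e => nn (ihX _ (lt_of_le_of_ne inf_le_left a₂)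
            (le_stab_inf sK (le_stab_fix a₁.le_normalizer)) (sF b hb) e (best.mono inf_le_left))))))))
  have hY : ∀ t ∈ B, cent ρ (com ρ X B) ≤ cent ρ (com ρ X (zpowers t)) := fun t ht =>
    cent_anti (com_mono le_rfl (zpowers_le.mpr ht))
  have hd : (∀ t ∈ B, t ∉ normalizer (K : Set G) → Hy ρ K X t) ∨ B ≤ cent ρ (com ρ X B) := by
    by_cases h : B ⊓ cent ρ (com ρ X B) ≤ normalizer (K : Set G)
    · obtain ⟨t, ht, ht'⟩ := SetLike.not_le_iff_exists.mp nn
      obtain ⟨b, hb, hb'⟩ := SetLike.not_le_iff_exists.mp (mt le_fix_iff.mpr (best.replace_nontrivial hc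
        (isPGroup_of_elem hA) sA le_rfl sA fun e => nc (le_cent_of_mem hK sK (le_fix_iff.mp e ht)
          fun e => ht' (centralizer_le_normalizer _ e))))
      exact Or.inl fun t ht h₁ => (ct t ht h₁).hy_of_norm (hY t ht hb.2) (hc b hb.1 t ht) (h hb)
        (M₂ b hb.1 (hY b hb.1 hb.2) hb')
    · exact Or.inr (inf_eq_left.mp (by_contra fun e => h (ihB _ (lt_of_le_of_ne inf_le_left e)
        (elem_of_le hA inf_le_left) sK (inf_le_left.trans sA) nc
        (best.of_eq inf_le_left (best.replace hc sA le_rfl).1.ge))))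
  rcases ne_or_eq p 2 with h2 | rfl
  · obtain ⟨t, ht, ht'⟩ := SetLike.not_le_iff_exists.mp nn
    exact hd.elim (fun h => (ct t ht ht').not_hy h2 (h t ht ht'))
      fun h => (ct t ht ht').not_quad h2 fun v hv => h ht _ (sub_mem_com hv ht)
  have M₃ : ∀ b ∈ B, b ∉ cent ρ X → b ∉ centralizer (K : Set G) := fun b hb => M₂ b hb (mem_cent_com (sA hb)
    fun v _ => by
      rw [map_sub, ← act_mul, ← sq, hA.2 b hb, act_one, ← neg_sub]
      exact ZModModule.neg_eq_self _)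
  have hb := best (B ⊓ cent ρ X) inf_le_left
  rw [ms, ms, inf_eq_left.mpr (le_fix_iff.mpr inf_le_right)] at hb
  have hy : ∀ t ∈ B, t ∉ normalizer (K : Set G) → Hy ρ K X t := hd.elim id fun h t ht ht' => by
    have c := ct t ht ht'
    obtain ⟨b, h₁, h₂⟩ : ∃ b ∈ B, b ∉ zpowers t ⊔ B ⊓ cent ρ X := by
      by_contra! e
      have a₁ := (Subgroup.card_le_of_le e).trans (Nat.le_of_dvd (Nat.mul_pos Nat.card_pos Nat.card_pos)
        (card_sup_dvd (Cm.mono hc (zpowers_le.mpr ht) inf_le_left).le_normalizer))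
      have a₂ : Nat.card (zpowers t) ≤ 2 := Nat.card_zpowers t ▸ orderOf_le_of_pow_eq_one two_pos c.pow
      have a₃ : Nat.card ↥(X ⊓ fix ρ B) ≤ Nat.card ↥(X ⊓ fix ρ (zpowers t)) :=
        FFRep.card_le_of_le (inf_le_inf_left X (fix_anti (zpowers_le.mpr ht)))
      have a₄ := hb.trans (Nat.mul_le_mul (a₁.trans (Nat.mul_le_mul_right _ a₂)) a₃)
      have a₅ := c.two_mul_lt
      have := Nat.card_pos (α := ↥(B ⊓ cent ρ X))
      nlinarith
    by_cases h₃ : b ∈ normalizer (K : Set G)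
    · exact c.hy_of_norm (hY t ht (h h₁)) (hc b h₁ t ht) h₃ (M₃ b h₁ fun e => h₂ (mem_sup_right ⟨h₁, e⟩))
    by_cases h₄ : K ^ᶜ t = K ^ᶜ b
    · have h₅ := mul_mem (inv_mem ht) h₁
      exact c.hy_of_norm (hY t ht (h h₅)) (hc _ h₅ t ht)
        (mem_normalizer_iff_conj_eq.mpr (by rw [← conj_conj, ← h₄, conj_conj_inv]))
        (M₃ _ h₅ fun e => h₂ (by simpa using mul_mem_sup (mem_zpowers t) (mem_inf.mpr ⟨h₅, e⟩)))
    · exact c.hy_of_ne (hY t ht (h h₁)) (hc b h₁ t ht) h₃ h₄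
  have hcard : ∀ W : Submodule (ZMod 2) V, Nat.card ((X ⊓ W).comap X.subtype) = Nat.card ↥(X ⊓ W) := fun W =>
    Nat.card_congr (Submodule.comapSubtypeEquivOfLe inf_le_left).toEquiv
  refine hb.not_gt (hcard _ ▸ count nn (fun t => (X ⊓ fix ρ (zpowers t)).comap X.subtype)
    (fun t ht => Submodule.comap_mono (inf_le_inf_left X (fix_anti (zpowers_le.mpr ht))))
    (fun t ht h => hcard _ ▸ (ct t ht h).two_mul_lt) fun t ht h t' ht' h' hn => ?_)
  have h₁ := mul_mem (inv_mem ht) ht'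
  have := M₁ _ (sup_le inf_le_left inf_le_left) (le_stab_sup (sF t ht) (sF t' ht')) (com_le_iff.mpr fun v hv a ha =>
    ((ct t ht h).le_rl (ct t' ht' h') (hy t ht h) (hy t' ht' h') (M₃ _ h₁ fun e => hn ⟨h₁, e⟩) ha).2 v hv)
  refine Submodule.map_injective_of_injective X.injective_subtype ?_
  rw [Submodule.map_sup, Submodule.map_comap_subtype, Submodule.map_comap_subtype, ← inf_assoc, ← inf_assoc,
    inf_idem, this, Submodule.map_subtype_top]

end Main

end Cfsg.Agent.Lib.PGV
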