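import Cfsg.Agent.Lib.RepHNC0

set_option autoImplicit false
set_option maxRecDepth 100000
set_option Elab.async false

namespace Cfsg.Agent.Lib.RepHN
open Cfsg.Agent.Lib.Words Cfsg.Agent.Lib.PermNet Cfsg.Agent.Lib.MatRep

theorem hall : RelOn c ms (r0 ++ (r1 ++ (r2 ++ (r3 ++ (r4 ++ (r5 ++ (r6))))))) 0 133 := h0.append (h1.append (h2.append (h3.append (h4.append (h5.append (h6))))))

theorem hinv : RelOn c ms (invs 5) 0 133 := hall.mono (by decide +kernel)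

/-- The generators (in the order of the constructors of `Spor.HN.Gen`) as matrices; `f 4` is the value of the word `g0`. -/
noncomputable def f : ℕ → (Matrix (Fin 133) (Fin 133) (ZMod 11))ˣ := gen c ms

/-- The defining relators. -/
def K : List (List ℕ) := [[2, 2, 2, 2, 2, 2],
  [0, 0, 2, 0, 0, 3],
  [1, 3, 0, 2, 1, 3, 0, 2, 1, 3, 0, 2],
  [1, 2, 2, 0, 2, 2, 2, 1, 2, 2, 0, 2, 2, 2, 1, 2, 2, 0, 2, 2, 2],
  [0, 2, 0, 2, 0, 2, 0, 2, 0, 2, 0, 2, 0, 2, 0, 2],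
  [0, 2, 0, 2, 2, 2, 0, 2, 0, 2, 2, 2, 0, 2, 0, 2, 2, 2, 0, 2, 0, 2, 2, 2],
  [4, 4],
  [4, 0, 4, 0],
  [5, 2, 1, 3, 3, 1, 3, 1, 3, 4, 2, 0, 2, 0, 2, 2, 0, 3, 1, 1],
  [4, 3, 1, 3, 1, 3, 3, 3, 4, 2, 2, 2, 0, 2, 0, 2, 0, 3, 1, 3, 1, 3, 3, 3, 4, 2, 2, 2, 0, 2, 0, 2, 0, 3, 1, 3, 1, 3, 3, 3, 4, 2, 2, 2, 0, 2, 0, 2, 0],
  [6, 6, 6, 6, 6],
  [1, 6, 0, 6, 6],
  [7, 3, 6, 2],
  [4, 6, 4, 6, 4, 6]]

theorem rels : ∀ w ∈ K, wval f w = 1 := rels_of hinv (hall.mono (by decide +kernel)) (by decide +kernel)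

def g0 : List ℕ := [0, 2, 2, 4, 3, 6]

/-- A word whose value has order 19. -/
def g : List ℕ := rep 1 g0

theorem wval_g0 : wval f g0 = wval f [8] := by
  have := rels_of hinv (hall.mono (ws := [g0 ++ invW [8]]) (by decide +kernel)) (by decide +kernel) _ List.mem_cons_self
  rwa [wval_append, wval_invW, mul_inv_eq_one] at this

theorem g_pow : wval f g ^ 19 = 1 := by
  rw [g, wval_rep, wval_g0, ← pow_mul, ← wval_rep]
  exact rels_of hinv (hall.mono (ws := [rep (1 * 19) [8]]) (by decide +kernel)) (by decide +kernel) _ List.mem_cons_self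

theorem g_ne : wval f g ≠ 1 := by
  rw [g, wval_rep, wval_g0, ← wval_rep]
  exact ne_one ok hinv _ 0 0 (by decide +kernel)

end Cfsg.Agent.Lib.RepHN
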