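import Cfsg.Agent.Lib.RepHND

set_option autoImplicit false
set_option maxRecDepth 100000
set_option Elab.async false

namespace Cfsg.Agent.Lib.RepHN
open Cfsg.Agent.Lib.PermNet Cfsg.Agent.Lib.MatRep

def r0 : List (List Nat) := [[0, 1], [2, 3], [4, 5], [6, 7], [8, 9], [2, 2, 2, 2, 2, 2], [0, 0, 2, 0, 0, 3], [1, 3, 0, 2, 1, 3, 0, 2, 1, 3, 0, 2]]

theorem h0_0 : RelOn c ms r0 0 133 := relOn ok _ 0 133 133 (by decide +kernel)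

theorem h0 : RelOn c ms r0 0 133 := h0_0

def r1 : List (List Nat) := [[1, 2, 2, 0, 2, 2, 2, 1, 2, 2, 0, 2, 2, 2, 1, 2, 2, 0, 2, 2, 2], [0, 2, 0, 2, 0, 2, 0, 2, 0, 2, 0, 2, 0, 2, 0, 2]]

theorem h1_0 : RelOn c ms r1 0 133 := relOn ok _ 0 133 133 (by decide +kernel)

theorem h1 : RelOn c ms r1 0 133 := h1_0

def r2 : List (List Nat) := [[0, 2, 0, 2, 2, 2, 0, 2, 0, 2, 2, 2, 0, 2, 0, 2, 2, 2, 0, 2, 0, 2, 2, 2], [4, 4], [4, 0, 4, 0]]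

theorem h2_0 : RelOn c ms r2 0 133 := relOn ok _ 0 133 133 (by decide +kernel)

theorem h2 : RelOn c ms r2 0 133 := h2_0

def r3 : List (List Nat) := [[5, 2, 1, 3, 3, 1, 3, 1, 3, 4, 2, 0, 2, 0, 2, 2, 0, 3, 1, 1]]

theorem h3_0 : RelOn c ms r3 0 133 := relOn ok _ 0 133 133 (by decide +kernel)

theorem h3 : RelOn c ms r3 0 133 := h3_0

def r4 : List (List Nat) := [[4, 3, 1, 3, 1, 3, 3, 3, 4, 2, 2, 2, 0, 2, 0, 2, 0, 3, 1, 3, 1, 3, 3, 3, 4, 2, 2, 2, 0, 2, 0, 2, 0, 3, 1, 3, 1, 3, 3, 3, 4, 2, 2, 2, 0, 2, 0, 2, 0]]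

theorem h4_0 : RelOn c ms r4 0 66 := relOn ok _ 0 66 66 (by decide +kernel)

theorem h4_1 : RelOn c ms r4 66 133 := relOn ok _ 66 67 133 (by decide +kernel)

theorem h4 : RelOn c ms r4 0 133 := (h4_0).trans h4_1

def r5 : List (List Nat) := [[6, 6, 6, 6, 6], [1, 6, 0, 6, 6], [7, 3, 6, 2], [4, 6, 4, 6, 4, 6], [0, 2, 2, 4, 3, 6, 9]]

theorem h5_0 : RelOn c ms r5 0 133 := relOn ok _ 0 133 133 (by decide +kernel)

theorem h5 : RelOn c ms r5 0 133 := h5_0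

def r6 : List (List Nat) := [[8, 8, 8, 8, 8, 8, 8, 8, 8, 8, 8, 8, 8, 8, 8, 8, 8, 8, 8]]

theorem h6_0 : RelOn c ms r6 0 133 := relOn ok _ 0 133 133 (by decide +kernel)

theorem h6 : RelOn c ms r6 0 133 := h6_0


end Cfsg.Agent.Lib.RepHN
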