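import Cfsg.Agent.Lib.PermModel

/-! Bit masks as sets; upper bounds for the automorphism group of a graph on an initial segment of `ℕ`. -/

set_option autoImplicit false

namespace Cfsg.Agent.Lib.Rk3Aut

open Cfsg.Agent.Lib.PermNet Cfsg.Agent.Lib.Words Equiv

/-- The set of the bits of a mask. -/
def ms (m : ℕ) : Set ℕ := {i | m.testBit i = true}

theorem mem_ms {m i : ℕ} : i ∈ ms m ↔ m.testBit i = true := Iff.rfl

theorem ms_zero : ms 0 = ∅ := by ext; simp [ms]

theorem ms_land (a b : ℕ) : ms (Nat.land a b) = ms a ∩ ms b := by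
  ext; simp [ms, Nat.land_eq]

theorem ms_lor (a b : ℕ) : ms (Nat.lor a b) = ms a ∪ ms b := by
  ext; simp [ms, Nat.lor_eq]

theorem ms_dif (a b : ℕ) : ms (Nat.xor a (Nat.land a b)) = ms a \ ms b := by
  ext i; simp [ms, Nat.land_eq, Nat.xor_eq]

theorem ms_pt (b : ℕ) : ms (pt b) = {b} := by ext; simp [ms, testBit_pt]

theorem ms_ivl (lo n : ℕ) : ms (ivl lo n) = Set.Ico lo (lo + n) := by ext; simp [ms, testBit_ivl]

theorem ms_ones (n : ℕ) : ms (ones n) = Set.Iio n := by ext; simp [ms, testBit_ones]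

theorem ms_finite (m : ℕ) : (ms m).Finite :=
  (Set.finite_Iio m).subset fun i hi => Nat.lt_two_pow_self.trans_le (Nat.ge_two_pow_of_testBit hi)

theorem ms_subB {a b : ℕ} (h : subB a b = true) : ms a ⊆ ms b := by
  rw [← Nat.eq_of_beq_eq_true h, ms_land]; exact Set.inter_subset_right

theorem ms_appW {N : ℕ} {nets : NL} (hv : nets.Valid N) (w : List ℕ) (x : ℕ) :
    ms (appW nets w x) = (wval nets.perm w : Perm ℕ) ⁻¹' ms x := by
  ext; simp [ms, testBit_appW hv]

theorem popc_ncard (n x : ℕ) : popc n x 0 = (ms x ∩ Set.Iio n).ncard := by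
  rw [popc_eq, zero_add, ← Set.ncard_coe_finset]
  congr 1
  ext; simp [ms, and_comm]

/-- The words whose letters have numbers below `n`. -/
def lt (n : ℕ) (w : List ℕ) : Bool := w.all fun l => decide (l < 2 * n)

theorem mem_of_lt {G : Type*} [Group G] {y : ℕ → G} {H : Subgroup G} {n : ℕ} (h : ∀ i < n, y i ∈ H) {w : List ℕ}
    (hw : lt n w = true) : wval y w ∈ H :=
  wval_mem fun l hl => h _ (by have := of_decide_eq_true (List.all_eq_true.1 hw l hl); omega)

theorem mem_of_all_lt {G : Type*} [Group G] {y : ℕ → G} {H : Subgroup G} {n : ℕ} (h : ∀ i < n, y i ∈ H)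
    {ws : List (List ℕ)} (hw : ws.all (lt n) = true) : ∀ w ∈ ws, wval y w ∈ H :=
  fun w e => mem_of_lt h (List.all_eq_true.1 hw w e)

/-- The automorphisms of a relation that fix all numbers from `N` on. -/
def autG (adj : ℕ → ℕ → Prop) (N : ℕ) : Subgroup (Perm ℕ) where
  carrier := {g | (∀ i, N ≤ i → g i = i) ∧ ∀ x y, adj (g x) (g y) ↔ adj x y}
  one_mem' := ⟨fun _ _ => rfl, fun _ _ => Iff.rfl⟩
  mul_mem' := fun {g h} hg hh => ⟨fun i hi => by rw [Perm.mul_apply, hh.1 i hi, hg.1 i hi],
    fun x y => (hg.2 _ _).trans (hh.2 _ _)⟩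
  inv_mem' := fun {g} hg => ⟨fun i hi => by rw [Perm.inv_eq_iff_eq, hg.1 i hi],
    fun x y => by rw [← hg.2]; simp⟩

theorem lt_of_fix {g : Perm ℕ} {N : ℕ} (h : ∀ i, N ≤ i → g i = i) {i : ℕ} (hi : i < N) : g i < N := by
  by_contra e
  have := g.injective (h _ (not_lt.1 e))
  omega

theorem finite_of_fix {A : Subgroup (Perm ℕ)} {N : ℕ} (h : ∀ g ∈ A, ∀ i, N ≤ i → g i = i) : Finite A := by
  refine Finite.of_injective (fun (g : A) (i : Fin N) => (⟨g.1 i, lt_of_fix (h _ g.2) i.2⟩ : Fin N))
    fun g g' e => Subtype.ext (Equiv.ext fun i => ?_)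
  by_cases hi : i < N
  · exact congrArg Fin.val (congrFun e ⟨i, hi⟩)
  · rw [h _ g.2 i (not_lt.1 hi), h _ g'.2 i (not_lt.1 hi)]

instance finite_autG (adj : ℕ → ℕ → Prop) (N : ℕ) : Finite (autG adj N) := finite_of_fix fun _ h => h.1

/-- The mask is invariant under the group. -/
def Inv (B : Subgroup (Perm ℕ)) (m : ℕ) : Prop := ∀ g ∈ B, ∀ i, g i ∈ ms m ↔ i ∈ ms m

noncomputable def getN (l : List ℕ) : ℕ → ℕ :=
  List.rec (motive := fun _ => ℕ → ℕ) (fun _ => nat_lit 0)
    (fun w _ ih i => Nat.rec (motive := fun _ => ℕ) w (fun j _ => ih j) i) l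

theorem inv_getN {B : Subgroup (Perm ℕ)} {l : List ℕ} (h : ∀ r ∈ l, Inv B r) (i : ℕ) : Inv B (getN l i) := by
  induction l generalizing i with
  | nil => intro g _ j; simp [getN, ms]
  | cons a l ih =>
    cases i with
    | zero => exact h a List.mem_cons_self
    | succ j => exact ih (fun r e => h r (List.mem_cons_of_mem _ e)) j

noncomputable def difs (l : List ℕ) (d : ℕ) : ℕ :=
  List.rec (motive := fun _ => ℕ) (nat_lit 0) (fun r _ ih => Nat.lor (Nat.xor r (Nat.shiftRight r d)) ih) l

/-- The masks separate the numbers below `N`. -/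
noncomputable def sepB (l : List ℕ) (N : ℕ) : Bool :=
  Nat.rec (motive := fun _ => Bool) true
    (fun d ih => band (subB (ones (Nat.sub N (Nat.succ d))) (difs l (Nat.succ d))) ih) N

theorem exists_of_sepB {l : List ℕ} {N : ℕ} (h : sepB l N = true) {i j : ℕ} (hij : i < j) (hj : j < N) :
    ∃ r ∈ l, ¬ (j ∈ ms r ↔ i ∈ ms r) := by
  have h₁ : ∀ n, Nat.rec (motive := fun _ => Bool) true
      (fun d ih => band (subB (ones (Nat.sub N (Nat.succ d))) (difs l (Nat.succ d))) ih) n = true →
      ∀ d < n, ms (ones (N - (d + 1))) ⊆ ms (difs l (d + 1)) := fun n => by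
    induction n with
    | zero => simp
    | succ n ih =>
      exact fun h d hd => (Nat.lt_succ_iff_lt_or_eq.1 hd).elim (ih (band_eq h).2 d) fun e => e ▸ ms_subB (band_eq h).1
  obtain ⟨d, rfl⟩ := Nat.exists_eq_add_of_lt hij
  have h₂ := h₁ N h d (by omega) (ms_ones _ ▸ (by simp only [Set.mem_Iio]; omega : i ∈ Set.Iio _))
  clear h h₁
  induction l with
  | nil => simp [difs, ms] at h₂
  | cons r l ih =>
    rcases (ms_lor _ _).le h₂ with e | e
    · refine ⟨r, List.mem_cons_self, ?_⟩
      simp only [mem_ms, Nat.xor_eq, Nat.shiftRight_eq, Nat.testBit_xor, Nat.testBit_shiftRight] at e ⊢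
      rw [show d + 1 + i = i + d + 1 by omega] at e
      revert e
      cases r.testBit i <;> cases r.testBit (i + d + 1) <;> simp
    · exact (ih e).imp fun _ h => ⟨List.mem_cons_of_mem _ h.1, h.2⟩

/-- The number with the binary digits that the masks have at the place `z`. -/
def val : List ℕ → ℕ → ℕ
  | [], _ => 0
  | p :: l, z => (p.testBit z).toNat + 2 * val l z

theorem bits_of_val {l : List ℕ} {z z' : ℕ} (h : val l z = val l z') : ∀ p ∈ l, p.testBit z = p.testBit z' := by
  induction l with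
  | nil => simp
  | cons a l ih =>
    simp only [val] at h
    have e : a.testBit z = a.testBit z' ∧ val l z = val l z' := by
      revert h; cases a.testBit z <;> cases a.testBit z' <;> simp <;> omega
    simpa [e.1] using ih e.2

/-- Add a mask to a vertical counter. -/
noncomputable def addP (l : List ℕ) : ℕ → (List ℕ → Bool) → Bool :=
  List.rec (motive := fun _ => ℕ → (List ℕ → Bool) → Bool)
    (fun x k => @Bool.rec (fun _ => Bool) (k [x]) (k []) (Nat.beq x (nat_lit 0)))
    (fun p ps ih x k => @Bool.rec (fun _ => Bool)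
      (forceB (Nat.xor p x) fun a => forceB (Nat.land p x) fun c => ih c fun ps' => k (a :: ps'))
      (k (p :: ps)) (Nat.beq x (nat_lit 0))) l

theorem addP_sound {l : List ℕ} {x : ℕ} {k : List ℕ → Bool} (h : addP l x k = true) :
    ∃ l', k l' = true ∧ ∀ z, val l' z = val l z + (x.testBit z).toNat := by
  induction l generalizing x k with
  | nil =>
    cases e : Nat.beq x 0
    · exact ⟨[x], by simpa only [addP, e] using h, fun z => by simp [val]⟩
    · exact ⟨[], by simpa only [addP, e] using h, fun z => by simp [val, Nat.eq_of_beq_eq_true e]⟩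
  | cons p ps ih =>
    cases e : Nat.beq x 0
    · obtain ⟨l', h₁, h₂⟩ := ih (x := Nat.land p x) (k := fun ps' => k (Nat.xor p x :: ps'))
        (by simpa only [addP, e, forceB_eq] using h)
      refine ⟨_, h₁, fun z => ?_⟩
      simp only [val, h₂, Nat.land_eq, Nat.xor_eq, Nat.testBit_and, Nat.testBit_xor]
      cases p.testBit z <;> cases x.testBit z <;> simp <;> omega
    · exact ⟨p :: ps, by simpa only [addP, e] using h, fun z => by simp [Nat.eq_of_beq_eq_true e]⟩

/-- Walk through the points; count, for every point, its neighbours among the points of `rem`.  The first two masks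
differ in the current point. -/
noncomputable def walk (nets : NL) (w : List ℕ) (k : List ℕ → Bool) : ℕ → ℕ → ℕ → List ℕ → Bool :=
  List.rec (motive := fun _ => ℕ → ℕ → ℕ → List ℕ → Bool)
    (fun _ _ rem l => band (Nat.beq rem (nat_lit 0)) (k l))
    (fun a _ ih p r rem l => forceB (appL nets a p) fun p' => forceB (appL nets a r) fun r' =>
      @Bool.rec (fun _ => Bool) (ih p' r' rem l)
        (forceB (Nat.xor rem (Nat.land rem (Nat.xor p' r'))) fun rem' => addP l r' (ih p' r' rem'))
        (subB (Nat.xor p' r') rem)) w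

inductive Ins where
  | and (i j : ℕ)
  | dif (i j : ℕ)
  | row (i : ℕ) (w : List ℕ)
  | fix (i b n : ℕ)
  | cnt (i : ℕ) (w : List ℕ)
  | keep (is : List ℕ)

/-- Run a program on a list of invariant masks; `D` is the set of the neighbours of `0`. -/
noncomputable def exec (nets : NL) (N n D : ℕ) (k : List ℕ → Bool) : List Ins → List ℕ → Bool
  | [], l => k l
  | .and i j :: P, l => forceB (Nat.land (getN l i) (getN l j)) fun a => exec nets N n D k P (a :: l)
  | .dif i j :: P, l => forceB (Nat.xor (getN l i) (Nat.land (getN l i) (getN l j))) fun a => exec nets N n D k P (a :: l)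
  | .row i w :: P, l => band (lt n w) (band (Nat.beq (appW nets w (pt 0)) (getN l i))
      (forceB (appW nets w D) fun a => exec nets N n D k P (a :: l)))
  | .fix i b m :: P, l => band (Nat.ble (b + 1) N) (band (subB (pt b) (getN l i)) (band (Nat.ble (popc N (getN l i) 0) m)
      (forceB (pt b) fun a => exec nets N n D k P (a :: l))))
  | .cnt i w :: P, l => band (lt n w) (walk nets w (fun c => exec nets N n D k P (c ++ l)) (Nat.xor (pt 0) D) D (getN l i) [])
  | .keep is :: P, l => exec nets N n D k P (is.map (getN l))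

def fac : List Ins → ℕ
  | [] => 1
  | .fix _ _ m :: P => m * fac P
  | _ :: P => fac P

/-- Every group of automorphisms that leaves the masks invariant has at most `m` elements. -/
def Bd (adj : ℕ → ℕ → Prop) (N : ℕ) (l : List ℕ) (m : ℕ) : Prop :=
  ∀ B ≤ autG adj N, (∀ r ∈ l, Inv B r) → Nat.card B ≤ m

theorem card_le_of_bd {adj : ℕ → ℕ → Prop} {N m : ℕ} (h : Bd adj N [ones N] m) : Nat.card (autG adj N) ≤ m := by
  refine h _ le_rfl fun r hr g hg i => ?_
  rw [List.mem_singleton.1 hr, ms_ones]
  exact ⟨fun e => by simpa using lt_of_fix (g := g⁻¹) ((autG adj N).inv_mem hg).1 e, lt_of_fix hg.1⟩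

theorem bd_of_sepB {adj : ℕ → ℕ → Prop} {N : ℕ} {l : List ℕ} (h : sepB l N = true) : Bd adj N l 1 := by
  intro B hB hl
  have : B = ⊥ := eq_bot_iff.2 fun g hg => Equiv.ext fun i => by
    by_cases hi : i < N
    · rcases lt_trichotomy i (g i) with e | e | e
      · obtain ⟨r, hr, e⟩ := exists_of_sepB h e (lt_of_fix (hB hg).1 hi)
        exact absurd (hl r hr g hg i) e
      · exact e.symm
      · obtain ⟨r, hr, e⟩ := exists_of_sepB h e hi
        exact absurd (hl r hr g hg i).symm e
    · exact (hB hg).1 i (not_lt.1 hi)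
  simp [this]

variable {N n D : ℕ} {nets : NL} (hv : nets.Valid N) {adj : ℕ → ℕ → Prop} (hT : ∀ i < n, nets.perm i ∈ autG adj N)
include hv hT

theorem row_step {w : List ℕ} (hw : lt n w = true) {y p r : ℕ} (hp : ms p = {y}) (hr : ms r = {z | adj y z}) :
    ∃ y', ms (appW nets w p) = {y'} ∧ ms (appW nets w r) = {z | adj y' z} := by
  have hg := mem_of_lt hT hw
  refine ⟨(wval nets.perm w)⁻¹ y, ?_, ?_⟩ <;> ext z <;> rw [ms_appW hv]
  · simp [hp, Equiv.eq_symm_apply]
  · simp only [hr, Set.mem_preimage, Set.mem_setOf_eq]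
    rw [← hg.2 ((wval nets.perm w)⁻¹ y)]; simp

theorem walk_sound {w : List ℕ} (hw : lt n w = true) {k : List ℕ → Bool} {S : Set ℕ} (hS : S.Finite) {y p r rem : ℕ}
    {l : List ℕ} (hp : ms (Nat.xor p r) = {y}) (hr : ms r = {z | adj y z}) (hrem : ms rem ⊆ S)
    (hl : ∀ z, val l z = {s ∈ S \ ms rem | adj s z}.ncard) (h : walk nets w k p r rem l = true) :
    ∃ l', k l' = true ∧ ∀ z, val l' z = {s ∈ S | adj s z}.ncard := by
  induction w generalizing y p r rem l with
  | nil =>
    obtain ⟨h₁, h₂⟩ := band_eq h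
    exact ⟨l, h₂, by simpa [Nat.eq_of_beq_eq_true h₁, ms_zero] using hl⟩
  | cons a w ih =>
    simp only [lt, List.all_cons, Bool.and_eq_true] at hw
    obtain ⟨y', hp', hr'⟩ := row_step hv hT (w := [a]) (by simp [lt, hw.1]) hp hr
    replace hp' : ms (Nat.xor (appW nets [a] p) (appW nets [a] r)) = {y'} := by
      rw [← hp']; ext; simp [ms, testBit_appW hv, Nat.xor_eq]
    change ms (Nat.xor (appL nets a p) (appL nets a r)) = _ at hp'
    change ms (appL nets a r) = _ at hr'
    cases e : subB (Nat.xor (appL nets a p) (appL nets a r)) rem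
    · exact ih hw.2 hp' hr' hrem hl (by simpa only [walk, e, forceB_eq] using h)
    · obtain ⟨l', h₁, h₂⟩ := addP_sound (l := l) (x := appL nets a r)
        (k := walk nets w k (appL nets a p) (appL nets a r) 
          (Nat.xor rem (Nat.land rem (Nat.xor (appL nets a p) (appL nets a r)))))
        (by simpa only [walk, e, forceB_eq] using h)
      have hy : y' ∈ ms rem := ms_subB e (hp' ▸ rfl)
      refine ih hw.2 hp' hr' (ms_dif _ _ ▸ Set.diff_subset.trans hrem) (fun z => ?_) h₁
      rw [h₂, hl, ms_dif, hp']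
      have hz : (appL nets a r).testBit z = true ↔ adj y' z := by rw [← mem_ms, hr']; rfl
      by_cases hyz : adj y' z
      · rw [hz.2 hyz, Bool.toNat_true, ← Set.ncard_insert_of_notMem (a := y') (by simp [hy])
          (hS.subset fun _ h => h.1.1)]
        congr 1
        ext s
        by_cases e : s = y' <;> simp [e, hyz, hrem hy]
      · rw [Bool.eq_false_iff.2 (mt hz.1 hyz), Bool.toNat_false, add_zero]
        congr 1
        ext s
        by_cases e : s = y' <;> simp [e, hyz]

theorem bd_of_exec (hD : ms D = {z | adj 0 z}) {k : List ℕ → Bool} {m : ℕ} (hk : ∀ l, k l = true → Bd adj N l m)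
    {P : List Ins} {l : List ℕ} (h : exec nets N n D k P l = true) : Bd adj N l (fac P * m) := by
  induction P generalizing l with
  | nil => simpa [fac] using hk l h
  | cons a P ih =>
    intro B hB hl
    have := Finite.of_injective _ (Subgroup.inclusion_injective hB)
    cases a with
    | and i j =>
      refine ih h B hB (List.forall_mem_cons.2 ⟨fun g hg z => ?_, hl⟩)
      simp only [ms_land, Set.mem_inter_iff, inv_getN hl _ g hg z]
    | dif i j =>
      refine ih h B hB (List.forall_mem_cons.2 ⟨fun g hg z => ?_, hl⟩)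
      simp only [ms_dif, Set.mem_diff, inv_getN hl _ g hg z]
    | row i w =>
      obtain ⟨h₁, h⟩ := band_eq h
      obtain ⟨h₂, h⟩ := band_eq h
      obtain ⟨y, hp, hr⟩ := row_step hv hT h₁ (ms_pt 0) hD
      refine ih h B hB (List.forall_mem_cons.2 ⟨fun g hg z => ?_, hl⟩)
      have := (inv_getN hl i g hg y).2
      rw [← Nat.eq_of_beq_eq_true h₂, hp] at this
      simp only [hr, Set.mem_setOf_eq]
      rw [← (hB hg).2 y z, this rfl]
    | fix i b m' =>
      obtain ⟨h₁, h⟩ := band_eq h
      obtain ⟨h₂, h⟩ := band_eq h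
      obtain ⟨h₃, h⟩ := band_eq h
      have e := card_fixer (A := B) [] b
      rw [fixer_nil] at e
      rw [e, fac, mul_assoc]
      refine Nat.mul_le_mul (le_trans ?_ (Nat.le_of_ble_eq_true h₃)) (ih h _ (fun g hg => hB hg.1)
        (List.forall_mem_cons.2 ⟨fun g hg z => ?_, fun r e g hg => hl r e g hg.1⟩))
      · rw [popc_ncard]
        refine Set.ncard_le_ncard ?_ ((ms_finite _).subset Set.inter_subset_left)
        rintro _ ⟨g, rfl⟩
        exact ⟨(inv_getN hl i _ g.2 b).2 (ms_subB h₂ (ms_pt b ▸ rfl)),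
          lt_of_fix (hB g.2).1 (Nat.le_of_ble_eq_true h₁)⟩
      · rw [ms_pt, Set.mem_singleton_iff, Set.mem_singleton_iff]
        nth_rw 1 [← hg.2 b List.mem_cons_self]
        exact g.injective.eq_iff
    | cnt i w =>
      obtain ⟨h₁, h⟩ := band_eq h
      obtain ⟨c, h, hc⟩ := walk_sound hv hT h₁ (ms_finite (getN l i)) (by simpa [Nat.xor_eq] using ms_pt 0) hD subset_rfl
        (by simp [val]) h
      refine ih h B hB (List.forall_mem_append.2 ⟨fun r e g hg z => ?_, hl⟩)
      rw [mem_ms, mem_ms, bits_of_val (z := g z) (z' := z) ?_ r e]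
      rw [hc, hc, ← Set.ncard_image_of_injective {s ∈ ms (getN l i) | adj s z} g.injective]
      congr 1
      ext s
      obtain ⟨s, rfl⟩ := g.surjective s
      simp [inv_getN hl i g hg s, (hB hg).2]
    | keep is =>
      exact ih h B hB fun r e => by
        obtain ⟨i, -, rfl⟩ := List.mem_map.1 e
        exact inv_getN hl i

theorem bd_of_exec_sep (hD : ms D = {z | adj 0 z}) {P : List Ins} {l : List ℕ}
    (h : exec nets N n D (fun l => sepB l N) P l = true) : Bd adj N l (fac P) := by
  simpa using bd_of_exec hv hT hD (fun _ => bd_of_sepB) h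

theorem bd_of_exec_eq (hD : ms D = {z | adj 0 z}) {P : List Ins} {l l' : List ℕ} {m : ℕ}
    (h : exec nets N n D (fun l => l == l') P l = true) (h' : Bd adj N l' m) : Bd adj N l (fac P * m) :=
  bd_of_exec hv hT hD (fun _ e => eq_of_beq e ▸ h') h

end Cfsg.Agent.Lib.Rk3Aut
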