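import Cfsg.Agent.Lib.Rk3Aut

/-! A rank 3 group with a known point stabiliser is moved to a model on an initial segment of `ℕ`. -/

set_option autoImplicit false

namespace Cfsg.Agent.Lib.Rk3Emb

open Cfsg.Agent.Lib.PermNet Cfsg.Agent.Lib.Words Cfsg.Agent.Lib.Rk3Aut Equiv MulAction

/-- `k` holds for all unions of some of the masks (with their sizes). -/
noncomputable def allSub (k : ℕ → ℕ → Bool) (Q : List (ℕ × ℕ)) : ℕ → ℕ → Bool :=
  List.rec (motive := fun _ => ℕ → ℕ → Bool) k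
    (fun q _ ih m s => band (Nat.beq (Nat.land m q.1) (nat_lit 0)) (band (ih m s)
      (forceB (Nat.lor m q.1) fun m' => forceB (Nat.add s q.2) fun s' => ih m' s'))) Q

theorem allSub_sound {k : ℕ → ℕ → Bool} {Q : List (ℕ × ℕ)} {X : Set ℕ}
    (hQ : ∀ q ∈ Q, (ms q.1).ncard = q.2 ∧ (ms q.1 ⊆ X ∨ Disjoint (ms q.1) X)) {m : ℕ} (hm : ms m ⊆ X)
    (hX : X ⊆ ms m ∪ ms (Q.foldr (fun q r => Nat.lor q.1 r) 0)) (h : allSub k Q m (ms m).ncard = true) :
    ∃ m, ms m = X ∧ k m X.ncard = true := by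
  induction Q generalizing m with
  | nil =>
    obtain rfl : ms m = X := hm.antisymm (by simpa [ms_zero] using hX)
    exact ⟨m, rfl, h⟩
  | cons q Q ih =>
    obtain ⟨h₁, h⟩ := band_eq h
    obtain ⟨h₂, h₃⟩ := band_eq h
    obtain ⟨⟨e, hq⟩, hQ⟩ := List.forall_mem_cons.1 hQ
    rw [List.foldr_cons, ms_lor] at hX
    rcases hq with hq | hq
    · refine ih hQ (m := Nat.lor m q.1) (ms_lor _ _ ▸ Set.union_subset hm hq) (by rwa [ms_lor, Set.union_assoc]) ?_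
      rw [ms_lor, Set.ncard_union_eq (by
        rw [Set.disjoint_iff_inter_eq_empty, ← ms_land, Nat.eq_of_beq_eq_true h₁, ms_zero]) (ms_finite _) (ms_finite _), e]
      exact h₃
    · exact ih hQ hm (fun i hi => (hX hi).imp_right fun e => e.resolve_left fun e => hq.ne_of_mem e hi rfl) h₂

noncomputable def orbsK (nets : NL) (ws : List (List ℕ)) (N : ℕ) (l : List (ℕ × List ℕ)) :
    (List (ℕ × ℕ) → Bool) → Bool :=
  List.rec (motive := fun _ => (List (ℕ × ℕ) → Bool) → Bool) (fun k => k [])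
    (fun a _ ih k => forceB (grow nets ws a.2 (pt a.1)) fun q => band (subB q (ones N))
      (forceB (popc N q (nat_lit 0)) fun n => ih fun Q => k ((q, n) :: Q))) l

/-- The listed parts of orbits cover `c`, and `k` holds for all their unions. -/
noncomputable def unionB (nets : NL) (ws : List (List ℕ)) (N : ℕ) (l : List (ℕ × List ℕ)) (c : ℕ)
    (k : ℕ → ℕ → Bool) : Bool :=
  orbsK nets ws N l fun Q => band (subB c (Q.foldr (fun q r => Nat.lor q.1 r) 0)) (allSub k Q 0 0)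

/-- A conjugate of `L` under `H` lies in `K`. -/
def Cj {G : Type*} [Group G] (H K L : Subgroup G) : Prop := ∃ u ∈ H, ∀ g ∈ L, u * g * u⁻¹ ∈ K

theorem card_comap_conj {G : Type*} [Group G] (K : Subgroup G) (u : G) :
    Nat.card (K.comap (MulAut.conj u).toMonoidHom) = Nat.card K :=
  Nat.card_congr ((MulAut.conj u).toEquiv.subtypeEquiv fun _ => Iff.rfl)

section
variable {N : ℕ} {nets : NL} (hv : nets.Valid N)
include hv

theorem orbsK_sound {L : Subgroup (Perm ℕ)} {ws : List (List ℕ)} (hws : ∀ w ∈ ws, wval nets.perm w ∈ L)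
    {l : List (ℕ × List ℕ)} {k : List (ℕ × ℕ) → Bool} (h : orbsK nets ws N l k = true) :
    ∃ Q, k Q = true ∧ ∀ q ∈ Q, (ms q.1).ncard = q.2 ∧ ∃ b, InOrb L b q.1 := by
  induction l generalizing k with
  | nil => exact ⟨[], h, by simp⟩
  | cons a l ih =>
    obtain ⟨h₁, h⟩ := band_eq h
    obtain ⟨Q, h₂, h₃⟩ := ih h
    refine ⟨_, h₂, List.forall_mem_cons.2 ⟨⟨?_, _, (inOrb_pt L a.1).grow hv hws a.2⟩, h₃⟩⟩
    rw [popc_ncard, Set.inter_eq_left.2 (ms_ones N ▸ ms_subB h₁)]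

theorem exists_of_unionB {L : Subgroup (Perm ℕ)} {ws : List (List ℕ)} (hws : ∀ w ∈ ws, wval nets.perm w ∈ L)
    {X : Set ℕ} (hX : ∀ g ∈ L, ∀ i ∈ X, g i ∈ X) {c : ℕ} (hc : X ⊆ ms c) {l : List (ℕ × List ℕ)} {k : ℕ → ℕ → Bool}
    (h : unionB nets ws N l c k = true) : ∃ m, ms m = X ∧ k m X.ncard = true := by
  obtain ⟨Q, h, hQ⟩ := orbsK_sound hv hws h
  obtain ⟨h₁, h₂⟩ := band_eq h
  refine allSub_sound (m := 0) (fun q e => ⟨(hQ q e).1, ?_⟩) (by simp [ms_zero])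
    (fun i hi => Or.inr (ms_subB h₁ (hc hi))) (by simpa [ms_zero] using h₂)
  obtain ⟨b, hb⟩ := (hQ q e).2
  refine or_iff_not_imp_right.2 fun hd j hj => ?_
  obtain ⟨i, hi, hiX⟩ := Set.not_disjoint_iff.1 hd
  obtain ⟨g, hg, rfl⟩ := hb i hi
  obtain ⟨g', hg', rfl⟩ := hb j hj
  simpa using hX _ (L.mul_mem hg' (L.inv_mem hg)) _ hiX

theorem inv_gp {ws : List (List ℕ)} {p : ℕ} (h : fixB nets ws p = true) : Inv (gp nets.perm ws) p := fun _ hg i => by
  rw [mem_ms, mem_ms, ← PermGroup.fix_of_mem_gp (φ := MonoidHom.id _) hv (fun _ => rfl) h hg i]; rfl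

theorem fix_gp (ws : List (List ℕ)) : ∀ g ∈ gp nets.perm ws, ∀ i, N ≤ i → g i = i := fun _ hg i hi =>
  (gp_le (K := stabilizer (Perm ℕ) i)).2 (fun w _ => wval_of_ge hv w hi) hg

/-- A group that contains a conjugate of a large part of a point stabiliser fixes a point. -/
theorem exists_fix {H K : Subgroup (Perm ℕ)} (hK : K ≤ H) {O x m lo : ℕ} (hO : Inv H O) {ws : List (List ℕ)}
    (hc : Cj H K (gp nets.perm ws)) (hlo : lo ≤ Nat.card (gp nets.perm ws)) (hm : Nat.card K ∣ m) (hm' : m ≠ 0)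
    {l : List (ℕ × List ℕ)} (h : (O.testBit x && fixB nets ws (pt x) && unionB nets ws N l O fun q s =>
      !q.testBit x || Nat.beq q (pt x) || !(Nat.ble (s * lo) m && Nat.beq (m % s) 0)) = true) :
    ∃ x ∈ ms O, ∀ g ∈ K, g x = x := by
  simp only [Bool.and_eq_true] at h
  obtain ⟨⟨hx, hf⟩, h⟩ := h
  obtain ⟨u, hu, hc⟩ := hc
  let K' := K.comap (MulAut.conj u).toMonoidHom
  have e : Nat.card K' = Nat.card K := card_comap_conj K u
  have : Finite K' := Nat.finite_of_card_ne_zero (by rintro e'; rw [← e, e'] at hm; simp [hm'] at hm)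
  have hH : K' ≤ H := fun g hg => by simpa [mul_assoc] using H.mul_mem (H.mul_mem (H.inv_mem hu) (hK hg)) hu
  obtain ⟨q, hq, h⟩ := exists_of_unionB hv (L := gp nets.perm ws) (fun _ => mem_gp) (X := orbit K' x)
    (by rintro g hg _ ⟨g', rfl⟩; exact ⟨⟨g, hc g hg⟩ * g', rfl⟩) (by rintro _ ⟨g, rfl⟩; exact (hO _ (hH g.2) x).2 hx) h
  have hc' := card_fixer (A := K') [] x
  rw [fixer_nil] at hc'
  have : Finite (fixer K' [x]) := finite_fixer _
  have hl := hlo.trans (Subgroup.card_le_of_le (K := fixer K' [x]) fun g hg => ⟨hc g hg, fun b hb => by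
    have := (inv_gp hv hf g hg x).2
    rw [ms_pt] at this
    rw [List.mem_singleton.1 hb, this rfl]⟩)
  have h₁ : q.testBit x = true := by rw [← mem_ms, hq]; exact mem_orbit_self x
  have h₂ : Nat.ble ((orbit K' x).ncard * lo) m = true := Nat.ble_eq_true_of_le ((Nat.mul_le_mul_left _ hl).trans
    (hc' ▸ e ▸ Nat.le_of_dvd (Nat.pos_of_ne_zero hm') hm))
  have h₃ : Nat.beq (m % (orbit K' x).ncard) 0 = true :=
    Nat.beq_eq ▸ (Nat.mod_eq_zero_of_dvd ((Dvd.intro _ (hc'.symm.trans e)).trans hm))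
  simp only [h₁, h₂, h₃, Bool.not_true, Bool.false_or, Bool.and_self, Bool.or_false, Nat.beq_eq] at h
  rw [h, ms_pt] at hq
  refine ⟨u x, (hO u hu x).2 hx, fun g hg => ?_⟩
  have : (u⁻¹ * g * u) x ∈ ({x} : Set ℕ) := hq ▸ ⟨⟨u⁻¹ * g * u, by simpa [K', mul_assoc] using hg⟩, rfl⟩
  simpa [Equiv.symm_apply_eq] using this

end

/-- `H` has the orbits `{0}`, `[1, 1 + k)`, `[1 + k, 1 + k + l)` and fixes the larger numbers. -/
structure Model (k l : ℕ) (H : Subgroup (Perm ℕ)) : Prop where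
  fix : ∀ g ∈ H, ∀ i, 1 + k + l ≤ i → g i = i
  fix0 : ∀ g ∈ H, g 0 = 0
  invb : Inv H (ivl 1 k)
  invc : Inv H (ivl (1 + k) l)
  orbb : InOrb H 1 (ivl 1 k)
  orbc : InOrb H (1 + k) (ivl (1 + k) l)
  ne : 1 < k ∧ 1 < l ∧ k ≠ l

theorem model_gp {N k l : ℕ} {nets : NL} (hv : nets.Valid N) {hs : List (List ℕ)} (sb sc : List ℕ)
    (hN : N = 1 + k + l ∧ 1 < k ∧ 1 < l ∧ k ≠ l) (h : (fixB nets hs (pt 0) && fixB nets hs (ivl 1 k) &&
      fixB nets hs (ivl (1 + k) l) && subB (ivl 1 k) (grow nets hs sb (pt 1)) &&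
      subB (ivl (1 + k) l) (grow nets hs sc (pt (1 + k)))) = true) : Model k l (gp nets.perm hs) := by
  simp only [Bool.and_eq_true] at h
  obtain ⟨⟨⟨⟨h₁, h₂⟩, h₃⟩, h₄⟩, h₅⟩ := h
  refine ⟨hN.1 ▸ fix_gp hv hs, fun g hg => ?_, inv_gp hv h₂, inv_gp hv h₃,
    (inOrb_pt _ _).step hv (fun _ => mem_gp) _ h₄, (inOrb_pt _ _).step hv (fun _ => mem_gp) _ h₅, hN.2⟩
  simpa [ms_pt] using inv_gp hv h₁ g hg 0

theorem trans_of_inOrb {H : Subgroup (Perm ℕ)} {b m : ℕ} (h : InOrb H b m) {i j : ℕ} (hi : i ∈ ms m) (hj : j ∈ ms m) :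
    ∃ g ∈ H, g i = j := by
  obtain ⟨g, hg, rfl⟩ := h i hi
  obtain ⟨g', hg', rfl⟩ := h j hj
  exact ⟨g' * g⁻¹, H.mul_mem hg' (H.inv_mem hg), by simp⟩

/-- A group of permutations of `[0, N)`, transitive, with `H` as the stabiliser of `0`. -/
structure Ext (N : ℕ) (H G : Subgroup (Perm ℕ)) : Prop where
  fix : ∀ g ∈ G, ∀ i, N ≤ i → g i = i
  tr : ∀ i < N, ∃ g ∈ G, g 0 = i
  le : H ≤ G
  mem : ∀ g ∈ G, g 0 = 0 → g ∈ H

theorem exists_ext {Ω : Type*} [Fintype Ω] {k l : ℕ} (hΩ : Fintype.card Ω = 1 + k + l) (G : Subgroup (Perm Ω))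
    [IsPretransitive G Ω] {a b c : Ω} (hb : (orbit (stabilizer G a) b).ncard = k)
    (hc : (orbit (stabilizer G a) c).ncard = l) (e : stabilizer G a →* Perm ℕ) (M : Model k l e.range)
    (fb : ∃ x ∈ ms (ivl 1 k), ∀ h, h • b = b → e h x = x) (fc : ∃ x ∈ ms (ivl (1 + k) l), ∀ h, h • c = c → e h x = x) :
    ∃ G' : Subgroup (Perm ℕ), Nonempty (G ≃* G') ∧ Ext (1 + k + l) e.range G' := by
  classical
  obtain ⟨xb, hxb, fb⟩ := fb
  obtain ⟨xc, hxc, fc⟩ := fc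
  have ha : orbit (stabilizer G a) a = {a} :=
    Set.eq_singleton_iff_unique_mem.2 ⟨mem_orbit_self a, by rintro _ ⟨g, rfl⟩; exact g.2⟩
  have dj : ∀ x y : Ω, (orbit (stabilizer G a) x).ncard ≠ (orbit (stabilizer G a) y).ncard →
      Disjoint (orbit (stabilizer G a) x) (orbit (stabilizer G a) y) := fun x y h =>
    (orbit.eq_or_disjoint x y).resolve_left fun e => h (by rw [e])
  have hn := M.ne
  have dab := dj a b (by rw [ha, hb, Set.ncard_singleton]; omega)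
  have dac := dj a c (by rw [ha, hc, Set.ncard_singleton]; omega)
  have dbc := dj b c (by omega)
  have cov : orbit (stabilizer G a) a ∪ orbit (stabilizer G a) b ∪ orbit (stabilizer G a) c = Set.univ :=
    Set.eq_of_subset_of_ncard_le (Set.subset_univ _) (by
      rw [Set.ncard_union_eq (dac.union_left dbc), Set.ncard_union_eq dab, ha, hb, hc, Set.ncard_univ,
        Nat.card_eq_fintype_card, hΩ, Set.ncard_singleton])
  have ex : ∀ (r : Ω) (x : ℕ), (∀ h, h • r = r → e h x = x) → ∃ f : Ω → ℕ, ∀ h, f (h • r) = e h x := fun r x hx => by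
    refine ⟨fun ω => if h : ∃ h : stabilizer G a, h • r = ω then e h.choose x else 0, fun h => ?_⟩
    have t : ∃ h' : stabilizer G a, h' • r = h • r := ⟨h, rfl⟩
    have := hx (h⁻¹ * t.choose) (by rw [mul_smul, t.choose_spec, inv_smul_smul])
    simp only [dif_pos t]
    rw [map_mul, map_inv, Perm.mul_apply, Perm.inv_eq_iff_eq] at this
    exact this
  obtain ⟨f₁, h₁⟩ := ex b xb fb
  obtain ⟨f₂, h₂⟩ := ex c xc fc
  obtain ⟨β, βa, βb, βc⟩ : ∃ β : Ω → ℕ, β a = 0 ∧ (∀ h : stabilizer G a, β (h • b) = e h xb) ∧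
      ∀ h : stabilizer G a, β (h • c) = e h xc := by
    refine ⟨fun ω => if ω = a then 0 else if ω ∈ orbit (stabilizer G a) b then f₁ ω else f₂ ω, if_pos rfl,
      fun h => ?_, fun h => ?_⟩
    · simp only [if_neg (dab.ne_of_mem (mem_orbit_self a) (mem_orbit b h)).symm, if_pos (mem_orbit b h), h₁]
    · simp only [if_neg (dac.ne_of_mem (mem_orbit_self a) (mem_orbit c h)).symm,
        if_neg (dbc.notMem_of_mem_right (mem_orbit c h)), h₂]
  have cases : ∀ ω, ω = a ∨ (∃ h : stabilizer G a, h • b = ω) ∨ ∃ h : stabilizer G a, h • c = ω := fun ω => by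
    have : ω ∈ _ := cov ▸ Set.mem_univ ω
    rw [ha] at this
    exact or_assoc.1 this
  have eqv : ∀ (h : stabilizer G a) ω, β (h • ω) = e h (β ω) := fun h ω => by
    rcases cases ω with rfl | ⟨g, rfl⟩ | ⟨g, rfl⟩
    · rw [show h • ω = ω from h.2, βa, M.fix0 _ ⟨h, rfl⟩]
    · rw [← mul_smul, βb, βb, map_mul, Perm.mul_apply]
    · rw [← mul_smul, βc, βc, map_mul, Perm.mul_apply]
  have βlt : ∀ ω, β ω < 1 + k + l := fun ω => by
    rcases cases ω with rfl | ⟨g, rfl⟩ | ⟨g, rfl⟩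
    · omega
    · have := (M.invb _ ⟨g, rfl⟩ _).2 hxb
      rw [ms_ivl, ← βb] at this
      have := this.2
      omega
    · have := (M.invc _ ⟨g, rfl⟩ _).2 hxc
      rw [ms_ivl, ← βc] at this
      exact this.2
  have bij : Function.Bijective fun ω => (⟨β ω, βlt ω⟩ : {i // i < 1 + k + l}) := by
    refine (Nat.bijective_iff_surjective_and_card _).2 ⟨fun i => ?_, ?_⟩
    · by_cases h0 : i.1 = 0
      · exact ⟨a, Subtype.ext (βa.trans h0.symm)⟩
      by_cases hk : i.1 < 1 + k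
      · obtain ⟨_, ⟨g, rfl⟩, hg⟩ := trans_of_inOrb M.orbb hxb (j := i) (ms_ivl _ _ ▸ ⟨by omega, hk⟩)
        exact ⟨g • b, Subtype.ext ((βb g).trans hg)⟩
      · obtain ⟨_, ⟨g, rfl⟩, hg⟩ := trans_of_inOrb M.orbc hxc (j := i) (ms_ivl _ _ ▸ ⟨by omega, i.2⟩)
        exact ⟨g • c, Subtype.ext ((βc g).trans hg)⟩
    · rw [Nat.card_eq_fintype_card, hΩ, ← Nat.card_congr Fin.equivSubtype, Nat.card_fin]
  let ψ := Perm.extendDomainHom (Equiv.ofBijective _ bij)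
  have ψβ : ∀ g ω, ψ g (β ω) = β (g ω) := fun g ω => Perm.extendDomain_apply_image g (Equiv.ofBijective _ bij) ω
  have ψN : ∀ g i, 1 + k + l ≤ i → ψ g i = i := fun g i hi =>
    Perm.extendDomain_apply_not_subtype g _ (not_lt.2 hi)
  have sur : ∀ i < 1 + k + l, ∃ ω, β ω = i := fun i hi => (bij.2 ⟨i, hi⟩).imp fun _ h => congrArg Subtype.val h
  have ψe : ∀ h : stabilizer G a, ψ h.1.1 = e h := fun h => Equiv.ext fun i => by
    by_cases hi : i < 1 + k + l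
    · obtain ⟨ω, rfl⟩ := sur i hi
      exact (ψβ _ _).trans (eqv h ω)
    · rw [ψN _ _ (not_lt.1 hi), M.fix _ ⟨h, rfl⟩ _ (not_lt.1 hi)]
  refine ⟨G.map ψ, ⟨G.equivMapOfInjective ψ (Perm.extendDomainHom_injective _)⟩, ?_, fun i hi => ?_, ?_, ?_⟩
  · rintro _ ⟨g, -, rfl⟩
    exact ψN g
  · obtain ⟨ω, rfl⟩ := sur i hi
    obtain ⟨g, rfl⟩ := exists_smul_eq G a ω
    exact ⟨_, ⟨g, g.2, rfl⟩, βa ▸ ψβ _ _⟩
  · rintro _ ⟨h, rfl⟩
    exact ⟨_, h.1.2, ψe h⟩
  · rintro _ ⟨g, hg, rfl⟩ h0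
    rw [← βa, ψβ] at h0
    exact ⟨⟨⟨g, hg⟩, bij.1 (Subtype.ext h0)⟩, (ψe _).symm⟩

/-- The orbital graph that belongs to the orbit `[1, 1 + k)`. -/
def Orb (G : Subgroup (Perm ℕ)) (k x y : ℕ) : Prop := ∃ g ∈ G, g 0 = x ∧ g⁻¹ y ∈ ms (ivl 1 k)

theorem ncard_orbit {H : Subgroup (Perm ℕ)} {b lo n x : ℕ} (h : InOrb H b (ivl lo n)) (h' : Inv H (ivl lo n))
    (hx : x ∈ ms (ivl lo n)) : (orbit H x).ncard = n := by
  have : orbit H x = ms (ivl lo n) := Set.ext fun y => ⟨by rintro ⟨g, rfl⟩; exact (h' _ g.2 x).2 hx, fun hy => by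
    obtain ⟨g, hg, rfl⟩ := trans_of_inOrb h hx hy
    exact ⟨⟨g, hg⟩, rfl⟩⟩
  simp [this, ms_ivl]

/-- The check that lists the possible neighbourhoods of `b` and `c`. -/
noncomputable def rowsB (nets : NL) (n N k b c : ℕ) (bs cs : List (List ℕ)) (lb lc : List (ℕ × List ℕ))
    (ln : List (List ℕ × ℕ × ℕ)) (fin : ℕ → ℕ → Bool) : Bool :=
  decide (1 ≤ b ∧ b < 1 + k ∧ 1 + k ≤ c ∧ c < N) && bs.all (lt n) && cs.all (lt n) && fixB nets bs (pt b) &&
  fixB nets cs (pt c) && ln.all (fun t => lt n t.1 && Nat.beq (appW nets t.1 (pt t.2.1)) (pt b) &&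
    Nat.beq (appW nets t.1 (pt c)) (pt t.2.2)) &&
  unionB nets bs N lb (ones N) fun mb sb => !(Nat.beq sb k && mb.testBit 0 && !mb.testBit b) ||
    unionB nets cs N lc (ones N) fun mc sc => !(Nat.beq sc k && !mc.testBit 0 && !mc.testBit c &&
      ln.all fun t => mc.testBit t.2.1 == mb.testBit t.2.2) || fin mb mc

/-- The neighbourhoods are those of the model, up to one of the listed permutations. -/
noncomputable def finB (nets : NL) (n k b c : ℕ) (al : List (List ℕ × List ℕ × List ℕ)) (mb mc : ℕ) : Bool :=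
  al.any fun t => lt n t.2.1 && lt n t.2.2 && fixB nets [t.1] (pt 0) && fixB nets [t.1] (ivl 1 k) &&
    Nat.beq (appW nets (t.2.1 ++ t.1) (pt 0)) (pt b) && Nat.beq (appW nets (t.2.2 ++ t.1) (pt 0)) (pt c) &&
    Nat.beq (appW nets (t.2.1 ++ t.1) (ivl 1 k)) mb && Nat.beq (appW nets (t.2.2 ++ t.1) (ivl 1 k)) mc

section
variable {k l : ℕ} {H G : Subgroup (Perm ℕ)} (M : Model k l H) (E : Ext (1 + k + l) H G)
include M E

theorem orb_iff {g : Perm ℕ} (hg : g ∈ G) (y : ℕ) : Orb G k (g 0) y ↔ g⁻¹ y ∈ ms (ivl 1 k) := by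
  refine ⟨fun ⟨g', hg', e, h⟩ => ?_, fun h => ⟨g, hg, rfl, h⟩⟩
  simpa using (M.invb _ (E.mem _ (G.mul_mem (G.inv_mem hg) hg') (by simp [e])) _).2 h

omit M in
theorem le_autG : G ≤ autG (Orb G k) (1 + k + l) := by
  have : ∀ g ∈ G, ∀ x y, Orb G k x y → Orb G k (g x) (g y) := fun g hg x y ⟨g', hg', e, h⟩ =>
    ⟨g * g', G.mul_mem hg hg', by simp [e], by simpa using h⟩
  exact fun g hg => ⟨E.fix g hg, fun x y => ⟨fun h => by simpa using this _ (G.inv_mem hg) _ _ h, this g hg x y⟩⟩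

theorem orb_zero : ms (ivl 1 k) = {y | Orb G k 0 y} := Set.ext fun y => (orb_iff M E G.one_mem y).symm

omit M in
theorem orb_lt {x y : ℕ} (h : Orb G k x y) : x < 1 + k + l ∧ y < 1 + k + l ∧ x ≠ y := by
  obtain ⟨g, hg, rfl, h⟩ := h
  obtain ⟨y, rfl⟩ := g.surjective y
  simp only [ms_ivl, Perm.coe_inv, Equiv.symm_apply_apply, Set.mem_Ico] at h
  exact ⟨lt_of_fix (E.fix g hg) (by omega), lt_of_fix (E.fix g hg) (by omega), g.injective.ne (by omega)⟩

theorem ncard_orb {x : ℕ} (hx : x < 1 + k + l) : {y | Orb G k x y}.ncard = k := by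
  obtain ⟨g, hg, rfl⟩ := E.tr x hx
  have : {y | Orb G k (g 0) y} = g '' ms (ivl 1 k) := by
    ext y; rw [Set.mem_setOf_eq, orb_iff M E hg, Set.mem_image_equiv]; rfl
  simp [this, Set.ncard_image_of_injective _ g.injective, ms_ivl]

theorem orb_symm {x y : ℕ} (h : Orb G k x y) : Orb G k y x := by
  have hn := M.ne
  have h1 : 1 ∈ ms (ivl 1 k) := ms_ivl _ _ ▸ ⟨le_rfl, by omega⟩
  obtain ⟨t, ht, e⟩ := E.tr 1 (by omega)
  have hc : t⁻¹ 0 ∈ ms (ivl 1 k) := by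
    have := finite_of_fix M.fix
    have e₁ := card_fixer (A := H) [] 1
    have e₂ := card_fixer (A := H) [] (t⁻¹ 0)
    rw [fixer_nil] at e₁ e₂
    have e₃ : Nat.card (fixer H [t⁻¹ 0]) = Nat.card (fixer H [1]) := by
      refine Nat.card_congr ((MulAut.conj t).toEquiv.subtypeEquiv fun g => ?_)
      simp only [fixer, Subgroup.mem_mk, Submonoid.mem_mk, Subsemigroup.mem_mk, Set.mem_setOf_eq, List.mem_singleton,
        forall_eq, MulEquiv.toEquiv_eq_coe, EquivLike.coe_coe, MulAut.conj_apply, Perm.mul_apply]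
      refine ⟨fun h => ⟨E.mem _ (G.mul_mem (G.mul_mem ht (E.le h.1)) (G.inv_mem ht)) (by simp at h; simp [h.2]),
        by simp [← e, M.fix0 _ h.1]⟩, fun h => ⟨E.mem _ (by
          simpa [mul_assoc] using G.mul_mem (G.mul_mem (G.inv_mem ht) (E.le h.1)) ht) (by simpa [← e] using h.2), ?_⟩⟩
      simpa [Equiv.eq_symm_apply] using M.fix0 _ h.1
    have : Finite (fixer H [1]) := finite_fixer _
    rw [e₁, e₃, ncard_orbit M.orbb M.invb h1, mul_left_inj' Nat.card_pos.ne'] at e₂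
    have h0 : t⁻¹ 0 ≠ 0 := fun h => by rw [Perm.inv_eq_iff_eq] at h; omega
    have := lt_of_fix (E.fix _ (G.inv_mem ht)) (i := 0) (by omega)
    by_contra hb
    rw [ms_ivl, Set.mem_Ico] at hb
    rw [ncard_orbit M.orbc M.invc (ms_ivl _ _ ▸ ⟨by omega, this⟩)] at e₂
    omega
  obtain ⟨g, hg, rfl, h⟩ := h
  obtain ⟨u, hu, e'⟩ := trans_of_inOrb M.orbb h1 h
  exact ⟨g * u * t, G.mul_mem (G.mul_mem hg (E.le hu)) ht, by simp [e, e'],
    by simpa [show u.symm 0 = 0 from M.fix0 _ (H.inv_mem hu)] using hc⟩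

theorem card_ext : Nat.card G = (1 + k + l) * Nat.card H := by
  have e := card_fixer (A := G) [] 0
  have e₁ : orbit G 0 = Set.Iio (1 + k + l) := Set.ext fun y => ⟨by
    rintro ⟨g, rfl⟩; exact lt_of_fix (E.fix _ g.2) (by omega), fun hy => by
    obtain ⟨g, hg, rfl⟩ := E.tr y hy
    exact ⟨⟨g, hg⟩, rfl⟩⟩
  have e₂ : fixer G [0] = H := Subgroup.ext fun g =>
    ⟨fun h => E.mem g h.1 (h.2 0 List.mem_cons_self), fun h => ⟨E.le h, by simpa using M.fix0 g h⟩⟩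
  rwa [fixer_nil, e₁, e₂, Set.ncard_Iio_nat] at e

theorem le_autG_of_rows {adj : ℕ → ℕ → Prop} (hH : H ≤ autG adj (1 + k + l)) (h0 : ms (ivl 1 k) = {y | adj 0 y})
    (hlt : ∀ x y, adj x y → x < 1 + k + l) {b c : ℕ} (hb : b ∈ ms (ivl 1 k)) (hc : c ∈ ms (ivl (1 + k) l))
    (rb : {y | Orb G k b y} = {y | adj b y}) (rc : {y | Orb G k c y} = {y | adj c y}) : G ≤ autG adj (1 + k + l) := by
  suffices Orb G k = adj from this ▸ le_autG E
  have key : ∀ r, {y | Orb G k r y} = {y | adj r y} → ∀ g ∈ H, ∀ y, Orb G k (g r) y = adj (g r) y := fun r e g hg y => by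
    obtain ⟨y, rfl⟩ := g.surjective y
    rw [(hH hg).2, (le_autG E (E.le hg)).2]
    exact congrFun e y
  funext x y
  by_cases h₀ : x = 0
  · exact h₀ ▸ congrFun ((orb_zero M E).symm.trans h0) y
  by_cases h₁ : x < 1 + k
  · obtain ⟨g, hg, rfl⟩ := trans_of_inOrb M.orbb hb (j := x) (ms_ivl _ _ ▸ ⟨by omega, h₁⟩)
    exact key b rb g hg y
  by_cases h₂ : x < 1 + k + l
  · obtain ⟨g, hg, rfl⟩ := trans_of_inOrb M.orbc hc (j := x) (ms_ivl _ _ ▸ ⟨by omega, h₂⟩)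
    exact key c rc g hg y
  · exact propext ⟨fun h => absurd (orb_lt E h).1 h₂, fun h => absurd (hlt _ _ h) h₂⟩

variable {N n : ℕ} {nets : NL} (hv : nets.Valid N) (hN : N = 1 + k + l) (hH : ∀ i < n, nets.perm i ∈ H)
include hv hN hH

theorem rows {b c : ℕ} {bs cs : List (List ℕ)} {lb lc : List (ℕ × List ℕ)} {ln : List (List ℕ × ℕ × ℕ)}
    {fin : ℕ → ℕ → Bool} (h : rowsB nets n N k b c bs cs lb lc ln fin = true) :
    b ∈ ms (ivl 1 k) ∧ c ∈ ms (ivl (1 + k) l) ∧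
      ∃ mb mc, ms mb = {y | Orb G k b y} ∧ ms mc = {y | Orb G k c y} ∧ fin mb mc = true := by
  subst hN
  simp only [rowsB, Bool.and_eq_true, decide_eq_true_eq] at h
  obtain ⟨⟨⟨⟨⟨⟨h₁, h₂⟩, h₃⟩, h₄⟩, h₅⟩, h₆⟩, h⟩ := h
  have hb : b ∈ ms (ivl 1 k) := ms_ivl _ _ ▸ ⟨h₁.1, h₁.2.1⟩
  have key : ∀ {r ws}, List.all ws (lt n) = true → fixB nets ws (pt r) = true → ∀ g ∈ gp nets.perm ws,
      ∀ i ∈ {y | Orb G k r y}, g i ∈ {y | Orb G k r y} := fun {r ws} e₁ e₂ g hg i hi => by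
    have := (inv_gp hv e₂ g hg r).2
    rw [ms_pt] at this
    rw [Set.mem_setOf_eq, ← show g r = r from this rfl]
    exact ((le_autG E (E.le (gp_le.2 (mem_of_all_lt hH e₁) hg))).2 _ _).2 hi
  have sub : ∀ r, {y | Orb G k r y} ⊆ ms (ones (1 + k + l)) := fun r y hy => ms_ones _ ▸ (orb_lt E hy).2.1
  obtain ⟨mb, eb, h⟩ := exists_of_unionB hv (fun _ => mem_gp) (key h₂ h₄) (sub b) h
  have b₁ : mb.testBit 0 = true := by rw [← mem_ms, eb]; exact orb_symm M E (by rwa [orb_zero M E] at hb)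
  have b₂ : mb.testBit b = false := Bool.eq_false_iff.2 fun e => by
    rw [← mem_ms, eb] at e; exact (orb_lt E e).2.2 rfl
  simp only [ncard_orb M E (x := b) (by omega), Nat.beq_refl, b₁, b₂, Bool.not_false, Bool.and_self, Bool.not_true,
    Bool.false_or] at h
  obtain ⟨mc, ec, h⟩ := exists_of_unionB hv (fun _ => mem_gp) (key h₃ h₅) (sub c) h
  have c₁ : mc.testBit 0 = false := Bool.eq_false_iff.2 fun e => by
    rw [← mem_ms, ec] at e
    have : c ∈ ms (ivl 1 k) := orb_zero M E ▸ orb_symm M E e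
    rw [ms_ivl] at this
    have := this.2
    omega
  have c₂ : mc.testBit c = false := Bool.eq_false_iff.2 fun e => by
    rw [← mem_ms, ec] at e; exact (orb_lt E e).2.2 rfl
  have c₃ : (ln.all fun t => mc.testBit t.2.1 == mb.testBit t.2.2) = true := List.all_eq_true.2 fun t ht => by
    have := List.all_eq_true.1 h₆ t ht
    simp only [Bool.and_eq_true, Nat.beq_eq] at this
    have e₁ := congrArg ms this.1.2
    have e₂ := congrArg ms this.2
    rw [ms_appW hv, ms_pt, ms_pt] at e₁ e₂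
    have e₃ : wval nets.perm t.1 b = t.2.1 := (e₁.ge rfl :)
    have e₄ : wval nets.perm t.1 t.2.2 = c := (e₂.ge rfl :)
    rw [beq_iff_eq, Bool.eq_iff_iff, ← mem_ms, ← mem_ms, eb, ec, Set.mem_setOf_eq, Set.mem_setOf_eq, ← e₃, ← e₄,
      (le_autG E (E.le (mem_of_lt hH this.1.1))).2]
    exact ⟨orb_symm M E, orb_symm M E⟩
  simp only [ncard_orb M E h₁.2.2.2, Nat.beq_refl, c₁, c₂, c₃, Bool.not_false, Bool.and_self, Bool.not_true,
    Bool.false_or] at h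
  exact ⟨hb, ms_ivl _ _ ▸ h₁.2.2, mb, mc, eb, ec, h⟩

theorem exists_le_autG {adj : ℕ → ℕ → Prop} {n' : ℕ} (hT : ∀ i < n', nets.perm i ∈ autG adj N)
    (h0 : ms (ivl 1 k) = {y | adj 0 y}) (hlt : ∀ x y, adj x y → x < N) {al : List (List ℕ × List ℕ × List ℕ)}
    (ha : ∀ t ∈ al, ∀ g ∈ H, wval nets.perm t.1 * g * (wval nets.perm t.1)⁻¹ ∈ autG adj N)
    {b c : ℕ} {bs cs : List (List ℕ)} {lb lc : List (ℕ × List ℕ)} {ln : List (List ℕ × ℕ × ℕ)}
    (h : rowsB nets n N k b c bs cs lb lc ln (finB nets n' k b c al) = true) :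
    ∃ G' ≤ autG adj N, Nonempty (G ≃* G') := by
  subst hN
  obtain ⟨hb, hc, mb, mc, eb, ec, h⟩ := rows M E hv rfl hH h
  obtain ⟨t, ht, h⟩ := List.any_eq_true.1 h
  simp only [Bool.and_eq_true, Nat.beq_eq] at h
  obtain ⟨⟨⟨⟨⟨⟨⟨h₁, h₂⟩, h₃⟩, h₄⟩, h₅⟩, h₆⟩, rfl⟩, rfl⟩ := h
  set τ := wval nets.perm t.1 with hτ
  have hτN : ∀ i, 1 + k + l ≤ i → τ i = i := fun i => wval_of_ge hv _
  have key : ∀ {w r}, lt n' w = true → appW nets (w ++ t.1) (pt 0) = pt r →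
      ms (appW nets (w ++ t.1) (ivl 1 k)) = {y | adj (τ r) (τ y)} := fun {w r} e₁ e₂ => by
    obtain ⟨y, p₁, p₂⟩ := row_step hv hT e₁ (ms_pt 0) h0
    have e₃ := congrArg ms e₂
    rw [ms_appW hv] at p₁ p₂ e₃ ⊢
    rw [wval_append, Perm.coe_mul, Set.preimage_comp] at e₃ ⊢
    rw [p₁, ms_pt] at e₃
    rw [p₂, show τ r = y from (e₃.ge rfl :)]
    rfl
  have τ0 : τ 0 = 0 := by simpa [ms_pt] using inv_gp hv h₃ τ (mem_gp List.mem_cons_self) 0
  have := le_autG_of_rows M E (adj := fun x y => adj (τ x) (τ y)) (fun g hg => ⟨M.fix g hg, fun x y => by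
      simpa [← hτ] using (ha t ht g hg).2 (τ x) (τ y)⟩)
    (Set.ext fun y => by rw [← inv_gp hv h₄ τ (mem_gp List.mem_cons_self) y, h0, τ0]; rfl)
    (fun x y h => by
      simpa using lt_of_fix (g := τ⁻¹) (fun i hi => by rw [Perm.inv_eq_iff_eq, hτN i hi]) (hlt _ _ h))
    hb hc (eb.symm.trans (key h₁ h₅)) (ec.symm.trans (key h₂ h₆))
  refine ⟨G.map (MulAut.conj τ).toMonoidHom, ?_, ⟨G.equivMapOfInjective _ (MulAut.conj τ).injective⟩⟩
  rintro _ ⟨g, hg, rfl⟩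
  refine ⟨fun i hi => ?_, fun x y => ?_⟩
  · have : τ.symm i = i := by rw [Equiv.symm_apply_eq, hτN i hi]
    simp [this, E.fix g hg i hi, hτN i hi]
  · simpa using (this hg).2 (τ⁻¹ x) (τ⁻¹ y)

end

theorem mul_self_mem {X : Type*} [Group X] {A G : Subgroup X} [Finite A] (h : G ≤ A)
    (hc : Nat.card A ≤ 2 * Nat.card G) {g : X} (hg : g ∈ A) : g * g ∈ G := by
  have e := (G.subgroupOf A).index_mul_card
  rw [Nat.card_congr (Subgroup.subgroupOfEquivOfLe h).toEquiv] at e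
  have : Finite G := Finite.of_injective _ (Subgroup.inclusion_injective h)
  have h₁ : (G.subgroupOf A).index ≤ 2 := Nat.le_of_mul_le_mul_right (e ▸ hc) Nat.card_pos
  have h₂ := (G.subgroupOf A).index_ne_zero_of_finite
  rcases (by omega : (G.subgroupOf A).index = 1 ∨ (G.subgroupOf A).index = 2) with e | e
  · have : (⟨g * g, A.mul_mem hg hg⟩ : A) ∈ G.subgroupOf A := Subgroup.index_eq_one.1 e ▸ trivial
    exact this
  · exact Subgroup.mul_self_mem_of_index_two e ⟨g, hg⟩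

theorem mem_of_odd {X : Type*} [Group X] {A G : Subgroup X} [Finite A] (h : G ≤ A)
    (hc : Nat.card A ≤ 2 * Nat.card G) {g : X} (hg : g ∈ A) {n : ℕ} (hn : g ^ (2 * n + 1) = 1) : g ∈ G := by
  have := G.pow_mem (mul_self_mem h hc hg) (n + 1)
  rwa [← sq, ← pow_mul, show 2 * (n + 1) = 2 * n + 1 + 1 by ring, pow_succ, hn, one_mul] at this

end Cfsg.Agent.Lib.Rk3Emb
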