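import Cfsg.Agent.Lib.Rk3PH
import Cfsg.Agent.Lib.M24Ord

/-! Homomorphisms and permutation actions obtained from bounds that hold in every model of some relators. -/

set_option autoImplicit false

namespace Cfsg.Agent.Lib.Rk3Iso

open Cfsg.Agent.Lib.PermNet Cfsg.Agent.Lib.Words Cfsg.Agent.Lib.Rk3Aut Cfsg.Agent.Lib.Rk3Emb Cfsg.Agent.Lib.Rk3PH
  Cfsg.Agent.Lib.PermGroup Equiv MulAction

theorem rels_prod {G X : Type*} [Group G] [Group X] {y : ℕ → G} {f : ℕ → X} {K : List (List ℕ)}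
    (hy : ∀ w ∈ K, wval y w = 1) (hf : ∀ w ∈ K, wval f w = 1) : ∀ w ∈ K, wval (fun i => (y i, f i)) w = 1 :=
  fun w hw => Prod.ext ((map_wval (MonoidHom.fst G X) _ w).trans (hy w hw))
    ((map_wval (MonoidHom.snd G X) _ w).trans (hf w hw))

theorem mem_of_defs {G : Type*} [Group G] {f : ℕ → G} {H : Subgroup G} {ds : List (List ℕ)} {n : ℕ}
    (hd : ∀ w ∈ defRels n ds, wval f w = 1) (ho : defsOK n ds = true) (h : ∀ i < n, f i ∈ H) :
    ∀ i < n + ds.length, f i ∈ H := by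
  induction ds generalizing n with
  | nil => exact h
  | cons d ds ih =>
    simp only [defsOK, Bool.and_eq_true] at ho
    obtain ⟨h₁, h₂⟩ := List.forall_mem_cons.1 hd
    rw [wval_odd, inv_mul_eq_one] at h₁
    rw [List.length_cons, ← add_assoc, add_right_comm]
    exact ih h₂ ho.2 fun i hi => (Nat.lt_succ_iff_lt_or_eq.1 hi).elim (h i) fun e => e ▸ h₁ ▸ mem_of_lt h ho.1

theorem mem_gp_range {G : Type*} [Group G] {f : ℕ → G} {ws : List (List ℕ)} {n : ℕ}
    (h : (List.range n).all (fun i => ws.contains [2 * i]) = true) : ∀ i < n, f i ∈ gp f ws := fun i hi =>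
  wval_single f i ▸ mem_gp (List.contains_iff_mem.1 (List.all_eq_true.1 h i (List.mem_range.2 hi)))

theorem exists_hom {G X : Type*} [Group G] [Group X] {y : ℕ → G} {f : ℕ → X} {ls : List (List ℕ)} {T : ℕ}
    (hb : Nat.card (gp (fun i => (y i, f i)) ls) ≠ 0 ∧ Nat.card (gp (fun i => (y i, f i)) ls) ≤ T)
    (h1 : Finite (gp y ls) → T ≤ Nat.card (gp y ls)) :
    Nat.card (gp y ls) = T ∧ ∃ π : gp y ls →* X, π.range = gp f ls ∧
      ∀ w (hw : wval y w ∈ gp y ls), wval (fun i => (y i, f i)) w ∈ gp (fun i => (y i, f i)) ls →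
        π ⟨_, hw⟩ = wval f w := by
  let z : ℕ → G × X := fun i => (y i, f i)
  have e1 : (gp z ls).map (MonoidHom.fst G X) = gp y ls := map_gp _ _
  have e2 : (gp z ls).map (MonoidHom.snd G X) = gp f ls := map_gp _ _
  have : Finite (gp z ls) := Nat.finite_of_card_ne_zero hb.1
  have hs := (MonoidHom.fst G X).subgroupMap_surjective (gp z ls)
  have hc := Nat.card_le_card_of_surjective _ hs
  have h1 := h1 (e1 ▸ Finite.of_surjective _ hs)
  have b1 : Function.Bijective ((MonoidHom.fst G X).subgroupMap (gp z ls)) :=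
    (Nat.bijective_iff_surjective_and_card _).2 ⟨hs, by rw [e1] at hc ⊢; exact le_antisymm (hb.2.trans h1) hc⟩
  let e := (MulEquiv.subgroupCongr e1.symm).trans (MulEquiv.ofBijective _ b1).symm
  refine ⟨le_antisymm (e1 ▸ hc.trans hb.2) h1, ((MonoidHom.snd G X).comp (gp z ls).subtype).comp e.toMonoidHom, ?_,
    fun w hw hz => ?_⟩
  · rw [MonoidHom.range_comp, MonoidHom.range_eq_top_of_surjective _ e.surjective, ← MonoidHom.range_eq_map,
      MonoidHom.range_comp, Subgroup.range_subtype, e2]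
  · have : e ⟨_, hw⟩ = ⟨_, hz⟩ :=
      (MulEquiv.symm_apply_eq (MulEquiv.ofBijective _ b1)).2 (Subtype.ext (map_wval (MonoidHom.fst G X) z w).symm)
    exact (congrArg (fun d : gp z ls => d.1.2) this).trans (map_wval (MonoidHom.snd G X) z w)

theorem exists_phi {S Y : Type*} [Group S] [MulAction S Y] (lab : ℕ → Y) {N : ℕ} (inj : Set.InjOn lab (Set.Iio N))
    (h : ∀ s : S, ∀ x < N, ∃ x' < N, lab x' = s • lab x) :
    ∃ φ : S →* Perm ℕ, (∀ s i, N ≤ i → φ s i = i) ∧ ∀ s, ∀ x < N, lab (φ s x) = s • lab x := by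
  classical
  choose f f₁ f₂ using h
  let _ : MulAction S {i // i < N} :=
    { smul := fun s x => ⟨f s x x.2, f₁ s x x.2⟩
      one_smul := fun x => Subtype.ext (inj (f₁ _ _ _) x.2 ((f₂ _ _ _).trans (one_smul _ _)))
      mul_smul := fun s t x => Subtype.ext (inj (f₁ _ _ _) (f₁ _ _ _) (by
        change lab (f _ _ _) = lab (f s (f t x x.2) _)
        rw [f₂, f₂, f₂, mul_smul])) }
  refine ⟨(Perm.extendDomainHom (Equiv.refl {i // i < N})).comp (toPermHom S _), fun s i hi =>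
    Perm.extendDomain_apply_not_subtype _ _ (not_lt.2 hi), fun s x hx => ?_⟩
  exact (congrArg lab (Perm.extendDomain_apply_image (toPermHom S _ s) (Equiv.refl {i // i < N}) ⟨x, hx⟩)).trans
    (f₂ s x hx)

theorem exists_lab {S Y : Type*} [Group S] [MulAction S Y] {y : ℕ → S} {f : ℕ → Perm ℕ} {hs ls : List (List ℕ)} {N : ℕ}
    (hb : (gp (fun i => (y i, f i)) hs).relIndex (gp (fun i => (y i, f i)) ls) ≠ 0 ∧
      (gp (fun i => (y i, f i)) hs).relIndex (gp (fun i => (y i, f i)) ls) ≤ N)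
    {v : Y} (hv : ∀ w ∈ hs, wval y w • v = v) (h0 : ∀ w ∈ hs, wval f w 0 = 0) (htr : InOrb (gp f ls) 0 (ones N)) :
    (∀ g ∈ gp f ls, g 0 = 0 → g ∈ gp f hs) ∧ ∃ lab : ℕ → Y, ∀ d ∈ gp (fun i => (y i, f i)) ls, lab (d.2 0) = d.1 • v := by
  classical
  let z : ℕ → S × Perm ℕ := fun i => (y i, f i)
  have e1 : ∀ ls, (gp z ls).map (MonoidHom.snd _ _) = gp f ls := fun _ => map_gp _ _
  have key := (index_eq (φ := (MonoidHom.snd _ _).comp (gp z ls).subtype) (H := (gp z hs).subgroupOf (gp z ls)) hb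
    (fun d hd => (gp_le (y := z) (K := (stabilizer (Perm ℕ) 0).comap (MonoidHom.snd _ _))).2
      (fun w hw => (congrArg (· • 0) (map_wval (MonoidHom.snd S (Perm ℕ)) z w)).trans (h0 w hw)) hd)
    (by rwa [MonoidHom.range_comp, Subgroup.range_subtype, e1])).2
  refine ⟨fun g hg h => ?_, fun x => if h : ∃ d ∈ gp z ls, d.2 0 = x then h.choose.1 • v else v, fun d hd => ?_⟩
  · obtain ⟨d, hd, rfl⟩ : g ∈ (gp z ls).map (MonoidHom.snd _ _) := (e1 ls).symm ▸ hg
    exact e1 hs ▸ ⟨d, (key ⟨d, hd⟩).2 h, rfl⟩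
  · have t : ∃ d' ∈ gp z ls, d'.2 0 = d.2 0 := ⟨d, hd, rfl⟩
    have := (gp_le (y := z) (K := (stabilizer S v).comap (MonoidHom.fst _ _))).2
      (fun w hw => (congrArg (· • v) (map_wval (MonoidHom.fst S (Perm ℕ)) z w)).trans (hv w hw))
      ((key ⟨_, mul_mem (inv_mem hd) t.choose_spec.1⟩).2 (by simpa [Equiv.symm_apply_eq] using t.choose_spec.2))
    simp only [dif_pos t]
    simpa [mul_smul, inv_smul_eq_iff] using this

/-- A normal subgroup of a group that is primitive on `O` fixes `O` pointwise or is transitive on it. -/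
theorem fix_or_dvd {N : ℕ} {nets : NL} (hv : nets.Valid N) {H M : Subgroup (Perm ℕ)} [Finite H] (hM : M ≤ H)
    (hn : ∀ g ∈ H, ∀ x ∈ M, g * x * g⁻¹ ∈ M) {n : ℕ} (hH : ∀ i < n, nets.perm i ∈ H) {b b' lo len : ℕ}
    (h₁ : InOrb H b' (ivl lo len)) (h₂ : Inv H (ivl lo len)) {ws : List (List ℕ)} {l : List (ℕ × List ℕ)}
    (h : ((ivl lo len).testBit b && ws.all (lt n) && fixB nets ws (pt b) && unionB nets ws N l (ivl lo len) fun q s =>
      !q.testBit b || Nat.beq q (pt b) || Nat.beq s len || !Nat.beq (len % s) 0) = true) :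
    (∀ g ∈ M, ∀ i ∈ ms (ivl lo len), g i = i) ∨ len ∣ Nat.card M := by
  simp only [Bool.and_eq_true] at h
  obtain ⟨⟨⟨hb, hw⟩, hf⟩, h⟩ := h
  have key : ∀ g ∈ H, g b = b → ∀ i ∈ orbit M b, g i ∈ orbit M b := by
    rintro g hg e _ ⟨x, rfl⟩
    exact ⟨⟨_, hn g hg x x.2⟩, by simp [Subgroup.smul_def, show g.symm b = b from (Equiv.symm_apply_eq _).2 e.symm]⟩
  obtain ⟨q, hq, h⟩ := exists_of_unionB hv (L := gp nets.perm ws) (fun _ => mem_gp) (X := orbit M b)
    (fun g hg => key g (gp_le.2 (mem_of_all_lt hH hw) hg) (by simpa [ms_pt] using inv_gp hv hf g hg b))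
    (by rintro _ ⟨g, rfl⟩; exact (h₂ _ (hM g.2) b).2 hb) h
  have e₁ : q.testBit b = true := by rw [← mem_ms, hq]; exact mem_orbit_self b
  have e₂ : (orbit M b).ncard ∣ len := by
    let B : Subgroup (Perm ℕ) :=
      { carrier := {g | g ∈ H ∧ g b ∈ orbit M b}
        one_mem' := ⟨H.one_mem, mem_orbit_self b⟩
        mul_mem' := by
          rintro g g' ⟨hg, x, e⟩ ⟨hg', x', e'⟩
          exact ⟨H.mul_mem hg hg', ⟨_, hn g hg x' x'.2⟩ * x, by
            simp only [Subgroup.smul_def, Perm.smul_def] at e e'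
            simp [Subgroup.smul_def, e, e']⟩
        inv_mem' := by
          rintro g ⟨hg, x, e⟩
          exact ⟨H.inv_mem hg, ⟨_, hn _ (H.inv_mem hg) _ (M.inv_mem x.2)⟩, by
            simp only [Subgroup.smul_def, Perm.smul_def] at e
            simp [Subgroup.smul_def, ← e]⟩ }
    have c₁ := card_fixer (A := B) [] b
    have c₂ := card_fixer (A := H) [] b
    have c₃ : fixer B [b] = fixer H [b] := Subgroup.ext fun g => ⟨fun h => ⟨h.1.1, h.2⟩,
      fun h => ⟨⟨h.1, (h.2 b List.mem_cons_self).symm ▸ mem_orbit_self b⟩, h.2⟩⟩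
    have c₄ : orbit B b = orbit M b := Set.ext fun y => ⟨by rintro ⟨g, rfl⟩; exact g.2.2,
      by rintro ⟨g, rfl⟩; exact ⟨⟨g, hM g.2, g, rfl⟩, rfl⟩⟩
    rw [fixer_nil] at c₁ c₂
    rw [c₃, c₄] at c₁
    rw [ncard_orbit h₁ h₂ hb] at c₂
    have : Finite (fixer H [b]) := finite_fixer _
    exact Nat.dvd_of_mul_dvd_mul_right Nat.card_pos (c₁ ▸ c₂ ▸ Subgroup.card_dvd_of_le (show B ≤ H from fun _ h => h.1))
  simp only [e₁, Nat.mod_eq_zero_of_dvd e₂, Nat.beq_refl, Bool.not_true, Bool.false_or, Bool.or_false, Bool.or_eq_true,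
    Nat.beq_eq] at h
  refine h.imp (fun h g hg i hi => ?_) fun h => ?_
  · obtain ⟨u, hu, rfl⟩ := trans_of_inOrb h₁ hb hi
    rw [h, ms_pt] at hq
    have : (u⁻¹ * g * u⁻¹⁻¹) b ∈ ({b} : Set ℕ) := hq ▸ ⟨⟨_, hn _ (H.inv_mem hu) g hg⟩, rfl⟩
    simpa [Equiv.symm_apply_eq] using this
  · rw [← h, ← index_stabilizer]
    exact Subgroup.index_dvd_card _

theorem injective_of {H : Subgroup (Perm ℕ)} [Finite H] {X : Type*} [Group X] (π : H →* X) {O len p : ℕ}
    (h : ∀ M ≤ H, (∀ g ∈ H, ∀ x ∈ M, g * x * g⁻¹ ∈ M) → (∀ g ∈ M, ∀ i ∈ ms O, g i = i) ∨ len ∣ Nat.card M)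
    (hf : ∀ g ∈ H, (∀ i ∈ ms O, g i = i) → g = 1) (hp : p.Prime) (h₁ : p ∣ len) (h₂ : ¬ p * p ∣ Nat.card H)
    {s : H} (hs : s ^ p = 1) (hs' : π s ≠ 1) : Function.Injective π := by
  rcases h (π.ker.map H.subtype) (Subgroup.map_subtype_le _) (by
    rintro g hg _ ⟨x, hx, rfl⟩
    exact ⟨_, π.normal_ker.conj_mem x hx ⟨g, hg⟩, rfl⟩) with h | h
  · exact (injective_iff_map_eq_one π).2 fun x hx => Subtype.ext (hf x x.2 (h x ⟨x, hx, rfl⟩))
  · rw [Subgroup.card_subtype] at h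
    exact absurd (M24Ord.mem_of_dvd_card (N := π.ker) hp (h₁.trans h) h₂ hs) hs'

/-- If a stabiliser chain accounts for the whole order, then its base is a base. -/
theorem eq_one_of_chain {H : Subgroup (Perm ℕ)} [Finite H] {bs : List ℕ}
    (h : ∀ m ≤ Nat.card (fixer H bs), Nat.card H * m ≤ Nat.card H) {g : Perm ℕ} (hg : g ∈ H) (hb : ∀ b ∈ bs, g b = b) :
    g = 1 := by
  have : Finite (fixer H bs) := finite_fixer _
  have := h _ le_rfl
  rw [mul_le_iff_le_one_right Nat.card_pos] at this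
  exact Subgroup.mem_bot.1 (Subgroup.eq_bot_of_card_le _ this ▸ (⟨hg, hb⟩ : g ∈ fixer H bs))

theorem card_map_stabilizer {S Ω X : Type*} [Group S] [MulAction S Ω] [Group X] {e : S →* X} (he : Function.Injective e)
    (b : Ω) : Nat.card e.range = (orbit S b).ncard * Nat.card ((stabilizer S b).map e) := by
  rw [← index_stabilizer, Subgroup.card_map_of_injective he, Subgroup.index_mul_card,
    Nat.card_congr (MonoidHom.ofInjective he).toEquiv]

end Cfsg.Agent.Lib.Rk3Iso
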