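import Cfsg.Agent.Lib.Rk3Emb

/-! Polycyclic generating sequences; subgroups of given order found by the pigeonhole principle. -/

set_option autoImplicit false

namespace Cfsg.Agent.Lib.Rk3PH

open Cfsg.Agent.Lib.PermNet Cfsg.Agent.Lib.Words Cfsg.Agent.Lib.Rk3Aut Cfsg.Agent.Lib.Rk3Emb Equiv MulAction

/-- Generator, relative order, its power, and the conjugates of the later generators. -/
abbrev PC := List (ℕ × ℕ × List ℕ × List (List ℕ))

def pcG (d : PC) : List (List ℕ) := d.map fun e => [2 * e.1]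

def pcR : PC → List (List ℕ × List ℕ)
  | [] => []
  | e :: d => (rep e.2.1 [2 * e.1], e.2.2.1) ::
    List.zipWith (fun e' v => ([2 * e'.1, 2 * e.1], 2 * e.1 :: v)) d e.2.2.2 ++ pcR d

def pcOK : PC → Bool
  | [] => true
  | e :: d => decide (0 < e.2.1) && Nat.beq e.2.2.2.length d.length && lettersIn (pcG d) (e.2.2.1 :: e.2.2.2) && pcOK d

def pcN : PC → ℕ
  | [] => 1
  | e :: d => e.2.1 * pcN d

/-- The normal words. -/
def NW : PC → List (List ℕ)
  | [] => [[]]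
  | e :: d => (List.range e.2.1).flatMap fun j => (NW d).map (rep j [2 * e.1] ++ ·)

section
variable {G : Type*} [Group G]

theorem pow_conj {H : Subgroup G} {g : G} (h : ∀ x ∈ H, g⁻¹ * x * g ∈ H) (n : ℕ) {x : G} (hx : x ∈ H) :
    (g ^ n)⁻¹ * x * g ^ n ∈ H := by
  induction n with
  | zero => simpa
  | succ n ih => simpa [pow_succ, mul_assoc] using h _ ih

theorem exists_pow_mul {H : Subgroup G} {g : G} (h : ∀ x ∈ H, g⁻¹ * x * g ∈ H) {n : ℕ} (hn : 0 < n) (hg : g ^ n ∈ H)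
    {L : Subgroup G} (hL : ∀ M : Subgroup G, g ∈ M → H ≤ M → L ≤ M) {x : G} (hx : x ∈ L) :
    ∃ j < n, ∃ z ∈ H, g ^ j * z = x := by
  let M : Subgroup G :=
    { carrier := {x | ∃ j : ℕ, ∃ z ∈ H, g ^ j * z = x}
      one_mem' := ⟨0, 1, H.one_mem, by simp⟩
      mul_mem' := by
        rintro _ _ ⟨i, z, hz, rfl⟩ ⟨j, z', hz', rfl⟩
        exact ⟨i + j, _, H.mul_mem (pow_conj h j hz) hz', by simp [pow_add, mul_assoc]⟩
      inv_mem' := by
        rintro _ ⟨i, z, hz, rfl⟩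
        refine ⟨(n - 1) * i, _, H.mul_mem (pow_conj h ((n - 1) * i) (H.inv_mem hz)) (H.inv_mem (H.pow_mem hg i)), ?_⟩
        obtain ⟨n, rfl⟩ := Nat.exists_eq_add_of_lt hn
        simp only [zero_add, Nat.add_sub_cancel, ← pow_mul]
        group }
  obtain ⟨j, z, hz, rfl⟩ := hL M ⟨1, 1, H.one_mem, by simp⟩ (fun z hz => ⟨0, z, hz, by simp⟩) hx
  exact ⟨j % n, Nat.mod_lt _ hn, _, H.mul_mem (H.pow_mem hg (j / n)) hz, by
    rw [← pow_mul, ← mul_assoc, ← pow_add, Nat.mod_add_div]⟩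

variable {y : ℕ → G}

theorem pc_cons {e : ℕ × ℕ × List ℕ × List (List ℕ)} {d : PC} (h : ∀ r ∈ pcR (e :: d), wval y r.1 = wval y r.2)
    (ho : pcOK (e :: d) = true) : (∀ r ∈ pcR d, wval y r.1 = wval y r.2) ∧ pcOK d = true ∧ 0 < e.2.1 ∧
      y e.1 ^ e.2.1 ∈ gp y (pcG d) ∧ (∀ x ∈ gp y (pcG d), (y e.1)⁻¹ * x * y e.1 ∈ gp y (pcG d)) ∧
      ∀ x ∈ gp y (pcG (e :: d)), ∃ j < e.2.1, ∃ z ∈ gp y (pcG d), y e.1 ^ j * z = x := by
  simp only [pcOK, Bool.and_eq_true, decide_eq_true_eq, Nat.beq_eq] at ho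
  obtain ⟨⟨⟨h₁, h₂⟩, h₃⟩, h₄⟩ := ho
  have h₃ := List.forall_mem_cons.1 (mem_gp_of_lettersIn (y := y) h₃)
  obtain ⟨h₅, h⟩ := List.forall_mem_cons.1 h
  obtain ⟨h₆, h⟩ := List.forall_mem_append.1 h
  rw [wval_rep, wval_single] at h₅
  have hc : ∀ x ∈ gp y (pcG d), (y e.1)⁻¹ * x * y e.1 ∈ gp y (pcG d) := fun x hx => by
    suffices gp y (pcG d) ≤ (gp y (pcG d)).comap (MulAut.conj (y e.1)⁻¹).toMonoidHom by
      simpa using Subgroup.mem_comap.1 (this hx)
    refine gp_le.2 fun w hw => ?_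
    obtain ⟨i, hi, rfl⟩ := List.mem_iff_getElem.1 hw
    rw [pcG, List.length_map] at hi
    have := h₆ _ (List.mem_iff_getElem.2 ⟨i, by simp [h₂, hi], rfl⟩)
    simp only [List.getElem_zipWith] at this
    rw [show ∀ a b, [2 * a, 2 * b] = [2 * a] ++ [2 * b] from fun _ _ => rfl, ← List.singleton_append (l := e.2.2.2[i]),
      wval_append, wval_append, wval_single y e.1] at this
    simpa [pcG, mul_assoc, this] using h₃.2 _ (List.getElem_mem (l := e.2.2.2) (n := i) (by omega))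
  refine ⟨h, h₄, h₁, h₅ ▸ h₃.1, hc, fun x hx => exists_pow_mul hc h₁ (h₅ ▸ h₃.1) (fun M m₁ m₂ => gp_le.2 ?_) hx⟩
  exact List.forall_mem_cons.2 ⟨(wval_single y e.1).symm ▸ m₁, gp_le.1 m₂⟩

theorem exists_nw {d : PC} (h : ∀ r ∈ pcR d, wval y r.1 = wval y r.2) (ho : pcOK d = true) {x : G}
    (hx : x ∈ gp y (pcG d)) : ∃ w ∈ NW d, wval y w = x := by
  induction d generalizing x with
  | nil => exact ⟨[], List.mem_cons_self, (Subgroup.mem_bot.1 (gp_nil (y := y) ▸ hx)).symm⟩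
  | cons e d ih =>
    obtain ⟨h₁, h₂, -, -, -, h₃⟩ := pc_cons h ho
    obtain ⟨j, hj, z, hz, rfl⟩ := h₃ x hx
    obtain ⟨w, hw, rfl⟩ := ih h₁ h₂ hz
    exact ⟨_, List.mem_flatMap.2 ⟨j, List.mem_range.2 hj, List.mem_map_of_mem hw⟩, by
      rw [wval_append, wval_rep, wval_single]⟩

theorem mem_of_nw {d : PC} {w : List ℕ} (hw : w ∈ NW d) : wval y w ∈ gp y (pcG d) := by
  induction d generalizing w with
  | nil => rw [List.mem_singleton.1 hw]; exact Subgroup.one_mem _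
  | cons e d ih =>
    obtain ⟨j, -, hw⟩ := List.mem_flatMap.1 hw
    obtain ⟨w, hw', rfl⟩ := List.mem_map.1 hw
    rw [wval_append, wval_rep]
    exact mul_mem (pow_mem (mem_gp List.mem_cons_self) _)
      (gp_le.2 (fun _ h => mem_gp (List.mem_cons_of_mem _ h)) (ih hw'))

theorem length_nw (d : PC) : (NW d).length = pcN d := by
  induction d with
  | nil => rfl
  | cons e d ih => simp [NW, pcN, List.length_flatMap, ih]

theorem card_pc_le {d : PC} (h : ∀ r ∈ pcR d, wval y r.1 = wval y r.2) (ho : pcOK d = true) :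
    Nat.card (gp y (pcG d)) ≠ 0 ∧ Nat.card (gp y (pcG d)) ≤ pcN d := by
  have hs : Function.Surjective fun i : Fin (NW d).length =>
      (⟨_, mem_of_nw (List.getElem_mem i.2)⟩ : gp y (pcG d)) := fun x => by
    obtain ⟨w, hw, e⟩ := exists_nw h ho x.2
    obtain ⟨i, hi, rfl⟩ := List.mem_iff_getElem.1 hw
    exact ⟨⟨i, hi⟩, Subtype.ext e⟩
  have := Finite.of_surjective _ hs
  exact ⟨Nat.card_pos.ne', by simpa [length_nw] using Nat.card_le_card_of_surjective _ hs⟩

theorem le_card_pc {d : PC} (h : ∀ r ∈ pcR d, wval y r.1 = wval y r.2) (ho : pcOK d = true)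
    (hn : ∀ w ∈ NW d, wval y w = 1 → w = []) : pcN d ≤ Nat.card (gp y (pcG d)) := by
  induction d with
  | nil => simp [pcN, pcG, gp_nil]
  | cons e d ih =>
    obtain ⟨h₁, h₂, h₃, -, -, -⟩ := pc_cons h ho
    have := Nat.finite_of_card_ne_zero (card_pc_le h ho).1
    have hle : gp y (pcG d) ≤ gp y (pcG (e :: d)) := gp_le.2 fun _ h => mem_gp (List.mem_cons_of_mem _ h)
    have hg : y e.1 ∈ gp y (pcG (e :: d)) := wval_single y e.1 ▸ mem_gp List.mem_cons_self
    have key : ∀ {i j : ℕ} {z z'}, i < j → j < e.2.1 → z ∈ gp y (pcG d) → z' ∈ gp y (pcG d) →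
        y e.1 ^ i * z ≠ y e.1 ^ j * z' := fun {i j z z'} hij hj hz hz' eq => by
      obtain ⟨j, rfl⟩ := Nat.exists_eq_add_of_lt hij
      obtain ⟨w, hw, ew⟩ := exists_nw h₁ h₂ (mul_mem hz' (inv_mem hz))
      have := hn _ (List.mem_flatMap.2 ⟨j + 1, List.mem_range.2 (by omega), List.mem_map_of_mem hw⟩) (by
        rw [add_assoc, pow_add, mul_assoc, mul_right_inj] at eq
        rw [wval_append, wval_rep, wval_single, ew, eq]
        group)
      simp [rep] at this
    refine (Nat.mul_le_mul_left _ (ih h₁ h₂ fun w hw => hn w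
      (List.mem_flatMap.2 ⟨0, List.mem_range.2 h₃, List.mem_map.2 ⟨w, hw, rfl⟩⟩))).trans ?_
    simpa using Nat.card_le_card_of_injective (fun p : Fin e.2.1 × gp y (pcG d) =>
      (⟨_, mul_mem (pow_mem hg p.1.1) (hle p.2.2)⟩ : gp y (pcG (e :: d)))) fun p q eq => by
        have eq : y e.1 ^ p.1.1 * p.2.1 = y e.1 ^ q.1.1 * q.2.1 := congrArg Subtype.val eq
        rcases lt_trichotomy p.1.1 q.1.1 with t | t | t
        · exact absurd eq (key t q.1.2 p.2.2 q.2.2)
        · exact Prod.ext (Fin.ext t) (Subtype.ext (by rwa [t, mul_right_inj] at eq))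
        · exact absurd eq.symm (key t p.1.2 q.2.2 p.2.2)

theorem isPGroup_pc {d : PC} (h : ∀ r ∈ pcR d, wval y r.1 = wval y r.2) (ho : pcOK d = true) {p : ℕ}
    (hp : d.all (fun e => Nat.beq e.2.1 p) = true) : IsPGroup p (gp y (pcG d)) := by
  suffices ∀ x ∈ gp y (pcG d), x ^ p ^ d.length = 1 from fun x => ⟨_, Subtype.ext (this x x.2)⟩
  induction d with
  | nil => exact fun x hx => by simpa [pcG, gp_nil] using hx
  | cons e d ih =>
    obtain ⟨h₁, h₂, -, h₃, h₄, h₅⟩ := pc_cons h ho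
    simp only [List.all_cons, Bool.and_eq_true, Nat.beq_eq] at hp
    intro x hx
    obtain ⟨j, -, z, hz, rfl⟩ := h₅ x hx
    have key : ∀ m, ∃ z' ∈ gp y (pcG d), (y e.1 ^ j * z) ^ m = y e.1 ^ (m * j) * z' := fun m => by
      induction m with
      | zero => exact ⟨1, one_mem _, by simp⟩
      | succ m ih =>
        obtain ⟨z', hz', e'⟩ := ih
        exact ⟨_, mul_mem (pow_conj h₄ j hz') hz, by simp [pow_succ, e', add_mul, pow_add, mul_assoc]⟩
    obtain ⟨z', hz', e'⟩ := key p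
    rw [List.length_cons, pow_succ', pow_mul, e', pow_mul]
    exact ih h₁ h₂ hp.2 _ (mul_mem (pow_mem (hp.1 ▸ h₃) _) hz')

theorem cj_of_isPGroup {H K P : Subgroup G} [Finite H] (hK : K ≤ H) (hP : P ≤ H) {p : ℕ} (hp : p.Prime)
    (h : IsPGroup p P) {r : ℕ} (hr : Nat.card H = r * Nat.card K) (hpr : ¬ p ∣ r) : Cj H K P := by
  have := Fact.mk hp
  obtain ⟨Q⟩ : Nonempty (Sylow p (K.subgroupOf H)) := inferInstance
  have hi : (K.subgroupOf H).index = r := by
    have e := (K.subgroupOf H).index_mul_card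
    rw [Nat.card_congr (Subgroup.subgroupOfEquivOfLe hK).toEquiv, hr] at e
    have : Finite K := Finite.of_injective _ (Subgroup.inclusion_injective hK)
    exact Nat.eq_of_mul_eq_mul_right Nat.card_pos e
  let Q' : Sylow p H := (Q.2.map (K.subgroupOf H).subtype).toSylow (by
    rw [Subgroup.index_map_subtype, hi]
    exact fun e => (hp.dvd_mul.1 e).elim Q.not_dvd_index hpr)
  obtain ⟨S, hS⟩ := (h.comap_subtype (K := H)).exists_le_sylow
  obtain ⟨u, hu⟩ := exists_smul_eq H S Q'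
  refine ⟨u, u.2, fun g hg => ?_⟩
  have : u * ⟨g, hP hg⟩ * u⁻¹ ∈ (Q' : Subgroup H) := by
    rw [← hu, Sylow.coe_subgroup_smul]
    exact Subgroup.smul_mem_pointwise_smul _ _ _ (hS hg)
  exact (Subgroup.map_subtype_le (Q : Subgroup (K.subgroupOf H)) this :)

theorem card_mul_le {H K R : Subgroup G} [Finite H] (hK : K ≤ H) (hR : R ≤ H) (h : ∀ x ∈ R, x ∈ K → x = 1) :
    Nat.card R * Nat.card K ≤ Nat.card H := by
  rw [← Nat.card_prod]
  refine Nat.card_le_card_of_injective (fun p => ⟨p.1.1 * p.2.1, mul_mem (hR p.1.2) (hK p.2.2)⟩) fun p q e => ?_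
  have e : p.1.1 * p.2.1 = q.1.1 * q.2.1 := congrArg Subtype.val e
  have := h _ (mul_mem (inv_mem q.1.2) p.1.2) (by
    rw [show q.1.1⁻¹ * p.1.1 = q.2.1 * p.2.1⁻¹ by rw [eq_mul_inv_iff_mul_eq, mul_assoc, e, inv_mul_cancel_left]]
    exact mul_mem q.2.2 (inv_mem p.2.2))
  rw [inv_mul_eq_one] at this
  exact Prod.ext (Subtype.ext this.symm) (Subtype.ext (by rwa [this, mul_right_inj] at e))

/-- A subgroup of small index contains the value of a non-empty normal word of order dividing `p`. -/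
theorem exists_nw_mem {H K : Subgroup G} [Finite H] (hK : K ≤ H) {d : PC} (hR : ∀ w ∈ pcG d, wval y w ∈ H)
    (h : ∀ r ∈ pcR d, wval y r.1 = wval y r.2) (ho : pcOK d = true) {p : ℕ} (hp : p.Prime)
    (hd : d.all (fun e => Nat.beq e.2.1 p) = true) (hc : Nat.card H < pcN d * Nat.card K) :
    ∃ w ∈ NW d, w ≠ [] ∧ wval y w ∈ K ∧ wval y w ^ p = 1 := by
  by_contra! hn
  refine hc.not_ge (le_trans (Nat.mul_le_mul_right _ (le_card_pc h ho fun w hw e => by_contra fun e' =>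
    hn w hw e' (e ▸ K.one_mem) (by simp [e]))) (card_mul_le hK (gp_le.2 hR) fun x hx hxK => ?_))
  obtain ⟨k, hk⟩ := isPGroup_pc h ho hd ⟨x, hx⟩
  replace hk : x ^ p ^ k = 1 := congrArg Subtype.val hk
  induction k with
  | zero => simpa using hk
  | succ k ih =>
    obtain ⟨w, hw, e⟩ := exists_nw h ho (pow_mem hx (p ^ k))
    exact ih (by_contra fun e' => hn w hw (fun t => e' (by rw [← e, t]; rfl)) (e ▸ pow_mem hxK _)
      (by rw [e, ← pow_mul, ← pow_succ, hk]))

theorem _root_.Cfsg.Agent.Lib.Rk3Emb.Cj.trans {H K L : Subgroup G} {u : G} (hu : u ∈ H)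
    (h : Cj H (K.comap (MulAut.conj u).toMonoidHom) L) : Cj H K L := by
  obtain ⟨v, hv, h⟩ := h
  exact ⟨u * v, mul_mem hu hv, fun g hg => by simpa [mul_assoc] using h g hg⟩

end

theorem dvd_of_orbit {L K : Subgroup (Perm ℕ)} (h : L ≤ K) {b q : ℕ} (hb : b ∈ ms q) (h₁ : InOrb L b q) (h₂ : Inv K q) :
    (ms q).ncard ∣ Nat.card K := by
  have : orbit K b = ms q := Set.ext fun y => ⟨by rintro ⟨g, rfl⟩; exact (h₂ _ g.2 b).2 hb, fun hy => by
    obtain ⟨g, hg, rfl⟩ := h₁ y hy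
    exact ⟨⟨g, h hg⟩, rfl⟩⟩
  rw [← this, ← index_stabilizer]
  exact Subgroup.index_dvd_card _

/-- Repeat the growth of an orbit until it contains `O`. -/
noncomputable def growU (nets : NL) (ws : List (List ℕ)) (seq : List ℕ) (O n : ℕ) : ℕ → Bool :=
  Nat.rec (motive := fun _ => ℕ → Bool) (fun _ => false)
    (fun _ ih x => @Bool.rec (fun _ => Bool) (forceB (grow nets ws seq x) ih) true (subB O x)) n

inductive Cert where
  | good (i : ℕ) (t : List ℕ) (vs : List (List ℕ))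
  | bad (b : ℕ) (seq : List ℕ)

/-- The check for the words with a certificate of their own. -/
noncomputable def spB (nets : NL) (N K n m : ℕ) (ps : List (List ℕ)) (Ls : List (List (List ℕ))) :
    List ℕ × Cert → Bool
  | (w, .good i t vs) => lt n t && Nat.beq vs.length (Ls.getD i []).length && decide (i < Ls.length) &&
    relsOnB nets N K (List.zipWith (fun l v => (t ++ l, subst (w :: ps) v ++ t)) (Ls.getD i []) vs) 0 K
  | (w, .bad b seq) => forceB (grow nets (w :: ps) seq (pt b)) fun q => q.testBit b && fixB nets (w :: ps) q &&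
    subB q (ones N) && !Nat.beq (m % popc N q 0) 0

/-- The check for the other words: not of order `p`, or transitive on `[lo, lo + len)` together with `ps`. -/
noncomputable def nwB (nets : NL) (p t lo len f : ℕ) (ps : List (List ℕ)) (seq : List ℕ) (sp : List (List ℕ × Cert))
    (w : List ℕ) : Bool :=
  @Bool.rec (fun _ => Bool) true (@Bool.rec (fun _ => Bool) (@Bool.rec (fun _ => Bool)
    (growU nets (w :: ps) seq (ivl lo len) f (pt lo)) true (sp.any fun s => s.1 == w)) true (w == []))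
    (Nat.beq (appW nets (rep p w) t) t)

theorem all_split {α : Type*} {f : α → Bool} (l : List α) (n : ℕ) (h₁ : (l.take n).all f = true)
    (h₂ : (l.drop n).all f = true) : l.all f = true := by
  rw [← List.take_append_drop n l, List.all_append, h₁, h₂]; rfl

section
variable {N : ℕ} {nets : NL} (hv : nets.Valid N)
include hv

theorem inOrb_growU {A : Subgroup (Perm ℕ)} {ws : List (List ℕ)} (hws : ∀ w ∈ ws, wval nets.perm w ∈ A) {b : ℕ}
    {seq : List ℕ} {O n x : ℕ} (h : InOrb A b x) (h' : growU nets ws seq O n x = true) : InOrb A b O := by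
  induction n generalizing x with
  | zero => exact absurd h' Bool.false_ne_true
  | succ n ih =>
    cases e : subB O x
    · exact ih (h.grow hv hws seq) (by simpa only [growU, e, forceB_eq] using h')
    · exact h.sub e

theorem rels_of_B {K : ℕ} (hN : N ≤ 2 ^ K) {rels : List (List ℕ × List ℕ)} (h : relsOnB nets N K rels 0 K = true) :
    ∀ r ∈ rels, wval nets.perm r.1 = wval nets.perm r.2 :=
  wval_eq_of_relsOn hv hN (relsOn_of_B _ _ _ _ _ _ _ (by simp) h)

theorem pigeon {H K : Subgroup (Perm ℕ)} [Finite H] (hK : K ≤ H) {n : ℕ} (hH : ∀ i < n, nets.perm i ∈ H)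
    {Kp m r p q lo len t f : ℕ} (hm : Nat.card K = m) (hr : Nat.card H = r * m) (hp : p.Prime) (hq : q.Prime)
    (hO : Inv H (ivl lo len)) {dP dR : PC} {seq : List ℕ} {sp : List (List ℕ × Cert)} {Ls : List (List (List ℕ))}
    (h₀ : (decide (N ≤ 2 ^ Kp ∧ ¬ q ∣ r ∧ r < pcN dR ∧ ¬ len ∣ m ∧ 0 < len) && (pcG dP).all (lt n) &&
      (pcG dR).all (lt n) && pcOK dP && pcOK dR && dP.all (fun e => Nat.beq e.2.1 q) &&
      dR.all (fun e => Nat.beq e.2.1 p) && relsOnB nets N Kp (pcR dP) 0 Kp && relsOnB nets N Kp (pcR dR) 0 Kp) = true)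
    (h₁ : (NW dR).all (nwB nets p t lo len f (pcG dP) seq sp) = true)
    (h₂ : sp.all (spB nets N Kp n m (pcG dP) Ls) = true) : ∃ L ∈ Ls, Cj H K (gp nets.perm L) := by
  simp only [Bool.and_eq_true, decide_eq_true_eq] at h₀
  obtain ⟨⟨⟨⟨⟨⟨⟨⟨⟨a₁, a₂, a₃, a₄, a₅⟩, b₁⟩, b₂⟩, b₃⟩, b₄⟩, b₅⟩, b₆⟩, b₇⟩, b₈⟩ := h₀
  obtain ⟨u, hu, hP⟩ := cj_of_isPGroup hK (gp_le.2 (mem_of_all_lt hH b₁)) hq
    (isPGroup_pc (rels_of_B hv a₁ b₇) b₃ b₅) (hm ▸ hr) a₂
  suffices ∃ L ∈ Ls, Cj H (K.comap (MulAut.conj u).toMonoidHom) (gp nets.perm L) from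
    this.imp fun _ h => ⟨h.1, h.2.trans hu⟩
  rw [← card_comap_conj K u] at hm
  have hK' : K.comap (MulAut.conj u).toMonoidHom ≤ H := fun g hg => by
    simpa [mul_assoc] using H.mul_mem (H.mul_mem (H.inv_mem hu) (hK hg)) hu
  replace hP : gp nets.perm (pcG dP) ≤ K.comap (MulAut.conj u).toMonoidHom := hP
  generalize K.comap (MulAut.conj u).toMonoidHom = K at hm hK' hP
  have : Finite K := Finite.of_injective _ (Subgroup.inclusion_injective hK')
  obtain ⟨w, hw, w₁, w₂, w₃⟩ := exists_nw_mem hK' (mem_of_all_lt hH b₂) (rels_of_B hv a₁ b₈) b₄ hp b₆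
    (by rw [hr, ← hm]; exact Nat.mul_lt_mul_of_pos_right a₃ Nat.card_pos)
  have hL : gp nets.perm (w :: pcG dP) ≤ K := gp_le.2 (List.forall_mem_cons.2 ⟨w₂, gp_le.1 hP⟩)
  have h := List.all_eq_true.1 h₁ w hw
  have e₁ : Nat.beq (appW nets (rep p w) t) t = true :=
    Nat.beq_eq ▸ Nat.eq_of_testBit_eq fun i => by rw [testBit_appW hv, wval_rep, w₃]; rfl
  cases e₂ : sp.any fun s => s.1 == w
  · simp only [nwB, e₁, e₂, beq_eq_false_iff_ne.2 w₁] at h
    have := dvd_of_orbit hL (ms_ivl _ _ ▸ ⟨le_rfl, by omega⟩) (inOrb_growU hv (fun _ => mem_gp) (inOrb_pt _ _) h)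
      fun g hg => hO g (hK' hg)
    simp [ms_ivl, hm, a₄] at this
  obtain ⟨⟨_, c⟩, hs, e⟩ := List.any_eq_true.1 e₂
  obtain rfl := eq_of_beq e
  have h := List.all_eq_true.1 h₂ _ hs
  cases c with
  | good i t vs =>
    simp only [spB, Bool.and_eq_true, decide_eq_true_eq, Nat.beq_eq] at h
    have hi : Ls.getD i [] ∈ Ls := by rw [List.getD_eq_getElem _ _ h.1.2]; exact List.getElem_mem _
    generalize Ls.getD i [] = L at h hi
    refine ⟨L, hi, _, mem_of_lt hH h.1.1.1, fun g hg =>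
      (gp_le (K := K.comap (MulAut.conj _).toMonoidHom)).2 (fun l hl => ?_) hg⟩
    obtain ⟨j, hj, rfl⟩ := List.mem_iff_getElem.1 hl
    have := rels_of_B hv a₁ h.2 _ (List.mem_iff_getElem.2 ⟨j, by simp [h.1.1.2, hj], rfl⟩)
    simp only [List.getElem_zipWith, wval_append] at this
    simpa [this] using hL (subst_mem_gp _ _)
  | bad b seq =>
    simp only [spB, forceB_eq, Bool.and_eq_true, Bool.not_eq_true', ← Bool.not_eq_true, Nat.beq_eq] at h
    have := (dvd_of_orbit le_rfl h.1.1.1 ((inOrb_pt _ b).grow hv (fun _ => mem_gp) seq) (inv_gp hv h.1.1.2)).trans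
      (Subgroup.card_dvd_of_le hL)
    rw [popc_ncard, Set.inter_eq_left.2 (ms_ones N ▸ ms_subB h.1.2)] at h
    exact absurd (Nat.mod_eq_zero_of_dvd (hm ▸ this)) h.2

end

end Cfsg.Agent.Lib.Rk3PH
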