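import Mathlib
import Cfsg.Agent.Lib.ZStar2
import Cfsg.Agent.Lib.FTBase5

/-!
A `2`-group `Q` acting on `N` with `C_N(Q) = C_N(t)` for some `t ∈ Z(Q) ∩ Q'`.
-/

set_option autoImplicit false

namespace Cfsg.Agent.Lib.SharedCent

open scoped commutatorElement
open Subgroup Cfsg.Agent.Lib.PCoreConj Cfsg.Agent.Lib.PCore Cfsg.Agent.Lib.FTDefs

variable {G : Type*} [Group G] {N Q : Subgroup G} {t : G}

theorem isolated [hN : N.Normal] (hG : Q ⊔ N = ⊤) (hZ : t ∈ C[Q]) (hQ : t ∈ ⁅Q, Q⁆)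
    (hC : N ⊓ C[Q] = N ⊓ c[t]) : IsIsolated t := fun g hg => by
  obtain ⟨n, hn, q, hq, rfl⟩ := (mem_sup_iff_of_le_normalizer' (le_normalizer_of_normal : Q ≤ N[N])).1
    (sup_comm Q N ▸ hG ▸ mem_top g)
  have e : n * q * t * (n * q)⁻¹ = n * t * n⁻¹ := by rw [mul_assoc n, hZ q hq]; group
  rw [e] at hg ⊢
  have Qt : Q ≤ c[t] := fun a ha => mem_cent1.2 (hZ a ha)
  have key : ∀ m ∈ N, Commute t (m * t * m⁻¹) → ∀ a ∈ Q, a⁻¹ * (m⁻¹ * a * m) ∈ C[Q] := fun m hm c a ha => by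
    have tQ : t ∈ Q := commutator_le_left_of_le_normalizer le_normalizer hQ
    have c1 : t⁻¹ * (m * t * m⁻¹) ∈ N ⊓ C[Q] := hC ▸ mem_inf.2 ⟨by
      simpa only [inv_inv, mul_assoc] using mul_mem (hN.conj_mem m hm t⁻¹) (inv_mem hm),
      mul_mem (inv_mem (self_mem_cent1 t)) (mem_cent1.2 c.symm)⟩
    have c2 := mul_mem hZ c1.2 a ha
    rw [mul_inv_cancel_left] at c2
    refine (hC ▸ mem_inf.2 ⟨by
      simpa only [inv_inv, mul_assoc] using mul_mem (hN.conj_mem _ (inv_mem hm) a⁻¹) hm,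
      mul_mem (inv_mem (Qt ha)) (mem_cent1.2 ?_)⟩ : _ ∈ N ⊓ C[Q]).2
    calc _ = m⁻¹ * (a * (m * t * m⁻¹)) * m := by group
      _ = _ := by rw [c2]; group
  have k1 := key n hn hg
  have k2 := key n⁻¹ (inv_mem hn) (by simpa [mul_assoc] using (hg.conj n⁻¹).symm)
  have : ⁅Q, Q⁆ ≤ c[n] := commutator_le.2 fun a ha b hb => by
    have a2 : Commute b (a⁻¹ * (n⁻¹ * a * n)) := k1 a ha b hb
    have b1 : Commute a (b⁻¹ * (n⁻¹ * b * n)) := k1 b hb a ha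
    have d : Commute (n⁻¹ * a * n) (b⁻¹ * (n⁻¹ * b * n)) := by
      convert (show Commute a _ from k2 b hb a ha).inv_right.conj n⁻¹ using 1 <;> group
    replace d := b1.inv_left.mul_left d
    obtain ⟨x, hx⟩ : ∃ x, x = a⁻¹ * (n⁻¹ * a * n) := ⟨_, rfl⟩
    obtain ⟨y, hy⟩ : ∃ y, y = b⁻¹ * (n⁻¹ * b * n) := ⟨_, rfl⟩
    rw [← hx] at a2 d
    rw [← hy] at b1 d
    rw [mem_cent1]
    calc _ = n * (a * (x * (b * y) * x⁻¹) * a⁻¹ * y⁻¹ * b⁻¹) := by
          rw [hx, hy, commutatorElement_def]; group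
      _ = n * (a * b * (y * a⁻¹ * y⁻¹) * b⁻¹) := by rw [(a2.symm.mul_right d).mul_inv_cancel]; group
      _ = _ := by rw [b1.symm.inv_right.mul_inv_cancel, commutatorElement_def]
  rw [← mem_cent1.1 (this hQ), mul_inv_cancel_right]

theorem comm_le [Finite G] [hN : N.Normal] (hG : Q ⊔ N = ⊤) (h2 : IsPGroup 2 Q) (hZ : t ∈ C[Q])
    (hQ : t ∈ ⁅Q, Q⁆) (hC : N ⊓ C[Q] = N ⊓ c[t]) : ⁅N, Q⁆ ≤ pPrimeCore 2 G := by
  have iso := isolated hG hZ hQ hC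
  obtain ⟨k, hk⟩ := h2 ⟨t, commutator_le_left_of_le_normalizer le_normalizer hQ⟩
  have hk : t ^ 2 ^ k = 1 := congrArg Subtype.val hk
  have z := ZStar2.zstar' k G t hk iso
  have nO : (pPrimeCore 2 G ⊓ N).Normal := inferInstance
  have co : ∀ s : G, s ^ 2 ^ k = 1 → (Nat.card ↥(pPrimeCore 2 G ⊓ N)).Coprime (Nat.card (zpowers s)) :=
    fun s hs => by
      rw [Nat.card_zpowers]
      exact (((PCoreResidual.coprime_card_pPrimeCore 2 G).coprime_dvd_left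
        (card_dvd_of_le inf_le_left)).pow_right k).coprime_dvd_right (orderOf_dvd_of_pow_eq_one hs)
  refine commutator_le.2 fun n hn q hq => ?_
  obtain ⟨o, ho, e⟩ := (SDP.of_coprime le_normalizer_of_normal (co t hk)).exists_le_conj (co t hk)
    (U := zpowers (n * t * n⁻¹)) (zpowers_le.2 (by
      rw [← inv_mul_cancel_right (n * t * n⁻¹) t]
      exact mul_mem (mem_sup_left (mem_inf.2 ⟨z n, by
        simpa only [mul_assoc] using mul_mem hn (hN.conj_mem _ (inv_mem hn) t)⟩))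
        (mem_sup_right (mem_zpowers t)))) (co _ (by rw [conj_pow, hk]; simp))
    (Or.inr (solv_of_comm (comm_of_cyclic inferInstance)))
  have c := iso (o⁻¹ * n) (by
    have := mem_conj_iff.1 (e (mem_zpowers _))
    exact (comm_of_mem_zpowers (by simpa only [mul_inv_rev, inv_inv, mul_assoc] using this) rfl).symm)
  have c' : o⁻¹ * n ∈ N ⊓ C[Q] := hC ▸ mem_inf.2 ⟨mul_mem (inv_mem ho.2) hn,
    mem_cent1.2 (mul_inv_eq_iff_eq_mul.1 c)⟩
  have : ⁅n, q⁆ = o * (q * o⁻¹ * q⁻¹) := by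
    calc _ = o * (o⁻¹ * n * q) * (o⁻¹ * n)⁻¹ * o⁻¹ * q⁻¹ := by rw [commutatorElement_def]; group
      _ = _ := by rw [← c'.2 q hq]; group
  exact this ▸ mul_mem ho.1 (Normal.conj_mem inferInstance _ (inv_mem ho.1) q)

end Cfsg.Agent.Lib.SharedCent
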