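import Cfsg.Agent.Lib.SuzS2
import Cfsg.Agent.Lib.SuzMH
import Cfsg.Agent.Lib.SuzHC
import Cfsg.Agent.Lib.SuzG3

/-! The amalgam in a group of Suzuki sporadic type. -/

set_option autoImplicit false
set_option maxRecDepth 100000

namespace Cfsg.Agent.Lib.SuzS3

open Subgroup Cfsg.Agent.Lib.PermNet Cfsg.Agent.Lib.Words Cfsg.Agent.Lib.PermGroup Cfsg.Agent.Lib.DCE
  Cfsg.Agent.Lib.BT Cfsg.Agent.Lib.SuzMQ Cfsg.Agent.Lib.SuzMH Cfsg.Agent.Lib.SuzS2

variable {G : Type*} [Group G] {z g : G} {f : ℕ → G}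

theorem d8 [Finite G] {X : Subgroup G} {a b t n : G} (ha : a ∈ X) (hb : b ∈ X) (ht : t ∈ X)
    (hn : ∀ u ∈ X, n * u * n⁻¹ ∈ X) (aa : a * a = 1) (bb : b * b = 1) (hz : a * b * (a * b) = z)
    (zz : z * z = 1) (z1 : z ≠ 1) (hc : ∀ g ∈ X, g * z = z * g → g ∈ closure {a, b})
    (tz : t * z * t⁻¹ = z * a) (na : n * a * n⁻¹ = b) (nb : n * b * n⁻¹ = a) (nz : n * z * n⁻¹ = z) :
    ∃ c ∈ X, c * c = 1 ∧ a * c = c * a ∧ c * z * c = z * a ∧ (b * c) ^ 3 = 1 ∧
      ((c * (n * c * n⁻¹)) ^ 3 = 1 ∨ (c * (n * c * n⁻¹ * b)) ^ 3 = 1 ∨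
        (a * (b * (c * (n * c * n⁻¹)))) ^ 4 = 1) := by
  have hzX : z ∈ X := hz ▸ mul_mem (mul_mem ha hb) (mul_mem ha hb)
  obtain ⟨δ, S, e0, e1⟩ := SuzG3.exists_setup (a := (⟨a, ha⟩ : X)) (b := ⟨b, hb⟩) (z := ⟨z, hzX⟩)
    (Subtype.ext aa) (Subtype.ext bb) (Subtype.ext hz) (Subtype.ext zz)
    (fun e => z1 (congrArg Subtype.val e)) fun g hg => by
      have := hc g g.2 (congrArg Subtype.val hg)
      rw [show ({a, b} : Set G) = X.subtype '' {⟨a, ha⟩, ⟨b, hb⟩} by simp [Set.image_pair],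
        ← MonoidHom.map_closure] at this
      obtain ⟨k, hk, e⟩ := this
      exact Subtype.ext (p := (· ∈ X)) e ▸ hk
  obtain ⟨c, c1, c2, c3, c4⟩ := SuzG3.exists_c S (t := ⟨t, ht⟩) (by rw [e0]; exact Subtype.ext tz)
  have := SuzG3.d8rel S c1 c2 c3 c4 (d := ⟨_, hn c c.2⟩)
  rw [e0] at c2 c3
  rw [e1] at c4
  rw [e0, e1] at this
  replace c1 : c.1 * c = 1 := congrArg Subtype.val c1
  replace c2 : a * c = c * a := congrArg Subtype.val c2
  replace c3 : c * z * c = z * a := congrArg Subtype.val c3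
  replace c4 : (b * c) ^ 3 = 1 := congrArg Subtype.val c4
  refine ⟨c, c.2, c1, c2, c3, c4, (this (Subtype.ext ?_) (Subtype.ext ?_) (Subtype.ext ?_)
    (Subtype.ext ?_)).imp (congrArg Subtype.val) (Or.imp (congrArg Subtype.val) (congrArg Subtype.val))⟩
  · change n * c * n⁻¹ * (n * c * n⁻¹) = 1
    rw [conj_mul, c1]; simp
  · change b * (n * c * n⁻¹) = n * c * n⁻¹ * b
    rw [← na, conj_mul, conj_mul, c2]
  · change n * c * n⁻¹ * z * (n * c * n⁻¹) = z * b
    rw [← na, ← nz, conj_mul, conj_mul, conj_mul, c3]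
  · change (a * (n * c * n⁻¹)) ^ 3 = 1
    rw [← nb, conj_mul, conj_pow, c4]; simp

theorem am_exp {F : ℕ → G} {t : G} {n m : ℕ} {E us vs : List (List ℕ)} (hF : ∀ i < n, f i = F i)
    (hE : ∀ i < m, wval F [2 * i] = wval F (getW E i)) (h : Cj t F us vs) (ht : t * t = 1)
    {rs : List (List (List ℕ))} (hr : ∀ cs ∈ rs, tv t F cs = 1) {R : List (List ℕ)}
    (hb : (us.all (lt2 m) && vs.all (lt2 m) && rs.all (·.all (lt2 m)) &&
      ((us.map (subst E)).all (lt2 n) && (vs.map (subst E)).all (lt2 n) &&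
        (rs.map (·.map (subst E))).all (·.all (lt2 n))) &&
      R == amRels n (us.map (subst E)) (vs.map (subst E)) (rs.map (·.map (subst E)))) = true) :
    ∀ w ∈ R, wval (Function.update f n t) w = 1 := by
  simp only [Bool.and_eq_true, beq_iff_eq] at hb
  obtain ⟨⟨⟨⟨b1, b2⟩, b3⟩, b4⟩, rfl⟩ := hb
  have k1 : ∀ w, lt2 m w = true → wval F (subst E w) = wval F w := fun w hw => by
    rw [wval_subst]
    exact wval_congr (n := m) (fun i hi => by rw [← getW_eq, ← hE i hi, wval_single]) (by simpa using hw)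
  have k2 : ∀ l : List (List ℕ), l.all (lt2 m) = true → ∀ i,
      wval F ((l.map (subst E)).getD i []) = wval F (l.getD i []) := fun l hl i => by
    rw [show (l.map (subst E)).getD i [] = subst E (l.getD i []) from List.getD_map l [] (subst E)]
    refine k1 _ ?_
    rw [← getW_eq]
    rcases getW_mem_or l i with h | h
    · exact List.all_eq_true.1 hl _ h
    · rw [h]; rfl
  refine amRels_one hF (fun i => by rw [k2 _ b1, k2 _ b2, h i]) ht (fun cs hcs => ?_)
    (by simpa only [Bool.and_eq_true] using b4)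
  obtain ⟨ds, hds, rfl⟩ := List.mem_map.1 hcs
  rw [← hr ds hds, tv, tv, List.map_map]
  exact congrArg _ (List.map_congr_left fun c hc =>
    congrArg (t * ·) (k1 c (List.all_eq_true.1 (List.all_eq_true.1 b3 ds hds) c hc)))

/-- The faithful model of the centraliser. -/
abbrev MH (z : G) (f : ℕ → G) := Model (FF f) (centralizer {z}) ⊥ (nat_lit 1944) (nat_lit 11)
  (nat_lit 2047) htt B2 3317760

theorem model (B : SB z f g) : ∃ M : MH z f, M.Ch (centralizer {z}) hch ∧ M.Ch (centralizer {z}) hch2 ∧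
    ∀ c (hc : c ∈ centralizer {z}), c * FF f 0 = FF f 0 * c →
      ∀ b ∈ (hch.take 1).map Lv.b, M.π ⟨c, hc⟩ b = b := by
  obtain ⟨M⟩ := hTM.fmodel B.top B.rel hK (fun z => SuzHTC.card_le z) B.card.ge
  let M' := M.rebase B2 (by decide +kernel)
  refine ⟨M', M'.ch_top _ (by rw [SuzMH.hc]; decide +kernel), M'.ch_top _ (by rw [hc2]; decide +kernel),
    fun c hc e => List.forall_mem_singleton.2 (M'.fix_pt (M'.link ((SuzS1.top_ext _).trans B.top)
      (by decide) sw hlk) B.inj hc (b := 0) (by decide) ?_)⟩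
  rwa [← s0] at e

def E : List (List ℕ) := [[0], [2], [4], [6], [8], [10], [12], [14], [16], [18], [20], [22],
  [15, 0, 21, 18, 17, 10, 18, 21, 15], [18, 16, 19, 21, 18, 15, 17, 14, 10], [28],
  [2, 20, 17, 18, 17, 14, 17, 19, 14], [16, 0, 19, 17], [17, 14, 18, 17, 14, 17, 19, 16, 0]]

theorem exists_t [Finite G] (B : SB z f g) :
    ∃ t, t ∉ centralizer {z} ∧ ∀ w ∈ SuzHD.RR, wval (Function.update f 11 t) w = 1 := by
  obtain ⟨M, ch, -, fx⟩ := model B
  have hm : ∀ {g}, g * z = z * g → g ∈ centralizer {z} := mem_centralizer_singleton_iff.2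
  have w1 := wval_single (FF f)
  have z6 := (w1 6).trans B.z6
  have zz : z * z = 1 := by simpa [wval, lval, B.z6] using M.one [12, 12] (by decide +kernel)
  have bb : FF f 1 * FF f 1 = 1 := by simpa [wval, lval] using M.one [2, 2] (by decide +kernel)
  have aa : FF f 0 * FF f 0 = 1 := by simpa [wval, lval] using M.one [0, 0] (by decide +kernel)
  have za : wval (FF f) [12, 0] = z * FF f 0 := by simp [wval, lval, B.z6]
  have mX : ∀ {c}, c ∈ centralizer {FF f 12, FF f 13} ↔ FF f 12 * c = c * FF f 12 ∧ FF f 13 * c = c * FF f 13 := by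
    simp [mem_centralizer_iff]
  have t0 : g * FF f 1 * g⁻¹ * z * (g * FF f 1 * g⁻¹)⁻¹ = z * FF f 0 := by
    have : FF f 1 * FF f 0 * (FF f 1)⁻¹ = FF f 0 * z := by
      simpa [wval, lval, B.z6] using M.cj [2] [0] [0, 12] (by decide +kernel)
    calc _ = g * FF f 1 * g⁻¹ * (g * FF f 0 * g⁻¹) * (g * FF f 1 * g⁻¹)⁻¹ := by rw [B.ga]
      _ = g * (FF f 1 * FF f 0 * (FF f 1)⁻¹) * g⁻¹ := by group
      _ = _ := by rw [this, ← conj_mul, B.ga, B.gz]
  have t1 : g * FF f 1 * g⁻¹ ∈ centralizer {FF f 12, FF f 13} := by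
    have t1 := conj_act B.gx (u := FF f 1) (e := 1) (by
      simpa [wval, lval] using M.cj [2] [24] [24] (by decide +kernel))
    have t2 : g * FF f 1 * g⁻¹ * FF f 0 = FF f 0 * (g * FF f 1 * g⁻¹) := by
      rw [← B.gz, conj_mul, conj_mul, mem_centralizer_singleton_iff.1 (M.lmem 1)]
    have t3 : g * FF f 1 * g⁻¹ * (g * FF f 1 * g⁻¹) = 1 := by rw [conj_mul, bb]; simp
    generalize g * FF f 1 * g⁻¹ = t at *
    rw [zpow_one, mul_inv_eq_iff_eq_mul] at t1
    have C : Cj t (FF f) [[24], [12, 0], [0]] [[24], [12], [0]] :=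
      .cons (by rwa [w1 12]) (.cons (by
        rw [za, z6, ← t0, ← mul_assoc, ← mul_assoc, t3, one_mul, inv_eq_of_mul_eq_one_right t3])
        (.cons (by rwa [w1 0]) .nil))
    obtain ⟨u, hu, e⟩ := M.find1 ch s_y (by decide)
      (hm (z6 ▸ C.comm (r := wval (FF f) [26]) [2] (M.comm _ _ (by decide +kernel))))
      (fx _ _ (w1 0 ▸ C.comm [4] (M.comm _ _ (by decide +kernel)))) .nil
      (C.transport [26] 500 [[2, 0, 2, 0], [0, 0, 0]] (M.rels _ (by decide +kernel)) (by decide)) (by simp)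
    have key : ∀ i, u = rep i [24] ++ [26] ++ invW (rep i [24]) → wval (FF f) [26] =
        wval (FF f) (rep i [24] ++ u ++ invW (rep i [24])) := fun i hi => by
      have h1 : t * FF f 12 ^ i = FF f 12 ^ i * t := (Commute.pow_right t1 i).eq
      rw [wval_append, wval_append, wval_invW, wval_rep, w1 12, ← id_eq u, ← e]
      rw [hi, id, wval_append, wval_append, wval_invW, wval_rep, w1 12] at e
      calc _ = t * (t * wval (FF f) [26] * t⁻¹) * t⁻¹ := by
            rw [← mul_assoc, ← mul_assoc, t3, one_mul, mul_assoc, ← mul_inv_rev, t3, inv_one, mul_one]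
        _ = t * FF f 12 ^ i * wval (FF f) [26] * (t * FF f 12 ^ i)⁻¹ := by rw [e]; group
        _ = _ := by rw [h1]; group
    have := memLL_mem hu
    simp only [List.mem_cons, List.not_mem_nil, or_false] at this
    rcases this with rfl | rfl | rfl | rfl | rfl
    · exact mX.2 ⟨t1.symm, w1 13 ▸ (mul_inv_eq_iff_eq_mul.1 e).symm⟩
    · exact absurd (key 1 rfl) (M.ne _ _ (by decide +kernel))
    · exact absurd (key 2 rfl) (M.ne _ _ (by decide +kernel))
    · exact absurd (key 3 rfl) (M.ne _ _ (by decide +kernel))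
    · exact absurd (key 4 rfl) (M.ne _ _ (by decide +kernel))
  obtain ⟨t, tX, tt, ta, tz, tb, h3⟩ := d8 (z := z) (a := FF f 0) (b := FF f 1) (n := FF f 15)
    (mX.2 ⟨by simpa [wval, lval] using M.comm [24] [0] (by decide +kernel),
      by simpa [wval, lval] using M.comm [26] [0] (by decide +kernel)⟩)
    (mX.2 ⟨by simpa [wval, lval] using M.comm [24] [2] (by decide +kernel),
      by simpa [wval, lval] using M.comm [26] [2] (by decide +kernel)⟩) t1
    (fun u hu => by
      have key : ∀ i w, (band (allL (okL [12, 13]) w) (fixW (nat_lit 11) (nat_lit 2047) htt B2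
          (([30] ++ w ++ invW [30]) ++ invW [2 * i]))) = true →
          FF f i * (FF f 15 * u * (FF f 15)⁻¹) = FF f 15 * u * (FF f 15)⁻¹ * FF f i := fun i w e => by
        rw [← w1 i, ← M.cj _ _ _ (band_eq e).2, w1 15, conj_mul, conj_mul,
          comm_word [12, 13] (by simpa using mX.1 hu) (band_eq e).1]
      exact mX.2 ⟨key 12 [24, 24, 24] (by decide +kernel),
        key 13 [24, 24, 24, 26, 26, 24, 24, 26] (by decide +kernel)⟩)
    aa bb (by simpa [wval, lval, B.z6, mul_assoc] using M.eq [0, 2, 0, 2] [12] (by decide +kernel)) zz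
    (z6 ▸ M.ne_one [12] (by decide +kernel))
    (fun c hc e => by
      obtain ⟨u, hu, e⟩ := M.find1 ch s_c (by decide) (hm e) (by simp)
        (comm_pairs _ (by simpa [w1 12, w1 13, eq_comm] using mX.1 hc)) (by simp) (by simp)
      exact e ▸ mem_word [0, 1] (by simp [Subgroup.mem_closure_of_mem]) hu) t0
    (by simpa [wval, lval] using M.cj [30] [0] [2] (by decide +kernel))
    (by simpa [wval, lval] using M.cj [30] [2] [0] (by decide +kernel))
    (by simpa [wval, lval, B.z6] using M.cj [30] [12] [12] (by decide +kernel))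
  have c1 : t * wval (FF f) [24] = wval (FF f) [24] * t := w1 12 ▸ (mX.1 tX).1.symm
  have c2 : t * wval (FF f) [26] = wval (FF f) [26] * t := w1 13 ▸ (mX.1 tX).2.symm
  have c3 : Cj t (FF f) [[12, 0], [0]] [[12], [0]] :=
    .cons (by rw [za, z6, ← tz, ← mul_assoc, ← mul_assoc, tt, one_mul]) (.cons (w1 0 ▸ ta.symm) .nil)
  have C1 := Cj.cons c1 (.cons c2 c3)
  obtain ⟨u, hu, e⟩ := M.find1 ch s_r (by decide)
    (hm (z6 ▸ C1.comm (r := wval (FF f) [4]) [4] (M.comm _ _ (by decide +kernel))))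
    (fx _ _ (w1 0 ▸ C1.comm [6] (M.comm _ _ (by decide +kernel))))
    (comm_pairs _ (List.forall_mem_cons.2 ⟨C1.comm [2] (M.comm _ _ (by decide +kernel)),
      List.forall_mem_singleton.2 (C1.comm [0, 0, 2, 2, 0, 2] (M.comm _ _ (by decide +kernel)))⟩))
    (C1.transport [4] 500 [[0, 2, 0, 3, 1, 2, 1, 3, 8, 7], [0, 2, 0, 2, 0, 2, 0, 2, 0, 2]]
      (M.rels _ (by decide +kernel)) (by decide)) (by simp)
  rw [List.mem_singleton.1 (memLL_mem hu), id] at e
  have C : Cj t (FF f) us vs := .cons c1 (.cons c2 (.cons (by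
    rw [← e, ← mul_assoc, ← mul_assoc, tt, one_mul, inv_eq_of_mul_eq_one_right tt])
    (.cons (mul_inv_eq_iff_eq_mul.1 e) c3)))
  have tH : t ∉ centralizer {z} := fun h => by
    rw [mem_centralizer_singleton_iff.1 h, mul_assoc, tt, mul_one, left_eq_mul] at tz
    exact M.ne_one [0] (by decide +kernel) ((w1 0).trans tz)
  have am := @am_exp _ _ f _ t 11 18 E _ _ (fun i hi => (ext_of_lt _ hdefs hi).symm)
    (fun i hi => M.eq _ _ ((by decide +kernel : ∀ i < 18, fixW (nat_lit 11) (nat_lit 2047) htt B2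
      ([2 * i] ++ invW (getW E i)) = true) i hi)) C tt
  have hK : ∀ w ∈ SuzHD.K1, wval (Function.update f 11 t) w = 1 := fun w hw =>
    (wval_upd t (List.all_eq_true.1 (by decide +kernel : SuzHD.K1.all (lt2 11) = true) w hw)).trans (B.rel w hw)
  have no : Function.update f 11 t 11 ∉ gp (Function.update f 11 t) (sing 11) := by
    rwa [gp_congr (n := 11) (z := f) (fun _ hi => Function.update_of_ne hi.ne _ _) (by decide), B.top,
      Function.update_self]
  have r1 : tv t (FF f) (List.replicate 3 [[2]]).flatten = 1 := by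
    rw [tv_rep]; simpa [tv, w1 1] using pow_swap tb
  have n1 : wval (FF f) [31] = (FF f 15)⁻¹ := by simp [wval, lval]
  refine ⟨t, tH, ?_⟩
  rcases h3 with h3 | h3 | h3
  · refine absurd (SuzHC.colzb _ hK (am (R := _) (rs := [_, (List.replicate 3 [[30], [31]]).flatten])
      (List.forall_mem_cons.2 ⟨r1, List.forall_mem_singleton.2 ?_⟩) (by decide +kernel))) no
    rw [tv_rep, ← h3]; simp [tv, wval, lval, mul_assoc]
  · refine absurd (SuzHC.colzc _ hK (am (R := _) (rs := [_, (List.replicate 3 [[30], [31, 2]]).flatten])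
      (List.forall_mem_cons.2 ⟨r1, List.forall_mem_singleton.2 ?_⟩) (by decide +kernel))) no
    rw [tv_rep, ← h3]; simp [tv, wval, lval, mul_assoc]
  have kk : ∀ k st, tchain (nat_lit 11) (nat_lit 2047) htt B2 us vs k st (fun k' =>
      fixW (nat_lit 11) (nat_lit 2047) htt B2 (k' ++ invW k)) = true →
      st.map Prod.fst = (List.replicate 4 [[32]]).flatten → tv t (FF f) (List.replicate 4 [[32]]).flatten *
        wval (FF f) k = wval (FF f) k * tv t (FF f) (List.replicate 4 [[32]]).flatten :=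
    fun k st h e => e ▸ M.tchain_comm C k st k h
  obtain ⟨u, hu, e⟩ := M.find1 ch s_w (by decide) (hm (z6 ▸ kk _ _ tc0 rfl)) (fx _ _ (w1 0 ▸ kk _ _ tc1 rfl))
    (comm_pairs _ (List.forall_mem_cons.2 ⟨kk _ _ tc2 rfl, List.forall_mem_cons.2 ⟨kk _ _ tc3 rfl,
      List.forall_mem_cons.2 ⟨kk _ _ tc4 rfl, List.forall_mem_singleton.2 (kk _ _ tc5 rfl)⟩⟩⟩))
    (by simp) (by simp)
  rw [id] at e
  have := M.tfilter C _ _ _ tf hu (by rw [← e, tv_rep]; exact (Commute.self_pow _ 4).eq)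
  simp only [List.mem_cons, List.not_mem_nil, or_false] at this
  rcases this with rfl | rfl
  · refine am (R := _) (rs := [_, _, (List.replicate 4 [[30], [31, 0, 2]]).flatten]) (List.forall_mem_cons.2
      ⟨r1, List.forall_mem_cons.2 ⟨e, List.forall_mem_singleton.2 ?_⟩⟩) (by decide +kernel)
    rw [← mul_assoc] at h3
    rw [tv_rep, ← pow_swap h3]; simp [tv, wval, lval, mul_assoc]
  · refine absurd (SuzHC.colzd _ hK (am (R := _) (rs := [_, [[32], [32], [32], [32, 0, 4, 34]]])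
      (List.forall_mem_cons.2 ⟨r1, List.forall_mem_singleton.2 ?_⟩) (by decide +kernel))) no
    rw [← M.one ([0, 4, 34] ++ [0, 4, 34]) (by decide +kernel), wval_append]
    nth_rw 1 [← e]
    simp [tv, wval, mul_assoc]

end Cfsg.Agent.Lib.SuzS3
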