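import Cfsg.Agent.Lib.SuzS3
import Cfsg.Agent.Lib.SuzMS
import Cfsg.Agent.Lib.SuzG2
import Cfsg.Agent.Lib.SuzA

/-! A group of Suzuki sporadic type is the Suzuki group. -/

set_option autoImplicit false
set_option maxRecDepth 100000

namespace Cfsg.Agent.Lib.SuzS4

open Subgroup Cfsg.Agent.Lib.PermNet Cfsg.Agent.Lib.Words Cfsg.Agent.Lib.PermGroup Cfsg.Agent.Lib.DCE
  Cfsg.Agent.Lib.BT Cfsg.Agent.Lib.SuzMH Cfsg.Agent.Lib.SuzMS Cfsg.Agent.Lib.SuzS2 Cfsg.Agent.Lib.SuzS3

/-- The generators of the amalgam in the Suzuki group. -/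
def φ (i : ℕ) : Spor.Suz := ext SuzBase.y 7 udefs (i + 13)

/-- The permutations. -/
noncomputable abbrev P : ℕ → Equiv.Perm ℕ := tp (nat_lit 1782) (nat_lit 11) (nat_lit 2047) vtt

theorem exists_pi : ∃ π : Spor.Suz →* Equiv.Perm ℕ, ∀ i < 12, π (φ i) = P i := by
  obtain ⟨π, h⟩ := SuzBase.exists_hom _ uK
  exact ⟨π, fun i hi => (map_ext' π _ _ h ud (by decide +kernel) (fun _ hi => uok.one hi) _).trans (uv i hi)⟩

instance : Finite Spor.Suz := Nat.finite_of_card_ne_zero (by rw [SuzA.card_eq]; norm_num)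

theorem top : gp φ (sing 12) = ⊤ := by
  obtain ⟨π, h⟩ := exists_pi
  exact eq_top_of_le_card _ (SuzA.card_eq ▸ vTM.le_card π h)

theorem rels : ∀ w ∈ SuzHD.K1 ++ SuzHD.RR, wval φ w = 1 := fun w hw => by
  obtain ⟨π, h⟩ := exists_pi
  obtain ⟨M⟩ := vTM.hmodel top π h SuzA.card_eq.le
  rw [← wval_ext φ 12 vdefs w (List.all_eq_true.1
    (by decide +kernel : (SuzHD.K1 ++ SuzHD.RR).all (lt2 12) = true) w hw)]
  exact M.rels _ (by decide +kernel) w hw

variable {G : Type*} [Group G] {z g : G} {f : ℕ → G}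

theorem exists_hom {f : ℕ → G} (h : ∀ w ∈ SuzHD.K1 ++ SuzHD.RR, wval f w = 1)
    (ht : f 11 ∉ gp f (sing 11)) : ∃ ι : Spor.Suz →* G, Function.Injective ι ∧ ∀ i < 12, ι (φ i) = f i := by
  let x := fun i => (f i, φ i)
  let y : ℕ → gp x (sing 12) := fun i => if h : i < 12 then ⟨x i, mem_sing x h⟩ else 1
  have hy : ∀ i < 12, (y i).1 = x i := fun i hi => by simp [y, hi]
  have hl : (SuzHD.K1 ++ SuzHD.RR).all (lt2 12) = true := by decide +kernel
  have hr : ∀ w ∈ SuzHD.K1 ++ SuzHD.RR, wval y w = 1 := fun w hw => Subtype.ext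
    ((map_wval (Subgroup.subtype _) y w).trans ((wval_congr hy
      (by simpa using List.all_eq_true.1 hl w hw)).trans (rels_pair h rels w hw)))
  have ty : gp y (sing 12) = ⊤ := by
    apply map_injective (gp x (sing 12)).subtype_injective
    rw [map_gp, ← MonoidHom.range_eq_map, range_subtype]
    exact gp_congr hy (by decide)
  have hK := fun w hw => hr w (List.mem_append_left _ hw)
  let p := (MonoidHom.fst G Spor.Suz).comp (gp x (sing 12)).subtype
  let q := (MonoidHom.snd G Spor.Suz).comp (gp x (sing 12)).subtype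
  have hp : ∀ i < 12, p (y i) = f i := fun i hi => congrArg Prod.fst (hy i hi)
  have hq : ∀ i < 12, q (y i) = φ i := fun i hi => congrArg Prod.snd (hy i hi)
  have h1 : (gp y (sing 11)).index = 135135 := SuzHD.ok.main y (fun w hw => hr w (List.mem_append_right _ hw))
    ty (SuzHC.hub y hK) fun _ e => ht (by
      have := mem_map_of_mem p e
      rwa [map_gp, gp_congr (n := 11) (z := f) (fun i hi => hp i (by omega)) (by decide),
        show p (y SuzHD.dat.n0) = f 11 from hp 11 (by decide)] at this)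
  have h2 := SuzHTC.card_le y hK
  have h3 := (gp y (sing 11)).index_mul_card
  have : Finite (gp x (sing 12)) := Nat.finite_of_card_ne_zero (by rw [← h3, h1]; omega)
  have hs : Function.Surjective q := by
    rw [← MonoidHom.range_eq_top, MonoidHom.range_eq_map, ← ty, map_gp, gp_congr hq (by decide), top]
  have hb := hs.bijective_of_nat_card_le (by rw [SuzA.card_eq, ← h3, h1]; omega)
  have e : ∀ i < 12, p ((MulEquiv.ofBijective q hb).symm (φ i)) = f i := fun i hi => by
    rw [← hq i hi, ← hp i hi]; exact congrArg p ((MulEquiv.ofBijective q hb).symm_apply_apply _)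
  refine ⟨p.comp (MulEquiv.ofBijective q hb).symm.toMonoidHom, ?_, e⟩
  have := SuzA.simple
  refine (MonoidHom.ker_eq_bot_iff _).1 ((MonoidHom.normal_ker _).eq_bot_or_eq_top.resolve_right fun h => ht ?_)
  rw [← e 11 (by decide), show p ((MulEquiv.ofBijective q hb).symm (φ 11)) = 1 from h.ge (mem_top (φ 11))]
  exact one_mem _

theorem cls (B : SB z f g) {v : G} (hv : v ∈ centralizer {z}) (h : v ^ 2 = 1) :
    ∃ k ∈ centralizer {z}, ∃ i < 5, v = k * wval (FF f) (reps.getD i []) * k⁻¹ := by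
  obtain ⟨M, -, ch, -⟩ := model B
  obtain ⟨k, -, hk⟩ := M.pfix ch hc2 (j := 1) Nat.prime_two 2 (by decide +kernel) hv hv h
  obtain ⟨u, hu, e⟩ := M.find1 ch s_i (by decide) (k * ⟨v, hv⟩ * k⁻¹).2 hk .nil
    (List.forall_mem_singleton.2 (by
      rw [wval_cons, wval_cons, lval_upd (nv := 500), wval_nil, mul_one, ← coe_mul, conj_mul, mem_bot]
      simp [← sq, h])) (by simp)
  refine ⟨k⁻¹ * wval (FF f) u.tail, mul_mem (inv_mem k.2) (M.mem _), _, blt_lt hu, ?_⟩
  rw [wval_mkC] at e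
  calc v = k⁻¹ * (k * ⟨v, hv⟩ * k⁻¹ : centralizer {z}) * k := by simp [mul_assoc]
    _ = _ := by rw [e]; simp [mul_assoc]

theorem main [Finite G] (B : SB z f g) : ∃ F : ℕ → G, ∃ π : G →* Equiv.Perm ℕ, (∀ i < 11, F i = f i) ∧
    (∀ i < 12, π (F i) = P i) ∧ gp F (sing 12) = ⊤ ∧ Nonempty (G ≃* Spor.Suz) := by
  obtain ⟨t, tH, hR⟩ := exists_t B
  set F := Function.update f 11 t with hF
  have hf : ∀ i < 11, F i = f i := fun _ hi => Function.update_of_ne hi.ne _ _
  have hH : gp F (sing 11) = centralizer {z} := (gp_congr hf (by decide)).trans B.top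
  obtain ⟨ι, hι, e⟩ := exists_hom (f := F) (List.forall_mem_append.2 ⟨fun w hw => (wval_upd t
    (List.all_eq_true.1 (by decide +kernel : SuzHD.K1.all (lt2 11) = true) w hw)).trans (B.rel w hw), hR⟩)
    (by rwa [hH, hF, Function.update_self])
  have hM : ι.range = gp F (sing 12) := by
    rw [MonoidHom.range_eq_map, ← top, map_gp, gp_congr e (by decide)]
  obtain ⟨π, hπ⟩ := exists_pi
  have cM : Nat.card ι.range = 448345497600 :=
    (Nat.card_congr (MonoidHom.ofInjective hι).toEquiv).symm.trans SuzA.card_eq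
  have hπ' : ∀ i < 12, ∀ h, π ((MonoidHom.ofInjective hι).symm ⟨F i, h⟩) = P i := fun i hi h => by
    rw [← hπ i hi]
    exact congrArg π ((MulEquiv.symm_apply_eq _).2 (Subtype.ext (e i hi).symm))
  suffices h : ι.range = ⊤ by
    have hb : Function.Bijective ι := ⟨hι, MonoidHom.range_eq_top.1 h⟩
    refine ⟨F, π.comp (MulEquiv.ofBijective ι hb).symm.toMonoidHom, hf, fun i hi => ?_, hM ▸ h,
      ⟨(MulEquiv.ofBijective ι hb).symm⟩⟩
    rw [← hπ i hi, ← e i hi]
    exact congrArg π ((MulEquiv.ofBijective ι hb).symm_apply_apply _)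
  obtain ⟨M⟩ := vTM.hmodel' hM.symm (π.comp (MonoidHom.ofInjective hι).symm.toMonoidHom) hπ' cM.le
  have le : centralizer {z} ≤ ι.range := hH ▸ hM ▸ gp_mono (by decide)
  have hi : (centralizer {z}).relIndex ι.range = 135135 := by
    have := ((centralizer {z}).subgroupOf ι.range).index_mul_card
    rw [Nat.card_congr (subgroupOfEquivOfLe le).toEquiv, B.card, cM] at this
    rw [relIndex]; omega
  have hw : ∀ w, lt2 11 w = true → wval (FF f) w = wval (ext F 12 vdefs) w := fun w h =>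
    wval_congr (n := 11) (fun i hi => by rw [ext_of_lt _ _ hi, ext_of_lt _ _ (by omega), hf i hi])
      (by simpa using h)
  have z6 : wval (ext F 12 vdefs) [12] = z := by rw [← hw _ rfl, wval_single _ 6, B.z6]
  have zz : z * z = 1 := by rw [← z6, ← wval_append]; exact M.one _ (by decide +kernel)
  have sq' : ∀ v, IsConj z v → v ^ 2 = 1 := by
    intro v h
    obtain ⟨c, rfl⟩ := isConj_iff.1 h
    rw [conj_pow, sq, zz]; simp
  have key : ∀ v ∈ centralizer {z}, IsConj z v →
      v = z ∨ (∃ m ∈ ι.range, m * z * m⁻¹ = v) ∧ IsConj z (v * z) := fun v hv h => by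
    obtain ⟨k, hk, i, hi, rfl⟩ := cls B hv (sq' v h)
    have kz : k * z * k⁻¹ = z := mul_inv_eq_iff_eq_mul.2 (mem_centralizer_singleton_iff.1 hk)
    have aux : ∀ r a b, wval (ext F 12 vdefs) a * wval (ext F 12 vdefs) [12] * (wval (ext F 12 vdefs) a)⁻¹ =
        wval (ext F 12 vdefs) r → wval (ext F 12 vdefs) b * wval (ext F 12 vdefs) [12] *
          (wval (ext F 12 vdefs) b)⁻¹ = wval (ext F 12 vdefs) (r ++ [12]) →
        (∃ m ∈ ι.range, m * z * m⁻¹ = k * wval (ext F 12 vdefs) r * k⁻¹) ∧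
          IsConj z (k * wval (ext F 12 vdefs) r * k⁻¹ * z) := fun r a b h1 h2 => by
      rw [wval_append, z6] at h2
      refine ⟨⟨k * _, mul_mem (le hk) (M.mem a), by rw [← h1, z6]; group⟩,
        isConj_iff.2 ⟨k * wval (ext F 12 vdefs) b, ?_⟩⟩
      nth_rw 2 [← kz]
      rw [conj_mul, ← h2]; group
    rw [hw _ ((by decide : ∀ i < 5, lt2 11 (reps.getD i []) = true) i hi)] at h ⊢
    interval_cases i
    · exact absurd (z6.trans (by simpa [reps] using h)) (M.ne_one _ (by decide +kernel))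
    · exact .inl (z6 ▸ kz)
    · exact .inr (aux _ [2, 22] [22] (M.cj _ _ _ (by decide +kernel)) (M.cj _ _ _ (by decide +kernel)))
    · exfalso
      obtain ⟨c, hc⟩ := isConj_iff.1 (h.trans (isConj_iff.2 ⟨k⁻¹, (by group : k⁻¹ * (k * wval (ext F 12 vdefs)
        (reps.getD 3 []) * k⁻¹) * k⁻¹⁻¹ = wval (ext F 12 vdefs) (reps.getD 3 []))⟩))
      have h1 := M.comm [23, 26, 28, 5, 28, 9, 31, 31, 35, 38, 35] (reps.getD 3 []) (by decide +kernel)
      have h2 := M.pow [23, 26, 28, 5, 28, 9, 31, 31, 35, 38, 35] 7 (by decide +kernel)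
      have h3 := M.ne_one [23, 26, 28, 5, 28, 9, 31, 31, 35, 38, 35] (by decide +kernel)
      generalize wval (ext F 12 vdefs) [23, 26, 28, 5, 28, 9, 31, 31, 35, 38, 35] = s at h1 h2 h3
      have h4 : c⁻¹ * s * c⁻¹⁻¹ ∈ centralizer {z} := mem_centralizer_singleton_iff.2 (by
        calc _ = c⁻¹ * (s * (c * z * c⁻¹)) * c := by group
          _ = c⁻¹ * (c * z * c⁻¹ * s) * c := by rw [hc, h1]
          _ = _ := by group)
      have := Fact.mk (show Nat.Prime 7 by norm_num)
      have := orderOf_dvd_natCard (⟨_, h4⟩ : centralizer ({z} : Set G))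
      rw [orderOf_eq_prime (p := 7) (Subtype.ext (by simp only [coe_pow, conj_pow, h2]; simp))
        (fun e => h3 (conj_eq_one_iff.1 (congrArg Subtype.val e))), B.card] at this
      exact absurd this (by decide)
    · exact .inr (aux _ (invW [16, 11, 25, 27, 29, 33, 13, 38, 38, 35]) (invW [16, 5, 25, 9, 27, 29, 5, 33, 13, 34, 41]) (M.cj _ _ _ (by decide +kernel)) (M.cj _ _ _ (by decide +kernel)))
  refine SuzG2.eq_top zz (fun g h => le (mem_centralizer_singleton_iff.2 h)) (fun v hv h => ?_)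
    (fun v h h1 h2 => ((key v (mem_centralizer_singleton_iff.2 h1) h).resolve_left h2).2)
    (by rw [hi]; decide) (by rw [cM]; decide) fun a ha b hb a1 b1 ab => by_contra fun hn => ?_
  · obtain ⟨m, hm, h1⟩ := conj_into (H := centralizer {z}) (k := 1) Nat.prime_two (by rw [hi]; decide)
      (zpowers_le.2 hv) (by
        rintro _ ⟨n, rfl⟩
        rw [← zpow_natCast, ← zpow_mul, mul_comm, zpow_mul, zpow_natCast, pow_one, sq' v h, one_zpow])
    rcases key _ (h1 v (mem_zpowers v)) (h.trans (isConj_iff.2 ⟨m, rfl⟩)) with h2 | ⟨⟨k, hk, h2⟩, -⟩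
    · exact ⟨m⁻¹, inv_mem hm, by rw [← h2]; group⟩
    · refine ⟨m⁻¹ * k, mul_mem (inv_mem hm) hk, ?_⟩
      calc _ = m⁻¹ * (k * z * k⁻¹) * m := by group
        _ = _ := by rw [h2]; group
  · rw [not_or] at hn
    have h1 := M.pow [24] 13 (by decide +kernel)
    obtain ⟨k, hk, h2⟩ := SuzG1.sylow_conj (H := ι.range) (p := 13) (by norm_num) (by rw [cM]; decide)
      (M.mem [24]) hb h1 (M.ne_one _ (by decide +kernel)) b1 hn.2
    have hc := mul_mem (mul_mem hk ha) (inv_mem hk)
    obtain ⟨x, hx, u, hu, y, hy, e⟩ := M.solve (M.ch_top vch (by rw [vc]; decide +kernel))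
      (fun _ _ => M.lmem _) s13 hc hc (.inl rfl) (comm_pairs _ (List.forall_mem_singleton.2 (by
        obtain ⟨n, hn⟩ := h2.ge (mem_zpowers _)
        rw [← hn]
        exact (Commute.zpow_right (show Commute (k * a * k⁻¹) (k * b * k⁻¹) by
          rw [Commute, SemiconjBy, conj_mul, conj_mul, ab]) n).eq))) (by simp) (by simp)
    obtain ⟨n, rfl⟩ : x ∈ zpowers (wval (ext F 12 vdefs) [24]) :=
      gp_le.2 (List.forall_mem_singleton.2 (mem_zpowers _)) hx
    rw [List.mem_singleton.1 (memLL_mem hu), mem_bot.1 hy, id, wval_nil, mul_one, mul_one] at e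
    have h3 : (k * a * k⁻¹) ^ 13 = 1 := by
      rw [e, ← zpow_natCast, ← zpow_mul, mul_comm, zpow_mul, zpow_natCast, h1, one_zpow]
    rw [conj_pow, conj_eq_one_iff] at h3
    exact hn.1 (by simpa using pow_gcd_eq_one.2 ⟨a1, h3⟩)

end Cfsg.Agent.Lib.SuzS4
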