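import Cfsg.Agent.Lib.TCDefs

set_option autoImplicit false
set_option maxRecDepth 100000

namespace Cfsg.Agent.Lib.TCHN3
open Cfsg.Agent.Lib.TCCore

noncomputable def l0 : T := .leaf (nat_lit 0) (nat_lit 0xf51050d30bbfff0180e60d60cc0aafff0180b70c70bb099fff0180a80880aa0b2fff0300990b9077091fff0240da0ca066088fff0240eb0fb055077fff02411c10c044066fff024033073051055fff03c0640440220ecfff0240110310c9033fff03c0420220a8064fff000)

end Cfsg.Agent.Lib.TCHN3
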