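import Cfsg.Agent.Lib.TCGroup
import Cfsg.Agent.Lib.TCLy2C0

set_option autoImplicit false
set_option maxRecDepth 100000

namespace Cfsg.Agent.Lib.TCLy2
open Cfsg.Agent.Lib.TCCore

theorem rowsS : P.RowsS 0 P.N := s0

theorem rowsT : P.RowsT P.N P.M := t0

def base : List (List Nat) := [
  [0, 1],
  [2, 3],
  [4, 5],
  [6, 7],
  [8, 9],
  [10, 11],
  [12, 13],
  [0, 0, 0, 0, 0, 0, 0, 0],
  [2, 2, 2, 2, 2],
  [0, 2, 0, 2, 0, 2, 0, 2],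
  [1, 1, 3, 0, 0, 2],
  [1, 3, 0, 2, 1, 3, 0, 2, 1, 3, 0, 2],
  [6, 1, 5, 0],
  [8, 3, 5, 2],
  [10, 2, 5, 3],
  [12, 7, 5, 6, 4],
  [4, 4, 4, 4, 4],
  [12, 12, 12, 12, 12],
  [5, 13, 4, 12],
  [7, 13, 6, 12],
  [9, 13, 8, 12],
  [11, 13, 10, 12],
  [5, 9, 4, 8, 12, 12],
  [5, 11, 4, 10, 13, 13],
  [7, 9, 6, 8, 12],
  [7, 11, 6, 10],
  [9, 11, 8, 10, 12],
  [1, 6, 0, 4, 4],
  [1, 8, 0, 11, 5, 8, 8],
  [1, 10, 0, 11, 5, 11, 8, 6, 5],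
  [1, 12, 0, 13, 13],
  [3, 6, 2, 10, 4, 10, 9, 7],
  [3, 8, 2, 8, 8, 11, 5, 5],
  [3, 12, 2, 13]]

theorem static_ok : TCGroup.static P base [1, 0, 3, 2, 5, 4, 7, 6, 9, 8, 11, 10, 13, 12] 14 14 [0, 2] = true := by decide +kernel

theorem bound {G : Type*} [Group G] (y : Nat → G) (H : Subgroup G)
    (hrel : ∀ r ∈ base, (r.map y).prod = 1) (hinv : ∀ i < 14, y (List.getD [1, 0, 3, 2, 5, 4, 7, 6, 9, 8, 11, 10, 13, 12] i i) = (y i)⁻¹)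
    (hsub : ∀ i ∈ ([0, 2] : List Nat), y i ∈ H) :
    H.relIndex (Subgroup.closure (y '' {i | i < 14})) ≠ 0 ∧
      H.relIndex (Subgroup.closure (y '' {i | i < 14})) ≤ 3125 :=
  TCGroup.relIndex_le y 14 14 base [1, 0, 3, 2, 5, 4, 7, 6, 9, 8, 11, 10, 13, 12] [0, 2] P H hrel hinv hsub static_ok rowsS rowsT

end Cfsg.Agent.Lib.TCLy2
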