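import Cfsg.Agent.Lib.TCLyH1P

set_option autoImplicit false
set_option maxRecDepth 100000

namespace Cfsg.Agent.Lib.TCLyH1
open Cfsg.Agent.Lib.TCCore

theorem k0 : P.RowsS 0 120 := P.rowsS_of_chk _ _ [nat_lit 0x404000201010101010401000000101010101000040404180404040404000101000040404040404000205010101010100004040404000101000080404040400010101010101010000804040404000101010101010100008040404040001010101010101, nat_lit 0x4040404060e0083800040004047b801ee00010100009e6000104030100005ea000200004063600010106020000404040c0400010100008040612000503010000404040002010100009f6007d800040404040404080001010100004100404040400020101000041404040404040800, nat_lit 0x404041004000200004040404072e000200010100800010103030100004040c0c08000105010100005f2007c80004040400010103030101010102000080001010109010000404040c04040404000200005fa007e80018040404180400020200004040c04080001070101, nat_lit 0x414100e1a0000202008080008000180802060081800040c080001010000804075e00d78000c0400d78001c040800010105040100004100414040400020688800008880020074200d08000001010194802520002000040404040404000201010601000080404080001010200326000101010000406a6000101, nat_lit 0x1010000424040c04040400020000406d2000601000081c18180800010105010102010200010100410040c0400010100008040408040c040002040100004140404100002059080006ea0002002ea000101010000404040404000101057f801fe000501001fe00020000806c20001,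 nat_lit 0x106010701c78031e00020000404180400010101cc8000c040732000000800010101cd80004180404080007b38000800b380004129e000101020029a00010200004180800019580004040418064e0002000040c0410040000008041004040c04040800018980018080089800040404040c0002, nat_lit 0x1408040c040001010000c300404040c04000105010103010000002019d800281c04040410080002000040404040c0416e6000000414040404040003010200004069600a5800040e960000006820000008068200010102002460001928024a0005010000400020101010101019e800140002, nat_lit 0x403040302000100c0410040000008041404040c040c1400020200004040c0c0410041400050401060401000040410040800] (by decide +kernel)
theorem k1 : P.RowsT 120 215 := P.rowsT_of_chk _ _ [nat_lit 0x100018e61c0b4000000101960a05a0000300004040c0d06c0168000040c000241b006900004030101010005e1407800008000101178502d000c8803220001010000af8c80b400004040009013f8003c0000000804040502180780000800010141b001e000040301001e8701a4000040800010ba3069000010102002b90c0b40000404040408001c7a01e0000307010100004562c0f000000020101011c7a02d000, nat_lit 0x2010501000080003011b8d04b0000101020002271a00f000010040043ae01e000020000735700f0000040c00a19102d000000081404063d880b4000000201019a13069000000041e7d8012c0000001916404b0000501010023d881a4000080001ab802edbc168000041000148a02d0000200004040608f41a400000a8802a2000107bd3102d000, nat_lit 0x4040c04c6a40b400008000101010131a901e000000056f3c078000040400040465a002d000040105020002e8c0b40001404005fc703c0000200004042e8c07800000010805cf5b03c00001000080405827c0f00000414100404003d8205a00001020000405827c07800004100800619e03c0000200014044e681680000c000101020000452280f0000041400,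 nat_lit 0x9b2740b400018040050b601e000040100008054a2412c0000c0400528903c00002000053ed40b40000408000159a703c000010500000020143ae03c000010100004190eb812c000080003a19101e0000100004040c0d8abc16800004080062af0690000307000046a30078000080001018dad01e000010302002edbc1a40000404000232c9069000, nat_lit 0x804cb240b40000404140002609f02d0000000c0467101a40001400ba4506900001020000462100f0000041000000040c00010000400010b48b101e0000001c074dc412c00004000432be06900004001beec0b40000002010131bd03c0000301060100112fc0f00000002010150b605a000, nat_lit 0x10040002013d8204b0000301000c3540780000001841805a0000100014100400bf4405a0000200004041000408604b0000200004e74407800000010381ce069000010000ccb240780000410080081ce05a00002000040573340b4000040c0005ca02d00000004cb241680000c04140001001] (by decide +kernel)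
theorem s0 : P.RowsS 0 120 := k0
theorem t0 : P.RowsT 120 215 := k1

end Cfsg.Agent.Lib.TCLyH1
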