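import Cfsg.Agent.Lib.TCLyH2P

set_option autoImplicit false
set_option maxRecDepth 100000

namespace Cfsg.Agent.Lib.TCLyH2
open Cfsg.Agent.Lib.TCCore

theorem k0 : P.RowsS 0 60 := P.rowsS_of_chk _ _ [nat_lit 0x40c040c04000000404040404000201010301010101010000404000604010101010000420040404040400010101020000404040400010204000080404040400010101010101010001404040404000101010101010100008040404040001010101010101, nat_lit 0x2000040404041c040808080002000040404064c01260002020100014040c00010101010102020000404080404000101030000404040400010704010101010000800010101030101010101020000002910048800040404040c0004070101010202000101008180400, nat_lit 0x80808000810020202020400030080800020a000080808480800020202020204005080284000202000080808080cd8026c000404040054802a40004040200000036a00b5000080808081800020202020204040000f680008040400ef00778000c0001010101010400008040418040001, nat_lit 0x1838202000040e0c0808000080808000a02020a0a0402040001818081808000001008400808080810301000040202060200000040a0202020206034e0001000080001010101000068c0146000301] (by decide +kernel)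
theorem k1 : P.RowsT 60 119 := P.rowsT_of_chk _ _ [nat_lit 0x30101000056e2062000020000404070b005400002000040406d2705400000004040404feb01c0000000404140c6470620000100004140c00404000403002015062000020000404140408007e34188000040c04040400000080404ac005400003010000464702a000000080c040464701c00001010200241401c00001000040c6bf054000, nat_lit 0x80001014f681880000808080000201040202010028db01c00003000068db02a0000200014040804004d280e00000c0001000041c100400010105034d280a800004040408009ea807000000010201067e340e00000406dc0006000132a40c40000000d98000c0554f0540000107020006470460000000a82b02a0000101000180534a01c000, nat_lit 0x10104000088600460000001804000103060100010140408000000414100c0400c4b41500000800010101598c188000040c0c0800b340118000140c040061840a800000020101b7440e00000c040400016184188000080001010101c6b01500001c0000008059d3054000, nat_lit 0x180414002d040e00001810000147dc0a8000000501020102000100c0c0400000080404069b306200002002ba50540000104002ba50620000300004c5f0380000102000080400] (by decide +kernel)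
theorem s0 : P.RowsS 0 60 := k0
theorem t0 : P.RowsT 60 119 := k1

end Cfsg.Agent.Lib.TCLyH2
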