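import Cfsg.Agent.Lib.TCLyH5D0

set_option autoImplicit false
set_option maxRecDepth 100000

namespace Cfsg.Agent.Lib.TCLyH5
open Cfsg.Agent.Lib.TCCore

noncomputable def tb : T := l0
noncomputable def w0 : WT := (.leaf (nat_lit 37890) [nat_lit 192, nat_lit 120, nat_lit 36, nat_lit 132, nat_lit 192])
noncomputable def w1 : WT := (.leaf (nat_lit 2) [nat_lit 24])
noncomputable def w2 : WT := (.leaf (nat_lit 38914) [nat_lit 192, nat_lit 132, nat_lit 84, nat_lit 36, nat_lit 72, nat_lit 120, nat_lit 192])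
noncomputable def w3 : WT := (.leaf (nat_lit 1026) [nat_lit 48])
noncomputable def w4 : WT := (.leaf (nat_lit 39938) [nat_lit 192, nat_lit 132, nat_lit 60, nat_lit 36, nat_lit 48, nat_lit 120, nat_lit 192])
noncomputable def w5 : WT := (.leaf (nat_lit 2050) [nat_lit 72])
noncomputable def w6 : WT := (.leaf (nat_lit 40962) [nat_lit 192, nat_lit 132, nat_lit 108, nat_lit 36, nat_lit 96, nat_lit 120, nat_lit 192])
noncomputable def w7 : WT := (.leaf (nat_lit 3074) [nat_lit 96])
noncomputable def w8 : WT := (.leaf (nat_lit 41986) [nat_lit 192, nat_lit 132, nat_lit 24, nat_lit 120, nat_lit 192])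
noncomputable def w9 : WT := (.leaf (nat_lit 4098) [nat_lit 120])
noncomputable def w10 : WT := (.leaf (nat_lit 43010) [nat_lit 192, nat_lit 144, nat_lit 120, nat_lit 36, nat_lit 132, nat_lit 156, nat_lit 192])
noncomputable def w11 : WT := (.leaf (nat_lit 5122) [nat_lit 144])
noncomputable def w12 : WT := (.node (nat_lit 1) (.leaf (nat_lit 44032) []) (.leaf (nat_lit 36866) [nat_lit 192, nat_lit 168, nat_lit 192]))
noncomputable def w13 : WT := (.leaf (nat_lit 6146) [nat_lit 168])
noncomputable def w14 : WT := (.leaf (nat_lit 7168) [nat_lit 192])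
noncomputable def wP : WT := (.leaf (nat_lit 0) [nat_lit 24, nat_lit 36])
noncomputable def P : Par := ⟨tb, nat_lit 204, nat_lit 0xfffffffffffffffffffffffffffffffffffffffffffffffffff, nat_lit 2, nat_lit 4095, nat_lit 3, nat_lit 12, nat_lit 2, nat_lit 2,
  [nat_lit 24, nat_lit 36, nat_lit 48, nat_lit 60, nat_lit 72, nat_lit 84, nat_lit 96, nat_lit 108, nat_lit 120, nat_lit 132, nat_lit 144, nat_lit 156, nat_lit 168, nat_lit 180, nat_lit 192], [nat_lit 24, nat_lit 48, nat_lit 72, nat_lit 96, nat_lit 120, nat_lit 144], wP,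
  (.cons (nat_lit 24) w0 (.cons (nat_lit 36) w1 (.cons (nat_lit 48) w2 (.cons (nat_lit 60) w3 (.cons (nat_lit 72) w4 (.cons (nat_lit 84) w5 (.cons (nat_lit 96) w6 (.cons (nat_lit 108) w7 (.cons (nat_lit 120) w8 (.cons (nat_lit 132) w9 (.cons (nat_lit 144) w10 (.cons (nat_lit 156) w11 (.cons (nat_lit 168) w12 (.cons (nat_lit 180) w13 (.cons (nat_lit 192) w14 .nil))))))))))))))),
  .nil⟩

end Cfsg.Agent.Lib.TCLyH5
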