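import Cfsg.Agent.Lib.TCDefs

set_option autoImplicit false
set_option maxRecDepth 100000

namespace Cfsg.Agent.Lib.TCLyH6
open Cfsg.Agent.Lib.TCCore

noncomputable def l0 : T := .leaf (nat_lit 0) (nat_lit 0x2202501402602e02602e02602e02602e02602e02602efff0a802b01402e02502d02502d02502d02502d02502d02502dfff0b400901e01d02401c02401c02401c02401c02401c02401cfff0c003501202104303b03b04304303b04303b04303b04303bfff0b402e00901b02201a02201a02201a02201a02201a02201afff0b401402b012011009011009011009011009011009011009fff000)

end Cfsg.Agent.Lib.TCLyH6
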