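import Cfsg.Agent.Lib.Tate

/-! Tate's theorem, general form: control of the focal subgroup gives control of `G / O^p(G)`. -/

namespace Cfsg.Agent.Lib.TateGen

open Subgroup Cfsg.Agent.Lib.PCoreResidual
open scoped commutatorElement

variable {G : Type*} [Group G] [Finite G] {p : ℕ} [hp : Fact p.Prime]

theorem mem_comm (S : Sylow p G) {s : G} (hs : s ∈ (S : Subgroup G)) (hN : s ∈ pResidual p G) :
    s ∈ (⁅(⊤ : Subgroup G), (⊤ : Subgroup G)⁆ : Subgroup G) := by
  let φ : G →* Abelianization G := (powMonoidHom (S : Subgroup G).index).comp Abelianization.of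
  have h1 : pResidual p G ≤ φ.ker := pResidual_le_iff.mpr fun x hx => by
    obtain ⟨a, ha⟩ := IsPGroup.iff_card.mp S.2
    have h2 : orderOf x ∣ p ^ a * (S : Subgroup G).index := by
      rw [← ha, card_mul_index]; exact orderOf_dvd_natCard x
    have h3 := (Nat.Coprime.pow_right a hx).dvd_of_dvd_mul_left h2
    change (Abelianization.of x) ^ (S : Subgroup G).index = 1
    rw [← map_pow, orderOf_dvd_iff_pow_eq_one.mp h3, map_one]
  have h2 : (Abelianization.of s) ^ (S : Subgroup G).index = 1 := h1 hN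
  obtain ⟨k, hk⟩ := S.2 ⟨s, hs⟩
  have h3 : (Abelianization.of s) ^ p ^ k = 1 := by
    rw [← map_pow, show s ^ p ^ k = 1 from congrArg Subtype.val hk, map_one]
  have h4 := pow_gcd_eq_one.mpr ⟨h2, h3⟩
  rw [Nat.Coprime.pow_right k (hp.out.coprime_iff_not_dvd.mpr S.not_dvd_index).symm, pow_one] at h4
  have h5 : s ∈ (Abelianization.of (G := G)).ker := h4
  rwa [Abelianization.ker_of] at h5

theorem inf_le (S : Sylow p G) (M : Subgroup G) (hS : (S : Subgroup G) ≤ M)
    (h : (S : Subgroup G) ⊓ ⁅(⊤ : Subgroup G), ⊤⁆ ≤ ⁅M, M⁆) :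
    M ⊓ pResidual p G ≤ pResidualOf p M ⊔ ⁅M ⊓ pResidual p G, M⁆ := by
  set N := pResidual p G with hNdef
  have hN : N.Normal := pResidual_normal p G
  set Q := M ⊓ N with hQ
  set R : Subgroup Q := (pResidualOf p M ⊔ ⁅Q, M⁆).subgroupOf Q with hR
  have hcomm : _root_.commutator Q ≤ R := by
    rw [hR, ← comap_subtype, ← map_le_iff_le_comap, map_subtype_commutator]
    exact (commutator_mono le_rfl inf_le_left).trans le_sup_right
  have hRn : R.Normal := Normal.of_commutator_le _ hcomm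
  have hc : IsMulCommutative (Q ⧸ R) := Normal.quotient_commutative_iff_commutator_le.mpr hcomm
  have hp' : IsPGroup p (Q ⧸ R) := fun a => by
    obtain ⟨q, rfl⟩ := QuotientGroup.mk'_surjective R a
    obtain ⟨k, hk⟩ := exists_pow_mem_pResidualOf (p := p) q.2.1
    refine ⟨k, ?_⟩
    rw [← map_pow, QuotientGroup.mk'_apply, QuotientGroup.eq_one_iff]
    exact mem_sup_left hk
  open scoped IsMulCommutative in
  obtain ⟨ψ, hψ⟩ := Tate.exists_extension (A := Q ⧸ R) hp' N M
    (by rw [← pResidualOf_subgroupOf, hNdef, pResidualOf_pResidual, subgroupOf_self])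
    (top_le_iff.mp ((pResidual_sup_sylow S).ge.trans (sup_le_sup_left hS _))) (QuotientGroup.mk' R)
    (fun x hx q hq => by
      rw [QuotientGroup.mk'_apply, QuotientGroup.mk'_apply, eq_comm, QuotientGroup.eq]
      change (q : G)⁻¹ * (x * q * x⁻¹) ∈ pResidualOf p M ⊔ ⁅Q, M⁆
      have := commutator_mem_commutator (H₁ := Q) (H₂ := M) (Q.inv_mem q.2) hx
      rw [commutatorElement_def] at this
      refine mem_sup_right ?_
      convert this using 1; group)
  intro q hq
  have h1 : (⟨q, hq.1⟩ : M) ∈ pResidual p M ⊔ (S.subtype hS : Subgroup M) :=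
    (pResidual_sup_sylow (S.subtype hS)).ge (mem_top _)
  obtain ⟨o, ho, s, hs, e⟩ := mem_sup_of_normal_left.mp h1
  have e' : (o : G) * s = q := congrArg Subtype.val e
  have ho' : (o : G) ∈ pResidualOf p M := ⟨o, ho, rfl⟩
  have hsS : (s : G) ∈ (S : Subgroup G) := hs
  have hsN : (s : G) ∈ N := by
    have := N.mul_mem (N.inv_mem (pResidualOf_le_pResidual p M ho')) hq.2
    rwa [← e', inv_mul_cancel_left] at this
  have h2 : s ∈ _root_.commutator M := by
    have := h ⟨hsS, mem_comm S hsS hsN⟩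
    rw [← map_subtype_commutator] at this
    obtain ⟨y, hy, ey⟩ := this
    exact (Subtype.ext ey : y = s) ▸ hy
  open scoped IsMulCommutative in
  have h3 : ψ s = 1 := Abelianization.commutator_subset_ker ψ h2
  have h4 := hψ ⟨s, s.2, hsN⟩
  rw [show (⟨((⟨s, s.2, hsN⟩ : Q) : G), _⟩ : M) = s from rfl, h3] at h4
  obtain ⟨k, hk⟩ := hp' (QuotientGroup.mk' R ⟨s, s.2, hsN⟩)
  have h5 := pow_gcd_eq_one.mpr ⟨h4.symm, hk⟩
  have hi : ¬ p ∣ M.index := fun e => S.not_dvd_index (e.trans (index_dvd_of_le hS))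
  rw [Nat.Coprime.pow_right k (hp.out.coprime_iff_not_dvd.mpr hi).symm, pow_one,
    QuotientGroup.mk'_apply, QuotientGroup.eq_one_iff] at h5
  rw [← e']
  exact mul_mem (mem_sup_left ho') h5

theorem sub_eq (S : Sylow p G) (M : Subgroup G) (hS : (S : Subgroup G) ≤ M)
    (h : (S : Subgroup G) ⊓ ⁅(⊤ : Subgroup G), ⊤⁆ ≤ ⁅M, M⁆) :
    (pResidual p G).subgroupOf M = pResidual p M := by
  refine le_antisymm ?_ fun x hx => pResidualOf_le_pResidual p M ⟨x, hx, rfl⟩
  set L := (pResidual p G).subgroupOf M with hL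
  have h1 : L ≤ pResidual p M ⊔ ⁅L, ⊤⁆ := by
    rw [← map_le_map_iff_of_injective M.subtype_injective, Subgroup.map_sup, map_commutator, hL,
      subgroupOf_map_subtype, ← MonoidHom.range_eq_map, range_subtype, inf_comm]
    exact inf_le S M hS h
  have := pResidual_normal p M
  let π := QuotientGroup.mk' (pResidual p M)
  have : Group.IsNilpotent (⊤ : Subgroup (M ⧸ pResidual p M)) :=
    ((isPGroup_quotient_pResidual p M).to_subgroup ⊤).isNilpotent
  have h2 : L.map π = ⊥ := by
    refine TransferFrobenius.eq_bot_of_le_commutator (P := ⊤) le_top ((map_mono h1).trans ?_)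
    rw [Subgroup.map_sup, map_commutator, (Subgroup.map_eq_bot_iff _).mpr (QuotientGroup.ker_mk' _).ge, bot_sup_eq]
    exact commutator_mono le_rfl le_top
  rwa [Subgroup.map_eq_bot_iff, QuotientGroup.ker_mk'] at h2

theorem iso {G : Type*} [Group G] [Finite G] {p : ℕ} [Fact p.Prime] (S : Sylow p G) (M : Subgroup G)
    (hS : (S : Subgroup G) ≤ M) (h : (S : Subgroup G) ⊓ ⁅(⊤ : Subgroup G), ⊤⁆ ≤ ⁅M, M⁆)
    [(pResidual p G).Normal] [(pResidual p M).Normal] :
    Nonempty (G ⧸ pResidual p G ≃* M ⧸ pResidual p M) := by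
  let f : M →* G ⧸ pResidual p G := (QuotientGroup.mk' _).comp M.subtype
  have hf : Function.Surjective f := fun a => by
    obtain ⟨g, rfl⟩ := QuotientGroup.mk'_surjective _ a
    obtain ⟨n, hn, s, hs, rfl⟩ := mem_sup_of_normal_left.mp ((pResidual_sup_sylow S).ge (mem_top g))
    refine ⟨⟨s, hS hs⟩, ?_⟩
    rw [map_mul, QuotientGroup.mk'_apply, (QuotientGroup.eq_one_iff n).mpr hn, one_mul]
    rfl
  have hk : f.ker = pResidual p M := by
    rw [← sub_eq S M hS h, ← MonoidHom.comap_ker, QuotientGroup.ker_mk']; rfl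
  exact ⟨(QuotientGroup.quotientKerEquivOfSurjective f hf).symm.trans
    (QuotientGroup.quotientMulEquivOfEq hk)⟩

end Cfsg.Agent.Lib.TateGen
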