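import Cfsg.Agent.Lib.ThS1
import Cfsg.Agent.Lib.ThST
import Cfsg.Agent.Lib.SuzS3

/-! The involution that interchanges `z` with a non-central involution of `Q`. -/

set_option autoImplicit false
set_option maxRecDepth 100000

namespace Cfsg.Agent.Lib.ThS2

open Subgroup Cfsg.Agent.Lib.PermNet Cfsg.Agent.Lib.Words Cfsg.Agent.Lib.PermGroup Cfsg.Agent.Lib.DCE
  Cfsg.Agent.Lib.BT Cfsg.Agent.Lib.ThDefs Cfsg.Agent.Lib.ThSM Cfsg.Agent.Lib.ThS1

variable {G : Type*} [Group G] {z : G} {Q : Subgroup G} {n : ℕ → G}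
  {φ : centralizer ({z} : Set G) →* Equiv.Perm (Fin 9)} {F : ℕ → G}

theorem anti {a b : G} (zz : z * z = 1) (ha : a * z = z * a) (hb : b * z = z * b) (aa : a * a = z)
    (bb : b * b = z) (ab : a * b * (a * b) = z) : b * a = z * (a * b) := by
  have : a * a * (b * a) * (b * b) = a * z * b := by rw [← ab]; group
  rw [aa, bb, mul_assoc z, mul_assoc b, ha, ← mul_assoc b, hb, ← mul_assoc, ← mul_assoc, zz, one_mul,
    mul_assoc] at this
  exact this

theorem sq8 {x y u : G} (zz : z * z = 1) (hx : x * z = z * x) (hy : y * z = z * y) (hu : u * z = z * u)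
    (xx : x * x = z) (yy : y * y = z) (uu : u * u = z) (xy : x * y * (x * y) = z)
    (xu : x * u * (x * u) = z) (yu : y * u * (y * u) = z) (e : x * y * u * (x * y * u) = z) : z = 1 := by
  rw [← e, show x * y * u * (x * y * u) = x * y * (u * x) * y * u by group, anti zz hx hu xx uu xu,
    show x * y * (z * (x * u)) * y * u = x * (y * z) * x * (u * y) * u by group, anti zz hy hu yy uu yu, hy,
    show x * (z * y) * x * (z * (y * u)) * u = x * z * (y * x) * z * y * (u * u) by group,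
    anti zz hx hy xx yy xy, uu,
    show x * z * (z * (x * y)) * z * y * z = x * (z * z) * x * (y * z) * y * z by group, zz, hy, mul_one, xx,
    show z * (z * y) * y * z = z * z * (y * y) * z by group, yy, zz, one_mul, zz]

/-- The relators of odd length. -/
def KO : List (List ℕ) := [[6, 8, 6, 8, 6, 8], [0, 4, 11, 15, 11, 15, 11, 15],
  [9, 11, 8, 10, 11, 11, 11, 9, 10, 10, 10]]

theorem pins [Finite G] (h : Hyp z Q φ) (E : Enc z Q n) {f : ℕ → G} (S : St φ n f LS) :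
    ∃ F, SF φ n F ∧ ∀ w ∈ KO, wval F w = 1 := by
  obtain ⟨F, S⟩ := exists_sf S
  obtain ⟨F, S, h1⟩ := pin h E S (i := 4) (by decide) [9, 11, 8, 10, 11, 11, 11, 9, 10, 10, 10] []
    (by simp) (by decide +kernel)
  obtain ⟨F, S, h1⟩ := pin h E S (i := 7) (by decide) [0, 4, 11, 15, 11, 15, 11, 15] _ h1
    (by decide +kernel)
  exact pin h E S (i := 3) (by decide) _ _ h1 (by decide +kernel)

def RG : List (List ℕ × List ℕ × List ℕ) := [([6], [11], [10]), ([7], [13], [13]), ([9], [13], [13]),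
  ([13], [10], [10, 10]), ([15], [12], [13]), ([8], [12], [12]), ([14], [12], [13]), ([6], [12], [12]),
  ([12], [10, 10], [10])]

def KB : List (List ℕ) := KO ++ ([[6, 6], [8, 8], rep 7 [10], rep 3 [12]] ++
  RG.map fun e => e.1 ++ e.2.1 ++ invW e.1 ++ invW e.2.2)

variable (h : Hyp z Q φ) (E : Enc z Q n) (S : SF φ n F) (C : Cx z n F)
include h S C

theorem base (hO : ∀ w ∈ KO, wval F w = 1) : ∀ w ∈ KB, wval F w = 1 := by
  have m : ∀ w, wval F w * z = z * wval F w := fun w => mem_centralizer_singleton_iff.1 (C.M.mem w)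
  have ee : wval F [8] * wval F [8] = 1 := by
    have := (mem_zpowers_two h.zz).1 (C.M.rel ([8] ++ [8]) (by decide +kernel))
    rw [wval_append] at this
    refine this.resolve_right fun e => h.ne ?_
    have k : ∀ u i, fx (u ++ invW (rep i [11] ++ [8] ++ invW (rep i [11]))) = true →
        wval F u * wval F u = z := fun u i hb => by
      rw [C.sq h.zz _ _ _ hb, e, m, mul_inv_cancel_right]
    exact sq8 h.zz (m [8]) (m [11, 8, 10]) (m [11, 11, 8, 10, 10]) e (k _ 1 (by decide +kernel))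
      (k _ 2 (by decide +kernel)) (wval_append F _ _ ▸ k _ 3 (by decide +kernel))
      (wval_append F _ _ ▸ k _ 6 (by decide +kernel)) (wval_append F _ _ ▸ k _ 4 (by decide +kernel))
      (wval_append F _ _ ▸ wval_append F _ _ ▸ k _ 5 (by decide +kernel))
  have dd := C.sq h.zz [6] [8, 6] [8] (by decide +kernel)
  rw [ee, mul_one, mul_inv_cancel] at dd
  have s21 : F 5 ^ 21 = 1 := by rw [show 21 = 7 * 3 from rfl, pow_mul, S.st.s7, one_pow]
  have t21 : F 6 ^ 21 = 1 := by rw [show 21 = 3 * 7 from rfl, pow_mul, S.st.t3, one_pow]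
  refine all_append hO (all_append ?_ (C.rig h.zz (A := [[10], [11], [12], [13], [10, 10]]) ?_ RG
    (by decide +kernel)))
  · simp only [List.forall_mem_cons, wval_rep]
    exact ⟨wval_append F [6] [6] ▸ dd, wval_append F [8] [8] ▸ ee, wval_single F 5 ▸ S.st.s7,
      wval_single F 6 ▸ S.st.t3, by simp⟩
  · simp [wval, lval, s21, t21, (Commute.refl _).mul_pow]

include E

theorem exists_g [Finite G] (hB : ∀ w ∈ KB, wval F w = 1) {g : G} (gz : g * z * g⁻¹ = n 257)
    (gc : g * n 1 * g⁻¹ = n 1) : ∃ g, g ∈ centralizer {F 5, F 6} ∧ g * z * g⁻¹ = z * n 1 := by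
  have w1 := wval_single F
  have zc : n 257 = z * n 1 := by rw [← E.z256, E.mul _ (by decide) _ (by decide)]; rfl
  have cc : n 1 * n 1 = 1 := by rw [E.mul _ (by decide) _ (by decide), ← E.zero]; rfl
  have mK : ∀ {x}, x ∈ centralizer {z, n 1} ↔ z * x = x * z ∧ n 1 * x = x * n 1 := by
    simp [mem_centralizer_iff]
  have nk : ∀ {g x}, g * z * g⁻¹ = z * n 1 → g * n 1 * g⁻¹ = n 1 → x ∈ centralizer {z, n 1} →
      g * x * g⁻¹ ∈ centralizer {z, n 1} := fun {g x} a b hx => by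
    have : g * (z * n 1) * g⁻¹ = z := by rw [← conj_mul, a, b, mul_assoc, cc, mul_one]
    refine mK.2 ⟨?_, by rw [← b, conj_mul, conj_mul, (mK.1 hx).2]⟩
    rw [← this, conj_mul, conj_mul, mul_assoc z, (mK.1 hx).2, ← mul_assoc z, (mK.1 hx).1, mul_assoc x]
  have lK : ∀ w, band (Nat.blt 1 512) (Nat.beq (pt w 1) 1) = true → wval F w ∈ centralizer {z, n 1} :=
    fun w hw => mK.2 ⟨(mem_centralizer_singleton_iff.1 (C.M.mem w)).symm,
      (mul_inv_eq_iff_eq_mul.1 (C.cpt w 1 1 hw)).symm⟩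
  have sK := w1 5 ▸ lK [10] (by decide +kernel)
  have s1 : F 5 ≠ 1 := fun e => C.M.nrel [10] (by decide +kernel) (by rw [w1 5, e]; exact one_mem _)
  have mv : ∀ {k g}, k ∈ centralizer {z, n 1} → g * z * g⁻¹ = z * n 1 → g * n 1 * g⁻¹ = n 1 →
      k * g * z * (k * g)⁻¹ = z * n 1 ∧ k * g * n 1 * (k * g)⁻¹ = n 1 := fun {k g} hk a b => by
    have e : ∀ x, k * g * x * (k * g)⁻¹ = k * (g * x * g⁻¹) * k⁻¹ := fun x => by group
    rw [e, e, a, b, ← mul_assoc, ← (mK.1 hk).1, mul_assoc z, ← (mK.1 hk).2]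
    simp [mul_assoc]
  rw [zc] at gz
  obtain ⟨k, hk, e⟩ := SuzG1.sylow_conj (H := centralizer {z, n 1}) (p := 7) (by norm_num)
    (fun hd => absurd (hd.trans (card_dvd_of_le (centralizer_le (t := {z, n 1}) (s := {z}) (by simp))))
      (by rw [h.cH]; decide)) sK (nk gz gc sK) S.st.s7 s1 (by rw [conj_pow, S.st.s7]; simp)
    (by simpa using s1)
  have o7 : orderOf (F 5) = 7 := have := Fact.mk (show Nat.Prime 7 by norm_num); orderOf_eq_prime S.st.s7 s1
  obtain ⟨i, hi, h1⟩ : ∃ i < 7, F 5 ^ i = k * g * F 5 * (k * g)⁻¹ := by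
    classical
    simpa [o7, mul_assoc] using (orderOf_pos_iff.1 (o7 ▸ by decide)).mem_zpowers_iff_mem_range_orderOf.1
      (e.le (mem_zpowers _))
  have i0 : i ≠ 0 := by rintro rfl; exact s1 (conj_eq_one_iff.1 (h1.symm.trans (pow_zero _)))
  obtain ⟨gz, gc⟩ := mv hk gz gc
  generalize k * g = g at gz gc h1
  have p7 : wval F [10] ^ 7 = 1 := w1 5 ▸ S.st.s7
  have p3 : wval F [12] ^ 3 = 1 := w1 6 ▸ S.st.t3
  have ts : F 6 * (F 5 * F 5) * (F 6)⁻¹ = F 5 := by
    simpa [wval, lval, mul_assoc, mul_inv_eq_one] using derive_eq [] hB [12, 10, 10, 13] [10] (by decide)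
  have tK := nk gz gc (w1 6 ▸ lK [12] (by decide +kernel))
  have tH := mem_centralizer_singleton_iff.2 (mK.1 tK).1.symm
  obtain ⟨j, hj⟩ : ∃ j, F 5 = (g * F 5 * g⁻¹) ^ j := by
    obtain ⟨j, -, hj⟩ := (by decide : ∀ i < 7, i ≠ 0 → ∃ j < 7, i * j % 7 = 1) i hi i0
    exact ⟨j, by rw [← h1, ← pow_mul, ← pow_mod_orderOf, o7, hj, pow_one]⟩
  obtain ⟨u, hu, x, hx, e⟩ := C.M.find C.ch s_t (by decide) tH (C.fix1 E tH (mK.1 tK).2.symm)
    (.cons (by
      rw [show [10, 10] = [2 * 5] ++ [2 * 5] from rfl, wval_append, w1 5, hj, ← (Commute.refl _).mul_pow,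
        ← conj_pow, conj_mul, show g * F 6 * g⁻¹ * (g * (F 5 * F 5) * g⁻¹) * (g * F 6 * g⁻¹)⁻¹ =
          g * (F 6 * (F 5 * F 5) * (F 6)⁻¹) * g⁻¹ by group, ts, mul_inv_cancel]
      exact one_mem _) .nil)
    (List.forall_mem_singleton.2 (by
      rw [show [1000, 1000, 1000] = rep 3 [2 * 500] from rfl, wval_rep, wval_single,
        Function.update_self, conj_pow, S.st.t3]; simp)) (by simp)
  have mu := C.M.mem (mkC [[12]] u)
  rw [wval_mkC, beq_eq (band_eq hu).1, List.getD_cons_zero] at e mu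
  have e := BT.rigid (k := 1) h.zz (mem_centralizer_singleton_iff.1 mu)
    (a := g * F 6 * g⁻¹) (by rw [conj_pow, S.st.t3]; simp) (by rw [conj_pow, p3]; simp)
    (by rw [e]; exact cjZ mu hx)
  have c := comm_word (F := F) (c := F 5) [5] (by simp) (band_eq hu).2
  obtain ⟨gz, -⟩ := mv (inv_mem (mem_word [5] (by simpa using sK) (band_eq hu).2)) gz gc
  have gs : (wval F u.tail)⁻¹ * g * F 5 * ((wval F u.tail)⁻¹ * g)⁻¹ = F 5 ^ i := by
    rw [mul_inv_rev, inv_inv, mul_assoc _ g, mul_assoc, ← mul_assoc _ g⁻¹, ← h1,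
      ← (Commute.pow_right c i).eq]; simp
  have gt : (wval F u.tail)⁻¹ * g * F 6 * ((wval F u.tail)⁻¹ * g)⁻¹ = F 6 := by
    rw [mul_inv_rev, inv_inv, mul_assoc _ g, mul_assoc, ← mul_assoc _ g⁻¹, e, w1 6]; simp
  generalize (wval F u.tail)⁻¹ * g = g at gz gs gt
  obtain ⟨m, -, j, -, a1, a2, a3⟩ := (by decide +kernel : ∀ i < 7, i ≠ 0 → ∃ m ∈ [[], [12], [6], [12, 12],
    [12, 6], [12, 12, 6]], ∃ j < 7, i * j % 7 = 1 ∧ allL (okL [3, 6]) m = true ∧
    fx (m ++ [10] ++ invW m ++ invW (rep j [10])) = true) i hi i0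
  have ms := BT.rigid (k := 3) h.zz (mem_centralizer_singleton_iff.1 (C.M.mem (rep j [10])))
    (by rw [wval_append, wval_append, wval_invW, conj_pow, p7]; simp)
    (by rw [wval_rep, ← pow_mul, mul_comm, pow_mul, p7, one_pow]) (C.md _ _ a3)
  have mt := comm_word (F := F) (c := F 6) [3, 6] (by
    simpa [wval, lval] using derive_eq [] hB [6, 12, 7] [12] (by decide) |> fun e => by
      simpa [wval, lval, mul_inv_eq_iff_eq_mul, ← mul_assoc] using e) a2
  rw [wval_append, wval_append, wval_invW, wval_rep, w1 5] at ms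
  have e : ∀ x, g * wval F m * x * (g * wval F m)⁻¹ = g * (wval F m * x * (wval F m)⁻¹) * g⁻¹ :=
    fun x => by group
  refine ⟨g * wval F m, ?_, by rw [e, mem_centralizer_singleton_iff.1 (C.M.mem m), mul_inv_cancel_right, gz]⟩
  simp only [mem_centralizer_iff, Set.mem_insert_iff, Set.mem_singleton_iff, forall_eq_or_imp, forall_eq]
  refine ⟨(mul_inv_eq_iff_eq_mul.1 ?_).symm, (mul_inv_eq_iff_eq_mul.1 ?_).symm⟩
  · rw [e, ms, ← conj_pow, gs, ← pow_mul, ← pow_mod_orderOf, o7, a1, pow_one]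
  · rw [e, mt, mul_inv_cancel_right, gt]

theorem exists_v [Finite G] (hB : ∀ w ∈ KB, wval F w = 1) {g : G} (gz : g * z * g⁻¹ = n 257)
    (gc : g * n 1 * g⁻¹ = n 1) : ∃ v, SW z n v ∧ v * F 5 * v⁻¹ = F 5 ∧ v * F 6 * v⁻¹ = F 6 ∧
      wval (Function.update F 1 v) (rep 3 [6, 4, 6, 2]) = 1 ∧ (wval (Function.update F 1 v) ThST.A0 = 1 ∨
      wval (Function.update F 1 v) ThST.A1 = 1 ∨ wval (Function.update F 1 v) ThST.A2 = 1) := by
  obtain ⟨g, gX, gz⟩ := exists_g h E S C hB gz gc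
  have w1 := wval_single F
  have mX : ∀ {c}, c ∈ centralizer {F 5, F 6} ↔ F 5 * c = c * F 5 ∧ F 6 * c = c * F 6 := by
    simp [mem_centralizer_iff]
  have nX : ∀ p, band (band (Nat.blt p 512) (Nat.beq (pt [10] p) p))
      (band (Nat.blt p 512) (Nat.beq (pt [12] p) p)) = true → n p ∈ centralizer {F 5, F 6} := fun p hp =>
    mX.2 ⟨mul_inv_eq_iff_eq_mul.1 (w1 5 ▸ C.cpt _ _ _ (band_eq hp).1),
      mul_inv_eq_iff_eq_mul.1 (w1 6 ▸ C.cpt _ _ _ (band_eq hp).2)⟩
  have mu : ∀ a b c, decide (a < 512 ∧ b < 512 ∧ qm a b = c) = true → n a * n b = n c :=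
    fun a b c e => by
      obtain ⟨a1, a2, rfl⟩ := of_decide_eq_true e
      exact E.mul a a1 b a2
  have dd : F 3 * F 3 = 1 := by simpa [wval, lval] using hB [6, 6] (by decide)
  have di := inv_eq_of_mul_eq_one_right dd
  have d1 : F 3 * n 1 * (F 3)⁻¹ = n 2 := w1 3 ▸ C.cpt [6] 1 2 (by decide +kernel)
  have bb : n 2 * n 2 = 1 := (mu 2 2 0 (by decide +kernel)).trans E.zero
  have bi := inv_eq_of_mul_eq_one_right bb
  have hz : n 1 * n 2 * (n 1 * n 2) = z := by
    rw [mu 1 2 3 (by decide +kernel), mu 3 3 256 (by decide +kernel), E.z256]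
  obtain ⟨w, wX, ww, -, wz, h3, hA⟩ := SuzS3.d8 (z := z) (a := n 1) (b := n 2) (n := F 3)
    (nX 1 (by decide +kernel)) (nX 2 (by decide +kernel)) gX
    (fun u hu => by
      have ds : F 3 * (F 5)⁻¹ * (F 3)⁻¹ = F 5 := by
        simpa [wval, lval, mul_assoc] using derive_eq [] hB [6, 11, 7] [10] (by decide)
      have dt : F 3 * F 6 * (F 3)⁻¹ = F 6 := by
        simpa [wval, lval, mul_assoc] using derive_eq [] hB [6, 12, 7] [12] (by decide)
      exact mX.2 ⟨by rw [← ds, conj_mul, conj_mul, (Commute.inv_left (mX.1 hu).1).eq],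
        by rw [← dt, conj_mul, conj_mul, (mX.1 hu).2]⟩)
    ((mu 1 1 0 (by decide +kernel)).trans E.zero) bb hz h.zz h.ne
    (fun c hc e => by
      obtain ⟨u, hu, x, hx, e⟩ := C.M.find C.ch s_c (by decide) (mem_centralizer_singleton_iff.2 e) (by simp)
        (comm_pairs _ (by simpa [w1 5, w1 6, eq_comm] using mX.1 hc)) (by simp) (by simp)
      have m1 : n 1 ∈ closure {n 1, n 2} := subset_closure (by simp)
      have m2 : n 2 ∈ closure {n 1, n 2} := subset_closure (by simp)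
      exact e ▸ mul_mem (mem_word [2, 8] (by simpa [S.st.f2, S.q 8] using ⟨m1, m2⟩) hu)
        (zpowers_le.2 (hz ▸ mul_mem (mul_mem m1 m2) (mul_mem m1 m2)) hx)) gz d1
    (w1 3 ▸ C.cpt [6] 2 1 (by decide +kernel))
    (by rw [← w1 3, mem_centralizer_singleton_iff.1 (C.M.mem _), mul_inv_cancel_right])
  have vX := mX.1 (mul_mem (mul_mem (nX 2 (by decide +kernel)) wX) (nX 2 (by decide +kernel)))
  have wi := inv_eq_of_mul_eq_one_right ww
  have e1 : wval (Function.update F 1 (n 2 * w * n 2)) [6, 4, 6] = n 2 := by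
    rw [← d1, di]; simp [wval, lval, S.st.f2, mul_assoc]
  have e2 : wval (Function.update F 1 (n 2 * w * n 2)) [2] = n 2 * w * n 2 := by simp [wval, lval]
  have e3 : wval (Function.update F 1 (n 2 * w * n 2)) [6] = F 3 := by simp [wval, lval]
  have e4 : wval (Function.update F 1 (n 2 * w * n 2)) [4] = n 1 := by simp [wval, lval, S.st.f2]
  have e5 : wval (Function.update F 1 (n 2 * w * n 2)) ([6, 4, 6] ++ [2] ++ [6, 4, 6]) = w := by
    rw [wval_append, wval_append, e1, e2, ← mul_assoc, ← mul_assoc, bb, mul_assoc, bb]; simp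
  rw [di] at hA
  refine ⟨n 2 * w * n 2, ⟨?_, ?_⟩, by rw [← vX.1, mul_inv_cancel_right],
    by rw [← vX.2, mul_inv_cancel_right], ?_, hA.imp (fun hA => ?_) (Or.imp (fun hA => ?_) fun hA => ?_)⟩
  · rw [mul_assoc, ← mul_assoc (n 2) (n 2 * w), ← mul_assoc (n 2), bb, one_mul, mul_assoc, ← mul_assoc w, ww,
      one_mul, bb]
  · rw [mul_inv_rev, mul_inv_rev, bi, wi, mul_assoc _ (n 2), ThCl.nz h E (by decide),
      show n 2 * w * (z * n 2) * (n 2 * (w * n 2)) = n 2 * (w * z * (n 2 * n 2) * w) * n 2 by group, bb,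
      mul_one, wz, ← E.z256, mu 256 1 257 (by decide +kernel), mu 2 257 3 (by decide +kernel),
      mu 3 2 1 (by decide +kernel)]
  · rw [wval_rep, show [6, 4, 6, 2] = [6, 4, 6] ++ [2] from rfl, wval_append, e1, e2, ← mul_assoc,
      ← mul_assoc, bb, one_mul, pow_swap h3]
  · rw [show ThST.A0 = rep 3 ([6, 4, 6] ++ [2] ++ [6, 4, 6] ++
        ([6] ++ ([6, 4, 6] ++ [2] ++ [6, 4, 6]) ++ [6])) from rfl,
      wval_rep, wval_append, wval_append _ _ [6], wval_append _ [6], e5, e3, hA]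
  · rw [show ThST.A1 = rep 3 ([6, 4, 6] ++ [2] ++ [6, 4, 6] ++
        ([6] ++ ([6, 4, 6] ++ [2] ++ [6, 4, 6]) ++ [6] ++ [6, 4, 6])) from rfl, wval_rep, wval_append,
      wval_append _ (_ ++ [6]), wval_append _ _ [6], wval_append _ [6], e5, e3, e1, hA]
  · rw [show ThST.A2 = rep 4 ([4] ++ ([6, 4, 6] ++ ([6, 4, 6] ++ [2] ++ [6, 4, 6] ++
        ([6] ++ ([6, 4, 6] ++ [2] ++ [6, 4, 6]) ++ [6])))) from rfl, wval_rep, wval_append, wval_append,
      wval_append, wval_append _ _ [6], wval_append _ [6], e5, e3, e1, e4, hA]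

theorem exists_cz (hB : ∀ w ∈ KB, wval F w = 1) {v : G} (W : SW z n v) (vs : v * F 5 * v⁻¹ = F 5)
    (vt : v * F 6 * v⁻¹ = F 6) : CZ z v F F us3 vs3 := by
  have w1 := wval_single F
  have D0 : CZ z v F F us0 vs0 :=
    .cons (by rw [w1 0, w1 2, S.st.f0, S.st.f2, W.vz]; simp)
      (.cons (by rw [w1 0, w1 2, S.st.f0, S.st.f2, W.vc]; simp)
        (.cons (by rw [w1 5, vs]; simp) (.cons (by rw [w1 6, vt]; simp) .nil)))
  obtain ⟨u, hu, e⟩ := step E C W D0 (r := [0, 18, 20]) s_r (by decide +kernel)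
    (C.colrel E S [] hB _ (by decide +kernel))
  have D1 : CZ z v F F us1 vs1 := by
    simp only [List.mem_cons, List.not_mem_nil, or_false] at hu
    rcases hu with rfl | rfl
    · exact .cons e D0
    have k : v * wval F [0, 18, 20] * v⁻¹ * (v * wval F [0, 18, 20] * v⁻¹) =
        wval F [0, 4, 18, 8] * wval F [0, 4, 18, 8] := by
      rcases (mem_zpowers_two h.zz).1 e with e | e
      · rw [mul_inv_eq_one.1 e]
      · rw [mul_inv_eq_iff_eq_mul.1 e, mul_assoc, ← mul_assoc _ z, cZ (C.M.mem _) (mem_zpowers z),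
          ← mul_assoc, ← mul_assoc, h.zz, one_mul]
    rw [conj_mul, ← wval_append, ← wval_append, C.coleq E S [] hB _ [0] (by decide +kernel),
      C.coleq E S [] hB (_ ++ _) ([0] ++ [4]) (by decide +kernel), wval_append, w1 0, w1 2, S.st.f0,
      S.st.f2, W.vz, right_eq_mul] at k
    exact absurd k h.ne
  obtain ⟨u, hu, e⟩ := step E C W D1 (r := [8]) s_e (by decide +kernel)
    (C.colrel E S [] hB _ (by decide +kernel))
  have D2 : CZ z v F F us2 vs2 := .cons (List.mem_singleton.1 hu ▸ e) D1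
  obtain ⟨u, hu, e⟩ := step E C W D2 (r := [14]) s_u (by decide +kernel)
    (all_append (C.colrel E S [] hB _ (by decide +kernel)) (derive [] hB _ (by decide +kernel)))
  exact .cons (List.mem_singleton.1 hu ▸ e) D2

end Cfsg.Agent.Lib.ThS2
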