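import Cfsg.Agent.Lib.ThS2
import Cfsg.Agent.Lib.ThBase

/-! The defining relations of the Thompson group hold in a group of Thompson type. -/

set_option autoImplicit false
set_option maxRecDepth 100000

namespace Cfsg.Agent.Lib.ThS3

open Subgroup Cfsg.Agent.Lib.PermNet Cfsg.Agent.Lib.Words Cfsg.Agent.Lib.PermGroup Cfsg.Agent.Lib.DCE
  Cfsg.Agent.Lib.BT Cfsg.Agent.Lib.ThDefs Cfsg.Agent.Lib.ThSM Cfsg.Agent.Lib.ThS1 Cfsg.Agent.Lib.ThS2
  Cfsg.Agent.Lib.ThST

variable {G : Type*} [Group G] {z v : G} {Q : Subgroup G} {n : ℕ → G}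
  {φ : centralizer ({z} : Set G) →* Equiv.Perm (Fin 9)} {F : ℕ → G}

theorem wc {y y' : ℕ → G} {L : List ℕ} (h : ∀ i ∈ L, y i = y' i) (w : List ℕ)
    (hw : w.all (fun l => L.contains (l / 2)) = true) : wval y w = wval y' w :=
  congrArg List.prod (List.map_congr_left fun l hl => by
    unfold lval; rw [h _ (by simpa using List.all_eq_true.1 hw l hl)])

theorem cns {y : ℕ → G} {w : List ℕ} {K : List (List ℕ)} (h1 : wval y w = 1) (h2 : ∀ u ∈ K, wval y u = 1) :
    ∀ u ∈ w :: K, wval y u = 1 := List.forall_mem_cons.2 ⟨h1, h2⟩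

abbrev L7 : List ℕ := [0, 2, 3, 4, 5, 6, 7]

theorem up (w : List ℕ) (hw : w.all (fun l => L7.contains (l / 2)) = true) :
    wval (Function.update F 1 v) w = wval F w :=
  wc (fun i hi => Function.update_of_ne ((by decide : ∀ i ∈ L7, i ≠ 1) i hi) _ _) w hw

variable (h : Hyp z Q φ) (E : Enc z Q n) (S : SF φ n F) (C : Cx z n F) (hB : ∀ w ∈ KB, wval F w = 1)
  (W : SW z n v) (D : CZ z v F F us3 vs3)
include h E S C hB W D

theorem relsM : ∀ w ∈ ThTC.KM, wval F w = 1 := by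
  have hL := cardL (derive [3, 4] hB KL (by decide +kernel))
  have : Finite (gp F (sl [3, 4, 5, 6])) := Nat.finite_of_card_ne_zero hL.1
  have x9 := (faithful_of_card C.M.π (L := (gp F (sl [3, 4, 5, 6])).subgroupOf _) (T := 1512)
    (by rw [Nat.card_congr (subgroupOfEquivOfLe (gp_le.2 fun w _ => C.M.mem w)).toEquiv]; exact hL)
    (le_trans (by decide +kernel) (C.M.le_card _ lch lc).1)).2 (wval C.M.y (rep 9 [6, 11, 8]))
    (by
      rw [mem_subgroupOf, C.M.val]
      exact mem_gp_of_lettersIn (us := [_]) (by decide) _ List.mem_cons_self)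
    (C.M.pi_eq (by decide +kernel))
  replace x9 : wval F (rep 9 [6, 11, 8]) = 1 := (C.M.val _).symm.trans (congrArg Subtype.val x9)
  have h1 := orc h E C W D [[0, 0, 9, 7], [1, 3, 0, 2], [3, 11, 11, 1, 10, 10, 2, 11, 11, 0, 10, 10],
    [6, 8, 11, 1, 10, 0, 11, 1, 10, 0, 11, 1, 10, 0, 11, 1, 10, 0]] (by decide +kernel)
  have h2 := sqrel h E C W D S [3, 4] hB [6, 8, 15, 6, 14] [] [9, 7, 15, 9, 7] [2] [] (by decide +kernel)
  have h3 := sqrel h E C W D S [3, 4] hB [6, 11, 11, 14, 10, 10, 6, 11, 11, 14, 10, 10]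
    [11, 11, 9, 7, 5, 6, 8, 10, 10, 10, 9, 7, 5, 6, 8, 11, 7, 5, 6, 5, 1] [14, 7] [11, 0, 10, 12, 4, 11]
    [8, 10, 4, 11, 11, 4, 11, 4, 10, 10] (by decide +kernel)
  have h4 := C.colrel E S [3, 4] (cns x9 hB) [[0, 0], [4, 4], [0, 8, 0, 8],
    [0, 7, 5, 7, 5, 7, 5, 7, 5], [4, 8, 4, 8], [11, 1, 10, 0], [11, 5, 10, 4], [13, 1, 12, 0],
    [13, 5, 12, 4], [15, 1, 14, 0], [15, 5, 14, 4], rep 9 [4, 6, 11, 8]] (by decide +kernel)
  exact derive [3] (cns h2 (cns h3 (all_append hB (all_append h1 h4)))) _ (by decide +kernel)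

omit S hB D in
theorem nH : v ∉ centralizer ({z} : Set G) := fun e => n1 h E (by
  rw [← W.vz, mem_centralizer_singleton_iff.1 e, mul_inv_cancel_right]; exact mem_zpowers z)

theorem relsV (vs : v * F 5 * v⁻¹ = F 5) (vt : v * F 6 * v⁻¹ = F 6)
    (r3 : wval (Function.update F 1 v) (rep 3 [6, 4, 6, 2]) = 1) :
    ∀ w ∈ KV, wval (Function.update F 1 v) w = 1 := by
  have w1 := wval_single F
  have cv : ∀ x y, (x.all (fun l => L7.contains (l / 2)) && y.all fun l => L7.contains (l / 2)) = true →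
      v * wval F x * v⁻¹ = wval F y →
      wval (Function.update F 1 v) ([2 * 1] ++ x ++ [2 * 1] ++ invW y) = 1 := fun x y hb e => by
    rw [Bool.and_eq_true] at hb
    rw [wval_append, wval_append, wval_append, wval_invW, wval_single, Function.update_self, up x hb.1,
      up y hb.2, ← e, inv_eq_of_mul_eq_one_right W.vv, mul_inv_cancel]
  have hM : ∀ w ∈ ThTC.KM, wval (Function.update F 1 v) w = 1 := fun w hw =>
    (up w ((by decide +kernel : ∀ w ∈ ThTC.KM, w.all (fun l => L7.contains (l / 2)) = true) w hw)).trans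
      (relsM h E S C hB W D w hw)
  have c0 := cv [] [] rfl (by simp)
  have c1 := cv [0] [4] rfl (by rw [w1 0, w1 2, S.st.f0, S.st.f2, W.vz])
  have c2 := cv [10] [10] rfl (by rw [w1 5, vs])
  have c3 := cv [12] [12] rfl (by rw [w1 6, vt])
  have c4 := cv [8] [8] rfl (exact h E C W D [2] [2] (by decide +kernel))
  have c5 := cv [4, 6, 4, 7, 8, 6, 4, 7, 9] [4, 6, 4, 7, 10, 8, 6, 4, 7, 9, 10, 8, 6, 4, 7, 9, 11, 11, 12,
    10, 8, 6, 4, 7, 9, 11, 13, 8] rfl (by
    rw [C.coleq E S [] hB _ (subst us3 [4]) (by decide +kernel), exact h E C W D [4]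
      [10, 10, 4, 11, 4, 11, 11, 11, 11, 4, 10, 10, 10, 2] (by decide +kernel)]
    exact C.coleq E S [] hB _ _ (by decide +kernel))
  exact derive [0, 1, 2, 3, 4] (cns c0 (cns c1 (cns c2 (cns c3 (cns c4 (cns c5 (cns r3 hM))))))) _
    (by decide +kernel)

theorem cube (vt : v * F 6 * v⁻¹ = F 6) : (v * wval F [14, 6, 14, 6, 4]) ^ 3 = 1 ∨
    (v * wval F [14, 6, 14, 6, 4]) ^ 3 = wval F [18, 0] := by
  have w1 := wval_single F
  have t3 : wval F [12] ^ 3 = 1 := w1 6 ▸ S.st.t3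
  set x := v * wval F [14, 6, 14, 6, 4] with hx
  have c3 : ∀ {a b c d}, x * a * x⁻¹ = b → x * b * x⁻¹ = c → x * c * x⁻¹ = d → x ^ 3 * a * (x ^ 3)⁻¹ = d :=
    fun h1 h2 h3 => by subst h1 h2 h3; simp [pow_succ, mul_assoc]
  have tv : ∀ e ∈ TV, x * wval F e.1 * x⁻¹ = wval F e.2.1 := fun e he => by
    obtain ⟨b1, b2⟩ := band_eq (allL_all (by decide +kernel : allL (fun e => band (band
      (colB [] KB [([14, 6, 14, 6, 4] ++ e.1 ++ invW [14, 6, 14, 6, 4]) ++ invW (subst us3 e.2.2.1)])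
      (colB [] KB [subst us3 e.2.2.2 ++ invW e.2.1]))
      (band (fx (subst vs3 e.2.2.1 ++ invW (subst us3 e.2.2.2)))
        (fx (subst vs3 e.2.2.2 ++ invW (subst us3 e.2.2.1))))) TV = true) e he)
    rw [← C.coleq E S [] hB _ _ (band_eq b1).2, ← exact h E C W D _ _ b2,
      ← C.coleq E S [] hB _ _ (band_eq b1).1, wval_append, wval_append, wval_invW, hx]
    group
  have t1 := tv ([0], [4], [6], [8]) (by decide)
  have t2 := tv ([4], [4, 18], _, _) (List.mem_cons_of_mem _ List.mem_cons_self)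
  have t4 := tv ([4, 18], [0], [8], [6]) (by decide)
  have yH : x ^ 3 ∈ centralizer ({z} : Set G) := mem_centralizer_singleton_iff.2
    (mul_inv_eq_iff_eq_mul.1 (S.st.f0 ▸ w1 0 ▸ c3 t1 t2 t4))
  obtain ⟨u, hu, y, hy, e⟩ := C.M.find C.ch s_y (by decide) yH
    (C.fix1 E yH (mul_inv_eq_iff_eq_mul.1 (S.st.f2 ▸ w1 2 ▸ c3 t2 t4 t1)))
    (comm_pairs _ fun w hw => by
      obtain ⟨e, he, rfl⟩ := List.mem_map.1 hw
      obtain ⟨b1, b2⟩ := band_eq (allL_all (by decide +kernel : allL (fun e => band (band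
        (fx ([14, 6, 14, 6, 4] ++ e.1 ++ [12] ++ invW ([14, 6, 14, 6, 4] ++ e.1) ++
          invW (subst us3 e.2.1 ++ [12] ++ invW (subst us3 e.2.1))))
        (fx ([14, 6, 14, 6, 4] ++ subst vs3 e.2.1 ++ [12] ++ invW ([14, 6, 14, 6, 4] ++ subst vs3 e.2.1) ++
          invW (subst us3 e.2.2.1 ++ [12] ++ invW (subst us3 e.2.2.1))))) (band
        (fx ([14, 6, 14, 6, 4] ++ subst vs3 e.2.2.1 ++ [12] ++ invW ([14, 6, 14, 6, 4] ++
          subst vs3 e.2.2.1) ++ invW (subst us3 e.2.2.2 ++ [12] ++ invW (subst us3 e.2.2.2))))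
        (fx (subst vs3 e.2.2.2 ++ [12] ++ invW (subst vs3 e.2.2.2) ++ invW (e.1 ++ [12] ++ invW e.1)))))
        CH = true) e he)
      have k := ctstep h C D t3 (w1 6 ▸ vt) [14, 6, 14, 6, 4]
      rw [wval_append, wval_append, wval_invW, ← mul_inv_eq_iff_eq_mul,
        c3 (k _ _ (band_eq b1).1) (k _ _ (band_eq b1).2) (k _ _ (band_eq b2).1)]
      exact C.M.rigid h.zz (fun g hg => mem_centralizer_singleton_iff.1 hg) 1 _ _ _ _ t3 t3 (band_eq b2).2)
    (by simp) (by simp)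
  obtain ⟨u', h1, e⟩ : ∃ u' ∈ TV.map Prod.fst, x ^ 3 = wval F u' := by
    have := (by decide : ∀ u ∈ [[], [4], [18], [4, 18]], u ∈ TV.map Prod.fst ∧ u ++ [0] ∈ TV.map Prod.fst)
      u (memLL_mem hu)
    rcases (mem_zpowers_two h.zz).1 hy with rfl | rfl
    · exact ⟨u, this.1, by rw [e, mul_one]; rfl⟩
    · exact ⟨_, this.2, by rw [e, wval_append, w1 0, S.st.f0]; rfl⟩
  obtain ⟨a, ha, rfl⟩ := List.mem_map.1 h1
  have k := tv a ha
  obtain ⟨a1, a2, a3⟩ := (by decide +kernel : ∀ a ∈ TV, nq a.1 = [] ∧ nq a.2.1 = [] ∧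
    (col a.1 0 = col a.2.1 0 → a.1 = [] ∨ a.1 = [18, 0])) a ha
  rw [← e, ← pow_succ', pow_succ, mul_inv_cancel_right, e, C.colv E S, C.colv E S a.2.1, a1, a2,
    mul_left_inj] at k
  rw [e]
  exact (a3 (E.inj _ (C.col_eq E S _ (by decide)).1 _ (C.col_eq E S _ (by decide)).1 k)).imp
    (fun e => by rw [e, wval_nil]) fun e => by rw [e]

omit hB W D in
theorem main [Finite G] (hO : ∀ w ∈ KO, wval F w = 1) {g : G} (gz : g * z * g⁻¹ = n 257)
    (gc : g * n 1 * g⁻¹ = n 1) : ∃ f : ℕ → G, (∀ w ∈ ThBase.K, wval f w = 1) ∧ (∀ i ∈ L7, f i = F i) ∧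
      (∃ w, lt2 8 w = true ∧ wval f w * z * (wval f w)⁻¹ = n 1) ∧
      ∃ w, lt2 8 w = true ∧ wval f w * z * (wval f w)⁻¹ = F 3 := by
  have hB := base h S C hO
  obtain ⟨v, W, vs, vt, r3, hA⟩ := exists_v h E S C hB gz gc
  have D := exists_cz h E S C hB W vs vt
  have hV := relsV h E S C hB W D vs vt r3
  have hP : ∀ w ∈ [[0], [4], [6], [8], [10], [12]], wval (Function.update F 1 v) w ∈
      centralizer ({z} : Set G) := fun w hw => by
    rw [up w (by revert w; decide)]; exact C.M.mem w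
  have hA := (hA.resolve_right (not_or.2 ⟨
    fun e => nH h E C W (by simpa using col (b1 _ (cns e hV)) hP (by decide)),
    fun e => nH h E C W (by simpa using col (b2 _ (cns e hV)) hP (by decide))⟩))
  obtain ⟨m0, m1⟩ := List.forall_mem_cons.1 (mstep (cns hA hV))
  have hK1 := rels_of_subst _ _ m1
  rw [show (3 : ℕ) = 2 * 1 + 1 from rfl, wval_odd, Function.update_self, wval_subst, inv_mul_eq_one] at m0
  set f := fun i => wval (Function.update F 1 v) (Bw.getD i []) with hf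
  have tf : ∀ i ∈ L7, f i = F i := fun i hi => by
    obtain ⟨a, b⟩ := (by decide : ∀ i ∈ L7, Bw.getD i [] = [2 * i] ∧ i ≠ 1) i hi
    rw [hf]
    exact (congrArg _ a).trans ((wval_single _ i).trans (Function.update_of_ne b _ _))
  clear_value f
  have hM : ∀ w ∈ ThTC.KM, wval f w = 1 := fun w hw => (wc tf w ((by decide +kernel : ∀ w ∈ ThTC.KM,
    w.all (fun l => L7.contains (l / 2)) = true) w hw)).trans (relsM h E S C hB W D w hw)
  have vi := inv_eq_of_mul_eq_one_right W.vv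
  have r1 : wval f ([15] ++ invW [2, 0, 4, 2] ++ [14] ++ [2, 0, 4, 2] ++ [9]) = 1 := by
    have := exact h E C W D [0] [0, 2] (by decide +kernel)
    rw [wval_append, wval_append, wval_append, wval_append, wval_invW, ← m0, wc tf [15] rfl, wc tf [14] rfl,
      wc tf [9] rfl, vi, mul_assoc (wval F [15]), mul_assoc (wval F [15])]
    rw [vi] at this
    exact (congrArg (wval F [15] * · * wval F [9]) this).trans (by simp [wval, lval, subst, us3, us2])
  have hK := cns r1 (all_append hK1 hM)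
  have hE := rels_of_subst [[0], [2], [4], [6], [8], [14]] KE (derive [1] hK _ (by decide +kernel))
  have ey : wval f (rep 3 ([2, 0, 4, 2] ++ [14, 6, 14, 6, 4])) = (v * wval F [14, 6, 14, 6, 4]) ^ 3 := by
    rw [wval_rep, wval_append, ← m0, wc tf _ rfl]
  have hy := (cube h E S C hB W D vt).resolve_right fun e => nH h E C W (by
    have hb := col (H := centralizer {z}) (b4 _ (cns (by
      rw [← wval_subst, show subst _ Y1 = rep 3 ([2, 0, 4, 2] ++ [14, 6, 14, 6, 4]) ++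
        [7, 15, 7, 5, 7, 14, 7, 5, 1] from rfl, wval_append, ey, e, wc tf _ rfl, ← wval_append]
      exact C.colrel E S [3] hB [_] (by decide +kernel) _ List.mem_cons_self) hE)) (fun w hw => by
      rw [← wval_subst, wc tf _ (by revert w; decide)]; exact C.M.mem _) (by decide)
    rw [m0]
    refine wval_mem fun l hl => ?_
    rcases (by decide : ∀ l ∈ [2, 0, 4, 2], l / 2 = 1 ∨ l / 2 ∈ L7) l hl with e | e
    · rw [e, ← wval_single f]; exact hb
    · rw [tf _ e]; exact C.M.lmem _)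
  have hD := dstep (cns ((wval_subst _ _ _).symm.trans (ey.trans hy)) hE)
  have hD' : ∀ w ∈ RD.map (subst [[0], [2], [4], [6], [8], [14]]), wval f w = 1 := fun w hw => by
    obtain ⟨u, hu, rfl⟩ := List.mem_map.1 hw
    exact (wval_subst _ _ _).trans (hD u hu)
  refine ⟨f, derive [0, 1, 2, 3, 4] (all_append hK hD') _ (by decide +kernel), tf,
    ⟨_, by decide, m0 ▸ W.vz⟩, [4, 6, 15, 2, 14, 2, 4, 6, 2, 15, 2], by decide, ?_⟩
  rw [← S.st.f0, ← tf 0 (by decide), ← tf 3 (by decide), ← wval_single f 0, ← wval_single f 3, ← wval_invW,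
    ← wval_append, ← wval_append]
  exact derive_eq [] hD' _ _ (by decide +kernel)

end Cfsg.Agent.Lib.ThS3
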