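import Cfsg.Agent.Lib.TrCtrl

/-!
The averaging argument of Wielandt and Glauberman: a homomorphism on a `p`-subgroup invariant under a subgroup `M`
is invariant under the whole group when a suitable `p`-subgroup acts with small degree.
-/

set_option autoImplicit false

namespace Cfsg.Agent.Lib.TrAvg

open Subgroup Cfsg Cfsg.Agent.Lib.PCoreConj Cfsg.Agent.Lib.PCore Cfsg.Agent.Lib.PCoreResidual
open scoped Pointwise commutatorElement

local notation "C(" X ")" => centralizer (SetLike.coe (X : Subgroup _))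
local notation "N(" X ")" => normalizer (SetLike.coe (X : Subgroup _))

universe u

variable {G : Type*} [Group G] {p : ℕ} [hp : Fact p.Prime]

theorem exists_max [Finite G] {T R : Subgroup G} (hR : IsPGroup p R) (h : T < R) :
    ∃ R₁, T ≤ R₁ ∧ R₁ < R ∧ R ≤ N(R₁) ∧ ∀ g ∈ R, g ∉ R₁ →
      (∀ r ∈ R, ∃ i < p, ∃ s ∈ R₁, r = g ^ i * s) ∧ ∀ i, g ^ i ∈ R₁ → p ∣ i := by
  obtain ⟨R₁, ⟨h₁, h₂⟩, hmax⟩ := exists_maximal_of_wellFoundedGT (fun K : Subgroup G => T ≤ K ∧ K < R)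
    ⟨T, le_rfl, h⟩
  have key : ∀ K, R₁ ≤ K → K ≤ R → K = R ∨ K ≤ R₁ := fun K a b =>
    b.eq_or_lt.imp_right fun c => hmax ⟨h₁.trans a, c⟩ a
  have hn : R ≤ N(R₁) := by
    have := lt_inf_normalizer hR h₂
    rcases key _ this.le inf_le_left with e | e
    · exact e.ge.trans inf_le_right
    · exact absurd e this.not_ge
  refine ⟨R₁, h₁, h₂, hn, fun g hg hg₁ => ?_⟩
  obtain ⟨k, hk⟩ := isPGroup_iff_forall_orderOf.mp hR g hg
  have hc : ∀ i, g ^ i ∈ R₁ → p ∣ i := fun i hi => by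
    by_contra hd
    exact hg₁ (mem_of_pow_mem_of_coprime (hk ▸ Nat.Coprime.pow_left k
      ((Nat.Prime.coprime_iff_not_dvd hp.out).mpr hd)) hi)
  have hs : ∀ x ∈ R, x ∉ R₁ → ∀ r ∈ R, ∃ i : ℕ, ∃ s ∈ R₁, r = x ^ i * s := fun x hx hx₁ r hr => by
    rcases key (zpowers x ⊔ R₁) le_sup_right (sup_le (zpowers_le.mpr hx) h₂.le) with e | e
    · obtain ⟨a, ha, s, hs, rfl⟩ := (mem_sup_iff_of_le_normalizer ((zpowers_le.mpr hx).trans hn)).mp (e.ge hr)
      obtain ⟨i, rfl⟩ := mem_powers_iff_mem_zpowers.mpr ha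
      exact ⟨i, s, hs, rfl⟩
    · exact absurd (e (mem_sup_left (mem_zpowers x))) hx₁
  have hgp : g ^ p ∈ R₁ := by
    by_contra hx
    obtain ⟨i, s, hs, e⟩ := hs _ (pow_mem hg p) hx g⁻¹ (inv_mem hg)
    have : g ^ (p * i + 1) ∈ R₁ := by
      have e' : g ^ (p * i + 1) = g⁻¹ * s⁻¹ * g := by
        rw [pow_succ, pow_mul, eq_mul_inv_of_mul_eq e.symm]
      rw [e']
      simpa using (mem_normalizer_iff.mp (inv_mem (hn hg)) _).mp (inv_mem hs)
    exact hp.out.ne_one (Nat.dvd_one.mp ((Nat.dvd_add_right (dvd_mul_right p i)).mp (hc _ this)))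
  refine ⟨fun r hr => ?_, hc⟩
  obtain ⟨i, s, hs, rfl⟩ := hs g hg hg₁ r hr
  refine ⟨i % p, Nat.mod_lt _ hp.out.pos, (g ^ p) ^ (i / p) * s, mul_mem (pow_mem hgp _) hs, ?_⟩
  rw [← mul_assoc, ← pow_mul, ← pow_add, Nat.mod_add_div]

/-- sums over a fixed point free action of a `p`-group split into strings of length `p` -/
theorem sum_mem_of_free [Finite G] {X A : Type*} [MulAction G X] [AddCommGroup A] {R : Subgroup G} (hR : IsPGroup p R)
    (Γ : Set G) (hΓ : ∀ R₁ < R, ∃ g ∈ Γ, g ∈ R ∧ g ∉ R₁) (B : AddSubgroup A) (f : X → A) (s : Finset X)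
    (h₁ : ∀ r ∈ R, ∀ ω ∈ s, r • ω ∈ s) (h₂ : ∀ ω ∈ s, ∃ r ∈ R, r • ω ≠ ω)
    (h₃ : ∀ g ∈ Γ, g ∈ R → ∀ ω ∈ s, ∑ i ∈ Finset.range p, f (g ^ i • ω) ∈ B) : ∑ ω ∈ s, f ω ∈ B := by
  classical
  induction s using Finset.strongInduction with | H s ih => ?_
  rcases s.eq_empty_or_nonempty with rfl | ⟨ω₀, h₀⟩
  · simp
  obtain ⟨R₁, a₁, a₂, a₃, a₄⟩ := exists_max hR (T := R ⊓ MulAction.stabilizer G ω₀)
    (lt_of_le_of_ne inf_le_left fun e => by
      obtain ⟨r, hr, h⟩ := h₂ ω₀ h₀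
      exact h (e.ge hr).2)
  obtain ⟨g, hg, hgR, hg₁⟩ := hΓ R₁ a₂
  obtain ⟨b₁, b₂⟩ := a₄ g hgR hg₁
  let O := s.filter fun ω => ∃ r ∈ R, r • ω₀ = ω
  let O₁ := s.filter fun ω => ∃ r ∈ R₁, r • ω₀ = ω
  have hO : O ⊆ s := Finset.filter_subset _ _
  rw [← Finset.sum_sdiff hO]
  refine add_mem (ih _ (Finset.sdiff_ssubset hO ⟨ω₀, Finset.mem_filter.mpr ⟨h₀, 1, one_mem _, one_smul _ _⟩⟩)
    (fun r hr ω hω => ?_) (fun ω hω => h₂ ω (Finset.mem_sdiff.mp hω).1)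
    fun g hg hgR ω hω => h₃ g hg hgR ω (Finset.mem_sdiff.mp hω).1) ?_
  · rw [Finset.mem_sdiff] at hω ⊢
    refine ⟨h₁ r hr ω hω.1, fun h => hω.2 ?_⟩
    obtain ⟨-, r', hr', e⟩ := Finset.mem_filter.mp h
    exact Finset.mem_filter.mpr ⟨hω.1, r⁻¹ * r', mul_mem (inv_mem hr) hr', by rw [mul_smul, e, inv_smul_smul]⟩
  have : ∑ ω ∈ O, f ω = ∑ x ∈ O₁ ×ˢ Finset.range p, f (g ^ x.2 • x.1) := by
    refine (Finset.sum_bij (fun x _ => g ^ x.2 • x.1) ?_ ?_ ?_ fun _ _ => rfl).symm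
    · rintro ⟨ω, i⟩ hx
      obtain ⟨hω, r, hr, rfl⟩ := Finset.mem_filter.mp (Finset.mem_product.mp hx).1
      exact Finset.mem_filter.mpr ⟨h₁ _ (pow_mem hgR i) _ hω, _, mul_mem (pow_mem hgR i) (a₂.le hr), mul_smul _ _ _⟩
    · have aux : ∀ i j, i ≤ j → j < p → ∀ r ∈ R₁, ∀ r' ∈ R₁, g ^ i • r • ω₀ = g ^ j • r' • ω₀ → i = j := by
        intro i j hij hj r hr r' hr' e
        obtain ⟨d, rfl⟩ := Nat.exists_eq_add_of_le hij
        rw [pow_add, mul_smul, smul_left_cancel_iff] at e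
        have : r⁻¹ * g ^ d * r' ∈ R₁ := a₁ (mem_inf.mpr
          ⟨mul_mem (mul_mem (inv_mem (a₂.le hr)) (pow_mem hgR d)) (a₂.le hr'),
          by rw [MulAction.mem_stabilizer_iff, mul_smul, mul_smul, ← e, inv_smul_smul]⟩)
        rw [mul_mem_cancel_right hr', mul_mem_cancel_left (inv_mem hr)] at this
        have := Nat.eq_zero_of_dvd_of_lt (b₂ d this) (by omega)
        omega
      rintro ⟨ω, i⟩ hx ⟨ω', j⟩ hy e
      obtain ⟨-, r, hr, rfl⟩ := Finset.mem_filter.mp (Finset.mem_product.mp hx).1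
      obtain ⟨-, r', hr', rfl⟩ := Finset.mem_filter.mp (Finset.mem_product.mp hy).1
      have hi := Finset.mem_range.mp (Finset.mem_product.mp hx).2
      have hj := Finset.mem_range.mp (Finset.mem_product.mp hy).2
      obtain rfl : i = j := (le_total i j).elim (fun h => aux i j h hj r hr r' hr' e)
        fun h => (aux j i h hi r' hr' r hr e.symm).symm
      exact Prod.ext (smul_left_cancel _ e) rfl
    · intro ω hω
      obtain ⟨-, r, hr, rfl⟩ := Finset.mem_filter.mp hω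
      obtain ⟨i, hi, t, ht, rfl⟩ := b₁ r hr
      exact ⟨(t • ω₀, i), Finset.mem_product.mpr ⟨Finset.mem_filter.mpr ⟨h₁ t (a₂.le ht) _ h₀, t, ht, rfl⟩,
        Finset.mem_range.mpr hi⟩, (mul_smul _ _ _).symm⟩
  rw [this, Finset.sum_product]
  exact sum_mem fun ω hω => h₃ g hg hgR ω (Finset.mem_filter.mp hω).1

omit hp in
theorem sum_range_eq {A : Type*} [AddCommGroup A] (a : ℕ → ℕ → A)
    (h : ∀ i j, a (i + 1) j = a i j + a i (j + 1)) (n j : ℕ) :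
    ∑ i ∈ Finset.range n, a i j = ∑ k ∈ Finset.range n, n.choose (k + 1) • a 0 (j + k) := by
  induction n generalizing j with
  | zero => simp
  | succ n ih =>
    rw [Finset.sum_range_succ']
    simp only [h, Finset.sum_add_distrib, ih, Nat.choose_succ_succ', add_smul]
    rw [Finset.sum_range_succ' (fun k => n.choose k • a 0 (j + k)), Finset.sum_range_succ, Nat.choose_succ_self]
    simp only [add_assoc, add_comm 1, Nat.choose_zero_right, one_smul, add_zero, zero_smul]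
    abel

omit hp in
theorem exists_model {G : Type u} [Group G] {U D : Subgroup G} (h : ⁅U, U⁆ ≤ D) :
    ∃ (A : Type u) (_ : AddCommGroup A) (φ : G → A), (∀ u ∈ U, ∀ v ∈ U, φ (u * v) = φ u + φ v) ∧
      ∀ u ∈ U, φ u = 0 ↔ u ∈ D := by
  classical
  let D' := (D.subgroupOf U).map Abelianization.of
  let ψ : U →* Abelianization U ⧸ D' := (QuotientGroup.mk' D').comp Abelianization.of
  refine ⟨Additive (Abelianization U ⧸ D'), inferInstance,
    fun g => if hg : g ∈ U then Additive.ofMul (ψ ⟨g, hg⟩) else 0, fun u hu v hv => ?_, fun u hu => ?_⟩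
  · simp only [dif_pos hu, dif_pos hv, dif_pos (mul_mem hu hv), ← ofMul_mul, ← map_mul]
    rfl
  · simp only [dif_pos hu, ofMul_eq_zero]
    change (⟨u, hu⟩ : U) ∈ ψ.ker ↔ _
    rw [← MonoidHom.comap_ker, QuotientGroup.ker_mk', comap_map_eq, Abelianization.ker_of, sup_eq_left.mpr]
    · rfl
    · intro x hx
      exact h ((TrCtrl.map_top_comm U).le (mem_map_of_mem _ hx))

omit hp in
theorem iter_mem {U : Subgroup G} {g u : G} (hg : g ∈ N(U)) (hu : u ∈ U) (k : ℕ) :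
    (fun y => ⁅g, y⁆)^[k] u ∈ U := by
  induction k with
  | zero => exact hu
  | succ k ih =>
    rw [Function.iterate_succ_apply']
    exact mul_mem ((mem_normalizer_iff.mp hg _).mp ih) (inv_mem ih)

omit hp in
theorem iter_mem_of_le {U : Subgroup G} {g u : G} (hg : g ∈ N(U)) {k n : ℕ} (h : k ≤ n)
    (hu : (fun y => ⁅g, y⁆)^[k] u ∈ U) : (fun y => ⁅g, y⁆)^[n] u ∈ U := by
  obtain ⟨d, rfl⟩ := Nat.exists_eq_add_of_le' h
  rw [Function.iterate_add_apply]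
  exact iter_mem hg hu d

theorem sum_cosets [Finite G] {L M R : Subgroup G} (Γ : Set G) (hRL : R ≤ L) (hRM : R ≤ M) (hR : IsPGroup p R)
    (hΓ : ∀ R₁ < R, ∃ g ∈ Γ, g ∈ R ∧ g ∉ R₁) (hfix : ∀ x ∈ L, (∀ r ∈ R, x⁻¹ * r * x ∈ M) → x ∈ M)
    [Fintype (L ⧸ M.subgroupOf L)] [DecidableEq (L ⧸ M.subgroupOf L)] {A : Type*} [AddCommGroup A]
    (B : AddSubgroup A) (f : L ⧸ M.subgroupOf L → A)
    (hf : ∀ g : L, (g : G) ∈ Γ → (g : G) ∈ R → ∀ ω, ∑ i ∈ Finset.range p, f (g ^ i • ω) ∈ B) :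
    ∑ ω ∈ Finset.univ.erase ((1 : L) : L ⧸ M.subgroupOf L), f ω ∈ B := by
  have hfix' : ∀ r : L, (r : G) ∈ R → r • ((1 : L) : L ⧸ M.subgroupOf L) = ((1 : L) : L ⧸ M.subgroupOf L) :=
    fun r hr => QuotientGroup.eq.mpr (by simpa [mem_subgroupOf] using hRM hr)
  refine sum_mem_of_free (isPGroup_subgroupOf hR L) {g : L | (g : G) ∈ Γ} (fun R₁ h => ?_) B f _
    (fun r hr ω hω => ?_) (fun ω hω => ?_) fun g hg hgR ω _ => hf g hg hgR ω
  · obtain ⟨g, h₁, h₂, h₃⟩ := hΓ (R₁.map L.subtype) (by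
      rw [← subgroupOf_map_subtype_of_le hRL]
      exact (map_lt_map_iff_of_injective L.subtype_injective).mpr h)
    exact ⟨⟨g, hRL h₂⟩, h₁, h₂, fun e => h₃ (mem_map_of_mem _ e)⟩
  · rw [Finset.mem_erase] at hω ⊢
    exact ⟨fun e => hω.1 (smul_left_cancel r (e.trans (hfix' r hr).symm)), Finset.mem_univ _⟩
  · by_contra! hn
    obtain ⟨x, rfl⟩ := QuotientGroup.mk_surjective ω
    refine (Finset.mem_erase.mp hω).1 (QuotientGroup.eq.mpr ?_)
    rw [mul_one, mem_subgroupOf]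
    refine inv_mem (hfix x x.2 fun r hr => ?_)
    have := QuotientGroup.eq.mp (hn ⟨r, hRL hr⟩ hr).symm
    simpa [mem_subgroupOf, mul_assoc] using this

/-- the averaging step, for an additive function -/
theorem avg [Finite G] {A : Type*} [AddCommGroup A] {φ : G → A} {L M U U₀ R : Subgroup G} (Γ : Set G)
    (hU : L ≤ N(U)) (hUp : IsPGroup p U) (hadd : ∀ u ∈ U, ∀ v ∈ U, φ (u * v) = φ u + φ v)
    (hM : ∀ m ∈ L, m ∈ M → ∀ u ∈ U, φ (m⁻¹ * u * m) = φ u)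
    (h₀ : ∀ l ∈ L, ∀ u ∈ U₀, φ (l⁻¹ * u * l) = φ u) (hRL : R ≤ L) (hRM : R ≤ M) (hR : IsPGroup p R)
    (hΓ : ∀ R₁ < R, ∃ g ∈ Γ, g ∈ R ∧ g ∉ R₁) (hfix : ∀ x ∈ L, (∀ r ∈ R, x⁻¹ * r * x ∈ M) → x ∈ M)
    (hdeg : ∀ g ∈ Γ, g ∈ R → ∀ u ∈ U, (fun y => ⁅g⁻¹, y⁆)^[p - 1] u ∈ U₀) :
    ∀ l ∈ L, ∀ u ∈ U, φ (l⁻¹ * u * l) = φ u := by
  classical
  have cj : ∀ l ∈ L, ∀ u ∈ U, l⁻¹ * u * l ∈ U := fun l hl u hu => by
    simpa using (mem_normalizer_iff.mp (inv_mem (hU hl)) u).mp hu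
  let δ : G → G → A := fun x u => φ (x⁻¹ * u * x) - φ u
  have dadd : ∀ x ∈ L, ∀ u ∈ U, ∀ v ∈ U, δ x (u * v) = δ x u + δ x v := fun x hx u hu v hv => by
    have : x⁻¹ * (u * v) * x = (x⁻¹ * u * x) * (x⁻¹ * v * x) := by group
    simp only [δ, this, hadd _ (cj x hx u hu) _ (cj x hx v hv), hadd u hu v hv]
    abel
  let B : AddSubgroup A := AddSubgroup.closure {a | ∃ x ∈ L, ∃ u ∈ U, δ x u = a}
  let B' : AddSubgroup A := B.map (nsmulAddMonoidHom p)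
  have hB : ∀ x ∈ L, ∀ u ∈ U, δ x u ∈ B := fun x hx u hu => AddSubgroup.subset_closure ⟨x, hx, u, hu, rfl⟩
  have str : ∀ g ∈ Γ, g ∈ R → ∀ x ∈ L, ∀ u ∈ U, ∑ i ∈ Finset.range p, δ (g ^ i * x) u ∈ B' := by
    intro g hg hgR x hx u hu
    have hgU := hU (inv_mem (hRL hgR))
    have hL : ∀ i, g ^ i * x ∈ L := fun i => mul_mem (pow_mem (hRL hgR) i) hx
    have := sum_range_eq (fun i j => δ (g ^ i * x) ((fun y => ⁅g⁻¹, y⁆)^[j] u)) (fun i j => by
      have hy := iter_mem hgU hu j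
      rw [Function.iterate_succ_apply', add_comm (δ _ _),
        ← dadd _ (hL i) _ (by simpa only [Function.iterate_succ_apply'] using iter_mem hgU hu (j + 1)) _ hy]
      generalize (fun y => ⁅g⁻¹, y⁆)^[j] u = y at hy
      have e₁ : ⁅g⁻¹, y⁆ * y = g⁻¹ * y * g := by simp only [commutatorElement_def]; group
      simp only [δ, e₁, hM g (hRL hgR) (hRM hgR) y hy]
      congr 2
      rw [pow_succ']
      group) p 0
    simp only [Function.iterate_zero_apply] at this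
    rw [this]
    refine sum_mem fun k hk => ?_
    rcases (Nat.succ_le_of_lt (Finset.mem_range.mp hk)).eq_or_lt with e | e
    · have e' : 0 + k = p - 1 := by omega
      rw [e']
      simp only [δ, h₀ _ (hL 0) _ (hdeg g hg hgR u hu), sub_self, smul_zero, zero_mem]
    · obtain ⟨c, hc⟩ := hp.out.dvd_choose_self (Nat.succ_ne_zero k) e
      rw [hc, mul_smul]
      exact ⟨_, nsmul_mem (hB _ (hL 0) _ (iter_mem hgU hu _)) c, rfl⟩
  let X := L ⧸ M.subgroupOf L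
  haveI : Fintype X := Fintype.ofFinite X
  let F : X → G → A := fun ω u => δ (ω.out : L) u
  have hF : ∀ (x : L), ∀ u ∈ U, F (x : X) u = δ x u := fun x u hu => by
    obtain ⟨m, hm⟩ := QuotientGroup.mk_out_eq_mul (M.subgroupOf L) x
    simp only [F, δ, hm, coe_mul]
    congr 1
    rw [← hM _ (m : L).2 m.2 _ (cj x x.2 u hu)]
    congr 1
    group
  have hs : ∀ (l : L) (ω : X), l • ω = ((l * ω.out : L) : X) := fun l ω => by
    conv_lhs => rw [← ω.out_eq']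
    rfl
  have hn : ∃ c : ℕ, Fintype.card X = p * c + 1 := by
    have := sum_cosets Γ hRL hRM hR hΓ hfix (⊥ : AddSubgroup (ZMod p)) (fun _ => 1) fun _ _ _ _ => by simp
    rw [AddSubgroup.mem_bot, Finset.sum_const, Finset.card_erase_of_mem (Finset.mem_univ _), nsmul_one,
      ZMod.natCast_eq_zero_iff] at this
    obtain ⟨c, hc⟩ := this
    have := Fintype.card_pos (α := X)
    exact ⟨c, by rw [Finset.card_univ] at hc; exact (Nat.sub_add_cancel this).symm.trans (by rw [← hc])⟩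
  have tot : ∀ u ∈ U, ∑ ω : X, F ω u ∈ B' := fun u hu => by
    rw [← Finset.add_sum_erase _ _ (Finset.mem_univ ((1 : L) : X)), hF 1 u hu]
    refine add_mem (by simp [δ]) (sum_cosets Γ hRL hRM hR hΓ hfix B' _ fun g hg hgR ω => ?_)
    simp only [hs, hF _ u hu, coe_mul, coe_pow]
    exact str g hg hgR _ ω.out.2 u hu
  have step : ∀ x ∈ L, ∀ u ∈ U, δ x u ∈ B' := fun x hx u hu => by
    obtain ⟨c, hc⟩ := hn
    have e : ∑ ω : X, F ω u = ∑ ω : X, (F ω (x⁻¹ * u * x) + δ x u) := by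
      rw [← Equiv.sum_comp (MulAction.toPerm (⟨x, hx⟩ : L))]
      refine Finset.sum_congr rfl fun ω _ => ?_
      rw [MulAction.toPerm_apply, hs, hF _ u hu]
      simp only [F, δ, coe_mul, sub_add_sub_cancel]
      congr 2
      group
    rw [Finset.sum_add_distrib, Finset.sum_const, Finset.card_univ, hc, add_smul, one_smul, mul_smul] at e
    have := sub_mem (sub_mem (tot u hu) (tot _ (cj x hx u hu)))
      (show p • c • δ x u ∈ B' from ⟨_, nsmul_mem (hB x hx u hu) c, rfl⟩)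
    rwa [e, add_sub_cancel_left, add_sub_cancel_left] at this
  have hBB : B ≤ B' := (AddSubgroup.closure_le _).mpr (by rintro _ ⟨x, hx, u, hu, rfl⟩; exact step x hx u hu)
  have pw : ∀ k : ℕ, ∀ b ∈ B, ∃ b' ∈ B, b = p ^ k • b' := fun k => by
    induction k with
    | zero => exact fun b hb => ⟨b, hb, by simp⟩
    | succ k ih =>
      intro b hb
      obtain ⟨b', hb', rfl⟩ := ih b hb
      obtain ⟨b'', hb'', rfl⟩ := hBB hb'
      exact ⟨b'', hb'', by rw [pow_succ, mul_smul]; rfl⟩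
  obtain ⟨k, hk⟩ := IsPGroup.iff_card.mp hUp
  have h1 : φ 1 = 0 := by simpa using hadd 1 (one_mem _) 1 (one_mem _)
  have hpow : ∀ u ∈ U, ∀ n : ℕ, φ (u ^ n) = n • φ u := fun u hu n => by
    induction n with
    | zero => simpa using h1
    | succ n ih => rw [pow_succ, hadd _ (pow_mem hu n) _ hu, ih, succ_nsmul]
  have kill : ∀ u ∈ U, p ^ k • φ u = 0 := fun u hu => by
    rw [← hpow u hu, ← hk, ← h1]
    exact congrArg φ (congrArg Subtype.val (pow_card_eq_one' (x := (⟨u, hu⟩ : U))))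
  have kill' : B ≤ (nsmulAddMonoidHom (p ^ k)).ker := (AddSubgroup.closure_le _).mpr (by
    rintro _ ⟨x, hx, u, hu, rfl⟩
    change p ^ k • (φ (x⁻¹ * u * x) - φ u) = 0
    rw [smul_sub, kill _ (cj x hx u hu), kill u hu, sub_self])
  intro l hl u hu
  obtain ⟨b, hb, e⟩ := pw k _ (hB l hl u hu)
  exact sub_eq_zero.mp (e.trans (kill' hb))

/-- the averaging step -/
theorem avg_step [Finite G] {L M U U₀ R D : Subgroup G} (Γ : Set G)
    (hU : L ≤ N(U)) (hUp : IsPGroup p U) (hD : ⁅U, U⁆ ≤ D)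
    (hM : ∀ m ∈ L, m ∈ M → ∀ u ∈ U, ⁅m, u⁆ ∈ D) (hU₀ : U₀ ≤ U)
    (h₀ : ∀ l ∈ L, ∀ u ∈ U₀, ⁅l, u⁆ ∈ D) (hRL : R ≤ L) (hRM : R ≤ M) (hR : IsPGroup p R)
    (hΓ : ∀ R₁ < R, ∃ g ∈ Γ, g ∈ R ∧ g ∉ R₁) (hfix : ∀ x ∈ L, (∀ r ∈ R, x⁻¹ * r * x ∈ M) → x ∈ M)
    (hdeg : ∀ g ∈ Γ, g ∈ R → ∀ u ∈ U, (fun y => ⁅g⁻¹, y⁆)^[p - 1] u ∈ U₀) :
    ∀ l ∈ L, ∀ u ∈ U, ⁅l, u⁆ ∈ D := by
  obtain ⟨A, _, φ, hadd, hk⟩ := exists_model hD
  have key : ∀ l ∈ L, ∀ u ∈ U, φ (l⁻¹ * u * l) = φ u ↔ ⁅l⁻¹, u⁆ ∈ D := fun l hl u hu => by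
    have h : ⁅l⁻¹, u⁆ ∈ U := iter_mem (hU (inv_mem hl)) hu 1
    have e₁ : l⁻¹ * u * l = ⁅l⁻¹, u⁆ * u := by simp only [commutatorElement_def]; group
    rw [e₁, hadd _ h _ hu, add_eq_right, hk _ h]
  intro l hl u hu
  have := avg Γ hU hUp hadd (fun m h₁ h₂ u hu => (key m h₁ u hu).mpr (hM _ (inv_mem h₁) (inv_mem h₂) u hu))
    (fun l hl u hu => (key l hl u (hU₀ hu)).mpr (h₀ _ (inv_mem hl) u hu)) hRL hRM hR hΓ hfix hdeg _ (inv_mem hl) u hu
  simpa using (key _ (inv_mem hl) u hu).mp this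

end Cfsg.Agent.Lib.TrAvg
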