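import Cfsg.Agent.Lib.FusionControl
import Cfsg.Agent.Lib.PMinimal

/-!
Control of transfer by a characteristic functor: reduction to `p`-minimal groups of characteristic `p`.
-/

set_option autoImplicit false

namespace Cfsg.Agent.Lib.TrCtrl

open Subgroup Cfsg Cfsg.Agent.Lib.PCoreConj Cfsg.Agent.Lib.PCore Cfsg.Agent.Lib.PCoreResidual
open Cfsg.Agent.Lib.PCoreMod Cfsg.Agent.Lib.FusionControl Cfsg.Agent.Lib.PIrred
open Cfsg.Agent.Lib.TransferAlperin (IsExtremal)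
open scoped Pointwise commutatorElement

local notation "C(" X ")" => centralizer (SetLike.coe (X : Subgroup _))
local notation "N(" X ")" => normalizer (SetLike.coe (X : Subgroup _))

universe u

variable {G : Type*} [Group G] {p : ℕ} [hp : Fact p.Prime] {S L D K Q M : Subgroup G}

/-- the focal subgroup theorem -/
theorem foc_top [Finite G] (hS : IsSylowIn p S ⊤)
    (h : ∀ x ∈ S, ∀ g : G, g * x * g⁻¹ ∈ S → g * x * g⁻¹ * x⁻¹ ∈ D) : S ⊓ ⁅(⊤ : Subgroup G), ⊤⁆ ≤ D := by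
  have := commutator_inf_eq_focalSubgroup hS.toSylowTop
  rw [inf_comm]
  exact this.le.trans (TransferFrobenius.focalSubgroup_le_iff.mpr h)

omit hp in
theorem map_top_comm (L : Subgroup G) : Subgroup.map L.subtype ⁅(⊤ : Subgroup L), ⊤⁆ = ⁅L, L⁆ := by
  rw [map_commutator, ← MonoidHom.range_eq_map, range_subtype]

omit hp in
theorem foc_of_subgroupOf (hS : S ≤ L) (h : S.subgroupOf L ⊓ ⁅(⊤ : Subgroup L), ⊤⁆ ≤ D.subgroupOf L) :
    S ⊓ ⁅L, L⁆ ≤ D := fun x hx => by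
  obtain ⟨y, hy, rfl⟩ := (map_top_comm L).ge hx.2
  exact h ⟨hx.1, hy⟩

omit hp in
theorem foc_subgroupOf (h : S ⊓ ⁅K, K⁆ ≤ D) (L : Subgroup G) :
    S.subgroupOf L ⊓ ⁅K.subgroupOf L, K.subgroupOf L⁆ ≤ D.subgroupOf L := fun x hx => by
  have := mem_map_of_mem L.subtype hx.2
  rw [map_commutator] at this
  exact h ⟨hx.1, commutator_mono (map_comap_le _ _) (map_comap_le _ _) this⟩

theorem foc [Finite G] (hS : IsSylowIn p S L)
    (h : ∀ x ∈ S, ∀ g ∈ L, g * x * g⁻¹ ∈ S → g * x * g⁻¹ * x⁻¹ ∈ D) : S ⊓ ⁅L, L⁆ ≤ D :=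
  foc_of_subgroupOf hS.le (foc_top (by simpa using hS.subgroupOf le_rfl) fun x hx g hg => h x hx g g.2 hg)

theorem foc_map [Finite G] {G' : Type*} [Group G'] {f : G →* G'} (hk : (Nat.card f.ker).Coprime p)
    (hS : IsSylowIn p S K) (h : S ⊓ ⁅K, K⁆ ≤ D) : S.map f ⊓ ⁅K.map f, K.map f⁆ ≤ (D ⊓ S).map f := by
  have h1 : IsSylowIn p (S ⊓ ⁅K, K⁆) ⁅K, K⁆ := hS.inf_normal (commutator_le_left_of_le_normalizer le_normalizer)
    (le_normalizer_commutator le_normalizer le_normalizer)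
  have h2 := h1.map f
  rw [map_commutator] at h2
  rw [h2.eq_of_le inf_le_right ((hS.isPGroup.map f).to_le inf_le_left)
    (le_inf (map_mono inf_le_left) h2.le)]
  exact map_mono (le_inf h inf_le_left)

theorem foc_of_map [Finite G] {G' : Type*} [Group G'] {f : G →* G'} (hk : (Nat.card f.ker).Coprime p)
    (hS : IsPGroup p S) (h : S.map f ⊓ ⁅K.map f, K.map f⁆ ≤ (D ⊓ S).map f) : S ⊓ ⁅K, K⁆ ≤ D := fun x hx => by
  obtain ⟨y, hy, e⟩ := h ⟨mem_map_of_mem f hx.1, map_commutator K K f ▸ mem_map_of_mem f hx.2⟩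
  have : y⁻¹ * x ∈ S ⊓ f.ker := mem_inf.mpr ⟨mul_mem (inv_mem hy.2) hx.1, by simp [MonoidHom.mem_ker, e]⟩
  rw [inf_ker_eq_bot hk hS, mem_bot, inv_mul_eq_one] at this
  exact this ▸ hy.1

theorem map_centralizer_of_coprime [Finite G] {G' : Type*} [Group G'] {f : G →* G'}
    (hf : Function.Surjective f) (hk : (Nat.card f.ker).Coprime p) (hA : IsPGroup p K) :
    C(K.map f) ≤ (C(K)).map f := fun y hy => by
  obtain ⟨x, hx, rfl⟩ := (map_normalizer_of_coprime hf hk hA).ge (centralizer_le_normalizer _ hy)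
  refine mem_map_of_mem f fun a ha => ?_
  have : x * a * x⁻¹ * a⁻¹ ∈ K ⊓ f.ker := mem_inf.mpr
    ⟨mul_mem ((mem_normalizer_iff.mp hx a).mp ha) (inv_mem ha), by
      rw [MonoidHom.mem_ker, map_mul, map_mul, map_mul, ← hy _ (mem_map_of_mem f ha)]; simp⟩
  rw [inf_ker_eq_bot hk hA, mem_bot, mul_inv_eq_one, mul_inv_eq_iff_eq_mul] at this
  exact this.symm

/-- a normal `p`-subgroup meets `G'` inside `[Q, G] S'` -/
theorem inf_comm_le [Finite G] (hS : IsSylowIn p S ⊤) [hQ : Q.Normal] (hQS : Q ≤ S) (h₁ : ⁅S, S⁆ ≤ D)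
    (h₂ : ∀ g : G, ∀ q ∈ Q, ⁅g, q⁆ ∈ D) : Q ⊓ ⁅(⊤ : Subgroup G), ⊤⁆ ≤ D := fun u hu => by
  by_contra hn
  obtain ⟨K, -, hK, -, h⟩ := TransferFrobenius.transfer_lemma hS.toSylowTop h₁ (hQS hu.1) hn fun g k _ => by
    simpa only [commutatorElement_def, inv_inv] using h₂ g⁻¹ _ (pow_mem hu.1 k)
  exact h (hK hu.2)

/-- the well-placed subgroup argument for transfer -/
theorem foc_of_local [Finite G] (hS : IsSylowIn p S ⊤)
    (htop : ∀ R, R ≠ ⊥ → R ≤ S → S ≤ N(R) → S ⊓ ⁅N(R), N(R)⁆ ≤ D)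
    (hloc : ∀ R, R ≠ ⊥ → R ≤ S → IsSylowIn p (S ⊓ N(R)) N(R) →
      (∀ X, X ≠ ⊥ → X ≤ S ⊓ N(R) → N(S ⊓ N(R)) ≤ N(X) → S ⊓ N(R) ⊓ ⁅N(X), N(X)⁆ ≤ D) →
      S ⊓ N(R) ⊓ ⁅N(R), N(R)⁆ ≤ D) : S ⊓ ⁅(⊤ : Subgroup G), ⊤⁆ ≤ D := by
  have glob : ∀ k, (∀ R, R ≠ ⊥ → IsExtremal p S R → Nat.card G ≤ Nat.card ↥(S ⊓ N(R)) + k →
      S ⊓ N(R) ⊓ ⁅N(R), N(R)⁆ ≤ D) → ∀ (A : Subgroup G) (g : G), A ≤ S → A ^ᶜ g ≤ S →
      Nat.card G ≤ Nat.card A + k → ∀ a ∈ A, g * a * g⁻¹ * a⁻¹ ∈ D := fun k hk A g hA hg => by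
    refine TransferAlperin.alperin_core hS.toSylowTop
      (fun A g => Nat.card G ≤ Nat.card A + k → ∀ a ∈ A, g * a * g⁻¹ * a⁻¹ ∈ D) ?_ ?_ ?_ A g hA hg
    · intro A B g hAB _ _ h hc a ha
      exact h (hc.trans (Nat.add_le_add_right (card_le_of_le hAB) _)) a (hAB ha)
    · intro A g h _ _ _ h1 h2 hc a ha
      have := mul_mem (h2 (by rwa [card_conj]) _ (conj_mem_conj h ha)) (h1 hc a ha)
      convert this using 1
      group
    · intro H hH _ n hn hc a ha
      by_cases h0 : H = ⊥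
      · rw [h0, mem_bot] at ha
        simp [ha]
      have h1 : H ≤ S ⊓ N(H) := le_inf hH.1 le_normalizer
      exact hk H h0 hH (hc.trans (Nat.add_le_add_right (card_le_of_le h1) _))
        ⟨h1 (mul_mem ((mem_normalizer_iff.mp hn a).mp ha) (inv_mem ha)),
          commutator_mem_commutator hn (le_normalizer ha)⟩
  have loc : ∀ k, ∀ R, R ≠ ⊥ → IsExtremal p S R → Nat.card G ≤ Nat.card ↥(S ⊓ N(R)) + k →
      S ⊓ N(R) ⊓ ⁅N(R), N(R)⁆ ≤ D := fun k => by
    induction k with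
    | zero =>
      intro R h0 hR hc
      have : S ⊓ N(R) = ⊤ := eq_of_le_of_card_le le_top (by simpa using hc)
      exact (inf_le_inf_right _ inf_le_left).trans
        (htop R h0 hR.1 (le_top.trans (this.ge.trans inf_le_right)))
    | succ k ih =>
      intro R h0 hR hc
      rcases (show S ⊓ N(R) ≤ S from inf_le_left).eq_or_lt with hT | hT
      · exact (inf_le_inf_right _ inf_le_left).trans (htop R h0 hR.1 (hT.ge.trans inf_le_right))
      refine hloc R h0 hR.1 ((isExtremal_iff hS.isPGroup).mp hR).2 fun X hX0 hX hn t ht => ?_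
      set T := S ⊓ N(R)
      have hTT' : T < S ⊓ N(X) := (lt_inf_normalizer hS.isPGroup hT).trans_le (inf_le_inf_left _ hn)
      obtain ⟨x, hx1, hx2⟩ := TransferAlperin.exists_conj_extremal hS.toSylowTop (A := X) (Q := S ⊓ N(X))
        (hS.isPGroup.to_le (hX.trans hT.le)) (hS.isPGroup.to_le inf_le_left) inf_le_right
      have hlt := card_lt_of_lt hTT'
      have h2 : (S ⊓ N(X)) ^ᶜ x ≤ S ⊓ N(X ^ᶜ x) :=
        le_inf hx2 (by rw [← conj_normalizer]; exact conj_mono x inf_le_right)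
      have h3 := card_le_of_le h2
      rw [card_conj] at h3
      have h4 := ih (X ^ᶜ x) (fun e => hX0 (conj_eq_bot_iff.mp e)) hx1 (by omega)
        (show x * t * x⁻¹ ∈ _ from mem_inf.mpr ⟨h2 (conj_mem_conj x (hTT'.le ht.1)), by
          rw [← conj_normalizer, ← conj_commutator]; exact conj_mem_conj x ht.2⟩)
      have h5 := glob k ih _ x inf_le_left hx2 (by omega) t (hTT'.le ht.1)
      convert mul_mem (inv_mem h5) h4 using 1
      group
  refine foc_top hS fun x hx g hg => glob _ (loc (Nat.card G)) (zpowers x) g (zpowers_le.mpr hx)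
    (by rw [conj_zpowers]; exact zpowers_le.mpr hg) (Nat.le_add_left _ _) x (mem_zpowers x)

omit hp in
/-- the elements `g` with `[g, Q] ≤ D` -/
def stabD (Q D : Subgroup G) [hQ : Q.Normal] : Subgroup G where
  carrier := {g | ∀ q ∈ Q, ⁅g, q⁆ ∈ D}
  one_mem' := fun q _ => by simp
  mul_mem' := fun {a b} ha hb q hq => by
    have := mul_mem (ha _ (hQ.conj_mem q hq b)) (hb q hq)
    convert this using 1
    simp only [commutatorElement_def]; group
  inv_mem' := fun {a} ha q hq => by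
    have := inv_mem (ha _ (hQ.conj_mem q hq a⁻¹))
    convert this using 1
    simp only [commutatorElement_def]; group

/-- the configuration of a minimal counterexample to control of transfer -/
structure Cfg (p : ℕ) (S M D : Subgroup G) : Prop where
  syl : IsSylowIn p S ⊤
  char : C(pCore p G) ≤ pCore p G
  min : MinOver S M ⊤
  foc : S ⊓ ⁅M, M⁆ ≤ D
  mem : ∀ g, g ∈ M ↔ ∀ q ∈ pCore p G, ⁅g, q⁆ ∈ D

theorem foc_of_cfg (W : CharFunctor.{u} p) (b : Prop)
    (hW : ∀ (G : Type u) [Group G] [Finite G] (S M D : Subgroup G), Cfg p S M D → N(W.toFun S) ≤ M →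
      (b → C(S ⊓ C(S)) ≤ M) → False)
    (G : Type u) [Group G] [Finite G] : ∀ S D : Subgroup G, IsSylowIn p S ⊤ →
      S ⊓ ⁅N(W.toFun S), N(W.toFun S)⁆ ≤ D → (b → S ⊓ ⁅C(S ⊓ C(S)), C(S ⊓ C(S))⁆ ≤ D) →
      S ⊓ ⁅(⊤ : Subgroup G), ⊤⁆ ≤ D := by
  refine SolvBasic.card_induction (P := fun G _ _ => ∀ S D : Subgroup G, IsSylowIn p S ⊤ →
      S ⊓ ⁅N(W.toFun S), N(W.toFun S)⁆ ≤ D → (b → S ⊓ ⁅C(S ⊓ C(S)), C(S ⊓ C(S))⁆ ≤ D) →
      S ⊓ ⁅(⊤ : Subgroup G), ⊤⁆ ≤ D) ?_ G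
  intro G _ _ ih S D hS h₁ h₂
  have sub : ∀ L T E : Subgroup G, L ≠ ⊤ → IsSylowIn p T L → T ⊓ ⁅N(W.toFun T), N(W.toFun T)⁆ ≤ E →
      (b → T ⊓ ⁅C(T ⊓ C(T)), C(T ⊓ C(T))⁆ ≤ E) → T ⊓ ⁅L, L⁆ ≤ E := fun L T E hL hT a₁ a₂ => by
    refine foc_of_subgroupOf hT.le (ih L (SolvBasic.card_lt_of_ne_top hL) _ _
      (by simpa using hT.subgroupOf le_rfl) ?_ fun hb => ?_)
    · rw [W.subgroupOf hT.le, ← subgroupOf_normalizer_eq ((W.le T).trans hT.le)]
      exact foc_subgroupOf a₁ L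
    · rw [centralizer_subgroupOf hT.le, show T.subgroupOf L ⊓ (C(T)).subgroupOf L = (T ⊓ C(T)).subgroupOf L from rfl,
        centralizer_subgroupOf (inf_le_left.trans hT.le)]
      exact foc_subgroupOf (a₂ hb) L
  have sub' : ∀ L : Subgroup G, L ≠ ⊤ → S ≤ L → S ⊓ ⁅L, L⁆ ≤ D :=
    fun L hL hSL => sub L S D hL (hS.of_le hSL le_top) h₁ h₂
  have hSW : S ≤ N(W.toFun S) := le_normalizer.trans (W.normalizer_le S)
  have hSZ : S ≤ C(S ⊓ C(S)) := le_centralizer_iff.mp inf_le_right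
  have hSD : ⁅S, S⁆ ≤ D := (le_inf (commutator_le_left_of_le_normalizer le_normalizer)
    (commutator_mono hSW hSW)).trans h₁
  by_cases hS0 : S = ⊥
  · exact inf_le_left.trans (hS0.le.trans bot_le)
  by_cases hO : pPrimeCore p G = ⊥; swap
  · set f := QuotientGroup.mk' (pPrimeCore p G)
    have hf : Function.Surjective f := QuotientGroup.mk'_surjective _
    have hk : (Nat.card f.ker).Coprime p := by
      rw [QuotientGroup.ker_mk']; exact coprime_card_pPrimeCore p G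
    refine foc_of_map hk hS.isPGroup ?_
    rw [map_top_of_surjective f hf]
    refine ih _ (SolvBasic.card_quotient_lt hO) _ _ (hS.map_mk' _) ?_ fun hb => ?_
    · rw [← W.map (inf_ker_eq_bot hk hS.isPGroup),
        ← map_normalizer_of_coprime hf hk (hS.isPGroup.to_le (W.le S))]
      exact foc_map hk (hS.of_le hSW le_top) h₁
    · have e : C(S.map f ⊓ C(S.map f)) ≤ (C(S ⊓ C(S))).map f :=
        (centralizer_anti (le_inf (map_mono inf_le_left) ((map_mono inf_le_right).trans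
          (map_centralizer_le_centralizer_image _ f)))).trans
          (map_centralizer_of_coprime hf hk (hS.isPGroup.to_le inf_le_left))
      exact (inf_le_inf_left _ (commutator_mono e e)).trans (foc_map hk (hS.of_le hSZ le_top) (h₂ hb))
  by_cases hQ : pCore p G = ⊥
  · have ne : ∀ R : Subgroup G, R ≠ ⊥ → R ≤ S → N(R) ≠ ⊤ := fun R h0 hR e =>
      h0 (le_bot_iff.mp (hQ ▸ le_pCore (normalizer_eq_top_iff.mp e) (hS.isPGroup.to_le hR)))
    refine foc_of_local hS (fun R h0 hR hn => sub' _ (ne R h0 hR) hn) fun R h0 hR hT h => ?_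
    have hT0 : S ⊓ N(R) ≠ ⊥ := fun e => h0 (le_bot_iff.mp (e ▸ le_inf hR le_normalizer))
    refine sub _ _ _ (ne R h0 hR) hT (h _ (W.ne_bot hT.isPGroup hT0) (W.le _) (W.normalizer_le _)) fun _ => ?_
    refine le_trans (inf_le_inf_left _ (commutator_mono (centralizer_le_normalizer _)
      (centralizer_le_normalizer _))) (h _ (center_ne_bot hT.isPGroup hT0) inf_le_left
      (le_normalizer_inf le_rfl (normalizer_le_normalizer_centralizer _)))
  set Q := pCore p G with hQdef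
  have hQS : Q ≤ S := hS.pCore_le
  by_cases hn : S ≤ Q
  · haveI : S.Normal := le_antisymm hn hQS ▸ inferInstance
    refine le_trans (inf_le_inf_left _ (commutator_mono ?_ ?_)) h₁ <;>
      exact (normal_iff_top_le.mp inferInstance).trans (W.normalizer_le S)
  have hSM : S ≤ stabD Q D := fun s hs q hq => hSD (commutator_mem_commutator hs (hQS hq))
  have hmax : ∀ K, S ≤ K → K < ⊤ → K ≤ stabD Q D := fun K h₃ h₄ g hg q hq => sub' K h₄.ne h₃
    ⟨hQS (mul_mem (Normal.conj_mem inferInstance q hq g) (inv_mem hq)),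
      commutator_mem_commutator hg (h₃ (hQS hq))⟩
  by_cases hM : stabD Q D = ⊤
  · set f := QuotientGroup.mk' Q
    have hf : Function.Surjective f := QuotientGroup.mk'_surjective _
    have hk : f.ker = Q := QuotientGroup.ker_mk' Q
    have hS' := hS.map_mk' Q
    have hS0' : S.map f ≠ ⊥ := fun e => hn (hk ▸ (map_eq_bot_iff S).mp e)
    have key : ∀ X : Subgroup (G ⧸ Q), X ≠ ⊥ → X ≤ S.map f → S.map f ≤ N(X) →
        S.map f ⊓ ⁅N(X), N(X)⁆ ≤ (D ⊓ (S ⊓ ⁅(⊤ : Subgroup G), ⊤⁆)).map f := fun X h0 hX hSX => by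
      have hSK : S ≤ (N(X)).comap f := map_le_iff_le_comap.mp hSX
      have h3 := sub' _ (fun e => h0 (le_bot_iff.mp (pCore_quotient_pCore p G ▸ le_pCore
        (normalizer_eq_top_iff.mp (by rw [← map_comap_eq_self_of_surjective hf N(X), e,
          map_top_of_surjective f hf])) (hS'.isPGroup.to_le hX)))) hSK
      rintro _ ⟨⟨s, hs, rfl⟩, h4⟩
      rw [← map_comap_eq_self_of_surjective hf N(X), ← map_commutator] at h4
      obtain ⟨c, hc, e⟩ := h4
      have h5 : c ∈ S := by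
        have : c * s⁻¹ ∈ Q := hk ▸ (by simp [MonoidHom.mem_ker, e] : c * s⁻¹ ∈ f.ker)
        simpa using mul_mem (hQS this) hs
      exact ⟨c, ⟨h3 ⟨h5, hc⟩, h5, commutator_mono le_top le_top hc⟩, e⟩
    have h6 := ih _ (SolvBasic.card_quotient_lt hQ) _ _ hS'
      (key _ (W.ne_bot hS'.isPGroup hS0') (W.le _) (le_normalizer.trans (W.normalizer_le _))) fun _ =>
      le_trans (inf_le_inf_left _ (commutator_mono (centralizer_le_normalizer _)
        (centralizer_le_normalizer _))) (key _ (center_ne_bot hS'.isPGroup hS0') inf_le_left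
        (le_normalizer_inf le_normalizer (le_normalizer_centralizer le_normalizer)))
    intro x hx
    obtain ⟨d, hd, e⟩ := h6 ⟨mem_map_of_mem f hx.1, by
      rw [← map_top_of_surjective f hf, ← map_commutator]; exact mem_map_of_mem f hx.2⟩
    have h7 : d⁻¹ * x ∈ Q := hk ▸ (by simp [MonoidHom.mem_ker, e] : d⁻¹ * x ∈ f.ker)
    have := inf_comm_le hS hQS hSD (fun g => (hM.ge (mem_top g) :)) (mem_inf.mpr ⟨h7, mul_mem (inv_mem (mem_inf.mp (mem_inf.mp hd).2).2) (mem_inf.mp hx).2⟩)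
    simpa using mul_mem hd.1 this
  have hlt : stabD Q D < ⊤ := lt_top_iff_ne_top.mpr hM
  have hmin : MinOver S (stabD Q D) ⊤ := PMinimal.minOver_of_max hS
    (fun e => hn (le_pCore (normal_iff_top_le.mpr e) hS.isPGroup)) hlt hSM hmax
  have hC : C(Q) ≤ stabD Q D := fun g hg q hq => by
    rw [commutatorElement_eq_one_iff_mul_comm.mpr (hg q hq).symm]; exact one_mem _
  have hch : C(Q) ≤ Q := centralizer_le_of_sylow_le hS (by
    have := PMinimal.MinOver.inf_le_pCoreOf hmin hS.isPGroup (SubnormalIn.of_normal le_top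
      (normal_iff_top_le.mp inferInstance)) hC
    rwa [pCoreOf_top, inf_comm] at this) hO
  by_contra hne
  refine hW G S _ D ⟨hS, hch, hmin, sub' _ hM hSM, fun _ => Iff.rfl⟩
    (hmax _ hSW (lt_top_iff_ne_top.mpr fun e => hne (e ▸ h₁)))
    fun hb => hmax _ hSZ (lt_top_iff_ne_top.mpr fun e => hne (e ▸ h₂ hb))

end Cfsg.Agent.Lib.TrCtrl
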