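import Cfsg.Agent.Lib.TrDeg
import Cfsg.Agent.Lib.ThompsonJ

/-!
A characteristic subgroup in the style of Puig, built from subgroups of class at most two, which controls transfer
for `p ≥ 7`.
-/

set_option autoImplicit false

namespace Cfsg.Agent.Lib.TrPuig

open Subgroup Cfsg Cfsg.Agent.Lib.PCoreConj Cfsg.Agent.Lib.PCore Cfsg.Agent.Lib.PCoreResidual
open Cfsg.Agent.Lib.TrCtrl Cfsg.Agent.Lib.TrDeg Cfsg.Agent.Lib.PIrred Cfsg.Agent.Lib.FusionControl
open Cfsg.Agent.Lib.ThompsonJ (inf_ker_of_le map_inf_comap)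
open scoped Pointwise commutatorElement

local notation "C(" X ")" => centralizer (SetLike.coe (X : Subgroup _))
local notation "N(" X ")" => normalizer (SetLike.coe (X : Subgroup _))

universe u

section
variable {G G' : Type*} [Group G] [Group G'] {S T X Y A : Subgroup G} {f : G →* G'}

/-- the subgroup generated by the subgroups of `S` of class at most two normalized by `X` -/
def F (S : Subgroup G) (X : Subgroup G) : Subgroup G := sSup {A | A ≤ S ∧ ⁅⁅A, A⁆, A⁆ = ⊥ ∧ X ≤ N(A)}

theorem le_F (h₁ : A ≤ S) (h₂ : ⁅⁅A, A⁆, A⁆ = ⊥) (h₃ : X ≤ N(A)) : A ≤ F S X := le_sSup ⟨h₁, h₂, h₃⟩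

theorem F_le_iff : F S X ≤ Y ↔ ∀ A, A ≤ S → ⁅⁅A, A⁆, A⁆ = ⊥ → X ≤ N(A) → A ≤ Y :=
  ⟨fun h _ a b c => (le_F a b c).trans h, fun h => sSup_le fun A a => h A a.1 a.2.1 a.2.2⟩

theorem F_le (S X : Subgroup G) : F S X ≤ S := F_le_iff.mpr fun _ a _ _ => a

theorem F_mono (h₁ : T ≤ S) (h₂ : Y ≤ X) : F T X ≤ F S Y :=
  F_le_iff.mpr fun _ a b c => le_F (a.trans h₁) b (h₂.trans c)

theorem F_eq (h₁ : T ≤ S) (h₂ : F S X ≤ T) : F T X = F S X :=
  le_antisymm (F_mono h₁ le_rfl) (F_le_iff.mpr fun _ a b c => le_F ((le_F a b c).trans h₂) b c)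

theorem map_F (h : S ⊓ f.ker = ⊥) (hX : X ≤ S) : (F S X).map f = F (S.map f) (X.map f) := by
  refine le_antisymm (map_le_iff_le_comap.mpr (F_le_iff.mpr fun A a b c => map_le_iff_le_comap.mp
    (le_F (map_mono a) (by rw [← map_commutator, ← map_commutator, b, Subgroup.map_bot])
      (le_normalizer_map f c)))) (F_le_iff.mpr fun A a b c => ?_)
  have e := map_inf_comap f a
  rw [← e] at b ⊢
  refine map_mono (le_F inf_le_left (le_bot_iff.mp (h ▸ le_inf ?_ ?_)) (le_normalizer_inf (hX.trans le_normalizer)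
    ((le_comap_map f X).trans (le_normalizer_comap f c))))
  · exact (commutator_le_right_of_le_normalizer (le_normalizer_of_le (commutator_le_left_of_le_normalizer
      le_normalizer))).trans inf_le_left
  · rwa [← Subgroup.map_eq_bot_iff, map_commutator, map_commutator]

/-- the least fixed point of the square of `F S` -/
def L (S : Subgroup G) : Subgroup G :=
  OrderHom.lfp (⟨fun X => F S (F S X), fun _ _ h => F_mono le_rfl (F_mono le_rfl h)⟩ : Subgroup G →o Subgroup G)

theorem F_F_L (S : Subgroup G) : F S (F S (L S)) = L S :=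
  OrderHom.map_lfp (⟨fun X => F S (F S X), fun _ _ h => F_mono le_rfl (F_mono le_rfl h)⟩ : Subgroup G →o Subgroup G)

theorem L_le_of (h : F S (F S X) ≤ X) : L S ≤ X := OrderHom.lfp_le _ h

theorem L_le (S : Subgroup G) : L S ≤ S := F_F_L S ▸ F_le _ _

theorem map_L (h : S ⊓ f.ker = ⊥) : (L S).map f = L (S.map f) := by
  refine le_antisymm ?_ (L_le_of (by rw [← map_F h (L_le S), ← map_F h (F_le _ _), F_F_L]))
  rw [← map_inf_comap f (L_le (S.map f))]
  refine map_mono (L_le_of (le_inf (F_le _ _) (map_le_iff_le_comap.mp ?_)))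
  rw [map_F h (F_le _ _), map_F h inf_le_left, map_inf_comap f (L_le (S.map f)), F_F_L]

theorem L_eq (h₁ : T ≤ S) (h₂ : L S ≤ T) (h₃ : F S (L S) ≤ T) : L T = L S := by
  have k : L T ≤ L S := L_le_of (by rw [F_eq h₁ h₃, F_eq h₁ ((F_F_L S).le.trans h₂), F_F_L])
  refine le_antisymm k (L_le_of ?_)
  rw [← F_eq h₁ ((F_mono le_rfl (F_mono le_rfl k)).trans ((F_F_L S).le.trans h₂))]
  exact (F_mono le_rfl (F_mono h₁ le_rfl)).trans (F_F_L T).le

end

variable {p : ℕ} [hp : Fact p.Prime]

/-- the functor -/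
def W (p : ℕ) [Fact p.Prime] : CharFunctor.{u} p where
  toFun := L
  le := L_le
  ne_bot := fun {G _ _ D} h₁ h₂ e => center_ne_bot h₁ h₂ (le_bot_iff.mp (e ▸ F_F_L D ▸ le_F inf_le_left
    (by rw [commutator_eq_bot_iff_le_centralizer.mpr (inf_le_right.trans (centralizer_anti inf_le_left)),
      commutator_bot_left])
    ((F_le _ _).trans (le_normalizer_inf le_normalizer (le_normalizer_centralizer le_normalizer)))))
  map := map_L

variable {G : Type u} [Group G] [Finite G] {S M D : Subgroup G}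

theorem not_cfg (hp7 : 6 ≤ p) (c : Cfg p S M D) (h : N(L S) ≤ M) : False := by
  obtain ⟨Z, E, _, _, h₁, h₂, h₃, h₄⟩ := exists_crit (pCore_isPGroup p G)
  have hQS := c.syl.pCore_le
  have hE : ∀ X, E ≤ F S X := fun X => le_F (h₂.trans hQS) (commutator_eq_bot_iff_le_centralizer.mpr
    (((commutator_mono le_rfl h₂).trans h₃).trans (h₄.ge.trans inf_le_right)))
    (le_top.trans (normal_iff_top_le.mp inferInstance))
  have k : ∀ X, E ≤ X → F S X ≤ pCore p G := fun X hX => F_le_iff.mpr fun A a b d g hg =>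
    mem_of_deg c h₂ (h₄.le.trans h₁) (e := 2) hp7 (a hg) (le_bot_iff.mp (b ▸ commutator_mono (commutator_mono
      ((commutator_mono le_rfl (zpowers_le.mpr hg)).trans (commutator_le_right_of_le_normalizer (hX.trans d)))
      (zpowers_le.mpr hg)) (zpowers_le.mpr hg)))
  have e := L_eq hQS (F_F_L S ▸ k _ (hE _)) (k _ (F_F_L S ▸ hE _))
  rw [← e] at h
  exact c.min.lt.not_ge (((normal_iff_top_le.mp inferInstance).trans ((W p).normalizer_le (pCore p G))).trans h)

theorem main (hp7 : 6 ≤ p) (hS : IsSylowIn p S ⊤) : S ⊓ ⁅(⊤ : Subgroup G), ⊤⁆ ≤ ⁅N(L S), N(L S)⁆ :=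
  foc_of_cfg (W p) False (fun _ _ _ _ _ _ c a _ => not_cfg hp7 c a) G S _ hS inf_le_right False.elim

theorem not_le_comm (hp7 : 6 ≤ p) (G : Type u) [Group G] [Finite G] : ∀ S : Subgroup G, IsSylowIn p S ⊤ → S ≠ ⊥ →
    pResidualOf p N(S) ≤ C(S) → ¬ S ≤ ⁅(⊤ : Subgroup G), ⊤⁆ := by
  refine SolvBasic.card_induction (P := fun G _ _ => ∀ S : Subgroup G, IsSylowIn p S ⊤ → S ≠ ⊥ →
    pResidualOf p N(S) ≤ C(S) → ¬ S ≤ ⁅(⊤ : Subgroup G), ⊤⁆) ?_ G
  intro G _ _ ih S hS h₀ h₁ h₂
  have hL : S ≤ N(L S) := le_normalizer.trans ((W p).normalizer_le S)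
  by_cases hn : N(L S) = ⊤
  · have : (L S).Normal := normal_iff_top_le.mpr hn.ge
    set f := QuotientGroup.mk' (L S)
    have hk : f.ker ≤ S := (QuotientGroup.ker_mk' _).le.trans (L_le S)
    by_cases hb : S.map f = ⊥
    · have e : S = L S := le_antisymm (((Subgroup.map_eq_bot_iff _).mp hb).trans (QuotientGroup.ker_mk' _).le)
        (L_le S)
      rw [← e] at hn
      rw [hn] at h₁
      refine (commutator_lt hS.isPGroup hS.isPGroup le_normalizer h₀).not_ge ((le_inf le_rfl h₂).trans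
        (foc_top hS fun x hx g _ => ?_))
      obtain ⟨c, hc, s, hs, rfl⟩ := (mem_sup_iff_of_le_normalizer' (hS.le.trans (le_normalizer_pResidualOf p ⊤))).mp
        ((pResidualOf_sup_of_isSylowIn hS).ge (mem_top g))
      have := h₁ hc _ (mul_mem (mul_mem hs hx) (inv_mem hs))
      convert commutator_mem_commutator hs hx using 1
      rw [commutatorElement_def, ← mul_inv_eq_iff_eq_mul.mpr this.symm]
      group
    · refine ih _ (SolvBasic.card_quotient_lt (K := L S) ((W p).ne_bot hS.isPGroup h₀)) _ (hS.map_mk' _) hb ?_ ?_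
      · rw [← map_comap_eq_self_of_surjective (QuotientGroup.mk'_surjective _) N(S.map f),
          comap_normalizer_eq_of_surjective _ (QuotientGroup.mk'_surjective _), comap_map_eq_self hk,
          ← map_pResidualOf]
        exact (map_mono h₁).trans (map_centralizer_le_centralizer_image _ _)
      · refine (map_mono h₂).trans ?_
        rw [map_commutator]
        exact commutator_mono le_top le_top
  · refine ih _ (SolvBasic.card_lt_of_ne_top hn) (S.subgroupOf N(L S))
      (by simpa using (hS.of_le hL le_top).subgroupOf le_rfl) (fun e => h₀ ?_) ?_ ?_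
    · rwa [subgroupOf_eq_bot, disjoint_iff, inf_of_le_left hL] at e
    · rw [← subgroupOf_normalizer_eq hL, centralizer_subgroupOf hL]
      refine map_le_iff_le_comap.mp ?_
      rw [map_pResidualOf_subtype]
      exact (pResidualOf_mono (map_comap_le _ _)).trans h₁
    · rw [← map_subtype_le_map_subtype, map_top_comm, subgroupOf_map_subtype_of_le hL]
      exact (le_inf le_rfl h₂).trans (main hp7 hS)

end Cfsg.Agent.Lib.TrPuig
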